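import Cfsg.Statements.S0247
import Cfsg.Agent.H0.Sym
import Cfsg.Agent.S0245


set_option autoImplicit false
open Cfsg

namespace Cfsg.Agent.S0247

set_option maxRecDepth 100000
set_option Elab.async false
section
open H0 BN Matrix

noncomputable def C := ((mc2 (ZMod 2) 4 0x1111 0x8421 (by decide +kernel) (by decide +kernel)).reix (finSumFinEquiv (m := 2) (n := 2)))
theorem hC : Rd (rc2 (ZMod 2)) (finSumFinEquiv (m := 2) (n := 2)) C := (rd_2 _)
def c : List ℕ := [0xa421, 0x84a1, 0xb721, 0x8425, 0x8521]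
noncomputable def ι := ιSp 2 (ZMod 2)
theorem hι : Function.Injective ι := ιSp_inj
theorem ex : ∀ x < 5, Ex ι C (c.getD x C.one) := ex_all (ex_Sp hC 1 0x2184 (by decide +kernel) (by decide +kernel)) (by decide +kernel)
theorem cod : C.Cod ι (tOf ι C c _ ex) c := cod_tOf ex rfl
end

/-- Sp_4(2) is isomorphic to the symmetric group S_6. -/
theorem result {F : Type*} [Field F] [Fintype F] (hF : Fintype.card F = 2) : Nonempty (Matrix.symplecticGroup (Fin 2) F ≃* Equiv.Perm (Fin 6)) := by
  exact (H0.sym_iso hι cod (by decide +kernel) ((S0245.result (ZMod.card 2) 2).trans (by decide))).map (H0.spEquiv (H0.fe (ZMod 2) hF (ZMod.card 2)) 2).symm.trans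

end Cfsg.Agent.S0247
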