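import Cfsg.Statements.S0270
import Cfsg.Agent.H4.Disc

set_option autoImplicit false
open Cfsg

namespace Cfsg.Agent.S0270


/-- PSp_{2m}(q) is simple for m at least 2 and (m, q) other than (2, 2). -/
theorem result {F : Type*} [Field F] [Fintype F] (m : ℕ) (hm : 2 ≤ m) (h : m = 2 → 3 ≤ Fintype.card F) : IsSimpleGroup (Cfsg.PSp m F) := by
  have := H4.alt_isSimple (H4.spForm_ND m F) (by simp; omega) (by
    by_cases h3 : 3 ≤ m
    · left; simp; omega
    · have h3 := h (by omega)
      by_cases h4 : 4 ≤ Fintype.card F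
      · exact Or.inr (Or.inr (H4.exists_mul_self_ne_one (by rwa [Nat.card_eq_fintype_card])))
      · refine Or.inr (Or.inl ⟨by simp; omega, H4.odd_card_iff.1 ?_⟩)
        rw [Nat.card_eq_fintype_card, show Fintype.card F = 3 by omega]; decide)
  exact (H4.centerQuotEquiv (H4.spEquiv m F)).isSimpleGroup

end Cfsg.Agent.S0270
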