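import Cfsg.Statements.S0250
import Cfsg.Agent.H4.Cover

set_option autoImplicit false
open Cfsg

namespace Cfsg.Agent.S0250


/-- SL_2(2) is isomorphic to S_3. -/
theorem result {F : Type*} [Field F] [Fintype F] (hF : Fintype.card F = 2) : Nonempty (Matrix.SpecialLinearGroup (Fin 2) F ≃* Equiv.Perm (Fin 3)) := by
  classical
  rw [← Nat.card_eq_fintype_card] at hF
  haveI := H4.charP_of_dvd_card (F := F) Nat.prime_two (by rw [hF])
  refine H4.equiv_perm_of_injective ((MulAction.toPermHom _ (OnePoint F)).comp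
    Matrix.SpecialLinearGroup.toPGL) (H4.pgl_toPerm_injective.comp ?_)
    (by rw [H4.card_onePoint, hF]) (by rw [H4.card_sl2, hF]; rfl)
  intro g h e
  rcases H4.toPGL_eq_iff.1 e with e | e
  · exact e
  · rw [e]; ext i j; simp [CharTwo.neg_eq]

end Cfsg.Agent.S0250
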