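import Cfsg.Statements.S1009
import Mathlib
import Cfsg.Agent.H7.Cop

set_option autoImplicit false
open Cfsg

namespace Cfsg.Agent.S1009

open Subgroup H7

/-- Brodkey's Theorem: if a finite group has abelian Sylow p-subgroups, then there are two Sylow p-subgroups whose intersection equals the intersection of all Sylow p-subgroups. -/
theorem result {G : Type*} [Group G] [Finite G] (p : ℕ) [Fact p.Prime] (hab : ∀ P : Sylow p G, IsMulCommutative ↥(P : Subgroup G)) : ∃ P Q : Sylow p G, (P : Subgroup G) ⊓ (Q : Subgroup G) = ⨅ R : Sylow p G, (R : Subgroup G) := by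
  obtain ⟨_, ⟨⟨P, Q⟩, rfl⟩, hm⟩ := wellFounded_lt.has_min (Set.range fun x : Sylow p G × Sylow p G =>
    (x.1 : Subgroup G) ⊓ x.2) ⟨_, default, rfl⟩
  refine ⟨P, Q, le_antisymm (le_iInf fun R => ?_) (le_inf (iInf_le _ P) (iInf_le _ Q))⟩
  have h : ∀ S : Sylow p G, (P : Subgroup G) ⊓ Q ≤ S → (S : Subgroup G) ≤ nrm ((P : Subgroup G) ⊓ Q) :=
    fun S hS => le_nrm_of_le_cen ((isComm_iff.1 (hab S)).trans (cen_anti hS))
  obtain ⟨n, hn, hle⟩ := (H2.sylow_isSylowIn P (h P inf_le_left)).exists_cj_le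
    (R.isPGroup'.to_inf_left (K := nrm ((P : Subgroup G) ⊓ Q))) inf_le_right
  have e : cj n (R : Subgroup G) = ((n • R : Sylow p G) : Subgroup G) := rfl
  have h1 : cj n (R : Subgroup G) ⊓ Q ≤ (P : Subgroup G) ⊓ Q := le_inf (le_trans (by
    show _ ≤ cj n _
    rw [cj_inf, cj_of_mem_nrm (le_nrm_self _ hn)]
    exact inf_le_inf_left _ (h Q inf_le_right)) hle) inf_le_right
  have h2 := h1.eq_of_not_lt (hm _ ⟨(n • R, Q), rfl⟩)
  rw [← cj_le_cj (g := n), cj_of_mem_nrm hn, ← h2]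
  exact inf_le_left

end Cfsg.Agent.S1009
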