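import Cfsg.Statements.S0686
import Mathlib
import Cfsg.Agent.H8.FC6

set_option autoImplicit false
open Cfsg

namespace Cfsg.Agent.S0686

/-- In a linear group over the prime field that is regular on non-zero vectors and has no irreducible cyclic normal subgroup, let `A` be a maximal normal abelian subgroup and `N` a normal subgroup centralising `A` that is minimal among non-abelian normal subgroups centralising `A`. Then `N` is quaternion of order 8 or isomorphic to `SL(2,5)`. -/
theorem result {p : ℕ} [Fact p.Prime] {V : Type*} [AddCommGroup V] [Module (ZMod p) V] [Finite V] (H : Subgroup (V ≃ₗ[ZMod p] V)) (hreg : ∀ v w : V, v ≠ 0 → w ≠ 0 → ∃! h : H, (h : V ≃ₗ[ZMod p] V) v = w) (hI : ∀ A : Subgroup H, A.Normal → IsCyclic A → ∃ W : Submodule (ZMod p) V, W ≠ ⊥ ∧ W ≠ ⊤ ∧ ∀ a ∈ A, ∀ v ∈ W, ((a : H) : V ≃ₗ[ZMod p] V) v ∈ W) (A : Subgroup H) (hAn : A.Normal) (hAc : IsMulCommutative A) (hAmax : ∀ B : Subgroup H, B.Normal → IsMulCommutative B → A ≤ B → B = A) (N : Subgroup H) (hNn : N.Normal) (hNle : N ≤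 Subgroup.centralizer (A : Set H)) (hNna : ¬ IsMulCommutative N) (hNmin : ∀ M : Subgroup H, M.Normal → M ≤ N → ¬ IsMulCommutative M → M = N) : Nonempty (N ≃* QuaternionGroup 2) ∨ Nonempty (N ≃* Matrix.SpecialLinearGroup (Fin 2) (ZMod 5)) := by
  classical
  haveI : Finite (V ≃ₗ[ZMod p] V) := Finite.of_injective _ DFunLike.coe_injective
  obtain ⟨W0, h0, -⟩ := hI ⊥ inferInstance inferInstance
  haveI : Nontrivial V := (Submodule.nontrivial_iff (ZMod p)).1 ⟨W0, ⊥, h0⟩
  let φ : H →* MulAut (Multiplicative V) :=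
    { toFun := fun h => AddEquiv.toMultiplicative (DistribMulAction.toAddEquiv V h)
      map_one' := by ext v; simp
      map_mul' := fun a b => by ext v; simp [mul_smul] }
  have h : H8.FC H := H8.fc_of_mulAut φ fun g k e => or_iff_not_imp_right.2 fun k1 =>
    (hreg k.toAdd k.toAdd k1 k1).unique (congrArg Multiplicative.toAdd e) rfl
  by_cases hp : commutator N = ⊤
  · haveI : Nontrivial N := not_subsingleton_iff_nontrivial.1 fun _ =>
      hNna ⟨⟨fun _ _ => Subsingleton.elim ..⟩⟩
    exact .inr ((h.sub N).sl25_of_perfect hp)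
  have le := Subgroup.commutator_le_left N N
  have cD : IsMulCommutative (⁅N, N⁆ : Subgroup H) := by_contra fun c => hp
    (Subgroup.map_injective N.subtype_injective (by
      rw [Subgroup.map_subtype_commutator, hNmin _ inferInstance le c, ← MonoidHom.range_eq_map,
        Subgroup.range_subtype]))
  have DA : ⁅N, N⁆ ≤ A := sup_eq_left.1 (hAmax _ inferInstance
    (Subgroup.le_centralizer_iff_isMulCommutative.1 (sup_le
      (Subgroup.le_centralizer_iff.1 (sup_le A.le_centralizer (le.trans hNle)))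
      (Subgroup.le_centralizer_iff.1 (sup_le (Subgroup.le_centralizer_iff.1 (le.trans hNle))
        (Subgroup.le_centralizer _))))) le_sup_left)
  have cz : commutator N ≤ Subgroup.center N := fun x hx => Subgroup.mem_center_iff.2 fun g =>
    Subtype.ext (hNle g.2 x (DA (N.map_subtype_commutator.le ⟨x, hx, rfl⟩))).symm
  haveI : Group.IsNilpotent N := Subgroup.isNilpotent_of_ker_le_center Abelianization.of
    ((Abelianization.ker_of N).le.trans cz)
  by_cases h2 : ∀ P : Sylow 2 N, IsCyclic P
  · haveI := (h.sub N).isZ h2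
    exact (hNna IsCyclic.isMulCommutative).elim
  obtain ⟨P, hP⟩ := not_forall.1 h2
  haveI := Sylow.characteristic_of_normal P inferInstance
  have e : (P : Subgroup N) = ⊤ := Subgroup.map_injective N.subtype_injective (by
    rw [← MonoidHom.range_eq_map, Subgroup.range_subtype]
    refine hNmin _ inferInstance (Subgroup.map_subtype_le _) fun c => hP ?_
    haveI := h.ab _ c
    exact isCyclic_of_surjective _
      ((P : Subgroup N).equivMapOfInjective _ N.subtype_injective).symm.surjective)
  obtain ⟨a, n, q⟩ := (((h.sub N).ui'.mono le_top).cyclic_or_quat P.isPGroup').resolve_left hP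
  obtain ⟨b, hb, ba⟩ := q.ex
  have i := q.inv b hb ba
  have z := Subgroup.mem_center_iff.1 (cz (Subgroup.commutator_mem_commutator
    (Subgroup.mem_top b) (Subgroup.mem_top a))) b
  rw [commutatorElement_def, i] at z
  have : orderOf a ∣ 2 ^ 2 := orderOf_dvd_of_pow_eq_one (by
    have : b * (a⁻¹ * a⁻¹) * b⁻¹ = (b * a * b⁻¹)⁻¹ * (b * a * b⁻¹)⁻¹ := by group
    rw [z, i, mul_inv_cancel_right, inv_inv, inv_mul_eq_iff_eq_mul, inv_eq_iff_mul_eq_one] at this
    rw [← this]; simp [pow_succ, mul_assoc])
  rw [q.ord, Nat.pow_dvd_pow_iff_le_right one_lt_two] at this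
  obtain rfl : n = 0 := by omega
  obtain ⟨f⟩ := H8.equiv_of_Quat q
  exact .inl ⟨(Subgroup.topEquiv.symm.trans (MulEquiv.subgroupCongr e.symm)).trans f⟩

end Cfsg.Agent.S0686
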