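import Cfsg.Statements.S0688
import Mathlib
import Cfsg.Agent.H8.NFx
import Cfsg.Agent.S0685
import Cfsg.Agent.S3742

set_option autoImplicit false
open Cfsg

namespace Cfsg.Agent.S0688

/-- Degrees of the soluble exceptional sharply doubly transitive groups: if a solvable linear group over the prime field is regular on the non-zero vectors of `V` and has no irreducible cyclic normal subgroup, then `V` has 25, 49, 121 or 529 elements. -/
theorem result {p : ℕ} [Fact p.Prime] {V : Type*} [AddCommGroup V] [Module (ZMod p) V] [Finite V] (H : Subgroup (V ≃ₗ[ZMod p] V)) (hreg : ∀ v w : V, v ≠ 0 → w ≠ 0 → ∃! h : H, (h : V ≃ₗ[ZMod p] V) v = w) (hI : ∀ A : Subgroup H, A.Normal → IsCyclic A → ∃ W : Submodule (ZMod p) V, W ≠ ⊥ ∧ W ≠ ⊤ ∧ ∀ a ∈ A, ∀ v ∈ W, ((a : H) : V ≃ₗ[ZMod p] V) v ∈ W) (hsolv : Group.IsSolvable H) : Nat.card V = 25 ∨ Nat.card V = 49 ∨ Nat.card V = 121 ∨ Nat.card V = 529 := by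
  haveI : Finite (V ≃ₗ[ZMod p] V) := Finite.of_injective _ DFunLike.coe_injective
  obtain ⟨A, ⟨hAn, hAc⟩, mA⟩ := wellFounded_gt.has_min
    {A : Subgroup H | A.Normal ∧ IsMulCommutative A} ⟨⊥, inferInstance, inferInstance⟩
  have hAmax : ∀ B : Subgroup H, B.Normal → IsMulCommutative B → A ≤ B → B = A :=
    fun B h1 h2 h3 => (h3.eq_of_not_lt (mA B ⟨h1, h2⟩)).symm
  obtain ⟨N, hNle, hNn, hNna, hNmin⟩ := H8.nf_min inferInstance
    (Cfsg.Agent.S0685.result H hreg hI A hAn hAc hAmax).2
  obtain ⟨cH, AC, q, e, f, hq, e0, f2, cV, d1, d2⟩ :=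
    H8.nf_main H hreg hI A hAn hAc hAmax N hNn hNle hNna hNmin
  have hN := Cfsg.Agent.S0686.result H hreg hI A hAn hAc hAmax N hNn hNle hNna hNmin
  obtain ⟨x, hx, y, hy, ox, -, n⟩ := H8.nf_four hN
  obtain ⟨φ⟩ := hN.resolve_right fun ⟨φ⟩ => by
    haveI := Group.isSolvable_of_surjective (f := φ.toMonoidHom) φ.surjective
    haveI := nontrivial_of_ne H8.slB 1 H8.sl_rel.2.2.2.2.2.1
    exact (Group.IsSolvable.commutator_lt_top_of_nontrivial _).ne H8.perfect_sl25
  have c8 : Nat.card N = 8 := by rw [Nat.card_congr φ.toEquiv]; simp [QuaternionGroup.card]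
  have d3 : (Subgroup.centralizer (N : Set H)).index ∣ 24 := by
    have : (MulAut.conjNormal : H →* MulAut N).ker = Subgroup.centralizer (N : Set H) :=
      Subgroup.ext fun x => by
        simp [Subgroup.mem_centralizer_iff, MulEquiv.ext_iff, Subtype.ext_iff, eq_comm,
          eq_mul_inv_iff_mul_eq]
    obtain ⟨ψ⟩ := Cfsg.Agent.S3742.result
    rw [← this, Subgroup.index_ker, show 24 = Nat.card (MulAut N) by
      rw [Nat.card_congr ((MulAut.congr φ).trans ψ).toEquiv]; simp [Nat.card_perm]; rfl]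
    exact Subgroup.card_subgroup_dvd_card _
  have d8 := c8 ▸ N.card_subgroup_dvd_card
  have o : q % 2 = 1 := by
    by_contra h
    have : 2 ∣ (q ^ e) ^ f := (dvd_pow (dvd_pow (by omega) e0) (by omega))
    omega
  have := H8.nf_num (by have := hq.two_le; omega) o e0 f2 (by
    rw [← cV, cH, Nat.add_sub_cancel, ← A.index_mul_card, ← Subgroup.relIndex_mul_index AC,
      mul_comm 24]
    exact mul_dvd_mul (mul_dvd_mul d2 d3) d1)
  rw [← cV] at this
  simp only [List.mem_cons, List.not_mem_nil, or_false] at this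
  refine this.resolve_left fun h => n ?_
  obtain rfl : N = ⊤ := Subgroup.eq_top_of_card_eq _ (by omega)
  have i := (Subgroup.zpowers x).index_mul_card
  rw [Nat.card_zpowers, ox] at i
  haveI := Subgroup.normal_of_index_eq_two (show (Subgroup.zpowers x).index = 2 by omega)
  have := sup_eq_left.1 (hAmax (A ⊔ Subgroup.zpowers x) inferInstance
    (Subgroup.le_centralizer_iff_isMulCommutative.1 (sup_le
      (Subgroup.le_centralizer_iff.1 (le_top.trans hNle))
      (Subgroup.le_centralizer_iff.1 (sup_le (Subgroup.le_centralizer_iff.1 (le_top.trans hNle))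
        (Subgroup.le_centralizer _))))) le_sup_left)
  exact hNle hy x (this (Subgroup.mem_zpowers x))

end Cfsg.Agent.S0688
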