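import Cfsg.Statements.S0689
import Mathlib
import Cfsg.Agent.H8.FC6
import Cfsg.Agent.H8.SemiLin3

set_option autoImplicit false
open Cfsg

namespace Cfsg.Agent.S0689

open H8 H7 H1B Subgroup

theorem num {p e f ε m a k : ℕ} (hp : p.Prime) (he : e ≠ 0) (hf : 2 ≤ f) (hε : ε ∣ 2)
    (h : (p ^ e) ^ f = 120 * m * ε + 1) (h1 : 2 * m = a * k) (h2 : a ∣ p ^ e - 1) (h3 : k ∣ e)
    (h4 : m.Coprime 30) : ε = 1 ∧ (m = 1 ∨ m = 7 ∨ m = 29) := by
  have p7 : 7 ≤ p := by
    have : ¬ p ∣ 120 := fun hd => hp.one_lt.ne' (Nat.dvd_one.1 ((Nat.dvd_add_right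
      ((hd.mul_right m).mul_right ε)).1 (h ▸ (dvd_pow_self p he).trans (dvd_pow_self _ (by omega)))))
    by_contra! hh
    have := hp.two_le
    interval_cases p <;> omega
  have ε2 := Nat.le_of_dvd two_pos hε
  obtain ⟨Q, hQ⟩ : ∃ Q, p ^ e = Q + 1 := ⟨p ^ e - 1, by
    have := pow_pos hp.pos e; omega⟩
  have Q7 : 7 ^ e ≤ Q + 1 := hQ ▸ Nat.pow_le_pow_left p7 e
  have Q0 : 6 ≤ Q := by have := Nat.le_self_pow he 7; omega
  rw [hQ] at h h2
  rw [Nat.add_sub_cancel] at h2
  have b : (Q + 1) ^ f ≤ 120 * e * Q + 1 := by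
    have := Nat.mul_le_mul (Nat.le_of_dvd (by omega) h2) (Nat.le_of_dvd (by omega) h3)
    nlinarith
  have b2 : Q + 2 ≤ 120 * e := by
    have := (Nat.pow_le_pow_right (by omega) hf).trans b
    nlinarith
  have e3 : e ≤ 3 := by
    by_contra! hh
    have : ∀ n, 4 ≤ n → 120 * n < 7 ^ n := fun n hn => by
      induction n, hn using Nat.le_induction with
      | base => norm_num
      | succ n _ ih => rw [pow_succ]; omega
    have := this e hh
    omega
  have mQ : m ∣ Q := by
    refine (Nat.Coprime.dvd_of_dvd_mul_right ?_ (Dvd.intro_left 2 h1)).trans h2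
    refine h4.of_dvd_right (h3.trans ?_)
    have := Nat.pos_of_ne_zero he
    interval_cases e <;> norm_num
  rcases hf.eq_or_lt with rfl | hf
  · obtain ⟨t, rfl⟩ := mQ
    have m0 : 0 < m := Nat.pos_of_mul_pos_right (by omega : 0 < m * t)
    have e1 : (m * t + 2) * t = 120 * ε := Nat.eq_of_mul_eq_mul_left m0 (by nlinarith)
    have n119 : m * t ≠ 118 := fun e' => by
      replace hQ : p ^ e = 119 := by rw [hQ, e']
      have d : ∀ q : ℕ, q.Prime → q ∣ 119 → q = p := fun q hq hd =>
        (Nat.prime_dvd_prime_iff_eq hq hp).1 (hq.dvd_of_dvd_pow (hQ ▸ hd))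
      have := (d 7 (by norm_num) (by norm_num)).trans (d 17 (by norm_num) (by norm_num)).symm
      omega
    have key : ∀ m ∈ List.range 241, ∀ t ∈ List.range 16, ∀ ε ∈ List.range 3,
        ¬ (6 ≤ m * t ∧ (m * t + 2) * t = 120 * ε ∧ m * t ≠ 118 ∧
        m.gcd 30 = 1) ∨ ε = 1 ∧ (m = 1 ∨ m = 7 ∨ m = 29) := by
      set_option synthInstance.maxSize 1000 in decide +kernel
    have t0 : 0 < t := Nat.pos_of_mul_pos_left (by omega : 0 < m * t)
    exact (key m (List.mem_range.2 (by nlinarith)) t (List.mem_range.2 (by nlinarith)) ε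
      (List.mem_range.2 (by omega))).resolve_left (not_not.2 ⟨Q0, e1, n119, h4⟩)
  · exfalso
    have b3 := (Nat.pow_le_pow_right (by omega) hf).trans b
    have b4 : Q * Q + 3 * Q + 3 ≤ 120 * e := by nlinarith
    obtain rfl : e = 1 := by
      by_contra hh
      have := (Nat.pow_le_pow_right (by norm_num) (by omega : 2 ≤ e)).trans Q7
      nlinarith
    have : Q ≤ 9 := by nlinarith
    have f4 : f < 4 := by
      by_contra! hh
      have := (Nat.pow_le_pow_left (by omega : 7 ≤ Q + 1) 4).trans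
        ((Nat.pow_le_pow_right (by omega) hh).trans b)
      omega
    obtain rfl : f = 3 := by omega
    rw [mul_assoc] at h
    interval_cases Q <;> omega

/-- The insoluble sharply doubly transitive groups: a non-solvable linear group over the prime field that is regular on the non-zero vectors of `V` occurs only for `|V| = 11², 29², 59²`, and is `SL(2,5) × C_m` with `m = 1, 7, 29` respectively. -/
theorem result {p : ℕ} [Fact p.Prime] {V : Type*} [AddCommGroup V] [Module (ZMod p) V] [Finite V] (H : Subgroup (V ≃ₗ[ZMod p] V)) (hreg : ∀ v w : V, v ≠ 0 → w ≠ 0 → ∃! h : H, (h : V ≃ₗ[ZMod p] V) v = w) (hsolv : ¬ Group.IsSolvable H) : (Nat.card V = 121 ∧ Nonempty (H ≃* Matrix.SpecialLinearGroup (Fin 2) (ZMod 5))) ∨ (Nat.card V = 841 ∧ Nonempty (H ≃* Matrix.SpecialLinearGroup (Fin 2) (ZMod 5) × Multiplicative (ZMod 7))) ∨ (Nat.card V = 3481 ∧ Nonempty (H ≃* Matrix.SpecialLinearGroup (Fin 2) (ZMod 5) × Multiplicative (ZMod 29))) := by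
  haveI : Finite (V ≃ₗ[ZMod p] V) := Finite.of_injective _ DFunLike.coe_injective
  haveI : Nontrivial V := by
    by_contra! hV
    haveI : Subsingleton H := ⟨fun a b => Subtype.ext (LinearEquiv.ext fun x => Subsingleton.elim _ _)⟩
    exact hsolv inferInstance
  obtain ⟨v0, hv0⟩ := exists_ne (0 : V)
  let φ : H →* MulAut (Multiplicative V) :=
    { toFun := fun h => AddEquiv.toMultiplicative (DistribMulAction.toAddEquiv V h)
      map_one' := by ext v; simp
      map_mul' := fun a b => by ext v; simp [mul_smul] }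
  have h : FC H := fc_of_mulAut φ fun g k e => or_iff_not_imp_right.2 fun k1 =>
    (hreg k.toAdd k.toAdd k1 k1).unique (congrArg Multiplicative.toAdd e) rfl
  have cH : Nat.card V = Nat.card H + 1 := by
    let f : Option H → V := fun o => o.elim 0 fun g => g.1 v0
    have n : ∀ g : H, g.1 v0 ≠ 0 := fun g => by simpa using hv0
    rw [← Finite.card_option]
    refine (Nat.card_eq_of_bijective f ⟨?_, fun v => ?_⟩).symm
    · rintro (_ | a) (_ | b) e
      · rfl
      · exact absurd e.symm (n b)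
      · exact absurd e (n a)
      · exact congrArg some ((hreg v0 _ hv0 (n b)).unique e rfl)
    · by_cases e : v = 0
      · exact ⟨none, e.symm⟩
      · exact let ⟨g, hg, _⟩ := hreg v0 v hv0 e; ⟨some g, hg⟩
  have hg := h.gold_of_not_solvable hsolv
  obtain ⟨M, -, m2, m3, m4, m5, -, m7⟩ := h.structure_of_gold hg
  obtain ⟨-, -, -, cZ, ⟨eN⟩⟩ := h.exists_a5 hg
  have comm : ∀ (x : N3 H) (y : M), Commute ((N3 H).subtype x) (M.subtype y) := fun x y =>
    mem_cen.1 (m4 y.2) x x.2
  let ψ := MonoidHom.noncommCoprod _ _ comm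
  have ψi : Function.Injective ψ := (MonoidHom.noncommCoprod_injective _ _ comm).2
    ⟨subtype_injective _, subtype_injective _, by simpa [disjoint_iff] using m3⟩
  have ψr : ψ.range = N3 H ⊔ M := by simp [ψ, MonoidHom.noncommCoprod_range]
  have c1 : Nat.card (N3 H ⊔ M : Subgroup H) = 120 * Nat.card M := by
    rw [← ψr, ← Nat.card_congr (MonoidHom.ofInjective ψi).toEquiv, Nat.card_prod, h.card_N3 hg]
  set C := cen (N3 H) with hC
  have c2 : Nat.card C = 2 * Nat.card M := by
    have := H1.card_sup_of_disjoint (H := M) (N := Z2 H) le_normalizer_of_normal (by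
      rw [eq_bot_iff, ← m3]
      exact le_inf (inf_le_right.trans ((h.inf_cen hg).ge.trans inf_le_left)) inf_le_left)
    rw [← m5, sup_comm, this, cZ, mul_comm]
  haveI := h.isZ_cen hg
  haveI : (Fit C).Normal := normal_of (nrm_Fit le_normalizer_of_normal)
  haveI := nilp_Fit C
  haveI := IsZGroup.of_injective (inclusion_injective (Fit_le C))
  haveI : IsMulCommutative (Fit C) := IsCyclic.isMulCommutative
  obtain ⟨R, _, _, _, Φ, r1, r2, r3⟩ := semilinF (E := V) (Fit C) (fun a b ha hb =>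
    let ⟨g, hg, _⟩ := hreg a b ha hb; ⟨g, .inl hg⟩) v0 hv0
  obtain ⟨q, _⟩ := CharP.exists R
  haveI : Fact q.Prime := ⟨CharP.char_is_prime R q⟩
  have r4 := (ringAut_facts R q).2
  have cV : Nat.card V = Nat.card R ^ Module.finrank R V := Module.natCard_eq_pow_finrank
  have f2 : 2 ≤ Module.finrank R V := by
    by_contra! hh
    obtain ⟨w, hw⟩ := finrank_le_one_iff.1 (Nat.lt_succ_iff.1 hh)
    have NK : N3 H ≤ Φ.ker := r2 ▸ le_cen_symm (Fit_le C)
    have cm : ∀ x y : N3 H, x * y = y * x := fun x y => by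
      obtain ⟨s, hs⟩ := hw ((x : H) • w)
      obtain ⟨t, ht⟩ := hw ((y : H) • w)
      have a : ∀ (z : N3 H) (r : R) (v : V), (z : H) • r • v = r • (z : H) • v := fun z r v => by
        rw [r3, MonoidHom.mem_ker.1 (NK z.2)]; rfl
      refine Subtype.ext (eq_of_smul_eq_smul (α := V) fun v => ?_)
      obtain ⟨r, rfl⟩ := hw v
      rw [coe_mul, coe_mul, mul_smul, mul_smul, a, a, a, a, ← ht, ← hs, a, a, ← ht, ← hs,
        smul_smul t, smul_smul s, mul_comm s]
    have := cm (eN.symm slA) (eN.symm slB)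
    rw [← map_mul, ← map_mul, eN.symm.injective.eq_iff] at this
    exact absurd this (by decide)
  have e0 : Nat.card (R ≃+* R) ≠ 0 := fun e => by
    have := Finite.one_lt_card (α := R)
    rw [r4, e] at this; simp at this
  obtain ⟨k1, k2⟩ := num (p := q) (ε := (N3 H ⊔ M).index) (m := Nat.card M) Fact.out e0 f2 m2
    (by rw [← r4, ← cV, cH, ← c1, card_mul_index]) (c2.symm.trans (relIndex_mul_card' (Fit_le C)).symm
      |>.trans (mul_comm _ _)) (r4 ▸ r1) (by
      have : Fit C = Φ.ker ⊓ C := le_antisymm (le_inf (r2 ▸ le_centralizer _) (Fit_le C))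
        (by rw [r2, inf_comm]; exact cen_Fit_le inferInstance)
      rw [this, inf_relIndex_right, relIndex_ker]
      exact card_subgroup_dvd_card _) m7
  have top := index_eq_one.1 k1
  rw [← card_top (G := H), ← top, c1] at cH
  have e := (MulEquiv.ofBijective ψ ⟨ψi, MonoidHom.range_eq_top.1 (ψr.trans top)⟩).symm
  rcases k2 with k2 | k2 | k2 <;> rw [k2] at cH
  · refine .inl ⟨cH, ⟨?_⟩⟩
    rw [card_eq_one.1 k2, sup_bot_eq] at top
    exact topEquiv.symm.trans ((MulEquiv.subgroupCongr top.symm).trans eN)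
  · haveI : Fact (Nat.Prime 7) := ⟨by norm_num⟩
    haveI := isCyclic_of_prime_card k2
    exact .inr (.inl ⟨cH, ⟨e.trans (eN.prodCongr (mulEquivOfCyclicCardEq (by simp [k2])))⟩⟩)
  · haveI : Fact (Nat.Prime 29) := ⟨by norm_num⟩
    haveI := isCyclic_of_prime_card k2
    exact .inr (.inr ⟨cH, ⟨e.trans (eN.prodCongr (mulEquivOfCyclicCardEq (by simp [k2])))⟩⟩)

end Cfsg.Agent.S0689
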