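import Cfsg.Statements.S0687
import Mathlib
import Cfsg.Agent.S0688
import Cfsg.Agent.S0689

set_option autoImplicit false
open Cfsg

namespace Cfsg.Agent.S0687

/-- In a linear group over the prime field that is regular on non-zero vectors and has no irreducible cyclic normal subgroup, a normal subgroup `N` minimal among the non-abelian normal subgroups centralising a maximal normal abelian subgroup `A` is irreducible on `V`, and its centraliser is `A`. -/
theorem result {p : ℕ} [Fact p.Prime] {V : Type*} [AddCommGroup V] [Module (ZMod p) V] [Finite V] (H : Subgroup (V ≃ₗ[ZMod p] V)) (hreg : ∀ v w : V, v ≠ 0 → w ≠ 0 → ∃! h : H, (h : V ≃ₗ[ZMod p] V) v = w) (hI : ∀ A : Subgroup H, A.Normal → IsCyclic A → ∃ W : Submodule (ZMod p) V, W ≠ ⊥ ∧ W ≠ ⊤ ∧ ∀ a ∈ A, ∀ v ∈ W, ((a : H) : V ≃ₗ[ZMod p] V) v ∈ W) (A : Subgroup H) (hAn : A.Normal) (hAc : IsMulCommutative A) (hAmax : ∀ B : Subgroup H, B.Normal → IsMulCommutative B → A ≤ B → B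 = A) (N : Subgroup H) (hNn : N.Normal) (hNle : N ≤ Subgroup.centralizer (A : Set H)) (hNna : ¬ IsMulCommutative N) (hNmin : ∀ M : Subgroup H, M.Normal → M ≤ N → ¬ IsMulCommutative M → M = N) : (∀ W : Submodule (ZMod p) V, (∀ n ∈ N, ∀ v ∈ W, ((n : H) : V ≃ₗ[ZMod p] V) v ∈ W) → W = ⊥ ∨ W = ⊤) ∧ Subgroup.centralizer (N : Set H) = A := by
  obtain ⟨cH, AC, q, e, f, hq, e0, f2, cV, d1, d2⟩ :=
    H8.nf_main H hreg hI A hAn hAc hAmax N hNn hNle hNna hNmin
  obtain ⟨l, hl, c⟩ : ∃ l : ℕ, l.Prime ∧ Nat.card V = l ^ 2 := by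
    by_cases s : Group.IsSolvable H
    · rcases Cfsg.Agent.S0688.result H hreg hI s with h | h | h | h
      exacts [⟨5, by norm_num, h⟩, ⟨7, by norm_num, h⟩, ⟨11, by norm_num, h⟩, ⟨23, by norm_num, h⟩]
    · rcases Cfsg.Agent.S0689.result H hreg s with h | h | h
      exacts [⟨11, by norm_num, h.1⟩, ⟨29, by norm_num, h.1⟩, ⟨59, by norm_num, h.1⟩]
  have k : ∀ r n : ℕ, r.Prime → r ^ n = l ^ 2 → n = 2 := fun r n hr h => by
    obtain rfl := (Nat.prime_dvd_prime_iff_eq hl hr).1 (hl.dvd_of_dvd_pow (h ▸ dvd_pow_self l two_ne_zero))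
    exact Nat.pow_right_injective hl.two_le h
  have ef := k q _ hq ((pow_mul ..).trans (cV.symm.trans c))
  obtain rfl : e = 1 := by
    have := Nat.pos_of_ne_zero e0
    nlinarith
  refine ⟨fun W hW => by_contra fun h => hNna ⟨⟨fun x y => ?_⟩⟩,
    le_antisymm (Subgroup.relIndex_eq_one.1 (Nat.dvd_one.1 d2)) AC⟩
  have cV := Module.natCard_eq_pow_finrank (K := ZMod p) (V := V)
  rw [Nat.card_zmod] at cV
  have f2 := k p _ Fact.out (cV.symm.trans c)
  obtain ⟨h1, h2⟩ := not_or.1 h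
  have := Submodule.finrank_lt h2
  obtain ⟨w, hw, w0⟩ := W.ne_bot_iff.1 h1
  have a := (finrank_eq_one_iff_of_nonzero' (K := ZMod p) (⟨w, hw⟩ : W) (by simpa using w0)).1 (by
    have := mt Submodule.finrank_eq_zero.1 h1
    omega)
  obtain ⟨s, hs⟩ := a ⟨_, hW x x.2 w hw⟩
  obtain ⟨t, ht⟩ := a ⟨_, hW y y.2 w hw⟩
  replace hs : s • w = x.1.1 w := congrArg Subtype.val hs
  replace ht : t • w = y.1.1 w := congrArg Subtype.val ht
  refine Subtype.ext ((hreg w _ w0 (by simpa using w0)).unique rfl ?_)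
  simp only [Subgroup.coe_mul, LinearEquiv.mul_apply, ← hs, ← ht, map_smul, smul_comm s]

end Cfsg.Agent.S0687
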