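import Cfsg.Statements.S0060
import Cfsg.Agent.H1.Fitting

set_option autoImplicit false
open Pointwise
open Cfsg

namespace Cfsg.Agent.S0060

/-- Brodkey's Theorem: in a finite group with abelian Sylow p-subgroups and no nontrivial normal p-subgroup, some conjugate of a Sylow p-subgroup meets it trivially. -/
theorem result {G : Type*} [Group G] [Finite G] (p : ℕ) [Fact p.Prime]
    (S : Sylow p G) (hS : IsMulCommutative S) (hOp : Cfsg.pCore p G = ⊥) :
    ∃ g : G, (S : Subgroup G) ⊓ MulAut.conj g • (S : Subgroup G) = ⊥ := by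
  obtain ⟨⟨P, Q⟩, hmin⟩ := exists_minimalFor_of_wellFoundedLT (fun _ : Sylow p G × Sylow p G => True)
    (fun x => Nat.card ((x.1 : Subgroup G) ⊓ x.2 : Subgroup G)) ⟨(S, S), trivial⟩
  have hab : ∀ T : Sylow p G, IsMulCommutative T := fun T => by
    obtain ⟨g, rfl⟩ := MulAction.exists_smul_eq G S T
    exact Subgroup.map_isMulCommutative _ _
  set D := (P : Subgroup G) ⊓ Q with hD
  have hP : (P : Subgroup G) ≤ Subgroup.normalizer (D : Set G) :=
    ((P : Subgroup G).le_centralizer.trans (Subgroup.centralizer_le inf_le_left)).trans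
      (Subgroup.centralizer_le_normalizer _)
  have hQ : (Q : Subgroup G) ≤ Subgroup.normalizer (D : Set G) :=
    ((Q : Subgroup G).le_centralizer.trans (Subgroup.centralizer_le inf_le_right)).trans
      (Subgroup.centralizer_le_normalizer _)
  have h1 : D = ⊥ := by
    rw [eq_bot_iff, ← hOp, H1.pCore_eq_iInf_sylow, le_iInf_iff]
    intro T
    obtain ⟨x, hx, h2⟩ := (H1.isSylowIn_of_le P hP).exists_conj_le
      (T.isPGroup'.to_le (inf_le_left : (T : Subgroup G) ⊓ Subgroup.normalizer (D : Set G) ≤ T))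
      inf_le_right
    have h3 : ((x • T : Sylow p G) : Subgroup G) ⊓ Q ≤ D := by
      refine le_inf (le_trans ?_ h2) inf_le_right
      rw [Subgroup.smul_inf, H1.conj_smul_eq_self_iff.2 (Subgroup.le_normalizer hx)]
      exact inf_le_inf_left _ hQ
    have h4 := Subgroup.eq_of_le_of_card_ge h3 (hmin.le (j := (x • T, Q)) trivial)
    have h5 : D ≤ MulAut.conj x • (T : Subgroup G) := h4 ▸ inf_le_left
    rwa [← H1.conj_smul_eq_self_iff.2 hx, H1.conj_smul_le_conj_smul] at h5
  obtain ⟨g, rfl⟩ := MulAction.exists_smul_eq G S P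
  obtain ⟨h, rfl⟩ := MulAction.exists_smul_eq G S Q
  refine ⟨g⁻¹ * h, ?_⟩
  rw [← H1.conj_smul_eq_bot_iff (g := g), Subgroup.smul_inf, H1.conj_smul_conj_smul,
    mul_inv_cancel_left]
  exact h1

end Cfsg.Agent.S0060
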