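import Cfsg.Statements.S0255
import Mathlib
import Cfsg.Agent.S0495
import Cfsg.Agent.H4.SLBasic

set_option autoImplicit false
open Cfsg

namespace Cfsg.Agent.S0255

/-- PSL_2(7) is isomorphic to PSL_3(2). -/
theorem result {F K : Type*} [Field F] [Fintype F] [Field K] [Fintype K] (hF : Fintype.card F = 7) (hK : Fintype.card K = 2) : Nonempty (Matrix.ProjectiveSpecialLinearGroup (Fin 2) F ≃* Matrix.ProjectiveSpecialLinearGroup (Fin 3) K) := by
  classical
  haveI : IsSimpleGroup (Matrix.ProjectiveSpecialLinearGroup (Fin 3) K) :=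
    H4.psl_isSimpleGroup (by simp)
  have h1 := H4.card_psl_mul (ι := Fin 3) (F := K)
  have hK' : Nat.card K = 2 := by rw [Nat.card_eq_fintype_card, hK]
  have h2 := H4.card_sl_mul (F := K) 3 (by norm_num)
  rw [hK, Fin.prod_univ_three] at h2
  rw [hK'] at h1
  norm_num at h1 h2
  have h3 : Nat.card (Matrix.ProjectiveSpecialLinearGroup (Fin 3) K) = 168 := by
    simp only [Nat.card_eq_fintype_card] at *
    omega
  obtain ⟨e⟩ := Cfsg.Agent.S0495.result h3 hF
  exact ⟨e.symm⟩

end Cfsg.Agent.S0255
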