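import Cfsg.Statements.S0437
import Mathlib
import Cfsg.Agent.H8.Tr3

set_option autoImplicit false
open Cfsg

namespace Cfsg.Agent.S0437

open H8
theorem aux {G : Type*} [Group G] {E : Set G} (hE : Cfsg.IsThreeTranspositionSet E) {a b c e : G}
    (ha : a ∈ E) (hb : b ∈ E) (he : e ∈ E) (hab : a ≠ b) (h₁ : Commute a b)
    (h : Commute e (a * b * c)) (hc : Commute e c) : Commute e a ∧ Commute e b := by
  have : Commute e (a * b) := by simpa using h.mul_right hc.inv_right
  exact ⟨t3_comm_mul hE ha hb he hab h₁ this,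
    t3_comm_mul hE hb ha he hab.symm h₁.symm (h₁.eq ▸ this)⟩

/-- For three distinct, pairwise commuting members a, b, c of a set of 3-transpositions E, a member e of E centralises a * b * c if and only if it centralises each of a, b and c. -/
theorem result {G : Type*} [Group G] {E : Set G} (hE : Cfsg.IsThreeTranspositionSet E) {a b c e : G} (ha : a ∈ E) (hb : b ∈ E) (hc : c ∈ E) (he : e ∈ E) (hab : a ≠ b) (hac : a ≠ c) (hbc : b ≠ c) (h₁ : Commute a b) (h₂ : Commute a c) (h₃ : Commute b c) : Commute e (a * b * c) ↔ (Commute e a ∧ Commute e b ∧ Commute e c) := by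
  refine ⟨fun h => ?_, fun h => (h.1.mul_right h.2.1).mul_right h.2.2⟩
  by_cases k3 : Commute e c
  · exact ⟨(aux hE ha hb he hab h₁ h k3).1, (aux hE ha hb he hab h₁ h k3).2, k3⟩
  by_cases k2 : Commute e b
  · exact absurd (aux hE ha hc he hac h₂ (by rwa [mul_assoc, ← h₃.eq, ← mul_assoc]) k2).2 k3
  by_cases k1 : Commute e a
  · exact absurd (aux hE hb hc he hbc h₃ (by
      rwa [mul_assoc, ← h₂.eq, ← mul_assoc, ← h₁.eq]) k1).2 k3
  exfalso
  have sa := t3_sq hE ha
  have sb := t3_sq hE hb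
  have sc := t3_sq hE hc
  have h4 := cox_four sa (t3_sq hE he) sb h₁ (t3_braid hE he ha k1).symm (t3_braid hE he hb k2)
  have h5 : (e * (b * a)) ^ 4 = 1 := by
    rw [show e * (b * a) = a⁻¹ * (a * (e * b)) * a⁻¹⁻¹ by group, conj_pow, h4]; group
  have h6 : e * c = e * (b * a) * (a * b * c) := by simp [mul_assoc, ll1 sa, ll1 sb]
  have h7 : Commute (e * (b * a)) (a * b * c) := h.mul_left (Commute.mul_left
    ((h₁.symm.mul_right (Commute.refl b)).mul_right h₃) (((Commute.refl a).mul_right h₁).mul_right h₂))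
  have h8 : (a * b * c) ^ 2 = 1 := by
    rw [(h₂.mul_left h₃).mul_pow, h₁.mul_pow]; simp [pow_two, sa, sb, sc]
  have h9 : (e * c) ^ 4 = 1 := by
    rw [h6, h7.mul_pow, h5, one_mul, show 4 = 2 * 2 from rfl, pow_mul, h8, one_pow]
  rw [pow_succ, t3_cube hE he hc k3, one_mul] at h9
  exact k3 (by rw [eq_inv_of_mul_eq_one_left h9]; exact (Commute.refl c).inv_left)

end Cfsg.Agent.S0437
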