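import Cfsg.Statements.S0445
import Cfsg.Agent.H2.TvQ
import Cfsg.Agent.H4.SLBasic

set_option autoImplicit false
open Cfsg

namespace Cfsg.Agent.S0445

open Subgroup hiding upperCentralSeries
open H2 Cfsg.FusionSystem

open Subgroup H2 H7 H1B

/-- In the special linear group of dimension 5 over the field with two elements, the centraliser of a transvection has order 21504 = 2 ^ 7 · 168 (it is an extension of an extraspecial group of order 2 ^ 7 by the simple group of order 168). -/
theorem result (s : Matrix.SpecialLinearGroup (Fin 5) (ZMod 2)) (hs : (s : Matrix (Fin 5) (Fin 5) (ZMod 2)) = Matrix.transvection 0 1 1) : Nat.card (Subgroup.centralizer ({s} : Set (Matrix.SpecialLinearGroup (Fin 5) (ZMod 2)))) = 21504 := by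
  have h01 : (0 : Fin 5) ≠ 1 := by decide
  obtain rfl : s = tv h01 := Subtype.ext hs
  obtain ⟨c1, c2, c3, c4⟩ := sig_compl zmod_two h01
  obtain ⟨e⟩ := mid_equiv (n := 3) h01 (Fintype.card_fin _)
  have h := H7.card_sup_mul_card_inf (c1.trans (le_nrm_kr (rho zmod_two h01)))
  have k := H4.card_sl_mul (F := ZMod 2) 3 (by omega)
  rw [sup_comm, inf_comm, c2, c3, card_bot, card_kr_rho (k := 2) (n := 3) zmod_two h01 (by decide) (by decide)
    (Fintype.card_fin _), Nat.card_congr ((MonoidHom.ofInjective c4).symm.trans (slRe e)).toEquiv] at h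
  simp [Fin.prod_univ_three] at k
  rw [← Nat.card_eq_fintype_card] at k
  omega

end Cfsg.Agent.S0445
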