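import Cfsg.Statements.S0891
import Cfsg.Agent.H7.GK

set_option autoImplicit false
open Cfsg

namespace Cfsg.Agent.S0891
open H7
open scoped commutatorElement

section
open Subgroup

open Subgroup Equiv in
theorem cover {P α : Type*} [Group P] [DecidableEq α] (π : P →* Equiv.Perm α) (z : P) (T : α → α → P)
    (hz : ∀ g, z * g = g * z) (πz : π z = 1) (πT : ∀ a b, a ≠ b → π (T a b) = swap a b)
    (sq : ∀ a b, a ≠ b → T a b * T a b = z) (sym : ∀ a b, a ≠ b → T b a = z * T a b)
    (cj : ∀ a b c d, a ≠ b → c ≠ d → T a b * T c d = z * T (swap a b c) (swap a b d) * T a b) (s : Finset α) :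
    ∀ g ∈ closure ({z} ∪ {x | ∃ a ∈ s, ∃ b ∈ s, a ≠ b ∧ x = T a b}), π g = 1 → g ∈ zpowers z := by
  induction s using Finset.induction_on with
  | empty =>
    intro g hg _
    simpa [zpowers_eq_closure] using hg
  | insert c s hc ih =>
    set K := closure ({z} ∪ {x | ∃ a ∈ s, ∃ b ∈ s, a ≠ b ∧ x = T a b}) with hK
    have zK : z ∈ K := subset_closure (Or.inl rfl)
    have TK : ∀ a ∈ s, ∀ b ∈ s, a ≠ b → T a b ∈ K := fun a ha b hb h => subset_closure (Or.inr ⟨a, ha, b, hb, h, rfl⟩)
    have ne : ∀ a ∈ s, a ≠ c := fun a ha e => hc (e ▸ ha)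
    have fc : ∀ g ∈ K, π g c = c := by
      intro g hg
      refine (show K ≤ (MulAction.stabilizer (Perm α) c).comap π from (closure_le _).2 ?_) hg
      rintro x (rfl | ⟨a, ha, b, hb, h, rfl⟩)
      · show π x c = c
        rw [πz]; rfl
      · show π (T a b) c = c
        rw [πT a b h, swap_apply_of_ne_of_ne (ne a ha).symm (ne b hb).symm]
    let U : P → Prop := fun g => g ∈ K ∨ ∃ a ∈ s, ∃ h ∈ K, g = h * T a c
    have Uz : ∀ g, U g → ∀ k : ℤ, U (g * z ^ k) := by
      rintro g (hg | ⟨a, ha, h, hh, rfl⟩) k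
      · exact Or.inl (mul_mem hg (zpow_mem zK k))
      · refine Or.inr ⟨a, ha, h * z ^ k, mul_mem hh (zpow_mem zK k), ?_⟩
        rw [mul_assoc, mul_assoc, ((show Commute z (T a c) from hz _).zpow_left k).eq]
    have U1 : ∀ g, U g → ∀ x ∈ s, U (g * T x c) := by
      rintro g (hg | ⟨a, ha, h, hh, rfl⟩) x hx
      · exact Or.inr ⟨x, hx, g, hg, rfl⟩
      · by_cases e : x = a
        · subst e
          rw [mul_assoc, sq _ _ (ne x hx)]
          exact Or.inl (mul_mem hh zK)
        · refine Or.inr ⟨a, ha, h * (z * T x a), mul_mem hh (mul_mem zK (TK x hx a ha e)), ?_⟩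
          rw [mul_assoc, cj a c x c (ne a ha) (ne x hx), swap_apply_right, swap_apply_of_ne_of_ne e (ne x hx)]
          simp only [mul_assoc]
    have UT : ∀ g, U g → ∀ a ∈ insert c s, ∀ b ∈ insert c s, a ≠ b → U (g * T a b) := by
      intro g hg x hx y hy hxy
      rcases Finset.mem_insert.1 hx with hx | hx <;> rcases Finset.mem_insert.1 hy with hy | hy
      · exact absurd (hx.trans hy.symm) hxy
      · rw [sym _ _ hxy.symm, ← mul_assoc, hx]
        exact U1 _ (by simpa using Uz g hg 1) y hy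
      · rw [hy]; exact U1 g hg x hx
      · rcases hg with hg | ⟨a, ha, h, hh, rfl⟩
        · exact Or.inl (mul_mem hg (TK x hx y hy hxy))
        · have h1 : swap x y a ∈ s := by
            rw [swap_apply_def]; split_ifs <;> assumption
          refine Or.inr ⟨swap x y a, h1, h * z⁻¹ * T x y, mul_mem (mul_mem hh (inv_mem zK)) (TK x hx y hy hxy), ?_⟩
          have := cj x y (swap x y a) c hxy (ne _ h1)
          rw [swap_apply_self, swap_apply_of_ne_of_ne (ne x hx).symm (ne y hy).symm] at this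
          rw [mul_assoc _ (T x y), this]; group
    have key : ∀ g ∈ closure ({z} ∪ {x | ∃ a ∈ insert c s, ∃ b ∈ insert c s, a ≠ b ∧ x = T a b}), U g := by
      intro g hg
      induction hg using closure_induction_right with
      | one => exact Or.inl (one_mem _)
      | mul_right g _ x hx ih =>
        rcases hx with rfl | ⟨a, ha, b, hb, h, rfl⟩
        · simpa using Uz g ih 1
        · exact UT g ih a ha b hb h
      | mul_inv_cancel g _ x hx ih =>
        rcases hx with rfl | ⟨a, ha, b, hb, h, rfl⟩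
        · simpa using Uz g ih (-1)
        · have := Uz _ (UT g ih a ha b hb h) (-1)
          rw [← sq a b h] at this
          simpa using this
    intro g hg h1
    rcases key g hg with h | ⟨a, ha, h, hh, rfl⟩
    · exact ih g h h1
    · have := congrArg (fun σ : Perm α => σ a) h1
      simp only [map_mul, πT a c (ne a ha), Perm.mul_apply, swap_apply_left, fc h hh, Perm.one_apply] at this
      exact absurd this.symm (ne a ha)

theorem d3 : (2 : ZMod 3) ≠ 0 ∧ (-1 : ZMod 3) ≠ 1 := by decide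

theorem exists_ring (n : ℕ) : ∃ (R : Type) (_ : Ring R) (e : Fin n → R), (3 : R) = 0 ∧ (-1 : R) ≠ 1 ∧
    (∀ i, e i * e i = 1) ∧ ∀ i j, i ≠ j → e i * e j = -(e j * e i) := by
  haveI : Fact (Nat.Prime 3) := ⟨Nat.prime_three⟩
  letI : Invertible (2 : ZMod 3) := invertibleOfNonzero d3.1
  let Q : QuadraticForm (ZMod 3) (Fin n → ZMod 3) := LinearMap.BilinMap.toQuadraticMap (dotProductBilin (ZMod 3) (ZMod 3))
  refine ⟨CliffordAlgebra Q, inferInstance, fun i => CliffordAlgebra.ι Q (Pi.single i 1), ?_, ?_, fun i => ?_, fun i j h => ?_⟩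
  · rw [← map_ofNat (algebraMap (ZMod 3) (CliffordAlgebra Q)) 3, show (OfNat.ofNat 3 : ZMod 3) = 0 from rfl, map_zero]
  · intro h
    have : (algebraMap (ZMod 3) (CliffordAlgebra Q)) (-1) = algebraMap _ _ 1 := by simpa using h
    exact d3.2 ((algebraMap (ZMod 3) (CliffordAlgebra Q)).injective this)
  · rw [CliffordAlgebra.ι_sq_scalar]
    simp [Q]
  · rw [eq_neg_iff_add_eq_zero, CliffordAlgebra.ι_mul_ι_add_swap]
    simp [Q, LinearMap.BilinMap.polar_toQuadraticMap, Pi.single_apply, h, h.symm]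

open Subgroup Equiv in
theorem exists_T (n : ℕ) : ∃ (P : Type) (_ : Group P) (π : P →* Equiv.Perm (Fin n)) (z : P) (T : Fin n → Fin n → P),
    z ≠ 1 ∧ z * z = 1 ∧ (∀ g, z * g = g * z) ∧ π z = 1 ∧ (∀ a b, a ≠ b → π (T a b) = swap a b) ∧
    (∀ a b, a ≠ b → T a b * T a b = z) ∧ (∀ a b, a ≠ b → T b a = z * T a b) ∧
    (∀ a b c d, a ≠ b → c ≠ d → T a b * T c d = z * T (swap a b c) (swap a b d) * T a b) := by
  obtain ⟨R, _, e, h3, h1, e1, e2⟩ := exists_ring n
  have sq : ∀ a b, a ≠ b → (e a - e b) * (e a - e b) = -1 := by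
    intro a b h
    have : (e a - e b) * (e a - e b) = 3 - 1 := by
      rw [sub_mul, mul_sub, mul_sub, e1, e1, e2 a b h]; norm_num; abel_nf; norm_num
    rw [this, h3, zero_sub]
  have ex : ∀ a b, ∃ u : Rˣ, a ≠ b → (u : R) = e a - e b := by
    intro a b
    by_cases h : a = b
    · exact ⟨1, fun h' => absurd h h'⟩
    · exact ⟨⟨e a - e b, -(e a - e b), by rw [mul_neg, sq a b h, neg_neg], by rw [neg_mul, sq a b h, neg_neg]⟩, fun _ => rfl⟩
  choose u hu using ex
  have cj : ∀ a b c, a ≠ b → (e a - e b) * e c = -(e (swap a b c) * (e a - e b)) := by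
    intro a b c h
    by_cases ha : c = a
    · subst ha; rw [swap_apply_left, sub_mul, mul_sub, e1, e1]; abel
    by_cases hb : c = b
    · subst hb; rw [swap_apply_right, sub_mul, mul_sub, e1, e1]; abel
    rw [swap_apply_of_ne_of_ne ha hb, sub_mul, mul_sub, e2 c a ha, e2 c b hb]; abel
  refine ⟨Rˣ × Perm (Fin n), inferInstance, MonoidHom.snd _ _, (-1, 1), fun a b => (u a b, swap a b), ?_, ?_, ?_, rfl,
    fun _ _ _ => rfl, fun a b h => ?_, fun a b h => ?_, fun a b c d h h' => ?_⟩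
  · intro h
    exact h1 (by simpa using congrArg (fun x : Rˣ × Perm (Fin n) => (x.1 : R)) h)
  · simp
  · rintro ⟨a, b⟩; simp
  · refine Prod.ext (Units.ext ?_) (by simp)
    simp [hu a b h, sq a b h]
  · refine Prod.ext (Units.ext ?_) (by simp [swap_comm])
    simp [hu a b h, hu b a h.symm]
  · refine Prod.ext (Units.ext ?_) ?_
    · have h2 : swap a b c ≠ swap a b d := fun e => h' ((swap a b).injective e)
      simp only [Prod.fst_mul, Units.val_mul, hu a b h, hu c d h', hu _ _ h2, Units.val_neg, Units.val_one]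
      rw [mul_sub (e a - e b), cj a b c h, cj a b d h]
      noncomm_ring
    · simp only [Prod.snd_mul, one_mul]
      rw [swap_apply_apply]; simp

end

/-- For every n ≥ 4 there are a finite group Γ and a central element z of Γ of order 2 lying in the commutator subgroup of Γ such that the quotient of Γ by the (normal) subgroup generated by z is isomorphic to the alternating group on n letters. -/
theorem result (n : ℕ) (hn : 4 ≤ n) : ∃ (Γ : Type) (_ : Group Γ) (_ : Finite Γ) (z : Γ) (hz : z ∈ Subgroup.center Γ), orderOf z = 2 ∧ z ∈ commutator Γ ∧ ∃ _ : (Subgroup.zpowers z).Normal, Nonempty (Γ ⧸ Subgroup.zpowers z ≃* alternatingGroup (Fin n)) := by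
  open Subgroup in
  open Subgroup Equiv in
  classical
  obtain ⟨P, _, π, z, T, z1, z2, hz, πz, πT, sq, sym, cj⟩ := exists_T n
  have key := cover π z T hz πz πT sq sym cj Finset.univ
  set K := closure ({z} ∪ {x | ∃ a ∈ (Finset.univ : Finset (Fin n)), ∃ b ∈ (Finset.univ : Finset (Fin n)), a ≠ b ∧ x = T a b})
  have zK : z ∈ K := subset_closure (Or.inl rfl)
  have TK : ∀ a b, a ≠ b → T a b ∈ K := fun a b h => subset_closure (Or.inr ⟨a, Finset.mem_univ _, b, Finset.mem_univ _, h, rfl⟩)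
  let Γ : Subgroup P := K ⊓ (alternatingGroup (Fin n)).comap π
  have zΓ : z ∈ Γ := Subgroup.mem_inf.2 ⟨zK, by rw [mem_comap, πz]; exact one_mem _⟩
  have TΓ : ∀ a b c d, a ≠ b → c ≠ d → T a b * T c d ∈ Γ := fun a b c d h h' =>
    Subgroup.mem_inf.2 ⟨mul_mem (TK a b h) (TK c d h'), by
      rw [mem_comap, map_mul, πT a b h, πT c d h', Perm.mem_alternatingGroup, map_mul, Perm.sign_swap h, Perm.sign_swap h']
      decide⟩
  let ψ : Γ →* alternatingGroup (Fin n) := (π.comp Γ.subtype).codRestrict _ fun g => (Subgroup.mem_inf.1 g.2).2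
  have hsurj : Function.Surjective ψ := by
    intro σ
    have : (⊤ : Subgroup (Perm (Fin n))) ≤ K.map π := by
      rw [← Perm.closure_isSwap, closure_le]
      rintro _ ⟨a, b, h, rfl⟩
      exact ⟨T a b, TK a b h, πT a b h⟩
    obtain ⟨g, hg, e⟩ := this (mem_top (σ : Perm (Fin n)))
    exact ⟨⟨g, Subgroup.mem_inf.2 ⟨hg, by rw [mem_comap, e]; exact σ.2⟩⟩, Subtype.ext e⟩
  have hker : ψ.ker = zpowers (⟨z, zΓ⟩ : Γ) := by
    apply le_antisymm
    · intro g hg
      obtain ⟨k, hk⟩ := key g (Subgroup.mem_inf.1 g.2).1 (congrArg Subtype.val hg)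
      exact ⟨k, Subtype.ext hk⟩
    · exact zpowers_le.2 (Subtype.ext πz)
  have ho : orderOf (⟨z, zΓ⟩ : Γ) = 2 :=
    orderOf_eq_prime (Subtype.ext (by rw [pow_two]; exact z2)) fun h => z1 (congrArg Subtype.val h)
  have hfin : Finite Γ := by
    rw [ψ.finite_iff_finite_ker_range, hker]
    exact ⟨Nat.finite_of_card_ne_zero (by rw [Nat.card_zpowers, ho]; norm_num), inferInstance⟩
  haveI : (zpowers (⟨z, zΓ⟩ : Γ)).Normal := hker ▸ inferInstance
  refine ⟨Γ, inferInstance, hfin, ⟨z, zΓ⟩, mem_center_iff.2 fun g => Subtype.ext (hz g).symm, ho, ?_, this,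
    ⟨(QuotientGroup.quotientMulEquivOfEq hker.symm).trans (QuotientGroup.quotientKerEquivOfSurjective ψ hsurj)⟩⟩
  obtain ⟨a, b, c, d, ab, ac, ad, bc, bd, cd⟩ : ∃ a b c d : Fin n, a ≠ b ∧ a ≠ c ∧ a ≠ d ∧ b ≠ c ∧ b ≠ d ∧ c ≠ d :=
    ⟨⟨0, by omega⟩, ⟨1, by omega⟩, ⟨2, by omega⟩, ⟨3, by omega⟩, by simp, by simp, by simp, by simp, by simp, by simp⟩
  have e1 := cj c d a c cd ac
  have e2 := cj c d b d cd bd
  have e3 := cj a b a d ab ad
  have e4 := cj a b b c ab bc
  have e5 := cj b d a c bd ac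
  rw [swap_apply_of_ne_of_ne ac ad, swap_apply_left] at e1
  rw [swap_apply_of_ne_of_ne bc bd, swap_apply_right] at e2
  rw [swap_apply_of_ne_of_ne ad.symm bd.symm, swap_apply_left] at e3
  rw [swap_apply_of_ne_of_ne ac.symm bc.symm, swap_apply_right] at e4
  rw [swap_apply_of_ne_of_ne ab ad, swap_apply_of_ne_of_ne bc.symm cd] at e5
  have zz : ∀ x y : P, x * (z * y) = z * (x * y) := fun x y => by rw [← mul_assoc, ← hz, mul_assoc]
  have z3 : ∀ x : P, z * (z * x) = x := fun x => by rw [← mul_assoc, z2, one_mul]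
  have f1 : T c d * (T a c * T b d) = T a d * T b c * T c d := by
    rw [← mul_assoc, e1, mul_assoc, e2]; simp only [mul_assoc, zz, z3]
  have f2 : T a b * (T a d * T b c) = T b d * T a c * T a b := by
    rw [← mul_assoc, e3, mul_assoc, e4]; simp only [mul_assoc, zz, z3]
  have : (⟨z, zΓ⟩ : Γ) = ⁅(⟨_, TΓ a b c d ab cd⟩ : Γ), (⟨_, TΓ a c b d ac bd⟩ : Γ)⁆ := by
    apply Subtype.ext
    show z = T a b * T c d * (T a c * T b d) * (T a b * T c d)⁻¹ * (T a c * T b d)⁻¹
    rw [mul_assoc (T a b), f1, ← mul_assoc (T a b), f2, e5]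
    group
  rw [this]
  exact commutator_mem_commutator (mem_top _) (mem_top _)

end Cfsg.Agent.S0891
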