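import Cfsg.Statements.S0447
import Cfsg.Agent.H7.GK
import Cfsg.Agent.S0891

set_option autoImplicit false
open Cfsg

namespace Cfsg.Agent.S0447
open H7
open scoped commutatorElement

section
open Subgroup

theorem split {H : Type} [Group H] [Finite H] {z : H} (hZ : Nat.card (center H) = 2) (hz : z ∈ center H)
    (z1 : z ≠ 1) (K : Subgroup H) (hK : z ∉ K) (h4 : ¬ 4 ∣ K.index) : ∃ L : Subgroup H, (center H).IsComplement' L := by
  classical
  haveI := Fintype.ofFinite (H ⧸ K)
  haveI : Fact (Nat.Prime 2) := ⟨Nat.prime_two⟩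
  have z2 : z ^ 2 = 1 := by
    have := pow_card_eq_one' (G := center H) (x := ⟨z, hz⟩)
    rw [hZ] at this
    exact congrArg Subtype.val this
  let σ := MulAction.toPermHom H (H ⧸ K) z
  have s2 : σ ^ 2 = 1 := by rw [← map_pow, z2, map_one]
  have hs : σ.support = Finset.univ := Finset.eq_univ_of_forall fun q => by
    obtain ⟨g, rfl⟩ := QuotientGroup.mk_surjective q
    rw [Equiv.Perm.mem_support]
    intro e
    have : ((z * g : H) : H ⧸ K) = g := e
    rw [QuotientGroup.eq, ← mem_center_iff.1 hz g] at this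
    exact hK (by simpa using this)
  have hc := Equiv.Perm.cycleType_of_pow_prime_eq_one s2
  have h1 := Equiv.Perm.sum_cycleType σ
  have h2 := Equiv.Perm.sign_of_cycleType σ
  rw [hs, Finset.card_univ, ← Nat.card_eq_fintype_card, ← index_eq_card] at h1
  generalize σ.cycleType.card = k at hc
  rw [hc] at h1 h2
  simp only [Multiset.sum_replicate, smul_eq_mul, Multiset.card_replicate] at h1 h2
  have h3 : Equiv.Perm.sign σ = -1 := by
    rw [h2]; exact Odd.neg_one_pow (Nat.odd_iff.2 (by omega))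
  let f : H →* ℤˣ := Equiv.Perm.sign.comp (MulAction.toPermHom H (H ⧸ K))
  have fz : f z = -1 := h3
  refine ⟨f.ker, isComplement'_of_card_mul_and_disjoint ?_ ?_⟩
  · have : f.range = ⊤ := eq_top_iff.2 fun u _ => by
      rcases Int.units_eq_one_or u with rfl | rfl
      exacts [⟨1, map_one _⟩, ⟨z, fz⟩]
    rw [hZ, ← f.ker.index_mul_card, index_ker, this, card_top, Nat.card_eq_fintype_card (α := ℤˣ)]
    rfl
  · rw [disjoint_iff, eq_bot_iff_forall]
    intro g hg
    by_contra g1
    obtain ⟨y, -, hy⟩ := (Nat.card_eq_two_iff' (1 : center H)).1 hZ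
    have e : g = z := congrArg Subtype.val ((hy ⟨g, hg.1⟩ fun e => g1 (congrArg Subtype.val e)).trans
      (hy ⟨z, hz⟩ fun e => z1 (congrArg Subtype.val e)).symm)
    have : f g = 1 := hg.2
    rw [e, fz] at this
    exact absurd this (by decide)

theorem dih {H A : Type} [Group H] [Finite H] [Group A] (π : H →* A) {z x y : H} (z1 : z ≠ 1) (πz : π z = 1)
    (x2 : x * x = 1) (y2 : y * y = 1) {j : ℕ} (hr : (x * y) ^ 2 ^ j = 1) (ho : orderOf (π (x * y)) = 2 ^ j)
    (hx : π x ∉ zpowers (π (x * y))) : ∃ K : Subgroup H, z ∉ K ∧ 2 ^ (j + 1) ∣ Nat.card K := by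
  haveI : Fact (Nat.Prime 2) := ⟨Nat.prime_two⟩
  set r := x * y with hrd
  have xi : x⁻¹ = x := inv_eq_of_mul_eq_one_right x2
  have c1 : x * r * x⁻¹ = r⁻¹ := by
    rw [hrd, mul_inv_rev, inv_eq_of_mul_eq_one_right y2, xi, ← mul_assoc, x2, one_mul]
  have c2 : ∀ i : ℤ, r ^ i * x = x * r ^ (-i) := fun i => by
    have : x * r ^ (-i) * x⁻¹ = r ^ i := by rw [← conj_zpow, c1]; simp
    rw [← this, mul_assoc, inv_mul_cancel, mul_one]
  let K : Subgroup H :=
    { carrier := {g | ∃ i : ℤ, g = r ^ i ∨ g = x * r ^ i}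
      one_mem' := ⟨0, Or.inl (zpow_zero _).symm⟩
      mul_mem' := by
        rintro _ _ ⟨i, rfl | rfl⟩ ⟨k, rfl | rfl⟩
        · exact ⟨i + k, Or.inl (zpow_add _ _ _).symm⟩
        · exact ⟨-i + k, Or.inr (by rw [← mul_assoc, c2, mul_assoc, zpow_add])⟩
        · exact ⟨i + k, Or.inr (by rw [mul_assoc, zpow_add])⟩
        · exact ⟨-i + k, Or.inl (by rw [mul_assoc, ← mul_assoc _ x, c2, ← mul_assoc, ← mul_assoc, x2, one_mul, zpow_add])⟩
      inv_mem' := by
        rintro _ ⟨i, rfl | rfl⟩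
        · exact ⟨-i, Or.inl (zpow_neg _ _).symm⟩
        · exact ⟨i, Or.inr (by rw [mul_inv_rev, xi, ← zpow_neg, c2, neg_neg])⟩ }
  have o : orderOf r = 2 ^ j := Nat.dvd_antisymm (orderOf_dvd_of_pow_eq_one hr) (ho ▸ orderOf_map_dvd π r)
  refine ⟨K, ?_, ?_⟩
  · rintro ⟨i, e | e⟩
    · have := congrArg π e
      rw [πz, map_zpow, eq_comm, ← orderOf_dvd_iff_zpow_eq_one, ho, ← o, orderOf_dvd_iff_zpow_eq_one] at this
      exact z1 (e.trans this)
    · have := congrArg π e
      rw [πz, map_mul, map_zpow, eq_comm, mul_eq_one_iff_eq_inv] at this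
      exact hx (this ▸ inv_mem (zpow_mem (mem_zpowers _) _))
  · have hp : IsPGroup 2 K := by
      rintro ⟨g, i, rfl | rfl⟩
      · exact ⟨j, Subtype.ext (by
          show (r ^ i) ^ 2 ^ j = 1
          rw [← zpow_natCast, ← zpow_mul, mul_comm, zpow_mul, zpow_natCast, hr, one_zpow])⟩
      · exact ⟨1, Subtype.ext (by
          show (x * r ^ i) ^ 2 ^ 1 = 1
          rw [pow_one, pow_two, mul_assoc, ← mul_assoc _ x, c2, ← mul_assoc, ← mul_assoc, x2]; simp)⟩
    obtain ⟨k, hk⟩ := hp.exists_card_eq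
    have le : zpowers r ≤ K := zpowers_le.2 ⟨1, Or.inl (zpow_one _).symm⟩
    have lt : Nat.card (zpowers r) < Nat.card K := by
      by_contra hc
      have := eq_of_le_of_card_ge le (not_lt.1 hc)
      have h2 : x ∈ zpowers r := this ▸ (⟨0, Or.inr (by simp)⟩ : x ∈ K)
      obtain ⟨i, hi⟩ := mem_zpowers_iff.1 h2
      exact hx ⟨i, by rw [← hi]; simp⟩
    rw [Nat.card_zpowers, o, hk] at lt
    rw [hk]
    exact pow_dvd_pow 2 ((Nat.pow_lt_pow_iff_right (by norm_num)).1 lt)

theorem ctype {n : ℕ} (hn : n ≤ 7) {a : Equiv.Perm (Fin n)} (ha : a ∈ alternatingGroup (Fin n)) (a1 : a ≠ 1)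
    (a2 : a ^ 2 = 1) : a.cycleType = Multiset.replicate 2 2 ∧ 4 ≤ n := by
  haveI : Fact (Nat.Prime 2) := ⟨Nat.prime_two⟩
  have hc := Equiv.Perm.cycleType_of_pow_prime_eq_one a2
  have h1 := Equiv.Perm.sum_cycleType_le a
  have h2 := Equiv.Perm.sign_of_cycleType a
  have h0 : a.cycleType.card ≠ 0 := by simpa using a1
  rw [Equiv.Perm.mem_alternatingGroup.1 ha] at h2
  generalize a.cycleType.card = k at hc h0
  rw [hc] at h1 h2
  simp only [Multiset.sum_replicate, smul_eq_mul, Multiset.card_replicate, Fintype.card_fin] at h1 h2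
  have : k ≤ 3 := by omega
  interval_cases k
  · exact absurd rfl h0
  · exact absurd h2 (by decide)
  · exact ⟨hc, by omega⟩
  · exact absurd h2 (by decide)

theorem conjA {n : ℕ} (hn : n ≤ 7) {a b : alternatingGroup (Fin n)} (a1 : a ≠ 1) (a2 : a ^ 2 = 1)
    (b1 : b ≠ 1) (b2 : b ^ 2 = 1) : IsConj a b := by
  have a1' : a.1 ≠ 1 := fun e => a1 (Subtype.ext e)
  have a2' : a.1 ^ 2 = 1 := congrArg Subtype.val a2
  obtain ⟨c, hc⟩ := isConj_iff.1 (Equiv.Perm.isConj_iff_cycleType_eq.2 ((ctype hn a.2 a1' a2').1.trans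
    (ctype hn b.2 (fun e => b1 (Subtype.ext e)) (congrArg Subtype.val b2)).1.symm))
  rcases Int.units_eq_one_or (Equiv.Perm.sign c) with e | e
  · exact isConj_iff.2 ⟨⟨c, e⟩, Subtype.ext hc⟩
  · obtain ⟨i, hi⟩ : ∃ i, a.1 i ≠ i := by
      by_contra h
      push Not at h
      exact a1' (Equiv.ext h)
    have h1 : a.1 (a.1 i) = i := by rw [← Equiv.Perm.mul_apply, ← pow_two, a2']; rfl
    have h2 : Equiv.swap i (a.1 i) * a.1 * (Equiv.swap i (a.1 i))⁻¹ = a.1 := by
      rw [mul_inv_eq_iff_eq_mul, Equiv.mul_swap_eq_swap_mul, h1, Equiv.swap_comm]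
    refine isConj_iff.2 ⟨⟨c * Equiv.swap i (a.1 i), ?_⟩, Subtype.ext ?_⟩
    · rw [Equiv.Perm.mem_alternatingGroup, map_mul, e, Equiv.Perm.sign_swap hi.symm]; decide
    · show c * Equiv.swap i (a.1 i) * a.1 * (c * Equiv.swap i (a.1 i))⁻¹ = b.1
      rw [← hc, ← h2]; rw [h2]; rw [mul_inv_rev, ← mul_assoc, mul_assoc c, mul_assoc c, h2]

theorem part1 {n : ℕ} (hn : n ≤ 7) {H : Type} [Group H] [Finite H] (hZ : Nat.card (center H) = 2)
    (π : H →* alternatingGroup (Fin n)) (hs : Function.Surjective π) (hk : π.ker = center H)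
    (hL : ∀ L : Subgroup H, ¬ (center H).IsComplement' L) {z : H} (hz : z ∈ center H) (z1 : z ≠ 1)
    {x : H} (hx : orderOf x = 2) : x = z := by
  haveI : Fact (Nat.Prime 2) := ⟨Nat.prime_two⟩
  obtain ⟨y, -, hy⟩ := (Nat.card_eq_two_iff' (1 : center H)).1 hZ
  have uz : ∀ g ∈ center H, g ≠ 1 → g = z := fun g hg g1 =>
    congrArg Subtype.val ((hy ⟨g, hg⟩ fun e => g1 (congrArg Subtype.val e)).trans
      (hy ⟨z, hz⟩ fun e => z1 (congrArg Subtype.val e)).symm)
  have x1 : x ≠ 1 := by rintro rfl; simp at hx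
  have x2 : x ^ 2 = 1 := hx ▸ pow_orderOf_eq_one x
  by_contra xz
  have p1 : π x ≠ 1 := fun e => xz (uz x (hk ▸ e) x1)
  have p2 : π x ^ 2 = 1 := by rw [← map_pow, x2, map_one]
  have z2 : z * z = 1 := by
    by_contra h
    exact z1 (mul_left_cancel ((uz _ (mul_mem hz hz) h).trans (mul_one z).symm))
  have sq : ∀ g : H, π g ≠ 1 → π g ^ 2 = 1 → g * g = 1 := fun g g1 g2 => by
    obtain ⟨c, hc⟩ := isConj_iff.1 (conjA hn p1 p2 g1 g2)
    obtain ⟨d, rfl⟩ := hs c
    have : (d * x * d⁻¹)⁻¹ * g ∈ center H := by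
      rw [← hk, MonoidHom.mem_ker, map_mul, map_inv, map_mul, map_mul, map_inv, hc, inv_mul_cancel]
    obtain ⟨w, hw, rfl⟩ : ∃ w ∈ center H, g = d * x * d⁻¹ * w := ⟨_, this, by group⟩
    have w2 : w * w = 1 := by
      by_cases e : w = 1
      · simp [e]
      · rw [uz w hw e, z2]
    calc d * x * d⁻¹ * w * (d * x * d⁻¹ * w) = d * x * d⁻¹ * (w * (d * x * d⁻¹)) * w := by group
      _ = d * (x ^ 2) * d⁻¹ * (w * w) := by rw [← mem_center_iff.1 hw (d * x * d⁻¹), pow_two]; group
      _ = 1 := by rw [x2, w2]; group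
  have cH : Nat.card H = 2 * Nat.card (alternatingGroup (Fin n)) := by
    rw [← π.ker.index_mul_card, index_ker, MonoidHom.range_eq_top.2 hs, card_top, hk, hZ, mul_comm]
  have fin : ∀ (a b : alternatingGroup (Fin n)) (j : ℕ), a ≠ 1 → a ^ 2 = 1 → b ≠ 1 → b ^ 2 = 1 →
      (a * b) ^ 2 ^ j ≠ 1 → (a * b) ^ 2 ^ (j + 1) = 1 → a ∉ (Finset.range (2 ^ (j + 1))).image ((a * b) ^ ·) →
      ¬ 2 ^ (j + 3) ∣ Nat.card (alternatingGroup (Fin n)) → False := by
    intro a b j a1 a2 b1 b2 c1 c2 c3 c4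
    obtain ⟨u, rfl⟩ := hs a
    obtain ⟨v, rfl⟩ := hs b
    have o : orderOf (π (u * v)) = 2 ^ (j + 1) := by rw [map_mul]; exact orderOf_eq_prime_pow c1 c2
    obtain ⟨K, k1, k2⟩ := dih π z1 (hk ▸ hz : z ∈ π.ker) (sq u a1 a2) (sq v b1 b2) (j := j + 1) (by
      rw [pow_succ, pow_mul, pow_two]
      exact sq _ (by rwa [map_pow, map_mul]) (by rwa [map_pow, map_mul, ← pow_mul, ← pow_succ])) o (by
      rw [mem_zpowers_iff_mem_range_orderOf, o, map_mul]; exact c3)
    obtain ⟨L, h⟩ := split hZ hz z1 K k1 fun h4 => c4 (by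
      have := mul_dvd_mul h4 k2
      rw [K.index_mul_card, cH, show 4 * 2 ^ (j + 1 + 1) = 2 * 2 ^ (j + 3) by ring] at this
      exact Nat.dvd_of_mul_dvd_mul_left (by norm_num) this)
    exact hL L h
  have h4 := (ctype hn (π x).2 (fun e => p1 (Subtype.ext e)) (congrArg Subtype.val p2)).2
  clear cH sq p1 p2 hk hs
  interval_cases n
  · exact fin ⟨Equiv.swap 0 1 * Equiv.swap 2 3, Equiv.Perm.mem_alternatingGroup.2 (by decide)⟩ ⟨Equiv.swap 0 2 * Equiv.swap 1 3, Equiv.Perm.mem_alternatingGroup.2 (by decide)⟩ 0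
      (by decide) (by decide) (by decide) (by decide) (by decide) (by decide) (by decide)
      (by rw [nat_card_alternatingGroup]; simp; decide)
  · exact fin ⟨Equiv.swap 0 1 * Equiv.swap 2 3, Equiv.Perm.mem_alternatingGroup.2 (by decide)⟩ ⟨Equiv.swap 0 2 * Equiv.swap 1 3, Equiv.Perm.mem_alternatingGroup.2 (by decide)⟩ 0
      (by decide) (by decide) (by decide) (by decide) (by decide) (by decide) (by decide)
      (by rw [nat_card_alternatingGroup]; simp; decide)
  · exact fin ⟨Equiv.swap 0 1 * Equiv.swap 2 3, Equiv.Perm.mem_alternatingGroup.2 (by decide)⟩ ⟨Equiv.swap 0 2 * Equiv.swap 4 5, Equiv.Perm.mem_alternatingGroup.2 (by decide)⟩ 1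
      (by decide) (by decide) (by decide) (by decide) (by decide) (by decide) (by decide)
      (by rw [nat_card_alternatingGroup]; simp; decide)
  · exact fin ⟨Equiv.swap 0 1 * Equiv.swap 2 3, Equiv.Perm.mem_alternatingGroup.2 (by decide)⟩ ⟨Equiv.swap 0 2 * Equiv.swap 4 5, Equiv.Perm.mem_alternatingGroup.2 (by decide)⟩ 1
      (by decide) (by decide) (by decide) (by decide) (by decide) (by decide) (by decide)
      (by rw [nat_card_alternatingGroup]; simp; decide)

end

/-- Involutions in double covers of alternating groups: for n ≤ 7, a finite non-split double cover of the alternating group of degree n has exactly one element of order 2 (the central one); for degree 8 there is a non-split double cover with two distinct involutions. -/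
theorem result : (∀ (n : ℕ) (H : Type) (_ : Group H) (_ : Finite H), n ≤ 7 → Cfsg.IsNonsplitDoubleCover H (alternatingGroup (Fin n)) → ∀ x y : H, orderOf x = 2 → orderOf y = 2 → x = y) ∧ ∃ (H : Type) (_ : Group H) (_ : Finite H), Cfsg.IsNonsplitDoubleCover H (alternatingGroup (Fin 8)) ∧ ∃ x y : H, x ≠ y ∧ orderOf x = 2 ∧ orderOf y = 2 := by
  open Subgroup in
  refine ⟨fun n H _ _ hn ⟨hZ, ⟨e⟩, hL⟩ x y hx hy => ?_, ?_⟩
  · obtain ⟨z, z1, -⟩ := (Nat.card_eq_two_iff' (1 : center H)).1 hZ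
    let π : H →* alternatingGroup (Fin n) := e.toMonoidHom.comp (QuotientGroup.mk' _)
    have hs : Function.Surjective π := e.surjective.comp (QuotientGroup.mk'_surjective _)
    have hk : π.ker = center H := by
      ext g; simp [π]
    have z1' : z.1 ≠ 1 := fun h => z1 (Subtype.ext h)
    exact (part1 hn hZ π hs hk hL z.2 z1' hx).trans (part1 hn hZ π hs hk hL z.2 z1' hy).symm
  · obtain ⟨H, _, _, z, hz, o, hc, _, ⟨e⟩⟩ := S0891.result 8 (by norm_num)
    haveI : Fact (Nat.Prime 2) := ⟨Nat.prime_two⟩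
    let π : H →* alternatingGroup (Fin 8) := e.toMonoidHom.comp (QuotientGroup.mk' _)
    have hs : Function.Surjective π := e.surjective.comp (QuotientGroup.mk'_surjective _)
    have hk : ∀ g, π g = 1 ↔ g ∈ zpowers z := fun g => by simp [π]
    have hZ : center H = zpowers z := le_antisymm (fun g hg => (hk g).1 (by
        have : π g ∈ center (alternatingGroup (Fin 8)) := mem_center_iff.2 fun a => by
          obtain ⟨b, rfl⟩ := hs a
          rw [← map_mul, ← map_mul, mem_center_iff.1 hg]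
        rwa [alternatingGroup.center_eq_bot (by simp), mem_bot] at this)) (zpowers_le.2 hz)
    have z1 : z ≠ 1 := by rintro rfl; simp at o
    have z2 : z * z = 1 := by rw [← pow_two, ← o, pow_orderOf_eq_one]
    have mz : ∀ g ∈ zpowers z, g = 1 ∨ g = z := fun g hg => by
      classical
      rw [mem_zpowers_iff_mem_range_orderOf, o] at hg
      simpa [Finset.range_add_one, or_comm, eq_comm] using hg
    refine ⟨H, inferInstance, inferInstance, ⟨by rw [hZ, Nat.card_zpowers, o],
      ⟨(QuotientGroup.quotientMulEquivOfEq hZ).trans e⟩, fun L hL => ?_⟩, ?_⟩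
    · have : commutator H ≤ L := by
        rw [_root_.commutator_def, commutator_le]
        intro a _ b _
        obtain ⟨⟨u, v⟩, rfl⟩ := hL.2 a
        obtain ⟨⟨s, t⟩, rfl⟩ := hL.2 b
        have h1 := mem_center_iff.1 u.2
        have h2 := mem_center_iff.1 s.2
        have : ⁅u.1 * v.1, s.1 * t.1⁆ = ⁅v.1, t.1⁆ := by
          rw [commutatorElement_def, commutatorElement_def, ← h1, ← h2 t, mul_inv_rev, mul_inv_rev]
          calc v.1 * u.1 * (t.1 * s.1) * (u.1⁻¹ * v.1⁻¹) * (s.1⁻¹ * t.1⁻¹)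
              = v.1 * (u.1 * (t.1 * s.1)) * u.1⁻¹ * v.1⁻¹ * (s.1⁻¹ * t.1⁻¹) := by group
            _ = v.1 * t.1 * (s.1 * v.1⁻¹) * (s.1⁻¹ * t.1⁻¹) := by rw [← h1]; group
            _ = _ := by rw [← h2]; group
        show ⁅u.1 * v.1, s.1 * t.1⁆ ∈ L
        rw [this, commutatorElement_def]
        exact mul_mem (mul_mem (mul_mem v.2 t.2) (inv_mem v.2)) (inv_mem t.2)
      exact z1 (disjoint_def.1 hL.disjoint hz (this hc))
    · by_contra hne
      have sq : ∀ g : H, π g ≠ 1 → π g ^ 2 = 1 → g * g = z := fun g g1 g2 => by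
        rcases mz (g * g) ((hk _).1 (by rw [map_mul, ← pow_two, g2])) with h | h
        · have : g = z := by
            by_contra h'
            exact hne ⟨g, z, h', orderOf_eq_prime (by rw [pow_two, h]) (by rintro rfl; simp at g1), o⟩
          exact (g1 ((hk g).2 (this ▸ mem_zpowers z))).elim
        · exact h
      obtain ⟨x, hx⟩ := hs ⟨Equiv.swap 0 1 * Equiv.swap 2 3, Equiv.Perm.mem_alternatingGroup.2 (by decide)⟩
      obtain ⟨y, hy⟩ := hs ⟨Equiv.swap 0 2 * Equiv.swap 1 3, Equiv.Perm.mem_alternatingGroup.2 (by decide)⟩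
      obtain ⟨w, hw⟩ := hs ⟨Equiv.swap 4 5 * Equiv.swap 6 7, Equiv.Perm.mem_alternatingGroup.2 (by decide)⟩
      have a1 := sq x (by rw [hx]; decide) (by rw [hx]; decide)
      have a2 := sq y (by rw [hy]; decide) (by rw [hy]; decide)
      have a3 := sq w (by rw [hw]; decide) (by rw [hw]; decide)
      have a4 := sq (x * y) (by rw [map_mul, hx, hy]; decide) (by rw [map_mul, hx, hy]; decide)
      have a5 := sq (x * w) (by rw [map_mul, hx, hw]; decide) (by rw [map_mul, hx, hw]; decide)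
      have a6 := sq (y * w) (by rw [map_mul, hy, hw]; decide) (by rw [map_mul, hy, hw]; decide)
      have a7 := sq (x * y * w) (by rw [map_mul, map_mul, hx, hy, hw]; decide)
        (by rw [map_mul, map_mul, hx, hy, hw]; decide)
      have c := mem_center_iff.1 hz
      have sw : ∀ a b : H, a * a = z → b * b = z → a * b * (a * b) = z → b * a = a * b * z := fun a b h1 h2 h3 => by
        have : a * (b * a) * b = a * (a * b * z) * b := by
          calc a * (b * a) * b = a * b * (a * b) := by group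
            _ = z * (z * z) := by rw [h3, z2, mul_one]
            _ = a * a * (z * (b * b)) := by rw [h1, h2]
            _ = a * (a * (z * b)) * b := by group
            _ = _ := by rw [← c b]; group
        exact mul_left_cancel (mul_right_cancel this)
      have b1 := sw x w a1 a3 a5
      have b2 := sw y w a2 a3 a6
      apply z1
      calc z = x * y * (w * x) * y * w := by rw [← a7]; group
        _ = x * y * x * w * (z * y) * w := by rw [b1]; group
        _ = x * y * x * (w * y) * z * w := by rw [← c y]; group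
        _ = x * y * (x * y) * w * (z * z) * w := by rw [b2]; group
        _ = z * (w * w) := by rw [z2, a4]; group
        _ = 1 := by rw [a3, z2]

end Cfsg.Agent.S0447
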