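import Cfsg.Statements.S0497
import Mathlib
import Cfsg.Agent.H8.BSW9

set_option autoImplicit false
open Cfsg

namespace Cfsg.Agent.S0497

open Subgroup H7 H8 MulAction

/-- A simple group of order 360 is isomorphic to the alternating group of degree 6. -/
theorem result {G : Type*} [Group G] [Finite G] [IsSimpleGroup G]
    (h : Nat.card G = 360) : Nonempty (G ≃* alternatingGroup (Fin 6)) := by
  classical
  by_cases h6 : ∃ H : Subgroup G, H.index = 6
  · obtain ⟨H, hH⟩ := h6
    exact H4.equiv_alt_of_injective _ (H4.toPermHom_quot_injective H fun e => by simp [e] at hH) hH (by rw [h]; rfl)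
  have hi : ∀ H : Subgroup G, H ≠ ⊤ → 7 ≤ H.index := fun H hH => by_contra fun e => by
    have h1 := H4.card_dvd_factorial_of_simple H hH
    have h2 : H.index ≠ 6 := fun e => h6 ⟨H, e⟩
    rw [h] at h1
    generalize H.index = n at *
    have : n < 7 := by omega
    interval_cases n <;> simp [Nat.factorial] at h1 h2
  have hn : ∀ H : Subgroup G, H ≠ ⊥ → H ≠ ⊤ → nrm H ≠ ⊤ := fun H h1 h2 e =>
    (normalizer_eq_top_iff.1 e).eq_bot_or_eq_top.elim h1 h2
  have hc : ∀ H : Subgroup G, H ≠ ⊤ → ord H ∣ 360 ∧ ord H ≤ 51 := fun H hH => ⟨h ▸ H.card_subgroup_dvd_card, by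
    have := H.card_mul_index; have := hi H hH; nlinarith⟩
  have ht : ∀ H : Subgroup G, ord H ≠ 360 → H ≠ ⊤ := fun H h1 e => h1 (by rw [e, card_top, h])
  haveI := Fact.mk Nat.prime_five
  obtain ⟨P⟩ : Nonempty (Sylow 3 G) := inferInstance
  have hP : ord (P : Subgroup G) = 9 := (H4.sylow_card_of P (k := 2) (m := 40) h (by norm_num)).1
  have hS := H2.sylow_isSylowIn_top P
  have cP : (P : Subgroup G) ≤ cen P := isComm_iff.1 (IsPGroup.isMulCommutative_of_card_eq_prime_sq (p := 3) hP)
  have bur : ∀ C : Subgroup G, (P : Subgroup G) ≤ C → C ⊓ nrm P ≤ P → ord (Op' 3 C) * 9 = ord C := fun C h1 h2 => by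
    have := npc_iff.1 (H1B.hasNPC_iff.2 (H1B.burnside (hS.mono h1 le_top) (h2.trans cP)))
    rw [← this.sup (hS.mono h1 le_top), sup_comm, card_sup_of_inf_eq_bot (h1.trans (le_nrm_Opi _ _))
      (disjoint_of_coprime_natCard (by rw [hP]; exact ((coprime_Op' 3 C).pow_right 2).symm)).eq_bot, hP,
      sup_comm, this.sup (hS.mono h1 le_top), mul_comm]
  have n3 : Nat.card (Sylow 3 G) = 10 := by
    obtain ⟨h1, h2, h3, -⟩ := card_sylow_facts (G := G) (p := 3) (k := 2) (m := 40) h (by norm_num) (by norm_num)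
      (by norm_num)
    have h4 := hi (nrm P) fun e => h3 (by rw [P.card_eq_index_normalizer]; exact index_eq_one.2 e)
    have h5 : Nat.card (Sylow 3 G) ≠ 40 := fun e => by
      have h6 := (nrm (P : Subgroup G)).card_mul_index
      rw [show (nrm (P : Subgroup G)).index = 40 from P.card_eq_index_normalizer.symm.trans e] at h6
      have := bur ⊤ le_top (by rw [top_inf_eq, ← eq_of_le_of_card_le (le_nrm_self _) (by omega)])
      rw [card_top] at this
      exact hn (Op' 3 ⊤) (fun e => by rw [e, card_bot] at this; omega) (ht _ (by omega))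
        (top_le_iff.1 (le_nrm_Opi _ _))
    rw [show (nrm (P : Subgroup G)).index = _ from P.card_eq_index_normalizer.symm] at h4
    have := Nat.le_of_dvd (by norm_num) h1
    generalize Nat.card (Sylow 3 G) = n at *
    interval_cases n <;> omega
  have hm : ∀ u ∈ (P : Subgroup G), u ≠ 1 → (P : Subgroup G) ≤ cen1 u ∧ (P : Subgroup G).relIndex (cen1 u) ∣ 4 := by
    intro u hu u1
    have h1 : (P : Subgroup G) ≤ cen1 u := le_cen1_iff.2 (cP hu)
    have h0 : orderOf u ∣ 9 := hP ▸ orderOf_dvd_card' hu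
    have h2 := hc (cen1 u) fun e => hn (zpowers u) (by simpa using u1) (ht _ (by
      rw [Nat.card_zpowers]; have := Nat.le_of_dvd (by norm_num) h0; omega)) (top_le_iff.1 (e.ge.trans
        (le_nrm_of_le_cen (by rw [zpowers_eq_closure, centralizer_closure]))))
    have h3 := relIndex_mul_card' h1
    have h4 : ¬ 5 ∣ ord (cen1 u) := fun e => by
      obtain ⟨y, hy, hy'⟩ := exists_orderOf_eq Nat.prime_five e
      have h5 : IsSylowIn 5 (zpowers y) ⊤ := ⟨le_top, isPGroup_zpowers_of_orderOf hy', by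
        have := (zpowers y).card_mul_index
        rw [relIndex_top_right]; rw [Nat.card_zpowers, hy', h] at this; omega⟩
      obtain ⟨h1, h2, h3, -⟩ := card_sylow_facts (G := G) (p := 5) (k := 1) (m := 72) h (by norm_num) (by norm_num)
        (by norm_num)
      rw [h5.toSylowTop.card_eq_index_normalizer] at h1 h2 h3
      change (nrm (zpowers y)).index ∣ _ at h1
      change (nrm (zpowers y)).index % 5 = _ at h2
      have h7 := hi (nrm (zpowers y)) fun e => h3 (index_eq_one.2 e)
      have h8 := (nrm (zpowers y)).card_mul_index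
      have h9 := orderOf_dvd_card' (le_nrm_of_le_cen (H := zpowers y) (A := cen1 y)
        (by rw [zpowers_eq_closure, centralizer_closure]) (mem_cen1_comm.1 hy))
      have := Nat.le_of_dvd (by norm_num) h1
      have h10 : (nrm (zpowers y)).index = 36 := by
        generalize (nrm (zpowers y)).index = n at *
        interval_cases n <;> omega
      rw [show ord (nrm (zpowers y)) = 10 by rw [h10] at h8; omega] at h9
      exact u1 (orderOf_eq_one_iff.1 (Nat.eq_one_of_dvd_coprimes (by norm_num) h0 h9))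
    refine ⟨h1, ?_⟩
    rw [← h3, hP] at h2 h4
    generalize (P : Subgroup G).relIndex (cen1 u) = n at *
    have : n ≤ 5 := by omega
    interval_cases n <;> omega
  have hN : ∀ u ∈ (P : Subgroup G), u ≠ 1 → cen1 u ≤ nrm P := fun u hu u1 => by_contra fun e => by
    obtain ⟨h1, h2⟩ := hm u hu u1
    have h3 : (P : Subgroup G) ≤ cen1 u ⊓ nrm P := le_inf h1 (le_nrm_self _)
    have h4 := relIndex_mul_relIndex _ _ _ h3 inf_le_left
    have h5 := mt relIndex_eq_one.1 fun e' : cen1 u ≤ cen1 u ⊓ nrm P => e (e'.trans inf_le_right)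
    have h7 : (cen1 u ⊓ nrm P).relIndex (cen1 u) ≠ 2 := fun e' => e (by
      rw [← Op_eq_of_sylow (hS.mono h3 le_top) inf_le_right]
      exact nrm_Opi _ (le_nrm_rel e' inf_le_left))
    obtain ⟨k, hk, h8⟩ := (Nat.dvd_prime_pow Nat.prime_two (m := 2)).1 ((Dvd.intro_left _ h4).trans h2)
    have h9 : (P : Subgroup G).relIndex (cen1 u) = 4 ∧ (P : Subgroup G).relIndex (cen1 u ⊓ nrm P) = 1 := by
      have := Nat.le_of_dvd four_pos h2
      have := Nat.pos_of_dvd_of_pos h2 four_pos
      interval_cases k <;> simp only [h8] at h4 h5 h7 <;> omega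
    have h10 := bur _ h1 (relIndex_eq_one.1 h9.2)
    rw [← relIndex_mul_card' h1, h9.1, hP] at h10
    replace h10 : ord (Op' 3 (cen1 u)) = 4 := by omega
    have h11 : IsPGroup 2 (Op' 3 (cen1 u)) := IsPGroup.of_card (n := 2) (by omega)
    obtain ⟨T, hT, h12⟩ := H2.exists_isSylowIn_ge h11 le_top
    have h13 := (H4.sylow_card_of hT.toSylowTop (k := 3) (m := 45) h (by norm_num)).1
    rw [hT.coe_toSylowTop] at h13
    have h14 := pgroup_lt_nrm hT.isPGroup (h12.lt_of_ne fun e => by rw [e] at h10; omega)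
    have h15 := card_dvd_of_le h14.le
    have h16 := card_dvd_of_le (inf_le_left : T ⊓ nrm (Op' 3 (cen1 u)) ≤ _)
    have h17 := card_dvd_of_le (inf_le_right : T ⊓ nrm (Op' 3 (cen1 u)) ≤ _)
    have h18 := card_dvd_of_le (h1.trans (le_nrm_Opi {3}ᶜ (cen1 u)))
    have h19 := mt (eq_of_le_of_card_le h14.le) h14.ne
    have h20 := hc _ (hn (Op' 3 (cen1 u)) (fun e => by rw [e, card_bot] at h10; omega) (ht _ (by omega)))
    have h21 := card_pos' (nrm (Op' 3 (cen1 u)))
    have := Nat.le_of_dvd (by omega) h16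
    rw [h10] at h15 h19
    rw [hP] at h18
    rw [show ord (T ⊓ nrm (Op' 3 (cen1 u)) : Subgroup G) = 8 by omega] at h17
    omega
  haveI : Nontrivial (Sylow 3 G) := Finite.one_lt_card_iff_nontrivial.1 (by omega)
  haveI : FaithfulSMul G (Sylow 3 G) := faithful_of_simple
  have fx : ∀ u ∈ (P : Subgroup G), u ≠ 1 → ∀ Q : Sylow 3 G, u • Q = Q → Q = P := fun u hu u1 Q e => by
    have h1 : u ∈ (Q : Subgroup G) := zpowers_le.1 ((H2.sylow_isSylowIn_top Q).le_of_le_normalizer
      (P.isPGroup'.to_le (zpowers_le.2 hu)) le_top (zpowers_le.2 (Sylow.smul_eq_iff_mem_normalizer.1 e)))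
    have h2 : (Q : Subgroup G) ≤ cen1 u := le_cen1_iff.2 (isComm_iff.1 (IsPGroup.isMulCommutative_of_card_eq_prime_sq
      (H4.sylow_card_of Q (k := 2) (m := 40) h (by norm_num)).1) h1)
    exact Sylow.ext (Q.3 P.2 (hS.le_of_le_normalizer Q.2 le_top (h2.trans (hN u hu u1)))).symm
  obtain ⟨z, hz⟩ := zs_of_cc P (by rw [n3, hP]) (by omega) fun u hu u1 => by
    obtain ⟨h1, h2⟩ := hm u hu u1
    refine le_antisymm (relIndex_eq_one.1 (by_contra fun e => ?_)) h1
    obtain ⟨t, htC, t2, t1⟩ := exists_invol_of_even (K := cen1 u) (by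
      rw [← relIndex_mul_card' h1]
      obtain ⟨k, hk, h8⟩ := (Nat.dvd_prime_pow Nat.prime_two (m := 2)).1 h2
      rw [Nat.even_iff, hP]; interval_cases k <;> omega)
    haveI := Fintype.ofFinite (Sylow 3 G)
    have h3 : Equiv.Perm.sign (toPermHom G (Sylow 3 G) t) = 1 := by
      rcases (Equiv.Perm.sign.comp (toPermHom G (Sylow 3 G))).normal_ker.eq_bot_or_eq_top with e | e
      · have := Nat.card_le_card_of_injective _ ((MonoidHom.ker_eq_bot_iff _).1 e)
        simp [h] at this
      · exact e.ge (mem_top t)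
    have h4 : toPermHom G (Sylow 3 G) t ^ 2 = 1 := by rw [← map_pow, pow_two, t2, map_one]
    let X : SubMulAction (zpowers u) (Sylow 3 G) := ⟨fixedBy _ t, fun g x hx => by
      rw [mem_fixedBy, Subgroup.smul_def, ← mul_smul, ← mem_cen1.1 (zpowers_le.2 (mem_cen1_comm.1 htC) g.2),
        mul_smul, show t • x = x from hx]⟩
    have h5 := (P.isPGroup'.to_le (zpowers_le.2 hu)).card_modEq_card_fixedPoints X
    have h7 : Nat.card (fixedPoints (zpowers u) X) = 1 := Nat.card_eq_one_iff_exists.2 ⟨⟨⟨P,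
      Sylow.smul_eq_iff_mem_normalizer.2 (hN u hu u1 htC)⟩, fun g => Subtype.ext
        (Sylow.smul_eq_iff_mem_normalizer.2 (le_nrm_self _ (zpowers_le.2 hu g.2)))⟩, fun Q => Subtype.ext (Subtype.ext
          (fx u hu u1 _ (congrArg Subtype.val (Q.2 ⟨u, mem_zpowers u⟩))))⟩
    have h8 : Fintype.card (Sylow 3 G) ≡ Fintype.card (Function.fixedPoints (toPermHom G (Sylow 3 G) t)) [MOD 2] :=
      Equiv.Perm.card_fixedPoints_modEq (f := fun x => toPermHom G (Sylow 3 G) t x) (p := 2) (n := 1)
        (congrArg DFunLike.coe h4)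
    rw [Equiv.Perm.sign_of_pow_two_eq_one h4] at h3
    have h9 : Fintype.card (Function.fixedPoints (toPermHom G (Sylow 3 G) t)) < Fintype.card (Sylow 3 G) := by
      obtain ⟨x, hx⟩ := not_forall.1 fun e : ∀ x : Sylow 3 G, t • x = x => t1 (eq_of_smul_eq_smul (α := Sylow 3 G)
        fun x => by rw [e, one_smul])
      exact Fintype.card_subtype_lt hx
    rw [h7, show Nat.card X = Fintype.card (Function.fixedPoints (toPermHom G (Sylow 3 G) t)) from
      Nat.card_eq_fintype_card] at h5
    rw [← Nat.card_eq_fintype_card (α := Sylow 3 G), n3] at h3 h8 h9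
    rw [show Fintype.card (Function.fixedPoints (toPermHom G (Sylow 3 G) t)) = 4 by
      unfold Nat.ModEq at h5 h8; omega] at h3
    exact absurd h3 (by decide)
  obtain ⟨b, hb⟩ := z.exists_ne P
  have h1 := z.card_G hb.symm
  rw [hz, hP] at h1
  obtain ⟨-, -, p, f, K, _, _, -, -, h2, h3, e⟩ := z.psl_of_even hb.symm (by
    rw [show Nat.card (S2 G P b) = 4 by omega]; decide) (by rw [hz, hP]; omega)
  exact e.map2 .trans (Cfsg.Agent.S0254.result (by rw [h2, ← h3, hz, hP]))

end Cfsg.Agent.S0497
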