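import Cfsg.Statements.S0690
import Mathlib
import Cfsg.Agent.H8.FC4

set_option autoImplicit false
open Cfsg

namespace Cfsg.Agent.S0690

open H8 H7 Subgroup

/-- Zassenhaus: a perfect non-trivial group of fixed-point-free automorphisms of a finite group is isomorphic to `SL(2,5)`. -/
theorem result {K : Type*} [Group K] [Finite K] (G : Subgroup (MulAut K)) (hfpf : ∀ φ ∈ G, φ ≠ 1 → ∀ k : K, φ k = k → k = 1) (hperf : commutator G = ⊤) (hne : G ≠ ⊥) : Nonempty (G ≃* Matrix.SpecialLinearGroup (Fin 2) (ZMod 5)) := by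
  haveI := (nontrivial_iff_ne_bot G).2 hne
  haveI : Nontrivial K := by
    by_contra! hK
    exact hne (eq_bot_iff.2 fun φ _ => mem_bot.2 (MulEquiv.ext fun x => Subsingleton.elim _ _))
  exact (fc_of_mulAut G.subtype fun g k e => by
    by_cases g1 : g = 1
    · exact .inl g1
    · exact .inr (hfpf g g.2 (fun e => g1 (Subtype.ext e)) k e)).sl25_of_perfect hperf

end Cfsg.Agent.S0690
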