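import Cfsg.Statements.S0824
import Cfsg.Agent.H0.Sym
import Cfsg.Agent.S0288


set_option autoImplicit false
open Cfsg

namespace Cfsg.Agent.S0824

set_option maxRecDepth 100000
set_option Elab.async false
section
open H0 BN Matrix

noncomputable def C := ((mc2 (ZMod 2) (1 + 1 + 2) 0x1111 0x8421 (by decide +kernel) (by decide +kernel)).reix ((Equiv.sumCongr finSumFinEquiv (Equiv.refl _)).trans finSumFinEquiv : (Fin 1 ⊕ Fin 1) ⊕ Fin 2 ≃ Fin (1 + 1 + 2)))
theorem hC : Rd (rc2 (ZMod 2)) ((Equiv.sumCongr finSumFinEquiv (Equiv.refl _)).trans finSumFinEquiv : (Fin 1 ⊕ Fin 1) ⊕ Fin 2 ≃ Fin (1 + 1 + 2)) C := (rd_2 _)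
def c : List ℕ := [0xc421, 0x8c21, 0xd471, 0x8412]
theorem hQ (v) : (quadFormMinus 1 (ZMod 2) 1 1) v = v ⬝ᵥ (C.val 0x8c02 *ᵥ v) := by revert v; decide +kernel
noncomputable def ι := ιG (isometryGroup (ZMod 2) (quadFormMinus 1 (ZMod 2) 1 1))
theorem hι : Function.Injective ι := ιG_inj
theorem ex : ∀ x < 4, Ex ι C (c.getD x C.one) := ex_all (fun a => ex_iso hC hQ a a) (by decide +kernel)
theorem cod : C.Cod ι (tOf ι C c _ ex) c := cod_tOf ex rfl
end

/-- O⁻_4(2) ≅ S_5: the isometry group of the form x y + z_1² + z_1 z_2 + z_2² over the field with 2 elements is isomorphic to the symmetric group on 5 letters. -/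
theorem result {F : Type*} [Field F] [Fintype F] (hF : Fintype.card F = 2) : Nonempty (↥(Cfsg.isometryGroup F (Cfsg.quadFormMinus 1 F 1 1)) ≃* Equiv.Perm (Fin 5)) := by
  exact (H0.sym_iso hι cod (by decide +kernel) ((S0288.result (ZMod.card 2) 2 (by decide) 1 1 (by decide)).trans (by decide))).map (H0.isoEquiv (H0.fe (ZMod 2) hF (ZMod.card 2)) fun v => by simp [quadFormMinus, -ZMod.pow_card]).symm.trans

end Cfsg.Agent.S0824
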