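import Cfsg.Statements.S0827
import Cfsg.Agent.S0282
import Cfsg.Agent.H4.Dihed
import Cfsg.Agent.H4.Spinor

set_option autoImplicit false
open Cfsg

namespace Cfsg.Agent.S0827

open Matrix

theorem abs {G : Type*} [Group G] (hG : Nat.card G = 72) {x y a b : G} (h1 : x ≠ 1) (h2 : x ^ 3 = 1) (h3 : x * y = y * x)
    (h4 : a * x = y * a) (h5 : x * a * y = a) (h6 : b * x = x * y * b) (h7 : a * b * a = b) (h8 : b * b = a ^ 2)
    (h9 : a ^ (2 * 2) = 1) : ∃ (N : Subgroup G) (_ : N.Normal), Nat.card N = 9 ∧ (∀ x ∈ N, x ^ 3 = 1) ∧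
      Nonempty (G ⧸ N ≃* QuaternionGroup 2) := by
  haveI : Finite G := Nat.finite_of_card_ne_zero (by rw [hG]; norm_num)
  have e4 : a * x * a⁻¹ = y := by rw [h4, mul_inv_cancel_right]
  have e5 : a * y * a⁻¹ = x⁻¹ := by rw [eq_inv_iff_mul_eq_one, mul_eq_one_comm, ← mul_assoc, ← mul_assoc, h5, mul_inv_cancel]
  have e7 : b * a * b⁻¹ = a⁻¹ := by rw [eq_inv_iff_mul_eq_one, mul_eq_one_comm, ← mul_assoc, ← mul_assoc, h7, mul_inv_cancel]
  have ox : orderOf x = 3 := orderOf_eq_prime h2 h1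
  have n2 : ∀ k : ℤ, x ^ k = 1 → (3 : ℤ) ∣ k := fun k h => by exact_mod_cast ox ▸ orderOf_dvd_iff_zpow_eq_one.2 h
  have a2 : a ^ 2 ≠ 1 := fun h => by
    have : a ^ 2 * x * (a ^ 2)⁻¹ = x⁻¹ := by rw [← e5, ← e4]; simp [sq, mul_assoc]
    rw [h, one_mul, inv_one, mul_one, eq_inv_iff_mul_eq_one] at this
    exact absurd (n2 2 (by rwa [zpow_two])) (by decide)
  let N := Subgroup.closure {x, y}
  have hx : x ∈ N := Subgroup.subset_closure (by simp)
  have hy : y ∈ N := Subgroup.subset_closure (by simp)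
  have c : ∀ g ∈ N, ∀ h ∈ N, Commute g h := fun g m h m' =>
    Subgroup.closure_induction₂ (p := fun g h _ _ => Commute g h) (by
      rintro _ _ (rfl | rfl) (rfl | rfl)
      exacts [rfl, h3, h3.symm, rfl]) (fun _ _ => .one_left _) (fun _ _ => .one_right _)
      (fun _ _ _ _ _ _ => .mul_left) (fun _ _ _ _ _ _ => .mul_right) (fun _ _ _ _ => .inv_left) (fun _ _ _ _ => .inv_right) m m'
  have ex : ∀ g ∈ N, g ^ 3 = 1 := fun g m => by
    induction m using Subgroup.closure_induction with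
    | mem g m => rcases m with rfl | rfl; exacts [h2, by rw [← e4, conj_pow, h2]; simp]
    | one => simp
    | mul g h m m' i j => rw [(c g m h m').mul_pow, i, j, one_mul]
    | inv g _ i => rw [inv_pow, i, inv_one]
  obtain ⟨k, hk⟩ := (IsPGroup.iff_card (p := 3) (G := N)).1 fun g => ⟨1, Subtype.ext (ex g.1 g.2)⟩
  have d := Subgroup.card_subgroup_dvd_card N
  have h9' : Nat.card N = 9 := by
    have l : Nat.card (Subgroup.zpowers x) < Nat.card N := lt_of_not_ge fun l => by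
        obtain ⟨j, e⟩ := (Subgroup.eq_of_le_of_card_ge (Subgroup.zpowers_le.2 hx) l).ge hy
        have : x ^ (j * j + 1) = 1 := by
          rw [_root_.zpow_add_one, ← eq_inv_iff_mul_eq_one, ← e5, ← e, ← conj_zpow, e4, ← e, ← _root_.zpow_mul]
        have := n2 _ this
        have : j % 3 = 0 ∨ j % 3 = 1 ∨ j % 3 = 2 := by omega
        rcases this with h | h | h <;> simp [Int.dvd_iff_emod_eq_zero, Int.add_emod, Int.mul_emod, h] at this
    rw [Nat.card_zpowers, ox, hk] at l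
    rw [hk, hG] at d
    have : k < 3 := lt_of_not_ge fun h => absurd ((pow_dvd_pow 3 h).trans d) (by decide)
    interval_cases k <;> simp_all
  have nz : ∀ g, g * x * g⁻¹ ∈ N → g * y * g⁻¹ ∈ N → g ∈ Subgroup.normalizer (N : Set G) := fun g u v =>
    Subgroup.mem_normalizer_fintype fun n m => (show N ≤ N.comap (MulAut.conj g).toMonoidHom from
      (Subgroup.closure_le _).2 (by rintro _ (rfl | rfl); exacts [u, v])) m
  have na := nz a (e4 ▸ hy) (e5 ▸ inv_mem hx)
  have u : b * x * b⁻¹ ∈ N := by rw [h6, mul_inv_cancel_right]; exact mul_mem hx hy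
  have nb := nz b u (by
    rw [show b * y * b⁻¹ = b * a * b⁻¹ * (b * x * b⁻¹) * (b * a * b⁻¹)⁻¹ by rw [← e4]; group, e7]
    exact (Subgroup.mem_normalizer_iff.1 (inv_mem na) _).1 u)
  have inj := H4.quaternionHom_injective h9 h8 e7 (orderOf_eq_prime_pow (p := 2) (n := 1) a2 h9) (by
    rintro ⟨k, rfl⟩
    exact a2 (by rw [sq, ← eq_inv_iff_mul_eq_one, ← e7]; group))
  have d8 : 8 ∣ Nat.card (Subgroup.normalizer (N : Set G)) := by
    have := Subgroup.card_dvd_of_le (show (H4.quaternionHom h9 h8 e7).range ≤ Subgroup.normalizer (N : Set G) by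
      rw [H4.quaternionHom_range, Subgroup.closure_le]; rintro _ (rfl | rfl); exacts [na, nb])
    rwa [← Nat.card_congr (MonoidHom.ofInjective inj).toEquiv, Nat.card_eq_fintype_card, QuaternionGroup.card] at this
  haveI : N.Normal := Subgroup.normalizer_eq_top_iff.1 (Subgroup.eq_top_of_le_card _ (hG ▸ Nat.le_of_dvd Nat.card_pos
    ((by norm_num : Nat.Coprime 8 9).mul_dvd_of_dvd_of_dvd d8 (h9' ▸ Subgroup.card_dvd_of_le Subgroup.le_normalizer))))
  have q := Subgroup.card_eq_card_quotient_mul_card_subgroup N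
  refine ⟨N, this, h9', ex, ⟨.symm (.ofBijective ((QuotientGroup.mk' N).comp (H4.quaternionHom h9 h8 e7))
    ((Nat.bijective_iff_injective_and_card _).2 ⟨(injective_iff_map_eq_one _).2 fun g m => ?_, ?_⟩))⟩⟩
  · have : g ^ 3 = 1 := inj (by rw [map_pow, map_one, ex _ ((QuotientGroup.eq_one_iff _).1 m)])
    revert this g
    exact fun g _ => (by decide : ∀ g : QuaternionGroup 2, g ^ 3 = 1 → g = 1) g
  · rw [hG, h9'] at q
    rw [Nat.card_eq_fintype_card, QuaternionGroup.card]; omega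

theorem eqv {F : Type*} [Field F] {u v : SU 3 F 2} (c : F) (h : u.1.1 = c • v.1.1) : (u : PSU 3 F 2) = v :=
  QuotientGroup.eq.2 (Subgroup.mem_center_iff.2 fun g => by
    have : u * g * u⁻¹ * v = v * g * u⁻¹ * u := Subtype.ext (Subtype.ext (by
      show u.1.1 * g.1.1 * (u⁻¹).1.1 * v.1.1 = v.1.1 * g.1.1 * (u⁻¹).1.1 * u.1.1
      generalize (u⁻¹).1.1 = w
      simp [h]))
    calc _ = u⁻¹ * (u * g * u⁻¹ * v) := by group
      _ = _ := by rw [this]; group)

/-- U_3(2) ≅ 3².Q_8: PSU_3(2) (form over the field with 4 elements) has a normal subgroup N which is elementary abelian of order 9 such that the quotient by N is isomorphic to the quaternion group of order 8. -/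
theorem result {F : Type*} [Field F] [Fintype F] (hF : Fintype.card F = 4) : ∃ (N : Subgroup (Cfsg.PSU 3 F 2)) (_ : N.Normal), Nat.card N = 9 ∧ (∀ x ∈ N, x ^ 3 = 1) ∧ Nonempty (Cfsg.PSU 3 F 2 ⧸ N ≃* QuaternionGroup 2) := by
  obtain ⟨ω, h0, h1⟩ := H4.exists_ne_zero_one (F := F) (by simp [hF])
  have h3 : ω ^ 3 = 1 := by simpa [hF] using FiniteField.pow_card_sub_one_eq_one ω h0
  have hω : ω ^ 2 + ω + 1 = 0 := (mul_eq_zero.1 (show (ω - 1) * _ = 0 by linear_combination h3)).resolve_left (sub_ne_zero.2 h1)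
  have h2 : (2 : F) = 0 := by
    have := FiniteField.cast_card_eq_zero F
    rw [hF] at this
    exact pow_eq_zero_iff two_ne_zero |>.1 (by linear_combination this)
  have mk : ∀ M : Matrix (Fin 3) (Fin 3) F, (M.det = 1 ∧ ∀ u v, hermForm 3 F 2 (M *ᵥ u) (M *ᵥ v) = hermForm 3 F 2 u v) →
    ∃ g : SU 3 F 2, g.1.1 = M := fun M h => ⟨⟨⟨M, h.1⟩, h.2⟩, rfl⟩
  obtain ⟨x, ex⟩ := mk !![1, 0, 0; 0, ω, 0; 0, 0, ω ^ 2] (by
    simp [det_fin_three, hermForm, mulVec, dotProduct, Fin.sum_univ_three]; grind)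
  obtain ⟨y, ey⟩ := mk !![0, 1, 0; 0, 0, 1; 1, 0, 0] (by
    simp [det_fin_three, hermForm, mulVec, dotProduct, Fin.sum_univ_three]; grind)
  obtain ⟨a, ea⟩ := mk !![1, 1, 1; 1, ω, ω ^ 2; 1, ω ^ 2, ω] (by
    simp [det_fin_three, hermForm, mulVec, dotProduct, Fin.sum_univ_three]; grind)
  obtain ⟨b, eb⟩ := mk !![1, ω ^ 2, ω ^ 2; ω, ω, ω ^ 2; ω, ω ^ 2, ω] (by
    simp [det_fin_three, hermForm, mulVec, dotProduct, Fin.sum_univ_three]; grind)
  have m : ∀ u v : SU 3 F 2, (u * v).1.1 = u.1.1 * v.1.1 := fun _ _ => rfl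
  have o : (1 : SU 3 F 2).1.1 = 1 := rfl
  refine abs (S0282.result hF).1 (x := x) (y := y) (a := a) (b := b) (fun h => ?_) ((pow_three' _).trans (eqv (u := x * x * x) (v := 1) 1 ?_))
    (eqv (u := x * y) (v := y * x) (ω ^ 2) ?_) (eqv (u := a * x) (v := y * a) 1 ?_) (eqv (u := x * a * y) 1 ?_)
    (eqv (u := b * x) (v := x * y * b) (ω ^ 2) ?_) (eqv (u := a * b * a) 1 ?_) ((eqv (u := b * b) (v := a * a) 1 ?_).trans (sq (a : PSU 3 F 2)).symm)
    ((pow_mul' _ 2 2).trans ((sq _).trans ((congrArg₂ _ (sq _) (sq _)).trans (eqv (u := a * a * (a * a)) (v := 1) 1 ?_))))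
  · have := congrArg (fun g : SU 3 F 2 => g.1.1 0 1) (Subgroup.mem_center_iff.1 ((QuotientGroup.eq_one_iff x).1 h) y)
    simp [m, ex, ey] at this
    exact h1 this
  all_goals
    simp only [m, o, ex, ey, ea, eb, one_fin_three, mul_fin_three]
    clear mk m o ex ey ea eb
    ext i j
    fin_cases i <;> fin_cases j <;> simp <;> grind

end Cfsg.Agent.S0827
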