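import Cfsg.Statements.S0848
import Mathlib
import Cfsg.Agent.H8.BSW9

set_option autoImplicit false
open Cfsg

namespace Cfsg.Agent.S0848

open Subgroup H7 H8

/-- If a finite group equals its own commutator subgroup and contains an involution whose centralizer is isomorphic to the dihedral group of order 8, then the group has order 168 or 360. -/
theorem result {G : Type*} [Group G] [Finite G] (hperf : commutator G = ⊤) (t : G) (ht : orderOf t = 2) (e : Subgroup.centralizer ({t} : Set G) ≃* DihedralGroup 4) : Nat.card G = 168 ∨ Nat.card G = 360 := by
  refine (d8_main ht e fun M hM => ?_).imp And.left And.left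
  haveI := normal_of_index_eq_two hM
  have : commutator G ≤ M := by
    rw [commutator_def, commutator_le]
    intro a _ b _
    simp only [commutatorElement_def, mul_mem_iff_of_index_two hM, inv_mem_iff]; tauto
  rw [hperf, top_le_iff] at this
  simp [this] at hM

end Cfsg.Agent.S0848
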