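import Cfsg.Statements.S0982
import Mathlib
import Cfsg.Agent.H8.Zas6

set_option autoImplicit false
open Cfsg

namespace Cfsg.Agent.S0982

/-- A simple group of order 6072 is isomorphic to the projective special linear group of dimension 2 over the field with 23 elements. -/
theorem result {G : Type*} [Group G] [Finite G] [IsSimpleGroup G] (h : Nat.card G = 6072) {F : Type*} [Field F] [Fintype F] (hF : Fintype.card F = 23) : Nonempty (G ≃* Matrix.ProjectiveSpecialLinearGroup (Fin 2) F) := by
  haveI : Fact (Nat.Prime 23) := ⟨by norm_num⟩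
  obtain ⟨h1, h2, h3, -⟩ := H8.card_sylow_facts (G := G) (p := 23) (k := 1) (m := 264)
    (by rw [h]; norm_num) (by norm_num) (by norm_num) (by norm_num)
  have h4 := Nat.le_of_dvd (by norm_num) h1
  have h5 : Nat.card (Sylow 23 G) = 23 + 1 := by
    generalize Nat.card (Sylow 23 G) = n at *
    obtain ⟨k, rfl⟩ : ∃ k, n = 23 * k + 1 := ⟨n / 23, by omega⟩
    have : k ≤ 11 := by omega
    interval_cases k <;> simp_all
  exact H8.psl_of_sylow (d := 11) h5 (by rw [h]) (by norm_num) F
    (by rw [Nat.card_eq_fintype_card, hF])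

end Cfsg.Agent.S0982
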