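import Cfsg.Statements.S1011
import Mathlib
import Cfsg.Agent.H8.MJ

set_option autoImplicit false
open Cfsg

namespace Cfsg.Agent.S1011

/-- A simple group of order 504 is isomorphic to the projective special linear group of dimension 2 over the field with 8 elements. -/
theorem result {G : Type*} [Group G] [Finite G] [IsSimpleGroup G] (h : Nat.card G = 504) {F : Type*} [Field F] [Fintype F] (hF : Fintype.card F = 8) : Nonempty (G ≃* Matrix.ProjectiveSpecialLinearGroup (Fin 2) F) := by
  haveI : Fact (Nat.Prime 7) := ⟨by norm_num⟩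
  have np : ¬ (Nat.card G).Prime := by rw [h]; norm_num
  obtain ⟨-, h1, h2⟩ := H8.DC.chkDE_sound np (p := 7) (B := 24) (L := [(2,3),(3,2)])
    (wl := []) (ok := fun _ e c => e == 2 && c == 1) (tw := [2 ^ 3, 9])
    (by rw [h]; decide +kernel) (by simp)
  refine H8.psl_of_elem (k := 3) (m := 63) np h (by norm_num) (by norm_num) (fun t ht c hc =>
    H8.elem_of_order (p := 7) (k := 3) (d := 9) (by simp) h h1 (fun P => ?_) ht hc) F hF
  obtain ⟨e, c, a1, a2, a3, a4⟩ := h2 P
  simp only [Bool.and_eq_true, beq_iff_eq] at a1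
  exact ⟨a2, H8.cen_eq_of_card a2 (a1.2 ▸ a3), a1.1 ▸ a4⟩

end Cfsg.Agent.S1011
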