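import Cfsg.Statements.S1068
import Cfsg.Agent.H5.TwF4

set_option autoImplicit false
open Cfsg

namespace Cfsg.Agent.S1068

/-- `|²F₄(q)| = q¹² (q - 1)(q³ + 1)(q⁴ - 1)(q⁶ + 1)` for `q = 2^(2m+1)` (θ = 2^m-th power map), every `m ≥ 0`. -/
theorem result {K : Type*} [Field K] [Fintype K] {m : ℕ} (hK : Fintype.card K = 2 ^ (2 * m + 1)) :
    Nat.card ↥(Cfsg.Lie.twistedF4 K (2 ^ m)) =
      (2 ^ (2 * m + 1)) ^ 12 * (2 ^ (2 * m + 1) - 1) * ((2 ^ (2 * m + 1)) ^ 3 + 1) * ((2 ^ (2 * m + 1)) ^ 4 - 1) * ((2 ^ (2 * m + 1)) ^ 6 + 1) := by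
  obtain ⟨_, T, h, e⟩ := H5.Chev.exists_isF4 hK
  have hc : Nat.card K = 2 ^ (2 * m + 1) := by rw [Nat.card_eq_fintype_card, hK]
  have := h.card_G0 (hc ▸ H5.Chev.not_isSquare_odd_pow Nat.prime_two)
  rw [e, T.card_M, ← hc]
  have h1 : ∀ k, 1 ≤ Nat.card K ^ k := fun k => Nat.one_le_pow _ _ Nat.card_pos
  have h2 : 1 ≤ Nat.card K := Nat.card_pos
  zify [h1, h2]
  rw [this]; ring

end Cfsg.Agent.S1068
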