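import Cfsg.Statements.S1163
import Cfsg.Agent.H5.SZ4

set_option autoImplicit false
open Cfsg

namespace Cfsg.Agent.S1163

open H5.Sz

/-- For the Suzuki group Sz(q), q = 2^(2m+1) ≥ 8, realised as the elements g of Sp₄(F) with g* = g^θ (θ the 2^(m+1)-th power map, so that θ² is squaring): `|Sz(q)| = q² (q - 1) (q² + 1)`, and there is a Sylow 2-subgroup `S` whose normaliser `H` has order `q²(q-1)` and index `q² + 1`, the action of `Sz(q)` on the cosets of `H` is doubly transitive, and `S` acts regularly on the cosets other than `H` itself. -/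
theorem result {F : Type*} [Field F] [Fintype F] {m : ℕ} (hm : 1 ≤ m) (hF : Fintype.card F = 2 ^ (2 * m + 1)) :
    Nat.card ↥(Cfsg.Lie.Sz F (2 ^ (m + 1))) = (2 ^ (2 * m + 1)) ^ 2 * (2 ^ (2 * m + 1) - 1) * ((2 ^ (2 * m + 1)) ^ 2 + 1) ∧
    ∃ S : Sylow 2 ↥(Cfsg.Lie.Sz F (2 ^ (m + 1))),
      Nat.card (Subgroup.normalizer ((S : Subgroup ↥(Cfsg.Lie.Sz F (2 ^ (m + 1)))) : Set ↥(Cfsg.Lie.Sz F (2 ^ (m + 1))))) = (2 ^ (2 * m + 1)) ^ 2 * (2 ^ (2 * m + 1) - 1) ∧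
      (Subgroup.normalizer ((S : Subgroup ↥(Cfsg.Lie.Sz F (2 ^ (m + 1)))) : Set ↥(Cfsg.Lie.Sz F (2 ^ (m + 1))))).index = (2 ^ (2 * m + 1)) ^ 2 + 1 ∧
      MulAction.IsMultiplyPretransitive ↥(Cfsg.Lie.Sz F (2 ^ (m + 1))) (↥(Cfsg.Lie.Sz F (2 ^ (m + 1))) ⧸ Subgroup.normalizer ((S : Subgroup ↥(Cfsg.Lie.Sz F (2 ^ (m + 1)))) : Set ↥(Cfsg.Lie.Sz F (2 ^ (m + 1))))) 2 ∧
      ∀ x y : ↥(Cfsg.Lie.Sz F (2 ^ (m + 1))) ⧸ Subgroup.normalizer ((S : Subgroup ↥(Cfsg.Lie.Sz F (2 ^ (m + 1)))) : Set ↥(Cfsg.Lie.Sz F (2 ^ (m + 1)))),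
        x ≠ (QuotientGroup.mk 1) → y ≠ (QuotientGroup.mk 1) → ∃! s : ↥(S : Subgroup ↥(Cfsg.Lie.Sz F (2 ^ (m + 1)))), (s : ↥(Cfsg.Lie.Sz F (2 ^ (m + 1)))) • x = y := by
  let S := lieS hm hF
  refine ⟨by rw [S.card_G, hF]; ring, ?_⟩
  obtain ⟨Q, hQ⟩ := S.exists_sylow S.inf
  refine ⟨Q, ?_⟩
  have hN := S.normalizer_P S.inf
  rw [← hQ] at hN
  rw [hN]
  let e : (Cfsg.Lie.Sz F (2 ^ (m + 1)) ⧸ MulAction.stabilizer (Cfsg.Lie.Sz F (2 ^ (m + 1))) S.inf) ≃ S.Ω :=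
    Equiv.ofBijective (MulAction.ofQuotientStabilizer _ S.inf) ⟨MulAction.injective_ofQuotientStabilizer _ _,
      fun ω => by
        obtain ⟨g, hg⟩ := S.exists_smul_inf ω
        exact ⟨g, hg⟩⟩
  have he : ∀ (g : Cfsg.Lie.Sz F (2 ^ (m + 1))) x, e (g • x) = g • e x :=
    fun g x => MulAction.ofQuotientStabilizer_smul _ _ g x
  have he1 : e (QuotientGroup.mk 1) = S.inf := one_smul (Cfsg.Lie.Sz F (2 ^ (m + 1))) S.inf
  refine ⟨by rw [S.card_B, hF], by rw [S.index_stab, hF], ?_, ?_⟩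
  · refine MulAction.is_two_pretransitive_iff.2 fun {a b c d} hab hcd => ?_
    obtain ⟨g, h, h'⟩ := S.two_trans (e.injective.ne hab) (e.injective.ne hcd)
    exact ⟨g, e.injective (by rw [he, h]), e.injective (by rw [he, h'])⟩
  · intro x y hx hy
    have hx' : e x ≠ S.inf := fun h => hx (e.injective (h.trans he1.symm))
    have hy' : e y ≠ S.inf := fun h => hy (e.injective (h.trans he1.symm))
    obtain ⟨g, hg, h⟩ := S.P_trans hx' hy'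
    refine ⟨⟨g, hQ ▸ hg⟩, e.injective (by rw [he, h]), fun k hk => Subtype.ext ?_⟩
    exact S.P_uniq hx' (hQ ▸ k.2) hg (by rw [h, ← he, hk])

end Cfsg.Agent.S1163
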