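import Cfsg.Statements.S1312
import Cfsg.Agent.H7.Bend

set_option autoImplicit false
open Cfsg

namespace Cfsg.Agent.S1312
open H7
open scoped commutatorElement

section
open Subgroup

theorem pg {G : Type*} [Group G] {M : Subgroup G} {p : ℕ} (h : IsPGroup p (Fst M)) :
    IsPGroup p (Cfsg.generalizedFittingSubgroup M) := by
  rw [← gfit_map] at h
  exact h.of_equiv (Subgroup.equivMapOfInjective _ _ M.subtype_injective).symm

end

/-- Let G be a non-abelian finite simple group and M ≠ N maximal subgroups of G with F*(M) ≤ N and F*(N) ≤ M. Then there is a prime p such that F*(M) and F*(N) are both p-groups. -/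
theorem result {G : Type*} [Group G] [Finite G] [IsSimpleGroup G] (hna : ¬ IsMulCommutative G) (M N : Subgroup G) (hM : IsCoatom M) (hN : IsCoatom N) (hMN : M ≠ N) (h1 : (Cfsg.generalizedFittingSubgroup ↥M).map M.subtype ≤ N) (h2 : (Cfsg.generalizedFittingSubgroup ↥N).map N.subtype ≤ M) : ∃ p : ℕ, p.Prime ∧ IsPGroup p ↥(Cfsg.generalizedFittingSubgroup ↥M) ∧ IsPGroup p ↥(Cfsg.generalizedFittingSubgroup ↥N) := by
  open Subgroup in
    rw [gfit_map] at h1 h2
    obtain ⟨p, pp, a, b⟩ := (bender_pair (prim_of_coatom hM N) (prim_of_coatom hN M) (lds_of_Fst h1)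
      (lds_of_Fst h2)).resolve_left hMN
    exact ⟨p, pp, pg a, pg b⟩

end Cfsg.Agent.S1312
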