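import Cfsg.Statements.S1313
import Cfsg.Agent.H7.Comp

set_option autoImplicit false
open Cfsg

namespace Cfsg.Agent.S1313
open H7
open scoped commutatorElement

/-- For a finite group H, |H| ≤ |F*(H)|!. -/
theorem result {H : Type*} [Group H] [Finite H] : Nat.card H ≤ Nat.factorial (Nat.card ↥(Cfsg.generalizedFittingSubgroup H)) := by
  open Subgroup in
  rw [gfit_eq]
  set F := Fst (⊤ : Subgroup H)
  have hn : (⊤ : Subgroup H) ≤ nrm F := le_nrm_Fst ⊤
  have h1 := card_im_mul (f := act F) hn
  rw [kr_act, card_top] at h1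
  have h2 : ord (⊤ ⊓ cen F) ≤ ord F := card_le_of_le (cen_Fst_le ⊤)
  have h3 : ord (im (act F) ⊤) ≤ Nat.card (MulAut F) := card_le_card_group _
  have h4 : Nat.card (MulAut F) ≤ (ord F - 1).factorial := by
    classical
    let φ : MulAut F → Equiv.Perm {x : F // x ≠ 1} := fun e =>
      e.toEquiv.subtypeEquiv fun x => by simp
    have hφ : Function.Injective φ := fun a b h => by
      ext x
      by_cases hx : x = 1
      · simp [hx]
      · exact congrArg (fun e : Equiv.Perm {x : F // x ≠ 1} => ((e ⟨x, hx⟩ : F) : H)) h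
    have := Nat.card_le_card_of_injective φ hφ
    rw [Nat.card_perm] at this
    convert this
    cases nonempty_fintype F
    rw [Nat.card_eq_fintype_card, Nat.card_eq_fintype_card, Fintype.card_subtype_compl,
      Fintype.card_subtype_eq]
  have h5 : 0 < ord F := card_pos' F
  obtain ⟨n, hn⟩ : ∃ n, ord F = n + 1 := ⟨ord F - 1, by omega⟩
  rw [hn] at h2 h4 ⊢
  rw [← h1, Nat.factorial_succ, mul_comm]
  exact Nat.mul_le_mul h2 (h3.trans (by simpa using h4))

end Cfsg.Agent.S1313
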