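import Cfsg.Statements.S1892
import Cfsg.Agent.H7.Tk5

set_option autoImplicit false
open Cfsg

namespace Cfsg.Agent.S1892
open H7
open scoped commutatorElement

section
open Subgroup

theorem aux {S : Type*} [Group S] [Finite S] {p : ℕ} [Fact p.Prime] {P A Q : Subgroup S} (pP : IsPGroup p P)
    (h1 : A ≤ nrm P) (h2 : Q ≤ nrm P) (cQ : (ord Q).Coprime p) (hn : A ≤ nrm Q) (hAQ : ⁅A, Q⁆ = Q) (h : ⁅⁅P, A⁆, Q⁆ = ⊥) :
    P ≤ cen Q := by
  have l : ⁅P, A⁆ ≤ P ⊓ cen Q := le_inf (comm_le_left h1) (comm_eq_bot.1 h)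
  have nA := nrm_inf h1 (nrm_cen hn)
  have nQ := nrm_inf h2 (nrm_cen (le_nrm_self Q))
  by_contra e
  have := pgroup_lt_nrm pP (lt_of_le_of_ne (inf_le_left (b := cen Q)) fun k => e (inf_eq_left.1 k))
  have a : P ⊓ cen Q ≤ P := inf_le_left
  have b : P ⊓ cen Q ≤ cen Q := inf_le_right
  have c : ∀ X ≤ P, X ≤ cen Q → X ≤ P ⊓ cen Q := fun X => le_inf
  generalize P ⊓ cen Q = C at *
  have k : Q ≤ cmod C (P ⊓ nrm C) := hAQ.ge.trans ((commutator_mono (le_cmod.2 ⟨nA, by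
      rw [commutator_comm]; exact (commutator_mono inf_le_left le_rfl).trans l⟩) le_rfl).trans
      (comm_le_left (nrm_cmod nQ (nrm_inf h2 (nrm_nrm nQ)))))
  exact this.not_ge (c _ inf_le_left (le_cen_symm (cen_of_chain (coprime_of_isPGroup (pP.to_le a) cQ)
    (by rw [commutator_comm]; exact (le_cmod.1 k).2) (le_cen_symm b))))

end

/-- Let S be a finite p-solvable group with no nontrivial normal subgroup of order prime to p, A a p-subgroup of S, and Q a nontrivial A-invariant subgroup of order prime to p with [A, Q] = Q. Then the commutator [O_p(S), A, Q] is nontrivial. -/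
theorem result {S : Type*} [Group S] [Finite S] {p : ℕ} [Fact p.Prime]
    (hS : Cfsg.IsPSolvable p S) (hred : Cfsg.pPrimeCore p S = ⊥)
    (A Q : Subgroup S) (hA : IsPGroup p A) (hQ : ¬ p ∣ Nat.card Q) (hQ1 : Q ≠ ⊥)
    (hinv : ∀ a ∈ A, ∀ x ∈ Q, a * x * a⁻¹ ∈ Q) (hAQ : ⁅A, Q⁆ = Q) :
    ⁅⁅Cfsg.pCore p S, A⁆, Q⁆ ≠ ⊥ := by
  open Subgroup in
  intro h
  rw [pCore_eq] at h
  rw [pPrimeCore_eq] at hred
  have cQ := coprime_iff_not_dvd.2 hQ
  exact hQ1 (eq_bot_of_isPGroup_of_coprime ((isPGroup_Op p ⊤).to_le ((le_inf le_top (le_cen_symm (aux (isPGroup_Op p ⊤)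
    (le_top.trans (le_nrm_Opi _ _)) (le_top.trans (le_nrm_Opi _ _)) cQ (le_nrm_iff_conj.2 hinv) hAQ h))).trans
    (ps_chP (ps_top.2 hS) hred))) cQ)

end Cfsg.Agent.S1892
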