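import Cfsg.Statements.S1893
import Cfsg.Agent.H7.Tk5

set_option autoImplicit false
open Cfsg

namespace Cfsg.Agent.S1893
open H7
open scoped commutatorElement

section
open Subgroup

theorem quad {G : Type*} [Group G] [Finite G] {H K : Subgroup G} (hs : Group.IsSolvable H)
    (h5 : ∀ p, p.Prime → p ∣ ord (Fit H) → 5 ≤ p) (hK : K ≤ H) (h : ⁅⁅Fit H, K⁆, K⁆ = ⊥) : K ≤ Fit H :=
  le_of_pgroups_le fun p hp P l pP => by
    haveI := Fact.mk hp
    have c : P ≤ cen (Op' p (Fit H)) := cen_of_comm_comm ((l.trans hK).trans (nrm_Opi _ (le_nrm_Fit H)))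
      (coprime_of_isPGroup pP (coprime_Op' p _)).symm (comm_eq_bot.1 (eq_bot_of_le (commutator_mono (commutator_mono (Opi_le _ _) l) l) h))
    by_cases d : p ∣ ord (Fit H)
    · exact fun x hx => mem_Fit_of_quad (h5 p hp d) hs (hK (l hx)) (c hx) (eq_bot_of_le (commutator_mono (commutator_mono
        (Op_le_Fit p H) (zpowers_le.2 (l hx))) (zpowers_le.2 (l hx))) h)
    · rw [Opi_eq_self (piN_compl_iff'.2 d)] at c
      exact (le_inf (l.trans hK) c).trans (cen_Fit_le hs)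

end

/-- Let S be a finite solvable group, π a set of primes containing neither 2 nor 3, H a Hall π-subgroup of S, and A a self-centralizing normal subgroup of the Fitting subgroup F(H). Then C_S(A) = A × D for a normal subgroup D of C_S(A) whose order has no prime divisor in π. -/
theorem result {S : Type*} [Group S] [Finite S] [Group.IsSolvable S]
    (π : Set ℕ) (h2 : 2 ∉ π) (h3 : 3 ∉ π) (H : Subgroup S) (hH : Cfsg.IsPiHall π H)
    (A : Subgroup S) (hA : Cfsg.IsSCN ((Cfsg.fittingSubgroup H).map H.subtype) A) :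
    ∃ D : Subgroup S, D ≤ Subgroup.centralizer (A : Set S) ∧
      (∀ c ∈ Subgroup.centralizer (A : Set S), ∀ d ∈ D, c * d * c⁻¹ ∈ D) ∧
      A ⊓ D = ⊥ ∧ A ⊔ D = Subgroup.centralizer (A : Set S) ∧
      ∀ q : ℕ, q.Prime → q ∣ Nat.card D → q ∉ π := by
  open Subgroup in
  rw [fitting_map] at hA
  obtain ⟨a1, a2, a3⟩ := hA
  have hH := hall_top_iff.1 hH
  have hD : ∀ X : Subgroup S, X ≤ normalizer (Opi πᶜ (⊤ : Subgroup S) : Set S) := fun X => le_top.trans (le_nrm_Opi _ _)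
  have hN := piN_Opi πᶜ (⊤ : Subgroup S)
  have o := Opi_im_qm πᶜ (⊤ : Subgroup S)
  generalize Opi πᶜ (⊤ : Subgroup S) = N at *
  have i := hH.pi.inf_eq_bot hN
  have lA := a1.trans (Fit_le H)
  have b1 : Fit (im (qm N) ⊤) ≤ im (qm N) (Fit H) := by
    rw [im_Fit_of_inj (hD H) (by rwa [kr_qm])]
    exact Fit_le_Fit (im_mono _ le_top) ((Fit_le_Opi o).trans (hH.im (hD ⊤) _).Opi_le)
  have b2 : im (qm N) (Fit H) ⊓ centralizer (im (qm N) A : Set _) ≤ im (qm N) A := by
    rintro _ ⟨h, k⟩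
    obtain ⟨x, hx, rfl⟩ := (mem_im_of_le (hD _)).1 h
    have := (im_qm_le_cen (hD _) (hD A)).1 (by rw [im_zpowers (hD ⊤ (mem_top x))]; exact zpowers_le.2 k)
    exact ev_mem_im (a3.le ⟨hx, zpowers_le.1 (comm_eq_bot.1 (eq_bot_of_le (le_inf (comm_le_of_le
      (zpowers_le.2 (Fit_le H hx)) lA) this) i))⟩)
  have t : ∀ X, X ≤ im (qm N) ⊤ := fun X => le_top.trans ((im_qm_dom N).ge.trans (im_mono _ le_top))
  have b5 : ∀ p, p.Prime → p ∣ Nat.card (Fit (im (qm N) ⊤)) → 5 ≤ p := fun p hp d => by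
    have := (piN_Opi π _).of_le (Fit_le_Opi o) p hp d
    exact hp.five_le_of_ne_two_of_ne_three (by rintro rfl; exact h2 this) (by rintro rfl; exact h3 this)
  have b6 : Fit (im (qm N) ⊤) ≤ normalizer (im (qm N) A : Set _) := b1.trans (im_le_nrm _ a2)
  have b7 := (comm_le_inf (nrm_cen b6) ((t _).trans (le_nrm_Fit _))).trans ((inf_le_inf_right _ b1).trans b2)
  have b3 := quad (solv_im _ inferInstance) b5 (t _) (comm_eq_bot'.2 (cen_anti b7))
  have b4 : centralizer (A : Set S) ≤ A ⊔ N := (im_qm_le (hD _) (hD _)).1 ((le_inf ((im_le_cen _ le_rfl).trans (b3.trans b1))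
    (im_le_cen _ le_rfl)).trans b2)
  refine ⟨N ⊓ centralizer (A : Set S), inf_le_right, le_nrm_iff_conj.1 (nrm_inf (hD _) (le_nrm_self _)),
    eq_bot_of_le (inf_le_inf lA inf_le_left) i, ?_, fun q hq d => hN.of_le inf_le_left q hq d⟩
  rw [← modular (hD A) (a3.ge.trans inf_le_right), inf_eq_right.2 b4]

end Cfsg.Agent.S1893
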