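import Cfsg.Statements.S1895
import Cfsg.Agent.H2.Blk4
import Cfsg.Agent.H7.BG10a

set_option autoImplicit false
open Cfsg

namespace Cfsg.Agent.S1895

open Subgroup hiding upperCentralSeries
open H2 Cfsg.FusionSystem

open Subgroup H2 H7 H1B
open scoped commutatorElement

theorem char_sub {G : Type*} [Group G] [Finite G] {p : ℕ} [hp : Fact p.Prime] {X : Subgroup G}
    (p2 : p ≠ 2) (hX : IsPGroup p X) (hr : Rk p 2 X) (ne : X ≠ ⊥) :
    ∃ Y < X, nrm X ≤ nrm Y ∧ ord X ≤ p ^ 2 * ord Y := by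
  rcases rk2_cases p2 hX hr with m | ⟨V, x, b⟩ | ⟨-, x, u⟩
  · obtain ⟨a, b, e, -⟩ := m.gen
    have ha : a ∈ X := e.le (mem_sup_left (mem_zpowers a))
    have hb : b ∈ X := e.le (mem_sup_right (mem_zpowers b))
    have h1 := Nat.le_of_dvd (Nat.mul_pos (card_pos' _) hp.out.pos)
      (H1.card_sup_zpowers_dvd (le_nrm_Phi X ha) (pow_mem_Phi hX ha))
    have h2 := Nat.le_of_dvd (Nat.mul_pos (card_pos' _) hp.out.pos) (H1.card_sup_zpowers_dvd
      (N := Phi X ⊔ zpowers a) (le_nrm_of_comm_le' (sup_le (Phi_le X) (zpowers_le.2 ha))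
        ((comm_le_Phi hX.isNilpotent).trans le_sup_left) hb) (mem_sup_left (pow_mem_Phi hX hb)))
    rw [sup_assoc, e, sup_eq_right.2 (Phi_le X)] at h2
    exact ⟨_, Phi_lt ne, nrm_Phi le_rfl, h2.trans ((Nat.mul_le_mul_right p h1).trans_eq (by ring))⟩
  · obtain ⟨z, hz, z1, -, z3, z4⟩ := b.struct
    rcases z4 with z4 | z4
    · refine ⟨X ⊓ cen X, inf_lt_left.2 fun l => b.xM (cen_anti b.le (l b.xR)),
        nrm_inf le_rfl (nrm_cen le_rfl), z3.trans_le (Nat.mul_le_mul_left _ ?_)⟩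
      rw [← Nat.card_zpowers]
      exact card_le_of_le (zpowers_le.2 ⟨hz.1, b.cen_of z1 z4⟩)
    · refine ⟨X ⊓ cen ⁅X, X⁆, inf_lt_left.2 fun l => z4 _ ⟨b.cm z hz, mem_cen1.2
        (mem_cen.1 (l b.xR) _ (commutator_mem_commutator b.xR hz.1))⟩ rfl,
        nrm_inf le_rfl (nrm_cen (nrm_commutator le_rfl le_rfl)), b.idx.trans (Nat.mul_le_mul
          (Nat.le_self_pow two_ne_zero p) (card_le_of_le (inf_le_inf_left _ (cen_anti b.der))))⟩
  · refine ⟨⁅X, X⁆, (Phi_lt ne).trans_le' (comm_le_Phi hX.isNilpotent), nrm_commutator le_rfl le_rfl, ?_⟩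
    have := H1B.relIndex_cen1_le (R := X) fun r hr => commutator_mem_commutator hr u.mem
    rw [← relIndex_mul_card_inf (cen1 x) X, inf_comm, mul_comm]
    exact Nat.mul_le_mul u.card this

theorem series {G : Type*} [Group G] [Finite G] {p : ℕ} [hp : Fact p.Prime] {H : Subgroup G}
    (p2 : p ≠ 2) (hs : IsPSolvable p H) (hO : Op' p H = ⊥) (hr : Rk p 2 H) (Q : Subgroup G → Prop)
    (st : ∀ A B, A ≤ B → B ≤ H → H ≤ nrm A → H ≤ nrm B → ¬ p ^ 3 ∣ A.relIndex B → Q A → Q B)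
    (h0 : Q ⊥) : Q H := by
  have k : ∀ X ≤ H, IsPGroup p X → H ≤ nrm X → Q X := fun X => by
    induction X using WellFoundedLT.induction with | _ X ih => ?_
    intro h1 h2 h3
    by_cases e : X = ⊥
    · exact e ▸ h0
    obtain ⟨Y, y1, y2, y3⟩ := char_sub p2 h2 (fun A hA => hr A (hA.trans h1)) e
    refine st Y X y1.le h1 (h3.trans y2) h3 (fun d => ?_)
      (ih Y y1 (y1.le.trans h1) (h2.to_le y1.le) (h3.trans y2))
    rw [← relIndex_mul_card' y1.le] at y3
    exact (Nat.pow_lt_pow_right hp.out.one_lt (by omega : 2 < 3)).not_ge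
      ((Nat.le_of_dvd (H7.relIndex_pos _ _) d).trans (Nat.le_of_mul_le_mul_right y3 (card_pos' Y)))
  have pR := isPGroup_Op p H
  obtain ⟨C, c1, c2, -, c4, c5⟩ := exists_section p2 pR fun A hA => hr A (hA.trans (Opi_le _ H))
  have nC := (le_nrm_Opi _ H).trans c2
  have nP := nrm_Phi nC
  have pN : IsPGroup p (H ⊓ cmod (Phi C) C : Subgroup G) := by
    refine H7.pgroup_of_forall fun x hx co => ?_
    have l := zpowers_le.2 hx.1
    have co' : (ord (zpowers x)).Coprime p := by rwa [Nat.card_zpowers]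
    have := c5 _ (l.trans (le_nrm_Opi _ H)) co' ((im_le_cen_iff (l.trans nP) (le_nrm_Phi C)).2
      (by rw [kr_qm]; exact (le_cmod.1 (zpowers_le.2 hx.2)).2))
    exact zpowers_eq_bot.1 (eq_bot_of_isPGroup_of_coprime
      (pR.to_le ((le_inf l this).trans (ps_chP hs hO))) co')
  have nN := nrm_inf (le_nrm_self H) (nrm_cmod nP nC)
  refine st _ H inf_le_left le_rfl nN (le_nrm_self H) (fun d => ?_) (k _ inf_le_left pN nN)
  obtain ⟨S, hS⟩ := exists_isSylowIn p H
  have := relIndex_cmod_le hS.isPGroup (pR.to_le c1) (hS.le.trans nC) (hS.le.trans nP) (le_nrm_Phi C)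
    (by rwa [card_im (le_nrm_Phi C), kr_qm] at c4)
  have d := d.trans (relIndex_dvd_of_le_left H (inf_le_inf_right (cmod (Phi C) C) hS.le))
  rw [← relIndex_mul_relIndex _ S H inf_le_left hS.le, inf_relIndex_left] at d
  have := (Nat.le_of_dvd (H7.relIndex_pos _ _) (((Nat.Prime.coprime_iff_not_dvd hp.out).2
    hS.not_dvd).pow_left 3 |>.dvd_of_dvd_mul_right d)).trans this
  exact (Nat.pow_lt_pow_right hp.out.one_lt (by omega : 1 < 3)).not_ge (by rwa [pow_one])

/-- Let p be an odd prime and G a finite p-solvable group with no elementary abelian subgroup of order p³. Then every chief factor H/K of G (H, K normal in G with no normal subgroup of G strictly between them) whose order is a power of p has order p or p². -/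
theorem result {G : Type*} [Group G] [Finite G] {p : ℕ} [Fact p.Prime] (hp : p ≠ 2)
    (hG : Cfsg.IsPSolvable p G) (hr : Cfsg.PRankLE p 2 G)
    (H K : Subgroup G) [H.Normal] [K.Normal] (hKH : K < H) (hpow : ∃ n : ℕ, K.relIndex H = p ^ n)
    (hchief : ∀ L : Subgroup G, L.Normal → K ≤ L → L ≤ H → L = K ∨ L = H) :
    K.relIndex H = p ∨ K.relIndex H = p ^ 2 := by
  obtain ⟨n, hn⟩ := hpow
  have pp : p.Prime := Fact.out
  have n0 : n ≠ 0 := by
    rintro rfl
    exact hKH.not_ge (relIndex_eq_one.1 hn)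
  suffices n ≤ 2 by
    obtain rfl | rfl : n = 1 ∨ n = 2 := by omega
    exacts [Or.inl (by simpa using hn), Or.inr hn]
  by_contra n3
  have st : ∀ A B : Subgroup G, A ≤ B → ⊤ ≤ nrm A → ¬ p ^ 3 ∣ A.relIndex B → ¬ H ≤ K ⊔ A →
      ¬ H ≤ K ⊔ B := fun A B l nA d h1 h2 => by
    haveI := normalizer_eq_top_iff.1 (top_le_iff.1 nA)
    have e := (hchief (H ⊓ (K ⊔ A)) inferInstance (le_inf hKH.le le_sup_left) inf_le_left).resolve_right
      fun e => h1 (inf_eq_left.1 e)
    refine d ((pow_dvd_pow p (by omega : 3 ≤ n)).trans (hn ▸ Dvd.dvd.trans ?_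
      (relIndex_dvd_of_le_left B (le_sup_right : A ≤ K ⊔ A))))
    rw [← e, inf_relIndex_left, e, ← relIndex_sup_left B, ← H1.card_map_mk', ← H1.card_map_mk']
    exact card_dvd_of_le (map_mono (h2.trans (sup_le_sup_right le_sup_left B)))
  set O := Op' p (⊤ : Subgroup G)
  have nO : ⊤ ≤ nrm O := le_nrm_Opi _ ⊤
  have cO : (ord O).Coprime p := coprime_Op' p ⊤
  have cO' : (ord (⊤ ⊓ kr (qm O))).Coprime p := by rwa [top_inf_eq, kr_qm]
  refine series hp (ps_im (f := qm O) (ps_top.2 hG) nO) (by rw [← im_Op' nO cO', im_qm_self])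
    ((rk_im nO cO').2 (pRankLE_top.1 hr)) (fun A => ¬ H ≤ K ⊔ pre (qm O) A)
    (fun A B l lB nA _ d => st _ _ (pre_mono _ l) (le_nrm_pre nO nA) ?_) ?_ ?_
  · rwa [relIndex_pre (pre_le _ _), im_pre_of_le (lB.trans (H7.im_mono _ nO))]
  · rw [pre_bot, kr_qm]
    refine st ⊥ O bot_le (le_nrm_bot _) (fun d => ?_) (by simpa using hKH.not_ge)
    rw [relIndex_bot_left] at d
    exact (pp.coprime_iff_not_dvd.1 cO.symm) ((dvd_pow_self p three_ne_zero).trans d)
  · exact le_top.trans ((le_pre_im nO).trans le_sup_right)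

end Cfsg.Agent.S1895
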