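import Cfsg.Statements.S1897
import Cfsg.Agent.H0.EU33.Main
import Cfsg.Agent.H0.IU33
import Cfsg.Agent.H0.IL27


set_option autoImplicit false
open Cfsg

namespace Cfsg.Agent.S1897

/-- The projective special unitary group PSU₃(3) (realised over the field with 9 elements) has a subgroup isomorphic to PSL₂(7). -/
theorem result {F : Type*} [Field F] [Fintype F] (hF : Fintype.card F = 9)
    {K : Type*} [Field K] [Fintype K] (hK : Fintype.card K = 7) :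
    ∃ H : Subgroup (Cfsg.PSU 3 F 3), Nonempty (H ≃* Matrix.ProjectiveSpecialLinearGroup (Fin 2) K) := by
  have := H0.MU33.fin (H0.Pres.pg _ _)
  obtain ⟨e⟩ := H0.IU33.iso
  obtain ⟨f⟩ := H0.IL27.iso
  obtain ⟨g⟩ := H0.EU33.L_iso (H0.MU33.m (H0.Pres.pg _ _)) (H0.MU33.mR (H0.Pres.pg _ _)) (H0.MU33.base (H0.Pres.pg _ _)) (H0.MU33.card (H0.Pres.pg _ _))
  have := H0.IL27.fp
  obtain ⟨H, ⟨h⟩, -⟩ := H0.sub_of_equiv (e.trans (H0.cenEquiv (H0.suEquiv (H0.fe H0.G9 hF H0.c9) 3 3))) _ g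
  exact ⟨H, ⟨h.symm.trans (f.trans (H0.cenEquiv (H0.slEquiv (H0.fe (ZMod 7) hK (ZMod.card 7)))))⟩⟩

end Cfsg.Agent.S1897
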