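import Cfsg.Statements.S1898
import Cfsg.Agent.H7.Tk5

set_option autoImplicit false
open Cfsg

namespace Cfsg.Agent.S1898
open H7
open scoped commutatorElement

/-- Let X be a finite 2-group whose derived subgroup is elementary abelian and central. Then the subgroup generated by the elements of order dividing 4 has exponent dividing 4, and every automorphism of X fixing each element of order dividing 4 has 2-power order. -/
theorem result {X : Type*} [Group X] [Finite X] (hX : IsPGroup 2 X)
    (hel : Cfsg.IsElementaryAbelian 2 (commutator X)) (hcen : commutator X ≤ Subgroup.center X) :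
    (∀ x ∈ Subgroup.closure {g : X | g ^ 4 = 1}, x ^ 4 = 1) ∧
      ∀ φ : MulAut X, (∀ g : X, g ^ 4 = 1 → φ g = g) → ∃ k : ℕ, φ ^ (2 ^ k) = 1 := by
  open Subgroup in
  have c : ∀ x y z : X, Commute ⁅x, y⁆ z := fun x y z =>
    (mem_center_iff.1 (hcen (commutator_mem_commutator (mem_top x) (mem_top y))) z).symm
  have c2 : ∀ x y : X, ⁅x, y⁆ ^ 2 = 1 := fun x y => EA.pow hel (commutator_mem_commutator (mem_top x) (mem_top y))
  refine ⟨fun x hx => ?_, fun φ h => ?_⟩
  · induction hx using closure_induction with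
    | mem x h => exact h
    | one => simp
    | mul x y _ _ a b => rw [mul_pow_of_comm (c _ _ _) (c _ _ _), a, b, show Nat.choose 4 2 = 2 * 3 from rfl, pow_mul, c2]; simp
    | inv x _ a => rw [inv_pow, a, inv_one]
  have k : ∀ i, ∀ g : X, g ^ 2 ^ i = 1 → (φ ^ 4 ^ i) g = g := fun i => by
    induction i with
    | zero => intro g e; simp at e; simp [e]
    | succ i ih =>
      intro g e
      have f : ∀ g : X, g ^ 4 = 1 → (φ ^ 4 ^ i) g = g := fun g e => by
        induction 4 ^ i with
        | zero => rfl
        | succ n ih => rw [pow_succ, MulAut.mul_apply, h g e, ih]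
      rw [pow_succ, pow_mul]
      generalize φ ^ 4 ^ i = ψ at *
      obtain ⟨u, hu⟩ : ∃ u, ψ g = g * u := ⟨g⁻¹ * ψ g, by simp⟩
      have a := ih (g ^ 2) (by rw [← pow_mul, ← pow_succ', e])
      rw [map_pow, hu, mul_pow_of_comm (c _ _ _) (c _ _ _), ← mul_assoc, (c u g _).pow_left, mul_assoc, mul_eq_left] at a
      have b : u ^ 4 = 1 := by
        rw [show 4 = 2 * 2 from rfl, pow_mul, ← inv_eq_of_mul_eq_one_right a, inv_pow, ← pow_mul, mul_comm, pow_mul, c2]; simp
      have := f u b
      simp only [pow_succ, pow_zero, one_mul, MulAut.mul_apply, hu, map_mul, this] at b ⊢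
      simp only [mul_assoc] at b ⊢
      rw [b, mul_one]
  obtain ⟨n, hn⟩ := IsPGroup.iff_card.1 hX
  refine ⟨2 * n, ?_⟩
  ext g
  rw [pow_mul]
  exact k n g (hn ▸ pow_card_eq_one')

end Cfsg.Agent.S1898
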