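import Cfsg.Statements.S1899
import Cfsg.Agent.H7.Tk5

set_option autoImplicit false
open Cfsg

namespace Cfsg.Agent.S1899
open H7
open scoped commutatorElement

/-- Let a dihedral group of order 2n, n odd and n > 1, act on a finite abelian 2-group A through automorphisms d and t with d^n = 1, t² = 1 and t d t⁻¹ = d⁻¹, and suppose that d fixes only the identity. Then A is the internal direct product of C_A(t) and its image under d. -/
theorem result {A : Type*} [CommGroup A] [Finite A] (hA : IsPGroup 2 A)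
    {n : ℕ} (hn : Odd n) (hn1 : 1 < n) (d t : MulAut A) (hd : d ^ n = 1) (ht : t ^ 2 = 1) (hdt : t * d * t⁻¹ = d⁻¹)
    (hfix : ∀ a : A, d a = a → a = 1) :
    (MulEquiv.toMonoidHom t).eqLocus (MonoidHom.id A) ⊓ ((MulEquiv.toMonoidHom t).eqLocus (MonoidHom.id A)).map d.toMonoidHom = ⊥ ∧
      (MulEquiv.toMonoidHom t).eqLocus (MonoidHom.id A) ⊔ ((MulEquiv.toMonoidHom t).eqLocus (MonoidHom.id A)).map d.toMonoidHom = ⊤ := by
  open Subgroup in
  have f : ∀ a : A, d (d a) = a → a = 1 := fun a h => by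
    obtain ⟨m, rfl⟩ := hn
    have k : ∀ j, (d ^ (2 * j)) a = a := fun j => by
      induction j with
      | zero => rfl
      | succ j ih => rw [mul_add, pow_add, MulAut.mul_apply, mul_one, sq, MulAut.mul_apply, h, ih]
    refine hfix a ?_
    have := DFunLike.congr_fun hd a
    rwa [pow_succ', MulAut.mul_apply, k] at this
  have r : ∀ a, d (t (d a)) = t a := fun a => by
    have : d * (t * d) = t := by rw [mul_inv_eq_iff_eq_mul.1 hdt, mul_inv_cancel_left]
    exact DFunLike.congr_fun this a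
  have t2 : ∀ a, t (t a) = a := fun a => DFunLike.congr_fun ht a
  set C := (MulEquiv.toMonoidHom t).eqLocus (MonoidHom.id A)
  set I := (MulEquiv.toMonoidHom t).eqLocus invMonoidHom
  have hC : ∀ a, a ∈ C ↔ t a = a := fun a => Iff.rfl
  have hI : ∀ a, a ∈ I ↔ t a = a⁻¹ := fun a => Iff.rfl
  have e1 : C ⊓ C.map d.toMonoidHom = ⊥ := eq_bot_iff.2 fun x ⟨h, y, hy, e⟩ => by
    subst e
    have := r y
    rw [(hC _).1 hy, show t (d y) = d y from h] at this
    simp [f y this]
  have e2 : I ⊓ I.map d.toMonoidHom = ⊥ := eq_bot_iff.2 fun x ⟨h, y, hy, e⟩ => by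
    subst e
    have := r y
    rw [(hI _).1 hy, show t (d y) = (d y)⁻¹ from h, map_inv, inv_inj] at this
    simp [f y this]
  refine ⟨e1, eq_of_le_of_card_le le_top ?_⟩
  have c1 := card_sup_of_inf_eq_bot (le_nrm_of_normal _ _) e1
  have c2 := card_sup_of_inf_eq_bot (le_nrm_of_normal _ _) e2
  rw [card_map_of_injective d.injective] at c1 c2
  have c3 := card_le_of_le (le_top : I ⊔ I.map d.toMonoidHom ≤ ⊤)
  let φ : A →* A := MulEquiv.toMonoidHom t / MonoidHom.id A
  have c4 : Nat.card φ.range ≤ Nat.card I := card_le_of_le (by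
    rintro _ ⟨a, rfl⟩; rw [hI]; simp [φ, t2])
  have c5 : φ.ker = C := by ext a; simp [φ, hC, div_eq_one]
  have c6 := φ.ker.card_mul_index
  rw [index_ker, c5] at c6
  rw [c1, card_top, ← c6]
  rw [c2, card_top, ← c6] at c3
  have := card_pos' φ.range
  exact Nat.mul_le_mul_left _ (by nlinarith)

end Cfsg.Agent.S1899
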