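import Cfsg.Statements.S1900
import Cfsg.Agent.H7.Tk5
import Cfsg.Agent.H7.Sf1

set_option autoImplicit false
open Cfsg

namespace Cfsg.Agent.S1900
open H7
open scoped commutatorElement

section
open Subgroup

theorem key {S : Type*} [Group S] [Finite S] {P X Y W : Subgroup S} (co : Cop X P) (hXY : X ≤ cen Y)
    (h : P ⊓ cen Y ⊓ cen X = ⊥) (h1 : P ≤ nrm W) (h2 : X ≤ nrm W) (h3 : ⁅⁅P ⊓ cen X, P ⊓ cen Y⁆, X⁆ ≤ W) :
    ⁅P ⊓ cen X, P ⊓ cen Y⁆ ≤ W := by
  have := three_subgroups (A := P ⊓ cen Y) (B := X) (C := P ⊓ cen X) (inf_le_left.trans h1) h2 (inf_le_left.trans h1)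
    (by rw [comm_eq_bot'.2 inf_le_right, commutator_bot_left]; exact bot_le) h3
  rwa [(co.right inf_le_left (nrm_inf co.norm (le_nrm_of_le_cen hXY |> nrm_cen))).comm_eq h, commutator_comm] at this

end

/-- Let S = PQ be a finite group with P a normal Sylow p-subgroup and Q elementary abelian of order q², q a prime different from p. If exactly two subgroups X₁, X₂ of order q in Q have a nontrivial centralizer in P, then P is the internal direct product of C_P(X₁) and C_P(X₂): they commute elementwise, meet trivially and generate P. -/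
theorem result {S : Type*} [Group S] [Finite S] {p q : ℕ} [Fact p.Prime] [Fact q.Prime] (hpq : p ≠ q)
    (P : Sylow p S) [(P : Subgroup S).Normal] (Q : Subgroup S) (hQ : Cfsg.IsElementaryAbelian q Q) (hQc : Nat.card Q = q ^ 2)
    (hS : (P : Subgroup S) ⊔ Q = ⊤)
    (X₁ X₂ : Subgroup S) (h₁ : X₁ ≤ Q) (h₂ : X₂ ≤ Q) (h₁₂ : X₁ ≠ X₂) (hc₁ : Nat.card X₁ = q) (hc₂ : Nat.card X₂ = q)
    (hf₁ : (P : Subgroup S) ⊓ Subgroup.centralizer (X₁ : Set S) ≠ ⊥)
    (hf₂ : (P : Subgroup S) ⊓ Subgroup.centralizer (X₂ : Set S) ≠ ⊥)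
    (honly : ∀ X : Subgroup S, X ≤ Q → Nat.card X = q →
      (P : Subgroup S) ⊓ Subgroup.centralizer (X : Set S) ≠ ⊥ → X = X₁ ∨ X = X₂) :
    ⁅(P : Subgroup S) ⊓ Subgroup.centralizer (X₁ : Set S), (P : Subgroup S) ⊓ Subgroup.centralizer (X₂ : Set S)⁆ = ⊥ ∧
      ((P : Subgroup S) ⊓ Subgroup.centralizer (X₁ : Set S)) ⊓ ((P : Subgroup S) ⊓ Subgroup.centralizer (X₂ : Set S)) = ⊥ ∧
      ((P : Subgroup S) ⊓ Subgroup.centralizer (X₁ : Set S)) ⊔ ((P : Subgroup S) ⊓ Subgroup.centralizer (X₂ : Set S)) = P := by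
  open Subgroup in
  have pP := P.isPGroup'
  have co : Cop Q P := cop_of_pgroup' (coprime_pgroup (EA.isPGroup hQ) hpq.symm) pP (le_nrm_of_normal _ _)
  have e : (P : Subgroup S) ⊓ centralizer (Q : Set S) = ⊥ := by_contra fun k => by
    obtain ⟨x, hx, x1⟩ := exists_ne_one (ne_bot_of_card_p hc₁)
    obtain ⟨y, hy, y1⟩ := exists_ne_one (ne_bot_of_card_p hc₂)
    have i := inf_eq_bot_of_ne hc₁ hc₂ h₁₂
    have m := Q.mul_mem (h₁ hx) (h₂ hy)
    have a : x * y ∉ X₁ := fun h => y1 (mem_bot.1 (i.le ⟨by simpa using X₁.mul_mem (X₁.inv_mem hx) h, hy⟩))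
    have b : x * y ∉ X₂ := fun h => x1 (mem_bot.1 (i.le ⟨hx, by simpa using X₂.mul_mem h (X₂.inv_mem hy)⟩))
    rcases honly _ (zpowers_le.2 m) (by rw [card_zpowers_eq, EA.orderOf hQ m fun e => a (e ▸ one_mem _)])
      (fun h => k (eq_bot_of_le (inf_le_inf_left _ (cen_anti (zpowers_le.2 m))) h)) with h | h
    · exact a (h ▸ mem_zpowers _)
    · exact b (h ▸ mem_zpowers _)
  have i : ((P : Subgroup S) ⊓ centralizer (X₁ : Set S)) ⊓ ((P : Subgroup S) ⊓ centralizer (X₂ : Set S)) = ⊥ := by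
    rw [← inf_inf_distrib_left, ← cen_sup, sup_eq_of_p2 hQ hQc h₁ h₂ hc₁ hc₂ h₁₂, e]
  have g : ∀ D ≤ (P : Subgroup S), Q ≤ normalizer (D : Set S) → D ≤ D ⊓ centralizer (X₁ : Set S) ⊔ D ⊓ centralizer (X₂ : Set S) :=
    fun D l n => (co.right l n).le_of_p2 hQ hQc fun X a b => by
      by_cases k : (P : Subgroup S) ⊓ centralizer (X : Set S) = ⊥
      · exact (eq_bot_of_le (inf_le_inf_right _ l) k).le.trans bot_le
      · rcases honly X a b k with rfl | rfl
        exacts [le_sup_left, le_sup_right]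
  have s := le_antisymm (sup_le inf_le_left inf_le_left) (g P le_rfl co.norm)
  refine ⟨by_contra fun k => ?_, i, s⟩
  have n1 := nrm_cen (EA.le_nrm hQ h₁)
  have n2 := nrm_cen (EA.le_nrm hQ h₂)
  have c : X₁ ≤ centralizer (X₂ : Set S) := le_cen_mono (EA.le_cen hQ) h₁ h₂
  have k1 := fun W => key (W := W) (co.left h₁) c (by rw [← i]; ac_rfl)
  have k2 := fun W => key (W := W) (co.left h₂) (le_cen_symm c) (by rw [← i]; ac_rfl)
  rw [commutator_comm ((P : Subgroup S) ⊓ centralizer (X₂ : Set S))] at k2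
  have nP := sup_le (le_nrm_comm_left ((P : Subgroup S) ⊓ centralizer (X₁ : Set S)) ((P : Subgroup S) ⊓ centralizer (X₂ : Set S)))
    (le_nrm_comm_right _ _)
  rw [s] at nP
  have nQ := nrm_commutator (nrm_inf co.norm n1) (nrm_inf co.norm n2)
  have lD := comm_le_of_le (inf_le_left : (P : Subgroup S) ⊓ centralizer (X₁ : Set S) ≤ _) (inf_le_left : (P : Subgroup S) ⊓ centralizer (X₂ : Set S) ≤ _)
  generalize ⁅(P : Subgroup S) ⊓ centralizer (X₁ : Set S), (P : Subgroup S) ⊓ centralizer (X₂ : Set S)⁆ = D at *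
  obtain ⟨W, w1, w2, w3⟩ := exists_max_inv_ge (A := (P : Subgroup S) ⊔ Q) (pgroup_comm_lt pP (pP.to_le lD) nP k)
    (nrm_commutator (sup_le nP nQ) (sup_le (le_nrm_self _) co.norm))
  obtain ⟨w3, w4⟩ := w3
  have t : ∀ X ≤ Q, ¬ ⁅D, X⁆ ≤ W → D ⊓ centralizer (X : Set S) ≤ W := fun X l h => by
    have nW := (le_sup_right.trans w3 : Q ≤ _)
    rcases w4 (W ⊔ D ⊓ centralizer (X : Set S)) le_sup_left (sup_le w2.le inf_le_left) (sup_le (le_nrm_of_comm_le' (sup_le w2.le inf_le_left)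
      (w1.trans le_sup_left)) (nrm_sup nW (nrm_inf nQ (nrm_cen (EA.le_nrm hQ l))))) with u | u
    · exact le_sup_right.trans u.le
    · refine absurd ?_ h
      rw [← u]
      exact comm_sup_le (le_nrm_self W) ((inf_le_left.trans lD).trans (le_sup_left.trans w3)) (comm_le_left (l.trans nW))
        (by rw [comm_eq_bot.2 inf_le_right]; exact bot_le)
  exact w2.not_ge ((g D lD nQ).trans (sup_le
    (t _ h₁ fun h => w2.not_ge (k1 W (le_sup_left.trans w3) (h₁.trans (le_sup_right.trans w3)) h))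
    (t _ h₂ fun h => w2.not_ge (k2 W (le_sup_left.trans w3) (h₂.trans (le_sup_right.trans w3)) h))))

end Cfsg.Agent.S1900
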