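import Cfsg.Statements.S1901
import Cfsg.Agent.H7.Tk5

set_option autoImplicit false
open Cfsg

namespace Cfsg.Agent.S1901
open H7
open scoped commutatorElement

section
open Subgroup

universe u in
theorem aux {p : ℕ} [Fact p.Prime] (n : ℕ) : ∀ {G : Type u} [Group G] [Finite G] {H P Q A : Subgroup G}, ord H = n →
    IsPSolvable p H → H2.IsSylowIn p P H → Q ≤ H → A ≤ H → (ord Q).Coprime p → Q ≤ nrm P → IsPGroup p A → A ≤ nrm Q →
    A ≤ cen Q := by
  induction n using Nat.strong_induction_on with | _ n ih =>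
  intro G _ _ H P Q A e hH hP l1 l2 cQ nP pA nQ
  have q : ∀ N ≤ H, H ≤ nrm N → N ≠ ⊥ → ⁅A, Q⁆ ≤ N := fun N l k h => by
    rw [← im_qm_le_cen (l2.trans k) (l1.trans k)]
    exact ih _ (e ▸ card_im_lt k (by rwa [kr_qm, inf_eq_right.2 l])) rfl (ps_im hH k) (syl_im hP k _) (im_mono _ l1) (im_mono _ l2)
      (coprime_im _ cQ) (im_le_nrm _ nP) (isPGroup_im _ pA) (im_le_nrm _ nQ)
  have lQ := comm_le_right nQ
  by_cases h1 : Op' p H = ⊥
  · by_cases h2 : Op p H = ⊥
    · have := ps_chP hH h1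
      rw [h2, cen_bot, inf_top_eq] at this
      exact (l2.trans this).trans bot_le
    exact comm_eq_bot.1 (eq_bot_of_le (le_inf (q _ (Opi_le _ _) (le_nrm_Opi _ _) h2) lQ)
      (inf_eq_bot_of_isPGroup (isPGroup_Op p H) cQ))
  have a := q _ (Opi_le _ _) (le_nrm_Opi _ _) h1
  have b : ⁅A, Q⁆ ≤ cen P := comm_eq_bot.1 (eq_bot_of_le (le_inf (comm_le_right (lQ.trans nP)) ((commutator_mono a le_rfl).trans
    (comm_le_left (hP.le.trans (le_nrm_Opi _ _))))) (inf_eq_bot_of_isPGroup hP.isPGroup (coprime_Op' p H)))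
  have nA := le_nrm_comm_left A Q
  refine cen_of_comm_comm nQ (coprime_of_isPGroup pA cQ).symm (le_cen_symm ?_)
  rw [commutator_comm]
  obtain ⟨g, hg, k⟩ := (hP.mono (le_inf hP.le (le_nrm_of_le_cen (le_cen_symm b))) inf_le_left).exists_cj_le pA (le_inf l2 nA)
  exact cj_le_cj.1 ((k.trans (le_cen_symm b)).trans (cj_of_mem_nrm (nrm_cen le_rfl hg.2)).ge)

end

/-- Let G be a finite p-solvable group and Q a subgroup of order prime to p such that p divides the index of C_G(Q) in N_G(Q). Then Q normalizes no Sylow p-subgroup of G. -/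
theorem result {G : Type*} [Group G] [Finite G] {p : ℕ} [Fact p.Prime]
    (hG : Cfsg.IsPSolvable p G) (Q : Subgroup G) (hQ : ¬ p ∣ Nat.card Q)
    (hA : p ∣ (Subgroup.centralizer (Q : Set G)).relIndex (Subgroup.normalizer (Q : Set G)))
    (P : Sylow p G) : ¬ Q ≤ Subgroup.normalizer ((P : Subgroup G) : Set G) := by
  open Subgroup in
  intro h
  obtain ⟨A, hA'⟩ := H2.exists_isSylowIn p (normalizer (Q : Set G))
  exact hA'.not_dvd (hA.trans (relIndex_dvd_of_le_left _ (aux _ rfl (ps_top.2 hG) (H2.sylow_isSylowIn_top P) le_top le_top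
    (coprime_iff_not_dvd.2 hQ) h hA'.isPGroup hA'.le)))

end Cfsg.Agent.S1901
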