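import Cfsg.Statements.S1902
import Cfsg.Agent.H7.Tk5

set_option autoImplicit false
open Cfsg

namespace Cfsg.Agent.S1902
open H7
open scoped commutatorElement

/-- Let p be an odd prime, G a finite p-solvable group, and B an elementary abelian subgroup of order p² such that B is the subgroup generated by the elements of order p of some Sylow p-subgroup of C_G(b₀), for some nontrivial b₀ ∈ B. Then every B-invariant subgroup of G of order prime to p lies in O_{p'}(G). -/
theorem result {G : Type*} [Group G] [Finite G] {p : ℕ} [Fact p.Prime] (hp : p ≠ 2)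
    (hG : Cfsg.IsPSolvable p G) (B : Subgroup G) (hB : Cfsg.IsElementaryAbelian p B) (hBc : Nat.card B = p ^ 2)
    (b₀ : G) (hb₀ : b₀ ∈ B) (hb₁ : b₀ ≠ 1) (P : Sylow p ↥(Subgroup.centralizer ({b₀} : Set G)))
    (hBP : B = Subgroup.closure {x : G | x ∈ ((P : Subgroup ↥(Subgroup.centralizer ({b₀} : Set G))).map
      (Subgroup.centralizer ({b₀} : Set G)).subtype : Subgroup G) ∧ orderOf x = p})
    (Q : Subgroup G) (hQ : ¬ p ∣ Nat.card Q) (hinv : ∀ b ∈ B, ∀ x ∈ Q, b * x * b⁻¹ ∈ Q) :
    Q ≤ Cfsg.pPrimeCore p G := by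
  open Subgroup in
  rw [pPrimeCore_eq]
  refine bender_le_Op' hp (ps_pcon (ps_top.2 hG)) (EA.isPGroup hB) le_top (fun x hx xp => ?_) le_top (coprime_iff_not_dvd.2 hQ)
    (le_nrm_iff_conj.2 hinv)
  have s := H2.isSylowIn_map_subtype P
  set R := (P : Subgroup ↥(centralizer ({b₀} : Set G))).map (centralizer ({b₀} : Set G)).subtype
  have l : B ≤ R := hBP.le.trans ((closure_le _).2 fun _ h => h.1)
  have c : zpowers x ≤ centralizer (B : Set G) := zpowers_le.2 hx.2
  have eX := (ea_zpowers xp).sup hB c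
  obtain ⟨g, hg, k⟩ := s.exists_cj_le eX.isPGroup (sup_le (c.trans (cen_le_cen1 hb₀)) (EA.le_cen1 hB hb₀))
  have k2 : H2.cj g (zpowers x ⊔ B) ≤ B := fun y hy => by
    by_cases e : y = 1
    · exact e ▸ one_mem _
    · exact hBP.ge (Subgroup.subset_closure ⟨k hy, (eX.cj g).orderOf hy e⟩)
  rw [eq_of_le_of_card_le (le_sup_right : B ≤ zpowers x ⊔ B) (by rw [← card_cj g]; exact card_le_of_le k2)]
  exact mem_sup_left (mem_zpowers x)

end Cfsg.Agent.S1902
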