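import Cfsg.Statements.S1905
import Cfsg.Agent.H7.Tk6

set_option autoImplicit false
open Cfsg

namespace Cfsg.Agent.S1905
open H7
open scoped commutatorElement

/-- Let M be a subgroup of even order of a finite group S such that M contains the centralizer in S of each of its involutions and the normal core of M in S has odd order. Then all involutions of S are conjugate. If moreover N_S(X) ≤ M for a Sylow 2-subgroup X of M and I is an involution in the centre of X, then all involutions of M are conjugate in M and M = M₀ C_M(I) for some subgroup M₀ of M of odd order. -/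
theorem result {S : Type*} [Group S] [Finite S] (M : Subgroup S) (hM : Even (Nat.card M))
    (hC : ∀ i ∈ M, orderOf i = 2 → Subgroup.centralizer ({i} : Set S) ≤ M) (hcore : Odd (Nat.card M.normalCore)) :
    (∀ x y : S, orderOf x = 2 → orderOf y = 2 → IsConj x y) ∧
      ∀ (X : Sylow 2 M) (I : M), I ∈ (Subgroup.center ↥(X : Subgroup ↥M)).map (X : Subgroup ↥M).subtype → orderOf I = 2 →
        Subgroup.normalizer (((X : Subgroup M).map M.subtype : Subgroup S) : Set S) ≤ M →
        (∀ x y : M, orderOf x = 2 → orderOf y = 2 → IsConj x y) ∧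
          ∃ M₀ : Subgroup M, Odd (Nat.card M₀) ∧
            ∀ m : M, ∃ a ∈ M₀, ∃ c ∈ Subgroup.centralizer ({I} : Set M), m = a * c := by
  open Subgroup in
  obtain ⟨s, hs, os⟩ := H1B.exists_inv hM
  obtain ⟨g, hg⟩ : ∃ g, g * s * g⁻¹ ∉ M := by
    by_contra! h
    exact H1B.odd_iff_no_inv.1 hcore s h os
  have ou := (oconj g s).trans os
  have k : ∀ i ∈ M, orderOf i = 2 → ∀ u ∉ M, orderOf u = 2 → IsConj i u := fun i hi oi u hu ou =>
    H1B.isConj_of_odd (sq_of_ord2 oi) (sq_of_ord2 ou) (Nat.not_even_iff_odd.1 fun e => by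
      obtain ⟨a, b, c⟩ := H1B.dih_z (sq_of_ord2 oi) (sq_of_ord2 ou) e
      exact hu (hC _ (hC i hi oi (mem_cen1.2 b)) a (mem_cen1.2 c.symm)))
  have k2 : ∀ x, orderOf x = 2 → IsConj s x := fun x o => by
    by_cases h : x ∈ M
    · exact (k s hs os _ hg ou).trans (k x h o _ hg ou).symm
    · exact k s hs os x h o
  have k3 : ∀ x y : S, orderOf x = 2 → orderOf y = 2 → IsConj x y := fun x y a b => (k2 x a).symm.trans (k2 y b)
  refine ⟨k3, fun X I hI oI hN => ?_⟩
  have sX := H2.isSylowIn_map_subtype X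
  have sX' := syl_of_nrm le_top (by rw [top_inf_eq]; exact sX.mono (le_nrm_self _) hN)
  have oI' : orderOf (I : S) = 2 := by rwa [Subgroup.orderOf_coe]
  have lI : (X : Subgroup M).map M.subtype ≤ centralizer {(I : S)} := by
    rintro _ ⟨x, hx, rfl⟩
    rw [center_map_subtype] at hI
    exact mem_cen1.2 (congrArg Subtype.val (mem_cen.1 hI.2 x hx))
  generalize (X : Subgroup M).map M.subtype = P at *
  have k4 : ∀ x : S, x * I * x⁻¹ ∈ M → x ∈ M := fun x h => by
    have l : H2.cj x P ≤ M := (cj_mono x lI).trans (by rw [cj_cen1]; exact hC _ h ((oconj x _).trans oI'))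
    obtain ⟨m, hm, e⟩ := sX.exists_cj_le (isPGroup_cj.2 sX.isPGroup) l
    rw [← cj_mul] at e
    simpa using M.mul_mem (M.inv_mem hm) (hN (mem_nrm_of_cj_le e))
  have se : IsStronglyEmbedded M := H1B.se_iff.2 ⟨by rintro rfl; exact hg (mem_top _), ⟨s, hs, os⟩, fun x t o a b => by
    obtain ⟨c, rfl⟩ := isConj_iff.1 (k3 _ t oI' o)
    simpa using M.mul_mem (k4 (x * c) (by simpa [mul_assoc] using b)) (M.inv_mem (k4 c a))⟩
  have k5 := fun (x y : M) (a : orderOf x = 2) (b : orderOf y = 2) =>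
    H1B.SE.conj_by se ou hg ((Subgroup.orderOf_coe x).trans a) x.2 ((Subgroup.orderOf_coe y).trans b) y.2
  refine ⟨fun x y a b => ?_, (M ⊓ H2.cj (g * s * g⁻¹) M).subgroupOf M, ?_, fun m => ?_⟩
  · obtain ⟨d, hd, -, e⟩ := k5 x y a b
    exact isConj_iff.2 ⟨⟨d, hd.1⟩, Subtype.ext e⟩
  · rw [card_subgroupOf_of_le inf_le_left]; exact se.2.2 _ hg
  obtain ⟨d, hd, -, e⟩ := k5 I (m * I * m⁻¹) oI ((oconj m I).trans oI)
  refine ⟨⟨d, hd.1⟩, hd, (⟨d, hd.1⟩ : M)⁻¹ * m, mem_cen1.2 (Subtype.ext ?_), by simp⟩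
  simp only [coe_mul, coe_inv] at e ⊢
  calc d⁻¹ * m * I = d⁻¹ * (m * I * (m : S)⁻¹) * m := by group
    _ = _ := by rw [← e]; group

end Cfsg.Agent.S1905
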