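import Cfsg.Statements.S1907
import Cfsg.Agent.H7.Tk6

set_option autoImplicit false
open Cfsg

namespace Cfsg.Agent.S1907
open H7
open scoped commutatorElement

/-- Let P be a Sylow p-subgroup of a finite group G, H = P ∩ O_{p',p}(G), N = N_G(H) and D = O_{p'}(G). (a) If y is an element of p-power order of N and d ∈ D with d⁻¹ y d ∈ N, then d = d₁ d₂ with d₁ ∈ C_D(y) and d₂ ∈ C_D(H). (b) Two elements of P that are conjugate in G are conjugate in N. -/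
theorem result {G : Type*} [Group G] [Finite G] {p : ℕ} [Fact p.Prime] (P : Sylow p G) :
    (∀ y ∈ Subgroup.normalizer (((P : Subgroup G) ⊓ Cfsg.pPrimePCore p G : Subgroup G) : Set G), (∃ k : ℕ, orderOf y = p ^ k) →
      ∀ d ∈ Cfsg.pPrimeCore p G, d⁻¹ * y * d ∈ Subgroup.normalizer (((P : Subgroup G) ⊓ Cfsg.pPrimePCore p G : Subgroup G) : Set G) →
        ∃ d₁ ∈ Cfsg.pPrimeCore p G ⊓ Subgroup.centralizer ({y} : Set G),
          ∃ d₂ ∈ Cfsg.pPrimeCore p G ⊓ Subgroup.centralizer (((P : Subgroup G) ⊓ Cfsg.pPrimePCore p G : Subgroup G) : Set G), d = d₁ * d₂) ∧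
    ∀ x y : G, x ∈ (P : Subgroup G) → y ∈ (P : Subgroup G) → IsConj x y →
      ∃ n ∈ Subgroup.normalizer (((P : Subgroup G) ⊓ Cfsg.pPrimePCore p G : Subgroup G) : Set G), n * x * n⁻¹ = y := by
  open Subgroup in
  rw [pPrimePCore_eq, pPrimeCore_eq]
  have s := syl_inf_Opp (H2.sylow_isSylowIn_top P)
  have e := syl_Omod_sup s (Opi_le _ _) (le_nrm_Opi _ _)
  have f := syl_frattini s (Omod_le _ _ _) (le_nrm_Omod _ _ _)
  have nP : (P : Subgroup G) ≤ _ := nrm_inf (le_nrm_self _) (le_top.trans (le_nrm_Omod {p} (Op' p ⊤) ⊤))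
  have pH := s.isPGroup
  have cN := coprime_Op' p (⊤ : Subgroup G)
  have nN : ∀ X : Subgroup G, X ≤ normalizer (Op' p (⊤ : Subgroup G) : Set G) := fun X => le_top.trans (le_nrm_Opi _ _)
  replace f := (sup_le_sup (inf_le_right) e.ge).trans' f.ge
  clear e s
  generalize (P : Subgroup G) ⊓ Opp p (⊤ : Subgroup G) = H at *
  generalize Op' p (⊤ : Subgroup G) = N at *
  have c : N ⊓ normalizer (H : Set G) ≤ N ⊓ centralizer (H : Set G) := le_inf inf_le_left (comm_eq_bot.1 (eq_bot_of_le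
    (le_inf (comm_le_right inf_le_right) ((commutator_mono inf_le_left le_rfl).trans (comm_le_left (nN H))))
    (inf_eq_bot_of_isPGroup pH cN)))
  have k : ∀ y ∈ normalizer (H : Set G), (∃ k : ℕ, orderOf y = p ^ k) → ∀ d ∈ N, d⁻¹ * y * d ∈ normalizer (H : Set G) →
      ∃ d₁ ∈ N ⊓ centralizer ({y} : Set G), ∃ d₂ ∈ N ⊓ centralizer (H : Set G), d = d₁ * d₂ := fun y hy ⟨k, o⟩ d hd h => by
    have l : zpowers y ≤ H2.cj d (normalizer (H : Set G)) := zpowers_le.2 (mem_cj.2 h)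
    obtain ⟨n, hn, m⟩ := (cop_of_pgroup (isPGroup_zpowers (o ▸ pow_orderOf_eq_one y)) (coprime_of_le inf_le_left cN)
      (nrm_inf (nN _) (nrm_cen (zpowers_le.2 hy)))).fixed_coset (k := d) fun a ha => c ⟨by
        have := N.mul_mem (N.inv_mem hd) (conj_mem (nN _) ha hd)
        simpa [mul_assoc] using this, Subgroup.mul_mem _ (mem_cj.1 (l ha)) (Subgroup.inv_mem _ (zpowers_le.2 hy ha))⟩
    exact ⟨d * n, ⟨N.mul_mem hd hn.1, by rwa [cen_zpowers] at m⟩, n⁻¹, inv_mem hn, by simp⟩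
  refine ⟨k, fun x y hx hy h => ?_⟩
  obtain ⟨g, rfl⟩ := isConj_iff.1 h
  rw [← sup_assoc, sup_right_comm, sup_eq_left.2 (le_nrm_self H)] at f
  obtain ⟨m, hm, d, hd, rfl⟩ := (mem_sup_nrm (nN _)).1 (f (mem_top g))
  obtain ⟨d₁, h1, d₂, h2, e⟩ := k x (nP hx) (H2.orderOf_eq_pow_of_mem P.isPGroup' hx) d⁻¹ (N.inv_mem hd) (by
    have := mul_mem (mul_mem (inv_mem hm) (nP hy)) hm
    simpa [mul_assoc] using this)
  refine ⟨m * d₂⁻¹, mul_mem hm (inv_mem (cen_le_nrm _ h2.2)), ?_⟩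
  rw [← inv_inv d, e]
  calc _ = m * d₂⁻¹ * (d₁⁻¹ * (d₁ * x)) * d₂ * m⁻¹ := by group
    _ = _ := by rw [mem_cen1.1 h1.2]; group

end Cfsg.Agent.S1907
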