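import Cfsg.Statements.S1908
import Cfsg.Agent.H7.FTc

set_option autoImplicit false
open Cfsg

namespace Cfsg.Agent.S1908
open H7
open scoped commutatorElement

/-- Let π be a set of primes and G a finite π-separable group: G has a chain of normal subgroups from 1 to G in which each successive index is divisible only by primes in π or only by primes outside π. Then G has a Hall π-subgroup, any two Hall π-subgroups of G are conjugate, and every subgroup of G whose order is divisible only by primes in π lies in some Hall π-subgroup. -/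
theorem result {G : Type*} [Group G] [Finite G] (π : Set ℕ)
    (hsep : ∃ (n : ℕ) (H : Fin (n + 1) → Subgroup G), H 0 = ⊥ ∧ H (Fin.last n) = ⊤ ∧ Monotone H ∧ (∀ i, (H i).Normal) ∧
      ∀ i : Fin n, (∀ q : ℕ, q.Prime → q ∣ (H i.castSucc).relIndex (H i.succ) → q ∈ π) ∨
        (∀ q : ℕ, q.Prime → q ∣ (H i.castSucc).relIndex (H i.succ) → q ∉ π)) :
    (∃ K : Subgroup G, Cfsg.IsPiHall π K) ∧
      (∀ K L : Subgroup G, Cfsg.IsPiHall π K → Cfsg.IsPiHall π L → ∃ g : G, L = K.map (MulAut.conj g).toMonoidHom) ∧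
      ∀ U : Subgroup G, (∀ q : ℕ, q.Prime → q ∣ Nat.card U → q ∈ π) → ∃ K : Subgroup G, Cfsg.IsPiHall π K ∧ U ≤ K := by
  open Subgroup in
  obtain ⟨n, H, h0, hl, hm, hn, h⟩ := hsep
  have hd : DPi π (⊤ : Subgroup G) :=
    (psep_of_series H h0 hl hm (fun i => normal_iff_top_le_nrm.1 (hn i)) h).dpi
  have hc := cpi_top_iff.2 hd.cpi
  refine ⟨hc.1, hc.2, fun U hU => ?_⟩
  obtain ⟨K, hK⟩ := hd.1
  obtain ⟨g, -, e⟩ := hd.2 K hK U le_top hU
  exact ⟨cj g⁻¹ K, hall_top_iff.2 (hK.cj_of_mem (mem_top _)), cj_le_iff.1 e⟩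

end Cfsg.Agent.S1908
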