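import Cfsg.Statements.S1924
import Cfsg.Agent.H7.Tk6

set_option autoImplicit false
open Cfsg

namespace Cfsg.Agent.S1924
open H7
open scoped commutatorElement

/-- A consequence of Thompson's transfer lemma. Let G be a finite group, L a subgroup with O²(L) = L, T a Sylow 2-subgroup of L and S a Sylow 2-subgroup of G containing T. Suppose D ≤ S is a dihedral subgroup of order at least 4 (the four-group counts) with D ∩ T = 1 and S = TD as a set of products (so |S| = |T|·|D|), and C ≤ D is cyclic of index 2 in D. If no involution of D outside C is G-conjugate to an involution of the subgroup generated by T and C, and the involution of C is not G-conjugate to any involution of T, then G has a normal subgroup K, containing every Sylow 2-subgroup of L as a Sylow 2-subgroup, with G = KD. -/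
theorem result {G : Type*} [Group G] [Finite G] (L T S D C : Subgroup G) (hL : Cfsg.pResidual 2 ↥L = ⊤)
    (hTL : T ≤ L) (hT2 : IsPGroup 2 T) (hTsyl : ¬ 2 ∣ T.relIndex L)
    (hS2 : IsPGroup 2 S) (hSsyl : ¬ 2 ∣ S.index) (hTS : T ≤ S)
    (hDS : D ≤ S) (hDih : ∃ n : ℕ, 2 ≤ n ∧ Nonempty (↥D ≃* DihedralGroup n)) (hDT : D ⊓ T = ⊥) (hTD : T ⊔ D = S) (hTDc : Nat.card T * Nat.card D = Nat.card S)
    (hCD : C ≤ D) (hC : IsCyclic ↥C) (hCi : C.relIndex D = 2)
    (h1 : ∀ x ∈ D, x ∉ C → orderOf x = 2 → ∀ g : G, g * x * g⁻¹ ∈ T ⊔ C → False)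
    (h2 : ∀ c ∈ C, orderOf c = 2 → ∀ g : G, g * c * g⁻¹ ∈ T → False) :
    ∃ K : Subgroup G, K.Normal ∧ K ⊔ D = ⊤ ∧
      ∀ T' : Subgroup G, T' ≤ L → IsPGroup 2 T' → ¬ 2 ∣ T'.relIndex L → T' ≤ K ∧ ¬ 2 ∣ T'.relIndex K := by
  open Subgroup in
  obtain ⟨n, hn, ⟨e⟩⟩ := hDih
  have sS : H2.IsSylowIn 2 S ⊤ := ⟨le_top, hS2, by rwa [relIndex_top_right]⟩
  have sT : H2.IsSylowIn 2 T L := ⟨hTL, hT2, hTsyl⟩
  have lL : L ≤ pResidual 2 G := (H2.pResidual_eq_top_iff_pRes.1 hL).ge.trans (H2.pRes_le_pResidual L)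
  have sK := syl_inf sS (le_top : pResidual 2 G ≤ ⊤) (le_nrm_of_normal _ _)
  have oS := Nat.odd_iff.2 (Nat.two_dvd_ne_zero.1 hSsyl)
  have cC := relIndex_mul_card' hCD
  rw [hCi] at cC
  have inv : ∀ x ∈ D, x ∉ C → orderOf x = 2 := fun x hx xC => by
    have t : ∀ y : D, orderOf (y : G) = orderOf (e y) := fun y => by rw [Subgroup.orderOf_coe, MulEquiv.orderOf_eq]
    obtain ⟨c, rfl⟩ := (Subgroup.isCyclic_iff_exists_zpowers_eq_top C).1 hC
    have hc := hCD (mem_zpowers c)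
    rw [t ⟨x, hx⟩]
    rcases h : e ⟨x, hx⟩ with i | i
    swap; · exact DihedralGroup.orderOf_sr i
    rcases h' : e ⟨c, hc⟩ with j | j
    · have k : ∀ y : D, (y : G) ∈ zpowers c → ∀ i, e y ≠ .sr i := fun y ⟨m, hm⟩ i => by
        rw [show y = ⟨c, hc⟩ ^ m from Subtype.ext hm.symm, map_zpow, h', DihedralGroup.r_zpow]; simp
      have := (H2.mul_mem_iff_of_relIndex_two hCi hx (e.symm (.sr 0)).2).2
        (iff_of_false xC fun a => k _ a 0 (e.apply_symm_apply _))
      exact absurd (by rw [map_mul, h, e.apply_symm_apply, DihedralGroup.r_mul_sr]) (k (⟨x, hx⟩ * e.symm (.sr 0)) this _)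
    · haveI : NeZero n := ⟨by omega⟩
      rw [card_zpowers_eq, t ⟨c, hc⟩, h', DihedralGroup.orderOf_sr, Nat.card_congr e.toEquiv, DihedralGroup.nat_card] at cC
      obtain rfl : n = 2 := by omega
      refine orderOf_eq_prime (by clear h; revert i; decide) fun a => xC ?_
      rw [← h, map_eq_one_iff _ e.injective] at a
      rw [show x = 1 from congrArg Subtype.val a]; exact one_mem _
  have i0 : T ⊓ D = ⊥ := by rwa [inf_comm]
  have ix : (T ⊔ C).relIndex S = 2 := by
    have a := relIndex_mul_card' (sup_le hTS (hCD.trans hDS))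
    have b := card_mul_le_sup (eq_bot_of_le (inf_le_inf_left T hCD) i0)
    have c : (T ⊔ C).relIndex S ≠ 1 := fun k => by
      obtain ⟨x, hx, xC⟩ := SetLike.not_le_iff_exists.1 fun l : D ≤ C => by simp [relIndex_eq_one.2 l] at hCi
      exact h1 x hx xC (inv x hx xC) 1 (by simpa using relIndex_eq_one.1 k (hDS hx))
    have d := relIndex_pos (T ⊔ C) S
    have := Nat.mul_pos (card_pos' T) (card_pos' C)
    rw [← hTDc, ← cC] at a
    by_contra k
    nlinarith [Nat.mul_le_mul (show 3 ≤ (T ⊔ C).relIndex S by omega) b]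
  have l1 : D ⊓ pResidual 2 G ≤ C := fun x hx => by_contra fun xC => by
    have o := inv x hx.1 xC
    refine not_mem_pResidual_of_free (T := T ⊔ C) (by rw [o]; exact even_two) (fun j g h => ?_) oS ?_ hx.2
    · rcases Nat.even_or_odd' j with ⟨j, rfl | rfl⟩
      · rw [pow_mul, ← o, pow_orderOf_eq_one, one_pow]
      · rw [pow_succ, pow_mul, ← o, pow_orderOf_eq_one, one_pow, one_mul] at h
        exact (h1 x hx.1 xC o g⁻¹ (by simpa using h)).elim
    · rw [o, ← ix, relIndex_mul_index (sup_le hTS (hCD.trans hDS))]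
  have pr : Prm T D := (prm_iff_card i0).2 (by rwa [hTD])
  have e1 : S ⊓ pResidual 2 G = T ⊔ D ⊓ pResidual 2 G := by rw [← hTD, pr.modular (hTL.trans lL)]
  have l2 : D ⊓ pResidual 2 G = ⊥ := by_contra fun k => by
    obtain ⟨y, hy⟩ := (Subgroup.isCyclic_iff_exists_zpowers_eq_top _).1 (cyc_of_le l1 hC)
    have my : y ∈ D ⊓ pResidual 2 G := hy.le (mem_zpowers y)
    have pY := hS2.to_le (inf_le_left.trans hDS : D ⊓ pResidual 2 G ≤ S)
    have c := (prm_iff_card (eq_bot_of_le (inf_le_inf_left T (inf_le_left (b := pResidual 2 G))) i0)).1 fun x hx => by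
      obtain ⟨a, ha, b, hb, rfl⟩ := pr x (sup_le_sup_left inf_le_left T hx)
      exact ⟨a, ha, b, ⟨hb, (mul_mem_cancel_left (lL (hTL ha))).1 (e1.ge hx).2⟩, rfl⟩
    have l3 : T ≤ S ⊓ pResidual 2 G := le_inf hTS (hTL.trans lL)
    rw [← e1, ← relIndex_mul_card' l3, ← hy, card_zpowers_eq, mul_comm, Nat.mul_left_inj (card_pos' T).ne'] at c
    refine not_mem_pRes_of_free (T := T) my.2 (even_iff_two_dvd.2 (by
      rw [← card_zpowers_eq, hy]; exact dvd_card_of_isPGroup pY k)) (fun j g h => by_contra fun k => ?_)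
      (Nat.odd_iff.2 (Nat.two_dvd_ne_zero.1 sK.not_dvd)) (by rw [c, relIndex_mul_relIndex _ _ _ l3 inf_le_right])
      (by rw [H2.pRes_pResidual]; exact my.2)
    have l := zpowers_le.2 (pow_mem my j)
    obtain ⟨z, hz, o⟩ := exists_orderOf_of_pgroup (pY.to_le l) (zpowers_ne_bot' k)
    exact h2 z (l1 (l hz)) o g⁻¹ (by simpa using mem_cj.1 (zpowers_le.2 (mem_cj.2 h) hz))
  rw [l2, sup_bot_eq] at e1
  rw [e1] at sK
  refine ⟨pResidual 2 G, inferInstance, ?_, fun T' a b c => ⟨a.trans lL, (H2.isSylowIn_of_card_le sK b (a.trans lL)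
    (sT.card_eq ⟨a, b, c⟩).le).not_dvd⟩⟩
  have := sS.pRes_sup
  rwa [H2.pRes_top, ← hTD, ← sup_assoc, sup_eq_left.2 (hTL.trans lL)] at this

end Cfsg.Agent.S1924
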