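import Cfsg.Statements.S1939
import Cfsg.Agent.H7.CF

set_option autoImplicit false
open Cfsg

namespace Cfsg.Agent.S1939
open H7
open scoped commutatorElement

/-- Let S be a Sylow p-subgroup of the finite group G and a an element of S that is the only G-conjugate of a lying in S. Then every power of a has the same property: for every n, the only G-conjugate of a^n lying in S is a^n. -/
theorem result {G : Type*} [Group G] [Finite G] {p : ℕ} [Fact p.Prime] (S : Sylow p G) (a : G)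
    (haS : a ∈ (S : Subgroup G)) (hwc : ∀ g : G, g * a * g⁻¹ ∈ (S : Subgroup G) → g * a * g⁻¹ = a) (n : ℕ) :
    ∀ g : G, g * a ^ n * g⁻¹ ∈ (S : Subgroup G) → g * a ^ n * g⁻¹ = a ^ n := by
  open Subgroup in
  intro g hg
  have hS := H2.sylow_isSylowIn_top S
  have c1 : (S : Subgroup G) ≤ centralizer {a} := fun s hs => mem_cen1.2 (mul_inv_eq_iff_eq_mul.1 (hwc s (mul_mem (mul_mem hs haS) (inv_mem hs))))
  have l : (S : Subgroup G) ⊓ centralizer {g * a ^ n * g⁻¹} ≤ centralizer {g * a ^ n * g⁻¹} := inf_le_right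
  obtain ⟨T, t1, t2⟩ := H2.exists_isSylowIn_ge (hS.isPGroup.to_le inf_le_left) l
  have m : a ∈ T := t2 ⟨haS, mem_cen1.2 (mem_cen1.1 (c1 hg)).symm⟩
  obtain ⟨c, hc, k⟩ := t1.exists_cj_le (Q := H2.cj g (zpowers a)) (isPGroup_cj.2 (hS.isPGroup.to_le (zpowers_le.2 haS))) (by
    rw [← cj_cen1]; exact cj_mono _ (zpowers_le.2 (mem_cen1.2 (Commute.self_pow a n))))
  obtain ⟨h, -, k2⟩ := hS.exists_cj_le t1.isPGroup le_top
  have e1 := hwc h (k2 (conj_mem_cj.2 m))
  have e2 := hwc (h * c * g) (k2 (by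
    rw [show h * c * g * a * (h * c * g)⁻¹ = h * (c * (g * a * g⁻¹) * c⁻¹) * h⁻¹ by group]
    exact conj_mem_cj.2 (k (conj_mem_cj.2 (conj_mem_cj.2 (mem_zpowers a))))))
  have e3 : c * g * a * (c * g)⁻¹ = a := by
    rw [← mul_left_inj h⁻¹, ← mul_right_inj h, ← mul_assoc h a, e1]; exact Eq.trans (by group) e2
  calc g * a ^ n * g⁻¹ = c * (g * a ^ n * g⁻¹) * c⁻¹ := by rw [mem_cen1.1 hc, mul_inv_cancel_right]
    _ = (c * g * a * (c * g)⁻¹) ^ n := by rw [conj_pow]; group
    _ = _ := by rw [e3]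

end Cfsg.Agent.S1939
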