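import Cfsg.Statements.S1940
import Cfsg.Agent.H7.PP

set_option autoImplicit false
open Cfsg

namespace Cfsg.Agent.S1940
open H7
open scoped commutatorElement

/-- Let the finite group L act by automorphisms on the finite abelian group M, and let N be an L-invariant subgroup of M such that M/N is a p-group on which L acts trivially (every l • m lies in the coset mN). If every element of M is a product of an element of N and an element fixed by a Sylow p-subgroup T of L, then every element of M is a product of an element of N and an element fixed by all of L. -/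
theorem result {L : Type*} [Group L] [Finite L] {M : Type*} [CommGroup M] [Finite M] [MulDistribMulAction L M]
    {p : ℕ} [Fact p.Prime] (N : Subgroup M) (hN : ∀ (l : L) (m : M), m ∈ N → l • m ∈ N)
    (hquot : IsPGroup p (M ⧸ N)) (htriv : ∀ (l : L) (m : M), (l • m) * m⁻¹ ∈ N) (T : Sylow p L)
    (hT : ∀ m : M, ∃ n ∈ N, ∃ c : M, (∀ t ∈ (T : Subgroup L), t • c = c) ∧ m = n * c) :
    ∀ m : M, ∃ n ∈ N, ∃ c : M, (∀ l : L, l • c = c) ∧ m = n * c := by
  open Subgroup in
  classical
  intro m
  obtain ⟨n, hn, c, hc, rfl⟩ := hT m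
  haveI := Fintype.ofFinite (L ⧸ (T : Subgroup L))
  let f : L ⧸ (T : Subgroup L) → M := Quotient.lift (fun l => l • c) fun a b h => by
    rw [show b = a * (a⁻¹ * b) by group, mul_smul, hc _ (QuotientGroup.leftRel_apply.1 h)]
  have h1 : ∀ l : L, l • ∏ q, f q = ∏ q, f q := fun l => by
    rw [Finset.smul_prod']
    exact Fintype.prod_equiv (MulAction.toPerm l) _ _ fun q => by
      induction q using QuotientGroup.induction_on with
      | H a => exact (mul_smul l a c).symm
  have h2 : (∏ q, f q) * (c ^ (T : Subgroup L).index)⁻¹ ∈ N := by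
    rw [index_eq_card, Nat.card_eq_fintype_card, ← Finset.card_univ, ← Finset.prod_const, ← Finset.prod_inv_distrib,
      ← Finset.prod_mul_distrib]
    exact N.prod_mem fun q _ => by
      induction q using QuotientGroup.induction_on with
      | H a => exact htriv a c
  obtain ⟨k, hk⟩ := hquot (c : M ⧸ N)
  obtain ⟨j, hj⟩ := exists_pow_eq_self_of_coprime (x := (c : M ⧸ N)) ((Nat.Coprime.pow_right k
    (coprime_iff_not_dvd.2 T.not_dvd_index)).coprime_dvd_right (orderOf_dvd_of_pow_eq_one hk))
  refine ⟨n * c * ((∏ q, f q) ^ j)⁻¹, ?_, (∏ q, f q) ^ j, fun l => by rw [smul_pow', h1], by simp⟩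
  rw [← QuotientGroup.eq_one_iff] at hn h2 ⊢
  rw [QuotientGroup.mk_mul, QuotientGroup.mk_inv, mul_inv_eq_one, QuotientGroup.mk_pow] at h2
  rw [QuotientGroup.mk_mul, QuotientGroup.mk_mul, hn, QuotientGroup.mk_inv, QuotientGroup.mk_pow, h2, hj]
  simp

end Cfsg.Agent.S1940
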