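import Cfsg.Statements.S1941
import Cfsg.Agent.H7.Tk6

set_option autoImplicit false
open Cfsg

namespace Cfsg.Agent.S1941
open H7
open scoped commutatorElement

section
open Subgroup

theorem aux {G : Type*} [Group G] [Finite G] {Z T : Subgroup G} (α : MulAut G) (h1 : ⊤ ≤ nrm Z) (h2 : Z ≤ cen Z)
    (hc : (ord Z).Coprime T.index) (hd : ∀ g, α g * g⁻¹ ∈ Z) (hT : ∀ x ∈ T, α x = x) : ∃ g : G, ∀ x : G, α x = g * x * g⁻¹ := by
  haveI := normal_iff_top_le_nrm.2 h1
  haveI := isComm_iff.2 h2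
  obtain ⟨w, hw⟩ := cocycle_cob hc (fun g => ⟨_, hd g⟩) (fun g h => Subtype.ext (by simp [mul_assoc]))
    fun u hu => Subtype.ext (by simp [hT u hu])
  refine ⟨w, fun x => ?_⟩
  have := congrArg Subtype.val (hw x)
  simp only [div_eq_mul_inv, coe_mul, coe_inv, MulAut.conjNormal_apply] at this
  rw [mul_inv_eq_iff_eq_mul.1 this]; group

end

/-- Let G be a finite group with no nontrivial normal subgroup of order prime to p, T a Sylow p-subgroup of G and E(G) the layer of G (the subgroup generated by its components). An automorphism of G of p-power order that fixes T and E(G) elementwise is inner. -/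
theorem result {G : Type*} [Group G] [Finite G] {p : ℕ} [Fact p.Prime] (hcore : Cfsg.pPrimeCore p G = ⊥)
    (T : Sylow p G) (α : MulAut G) (hα : ∃ j : ℕ, orderOf α = p ^ j) (hfixT : ∀ x ∈ (T : Subgroup G), α x = x)
    (hfixE : ∀ x ∈ Cfsg.layer G, α x = x) : ∃ g : G, ∀ x : G, α x = g * x * g⁻¹ := by
  open Subgroup in
  rw [pPrimeCore_eq] at hcore
  rw [layer_eq] at hfixE
  have sT := H2.sylow_isSylowIn_top T
  have hF : ∀ x ∈ Fst (⊤ : Subgroup G), α x = x := fun x hx =>
    (sup_le (fun x hx => hfixE x hx) (fun x hx => hfixT x (Op_le_of_sylow sT ((Fit_eq_Op hcore).le hx))) :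
      Fst ⊤ ≤ (MulEquiv.toMonoidHom α).eqLocus (MonoidHom.id G)) hx
  have l := cen_Fst_le_Fit (⊤ : Subgroup G)
  rw [top_inf_eq] at l
  have n := le_nrm_Fst (⊤ : Subgroup G)
  refine aux α (nrm_cen n) (cen_anti (l.trans (Fit_le_Fst _))) (coprime_of_isPGroup ((isPGroup_Op p ⊤).to_le
    (l.trans (Fit_eq_Op hcore).le)) (coprime_iff_not_dvd.2 T.not_dvd_index)).symm (fun g => mem_cen.2 fun x hx => ?_) hfixT
  have := hF _ (nconj_mem' (n (mem_top g)) hx)
  simp only [map_mul, map_inv, hF x hx] at this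
  calc x * (α g * g⁻¹) = α g * ((α g)⁻¹ * x * α g) * g⁻¹ := by group
    _ = _ := by rw [this]; group

end Cfsg.Agent.S1941
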