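import Cfsg.Statements.S1944
import Cfsg.Agent.H2.FS20

set_option autoImplicit false
open Cfsg

namespace Cfsg.Agent.S1944

open Subgroup H2 Cfsg.FusionSystem


/-- Let S be a Sylow p-subgroup of the finite group G and suppose that the centre Z(S) lies in O_{p',p}(G). The elements of S each of which is its only G-conjugate in S form a subgroup W of Z(S); W is then a direct factor of Z(S): there is a subgroup K of Z(S) with W ∩ K = 1 and WK = Z(S). -/
theorem result {G : Type*} [Group G] [Finite G] {p : ℕ} [Fact p.Prime] (S : Sylow p G)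
    (hZ : ((S : Subgroup G) ⊓ Subgroup.centralizer ((S : Subgroup G) : Set G)) ≤ Cfsg.pPrimePCore p G) :
    ∃ W K : Subgroup G, (∀ x : G, x ∈ W ↔ (x ∈ (S : Subgroup G) ∧ ∀ g : G, g * x * g⁻¹ ∈ (S : Subgroup G) → g * x * g⁻¹ = x)) ∧
      K ≤ ((S : Subgroup G) ⊓ Subgroup.centralizer ((S : Subgroup G) : Set G)) ∧ W ⊓ K = ⊥ ∧ W ⊔ K = ((S : Subgroup G) ⊓ Subgroup.centralizer ((S : Subgroup G) : Set G)) := by
  have hS := sylow_isSylowIn_top S
  have hG := isGF_group (S : Subgroup G)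
  have h0 : (⊤ : Subgroup G) ≤ _ := H7.le_nrm_Opi {p}ᶜ ⊤
  have h1 := (hG.rzS hS).im h0 (coprime_kr_qm p ⊤)
  rw [H7.pPrimePCore_eq] at hZ
  have h2 := (H7.syl_inf_Opp hS).map (MonoidHom.id G)
  obtain ⟨K, k⟩ := center_compl hS.isPGroup (hG.saturated hS) (h1.normal inf_le_left (by
    rw [img_ev (le_top.trans h0)]
    have h3 := H7.syl_im (f := H7.qm (H7.Opi {p}ᶜ ⊤)) (H7.syl_inf_Opp hS) (le_top.trans h0)
    rw [H7.im_qm_Omod _ h0] at h3
    rw [← h3.eq_of_le (H7.isPGroup_Op p _) h3.le le_rfl]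
    exact H7.le_nrm_Opi _ _)) (le_inf inf_le_left hZ)
  refine ⟨_, K, fun x => (mem_center_iff' hS.isPGroup (hG.saturated hS)).trans (and_congr_right
    fun hx => ⟨fun h g hg => h _ _ (mor_group_conj (zpowers_le.2 hx) (by
      rwa [cj_zpowers, zpowers_le])) (mem_zpowers x), fun h P f hf hP => ?_⟩), k⟩
  obtain ⟨g, -, e⟩ := hG.exists_conj hf
  rw [e x hP]; exact h g (e x hP ▸ hf.mem hP)

end Cfsg.Agent.S1944
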