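import Cfsg.Statements.S1945
import Cfsg.Agent.H2.FS20
import Cfsg.Agent.S1944

set_option autoImplicit false
open Cfsg

namespace Cfsg.Agent.S1945

open Subgroup H2 Cfsg.FusionSystem


/-- Let S be a Sylow p-subgroup of the finite group G, and assume that p is odd or that G is solvable. The elements of S each of which is its only G-conjugate in S form a subgroup W of Z(S); W is then a direct factor of Z(S): there is a subgroup K of Z(S) with W ∩ K = 1 and WK = Z(S). (For p = 2 and G not solvable this can fail.) -/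
theorem result {G : Type*} [Group G] [Finite G] {p : ℕ} [Fact p.Prime] (S : Sylow p G) (h : p ≠ 2 ∨ Group.IsSolvable G) :
    ∃ W K : Subgroup G, (∀ x : G, x ∈ W ↔ (x ∈ (S : Subgroup G) ∧ ∀ g : G, g * x * g⁻¹ ∈ (S : Subgroup G) → g * x * g⁻¹ = x)) ∧
      K ≤ ((S : Subgroup G) ⊓ Subgroup.centralizer ((S : Subgroup G) : Set G)) ∧ W ⊓ K = ⊥ ∧ W ⊔ K = ((S : Subgroup G) ⊓ Subgroup.centralizer ((S : Subgroup G) : Set G)) := by
  rcases h with h | h
  · have hS := sylow_isSylowIn_top S
    have hG := isGF_group (S : Subgroup G)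
    obtain ⟨K, k⟩ := center_compl_odd hS.isPGroup (hG.saturated hS) (loc_TH (Or.inl h))
    refine ⟨_, K, fun x => (mem_center_iff' hS.isPGroup (hG.saturated hS)).trans (and_congr_right
      fun hx => ⟨fun h g hg => h _ _ (mor_group_conj (zpowers_le.2 hx) (by
        rwa [cj_zpowers, zpowers_le])) (mem_zpowers x), fun h P f hf hP => ?_⟩), k⟩
    obtain ⟨g, -, e⟩ := hG.exists_conj hf
    rw [e x hP]; exact h g (e x hP ▸ hf.mem hP)
  refine Cfsg.Agent.S1944.result S ?_
  have h0 : (⊤ : Subgroup G) ≤ _ := H7.le_nrm_Opi {p}ᶜ ⊤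
  have h3 := H7.syl_im (f := H7.qm (H7.Opi {p}ᶜ ⊤)) (sylow_isSylowIn_top S) h0
  rw [H7.pPrimePCore_eq, H7.le_Opp_iff le_top]
  refine le_trans ((H7.im_inf_le _ _ _).trans (inf_le_inf_left _ ?_)) (ChP.center_le
    (H7.cen_Op_le (H7.solv_im _ inferInstance) (H7.Opi_im_qm _ _)) h3)
  exact H7.im_le_cen _ le_rfl

end Cfsg.Agent.S1945
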