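import Cfsg.Statements.S1946
import Cfsg.Agent.H7.CF

set_option autoImplicit false
open Cfsg

namespace Cfsg.Agent.S1946
open H7
open scoped commutatorElement

/-- Let P be a Sylow p-subgroup of the finite group G. Then G has a normal p-complement if and only if P controls the fusion of its elements of order dividing p (dividing 4 when p = 2): whenever such an element a of P has a G-conjugate g a g⁻¹ in P, that conjugate is already x a x⁻¹ for some x in P. -/
theorem result {G : Type*} [Group G] [Finite G] {p : ℕ} [Fact p.Prime] (P : Sylow p G) :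
    Cfsg.HasNormalPComplement p G ↔
      ∀ a ∈ (P : Subgroup G), (a ^ p = 1 ∨ (p = 2 ∧ a ^ 4 = 1)) → ∀ g : G, g * a * g⁻¹ ∈ (P : Subgroup G) →
        ∃ x ∈ (P : Subgroup G), g * a * g⁻¹ = x * a * x⁻¹ := by
  open Subgroup in
  have hP := H2.sylow_isSylowIn_top P
  refine ⟨fun h a ha _ g hg => ?_, fun h => H2.hasNPC_of_autIsP P fun Q hQ g hg hc => ?_⟩
  · have nO : ∀ {A : Subgroup G}, A ≤ normalizer (Op' p (⊤ : Subgroup G) : Set G) := fun {A} => le_top.trans (le_nrm_Opi _ _)
    have e := NPC.sup (npc_top_iff.1 h) hP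
    obtain ⟨n, hn, k, hk, rfl⟩ := (mem_sup_nrm nO).1 ((e.ge.trans (sup_comm _ _).le) (mem_top g))
    refine ⟨n, hn, ?_⟩
    have m : k * a * k⁻¹ ∈ (P : Subgroup G) := by
      have := conj_mem (le_nrm_self _) (inv_mem hn) hg
      rwa [show n⁻¹ * (n * k * a * (n * k)⁻¹) * n⁻¹⁻¹ = k * a * k⁻¹ by group] at this
    have := mem_bot.1 (((piN_iff_isPGroup.2 hP.isPGroup).inf_eq_bot (piN_Opi _ ⊤)).le (show k * a * k⁻¹ * a⁻¹ ∈ _ from
      ⟨mul_mem m ((P : Subgroup G).inv_mem ha), by
        rw [show k * a * k⁻¹ * a⁻¹ = k * (a * k⁻¹ * a⁻¹) by group]; exact mul_mem hk (conj_mem nO (mem_top a) (inv_mem hk))⟩))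
    rw [mul_inv_eq_one] at this
    calc _ = n * (k * a * k⁻¹) * n⁻¹ := by group
      _ = _ := by rw [this]
  refine H2.mem_pRes (H := normalizer (Q : Set G)) hg hc |> (show H2.pRes p _ ≤ _ from by_contra fun k => ?_)
  obtain ⟨M, m1, m2, m3, m4⟩ := exists_small (hP.isPGroup.to_le hQ) (le_nrm_self Q) le_rfl k
  refine m3 (pRes_le_iff.2 fun g hg hc => zpowers_le.1 ?_)
  have lM := m1.trans hQ
  have c : (Nat.card (zpowers g)).Coprime p := by rwa [card_zpowers_eq]
  have key : ∀ i, zpowers g ≤ centralizer ((M ⊓ (P : Subgroup G).lowerCentralSeries (i + 1) : Subgroup G) : Set G) →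
      zpowers g ≤ centralizer ((M ⊓ (P : Subgroup G).lowerCentralSeries i : Subgroup G) : Set G) := fun i =>
    cen_of_chain (coprime_of_isPGroup (hP.isPGroup.to_le (inf_le_left.trans lM)) c) (commutator_le.2 fun a ha y hy => by
      have hy := m2 (zpowers_le.2 hg hy)
      have m := conj_mem le_rfl hy (inv_mem ha.1)
      obtain ⟨x, hx, e⟩ := h a⁻¹ (lM (inv_mem ha.1)) (m4 _ (inv_mem ha.1)) y (lM m)
      have e1 : ⁅a, y⁆ = a * (y * a⁻¹ * y⁻¹) := by rw [commutatorElement_def]; group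
      refine ⟨e1 ▸ mul_mem ha.1 m, ?_⟩
      rw [e1, e, show a * (x * a⁻¹ * x⁻¹) = ⁅a, x⁆ by rw [commutatorElement_def]; group]
      exact commutator_mem_commutator ha.2 hx)
  obtain ⟨n, hn⟩ := (isNilpotent_iff_lowerCentralSeries (S := (P : Subgroup G))).1 (nilp_of_isPGroup hP.isPGroup)
  have : ∀ j i, i + j = n → zpowers g ≤ centralizer ((M ⊓ (P : Subgroup G).lowerCentralSeries i : Subgroup G) : Set G) := fun j => by
    induction j with
    | zero => intro i e; rw [add_zero] at e; rw [e, hn, inf_bot_eq]; exact le_cen_bot _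
    | succ j ih => exact fun i e => key i (ih _ (by omega))
  exact (this n 0 (zero_add n)).trans (cen_anti (le_inf le_rfl lM))

end Cfsg.Agent.S1946
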