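import Cfsg.Statements.S1947
import Cfsg.Agent.H7.CF

set_option autoImplicit false
open Cfsg

namespace Cfsg.Agent.S1947
open H7
open scoped commutatorElement

/-- Let G be a finite group and p a prime. If every element of G of order dividing p (dividing 4 when p = 2) lies in some fixed term Z_n(G) of the upper central series, then G has a normal p-complement. -/
theorem result {G : Type*} [Group G] [Finite G] {p : ℕ} [Fact p.Prime] (n : ℕ)
    (h : ∀ a : G, (a ^ p = 1 ∨ (p = 2 ∧ a ^ 4 = 1)) → a ∈ Subgroup.upperCentralSeries G n) : Cfsg.HasNormalPComplement p G := by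
  open Subgroup in
  refine H8.npc_of_small fun x hx => pRes_le_iff.2 fun a _ ha => ?_
  have nO : ∀ {A : Subgroup G}, A ≤ normalizer (Op p (⊤ : Subgroup G) : Set G) := fun {A} => le_top.trans (le_nrm_Opi _ _)
  have c : (Nat.card (zpowers a)).Coprime p := by rwa [card_zpowers_eq]
  have key : ∀ i, zpowers a ≤ centralizer ((Op p ⊤ ⊓ Subgroup.upperCentralSeries G i : Subgroup G) : Set G) := fun i => by
    induction i with
    | zero => rw [Subgroup.upperCentralSeries_zero, inf_bot_eq]; exact le_cen_bot _
    | succ i ih =>
      refine cen_of_chain (coprime_of_isPGroup (isPGroup_Op p ⊤).to_inf_left c) (le_inf ((commutator_mono inf_le_left le_rfl).trans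
        (comm_le_left nO)) ((commutator_mono inf_le_right le_top).trans (commutator_upperCentralSeries_top_le G i))) ih
  have nil : ∀ j i, (Subgroup.upperCentralSeries G (i + j)).lowerCentralSeries j ≤ Subgroup.upperCentralSeries G i := fun j => by
    induction j with
    | zero => exact fun i => le_rfl
    | succ j ih => exact fun i => (commutator_mono (add_right_comm i 1 j ▸ ih (i + 1)) le_top).trans (commutator_upperCentralSeries_top_le G i)
  have px : IsPGroup p (zpowers x) := by
    rcases hx with e | ⟨rfl, e⟩
    exacts [H2.isPGroup_zpowers (k := 1) (by rwa [pow_one]), H2.isPGroup_zpowers (k := 2) e]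
  have := nilp_le_Op (isNilpotent_of_lowerCentralSeries_eq_bot (le_bot_iff.1 (by simpa using nil n 0))) (zpowers_le.2 (h x hx)) px
  exact le_cen1_iff.2 (le_cen_symm (key n) ⟨Opi_le_of_normal _ le_top (normal_iff_top_le_nrm.1 inferInstance) (this (mem_zpowers x)), h x hx⟩)
    (mem_zpowers a)

end Cfsg.Agent.S1947
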