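import Cfsg.Statements.S1948
import Cfsg.Agent.H7.CF

set_option autoImplicit false
open Cfsg

namespace Cfsg.Agent.S1948
open H7
open scoped commutatorElement

/-- Let S be a Sylow p-subgroup of the finite group G. Then G = N_G(S)·O_{p'}(G) if and only if G is p-constrained and N_G(S) controls fusion in S, in the sense that whenever a subgroup Q of S has a conjugate g Q g⁻¹ inside S, the element g is a product n c with n normalizing S and c centralizing Q. -/
theorem result {G : Type*} [Group G] [Finite G] {p : ℕ} [Fact p.Prime] (S : Sylow p G) :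
    Subgroup.normalizer ((S : Subgroup G) : Set G) ⊔ Cfsg.pPrimeCore p G = ⊤ ↔
      (Cfsg.IsPConstrained p G ∧
        ∀ Q : Subgroup G, Q ≤ (S : Subgroup G) → ∀ g : G, Q.map (MulAut.conj g).toMonoidHom ≤ (S : Subgroup G) →
          ∃ n ∈ Subgroup.normalizer ((S : Subgroup G) : Set G), ∃ c ∈ Subgroup.centralizer (Q : Set G), g = n * c) := by
  open Subgroup in
  have hS := H2.sylow_isSylowIn_top S
  have nO : ∀ {A : Subgroup G}, A ≤ normalizer (Op' p (⊤ : Subgroup G) : Set G) := fun {A} => le_top.trans (le_nrm_Opi _ _)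
  rw [pPrimeCore_eq]
  refine ⟨fun h => ⟨isPConstrained_iff_top.2 (ps_pcon (ps_of_normal (Opi_le _ _) nO (Or.inr (coprime_Op' p _)) ?_)),
    fun Q hQ g hg => ?_⟩, fun ⟨h1, h2⟩ => ?_⟩
  · have s := syl_im hS nO (qm (Op' p ⊤))
    have n := (im_mono (qm (Op' p ⊤)) h.ge).trans ((im_sup nO nO).le.trans (sup_le (im_le_nrm (B := S) _ le_rfl)
      (((im_qm_eq_bot nO).2 le_rfl).le.trans bot_le)))
    refine ps_of_normal s.le ?_ (Or.inl s.isPGroup) (ps_of_coprime ?_)
    · exact n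
    rw [card_im_qm n]; exact coprime_iff_not_dvd.2 s.not_dvd
  · obtain ⟨n, hn, k, hk, rfl⟩ := (mem_sup_nrm nO).1 (h.ge (mem_top g))
    refine ⟨n, hn, k, fun q hq => ?_, rfl⟩
    have m : k * q * k⁻¹ ∈ (S : Subgroup G) := by
      have := conj_mem le_rfl (inv_mem hn) (hg (conj_mem_cj.2 hq : n * k * q * (n * k)⁻¹ ∈ H2.cj (n * k) Q))
      rwa [show n⁻¹ * (n * k * q * (n * k)⁻¹) * n⁻¹⁻¹ = k * q * k⁻¹ by group] at this
    have := mem_bot.1 (((piN_iff_isPGroup.2 hS.isPGroup).inf_eq_bot (piN_Opi _ ⊤)).le (show k * q * k⁻¹ * q⁻¹ ∈ _ from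
      ⟨mul_mem m ((S : Subgroup G).inv_mem (hQ hq)), by
        rw [show k * q * k⁻¹ * q⁻¹ = k * (q * k⁻¹ * q⁻¹) by group]; exact mul_mem hk (conj_mem nO (mem_top q) (inv_mem hk))⟩))
    rw [mul_inv_eq_one, mul_inv_eq_iff_eq_mul] at this
    exact this.symm
  have t := syl_inf_Opp hS
  have e := syl_Omod_sup t (Opi_le _ _) nO
  have c : centralizer (((S : Subgroup G) ⊓ Opp p ⊤ : Subgroup G) : Set G) ≤ Opp p ⊤ := by
    have t' := t
    rw [← pPrimePCore_eq] at t' ⊢
    have := h1 t'.toSylow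
    rwa [t'.map_toSylow] at this
  have lO : Opp p (⊤ : Subgroup G) ≤ normalizer ((S : Subgroup G) : Set G) ⊔ Opi {p}ᶜ ⊤ :=
    e.ge.trans (sup_le le_sup_right (inf_le_left.trans ((le_nrm_self _).trans le_sup_left)))
  refine eq_top_iff.2 ((frattini_Op' t.isPGroup le_top (by rw [sup_comm, e]; exact le_nrm_Omod _ _ _)).ge.trans
    (sup_le le_sup_right fun g hg => ?_))
  obtain ⟨n, hn, c', hc, rfl⟩ := h2 _ inf_le_left g ((cj_of_mem_nrm hg.2).le.trans inf_le_left)
  exact mul_mem (mem_sup_left hn) (lO (c hc))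

end Cfsg.Agent.S1948
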