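import Cfsg.Statements.S1952
import Cfsg.Agent.H2.TrF

set_option autoImplicit false
open Cfsg

namespace Cfsg.Agent.S1952

open Subgroup H2 Cfsg.FusionSystem


/-- Let P be a finite p-group with a normal elementary abelian subgroup A of index p, and let x ∈ A and y ∈ P with y outside A. If the product of the p conjugates y^(-i) x y^i (i = 0, …, p−1) is not the identity, then the wreath product Z_p ≀ Z_p, realised as a Sylow p-subgroup of the symmetric group of degree p², is a homomorphic image of P. -/
theorem result {P : Type*} [Group P] [Finite P] {p : ℕ} [Fact p.Prime] (hP : IsPGroup p P) (A : Subgroup P) [A.Normal]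
    (hA : Cfsg.IsElementaryAbelian p A) (hidx : A.index = p) (x y : P) (hx : x ∈ A) (hy : y ∉ A)
    (hprod : ((List.range p).map (fun i => (y ^ i)⁻¹ * x * y ^ i)).prod ≠ 1) :
    ∃ (Q : Sylow p (Equiv.Perm (Fin (p ^ 2)))) (f : P →* ↥(Q : Subgroup (Equiv.Perm (Fin (p ^ 2))))), Function.Surjective f := by
  set z := ((List.range p).map (fun i => (y ^ i)⁻¹ * x * y ^ i)).prod with hz
  have h1 : ∀ i : ℕ, (y ^ i)⁻¹ * x * y ^ i ∈ A := fun i => by
    simpa using Normal.conj_mem inferInstance x hx (y ^ i)⁻¹
  have h2 : z ∈ A := A.list_prod_mem (by simpa using fun i _ => h1 i)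
  obtain ⟨M, hM, m1, m2⟩ : ∃ M : Subgroup A, M.Normal ∧ M.index = p ∧ (⟨z, h2⟩ : A) ∉ M := by
    by_contra! k
    have := hA.1
    have := le_frattini_of_forall (N := zpowers (⟨z, h2⟩ : A)) fun M hM =>
      zpowers_le.2 (k M (coatom_normal_index (hP.to_subgroup A) hM).1
        (coatom_normal_index (hP.to_subgroup A) hM).2)
    rw [H1.frattini_eq_bot_of_elementary Fact.out fun a => Subtype.ext (hA.2 a a.2)] at this
    exact hprod (congrArg Subtype.val (mem_bot.1 (this (mem_zpowers _))))
  obtain ⟨l, hl⟩ := exists_hom_zmod m1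
  refine wr_of hP hidx (homOn_fn l) (x := y⁻¹) hx fun e => m2 ((hl _).1 ?_)
  rw [← fn_mem l h2, ← e, hz]
  simp only [inv_pow, inv_inv]
  suffices ∀ n, fn l ((List.range n).map fun i => (y ^ i)⁻¹ * x * y ^ i).prod =
    ∏ i ∈ Finset.range n, fn l ((y ^ i)⁻¹ * x * y ^ i) from this p
  intro n
  induction n with
  | zero => simpa using (homOn_fn l).one
  | succ n ih =>
    rw [List.range_succ, List.map_append, List.prod_append, Finset.prod_range_succ, ← ih,
      homOn_fn l _ (A.list_prod_mem (by simpa using fun i _ => h1 i)) _ (by simpa using h1 n)]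
    simp

end Cfsg.Agent.S1952
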