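import Cfsg.Statements.S1953
import Cfsg.Agent.H2.FS20

set_option autoImplicit false
open Cfsg

namespace Cfsg.Agent.S1953

open Subgroup H2 Cfsg.FusionSystem


/-- Let p be an odd prime and P a Sylow p-subgroup of the finite group G, and suppose that for no p-subgroup Q of G does N_G(Q)/C_G(Q) have a section isomorphic to SL₂(p). Call a subgroup Q of P centric-radical when Z(Q) is a Sylow p-subgroup of C_G(Q) and the only normal subgroup X of N_G(Q) containing Q·C_G(Q) such that the index of Q·C_G(Q) in X is a power of p is Q·C_G(Q) itself (that is, N_G(Q)/Q·C_G(Q) has no nontrivial normal p-subgroup). Then there is a centric-radical subgroup Q of P contained in every centric-radical subgroup of P; it is normal in P, and N_G(Q) controls strong fusion in P: whenever a subgroup A of P has g A g⁻¹ ≤ P, the element g is a product h c with h in N_G(Q) and c centralizing A. -/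
theorem result {G : Type*} [Group G] [Finite G] {p : ℕ} [Fact p.Prime] (hp : p ≠ 2) (P : Sylow p G)
    (hfree : ∀ Q : Subgroup G, IsPGroup p ↥Q → ¬ ∃ (H K : Subgroup G) (_ : (K.subgroupOf H).Normal),
      Subgroup.centralizer (Q : Set G) ≤ K ∧ K ≤ H ∧ H ≤ Subgroup.normalizer (Q : Set G) ∧
      Nonempty ((↥H ⧸ K.subgroupOf H) ≃* Matrix.SpecialLinearGroup (Fin 2) (ZMod p)))
    (cr : Subgroup G → Prop)
    (hcr : ∀ Q : Subgroup G, cr Q ↔ (Q ≤ (P : Subgroup G) ∧
      (∃ R : Sylow p ↥(Subgroup.centralizer (Q : Set G)),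
        (R : Subgroup ↥(Subgroup.centralizer (Q : Set G))).map (Subgroup.centralizer (Q : Set G)).subtype = Q ⊓ Subgroup.centralizer (Q : Set G)) ∧
      ∀ X : Subgroup G, X ≤ Subgroup.normalizer (Q : Set G) →
        (∀ n ∈ Subgroup.normalizer (Q : Set G), X.map (MulAut.conj n).toMonoidHom = X) →
        Q ⊔ Subgroup.centralizer (Q : Set G) ≤ X → (∃ k : ℕ, (Q ⊔ Subgroup.centralizer (Q : Set G)).relIndex X = p ^ k) →
        X = Q ⊔ Subgroup.centralizer (Q : Set G))) :
    ∃ Q : Subgroup G, cr Q ∧ (∀ R : Subgroup G, cr R → Q ≤ R) ∧ (∀ x ∈ (P : Subgroup G), Q.map (MulAut.conj x).toMonoidHom = Q) ∧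
      ∀ A : Subgroup G, A ≤ (P : Subgroup G) → ∀ g : G, A.map (MulAut.conj g).toMonoidHom ≤ (P : Subgroup G) →
        ∃ h ∈ Subgroup.normalizer (Q : Set G), ∃ c ∈ Subgroup.centralizer (A : Set G), g = h * c := by
  have hS := sylow_isSylowIn_top P
  have hG := isGF_group (P : Subgroup G)
  have hF := hG.saturated hS
  have hq : ¬ Involves (qd p) (⊤ : Subgroup G) := fun k => by
    obtain ⟨B, -, b2, b3⟩ := exists_natSec k
    obtain ⟨K, hK, f, f1, f2, f3⟩ := b3.exists_hom
    have hs : Function.Surjective f1.toHom := fun M => let ⟨g, hg, e⟩ := f2 M; ⟨⟨g, hg⟩, e⟩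
    have e : (f1.toHom.ker.map K.subtype).subgroupOf K = f1.toHom.ker :=
      comap_map_eq_self_of_injective K.subtype_injective _
    have hn : ((f1.toHom.ker.map K.subtype).subgroupOf K).Normal := by rw [e]; infer_instance
    refine hfree B b2 ⟨K, f1.toHom.ker.map K.subtype, hn, fun c hc => ?_, map_subtype_le _,
      hK.trans inf_le_right, ⟨(QuotientGroup.quotientMulEquivOfEq e).trans
        (QuotientGroup.quotientKerEquivOfSurjective _ hs)⟩⟩
    have := f3 c ⟨⟨trivial, H7.cen_le_nrm B hc⟩, hc⟩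
    exact ⟨⟨c, this.1⟩, this.2, rfl⟩
  have hc := constrained_of_loc hp (secCl_free (qd p)) (pst_qdfree hp) hS.isPGroup hF
    (hG.loc hS (secCl_free _) hq)
  have key : ∀ Q, cr Q ↔ (groupFusionSystem (P : Subgroup G)).IsCentric Q ∧
      (groupFusionSystem (P : Subgroup G)).IsRadical p Q := fun Q => by
    rw [hcr]
    by_cases hQ : Q ≤ P
    swap
    · exact ⟨fun h => (hQ h.1).elim, fun h => (hQ h.1.1).elim⟩
    have hp' := hS.isPGroup.to_le hQ
    rw [and_iff_right hQ, hG.centric_iff hS hQ, hG.radical_iff hS hQ, top_inf_eq, top_inf_eq]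
    have n1 : normalizer (Q : Set G) ≤ _ := H7.nrm_cen le_rfl
    have n2 := sup_le (H7.le_nrm_self Q) (H7.cen_le_nrm Q)
    refine and_congr ⟨fun ⟨R, e⟩ => e ▸ isSylowIn_map_subtype R, fun h => ⟨_, h.map_toSylow⟩⟩
      ⟨fun h => (h _ (H7.Omod_le _ _ _) (fun n hn => cj_eq_of_mem_normalizer (H7.le_nrm_Omod _ _ _ hn))
        (sup_le ((H7.le_Op (H7.le_nrm_self Q) le_rfl hp').trans (H7.Opi_le_Omod _ _ _))
          (H7.self_le_Omod _ (H7.cen_le_nrm Q) n1)) ((H7.piN_single_iff relIndex_pos.ne').1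
            (H7.piN_relIndex_mono le_sup_right (H7.piN_relIndex_Omod _ n1)))).le,
        fun h X x1 x2 x3 ⟨k, x4⟩ => le_antisymm ((H7.le_Omod x1 (fun n hn =>
          mem_normalizer_iff_cj.2 (x2 n hn)) ?_).trans h) x3⟩
    rw [← relIndex_mul_relIndex _ _ _ le_sup_right x3, x4,
      H7.relIndex_sup_nrm ((H7.le_nrm_self Q).trans n1)]
    exact ((H7.piN_iff_isPGroup.2 hp').dvd (H7.relIndex_dvd_card' _ _)).mul (H7.piN_pow k)
  have hN := normal_core (groupFusionSystem (P : Subgroup G))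
  refine ⟨_, (key _).2 ⟨core_centric hc, core_radical hS.isPGroup hc⟩, fun R hR =>
    normal_le_of_centric_radical hS.isPGroup hN ((key R).1 hR).1 ((key R).1 hR).2,
    fun x hx => cj_eq_of_mem_normalizer (normal_le_normalizer hN hx), fun A hA g hg => ?_⟩
  obtain ⟨n, h1, h2⟩ := hG.normal_controls hN (mor_group_conj hA hg)
  refine ⟨n, h1.2, n⁻¹ * g, H7.mem_cen.2 fun a ha => ?_, by group⟩
  calc a * (n⁻¹ * g) = n⁻¹ * (n * a * n⁻¹) * g := by group
    _ = _ := by rw [← h2 a ha]; group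

end Cfsg.Agent.S1953
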