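import Cfsg.Statements.S1954
import Cfsg.Agent.H7.PP
import Cfsg.Agent.H2.FS10

set_option autoImplicit false
open Cfsg

namespace Cfsg.Agent.S1954
open H7
open scoped commutatorElement

/-- Let N be a normal subgroup of the finite group G, P a Sylow p-subgroup of G, and V a subgroup of P ∩ N normal in P ∩ N such that N_N(V) controls strong fusion in P ∩ N with respect to N (whenever a subgroup A of P ∩ N has n A n⁻¹ ≤ P ∩ N for some n in N, then n = h c with h in N_N(V) and c in C_N(A)). Let W be the subgroup generated by the conjugates of V under N_G(P ∩ N). Then N_G(W) controls strong fusion in P with respect to G. -/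
theorem result {G : Type*} [Group G] [Finite G] {p : ℕ} [Fact p.Prime] (N : Subgroup G) [N.Normal] (P : Sylow p G) (V : Subgroup G)
    (hV : V ≤ (P : Subgroup G) ⊓ N) (hVn : ∀ x ∈ (P : Subgroup G) ⊓ N, V.map (MulAut.conj x).toMonoidHom = V)
    (hctrl : ∀ A : Subgroup G, A ≤ (P : Subgroup G) ⊓ N → ∀ n ∈ N, A.map (MulAut.conj n).toMonoidHom ≤ (P : Subgroup G) ⊓ N →
      ∃ h ∈ N ⊓ Subgroup.normalizer (V : Set G), ∃ c ∈ N ⊓ Subgroup.centralizer (A : Set G), n = h * c)
    (W : Subgroup G) (hW : W = Subgroup.closure (⋃ x ∈ Subgroup.normalizer (((P : Subgroup G) ⊓ N : Subgroup G) : Set G),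
      ((V.map (MulAut.conj x).toMonoidHom : Subgroup G) : Set G))) :
    ∀ A : Subgroup G, A ≤ (P : Subgroup G) → ∀ g : G, A.map (MulAut.conj g).toMonoidHom ≤ (P : Subgroup G) →
        ∃ h ∈ Subgroup.normalizer (W : Set G), ∃ c ∈ Subgroup.centralizer (A : Set G), g = h * c := by
  open Subgroup in
  have hP := H2.sylow_isSylowIn_top P
  have nN : ⊤ ≤ nrm N := normal_iff_top_le_nrm.1 inferInstance
  have s := syl_inf hP le_top (le_top.trans nN)
  have gF := H2.isGF_group (P : Subgroup G)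
  have gE := H2.isGF_sub (inf_le_right : (P : Subgroup G) ⊓ N ≤ N)
  have sat := gF.saturated hP
  have nR := (gF.inv gE hP le_top nN rfl).core_normal P.2 sat
  have k1 : ∀ x ∈ nrm ((P : Subgroup G) ⊓ N), (fusionSystemOfSubgroup N _ (inf_le_right : (P : Subgroup G) ⊓ N ≤ N)).IsNormal
      (H2.cj x V) := fun x hx => H2.isNormal_iff.2 ⟨cj_le_of_mem_nrm hx hV, fun A f hf => by
    obtain ⟨n, hn, e⟩ := gE.exists_conj hf
    have l : H2.cj n A ≤ (P : Subgroup G) ⊓ N := H2.cj_le_iff.2 fun a ha => e a ha ▸ hf.mem ha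
    obtain ⟨h, hh, c, hc, e'⟩ := hctrl (H2.cj x⁻¹ A) (cj_le_of_mem_nrm (inv_mem hx) hf.le) (x⁻¹ * n * x)
      (by simpa using conj_mem nN (mem_top x⁻¹) hn) (by
        show H2.cj _ (H2.cj _ A) ≤ _
        rw [← cj_mul, mul_inv_cancel_right, cj_mul]; exact cj_le_of_mem_nrm (inv_mem hx) l)
    have e1 : ∀ a ∈ A, x * h * x⁻¹ * a * (x * h * x⁻¹)⁻¹ = n * a * n⁻¹ := fun a ha => by
      have := mem_cen.1 hc.2 (x⁻¹ * a * x) (mem_cj_inv.2 (by simpa [mul_assoc] using ha))
      rw [show h = x⁻¹ * n * x * c⁻¹ by rw [e']; group]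
      calc _ = n * x * (c⁻¹ * (x⁻¹ * a * x * c)) * x⁻¹ * n⁻¹ := by group
        _ = _ := by rw [this]; group
    have e2 : H2.cj (x * h * x⁻¹) (H2.cj x V) = H2.cj x V := by
      rw [← cj_mul, inv_mul_cancel_right, cj_mul, cj_of_mem_nrm hh.2]
    refine ⟨_, gE.conj (sup_le hf.le (cj_le_of_mem_nrm hx hV)) (conj_mem nN (mem_top x) hh.1) ?_,
      fun a ha => (e1 a ha).trans (e a ha).symm, (H2.img_conj _ _).trans e2⟩
    rw [cj_sup, e2]
    exact sup_le (H2.cj_le_iff.2 fun a ha => e1 a ha ▸ e a ha ▸ hf.mem ha) (cj_le_of_mem_nrm hx hV)⟩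
  have eW : W = H1.ncl V (nrm ((P : Subgroup G) ⊓ N)) := by
    rw [hW, H1.ncl]; simp only [Subgroup.closure_iUnion, closure_eq]; rfl
  have lW := eW.le.trans (H1.ncl_le_iff.2 fun x hx => H2.le_core (k1 x hx))
  have nW : (groupFusionSystem (P : Subgroup G)).IsNormal W := H2.normal_of_aut_invariant nR lW fun α hα => by
    obtain ⟨g, -, e⟩ := gF.exists_conj ((H2.mem_autGroup nR.1).1 hα)
    obtain ⟨h, hh, n, hn, rfl⟩ := (mem_sup_nrm (le_top.trans nN)).1 ((syl_frattini s le_top nN).ge (mem_top g))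
    have : H2.cj (h * n) W ≤ W := by
      rw [cj_le_iff]
      refine eW.le.trans (H1.ncl_le_iff.2 fun x hx => ?_)
      have l := H2.le_core (k1 x hx)
      have := H2.wc_img (H2.normal_wc (k1 x hx)) (gE.conj (k1 x hx).1 hn (by
        rw [← cj_inv_cj h (H2.cj n _), ← cj_mul h]
        exact cj_le_of_mem_nrm (inv_mem hh.2) (H2.cj_le_iff.2 fun a ha => e a (l ha) ▸
          H2.core_le _ (H2.afn_maps α (l ha))))) le_rfl
      rw [H2.img_conj] at this
      rw [← cj_le_iff, cj_mul, this, ← cj_mul, eW]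
      exact H1.cj_le_ncl (mul_mem hh.2 hx)
    exact fun x hx => e x (lW hx) ▸ this (conj_mem_cj.2 hx)
  intro A hA g hg
  obtain ⟨h, hh, e⟩ := gF.normal_controls nW (gF.conj hA (mem_top g) hg)
  exact ⟨h, hh.2, h⁻¹ * g, mem_cen.2 fun a ha => by
    calc a * (h⁻¹ * g) = h⁻¹ * (h * a * h⁻¹) * g := by group
      _ = _ := by rw [← e a ha]; group, by group⟩

end Cfsg.Agent.S1954
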