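import Cfsg.Statements.S1956
import Cfsg.Agent.H7.CF

set_option autoImplicit false
open Cfsg

namespace Cfsg.Agent.S1956
open H7
open scoped commutatorElement

/-- Let P be a Sylow p-subgroup of the finite group G such that every element of P of order dividing p (dividing 4 when p = 2) is central in P. Then the fusion of these elements is controlled by N_G(P): if such an element a of P has g a g⁻¹ in P, then g = n c with n normalizing P and c commuting with a. -/
theorem result {G : Type*} [Group G] [Finite G] {p : ℕ} [Fact p.Prime] (P : Sylow p G)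
    (hcen : ∀ a ∈ (P : Subgroup G), (a ^ p = 1 ∨ (p = 2 ∧ a ^ 4 = 1)) → ∀ y ∈ (P : Subgroup G), a * y = y * a) :
    ∀ a ∈ (P : Subgroup G), (a ^ p = 1 ∨ (p = 2 ∧ a ^ 4 = 1)) → ∀ g : G, g * a * g⁻¹ ∈ (P : Subgroup G) →
      ∃ n ∈ Subgroup.normalizer ((P : Subgroup G) : Set G), ∃ c : G, c * a = a * c ∧ g = n * c := by
  open Subgroup in
  intro a ha sa g hg
  have hP := H2.sylow_isSylowIn_top P
  have l1 : (P : Subgroup G) ≤ centralizer {a} := fun y hy => mem_cen1.2 (hcen a ha sa y hy).symm
  have l2 : H2.cj g⁻¹ (P : Subgroup G) ≤ centralizer {a} := by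
    rw [cj_le_iff, inv_inv, cj_cen1]
    exact fun y hy => mem_cen1.2 (hcen _ hg (by simpa only [conj_pow, conj_eq_one_iff] using sa) y hy).symm
  obtain ⟨c, hc, e⟩ := (hP.mono l1 le_top).exists_cj_eq ((syl_cj_of_mem hP (le_nrm_self _ (mem_top g⁻¹))).mono l2 le_top)
  refine ⟨g * c, cj_eq_self_iff.1 (by rw [cj_mul, e, cj_cj_inv]), c⁻¹, mem_cen1.1 (inv_mem hc), by group⟩

end Cfsg.Agent.S1956
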