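import Cfsg.Statements.S1988
import Cfsg.Agent.H2.KI
import Cfsg.Agent.S1990
import Cfsg.Agent.S1987

set_option autoImplicit false
universe u
open Cfsg

namespace Cfsg.Agent.S1988

open Subgroup H2 Cfsg.FusionSystem


/-- Let p be an odd prime, G a finite group with Sylow p-subgroup S and K the lower K-infinity subgroup of S. If N_G(K) has a normal p-complement, or if N_G(K)/C_G(K) is a p-group (every element of N_G(K) of order prime to p centralizes K), then G has a normal p-complement. -/
theorem result {G : Type u} [Group G] [Finite G] {p : ℕ} [Fact p.Prime] (hp : p ≠ 2) (S : Sylow p G) (h : Cfsg.HasNormalPComplement p ↥(Subgroup.normalizer ((Cfsg.inducedFunctor Cfsg.kInfLower (S : Subgroup G) : Subgroup G) : Set G)) ∨ ∀ g ∈ Subgroup.normalizer ((Cfsg.inducedFunctor Cfsg.kInfLower (S : Subgroup G) : Subgroup G) : Set G), (orderOf g).Coprime p → g ∈ Subgroup.centralizer ((Cfsg.inducedFunctor Cfsg.kInfLower (S : Subgroup G) : Subgroup G) : Set G)) : Cfsg.HasNormalPComplement p G := by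
  refine S1990.result hp kInfLower charP_kLo S ?_ fun K R _ h T => S1987.result hp h T
  refine h.elim id fun h => ?_
  rw [induced_kLo] at *
  have hS := sylow_isSylowIn_top S
  have h1 := npc_cen_of_centric (hS.mono (le_inf le_top (nrm_kLo le_normalizer)) inf_le_left)
    (kLo_le _) (cen_kLo_le hS.isPGroup)
  refine npc_iff.2 (H7.coprime_of_le ?_ (npc_iff.1 h1))
  rw [← pRes_pRes]
  exact pRes_mono (le_inf le_top (H7.pRes_le_iff.2 h))

end Cfsg.Agent.S1988
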