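import Cfsg.Statements.S2015
import Cfsg.Agent.H2.TrR

set_option autoImplicit false
universe u
open Cfsg

namespace Cfsg.Agent.S2015

open Subgroup H2 Cfsg.FusionSystem


/-- For p ≥ 5, every finite p-group P has a characteristic subgroup K containing Z(P), depending only on P, whose normalizer controls transfer wherever P is a Sylow subgroup: for every finite group G and every embedding ι of P onto a Sylow p-subgroup of G, the intersection of ι(P) with the derived subgroup of G equals its intersection with the derived subgroup of N_G(ι(K)). -/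
theorem result (p : ℕ) [Fact p.Prime] (hp : 5 ≤ p) (P : Type u) [Group P] [Finite P] (hP : IsPGroup p P) : ∃ K : Subgroup P, K.Characteristic ∧ Subgroup.center P ≤ K ∧ ∀ (G : Type u) [Group G] [Finite G] (ι : P →* G), Function.Injective ι → (∃ T : Sylow p G, (T : Subgroup G) = ι.range) → ι.range ⊓ commutator G = ι.range ⊓ (commutator ↥(Subgroup.normalizer ((K.map ι : Subgroup G) : Set G))).map (Subgroup.normalizer ((K.map ι : Subgroup G) : Set G)).subtype := by
  have e : ∀ {G : Type u} [Group G] {ι : P →* G}, Function.Injective ι →
      (kInfLower P).map ι = kLo ι.range := fun h => by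
    rw [← kLo_top, map_kLo h, MonoidHom.range_eq_map]
  refine ⟨kInfLower P, characteristic_iff_map_eq.2 fun φ => (charP_kLo (p := p)).2 P P hP φ, ?_, ?_⟩
  · rw [← kLo_top]
    refine le_trans ?_ (center_le_kLo ⊤)
    rw [top_inf_eq, coe_top, centralizer_univ]
  rintro G _ _ ι hι ⟨T, hT⟩
  have hS := sylow_isSylowIn_top T
  have hG := isGF_group (T : Subgroup G)
  have := (tCtl_iff_eq fun _ => le_top).1
    ((tc_k hp hS.isPGroup (hG.saturated hS)).1.transfer pf_kLo hS hG)
  rw [e hι, map_subtype_commutator, ← hT]
  simpa only [top_inf_eq, iSup_const, commutator_def] using this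

end Cfsg.Agent.S2015
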