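import Cfsg.Statements.S2133
import Cfsg.Agent.H0.Mat
import Cfsg.Agent.H0.MM24.Main
import Cfsg.Agent.H0.EM24Z.Main
import Cfsg.Agent.H0.IHZ


set_option autoImplicit false
open Cfsg

namespace Cfsg.Agent.S2133

/-- The Mathieu group M₂₄ (the automorphism group of the length-24 binary code) has an involution whose centraliser is isomorphic to the centraliser of a transvection in SL(5, 2) (a group of shape 2^{1+6}:GL(3, 2)). -/
theorem result (s : Matrix.SpecialLinearGroup (Fin 5) (ZMod 2)) (hs : (s : Matrix (Fin 5) (Fin 5) (ZMod 2)) = Matrix.transvection 0 1 1) : ∃ z : ↥Cfsg.M24, orderOf z = 2 ∧ Nonempty (↥(Subgroup.centralizer ({z} : Set ↥Cfsg.M24)) ≃* ↥(Subgroup.centralizer ({s} : Set (Matrix.SpecialLinearGroup (Fin 5) (ZMod 2))))) := by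
  haveI := H0.MM24.fin (H0.Pres.pg 12 H0.MM24.B)
  have hs' := H0.MM24.simple (H0.Pres.pg 12 H0.MM24.B)
  have hc := H0.MM24.card (H0.Pres.pg 12 H0.MM24.B)
  obtain ⟨i⟩ := (H0.iso_M24 H6.ck_top [0x60c3499a2d03a1759d09548a4b0aaf, 0xa89683514119e0eb81f2612d3495b1, 0x596f22200d4b027ac47474c467da0a, 0x812b454a3732c4574d283bd961b401, 0xbb0b21a0d453db3492b68896783801, 0xba130650e3709b62bd72246aa99801, 0xb8eb06ca347aa6c138c82a4e4b2c01, 0x12de835e70aa4f172ac36b25421420, 0x925e489590aace6b29d46cc4345c20, 0xbdaa894e30799a359cb45392261001, 0xbdaa994dab79a2c80a85239071a820, 0x74decb1a2aaddb4241283c86b28820] (by decide +kernel) hs' hc H6.card_top_M24 (by decide)).map fun e => e.trans Subgroup.topEquiv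
  obtain ⟨z, h, ⟨e⟩⟩ := H0.EM24Z.iso (H0.MM24.m (H0.Pres.pg 12 H0.MM24.B)) (H0.MM24.mR (H0.Pres.pg 12 H0.MM24.B)) (H0.MM24.base (H0.Pres.pg 12 H0.MM24.B)) (H0.MM24.card (H0.Pres.pg 12 H0.MM24.B))
  obtain ⟨f⟩ := H0.IHZ.iso s hs
  obtain ⟨j⟩ := H0.cent_map i z
  exact ⟨i z, (i.orderOf_eq z).trans h, ⟨j.symm.trans (e.symm.trans f)⟩⟩

end Cfsg.Agent.S2133
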