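import Cfsg.Statements.S2162
import Cfsg.Agent.H4.InB

set_option autoImplicit false
open Cfsg

namespace Cfsg.Agent.S2162


/-- Conjugacy of involutions in the special linear group over a finite field of characteristic two, in dimension at least 3: two elements of order 2 of SL_n(F) are conjugate in SL_n(F) exactly when the matrices a − 1 and b − 1 have the same rank (the rank of a − 1 is the dimension of the commutator space [V, a]). -/
theorem result {F : Type*} [Field F] [Fintype F] [CharP F 2] {n : ℕ} (hn : 3 ≤ n) (a b : Matrix.SpecialLinearGroup (Fin n) F) (ha : orderOf a = 2) (hb : orderOf b = 2) :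
    IsConj a b ↔ ((a : Matrix (Fin n) (Fin n) F) - 1).rank = ((b : Matrix (Fin n) (Fin n) F) - 1).rank := by
  have h2 : (2 : F) = 0 := CharTwo.two_eq_zero
  let φ : Matrix.SpecialLinearGroup (Fin n) F →* ((Fin n → F) ≃ₗ[F] (Fin n → F)) :=
    H4.glEquiv.toMonoidHom.comp Matrix.SpecialLinearGroup.toGL
  have hφ : Function.Injective φ := H4.glEquiv.injective.comp Matrix.SpecialLinearGroup.toGL_injective
  rw [← (H4.rk_eq_rank (t := φ a) (M := a.1) fun _ => rfl).1, ← (H4.rk_eq_rank (t := φ b) (M := b.1) fun _ => rfl).1]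
  rw [H4.order_two_iff] at ha hb
  constructor
  · intro h
    obtain ⟨g, hg⟩ := isConj_iff.1 h
    exact H4.rk_conj (g := φ g) (by rw [← map_mul, ← map_mul, ← hg, inv_mul_cancel_right])
  · intro h
    obtain ⟨g, h3, h4⟩ := H4.sl_conj h2 (by rw [← map_mul, ha.1, map_one])
      (by rw [← map_mul, hb.1, map_one]) (fun e => ha.2 (hφ (e.trans (map_one φ).symm))) h
    obtain ⟨g, rfl⟩ := H4.glEquiv.surjective g
    rw [H4.det_glEquiv] at h3
    let k : Matrix.SpecialLinearGroup (Fin n) F := ⟨g.1, congrArg Units.val h3⟩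
    have hk : φ k = H4.glEquiv g := congrArg H4.glEquiv (Units.ext rfl)
    exact isConj_iff.2 ⟨k, mul_inv_eq_iff_eq_mul.2 (hφ (by rw [map_mul, map_mul, hk, h4]))⟩

end Cfsg.Agent.S2162
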