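import Cfsg.Statements.S2163
import Mathlib

set_option autoImplicit false
open Cfsg

namespace Cfsg.Agent.S2163

/-- Over a finite field of characteristic two and for n ≥ 3: for every ℓ with 1 ≤ ℓ and 2ℓ ≤ n, the matrix j_ℓ that is the identity plus the entries 1 in positions (n − ℓ + i, i) for i < ℓ (an identity block of size ℓ in the lower left corner) lies in SL_n(F), has order 2, and j_ℓ − 1 has rank ℓ. Together with the conjugacy criterion by rank, these matrices represent the conjugacy classes of involutions of SL_n(F). -/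
theorem result {F : Type*} [Field F] [Fintype F] [CharP F 2] {n : ℕ} (hn : 3 ≤ n) (ℓ : ℕ) (h1 : 1 ≤ ℓ) (h2 : 2 * ℓ ≤ n) :
    ∃ a : Matrix.SpecialLinearGroup (Fin n) F, (a : Matrix (Fin n) (Fin n) F) = 1 + Matrix.of (fun i j : Fin n => if j.val < ℓ ∧ i.val = j.val + (n - ℓ) then (1 : F) else 0) ∧ orderOf a = 2 ∧ ((a : Matrix (Fin n) (Fin n) F) - 1).rank = ℓ := by
  set_option maxSynthPendingDepth 3 in
  classical
  set N : Matrix (Fin n) (Fin n) F := Matrix.of fun i j : Fin n => if j.val < ℓ ∧ i.val = j.val + (n - ℓ) then (1 : F) else 0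
  have n2 : N * N = 0 := by
    ext i j
    rw [Matrix.mul_apply]
    exact Finset.sum_eq_zero fun b _ => by simp only [N, Matrix.of_apply]; split_ifs <;> first | omega | simp
  have r : N.rank = ℓ := by
    let A : Matrix (Fin n) (Fin ℓ) F := Matrix.of fun i k => if i.val = k.val + (n - ℓ) then 1 else 0
    let B : Matrix (Fin ℓ) (Fin n) F := Matrix.of fun k j => if j.val = k.val then 1 else 0
    have e : N = A * B := by
      ext i j
      simp only [N, A, B, Matrix.mul_apply, Matrix.of_apply]
      split_ifs with h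
      · rw [Finset.sum_eq_single ⟨j, h.1⟩ (fun b _ n => by simp [Ne.symm (mt Fin.ext n)]) (by simp)]; simp [h.2]
      · exact (Finset.sum_eq_zero fun b _ => by split_ifs <;> first | omega | simp).symm
    have a : A.transpose * A = 1 := by
      ext i j
      simp only [A, Matrix.mul_apply, Matrix.of_apply, Matrix.transpose_apply]
      rw [Finset.sum_eq_single ⟨i + (n - ℓ), by omega⟩ (fun b _ n => by rw [if_neg fun z => n (Fin.ext z), zero_mul]) (by simp)]
      simp [Matrix.one_apply, Fin.ext_iff]
    have b : B * B.transpose = 1 := by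
      ext i j
      simp only [B, Matrix.mul_apply, Matrix.of_apply, Matrix.transpose_apply]
      rw [Finset.sum_eq_single ⟨i, by omega⟩ (fun b _ n => by rw [if_neg fun z => n (Fin.ext z), zero_mul]) (by simp)]
      simp [Matrix.one_apply, Fin.ext_iff]
    refine le_antisymm (e ▸ (Matrix.rank_mul_le_left _ _).trans (Matrix.rank_le_width _)) ?_
    have : (A.transpose * N * B.transpose).rank = ℓ := by
      rw [e, ← Matrix.mul_assoc, a, Matrix.one_mul, b, Matrix.rank_one, Fintype.card_fin]
    exact this ▸ (Matrix.rank_mul_le_left _ _).trans (Matrix.rank_mul_le_right _ _)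
  haveI : Nonempty (Fin n) := ⟨⟨0, by omega⟩⟩
  have s : (1 + N) * (1 + N) = 1 := by
    rw [add_mul, mul_add, mul_add, n2, one_mul, one_mul, mul_one, add_zero, add_assoc, CharTwo.add_self_eq_zero, add_zero]
  refine ⟨⟨1 + N, ?_⟩, rfl, orderOf_eq_prime (Subtype.ext ((pow_two (1 + N)).trans s)) fun z => ?_, by simpa using r⟩
  · have := congrArg Matrix.det s
    rw [Matrix.det_mul, Matrix.det_one, mul_self_eq_one_iff, CharTwo.neg_eq, or_self] at this
    exact this
  · rw [add_eq_left.1 (congrArg Subtype.val z : 1 + N = 1), Matrix.rank_zero] at r; omega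

end Cfsg.Agent.S2163
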