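import Cfsg.Statements.S2164
import Cfsg.Agent.H4.InB
import Cfsg.Agent.S2162

set_option autoImplicit false
open Cfsg

namespace Cfsg.Agent.S2164


/-- Conjugacy of involutions in the special unitary group SU_n(q), q even, n ≥ 3, realised over the field F with q² elements as the matrices of determinant 1 preserving the form Σ u_i v_i^q: for two elements of order 2 of SU_n(q) the following are equivalent — they are conjugate in SU_n(q); they are conjugate in SL_n(F); the matrices a − 1 and b − 1 have the same rank. -/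
theorem result {F : Type*} [Field F] [Fintype F] [CharP F 2] {n q : ℕ} (hF : Fintype.card F = q ^ 2) (hn : 3 ≤ n) (a b : ↥(Cfsg.SU n F q)) (ha : orderOf a = 2) (hb : orderOf b = 2) :
    (IsConj a b ↔ IsConj (a : Matrix.SpecialLinearGroup (Fin n) F) (b : Matrix.SpecialLinearGroup (Fin n) F)) ∧
    (IsConj a b ↔ (((a : Matrix.SpecialLinearGroup (Fin n) F) : Matrix (Fin n) (Fin n) F) - 1).rank = (((b : Matrix.SpecialLinearGroup (Fin n) F) : Matrix (Fin n) (Fin n) F) - 1).rank) := by
  have h2 : (2 : F) = 0 := CharTwo.two_eq_zero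
  have h1 := Cfsg.Agent.S2162.result hn a.1 b.1 (by rwa [Subgroup.orderOf_coe])
    (by rwa [Subgroup.orderOf_coe])
  have h3 : IsConj a b → IsConj a.1 b.1 := (Cfsg.SU n F q).subtype.map_isConj
  suffices h : IsConj a.1 b.1 → IsConj a b from ⟨⟨h3, h⟩, ⟨fun e => h1.1 (h3 e), fun e => h (h1.2 e)⟩⟩
  intro h
  let e := H4.suEquiv hF n
  replace h := h1.1 h
  rw [← (H4.rk_eq_rank (t := (e a).1.1) (M := a.1.1) fun _ => rfl).1,
    ← (H4.rk_eq_rank (t := (e b).1.1) (M := b.1.1) fun _ => rfl).1] at h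
  rw [← e.orderOf_eq, ← Subgroup.orderOf_coe, H4.order_two_iff] at ha hb
  obtain ⟨g, h4, h5⟩ := H4.su_conj (H4.uForm_ND hF n) h2 ha.1 hb.1 ha.2 h
  exact (H4.isConj_equiv e).1 (isConj_iff.2 ⟨⟨g, h4⟩, mul_inv_eq_iff_eq_mul.2 (Subtype.ext h5)⟩)

end Cfsg.Agent.S2164
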