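import Cfsg.Statements.S2165
import Mathlib

set_option autoImplicit false
open Cfsg

namespace Cfsg.Agent.S2165

open Matrix

/-- In SU_n(q), q even, n ≥ 3 (matrices of determinant 1 over the field with q² elements preserving Σ u_i v_i^q): for every ℓ with 1 ≤ ℓ and 2ℓ ≤ n, the permutation matrix of the involution of {0, …, n−1} exchanging i and n − ℓ + i for each i < ℓ lies in SU_n(q), has order 2, and differs from the identity by a matrix of rank ℓ. So every rank between 1 and n/2 occurs for involutions of SU_n(q). -/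
theorem result {F : Type*} [Field F] [Fintype F] [CharP F 2] {n q : ℕ} (hF : Fintype.card F = q ^ 2) (hn : 3 ≤ n) (ℓ : ℕ) (h1 : 1 ≤ ℓ) (h2 : 2 * ℓ ≤ n) :
    ∃ a : ↥(Cfsg.SU n F q), (((a : Matrix.SpecialLinearGroup (Fin n) F) : Matrix (Fin n) (Fin n) F) = Matrix.of (fun i j : Fin n => if (j.val < ℓ ∧ i.val = j.val + (n - ℓ)) ∨ (i.val < ℓ ∧ j.val = i.val + (n - ℓ)) ∨ (i = j ∧ ℓ ≤ i.val ∧ i.val < n - ℓ) then (1 : F) else 0)) ∧ orderOf a = 2 ∧ ((((a : Matrix.SpecialLinearGroup (Fin n) F) : Matrix (Fin n) (Fin n) F)) - 1).rank = ℓ := by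
  set_option maxSynthPendingDepth 3 in
  classical
  let σ : Fin n → Fin n := fun i => if h : i.val < ℓ then ⟨i + (n - ℓ), by omega⟩ else if h : n - ℓ ≤ i.val then
    ⟨i - (n - ℓ), by omega⟩ else i
  have s : Function.Involutive σ := fun i => by
    have v : ∀ i, (σ i).val = if i.val < ℓ then i + (n - ℓ) else if n - ℓ ≤ i.val then i - (n - ℓ) else i := fun i => by
      simp only [σ]; split_ifs <;> rfl
    apply Fin.ext; rw [v, v]; split_ifs <;> omega
  set M : Matrix (Fin n) (Fin n) F := Matrix.of fun i j : Fin n => if (j.val < ℓ ∧ i.val = j.val + (n - ℓ)) ∨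
    (i.val < ℓ ∧ j.val = i.val + (n - ℓ)) ∨ (i = j ∧ ℓ ≤ i.val ∧ i.val < n - ℓ) then (1 : F) else 0
  have m : ∀ v, M *ᵥ v = v ∘ σ := fun v => by
    ext i
    have : ∀ j, M i j = if j = σ i then 1 else 0 := fun j => by
      simp only [M, of_apply, σ, Fin.ext_iff]
      congr 1; split_ifs <;> simp only [eq_iff_iff] <;> omega
    simp [mulVec, dotProduct, this]
  have m2 : M * M = 1 := by
    refine mulVec_injective (funext fun v => ?_)
    rw [← mulVec_mulVec, m, m, one_mulVec]; ext i; exact congrArg v (s i)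
  have d : M.det = 1 := by
    have := congrArg Matrix.det m2
    rwa [Matrix.det_mul, Matrix.det_one, mul_self_eq_one_iff, CharTwo.neg_eq, or_self] at this
  have r : (M - 1).rank = ℓ := by
    let P : (Fin ℓ → F) →ₗ[F] (Fin n → F) := LinearMap.pi fun i => if h : i.val < ℓ then LinearMap.proj ⟨i, h⟩ else
      if h : n - ℓ ≤ i.val then LinearMap.proj ⟨i - (n - ℓ), by omega⟩ else 0
    have : LinearMap.range (M - 1).mulVecLin = LinearMap.range P := by
      refine le_antisymm ?_ ?_
      · rintro _ ⟨v, rfl⟩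
        refine ⟨fun k => v ⟨k + (n - ℓ), by omega⟩ - v ⟨k, by omega⟩, funext fun i => ?_⟩
        simp only [P, mulVecLin_apply, sub_mulVec, m, one_mulVec, LinearMap.pi_apply, Pi.sub_apply, Function.comp, σ]
        split_ifs with a b
        · rfl
        · simp [Nat.sub_add_cancel b, CharTwo.sub_eq_add, add_comm]
        · simp
      · rintro _ ⟨w, rfl⟩
        refine ⟨fun i => if h : i.val < ℓ then w ⟨i, h⟩ else 0, funext fun i => ?_⟩
        simp only [P, mulVecLin_apply, sub_mulVec, m, one_mulVec, LinearMap.pi_apply, Pi.sub_apply, Function.comp, σ]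
        by_cases a : i.val < ℓ
        · simp [a, show ¬i.val + (n - ℓ) < ℓ by omega, CharTwo.neg_eq]
        by_cases b : n - ℓ ≤ i.val
        · simp [a, b, show i.val - (n - ℓ) < ℓ by omega]
        · simp [a, b]
    rw [Matrix.rank, this, LinearMap.finrank_range_of_inj fun v w e => funext fun k => by
      simpa [P] using congrFun e ⟨k, by omega⟩]
    simp
  refine ⟨⟨⟨M, d⟩, fun u v => ?_⟩, rfl, orderOf_eq_prime (Subtype.ext (Subtype.ext ((pow_two M).trans m2))) fun z => ?_, r⟩
  · show hermForm n F q (M *ᵥ u) (M *ᵥ v) = _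
    rw [m, m]; exact Equiv.sum_comp s.toPerm fun i => u i * v i ^ q
  · rw [show M = 1 from congrArg (fun g => g.1.1) z, sub_self, rank_zero] at r; omega

end Cfsg.Agent.S2165
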