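import Cfsg.Statements.S2166
import Cfsg.Agent.H4.InB

set_option autoImplicit false
open Cfsg

namespace Cfsg.Agent.S2166


/-- Conjugacy of involutions in the symplectic group Sp_{2m}(F), F a finite field of characteristic two, m ≥ 2 (Sp taken as the matrices A with A J Aᵀ = J, acting on column vectors, with the alternating form f(u, v) = u ⬝ (J v)). For an involution t write V(t) for the set of vectors v with f(v, t v) = 0 (a subspace). Two involutions a, b are conjugate in Sp_{2m}(F) exactly when a − 1 and b − 1 have the same rank and, in case that rank is even, V(a) and V(b) have the same number of elements. -/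
theorem result {F : Type*} [Field F] [Fintype F] [CharP F 2] {m : ℕ} (hm : 2 ≤ m) (a b : ↥(Matrix.symplecticGroup (Fin m) F)) (ha : orderOf a = 2) (hb : orderOf b = 2) :
    IsConj a b ↔ ((((a : ↥(Matrix.symplecticGroup (Fin m) F)) : Matrix (Fin m ⊕ Fin m) (Fin m ⊕ Fin m) F) - 1).rank = (((b : ↥(Matrix.symplecticGroup (Fin m) F)) : Matrix (Fin m ⊕ Fin m) (Fin m ⊕ Fin m) F) - 1).rank ∧
      (Even (((a : ↥(Matrix.symplecticGroup (Fin m) F)) : Matrix (Fin m ⊕ Fin m) (Fin m ⊕ Fin m) F) - 1).rank → Nat.card {v : Fin m ⊕ Fin m → F // Cfsg.sympForm m F v (Matrix.mulVec ((a : ↥(Matrix.symplecticGroup (Fin m) F)) : Matrix (Fin m ⊕ Fin m) (Fin m ⊕ Fin m) F) v) = 0} = Nat.card {v : Fin m ⊕ Fin m → F // Cfsg.sympForm m F v (Matrix.mulVec ((b : ↥(Matrix.symplecticGroup (Fin m) F)) : Matrix (Fin m ⊕ Fin m) (Fin m ⊕ Fin m) F) v) = 0})) := by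
  have h2 : (2 : F) = 0 := CharTwo.two_eq_zero
  let e := H4.spEquiv m F
  have hf := H4.spForm_ND m F
  rw [← (H4.rk_eq_rank (t := (e a).1) (M := a.1) fun _ => rfl).1,
    ← (H4.rk_eq_rank (t := (e b).1) (M := b.1) fun _ => rfl).1]
  rw [← e.orderOf_eq, H4.order_two_iff] at ha hb
  have key : ∀ c : Matrix.symplecticGroup (Fin m) F, H4.Al (e c) ↔ Nat.card {v : Fin m ⊕ Fin m → F //
      Cfsg.sympForm m F v (c.1.mulVec v) = 0} = Nat.card (Fin m ⊕ Fin m → F) := fun c => by
    have : H4.Al (e c) ↔ ∀ v, Cfsg.sympForm m F v (c.1.mulVec v) = 0 := forall_congr' fun v => by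
      rw [H4.nil_apply, map_sub, LinearMap.sub_apply, H4.alt_B_self, sub_zero,
        H4.Form.B_eq_zero_comm, H4.spForm_B]; rfl
    rw [this]
    exact ⟨fun h => Nat.card_congr (Equiv.subtypeUnivEquiv h), fun h v => by
      have := Set.eq_univ_iff_ncard {v | Cfsg.sympForm m F v (c.1.mulVec v) = 0} |>.2 h
      exact (Set.eq_univ_iff_forall.1 this v :)⟩
  rw [← H4.isConj_equiv e]
  constructor
  · intro h
    obtain ⟨g, hg⟩ := isConj_iff.1 h
    have h3 := congrArg Subtype.val (mul_inv_eq_iff_eq_mul.1 hg)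
    refine ⟨H4.rk_conj h3, fun _ => Nat.card_congr (g.1.toEquiv.subtypeEquiv fun v => ?_)⟩
    have h4 : g.1 (a.1.mulVec v) = b.1.mulVec (g.1 v) := LinearEquiv.congr_fun h3 v
    rw [← H4.spForm_B, ← H4.spForm_B, ← H4.Form.Isom_B g.2, h4]; rfl
  · rintro ⟨h3, h4⟩
    refine (H4.inv_conj_iff hf (fun _ => rfl) h2 ha.1 hb.1).2 ⟨?_, h3⟩
    by_cases he : Even (H4.rk (e a).1)
    · rw [key, key, h4 he]
    · exact iff_of_false (fun h => he (h.even hf (fun _ => rfl) h2 ha.1))
        fun h => he (h3 ▸ h.even hf (fun _ => rfl) h2 hb.1)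

end Cfsg.Agent.S2166
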