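import Cfsg.Statements.S2167
import Cfsg.Agent.H4.Classify

set_option autoImplicit false
open Cfsg

namespace Cfsg.Agent.S2167

open Matrix

/-- For an involution t of the symplectic group Sp_{2m}(F), m ≥ 2, F a finite field of characteristic two (matrices A with A J Aᵀ = J acting on column vectors, alternating form f(u, v) = u ⬝ (J v)): the set V(t) of vectors v with f(v, t v) = 0 has either q^{2m} or q^{2m−1} elements, q the order of F (it is a subspace of codimension at most 1), and if it is the whole space then t − 1 has even rank. -/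
theorem result {F : Type*} [Field F] [Fintype F] [CharP F 2] {m : ℕ} (hm : 2 ≤ m) (a : ↥(Matrix.symplecticGroup (Fin m) F)) (ha : orderOf a = 2) :
    (Nat.card {v : Fin m ⊕ Fin m → F // Cfsg.sympForm m F v (Matrix.mulVec ((a : ↥(Matrix.symplecticGroup (Fin m) F)) : Matrix (Fin m ⊕ Fin m) (Fin m ⊕ Fin m) F) v) = 0} = Fintype.card F ^ (2 * m) ∨ Nat.card {v : Fin m ⊕ Fin m → F // Cfsg.sympForm m F v (Matrix.mulVec ((a : ↥(Matrix.symplecticGroup (Fin m) F)) : Matrix (Fin m ⊕ Fin m) (Fin m ⊕ Fin m) F) v) = 0} * Fintype.card F = Fintype.card F ^ (2 * m)) ∧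
    ((∀ v : Fin m ⊕ Fin m → F, Cfsg.sympForm m F v (Matrix.mulVec ((a : ↥(Matrix.symplecticGroup (Fin m) F)) : Matrix (Fin m ⊕ Fin m) (Fin m ⊕ Fin m) F) v) = 0) → Even (((a : ↥(Matrix.symplecticGroup (Fin m) F)) : Matrix (Fin m ⊕ Fin m) (Fin m ⊕ Fin m) F) - 1).rank) := by
  set_option maxSynthPendingDepth 3 in
  classical
  have a2 : ∀ v, a.1 *ᵥ (a.1 *ᵥ v) = v := fun v => by
    rw [mulVec_mulVec, show a.1 * a.1 = 1 from congrArg Subtype.val ((pow_two a).symm.trans (ha ▸ pow_orderOf_eq_one a)),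
      one_mulVec]
  let f := H4.spForm m F
  have p : ∀ x y, f.B (a.1 *ᵥ x) (a.1 *ᵥ y) = f.B x y := fun x y => by
    simp only [f, H4.spForm_B]; exact H4.mem_symplecticGroup_iff.1 a.2 x y
  have s : ∀ x y, f.B x (a.1 *ᵥ y) = f.B y (a.1 *ᵥ x) := fun x y => by
    rw [← p, a2, H4.alt_symm, CharTwo.neg_eq]
  refine ⟨?_, fun h => ?_⟩
  · let φ : (Fin m ⊕ Fin m → F) →+ F := AddMonoidHom.mk' (fun v => f.B v (a.1 *ᵥ v)) fun x y => by
      simp only [mulVec_add, map_add, LinearMap.add_apply, s x y]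
      rw [add_assoc, ← add_assoc (f.B y _), CharTwo.add_self_eq_zero, zero_add]
    have c : Nat.card φ.ker * Nat.card φ.range = Fintype.card F ^ (2 * m) := by
      rw [← AddSubgroup.index_ker, AddSubgroup.card_mul_index]; simp [two_mul]
    rw [Nat.card_congr (Equiv.subtypeEquivRight fun v => (by rw [← H4.spForm_B]; rfl :
      sympForm m F v (a.1 *ᵥ v) = 0 ↔ v ∈ φ.ker))]
    by_cases z : φ.range = ⊥
    · exact .inl (by rw [z, AddSubgroup.card_bot, mul_one] at c; exact c)
    · obtain ⟨_, ⟨v, rfl⟩, n⟩ := (AddSubgroup.bot_or_exists_ne_zero _).resolve_left z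
      have : φ.range = ⊤ := eq_top_iff.2 fun y _ => by
        obtain ⟨t, ht⟩ := FiniteField.isSquare_of_char_two (ringChar.eq F 2) (y / φ v)
        refine ⟨t • v, ?_⟩
        show f.B (t • v) (a.1 *ᵥ (t • v)) = y
        rw [mulVec_smul, f.B_smul_left, f.B_smul_right, H4.altKind_σ, ← mul_assoc, ← ht]
        exact div_mul_cancel₀ y n
      exact .inr (by rw [this, AddSubgroup.card_top, Nat.card_eq_fintype_card (α := F)] at c; exact c)
  · obtain ⟨U, u⟩ := (LinearMap.ker (a.1 - 1).mulVecLin).exists_isCompl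
    have k : ∀ x y, f.B x ((a.1 - 1) *ᵥ y) = f.B y ((a.1 - 1) *ᵥ x) := fun x y => by
      rw [sub_mulVec, sub_mulVec, one_mulVec, one_mulVec, map_sub, map_sub, s, H4.alt_symm f x y, CharTwo.neg_eq]
    refine H4.alt_even_finrank _ U (H4.altForm (LinearMap.BilinForm.comp (show LinearMap.BilinForm F _ from f.B) U.subtype
      ((a.1 - 1).mulVecLin.comp U.subtype)) fun x => ?_) (fun x z => Subtype.ext ?_) ?_
    · show f.B x ((a.1 - 1) *ᵥ x) = 0
      rw [sub_mulVec, one_mulVec, map_sub, H4.alt_B_self, sub_zero, H4.spForm_B]; exact h x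
    · refine Submodule.disjoint_def.1 u.disjoint _ (H4.spForm_ND m F _ fun y => H4.Form.refl ?_) x.2
      obtain ⟨b, b1, c, c1, rfl⟩ := Submodule.mem_sup.1 (u.sup_eq_top.ge (Submodule.mem_top (x := y)))
      show f.B (b + c) ((a.1 - 1) *ᵥ x) = 0
      rw [k, mulVec_add, map_add, show (a.1 - 1) *ᵥ b = 0 from b1, map_zero, zero_add]
      exact z ⟨c, c1⟩
    · have := Submodule.finrank_add_eq_of_isCompl u
      have := (a.1 - 1).mulVecLin.finrank_range_add_finrank_ker
      unfold Matrix.rank; omega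

end Cfsg.Agent.S2167
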