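import Cfsg.Statements.S2170
import Cfsg.Agent.H4.InC

set_option autoImplicit false
open Cfsg

namespace Cfsg.Agent.S2170


/-- Involutions in the full isometry group O of the quadratic form Σ x_i y_i + (z₁² + c z₁ z₂ + d z₂²) in dimension 2m with anisotropic binary part over a finite field F of characteristic two, m ≥ 4 (minus type): two elements of order 2 of O are conjugate in O exactly when they are conjugate under the group of all invertible matrices preserving the polar bilinear form (u, v) ↦ Q(u + v) − Q(u) − Q(v) (the symplectic group of that form). -/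
theorem result {F : Type*} [Field F] [Fintype F] [CharP F 2] {m : ℕ} (hm : 4 ≤ m) (c d : F) (hcd : ∀ z₁ z₂ : F, z₁ ^ 2 + c * z₁ * z₂ + d * z₂ ^ 2 = 0 → z₁ = 0 ∧ z₂ = 0) (t s : ↥(Cfsg.isometryGroup F (Cfsg.quadFormMinus (m - 1) F c d))) (ht : orderOf t = 2) (hs : orderOf s = 2) :
    IsConj t s ↔ ∃ g ∈ Cfsg.preserving (Units.coeHom (Matrix ((Fin (m - 1) ⊕ Fin (m - 1)) ⊕ Fin 2) ((Fin (m - 1) ⊕ Fin (m - 1)) ⊕ Fin 2) F)) (fun u v => Cfsg.quadFormMinus (m - 1) F c d (u + v) - Cfsg.quadFormMinus (m - 1) F c d u - Cfsg.quadFormMinus (m - 1) F c d v), g * ((t : ↥(Cfsg.isometryGroup F (Cfsg.quadFormMinus (m - 1) F c d))) : GL ((Fin (m - 1) ⊕ Fin (m - 1)) ⊕ Fin 2) F) * g⁻¹ = ((s : ↥(Cfsg.isometryGroup F (Cfsg.quadFormMinus (m - 1) F c d))) : GL ((Fin (m - 1) ⊕ Fin (m - 1)) ⊕ Fin 2) F) := by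
  have h2 : (2 : F) = 0 := CharTwo.two_eq_zero
  let f := H4.minusForm F (m - 1) c d
  let e : Cfsg.isometryGroup F (Cfsg.quadFormMinus (m - 1) F c d) ≃* f.Isom := H4.isometryEquiv f
  constructor
  · intro h
    obtain ⟨g, rfl⟩ := isConj_iff.1 h
    refine ⟨g, fun u v => ?_, rfl⟩
    exact ((H4.quad_B_eq f _ _).symm.trans (H4.Form.Isom_B (e g).2 u v)).trans (H4.quad_B_eq f _ _)
  · rintro ⟨g, hg, h⟩
    rw [← e.orderOf_eq, H4.order_two_iff] at ht hs
    refine (H4.isConj_equiv e).1 (H4.isConj_of_B (H4.minusForm_ND _ hcd) h2 ht.1 hs.1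
      (g := H4.glEquiv g) (fun u v => ((H4.quad_B_eq f _ _).trans (hg u v)).trans
        (H4.quad_B_eq f _ _).symm) ?_)
    have := congrArg H4.glEquiv (mul_inv_eq_iff_eq_mul.1 h)
    rwa [map_mul, map_mul] at this

end Cfsg.Agent.S2170
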