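import Cfsg.Statements.S2172
import Cfsg.Agent.H4.InC

set_option autoImplicit false
open Cfsg

namespace Cfsg.Agent.S2172


/-- Splitting of involution classes from O to Ω for the hyperbolic quadratic form Q = Σ x_i y_i in dimension 2m over a finite field F of characteristic two, m ≥ 4. Let t, s be involutions of the commutator subgroup Ω that are conjugate in the full isometry group O. If it is not the case that t − 1 has rank m and Q(v + t v) = 0 for every vector v, then t and s are conjugate by an element of Ω. If t − 1 has rank m and Q(v + t v) = 0 for all v, then t and s are conjugate by an element of Ω exactly when the intersection of the images of t − 1 and s − 1 has even dimension (so the class of t in O meets at most two classes of Ω). -/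
theorem result {F : Type*} [Field F] [Fintype F] [CharP F 2] {m : ℕ} (hm : 4 ≤ m) (t s : ↥(Cfsg.isometryGroup F (Cfsg.quadFormPlus m F))) (ht : orderOf t = 2) (hs : orderOf s = 2) (htO : t ∈ Cfsg.Omega F (Cfsg.quadFormPlus m F)) (hsO : s ∈ Cfsg.Omega F (Cfsg.quadFormPlus m F)) (hconj : IsConj t s) :
    (¬ (((((t : ↥(Cfsg.isometryGroup F (Cfsg.quadFormPlus m F))) : GL (Fin m ⊕ Fin m) F) : Matrix (Fin m ⊕ Fin m) (Fin m ⊕ Fin m) F) - 1).rank = m ∧ ∀ v : Fin m ⊕ Fin m → F, Cfsg.quadFormPlus m F (v + Matrix.mulVec (((t : ↥(Cfsg.isometryGroup F (Cfsg.quadFormPlus m F))) : GL (Fin m ⊕ Fin m) F) : Matrix (Fin m ⊕ Fin m) (Fin m ⊕ Fin m) F) v) = 0) →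
      ∃ g ∈ Cfsg.Omega F (Cfsg.quadFormPlus m F), g * t * g⁻¹ = s) ∧
    ((((((t : ↥(Cfsg.isometryGroup F (Cfsg.quadFormPlus m F))) : GL (Fin m ⊕ Fin m) F) : Matrix (Fin m ⊕ Fin m) (Fin m ⊕ Fin m) F) - 1).rank = m ∧ ∀ v : Fin m ⊕ Fin m → F, Cfsg.quadFormPlus m F (v + Matrix.mulVec (((t : ↥(Cfsg.isometryGroup F (Cfsg.quadFormPlus m F))) : GL (Fin m ⊕ Fin m) F) : Matrix (Fin m ⊕ Fin m) (Fin m ⊕ Fin m) F) v) = 0) →
      ((∃ g ∈ Cfsg.Omega F (Cfsg.quadFormPlus m F), g * t * g⁻¹ = s) ↔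
        Even (Module.finrank F ↥(LinearMap.range (Matrix.toLin' ((((t : ↥(Cfsg.isometryGroup F (Cfsg.quadFormPlus m F))) : GL (Fin m ⊕ Fin m) F) : Matrix (Fin m ⊕ Fin m) (Fin m ⊕ Fin m) F) - 1)) ⊓ LinearMap.range (Matrix.toLin' ((((s : ↥(Cfsg.isometryGroup F (Cfsg.quadFormPlus m F))) : GL (Fin m ⊕ Fin m) F) : Matrix (Fin m ⊕ Fin m) (Fin m ⊕ Fin m) F) - 1)))))) := by
  have h2 : (2 : F) = 0 := CharTwo.two_eq_zero
  let f := H4.plusForm F m
  have hf : f.ND := H4.plusForm_ND F m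
  let e : Cfsg.isometryGroup F (Cfsg.quadFormPlus m F) ≃* f.Isom := H4.isometryEquiv f
  have hn : Module.finrank F (Fin m ⊕ Fin m → F) = 2 * m := by simp; omega
  have hgen := H4.hgen_of hf (.inr (by omega))
  rw [← e.orderOf_eq, H4.order_two_iff] at ht
  have h3 : (∃ g ∈ Cfsg.Omega F (Cfsg.quadFormPlus m F), g * t * g⁻¹ = s) ↔
      ∃ g ∈ commutator f.Isom, g * e t * g⁻¹ = e s := by
    rw [e.surjective.exists]
    simp only [← map_mul, ← map_inv, e.apply_eq_iff_eq, H4.mem_commutator_equiv]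
  have h4 : H4.Al (e t) ↔ ∀ v, Cfsg.quadFormPlus m F (v + t.1.1.mulVec v) = 0 := by
    rw [H4.al_iff_Q h2]
    refine forall_congr' fun v => ?_
    rw [H4.nil_apply, sub_eq_add_neg, neg_eq_of_add_eq_zero_left (H4.add_self_two h2 v), add_comm]
    rfl
  have h5 := H4.rk_eq_rank (t := (e t).1) (M := t.1.1) fun _ => rfl
  have h6 := H4.rk_eq_rank (t := (e s).1) (M := s.1.1) fun _ => rfl
  replace hconj := (H4.isConj_equiv e).2 hconj
  rw [← h5.1, ← h4]
  refine ⟨fun h => h3.2 (H4.omega_conj hf h2 hgen ht.1 (fun a => h ⟨by omega, a.1⟩) hconj),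
    fun h => h3.trans ((H4.omega_conj_max hf h2 hgen hn ht.1 h.2 h.1 hconj).trans ?_)⟩
  have h7 := h.2.even hf (fun _ => rfl) h2 ht.1
  have h8 := Submodule.finrank_mono (inf_le_left (a := LinearMap.range (H4.nil (e t).1))
    (b := LinearMap.range (H4.nil (e s).1)))
  have h9 := h.1
  rw [h9] at h7
  rw [H4.rk] at h9
  rw [Matrix.toLin'_apply', Matrix.toLin'_apply', ← h5.2, ← h6.2, Nat.even_sub (h8.trans h9.le)]
  simp [h7]

end Cfsg.Agent.S2172
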