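import Cfsg.Statements.S2173
import Cfsg.Agent.H4.InC

set_option autoImplicit false
open Cfsg

namespace Cfsg.Agent.S2173


/-- For the quadratic form Σ x_i y_i + (z₁² + c z₁ z₂ + d z₂²) in dimension 2m with anisotropic binary part over a finite field F of characteristic two, m ≥ 4 (minus type): two involutions of the commutator subgroup Ω that are conjugate in the full isometry group O are conjugate by an element of Ω (no class of involutions of O inside Ω splits). -/
theorem result {F : Type*} [Field F] [Fintype F] [CharP F 2] {m : ℕ} (hm : 4 ≤ m) (c d : F) (hcd : ∀ z₁ z₂ : F, z₁ ^ 2 + c * z₁ * z₂ + d * z₂ ^ 2 = 0 → z₁ = 0 ∧ z₂ = 0) (t s : ↥(Cfsg.isometryGroup F (Cfsg.quadFormMinus (m - 1) F c d))) (ht : orderOf t = 2) (hs : orderOf s = 2) (htO : t ∈ Cfsg.Omega F (Cfsg.quadFormMinus (m - 1) F c d)) (hsO : s ∈ Cfsg.Omega F (Cfsg.quadFormMinus (m - 1) F c d)) (hconj : IsConj t s) :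
    ∃ g ∈ Cfsg.Omega F (Cfsg.quadFormMinus (m - 1) F c d), g * t * g⁻¹ = s := by
  have h2 : (2 : F) = 0 := CharTwo.two_eq_zero
  let f := H4.minusForm F (m - 1) c d
  have hf : f.ND := H4.minusForm_ND _ hcd
  let e : Cfsg.isometryGroup F (Cfsg.quadFormMinus (m - 1) F c d) ≃* f.Isom := H4.isometryEquiv f
  have hn : Module.finrank F ((Fin (m - 1) ⊕ Fin (m - 1)) ⊕ Fin 2 → F) = 2 * (m - 1 + 1) := by
    simp; omega
  rw [← e.orderOf_eq, H4.order_two_iff] at ht
  obtain ⟨g, h3, h4⟩ := H4.omega_conj hf h2 (H4.hgen_of hf (.inr (by omega))) ht.1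
    (fun h => H4.minusForm_not_hasTS _ hcd ⟨_, h.1.TS h2 ht.1, by
      have := h.2; rw [H4.rk] at this; omega⟩) ((H4.isConj_equiv e).2 hconj)
  obtain ⟨g, rfl⟩ := e.surjective g
  exact ⟨g, (H4.mem_Omega_iff f).2 h3, e.injective (by rw [map_mul, map_mul, map_inv, h4])⟩

end Cfsg.Agent.S2173
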