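import Cfsg.Statements.S2179
import Cfsg.Agent.H5.Cent2

set_option autoImplicit false
open Cfsg

namespace Cfsg.Agent.S2179

open H5.Chev Cfsg.Lie

/-- Centralizers of the two remaining classes of involutions in the Chevalley group G of type F₄ over a finite field F of characteristic two (this problem's root numbering for type F₄, from the Chevalley data module: p₁, p₂ short, p₃, p₄ long with indices 33, 27, 25, 24 and negatives 14, 20, 22, 23; U generated by the positive root subgroups). For an element of G with matrix x_47(1)x_44(1) (highest root times highest short root): its centralizer in G is generated by U, X_{−p₂} and X_{−p₃}. For an element of G with matrix x_39(1)x_45(1) (roots (1,2,2,1) and (2,4,2,1), an orthogonal short/long pair): its centralizer in G is generated by X_{p₁}, X_{−p₁}, X_{p₄}, X_{−p₄} and the root subgroups of all positive roots other than p₂ (27), p₃ (25), p₁ + p₂ (34) and p₃ + p₄ (26). -/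
theorem result {F : Type*} [Field F] [Fintype F] [CharP F 2] (w v : GL Cfsg.Lie.chevF4.Idx F) (hw : (w : Matrix Cfsg.Lie.chevF4.Idx Cfsg.Lie.chevF4.Idx F) = Cfsg.Lie.chevF4.x F 47 1 * Cfsg.Lie.chevF4.x F 44 1) (hv : (v : Matrix Cfsg.Lie.chevF4.Idx Cfsg.Lie.chevF4.Idx F) = Cfsg.Lie.chevF4.x F 39 1 * Cfsg.Lie.chevF4.x F 45 1) :
    Cfsg.Lie.chevF4.group F ⊓ Subgroup.centralizer {w} = Cfsg.Lie.chevF4.posUnipotent F ⊔ Cfsg.Lie.chevF4.rootSubgroup F 20 ⊔ Cfsg.Lie.chevF4.rootSubgroup F 22 ∧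
    Cfsg.Lie.chevF4.group F ⊓ Subgroup.centralizer {v} = Cfsg.Lie.chevF4.rootSubgroup F 33 ⊔ Cfsg.Lie.chevF4.rootSubgroup F 14 ⊔ Cfsg.Lie.chevF4.rootSubgroup F 24 ⊔ Cfsg.Lie.chevF4.rootSubgroup F 23 ⊔
      Subgroup.closure {g : GL Cfsg.Lie.chevF4.Idx F | ∃ (r : ℕ) (c : F), Cfsg.Lie.chevF4.IsPosRoot r ∧ r ∉ [27, 25, 34, 26] ∧ (g : Matrix Cfsg.Lie.chevF4.Idx Cfsg.Lie.chevF4.Idx F) = Cfsg.Lie.chevF4.x F r c} := by
  have e1 : w = (glSys chevF4 F).x (rF4 47) 1 * (glSys chevF4 F).x (rF4 44) 1 :=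
    Units.ext (hw.trans (congrArg₂ _ (x_eq (rF4 47) 1) (x_eq (rF4 44) 1)))
  have e2 : v = (glSys chevF4 F).x (rF4 39) 1 * (glSys chevF4 F).x (rF4 45) 1 :=
    Units.ext (hv.trans (congrArg₂ _ (x_eq (rF4 39) 1) (x_eq (rF4 45) 1)))
  have h1 := closure_eq_U (D := chevF4) (F := F) (fun r => chevF4.IsPosRoot r ∧ r ∉ [27, 25, 34, 26])
    fun _ h => h.1.1
  simp only [and_assoc] at h1
  rw [group_eq, e1, e2, posUnipotent_eq, rootSubgroup_eq (D := chevF4) ⟨14, by decide⟩,
    rootSubgroup_eq (D := chevF4) ⟨20, by decide⟩, rootSubgroup_eq (D := chevF4) ⟨22, by decide⟩,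
    rootSubgroup_eq (D := chevF4) ⟨23, by decide⟩, rootSubgroup_eq (D := chevF4) ⟨24, by decide⟩,
    rootSubgroup_eq (D := chevF4) ⟨33, by decide⟩, h1, cent_F4a _ glSys_hmul,
    cent_F4b _ Units.val_injective]
  simp only [← StSys.U_union]
  constructor <;> congr 1 <;> ext s <;> simp only [Set.mem_ofPred_eq, Set.mem_union, Set.mem_singleton_iff]
  · revert s; decide +kernel
  · change _ ↔ _ ∨ (Pos s ∧ _)
    revert s; decide +kernel

end Cfsg.Agent.S2179
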