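import Cfsg.Statements.S2180
import Cfsg.Agent.H5.Cent2

set_option autoImplicit false
open Cfsg

namespace Cfsg.Agent.S2180

open H5.Chev Cfsg.Lie

/-- Centralizers of involutions in the Chevalley group G of type G₂ over a finite field F of characteristic two with at least four elements (this problem's root numbering for type G₂, from the Chevalley data module: a = p₁ short with index 7, b = p₂ long with index 6, −a = 4, −b = 5, 2a + b = 9, 3a + b = 10, 3a + 2b = 11; U generated by the positive root subgroups). For an element z of G with matrix x_{3a+2b}(1): the centralizer of z in G is generated by U and X_{−a}. For an element t of G with matrix x_{2a+b}(1): the centralizer of t in G is generated by X_{2a+b}, X_{3a+b}, X_{3a+2b}, X_b and X_{−b}. -/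
theorem result {F : Type*} [Field F] [Fintype F] [CharP F 2] (hF : 4 ≤ Fintype.card F) (z t : GL Cfsg.Lie.chevG2.Idx F) (hz : (z : Matrix Cfsg.Lie.chevG2.Idx Cfsg.Lie.chevG2.Idx F) = Cfsg.Lie.chevG2.x F 11 1) (ht : (t : Matrix Cfsg.Lie.chevG2.Idx Cfsg.Lie.chevG2.Idx F) = Cfsg.Lie.chevG2.x F 9 1) :
    Cfsg.Lie.chevG2.group F ⊓ Subgroup.centralizer {z} = Cfsg.Lie.chevG2.posUnipotent F ⊔ Cfsg.Lie.chevG2.rootSubgroup F 4 ∧
    Cfsg.Lie.chevG2.group F ⊓ Subgroup.centralizer {t} = Cfsg.Lie.chevG2.rootSubgroup F 9 ⊔ Cfsg.Lie.chevG2.rootSubgroup F 10 ⊔ Cfsg.Lie.chevG2.rootSubgroup F 11 ⊔ Cfsg.Lie.chevG2.rootSubgroup F 6 ⊔ Cfsg.Lie.chevG2.rootSubgroup F 5 := by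
  have e1 : z = (glSys chevG2 F).x (rG2 11) 1 := Units.ext (hz.trans (x_eq (rG2 11) 1))
  have e2 : t = (glSys chevG2 F).x (rG2 9) 1 := Units.ext (ht.trans (x_eq (rG2 9) 1))
  rw [group_eq, e1, e2, posUnipotent_eq, rootSubgroup_eq (D := chevG2) ⟨4, by decide⟩,
    rootSubgroup_eq (D := chevG2) ⟨9, by decide⟩, rootSubgroup_eq (D := chevG2) ⟨10, by decide⟩,
    rootSubgroup_eq (D := chevG2) ⟨11, by decide⟩, rootSubgroup_eq (D := chevG2) ⟨6, by decide⟩,
    rootSubgroup_eq (D := chevG2) ⟨5, by decide⟩, cent_G2 _ Units.val_injective,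
    (glSys chevG2 F).cent_root glSys_hmul (i := ⟨1, by decide⟩) (by decide +kernel) fun t b =>
      (glSys chevG2 F).central_of_chk (p := 2) (by decide +kernel) t]
  simp only [← StSys.U_union]
  constructor <;> congr 1 <;> ext s <;> simp only [Set.mem_ofPred_eq, Set.mem_union, Set.mem_singleton_iff] <;>
    revert s <;> decide +kernel

end Cfsg.Agent.S2180
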