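import Cfsg.Statements.S2186
import Cfsg.Agent.H5.Cent1

set_option autoImplicit false
open Cfsg

namespace Cfsg.Agent.S2186

/-- Let G be the Chevalley group of type G₂ (over a field with at least four elements), D₄, E₆, E₇ or E₈ over a finite field F of characteristic two, and let X be the root subgroup of the highest root (the last root index) — a long root subgroup, of order |F|. For every g in G, the subgroup generated by X and its conjugate g X g⁻¹ is either a 2-group or is conjugate by an element of G to the subgroup generated by X and the root subgroup of the lowest root (index 0, the negative of the highest root), which is a copy of SL₂(F). -/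
theorem result {F : Type*} [Field F] [Fintype F] [CharP F 2] (D : Cfsg.Lie.ChevalleyDatum) (hD : D ∈ [Cfsg.Lie.chevG2, Cfsg.Lie.chevD4, Cfsg.Lie.chevE6, Cfsg.Lie.chevE7, Cfsg.Lie.chevE8]) (hF : D = Cfsg.Lie.chevG2 → 4 ≤ Fintype.card F) (g : GL D.Idx F) (hg : g ∈ D.group F) :
    IsPGroup 2 ↥(D.rootSubgroup F (D.nroots - 1) ⊔ (D.rootSubgroup F (D.nroots - 1)).map (MulAut.conj g).toMonoidHom) ∨
    ∃ h ∈ D.group F, (D.rootSubgroup F (D.nroots - 1) ⊔ (D.rootSubgroup F (D.nroots - 1)).map (MulAut.conj g).toMonoidHom).map (MulAut.conj h).toMonoidHom = D.rootSubgroup F (D.nroots - 1) ⊔ D.rootSubgroup F 0 := by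
  have hD' : D ∈ [Cfsg.Lie.chevG2, Cfsg.Lie.chevB2, Cfsg.Lie.chevD4, Cfsg.Lie.chevF4, Cfsg.Lie.chevE6,
      Cfsg.Lie.chevE7, Cfsg.Lie.chevE8] := by
    simp only [List.mem_cons, List.not_mem_nil, or_false] at hD ⊢
    tauto
  obtain ⟨G⟩ := H5.Chev.good_of_mem hD'
  have := H5.Chev.conn_of_mem hD'
  have h0 : 0 < D.nroots := (H5.Chev.Conn.full (D := D)).choose.pos
  let r : H5.Chev.Rt D := ⟨D.nroots - 1, by omega⟩
  have e1 : D.rootSubgroup F (D.nroots - 1) = _ := H5.Chev.rootSubgroup_eq r
  have e2 : D.rootSubgroup F 0 = (H5.Chev.glSys D F).U {H5.Chev.neg r} := by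
    rw [← H5.Chev.rootSubgroup_eq]
    congr 1
    simp only [H5.Chev.neg, Fin.val_rev, r]; omega
  rw [H5.Chev.group_eq] at hg ⊢
  rw [e1, e2]
  exact (H5.Chev.glSys D F).sup_conj_top (fun k => Fin.le_def.2 (by have := k.2; simp only [r]; omega)) hg

end Cfsg.Agent.S2186
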