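import Cfsg.Statements.S2202
import Mathlib
import Cfsg.Agent.H8.AbC2

set_option autoImplicit false
open Cfsg

namespace Cfsg.Agent.S2202

open H8 H7 H1B Subgroup
open scoped IsMulCommutative

/-- Finite groups in which the centralizer of every involution is abelian. Let G be a finite group of even order in which the centralizer of every element of order 2 is abelian. Then the Sylow 2-subgroups of G are cyclic, or a Sylow 2-subgroup of G is normal, or G is isomorphic to the direct product of SL₂(F) for a finite field F of characteristic two and an abelian group of odd order. -/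
theorem result {G : Type*} [Group G] [Finite G] (heven : Even (Nat.card G)) (h : ∀ t : G, orderOf t = 2 → IsMulCommutative ↥(Subgroup.centralizer ({t} : Set G))) :
    (∀ P : Sylow 2 G, IsCyclic ↥P) ∨ (∀ P : Sylow 2 G, (P : Subgroup G).Normal) ∨
    (∃ (F : Type) (_ : Field F) (_ : Fintype F) (A : Type) (_ : CommGroup A) (_ : Finite A), CharP F 2 ∧ Odd (Nat.card A) ∧ Nonempty (G ≃* Matrix.SpecialLinearGroup (Fin 2) F × A)) := by
  by_cases h1 : ∀ P : Sylow 2 G, IsCyclic P
  · exact .inl h1
  by_cases h2 : ∀ P : Sylow 2 G, (P : Subgroup G).Normal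
  · exact .inr (.inl h2)
  push Not at h1 h2
  obtain ⟨P, hP⟩ := h1
  obtain ⟨R, hR⟩ := h2
  have hn : nrm (P : Subgroup G) ≠ ⊤ := fun e => hR (by
    have h1 := normal_of e.ge
    haveI := Sylow.unique_of_normal P h1
    rw [Subsingleton.elim R P]; exact h1)
  have hA : AC (P : Subgroup G) := ⟨h, syl_top P, hP, hn⟩
  obtain ⟨n, -, ⟨e⟩⟩ := hA.prod
  refine .inr (.inr ⟨GaloisField 2 n, inferInstance, Fintype.ofFinite _, Shrink.{0} (center G),
    inferInstance, inferInstance, inferInstance, ?_,
    ⟨e.trans (MulEquiv.prodCongr (MulEquiv.refl _) (Shrink.mulEquiv).symm)⟩⟩)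
  rw [← Nat.card_congr (equivShrink _)]
  exact odd_iff_no_inv.2 hA.center_odd

end Cfsg.Agent.S2202
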