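import Cfsg.Statements.S2209
import Cfsg.Agent.H5.Cent1

set_option autoImplicit false
open Cfsg

namespace Cfsg.Agent.S2209

open H5.Chev in
theorem aux {F : Type*} [Field F] [CharP F 2] (D : Cfsg.Lie.ChevalleyDatum) [Good D] [Conn D]
    (L : List ℕ) (r : Rt D) (hr : (r : ℕ) = D.nroots - 1) (i : Ix D)
    (h : ∀ j : Fin D.rank, D.cartan j r = if j = i then 1 else 0)
    (hL : ∀ s : ℕ, s ∈ L ↔ ∃ j : Fin D.rank, j ≠ i ∧ s = D.neg (D.simple j))
    (t : GL D.Idx F) (ht : (t : Matrix D.Idx D.Idx F) = D.x F (D.nroots - 1) 1) :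
    D.group F ⊓ Subgroup.centralizer {t} = D.posUnipotent F ⊔ Subgroup.closure
      {g : GL D.Idx F | ∃ s ∈ L, ∃ c : F, (g : Matrix D.Idx D.Idx F) = D.x F s c} := by
  have e : t = (glSys D F).x r 1 := Units.ext (by rw [ht, ← hr, x_eq]; rfl)
  have h1 := closure_eq_U (D := D) (F := F) (· ∈ L) fun s hs => by
    obtain ⟨j, -, rfl⟩ := (hL s).1 hs
    exact (val_neg (simple j)) ▸ (neg (simple j)).2
  simp only [exists_and_left] at h1
  rw [group_eq, e, posUnipotent_eq, h1, (glSys D F).cent_root glSys_hmul h fun t b =>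
    (glSys D F).central_top (fun k => Fin.le_def.2 (by have := k.2; omega)) t]
  congr 2
  ext s
  simp only [Set.mem_ofPred_eq, hL, Fin.ext_iff, val_neg, val_simple]

/-- Centralizer of a long root involution in the Chevalley groups of type E₆, E₇, E₈ over a finite field F of characteristic two. Let G be the group generated by the root elements, U the subgroup generated by the positive root subgroups, r the highest root (the last root index: 71, 125, 239 respectively), and t the element of G with matrix x_r(1). Then the centralizer of t in G is the subgroup generated by U together with the root subgroups X_{−p} for the fundamental roots p orthogonal to r — all fundamental roots except p₂ for E₆, except p₁ for E₇, except p₈ for E₈ (numbering with p₁–p₃–p₄–…–p_l the long chain and p₂ joined to p₄); the indices of these negative fundamental roots are 15, 29, 32, 34, 35 (E₆), 47, 52, 56, 59, 61, 62 (E₇), 77, 98, 104, 109, 113, 116, 118 (E₈). (This is the unipotent radical of the corresponding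 maximal parabolic subgroup extended by the root subgroups of its Levi factor, of type A₅, D₆, E₇ respectively.) -/
theorem result {F : Type*} [Field F] [Fintype F] [CharP F 2] (d : Cfsg.Lie.ChevalleyDatum × List ℕ)
    (hd : d ∈ [(Cfsg.Lie.chevE6, [15, 29, 32, 34, 35]), (Cfsg.Lie.chevE7, [47, 52, 56, 59, 61, 62]), (Cfsg.Lie.chevE8, [77, 98, 104, 109, 113, 116, 118])])
    (t : GL d.1.Idx F) (ht : (t : Matrix d.1.Idx d.1.Idx F) = d.1.x F (d.1.nroots - 1) 1) :
    d.1.group F ⊓ Subgroup.centralizer {t} = d.1.posUnipotent F ⊔ Subgroup.closure {g : GL d.1.Idx F | ∃ s ∈ d.2, ∃ c : F, (g : Matrix d.1.Idx d.1.Idx F) = d.1.x F s c} := by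
  simp only [List.mem_cons, List.not_mem_nil, or_false] at hd
  rcases hd with rfl | rfl | rfl
  · have : ∀ s < 72, s ∈ [15, 29, 32, 34, 35] ↔
        ∃ j : Fin 6, j ≠ 1 ∧ s = Lie.chevE6.neg (Lie.chevE6.simple j) := by decide +kernel
    have h2 : ∀ j : Fin 6, j ≠ 1 → Lie.chevE6.neg (Lie.chevE6.simple j) ∈ [15, 29, 32, 34, 35] := by
      decide +kernel
    exact aux Lie.chevE6 _ ⟨71, by decide⟩ rfl ⟨1, by decide⟩ (by decide +kernel)
      (fun s => ⟨fun h => (this s (by simp at h; omega)).1 h, fun ⟨j, h, e⟩ => e ▸ h2 j h⟩) t ht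
  · have : ∀ s < 126, s ∈ [47, 52, 56, 59, 61, 62] ↔
        ∃ j : Fin 7, j ≠ 0 ∧ s = Lie.chevE7.neg (Lie.chevE7.simple j) := by decide +kernel
    have h2 : ∀ j : Fin 7, j ≠ 0 → Lie.chevE7.neg (Lie.chevE7.simple j) ∈ [47, 52, 56, 59, 61, 62] := by
      decide +kernel
    exact aux Lie.chevE7 _ ⟨125, by decide⟩ rfl ⟨0, by decide⟩ (by decide +kernel)
      (fun s => ⟨fun h => (this s (by simp at h; omega)).1 h, fun ⟨j, h, e⟩ => e ▸ h2 j h⟩) t ht
  · have : ∀ s < 240, s ∈ [77, 98, 104, 109, 113, 116, 118] ↔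
        ∃ j : Fin 8, j ≠ 7 ∧ s = Lie.chevE8.neg (Lie.chevE8.simple j) := by decide +kernel
    have h2 : ∀ j : Fin 8, j ≠ 7 → Lie.chevE8.neg (Lie.chevE8.simple j) ∈ [77, 98, 104, 109, 113, 116, 118] := by
      decide +kernel
    exact aux Lie.chevE8 _ ⟨239, by decide⟩ rfl ⟨7, by decide⟩ (by decide +kernel)
      (fun s => ⟨fun h => (this s (by simp at h; omega)).1 h, fun ⟨j, h, e⟩ => e ▸ h2 j h⟩) t ht

end Cfsg.Agent.S2209
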