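import Cfsg.Statements.S2214
import Cfsg.Agent.H5.Syl1

set_option autoImplicit false
open Cfsg

namespace Cfsg.Agent.S2214

/-- Let k be an algebraically closed field of prime characteristic p, G the adjoint Chevalley group of type G₂, B₂, D₄, F₄, E₆, E₇ or E₈ over k (the matrix group generated by the root elements x_s(t), t ∈ k, acting on the Lie algebra), q = p^a with a ≥ 1, and K a subgroup of G containing every root element x_s(t) with t^q = t and consisting of matrices all of whose entries c satisfy c^q = c. Then the centralizer of K in G is trivial, and the normalizer of K in G is exactly the set of elements of G all of whose entries c satisfy c^q = c. -/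
theorem result {k : Type*} [Field k] [IsAlgClosed k] (p : ℕ) [Fact p.Prime] [CharP k p] (D : Cfsg.Lie.ChevalleyDatum) (hD : D ∈ [Cfsg.Lie.chevG2, Cfsg.Lie.chevB2, Cfsg.Lie.chevD4, Cfsg.Lie.chevF4, Cfsg.Lie.chevE6, Cfsg.Lie.chevE7, Cfsg.Lie.chevE8]) (a : ℕ) (ha : 1 ≤ a) (K : Subgroup (GL D.Idx k)) (hKG : K ≤ D.group k)
    (hLK : Subgroup.closure {g : GL D.Idx k | ∃ (s : ℕ) (t : k), t ^ (p ^ a) = t ∧ (g : Matrix D.Idx D.Idx k) = D.x k s t} ≤ K)
    (hKfix : ∀ g ∈ K, ∀ i j : D.Idx, ((g : Matrix D.Idx D.Idx k) i j) ^ (p ^ a) = (g : Matrix D.Idx D.Idx k) i j) :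
    D.group k ⊓ Subgroup.centralizer (K : Set (GL D.Idx k)) = ⊥ ∧
    ∀ g : GL D.Idx k, g ∈ D.group k → (g ∈ Subgroup.normalizer (K : Set (GL D.Idx k)) ↔ ∀ i j : D.Idx, ((g : Matrix D.Idx D.Idx k) i j) ^ (p ^ a) = (g : Matrix D.Idx D.Idx k) i j) := by
  obtain ⟨G⟩ := H5.Chev.good_of_mem hD
  have := H5.Chev.conn_of_mem hD
  let θ : k ≃+* k := iterateFrobeniusEquiv k p a
  have hθ : ∀ t, θ t = t ^ p ^ a := fun t => iterateFrobeniusEquiv_def k p a t
  let T := H5.Chev.fieldTw (H5.Chev.grpMap_x (D := D) θ.toRingHom)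
  have hfix : ∀ g : D.group k, g ∈ T.Fix ↔ ∀ i j : D.Idx,
      (((g : GL D.Idx k) : Matrix D.Idx D.Idx k) i j) ^ (p ^ a) = ((g : GL D.Idx k) : Matrix D.Idx D.Idx k) i j := by
    intro g
    rw [T.mem_Fix, Subtype.ext_iff, Units.ext_iff, ← Matrix.ext_iff]
    simp only [← hθ]
    rfl
  have h1 : T.G0 ≤ K.subgroupOf (D.group k) := by
    rw [H5.Chev.Tw.G0_field rfl, Subgroup.closure_le]
    rintro _ ⟨r, t, ht, rfl⟩
    exact hLK (Subgroup.subset_closure ⟨r, t, hθ t ▸ ht, H5.Chev.coe_grpSys_x r t⟩)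
  have h2 : K.subgroupOf (D.group k) ≤ T.Fix := fun g hg => (hfix g).2 (hKfix _ hg)
  have h3 : ∀ g : D.group k, (∀ x ∈ K, x * g = g * x) → g = 1 := fun g hg => by
    apply H5.Chev.grpSys_π_injective
    rw [map_one]
    refine (H5.Chev.grpSys D k).π_eq_one_of_comm (H5.Chev.grpSys_top (D := D) (F := k) ▸ Subgroup.mem_top g)
      fun r => Subtype.ext (hg _ (Subgroup.mem_subgroupOf.1 (h1 (?_ : (H5.Chev.grpSys D k).x r 1 ∈ _)))).symm
    rw [H5.Chev.Tw.G0_field rfl]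
    exact Subgroup.subset_closure ⟨r, 1, map_one _, rfl⟩
  refine ⟨eq_bot_iff.2 fun g hg => congrArg Subtype.val (h3 ⟨g, hg.1⟩ hg.2), fun g hg => ?_⟩
  refine Iff.trans ⟨fun h => ?_, fun h => ?_⟩ (hfix ⟨g, hg⟩)
  · rw [T.mem_Fix]
    refine (inv_mul_eq_one.1 (h3 _ fun x hx => ?_)).symm
    obtain ⟨x, rfl⟩ : ∃ y : D.group k, y = x := ⟨⟨x, hKG hx⟩, rfl⟩
    obtain ⟨g, e⟩ : ∃ y : D.group k, y = g := ⟨⟨g, hg⟩, rfl⟩
    subst e
    have e1 : T.σ x = x := h2 hx
    have e2 : T.σ (g * x * g⁻¹) = g * x * g⁻¹ :=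
      h2 (Subgroup.mem_subgroupOf.2 (H5.conj_mem_of_normalizer h hx))
    rw [map_mul, map_mul, map_inv, e1] at e2
    have e3 : x * (g⁻¹ * T.σ g) = (g⁻¹ * T.σ g) * x := by
      rw [mul_assoc, ← inv_mul_cancel_right (T.σ g * x) (T.σ g), e2]
      group
    exact congrArg Subtype.val e3
  · have hne : T.Ne := fun i => H5.Chev.Tw.VO1_ne rfl
    refine H5.mem_normalizer_of_conj (fun x hx => ?_) fun x hx => ?_
    · exact hne.conj_mem H5.Chev.grpSys_top H5.Chev.grpSys_hmul h1 h2 h (k := ⟨x, hKG hx⟩) hx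
    · simpa [Subgroup.mem_subgroupOf] using hne.conj_mem H5.Chev.grpSys_top H5.Chev.grpSys_hmul h1 h2
        (inv_mem h) (k := ⟨x, hKG hx⟩) hx

end Cfsg.Agent.S2214
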