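import Cfsg.Statements.S2231
import Cfsg.Agent.H4.Cls2

set_option autoImplicit false
open Cfsg

namespace Cfsg.Agent.S2231


/-- Let p be an odd prime and K a finite field of characteristic p. Then Qd(p) (the natural semidirect product of an elementary abelian group of order p² by SL₂(p)) is not involved in the projective special linear group PSL₂(K). -/
theorem result {p : ℕ} [Fact p.Prime] (hp : p ≠ 2) {K : Type*} [Field K] [Fintype K] [CharP K p] : ¬ Cfsg.Involves ↥(Cfsg.qd p) (Matrix.ProjectiveSpecialLinearGroup (Fin 2) K) := by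
  classical
  rintro ⟨H, R, hn, ⟨e⟩⟩
  have h1 : (0 : Fin 3) ≠ 1 := by decide
  have h2 : (1 : Fin 3) ≠ 2 := by decide
  have h3 : (0 : Fin 3) ≠ 2 := by decide
  let f : H →* Cfsg.qd p := e.toMonoidHom.comp (QuotientGroup.mk' _)
  have hf : Function.Surjective f := e.surjective.comp (QuotientGroup.mk'_surjective _)
  haveI : Finite (Cfsg.qd p) := Finite.of_surjective f hf
  let U : Subgroup (Cfsg.qd p) :=
    { carrier := {g | ∀ i j, j ≤ i → (g.1 : Matrix (Fin 3) (Fin 3) (ZMod p)) i j = (1 : Matrix _ _ _) i j}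
      one_mem' := fun _ _ _ => rfl
      mul_mem' := fun {a b} ha hb i j hij => by
        have a0 := ha 1 0 (by decide); have a1 := ha 2 0 (by decide); have a2 := ha 2 1 (by decide)
        have a3 := ha 0 0 le_rfl; have a4 := ha 1 1 le_rfl; have a5 := ha 2 2 le_rfl
        have b0 := hb 1 0 (by decide); have b1 := hb 2 0 (by decide); have b2 := hb 2 1 (by decide)
        have b3 := hb 0 0 le_rfl; have b4 := hb 1 1 le_rfl; have b5 := hb 2 2 le_rfl
        simp at a0 a1 a2 a3 a4 a5 b0 b1 b2 b3 b4 b5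
        fin_cases i <;> fin_cases j <;> simp_all [Matrix.mul_apply, Fin.sum_univ_three]
      inv_mem' := fun {a} ha i j hij => by
        have a0 := ha 1 0 (by decide); have a1 := ha 2 0 (by decide); have a2 := ha 2 1 (by decide)
        have a3 := ha 0 0 le_rfl; have a4 := ha 1 1 le_rfl; have a5 := ha 2 2 le_rfl
        simp at a0 a1 a2 a3 a4 a5
        fin_cases i <;> fin_cases j <;> simp_all [Matrix.adjugate_fin_three] }
  have hU : IsPGroup p U := by
    rintro ⟨a, ha⟩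
    refine ⟨2, Subtype.ext (Subtype.ext (Subtype.ext ?_))⟩
    have a0 := ha 1 0 (by decide); have a1 := ha 2 0 (by decide); have a2 := ha 2 1 (by decide)
    have a3 := ha 0 0 le_rfl; have a4 := ha 1 1 le_rfl; have a5 := ha 2 2 le_rfl
    simp at a0 a1 a2 a3 a4 a5
    set A : Matrix (Fin 3) (Fin 3) (ZMod p) := a.1.1 with hA
    have hN : (A - 1) ^ 3 = 0 := by
      ext i j
      fin_cases i <;> fin_cases j <;>
        simp [pow_succ, Matrix.mul_apply, Fin.sum_univ_three, a0, a1, a2, a3, a4, a5]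
    have h4 : 3 ≤ p ^ 2 := by have := (Fact.out : p.Prime).two_le; nlinarith
    have h5 : (A - 1) ^ p ^ 2 = 0 := pow_eq_zero_of_le h4 hN
    rw [sub_pow_char_pow_of_commute _ _ (Commute.one_right A), one_pow, sub_eq_zero] at h5
    simpa using h5
  let t1 : Cfsg.qd p := ⟨⟨!![1, 1, 0; 0, 1, 0; 0, 0, 1], by simp [Matrix.det_fin_three]⟩,
    Subgroup.subset_closure ⟨rfl, rfl, rfl⟩⟩
  let t2 : Cfsg.qd p := ⟨⟨!![1, 0, 0; 0, 1, 1; 0, 0, 1], by simp [Matrix.det_fin_three]⟩,
    Subgroup.subset_closure ⟨rfl, rfl, rfl⟩⟩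
  have ht1 : t1 ∈ U := fun i j hij => by fin_cases i <;> fin_cases j <;> simp_all [t1]
  have ht2 : t2 ∈ U := fun i j hij => by fin_cases i <;> fin_cases j <;> simp_all [t2]
  have hne : ¬ ∀ a ∈ U, ∀ b ∈ U, a * b = b * a := fun h => by
    have := congrArg (fun g : Cfsg.qd p => (g.1 : Matrix (Fin 3) (Fin 3) (ZMod p)) 0 2) (h t1 ht1 t2 ht2)
    change (!![1, 1, 0; 0, 1, 0; 0, 0, 1] * !![1, 0, 0; 0, 1, 1; 0, 0, 1] : Matrix (Fin 3) (Fin 3) (ZMod p)) 0 2 =
      (!![1, 0, 0; 0, 1, 1; 0, 0, 1] * !![1, 1, 0; 0, 1, 0; 0, 0, 1] : Matrix (Fin 3) (Fin 3) (ZMod p)) 0 2 at this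
    simp at this
  obtain ⟨P⟩ : Nonempty (Sylow p H) := inferInstance
  refine H4.sylow_not_comm (P.mapSurjective hf) hU hne ?_
  rintro _ ⟨a, ha, rfl⟩ _ ⟨b, hb, rfl⟩
  obtain ⟨x, hx⟩ := H4.exists_le_Usub (P.isPGroup'.map (H4.jL.comp H.subtype))
  have := H4.pgl_comm_of_isU (hx ⟨a, ha, rfl⟩) (hx ⟨b, hb, rfl⟩)
  rw [← map_mul, ← map_mul] at this
  rw [← map_mul, ← map_mul, (H4.jL_injective.comp H.subtype_injective) this]

end Cfsg.Agent.S2231
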