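import Cfsg.Statements.S2232
import Cfsg.Agent.H5.TC1

set_option autoImplicit false
open Cfsg

namespace Cfsg.Agent.S2232

open Matrix H5.Iso3

theorem unip {R : Type*} [Field R] {p : ℕ} [hp : Fact p.Prime] [CharP R p] (h2 : p ≠ 2) {A : Matrix (Fin 3) (Fin 3) R}
    (h : (A - 1) ^ 3 = 0) : A ^ p = 1 := by
  have := pow_eq_zero_of_le (show 3 ≤ p by have := hp.out.two_le; omega) h
  rwa [sub_pow_char_of_commute _ (Commute.one_right A), one_pow, sub_eq_zero] at this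

theorem lift {G X : Type*} [Group G] [Finite G] [Group X] {p : ℕ} [Fact p.Prime] {f : G →* X} (hf : Function.Surjective f)
    {s t : X} (hs : s ^ p = 1) (ht : t ^ p = 1) (c : Commute s t) {Q : Subgroup G} (hQ : IsPGroup p Q)
    (h : ∀ g ∈ Q, f g ∈ Subgroup.zpowers s) : ∃ P : Subgroup G, IsPGroup p P ∧ Q ≤ P ∧ ∃ g ∈ P, f g = t := by
  let A := (MonoidHom.noncommCoprod (zpowersHom X s) (zpowersHom X t) fun i j => c.zpow_zpow _ _).range
  have a : IsPGroup p A := by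
    rintro ⟨_, ⟨i, j⟩, rfl⟩
    refine ⟨1, Subtype.ext ?_⟩
    show (s ^ i.toAdd * t ^ j.toAdd) ^ p ^ 1 = 1
    rw [pow_one, (c.zpow_zpow _ _).mul_pow, ← zpow_natCast, ← zpow_natCast, zpow_comm s, zpow_comm t]
    simp [hs, ht]
  have l : Q ≤ A.comap f := fun g hg => by
    obtain ⟨i, hi⟩ := h g hg
    exact ⟨(.ofAdd i, 1), show s ^ i * t ^ (0 : ℤ) = _ by simpa using hi⟩
  obtain ⟨P, hP⟩ := (hQ.comap_of_injective (A.comap f).subtype (Subgroup.subtype_injective _)).exists_le_sylow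
  have e := f.subgroupComap_surjective_of_surjective A hf
  haveI := Finite.of_surjective _ e
  obtain ⟨g, hg, k⟩ : (⟨t, (1, .ofAdd 1), show s ^ (0 : ℤ) * t ^ (1 : ℤ) = t by simp⟩ : A) ∈ (P.mapSurjective e).1 :=
    ((P.mapSurjective e).is_maximal' (a.to_subgroup ⊤) le_top).le trivial
  exact ⟨P.1.map (Subgroup.subtype _), P.isPGroup'.map _, fun x hx => ⟨⟨x, l hx⟩, hP hx, rfl⟩, g, ⟨g, hg, rfl⟩, congrArg Subtype.val k⟩

/-- Let p be an odd prime, q a power of p and K a finite field with q² elements. Then Qd(p) (the natural semidirect product of an elementary abelian group of order p² by SL₂(p)) is not involved in the projective special unitary group PSU₃(q) realised over K. -/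
theorem result {p : ℕ} [Fact p.Prime] (hp : p ≠ 2) {K : Type*} [Field K] [Fintype K] [CharP K p] (n : ℕ) (hn : 1 ≤ n) (hK : Fintype.card K = (p ^ n) ^ 2) : ¬ Cfsg.Involves ↥(Cfsg.qd p) (Cfsg.PSU 3 K (p ^ n)) := by
  classical
  rintro ⟨H, R, _, ⟨e⟩⟩
  set φ := H4.Au.frobE hK
  let G := H.comap (QuotientGroup.mk' (Subgroup.center (SU 3 K (p ^ n))))
  let f : G →* qd p := (e.toMonoidHom.comp (QuotientGroup.mk' _)).comp ((QuotientGroup.mk' _).subgroupComap H)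
  have hf : Function.Surjective f := (e.surjective.comp (QuotientGroup.mk'_surjective _)).comp
    (MonoidHom.subgroupComap_surjective_of_surjective _ _ (QuotientGroup.mk'_surjective _))
  let m : G →* Matrix (Fin 3) (Fin 3) K := (SpecialLinearGroup.coeMonoidHom.comp (Subgroup.subtype _)).comp G.subtype
  have mi : Function.Injective m := fun _ _ h => Subtype.ext (Subtype.ext (Subtype.ext h))
  have d : ∀ g, (m g).det = 1 := fun g => g.1.1.2
  have hA : ∀ g u v, (m g *ᵥ u) ⬝ᵥ φ ∘ (m g *ᵥ v) = u ⬝ᵥ φ ∘ v := fun g => g.1.2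
  have hφ : ∀ a, φ (φ a) = a := H4.frobq_frobq hK
  have n1 : ∀ g, g ≠ 1 → m g ≠ 1 := fun g h => by rwa [Ne, map_eq_one_iff _ mi]
  have fx : ∀ P : Subgroup G, IsPGroup p P → ∀ x ∈ P, x ≠ 1 → ∃ u, u ≠ 0 ∧ u ⬝ᵥ φ ∘ u = 0 ∧ ∀ g ∈ P, m g *ᵥ u = u := fun P hP x hx h => by
    haveI : Nontrivial P := ⟨⟨⟨x, hx⟩, 1, fun e => h (congrArg Subtype.val e)⟩⟩
    obtain ⟨⟨c, hc⟩, c1⟩ := @exists_ne _ hP.center_nontrivial 1
    have c1 : m c ≠ 1 := n1 _ fun e => c1 (Subtype.ext (Subtype.ext e))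
    have pw : ∀ g : P, ∃ k, m g ^ p ^ k = 1 := fun g => (hP g).imp fun k hk => by
      rw [← map_pow, ← Subgroup.coe_pow, hk]; simp
    obtain ⟨u, u0, iso, fu⟩ := exists_iso (hA c) c1 (by
      obtain ⟨k, hk⟩ := pw c
      exact ⟨p ^ k, by rw [sub_pow_char_pow_of_commute _ _ (Commute.one_right _), hk, one_pow, sub_self]⟩)
    refine ⟨u, u0, iso, fun g hg => ?_⟩
    obtain ⟨k, hk⟩ := pw ⟨g, hg⟩
    have cg : m c * m g = m g * m c := by
      rw [← map_mul, ← map_mul]; exact congrArg (fun x : P => m x) (Subgroup.mem_center_iff.1 hc ⟨g, hg⟩).symm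
    have g0 : m g *ᵥ u ≠ 0 := fun e => u0 (by
      rw [← one_mulVec u, ← map_one m, ← inv_mul_cancel g, map_mul, ← mulVec_mulVec, e, mulVec_zero])
    obtain ⟨l, hl⟩ := uniq (d c) (hA c) hφ c1 u0 iso fu g0 ((hA ..).trans iso) (by rw [mulVec_mulVec, cg, ← mulVec_mulVec, fu])
    have : ∀ j : ℕ, m g ^ j *ᵥ u = l ^ j • u := fun j => by
      induction j with
      | zero => simp
      | succ j ih => rw [pow_succ', ← mulVec_mulVec, ih, mulVec_smul, hl, smul_smul, pow_succ]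
    have := this (p ^ k)
    rw [hk, one_mulVec] at this
    have : l ^ p ^ k = 1 := smul_left_injective K u0 (this.symm.trans (one_smul _ _).symm)
    rw [hl, show l = 1 by simpa using (ExpChar.pow_prime_pow_mul_eq_one_iff p k 1 l).1 (by rwa [mul_one]), one_smul]
  have st : ∀ s t : qd p, s ≠ 1 → s ^ p = 1 → t ^ p = 1 → Commute s t → ∀ u, u ≠ 0 → u ⬝ᵥ φ ∘ u = 0 →
      (∃ x, f x = s ∧ IsPGroup p (Subgroup.zpowers x) ∧ m x *ᵥ u = u) → ∃ x, f x = t ∧ IsPGroup p (Subgroup.zpowers x) ∧ m x *ᵥ u = u := by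
    rintro _ t s1 hs ht c u u0 iso ⟨x, rfl, hx, fu⟩
    obtain ⟨P, hP, l, y, hy, rfl⟩ := lift hf hs ht c hx (by rintro _ ⟨i, rfl⟩; exact ⟨i, (map_zpow ..).symm⟩)
    have x1 : x ≠ 1 := fun e => s1 (by rw [e, map_one])
    obtain ⟨w, w0, iw, fw⟩ := fx P hP x (l (Subgroup.mem_zpowers x)) x1
    obtain ⟨k, rfl⟩ := uniq (d x) (hA x) hφ (n1 x x1) w0 iw (fw _ (l (Subgroup.mem_zpowers x))) u0 iso fu
    exact ⟨y, rfl, hP.to_le (Subgroup.zpowers_le_of_mem hy), by rw [mulVec_smul, fw y hy]⟩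
  let T (a b c d : ZMod p) (h : a * b = 0) : qd p := ⟨⟨!![1, a, c; b, 1, d; 0, 0, 1], by simp [det_fin_three, h]⟩,
    Subgroup.subset_closure ⟨rfl, rfl, rfl⟩⟩
  have ex : ∀ {x y : qd p}, x.1.1 = y.1.1 → x = y := fun h => Subtype.ext (Subtype.ext h)
  have pw : ∀ a b c d h, (T a b c d h) ^ p = 1 := fun a b c d h => ex (unip hp (A := !![1, a, c; b, 1, d; 0, 0, 1]) (by
    ext i j; fin_cases i <;> fin_cases j <;> simp [pow_succ, mul_apply, Fin.sum_univ_three] <;> grind))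
  have cm : ∀ a b c d h a' b' c' d' h', (!![1, a, c; b, 1, d; 0, 0, 1] * !![1, a', c'; b', 1, d'; 0, 0, 1] : Matrix (Fin 3) (Fin 3) (ZMod p)) =
      !![1, a', c'; b', 1, d'; 0, 0, 1] * !![1, a, c; b, 1, d; 0, 0, 1] → Commute (T a b c d h) (T a' b' c' d' h') :=
    fun _ _ _ _ _ _ _ _ _ _ h => ex h
  have a1 : T 1 0 0 0 (mul_zero _) ≠ 1 := fun h => one_ne_zero (congrArg (fun x : qd p => x.1.1 0 1) h)
  obtain ⟨P, hP, -, x, hx, fa⟩ := lift hf (pw 1 0 0 0 (mul_zero _)) (pw 1 0 0 0 (mul_zero _)) rfl IsPGroup.of_bot (by simp)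
  obtain ⟨u, u0, iso, fu⟩ := fx P hP x hx fun e => a1 (by rw [← fa, e, map_one])
  obtain ⟨y, fb, -, fy⟩ := st (T 0 0 0 1 (mul_zero _)) (T 0 (-2) 0 0 (zero_mul _)) (fun h => one_ne_zero (congrArg (fun x : qd p => x.1.1 1 2) h))
    (pw _ _ _ _ (by simp)) (pw _ _ _ _ (by simp)) (cm _ _ _ _ (by simp) _ _ _ _ (by simp) (by simp)) u u0 iso (st (T 0 0 1 0 (mul_zero _)) _
      (fun h => one_ne_zero (congrArg (fun x : qd p => x.1.1 0 2) h)) (pw _ _ _ _ (by simp)) (pw _ _ _ _ (by simp)) (cm _ _ _ _ (by simp) _ _ _ _ (by simp) (by simp)) u u0 iso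
        (st _ _ a1 (pw _ _ _ _ (by simp)) (pw _ _ _ _ (by simp)) (cm _ _ _ _ (by simp) _ _ _ _ (by simp) (by simp)) u u0 iso
          ⟨x, fa, hP.to_le (Subgroup.zpowers_le_of_mem hx), fu x hx⟩))
  have h := unip hp (cube (d (x * y)) (hA _) u0 iso (by rw [map_mul, ← mulVec_mulVec, fy, fu x hx]))
  rw [← map_pow, map_eq_one_iff _ mi] at h
  have h : (T 1 0 0 0 (mul_zero _) * T 0 (-2) 0 0 (zero_mul _)) ^ p = 1 := by rw [← fa, ← fb, ← map_mul, ← map_pow, h, map_one]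
  have h4 : (T 1 0 0 0 (mul_zero _) * T 0 (-2) 0 0 (zero_mul _)) ^ 2 ^ 2 = 1 := ex (by
    show ((!![1, 1, 0; 0, 1, 0; 0, 0, 1] : Matrix _ _ (ZMod p)) * !![1, 0, 0; -2, 1, 0; 0, 0, 1]) ^ 4 = 1
    ext i j; fin_cases i <;> fin_cases j <;> simp [pow_succ, mul_apply, Fin.sum_univ_three] <;> ring)
  have := orderOf_eq_one_iff.1 (Nat.eq_one_of_dvd_coprimes (((Nat.coprime_primes Fact.out Nat.prime_two).2 hp).pow_right 2)
    (orderOf_dvd_of_pow_eq_one h) (orderOf_dvd_of_pow_eq_one h4))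
  have : (!![1, 1, 0; 0, 1, 0; 0, 0, 1] * !![1, 0, 0; -2, 1, 0; 0, 0, 1] : Matrix (Fin 3) (Fin 3) (ZMod p)) 0 1 = (1 : Matrix _ _ _) 0 1 :=
    congrArg (fun x : qd p => x.1.1 0 1) this
  simp at this

end Cfsg.Agent.S2232
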