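import Cfsg.Statements.S2239
import Cfsg.Agent.H5.SZ11

set_option autoImplicit false
open Cfsg

namespace Cfsg.Agent.S2239

open H5.Sz
open scoped Pointwise

/-- Subfield subgroups of the Suzuki group: let q = 2^(2m+1) and s = 2^(2k+1) with m, k ≥ 1 and 2k+1 dividing 2m+1 (so q is a power of s), both groups realised as stabilisers in SL₄ of the Suzuki–Tits ovoid. Then Sz(q) has a subgroup isomorphic to Sz(s), and any two subgroups of Sz(q) isomorphic to Sz(s) are conjugate. -/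
theorem result {F : Type*} [Field F] [Fintype F] {m : ℕ} (hm : 1 ≤ m) (hF : Fintype.card F = 2 ^ (2 * m + 1)) {K : Type*} [Field K] [Fintype K] {k : ℕ} (hk : 1 ≤ k) (hK : Fintype.card K = 2 ^ (2 * k + 1)) (hdiv : 2 * k + 1 ∣ 2 * m + 1) :
    (∃ S : Subgroup ↥(Cfsg.Sz F m), Nonempty (↥S ≃* ↥(Cfsg.Sz K k))) ∧
    ∀ S₁ S₂ : Subgroup ↥(Cfsg.Sz F m), Nonempty (↥S₁ ≃* ↥(Cfsg.Sz K k)) → Nonempty (↥S₂ ≃* ↥(Cfsg.Sz K k)) →
      ∃ g : ↥(Cfsg.Sz F m), S₂ = S₁.map (MulAut.conj g).toMonoidHom := by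
  let S := ovS hm hF
  let S' := ovS hk hK
  constructor
  · obtain ⟨L, hL⟩ := S.exists_subfield (by omega) hdiv
    exact ⟨S.R L, S.R_equiv S' hdiv hL⟩
  · rintro S₁ S₂ ⟨e₁⟩ ⟨e₂⟩
    obtain ⟨g₁, L₁, h₁, rfl⟩ := S.conj_of_equiv S' e₁
    obtain ⟨g₂, L₂, h₂, rfl⟩ := S.conj_of_equiv S' e₂
    obtain rfl := subfield_eq_of_card (h₁.trans h₂.symm)
    refine ⟨g₂ * g₁⁻¹, ?_⟩
    show _ = MulAut.conj (g₂ * g₁⁻¹) • MulAut.conj g₁ • S.R L₁
    rw [smul_smul, ← map_mul, inv_mul_cancel_right]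

end Cfsg.Agent.S2239
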