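import Cfsg.Statements.S2250
import Cfsg.Agent.H4.ElI

set_option autoImplicit false
open Cfsg

namespace Cfsg.Agent.S2250


/-- The normal 2-rank of the symplectic group over a finite field of odd order: for n ≥ 1 and S a Sylow 2-subgroup of Sp_{2n}(F), the largest rank of an elementary abelian subgroup of S that is normal in S equals n. -/
theorem result {F : Type*} [Field F] [Fintype F] (hF : Odd (Fintype.card F)) (n : ℕ) (hn : 1 ≤ n) (S : Sylow 2 ↥(Matrix.symplecticGroup (Fin n) F)) :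
    ((∃ E : Subgroup ↥(S : Subgroup ↥(Matrix.symplecticGroup (Fin n) F)), E.Normal ∧ Cfsg.IsElementaryAbelian 2 E ∧ 2 ^ (n) ≤ Nat.card ↥E) ∧
      ∀ E : Subgroup ↥(S : Subgroup ↥(Matrix.symplecticGroup (Fin n) F)), E.Normal → Cfsg.IsElementaryAbelian 2 E → Nat.card ↥E ≤ 2 ^ (n)) := by
  have h2 : (2 : F) ≠ 0 := fun h => by
    have := FiniteField.even_card_of_char_two (F := F)
      (ringChar.eq_iff.2 (CharTwo.of_one_ne_zero_of_two_eq_zero one_ne_zero h))
    exact (Nat.not_even_iff_odd.2 hF) (Nat.even_iff.2 this)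
  refine ⟨H4.Nr.exists_nr hF h2 n S, fun E _ hE => ?_⟩
  let φ := (H4.spEquiv n F).toMonoidHom.comp S.1.subtype
  have hφ : Function.Injective φ := (H4.spEquiv n F).injective.comp S.1.subtype_injective
  rw [← Subgroup.card_map_of_injective hφ]
  refine H4.Nr.ea_le h2 n _ _ (H4.spForm_ND n F) (by simp [two_mul]) _ ?_
  rintro _ ⟨a, ha, rfl⟩
  rw [← map_pow, hE.2 a ha, map_one]

end Cfsg.Agent.S2250
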