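import Cfsg.Statements.S2251
import Cfsg.Agent.H5.SZ11

set_option autoImplicit false
open Cfsg

namespace Cfsg.Agent.S2251

open H5.Sz
open scoped Pointwise

/-- The subgroups of the Suzuki group: with q = 2^(2m+1), m ≥ 1, r = 2^m and the group realised as the stabiliser in SL₄ of the Suzuki–Tits ovoid, every proper subgroup is contained in the normalizer of a Sylow 2-subgroup, or in the normalizer of a cyclic subgroup of order q − 1, q + 2r + 1 or q − 2r + 1, or in a subgroup isomorphic to a smaller Suzuki group Sz(s) with s = 2^(2k+1) ≥ 8 and 2k+1 a proper divisor of 2m+1. -/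
theorem result {F : Type*} [Field F] [Fintype F] {m : ℕ} (hm : 1 ≤ m) (hF : Fintype.card F = 2 ^ (2 * m + 1)) (M : Subgroup ↥(Cfsg.Sz F m)) (hM : M ≠ ⊤) :
    (∃ P : Sylow 2 ↥(Cfsg.Sz F m), M ≤ Subgroup.normalizer ((P : Subgroup ↥(Cfsg.Sz F m)) : Set ↥(Cfsg.Sz F m))) ∨
    (∃ U : Subgroup ↥(Cfsg.Sz F m), IsCyclic ↥U ∧ Nat.card ↥U ∈ ({2 ^ (2 * m + 1) - 1, 2 ^ (2 * m + 1) + 2 ^ (m + 1) + 1, 2 ^ (2 * m + 1) - 2 ^ (m + 1) + 1} : Set ℕ) ∧
      M ≤ Subgroup.normalizer (U : Set ↥(Cfsg.Sz F m))) ∨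
    (∃ (K : Type) (_ : Field K) (_ : Fintype K) (k : ℕ), 1 ≤ k ∧ k < m ∧ Fintype.card K = 2 ^ (2 * k + 1) ∧ 2 * k + 1 ∣ 2 * m + 1 ∧
      ∃ S : Subgroup ↥(Cfsg.Sz F m), Nonempty (↥S ≃* ↥(Cfsg.Sz K k)) ∧ M ≤ S) := by
  let S := ovS hm hF
  by_cases h : Group.IsSolvable M
  · obtain ⟨U, hU, h1⟩ := S.le_normalizer_of_solvable h
    rcases S.part_iff.1 hU with ⟨Q, rfl⟩ | ⟨h2, h3⟩
    · exact Or.inl ⟨Q, h1⟩
    · rw [hF] at h3
      exact Or.inr (Or.inl ⟨U, h2, h3, h1⟩)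
  · obtain ⟨g, L, k, h1, h2, h3, rfl⟩ := S.classify h
    letI := Fintype.ofFinite (GaloisField 2 (2 * k + 1))
    obtain ⟨e⟩ := S.R_equiv (ovS h1 (SzS.galois_card k)) h2 h3
    refine Or.inr (Or.inr ⟨GaloisField 2 (2 * k + 1), inferInstance, inferInstance, k, h1, ?_,
      SzS.galois_card k, h2, _, ⟨(Subgroup.equivSMul (MulAut.conj g) _).symm.trans e⟩, le_rfl⟩)
    have h4 := Nat.le_of_dvd (by omega) h2
    by_contra h5
    obtain rfl : k = m := by omega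
    apply hM
    rw [S.eq_top_of_card (K := L) h3, S.R_top]
    ext x
    simp [Subgroup.mem_pointwise_smul_iff_inv_smul_mem]

end Cfsg.Agent.S2251
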