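import Cfsg.Statements.S2268
import Cfsg.Agent.H2.Ms1

set_option autoImplicit false
open Cfsg

namespace Cfsg.Agent.S2268

open Subgroup hiding upperCentralSeries
open H2 Cfsg.FusionSystem

open Subgroup H2 H7 H1B

/-- Let G be a finite group with an abelian Sylow p-subgroup P and let Q ≤ P. Then N_G(Q) = (N_G(Q) ∩ N_G(P))·C_G(Q), so that N_G(Q)/C_G(Q) is a homomorphic image of the subgroup (N_G(Q) ∩ N_G(P))/C_G(P) of N_G(P)/C_G(P); in particular the order of N_G(Q)/C_G(Q) divides the order of N_G(P)/C_G(P). -/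
theorem result {G : Type*} [Group G] [Finite G] {p : ℕ} [Fact p.Prime]
    (P : Sylow p G) (hP : IsMulCommutative (P : Subgroup G)) (Q : Subgroup G) (hQ : Q ≤ (P : Subgroup G)) :
    Subgroup.normalizer (Q : Set G) =
      (Subgroup.normalizer (Q : Set G) ⊓ Subgroup.normalizer ((P : Subgroup G) : Set G)) ⊔ Subgroup.centralizer (Q : Set G) ∧
    ((Subgroup.centralizer (Q : Set G)).subgroupOf (Subgroup.normalizer (Q : Set G))).index ∣ ((Subgroup.centralizer ((P : Subgroup G) : Set G)).subgroupOf (Subgroup.normalizer ((P : Subgroup G) : Set G))).index := by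
  have l : (P : Subgroup G) ≤ cen Q := (isComm_iff.1 hP).trans (cen_anti hQ)
  have f : nrm Q ⊓ nrm (P : Subgroup G) ⊔ cen Q = nrm Q :=
    syl_frattini (sylow_isSylowIn P l) (cen_le_nrm Q) (nrm_cen le_rfl)
  refine ⟨f.symm, ?_⟩
  have a : nrm Q ⊓ nrm (P : Subgroup G) ≤ nrm (cen Q) := inf_le_left.trans (nrm_cen le_rfl)
  have b := relIndex_sup_nrm a
  rw [f] at b
  have c : (cen Q).relIndex (nrm Q ⊓ nrm (P : Subgroup G)) ∣
      (cen (P : Subgroup G)).relIndex (nrm Q ⊓ nrm (P : Subgroup G)) :=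
    relIndex_dvd_of_le_left _ (cen_anti hQ)
  have d : (cen (P : Subgroup G)).relIndex (nrm Q ⊓ nrm (P : Subgroup G)) ∣
      (cen (P : Subgroup G)).relIndex (nrm (P : Subgroup G)) :=
    relIndex_dvd_right (nrm_cen le_rfl) inf_le_right
  exact (dvd_of_eq b).trans (c.trans d)

end Cfsg.Agent.S2268
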