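import Cfsg.Statements.S2269
import Cfsg.Agent.H7.GK
import Cfsg.Agent.S5164

set_option autoImplicit false
open Cfsg

namespace Cfsg.Agent.S2269
open H7
open scoped commutatorElement

section
open Subgroup

theorem conj_alt {α : Type*} [Fintype α] [DecidableEq α] {x y : alternatingGroup α}
    (h : IsConj (x : Equiv.Perm α) y) (h' : ¬ Subgroup.centralizer {(x : Equiv.Perm α)} ≤ alternatingGroup α) :
    ∃ g : alternatingGroup α, g⁻¹ * x * g = y := by
  obtain ⟨g, hg⟩ := isConj_iff.1 h
  obtain ⟨z, hz, hz'⟩ := SetLike.not_le_iff_exists.1 h'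
  have z1 : Equiv.Perm.sign z = -1 := (Int.units_eq_one_or _).resolve_left hz'
  rcases Int.units_eq_one_or (Equiv.Perm.sign g) with e | e
  · exact ⟨⟨g, e⟩⁻¹, Subtype.ext (by simpa using hg)⟩
  · refine ⟨⟨g * z, by rw [Equiv.Perm.mem_alternatingGroup, map_mul, e, z1]; decide⟩⁻¹, Subtype.ext ?_⟩
    have := hz x rfl
    show (g * z)⁻¹⁻¹ * x * (g * z)⁻¹ = y
    rw [inv_inv, ← hg, mul_assoc g, ← this]; group

theorem d5 : ∀ g : Equiv.Perm (Fin 5), Equiv.Perm.sign g = 1 → g ^ 4 = 1 → g ^ 2 = 1 := by decide +kernel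

end

/-- Let n ≥ 5 and let P be an abelian Sylow p-subgroup of the alternating group A_n. Then N(P)/C(P) (taken in A_n) has even order, or P is cyclic, except when n = 5 and p = 2, where P is a four-group and N(P)/C(P) has order 3. -/
theorem result (n : ℕ) (hn : 5 ≤ n) {p : ℕ} [Fact p.Prime]
    (P : Sylow p (alternatingGroup (Fin n))) (hP : IsMulCommutative (P : Subgroup (alternatingGroup (Fin n)))) :
    (¬ (n = 5 ∧ p = 2) → 2 ∣ ((Subgroup.centralizer ((P : Subgroup (alternatingGroup (Fin n))) : Set (alternatingGroup (Fin n)))).subgroupOf (Subgroup.normalizer ((P : Subgroup (alternatingGroup (Fin n))) : Set (alternatingGroup (Fin n))))).index ∨ IsCyclic (P : Subgroup (alternatingGroup (Fin n)))) ∧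
    ((n = 5 ∧ p = 2) → ((Subgroup.centralizer ((P : Subgroup (alternatingGroup (Fin n))) : Set (alternatingGroup (Fin n)))).subgroupOf (Subgroup.normalizer ((P : Subgroup (alternatingGroup (Fin n))) : Set (alternatingGroup (Fin n))))).index = 3 ∧ IsKleinFour (P : Subgroup (alternatingGroup (Fin n)))) := by
  open Subgroup in
  open Subgroup in
  classical
  have hp : p.Prime := Fact.out
  refine ⟨fun hne => ?_, ?_⟩
  · by_contra hc
    push Not at hc
    obtain ⟨h1, h2⟩ := hc
    have hb : (P : Subgroup (alternatingGroup (Fin n))) ≠ ⊥ := fun e => h2 (by rw [e]; infer_instance)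
    have p2 : p ≠ 2 := by
      rintro rfl
      have := (Cfsg.Agent.S5164.result n 2 (by omega) P hb).1 hP
      omega
    obtain ⟨k, hk⟩ := P.isPGroup'.exists_card_eq
    have k0 : k ≠ 0 := by rintro rfl; exact hb (Subgroup.card_eq_one.1 hk)
    obtain ⟨x, hx⟩ := exists_prime_orderOf_dvd_card' (G := (P : Subgroup (alternatingGroup (Fin n)))) p
      (hk ▸ dvd_pow_self p k0)
    have ox : orderOf ((x : alternatingGroup (Fin n)) : Equiv.Perm (Fin n)) = p := by
      rw [Subgroup.orderOf_coe, Subgroup.orderOf_coe, hx]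
    by_cases hc : Subgroup.centralizer {((x : alternatingGroup (Fin n)) : Equiv.Perm (Fin n))} ≤ alternatingGroup (Fin n)
    · obtain ⟨-, o2, o3⟩ := Equiv.Perm.centralizer_le_alternating_iff.1 hc
      obtain ⟨m, hm⟩ := Equiv.Perm.cycleType_prime_order (ox ▸ hp)
      have := o3 p
      rw [hm, ox, Multiset.count_replicate_self] at this
      obtain rfl : m = 0 := by omega
      rw [hm, ox, Fintype.card_fin] at o2
      simp at o2
      have h3 : p ^ k ∣ (p + 1).factorial := by
        rw [← hk]
        refine ((card_subgroup_dvd_card _).trans (card_subgroup_dvd_card _)).trans ?_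
        rw [Nat.card_perm, Nat.card_eq_fintype_card, Fintype.card_fin]
        exact Nat.factorial_dvd_factorial o2
      have k1 : k = 1 := by
        by_contra k1
        have h4 := (pow_dvd_pow p (show 2 ≤ k by omega)).trans h3
        rw [Nat.factorial_succ, ← Nat.mul_factorial_pred hp.ne_zero, pow_two, mul_left_comm] at h4
        rcases (Nat.Prime.dvd_mul hp).1 (Nat.dvd_of_mul_dvd_mul_left hp.pos h4) with h | h
        · exact hp.one_lt.ne' (Nat.dvd_one.1 ((Nat.dvd_add_right dvd_rfl).1 h))
        · have := hp.dvd_factorial.1 h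
          have := hp.pos
          omega
      rw [k1, pow_one] at hk
      exact h2 (isCyclic_of_prime_card hk)
    obtain ⟨g, hg⟩ := conj_alt (x := (x : alternatingGroup (Fin n))) (y := (x : alternatingGroup (Fin n))⁻¹)
      (Equiv.Perm.isConj_iff_cycleType_eq.2 (Equiv.Perm.cycleType_inv _).symm) hc
    obtain ⟨m, hm, e⟩ := P.conj_eq_normalizer_conj_of_mem x g x.2 (hg ▸ inv_mem x.2)
    rw [hg] at e
    obtain ⟨j, hj⟩ := Nat.not_even_iff_odd.1 fun h => h1 (even_iff_two_dvd.1 h)
    have h5 := Subgroup.pow_index_mem ((centralizer ((P : Subgroup (alternatingGroup (Fin n))) : Set (alternatingGroup (Fin n)))).subgroupOf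
      (normalizer ((P : Subgroup (alternatingGroup (Fin n))) : Set (alternatingGroup (Fin n))))) ⟨m, hm⟩
    rw [hj] at h5
    have h6 : (x : alternatingGroup (Fin n)) * m ^ (2 * j + 1) = m ^ (2 * j + 1) * x := h5 x x.2
    have h7 : Commute (x : alternatingGroup (Fin n)) (m ^ 2) := by
      have e2 : (x : alternatingGroup (Fin n)) = m⁻¹ * (x : alternatingGroup (Fin n))⁻¹ * m := by
        conv_lhs => rw [← inv_inv (x : alternatingGroup (Fin n)), e]
        group
      show _ * _ = _ * _
      conv_rhs => rw [e2, e]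
      rw [pow_two]; group
    have h8 : (x : alternatingGroup (Fin n)) * m = m * x := by
      rw [pow_succ, pow_mul, ← mul_assoc, (h7.pow_right j).eq, mul_assoc, mul_assoc] at h6
      exact mul_left_cancel h6
    have h9 : (x : alternatingGroup (Fin n)) ^ 2 = 1 := by
      rw [mul_assoc, h8, inv_mul_cancel_left] at e
      rw [pow_two]; nth_rewrite 1 [← e]; exact inv_mul_cancel _
    have := orderOf_dvd_of_pow_eq_one h9
    rw [Subgroup.orderOf_coe, hx] at this
    exact p2 ((Nat.prime_dvd_prime_iff_eq hp Nat.prime_two).1 this)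
  · rintro ⟨rfl, rfl⟩
    have cG : Nat.card (alternatingGroup (Fin 5)) = 60 := by
      rw [nat_card_alternatingGroup]; simp [Nat.factorial]
    have cP : Nat.card (P : Subgroup (alternatingGroup (Fin 5))) = 4 := by
      rw [P.card_eq_multiplicity, cG, show 60 = 2 ^ 2 * 15 by norm_num, Nat.factorization_mul (by norm_num) (by norm_num),
        Nat.Prime.factorization_pow Nat.prime_two]
      simp [Nat.factorization_eq_zero_of_not_dvd (show ¬ 2 ∣ 15 by norm_num)]
    have sq : ∀ x : (P : Subgroup (alternatingGroup (Fin 5))), x ^ 2 = 1 := fun x => by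
      have := pow_card_eq_one' (x := x)
      rw [cP] at this
      exact Subtype.ext (Subtype.ext (d5 _ x.1.2 (congrArg (fun z => ((z.1 : alternatingGroup (Fin 5)) : Equiv.Perm (Fin 5))) this)))
    haveI : Nontrivial (P : Subgroup (alternatingGroup (Fin 5))) := Finite.one_lt_card_iff_nontrivial.1 (by omega)
    refine ⟨?_, ⟨cP, (Monoid.exponent_eq_prime_iff Nat.prime_two).2 fun g hg => orderOf_eq_prime (sq g) hg⟩⟩
    set N := normalizer ((P : Subgroup (alternatingGroup (Fin 5))) : Set (alternatingGroup (Fin 5))) with hN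
    set C := centralizer ((P : Subgroup (alternatingGroup (Fin 5))) : Set (alternatingGroup (Fin 5))) with hC
    have d1 : (C.subgroupOf N).index ∣ 24 := by
      rw [hC, ← normalizerMonoidHom_ker, index_ker]
      refine (card_subgroup_dvd_card _).trans ((card_dvd_of_injective (MulAut.toPerm _) fun a b h => ?_).trans ?_)
      · exact MulEquiv.toEquiv_injective h
      · rw [Nat.card_perm, cP]; norm_num [Nat.factorial]
    have d2 : (C.subgroupOf N).index ∣ 15 := by
      have h1 : (P : Subgroup (alternatingGroup (Fin 5))).index = 15 := by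
        have := (P : Subgroup (alternatingGroup (Fin 5))).card_mul_index
        rw [cP, cG] at this; omega
      have h2 : (P : Subgroup (alternatingGroup (Fin 5))) ≤ C := le_centralizer _
      rw [← h1]
      exact (relIndex_dvd_of_le_left N h2).trans (relIndex_dvd_index_of_le le_normalizer)
    have d3 : (C.subgroupOf N).index ∣ 3 := Nat.dvd_gcd d1 d2
    refine ((Nat.dvd_prime Nat.prime_three).1 d3).resolve_left fun h1 => ?_
    have hNC : N ≤ C := subgroupOf_eq_top.1 (index_eq_one.1 h1)
    haveI := Fintype.ofFinite (P : Subgroup (alternatingGroup (Fin 5)))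
    obtain ⟨t, u, t1, u1, tu⟩ : ∃ t u : (P : Subgroup (alternatingGroup (Fin 5))), t ≠ 1 ∧ u ≠ 1 ∧ t ≠ u := by
      obtain ⟨t, ht⟩ := exists_ne (1 : (P : Subgroup (alternatingGroup (Fin 5))))
      obtain ⟨u, hu⟩ : ∃ u, u ∉ ({1, t} : Finset (P : Subgroup (alternatingGroup (Fin 5)))) := by
        by_contra hc
        push Not at hc
        have := Finset.card_le_card (show Finset.univ ⊆ ({1, t} : Finset _) from fun x _ => hc x)
        have h2 := Finset.card_le_two (a := 1) (b := t)
        rw [Finset.card_univ, ← Nat.card_eq_fintype_card, cP] at this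
        omega
      simp only [Finset.mem_insert, Finset.mem_singleton, not_or] at hu
      exact ⟨t, u, ht, hu.1, Ne.symm hu.2⟩
    have two : ∀ t : (P : Subgroup (alternatingGroup (Fin 5))), ∀ n ∈ ((t : alternatingGroup (Fin 5)) : Equiv.Perm (Fin 5)).cycleType, n = 2 :=
      fun t => Equiv.Perm.pow_prime_eq_one_iff.1 (congrArg (fun z => ((z.1 : alternatingGroup (Fin 5)) : Equiv.Perm (Fin 5))) (sq t))
    have ne1 : ∀ t : (P : Subgroup (alternatingGroup (Fin 5))), t ≠ 1 → ((t : alternatingGroup (Fin 5)) : Equiv.Perm (Fin 5)) ≠ 1 :=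
      fun t ht e => ht (Subtype.ext (Subtype.ext e))
    obtain ⟨g, hg⟩ := conj_alt (x := (t : alternatingGroup (Fin 5))) (y := (u : alternatingGroup (Fin 5)))
      ((alternatingGroup.isConj_swap_mul_swap_of_cycleType_two t.1.2 (ne1 t t1) (two t)).symm.trans
        (alternatingGroup.isConj_swap_mul_swap_of_cycleType_two u.1.2 (ne1 u u1) (two u))) (fun hc => by
        obtain ⟨o1, -, -⟩ := Equiv.Perm.centralizer_le_alternating_iff.1 hc
        obtain ⟨a, ha⟩ := Multiset.exists_mem_of_ne_zero (Equiv.Perm.cycleType_eq_zero.not.2 (ne1 t t1))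
        have := o1 a ha
        rw [two t a ha] at this
        exact absurd this (by decide))
    obtain ⟨m, hm, e⟩ := P.conj_eq_normalizer_conj_of_mem t g t.2 (hg ▸ u.2)
    rw [hg, mul_assoc, hNC hm t t.2, inv_mul_cancel_left] at e
    exact tu (Subtype.ext e.symm)

end Cfsg.Agent.S2269
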