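import Cfsg.Statements.S2270
import Cfsg.Agent.H2.Ms1

set_option autoImplicit false
open Cfsg

namespace Cfsg.Agent.S2270

open Subgroup hiding upperCentralSeries
open H2 Cfsg.FusionSystem

open Subgroup H2 H7 H1B

/-- Let n ≥ 3, p an odd prime, and P an abelian Sylow p-subgroup of the symmetric group S_n (with p dividing n!, so that P ≠ 1). Then N(P)/C(P) has even order. -/
theorem result (n : ℕ) (hn : 3 ≤ n) {p : ℕ} [Fact p.Prime] (hp : p ≠ 2) (hpn : p ≤ n)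
    (P : Sylow p (Equiv.Perm (Fin n))) (hP : IsMulCommutative (P : Subgroup (Equiv.Perm (Fin n)))) :
    2 ∣ ((Subgroup.centralizer ((P : Subgroup (Equiv.Perm (Fin n))) : Set (Equiv.Perm (Fin n)))).subgroupOf (Subgroup.normalizer ((P : Subgroup (Equiv.Perm (Fin n))) : Set (Equiv.Perm (Fin n))))).index := by
  have t := sylow_isSylowIn_top P
  obtain ⟨x, hx, ox⟩ := exists_orderOf_of_pgroup P.2 (syl_ne_bot t (by
    rw [card_top, Nat.card_perm, Nat.card_fin]; exact Nat.dvd_factorial (Fact.out : p.Prime).pos hpn))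
  obtain ⟨g, e⟩ := _root_.isConj_iff.1 (Equiv.Perm.isConj_iff_cycleType_eq.2 (Equiv.Perm.cycleType_inv x))
  obtain ⟨m, hm, e'⟩ := P.conj_eq_normalizer_conj_of_mem x g hx (by rw [← e]; simpa [mul_assoc] using show x ∈ P from hx)
  have e1 : m * x⁻¹ * m⁻¹ = x := by
    have : g⁻¹ * x * g = x⁻¹ := by nth_rw 1 [← e]; group
    rw [← this, e']; group
  have e2 : m * x * m⁻¹ = x⁻¹ := by rw [← inv_inj, inv_inv, conj_inv, e1]
  by_contra c
  obtain ⟨k, hk⟩ := Nat.odd_iff.2 (Nat.two_dvd_ne_zero.1 c)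
  haveI := normal_subgroupOf (nrm_cen (le_refl (nrm (P : Subgroup (Equiv.Perm (Fin n))))))
  have h := conj_eq_of_mem_cen (mem_subgroupOf.1 (pow_index_mem
    ((cen (P : Subgroup (Equiv.Perm (Fin n)))).subgroupOf (nrm (P : Subgroup (Equiv.Perm (Fin n)))))
      ⟨m, hm⟩)) hx
  have c2 : (m ^ 2) ^ k ∈ cen1 x := pow_mem (mem_cen1.2 (mul_inv_eq_iff_eq_mul.1 (by
    calc _ = m * (m * x * m⁻¹) * m⁻¹ := by rw [pow_two]; group
      _ = _ := by rw [e2, e1]))) k
  rw [hk, SubmonoidClass.mk_pow] at h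
  change m ^ (2 * k + 1) * x * (m ^ (2 * k + 1))⁻¹ = x at h
  rw [pow_succ', pow_mul, mul_assoc m, mem_cen1.1 c2, mul_inv_rev, ← mul_assoc, ← mul_assoc,
    mul_inv_cancel_right, e2, inv_eq_iff_mul_eq_one, ← pow_two, ← orderOf_dvd_iff_pow_eq_one, ox] at h
  exact hp ((Nat.prime_dvd_prime_iff_eq Fact.out Nat.prime_two).1 h)

end Cfsg.Agent.S2270
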