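import Cfsg.Statements.S2336
import Cfsg.Agent.H7.PermDec
import Mathlib.LinearAlgebra.Projectivization.Action

set_option autoImplicit false
open Cfsg

namespace Cfsg.Agent.S2336

open Matrix

section Aux
variable {F : Type*} [Field F] {n : ℕ}

/-- nonzero vectors -/
def NZ (F : Type*) [Field F] (n : ℕ) := {v : Fin n → F // v ≠ 0}

instance : MulAction (SpecialLinearGroup (Fin n) F) (NZ F n) where
  smul g v := ⟨g • v.1, fun h => v.2 ((smul_eq_zero_iff_eq g).mp h)⟩
  one_smul v := Subtype.ext (one_smul _ v.1)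
  mul_smul g h v := Subtype.ext (mul_smul g h v.1)

instance : MulAction Fˣ (NZ F n) where
  smul g v := ⟨g • v.1, fun h => v.2 ((smul_eq_zero_iff_eq g).mp h)⟩
  one_smul v := Subtype.ext (one_smul _ v.1)
  mul_smul g h v := Subtype.ext (mul_smul g h v.1)

theorem sl_val (g : SpecialLinearGroup (Fin n) F) (v : NZ F n) :
    (g • v).1 = (g : Matrix (Fin n) (Fin n) F) *ᵥ v.1 := rfl

theorem u_val (c : Fˣ) (v : NZ F n) : (c • v).1 = (c : F) • v.1 := rfl

instance : SMulCommClass (SpecialLinearGroup (Fin n) F) Fˣ (NZ F n) :=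
  ⟨fun g c v => Subtype.ext (by simp only [sl_val, u_val, mulVec_smul])⟩

theorem std (hn : 3 ≤ n) {v w : Fin n → F} (h : LinearIndependent F ![v, w]) :
    ∃ g : SpecialLinearGroup (Fin n) F,
      (g : Matrix (Fin n) (Fin n) F) *ᵥ Pi.single ⟨0, by omega⟩ 1 = v ∧
      (g : Matrix (Fin n) (Fin n) F) *ᵥ Pi.single ⟨1, by omega⟩ 1 = w := by
  have h0 : LinearIndependent F ![(Pi.single ⟨0, by omega⟩ 1 : Fin n → F),
      Pi.single ⟨1, by omega⟩ 1] := by
    rw [LinearIndependent.pair_iff]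
    intro s t e
    have e0 := congrFun e ⟨0, by omega⟩
    have e1 := congrFun e ⟨1, by omega⟩
    simp [Pi.single_apply, Fin.ext_iff] at e0 e1
    exact ⟨e0, e1⟩
  let f := h0.linearCombinationEquiv.symm ≪≫ₗ h.linearCombinationEquiv
  obtain ⟨g, hg⟩ := Submodule.exists_linearEquiv_restrict_eq f
  have q0 : h0.linearCombinationEquiv (Finsupp.single 0 1) =
    (Pi.single ⟨0, by omega⟩ 1 : Fin n → F) := by simp
  have q1 : h0.linearCombinationEquiv (Finsupp.single 1 1) =
    (Pi.single ⟨1, by omega⟩ 1 : Fin n → F) := by simp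
  have g0 : g (Pi.single ⟨0, by omega⟩ 1) = v := by
    rw [← q0, ← hg]; simp [f]
  have g1 : g (Pi.single ⟨1, by omega⟩ 1) = w := by
    rw [← q1, ← hg]; simp [f]
  let A : Matrix (Fin n) (Fin n) F := LinearMap.toMatrix' (g : (Fin n → F) →ₗ[F] (Fin n → F))
  have hA : A.det ≠ 0 := by
    simp only [A, LinearMap.det_toMatrix']
    exact (LinearEquiv.isUnit_det' g).ne_zero
  have hAv : ∀ x, A *ᵥ x = g x := fun x => by simp [A]
  let D : Matrix (Fin n) (Fin n) F := diagonal (Pi.mulSingle ⟨2, by omega⟩ A.det⁻¹)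
  refine ⟨⟨A * D, by simp [D, hA, Finset.prod_pi_mulSingle']⟩, ?_, ?_⟩
  · show (A * D) *ᵥ _ = _
    rw [← mulVec_mulVec, diagonal_mulVec_single, Pi.mulSingle_eq_of_ne (by simp), one_mul, hAv, g0]
  · show (A * D) *ᵥ _ = _
    rw [← mulVec_mulVec, diagonal_mulVec_single, Pi.mulSingle_eq_of_ne (by simp), one_mul, hAv, g1]

theorem li {x y : NZ F n} (h : ∀ e : Fˣ, y ≠ e • x) : LinearIndependent F ![x.1, y.1] := by
  rw [LinearIndependent.pair_iff' x.2]
  intro a e
  have ha : a ≠ 0 := by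
    rintro rfl
    exact y.2 (by simpa using e.symm)
  exact h (Units.mk0 a ha) (Subtype.ext e.symm)

theorem two (hn : 3 ≤ n) (x y x' y' : NZ F n) (h : ∀ e : Fˣ, y ≠ e • x)
    (h' : ∀ e : Fˣ, y' ≠ e • x') : ∃ g : SpecialLinearGroup (Fin n) F, g • x = x' ∧ g • y = y' := by
  obtain ⟨g, g0, g1⟩ := std hn (li h)
  obtain ⟨g', g0', g1'⟩ := std hn (li h')
  have key : ∀ (u : Fin n → F) (z z' : NZ F n), (g : Matrix (Fin n) (Fin n) F) *ᵥ u = z.1 →
      (g' : Matrix (Fin n) (Fin n) F) *ᵥ u = z'.1 → (g' * g⁻¹) • z = z' := by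
    intro u z z' e e'
    have e1 : g • u = z.1 := e
    have e2 : g' • u = z'.1 := e'
    refine Subtype.ext ?_
    show (g' * g⁻¹) • z.1 = z'.1
    rw [← e1, ← e2, mul_smul, inv_smul_smul]
  exact ⟨g' * g⁻¹, key _ _ _ g0 g0', key _ _ _ g1 g1'⟩

theorem ex (hn : 3 ≤ n) (x : NZ F n) : ∃ y : NZ F n, ∀ e : Fˣ, y ≠ e • x := by
  obtain ⟨i, hi⟩ := Function.ne_iff.mp x.2
  have : Nontrivial (Fin n) := Fin.nontrivial_iff_two_le.mpr (by omega)
  obtain ⟨j, hj⟩ := exists_ne i
  refine ⟨⟨Pi.single j 1, by simp⟩, fun e he => ?_⟩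
  have := congrFun (congrArg Subtype.val he) i
  simp [u_val, hj.symm] at this
  exact hi this

end Aux

/-- Let F be a finite field with q elements and n ≥ 3. The permutation character of SL_n(F) on the non-zero vectors of F^n (the function sending a matrix to the number of non-zero vectors it fixes) is the sum of the principal character and q − 1 pairwise distinct irreducible complex characters. -/
theorem result {F : Type*} [Field F] [Fintype F] [DecidableEq F] (n : ℕ) (hn : 3 ≤ n) :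
    ∃ χ : Fin (Fintype.card F - 1) → (Matrix.SpecialLinearGroup (Fin n) F → ℂ),
      (∀ i, Cfsg.IsIrrCharacter (Matrix.SpecialLinearGroup (Fin n) F) (χ i)) ∧ Function.Injective χ ∧
      ∀ g : Matrix.SpecialLinearGroup (Fin n) F,
        (Nat.card {v : Fin n → F // v ≠ 0 ∧ (g : Matrix (Fin n) (Fin n) F).mulVec v = v} : ℂ) = 1 + ∑ i, χ i g := by
  classical
  have : Fintype (NZ F n) := inferInstanceAs (Fintype {v : Fin n → F // v ≠ 0})
  have : Nonempty (NZ F n) := ⟨⟨Pi.single ⟨0, by omega⟩ 1, by simp⟩⟩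
  have := H7PermDec.main (G := SpecialLinearGroup (Fin n) F) (C := Fˣ) (X := NZ F n)
    (fun x y => by
      obtain ⟨x', hx⟩ := ex hn x
      obtain ⟨y', hy⟩ := ex hn y
      obtain ⟨g, hg, -⟩ := two hn x x' y y' hx hy
      exact ⟨g, hg⟩)
    (fun c d x h => Units.ext (smul_left_injective F x.2 (congrArg Subtype.val h)))
    ⟨_, ex hn (Classical.arbitrary _)⟩ (two hn)
  rw [Fintype.card_units] at this
  obtain ⟨χ, h1, h2, h3⟩ := this
  refine ⟨χ, h1, h2, fun g => ?_⟩
  rw [← h3 g]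
  congr 1
  exact Nat.card_congr
    ⟨fun v => ⟨⟨v.1, v.2.1⟩, Subtype.ext v.2.2⟩, fun x => ⟨x.1.1, x.1.2, congrArg Subtype.val x.2⟩,
      fun _ => rfl, fun _ => rfl⟩

end Cfsg.Agent.S2336
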