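import Cfsg.Statements.S2337
import Cfsg.Agent.H5.SZ13

set_option autoImplicit false
open Cfsg

namespace Cfsg.Agent.S2337

/-- For the Suzuki group Sz(q), q = 2^(2m+1) with m ≥ 1 (realised inside Sp₄ over the field with q elements), every irreducible complex representation of degree at least 2 has degree at least 2^m·(q − 1). -/
theorem result {F : Type*} [Field F] [Fintype F] (m : ℕ) (hm : 1 ≤ m) (hF : Fintype.card F = 2 ^ (2 * m + 1)) :
    (∀ (k : ℕ) (ρ : Representation ℂ (Cfsg.Lie.Sz F (2 ^ (m + 1))) (Fin k → ℂ)), ρ.IsIrreducible → 2 ≤ k → 2 ^ m * (2 ^ (2 * m + 1) - 1) ≤ k) := by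
  intro k ρ hρ hk
  let S := H5.Sz.lieS hm hF
  have h := S.min_degree ρ (by
    intro h
    have := S.simple
    have h1 : ρ.ker = ⊤ := (ρ.normal_ker.eq_bot_or_eq_top).resolve_left fun h1 => by
      have : S.u 0 1 ∈ ρ.ker := h
      rw [h1, Subgroup.mem_bot, S.u_eq_one] at this
      exact one_ne_zero this.2
    have h2 : ∀ g, ρ g = 1 := fun g => (h1 ▸ Subgroup.mem_top g : g ∈ ρ.ker)
    obtain ⟨k, rfl⟩ : ∃ j, k = j + 2 := ⟨k - 2, by omega⟩
    let W : Subrepresentation ρ := ⟨LinearMap.ker (LinearMap.proj 0), fun g v hv => by rwa [h2]⟩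
    rcases hρ.eq_bot_or_eq_top W with h3 | h3
    · have h4 : (Pi.single 1 1 : Fin (k + 2) → ℂ) ∈ W.toSubmodule := by simp [W]
      rw [h3] at h4
      simpa using congrFun ((Submodule.mem_bot ℂ).1 h4) 1
    · have h4 : (Pi.single 0 1 : Fin (k + 2) → ℂ) ∈ W.toSubmodule := by rw [h3]; trivial
      simp [W] at h4)
  simpa using h

end Cfsg.Agent.S2337
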