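import Cfsg.Statements.S2343
import Cfsg.Agent.H5.RE2
import Cfsg.Agent.H5.RE14

set_option autoImplicit false
open Cfsg

namespace Cfsg.Agent.S2343



/-- For the Ree group ²G₂(q), q = 3^(2m+1) with m ≥ 1 (realised over the field with q elements), every irreducible complex representation of degree at least 2 has degree at least q² − q + 1. -/
theorem result {K : Type*} [Field K] [Fintype K] (m : ℕ) (hm : 1 ≤ m) (hK : Fintype.card K = 3 ^ (2 * m + 1)) :
    (∀ (k : ℕ) (ρ : Representation ℂ (Cfsg.Lie.twistedG2 K (3 ^ m)) (Fin k → ℂ)), ρ.IsIrreducible → 2 ≤ k → (3 ^ (2 * m + 1)) ^ 2 - 3 ^ (2 * m + 1) + 1 ≤ k) := by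
  intro k ρ hρ hk
  obtain ⟨S⟩ := H5.Chev.ree hK
  have h := S.min_degree ρ (by
    intro h
    have := S.simple' hm
    have h1 : ρ.ker = ⊤ := (ρ.normal_ker.eq_bot_or_eq_top).resolve_left fun h1 => by
      have : S.u 0 0 1 ∈ ρ.ker := h
      rw [h1, Subgroup.mem_bot, S.u_eq_one] at this
      exact one_ne_zero this.2.2
    have h2 : ∀ g, ρ g = 1 := fun g => (h1 ▸ Subgroup.mem_top g : g ∈ ρ.ker)
    obtain ⟨k, rfl⟩ : ∃ j, k = j + 2 := ⟨k - 2, by omega⟩
    let W : Subrepresentation ρ := ⟨LinearMap.ker (LinearMap.proj 0), fun g v hv => by rwa [h2]⟩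
    rcases hρ.eq_bot_or_eq_top W with h3 | h3
    · have h4 : (Pi.single 1 1 : Fin (k + 2) → ℂ) ∈ W.toSubmodule := by simp [W]
      rw [h3] at h4
      simpa using congrFun ((Submodule.mem_bot ℂ).1 h4) 1
    · have h4 : (Pi.single 0 1 : Fin (k + 2) → ℂ) ∈ W.toSubmodule := by rw [h3]; trivial
      simp [W] at h4)
  rw [H5.Ree.ReeS.Qn, hK] at h
  simpa using h

end Cfsg.Agent.S2343
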