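import Cfsg.Statements.S2352
import Cfsg.Agent.H7.GK

set_option autoImplicit false
open Cfsg

namespace Cfsg.Agent.S2352
open H7
open scoped commutatorElement

section
open Subgroup

theorem emb {B : Type*} [Fintype B] [DecidableEq B] {n : ℕ} (hn : 2 * Fintype.card B ≤ n) :
    ∃ φ : Equiv.Perm B →* alternatingGroup (Fin n), Function.Injective φ := by
  obtain ⟨ι⟩ : Nonempty ((B ⊕ B) ↪ Fin n) := Function.Embedding.nonempty_of_card_le (by simp; omega)
  let φ : Equiv.Perm B →* Equiv.Perm (Fin n) := (Equiv.Perm.viaEmbeddingHom ι).comp ((Equiv.Perm.sumCongrHom _ _).comp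
    ((MonoidHom.id _).prod (MonoidHom.id _)))
  have hφ : Function.Injective φ := (Equiv.Perm.viaEmbeddingHom_injective ι).comp
    (Equiv.Perm.sumCongrHom_injective.comp (fun x y h => congrArg Prod.fst h))
  have hs : ∀ g, φ g ∈ alternatingGroup (Fin n) := by
    intro g
    rw [Equiv.Perm.mem_alternatingGroup]
    simp only [φ, MonoidHom.comp_apply, Equiv.Perm.viaEmbeddingHom_apply, Equiv.Perm.viaEmbedding,
      Equiv.Perm.sign_extendDomain, Equiv.Perm.sumCongrHom_apply, MonoidHom.prod_apply, MonoidHom.id_apply,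
      Equiv.Perm.sign_sumCongr]
    exact Int.units_mul_self _
  exact ⟨φ.codRestrict _ hs, fun x y h => hφ (congrArg Subtype.val h)⟩

end

/-- A non-trivial law holds in only finitely many alternating groups: for every non-trivial element w of the free group on countably many generators there is N such that for all n ≥ N some substitution of elements of the alternating group of degree n into w is not the identity. -/
theorem result (w : FreeGroup ℕ) (hw : w ≠ 1) :
    ∃ N : ℕ, ∀ n : ℕ, N ≤ n → ∃ f : ℕ → alternatingGroup (Fin n), FreeGroup.lift f w ≠ 1 := by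
  open Subgroup in
  classical
  let B : Finset (FreeGroup ℕ) := (w.toWord.tails.map FreeGroup.mk).toFinset
  have hB : ∀ t, t <:+ w.toWord → FreeGroup.mk t ∈ B := fun t ht => by
    simp only [B, List.mem_toFinset, List.mem_map, List.mem_tails]
    exact ⟨t, ht, rfl⟩
  have ex : ∀ x : ℕ, ∃ σ : Equiv.Perm B, ∀ (b : B) (h : FreeGroup.of x * b.1 ∈ B), σ b = ⟨_, h⟩ := by
    intro x
    obtain ⟨σ, hσ⟩ := Equiv.Perm.exists_extending_pair (α := {b : B // FreeGroup.of x * b.1 ∈ B})
      (fun b => b.1) (fun b => (⟨_, b.2⟩ : B)) Subtype.val_injective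
      (fun a b h => Subtype.ext (Subtype.ext (mul_left_cancel (congrArg Subtype.val h))))
    exact ⟨σ, fun b h => hσ ⟨b, h⟩⟩
  choose σ hσ using ex
  have h1 : (1 : FreeGroup ℕ) ∈ B := hB [] List.nil_suffix
  have key : ∀ t (ht : t <:+ w.toWord), FreeGroup.lift σ (FreeGroup.mk t) ⟨1, h1⟩ = ⟨FreeGroup.mk t, hB t ht⟩ := by
    intro t
    induction t with
    | nil => intro _; exact (congrArg (fun g : Equiv.Perm B => g ⟨1, h1⟩) (map_one (FreeGroup.lift σ))).trans rfl
    | cons a t ih =>
      intro ht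
      have ht' : t <:+ w.toWord := (List.suffix_cons a t).trans ht
      obtain ⟨x, b⟩ := a
      have e : FreeGroup.mk ((x, b) :: t) = FreeGroup.mk [(x, b)] * FreeGroup.mk t := by
        rw [FreeGroup.mul_mk]; rfl
      have e0 : FreeGroup.lift σ (FreeGroup.mk ((x, b) :: t)) ⟨1, h1⟩ =
          FreeGroup.lift σ (FreeGroup.mk [(x, b)]) ⟨FreeGroup.mk t, hB t ht'⟩ := by
        rw [e, map_mul, Equiv.Perm.mul_apply, ih ht']
      rw [e0]
      cases b
      · have e2 : FreeGroup.mk [(x, false)] = (FreeGroup.of x)⁻¹ := rfl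
        rw [e2, map_inv, FreeGroup.lift_apply_of, Equiv.Perm.inv_eq_iff_eq]
        have e3 : FreeGroup.of x * FreeGroup.mk ((x, false) :: t) = FreeGroup.mk t := by
          rw [e, e2, mul_inv_cancel_left]
        rw [hσ x ⟨_, hB _ ht⟩ (e3 ▸ hB t ht')]
        exact Subtype.ext e3.symm
      · have e2 : FreeGroup.mk [(x, true)] = FreeGroup.of x := rfl
        rw [e2, FreeGroup.lift_apply_of, hσ x ⟨_, hB _ ht'⟩ (by rw [← e2, ← e]; exact hB _ ht)]
        exact Subtype.ext e.symm
  refine ⟨2 * Fintype.card B, fun n hn => ?_⟩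
  obtain ⟨φ, hφ⟩ := emb hn
  refine ⟨fun x => φ (σ x), fun h => hw ?_⟩
  have e : FreeGroup.lift (fun x => φ (σ x)) = φ.comp (FreeGroup.lift σ) := by
    ext x; simp
  rw [e, MonoidHom.comp_apply, ← φ.map_one] at h
  have h3 : ((FreeGroup.lift σ (FreeGroup.mk w.toWord) ⟨1, h1⟩ : B) : FreeGroup ℕ) = FreeGroup.mk w.toWord :=
    congrArg Subtype.val (key _ List.suffix_rfl)
  rw [FreeGroup.mk_toWord, hφ h] at h3
  exact h3.symm

end Cfsg.Agent.S2352
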