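import Cfsg.Statements.S2353
import Cfsg.Agent.H7.GK

set_option autoImplicit false
open Cfsg

namespace Cfsg.Agent.S2353
open H7
open scoped commutatorElement

section
open Subgroup

open Polynomial Matrix in
theorem exM {F : Type*} [Field F] (s e ε : F) : ∃ M : SpecialLinearGroup (Fin 2) F[X],
    (M : Matrix (Fin 2) (Fin 2) F[X]) = !![1 + C s * C ε * X, C s - C e - C s * C e * C ε * X; C ε * X, 1 - C e * C ε * X] :=
  ⟨⟨_, by rw [det_fin_two_of]; ring⟩, rfl⟩

open Polynomial Matrix in
theorem key {F : Type*} [Field F] (c : ℕ → F) (K : ℕ) (hc : ∀ i < 2 * K, ∀ j < 2 * K, c i = c j → i = j)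
    (L : List (ℕ × Bool)) (hL : FreeGroup.IsReduced L) (h0 : L ≠ []) (hK : ∀ l ∈ L, l.1 < K) :
    ∃ f : ℕ → SpecialLinearGroup (Fin 2) F[X], ((FreeGroup.lift f (FreeGroup.mk L)) 1 0).degree = L.length := by
  choose M hM using exM (F := F)
  let f : ℕ → SpecialLinearGroup (Fin 2) F[X] := fun i => M (c (2 * i)) (c (2 * i + 1)) 1
  let s : ℕ × Bool → F := fun l => if l.2 then c (2 * l.1) else c (2 * l.1 + 1)
  let e : ℕ × Bool → F := fun l => if l.2 then c (2 * l.1 + 1) else c (2 * l.1)
  let ε : ℕ × Bool → F := fun l => if l.2 then 1 else -1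
  have ε0 : ∀ l, ε l ≠ 0 := fun l => by simp only [ε]; split_ifs <;> simp
  have h1 : ∀ l, FreeGroup.lift f (FreeGroup.mk [l]) = M (s l) (e l) (ε l) := by
    rintro ⟨i, b⟩
    cases b
    · have e2 : FreeGroup.mk [(i, false)] = (FreeGroup.of i)⁻¹ := rfl
      rw [e2, map_inv, FreeGroup.lift_apply_of, inv_eq_iff_mul_eq_one]
      apply Subtype.ext
      rw [Matrix.SpecialLinearGroup.coe_mul, hM, hM]
      ext i j : 1
      fin_cases i <;> fin_cases j <;> simp [s, e, ε, Matrix.mul_apply, Fin.sum_univ_two] <;> ring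
    · exact FreeGroup.lift_apply_of
  have h2 : ∀ l L, FreeGroup.lift f (FreeGroup.mk (l :: L)) = M (s l) (e l) (ε l) * FreeGroup.lift f (FreeGroup.mk L) := by
    intro l L
    rw [← h1, ← map_mul, FreeGroup.mul_mk]; rfl
  have step : ∀ l (W : SpecialLinearGroup (Fin 2) F[X]) (m : ℕ), (W 0 0 - C (e l) * W 1 0).degree = m → (W 1 0).degree ≤ m →
      ((M (s l) (e l) (ε l) * W) 1 0).degree = ((m + 1 : ℕ) : WithBot ℕ) ∧
        (M (s l) (e l) (ε l) * W) 0 0 = (W 0 0 - C (e l) * W 1 0) + C (s l) * (M (s l) (e l) (ε l) * W) 1 0 := by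
    intro l W m a1 a2
    have b1 : (M (s l) (e l) (ε l) * W) 1 0 = W 1 0 + C (ε l) * ((W 0 0 - C (e l) * W 1 0) * X) := by
      rw [Matrix.SpecialLinearGroup.coe_mul, hM]
      simp [Matrix.mul_apply, Fin.sum_univ_two]; ring
    have b2 : (C (ε l) * ((W 0 0 - C (e l) * W 1 0) * X)).degree = ((m + 1 : ℕ) : WithBot ℕ) := by
      rw [degree_C_mul (ε0 l), degree_mul_X, a1]; rfl
    refine ⟨?_, ?_⟩
    · rw [b1, degree_add_eq_right_of_degree_lt, b2]
      rw [b2]
      exact a2.trans_lt (by exact_mod_cast Nat.lt_succ_self m)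
    · rw [b1, Matrix.SpecialLinearGroup.coe_mul, hM]
      simp [Matrix.mul_apply, Fin.sum_univ_two]; ring
  have inv : ∀ (L : List (ℕ × Bool)) l, FreeGroup.IsReduced (l :: L) → (∀ x ∈ l :: L, x.1 < K) →
      ((FreeGroup.lift f (FreeGroup.mk L)) 0 0 - C (e l) * (FreeGroup.lift f (FreeGroup.mk L)) 1 0).degree = L.length ∧
        ((FreeGroup.lift f (FreeGroup.mk L)) 1 0).degree ≤ L.length := by
    intro L
    induction L with
    | nil =>
      intro l _ _
      rw [← FreeGroup.one_eq_mk, map_one]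
      simp
    | cons k L ih =>
      intro l hl hK
      obtain ⟨a0, a1⟩ := FreeGroup.isReduced_cons_cons.1 hl
      obtain ⟨a2, a3⟩ := ih k a1 fun x hx => hK x (List.mem_cons_of_mem _ hx)
      obtain ⟨b1, b2⟩ := step k _ _ a2 a3
      rw [h2, List.length_cons]
      refine ⟨?_, b1.le⟩
      have ne : s k - e l ≠ 0 := by
        have l1 := hK l (by simp)
        have k1 := hK k (by simp)
        rw [sub_ne_zero]
        obtain ⟨i, b⟩ := l
        obtain ⟨j, b'⟩ := k
        intro h
        cases b <;> cases b' <;> simp only [s, e, if_true, Bool.false_eq_true, if_false] at h l1 k1 a0 <;>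
          have := hc _ (by omega) _ (by omega) h
        · omega
        · exact absurd (a0 (by omega)) (by decide)
        · exact absurd (a0 (by omega)) (by decide)
        · omega
      rw [b2, add_sub_assoc, ← sub_mul, ← map_sub, degree_add_eq_right_of_degree_lt, degree_C_mul ne, b1]
      rw [degree_C_mul ne, b1, a2]
      exact_mod_cast Nat.lt_succ_self _
  obtain ⟨l, L, rfl⟩ := List.exists_cons_of_ne_nil h0
  obtain ⟨a2, a3⟩ := inv L l hL hK
  exact ⟨f, by rw [h2, (step l _ _ a2 a3).1, List.length_cons]⟩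

end

/-- A non-trivial law holds in PSL_2 over only finitely many finite fields: for every non-trivial element w of the free group on countably many generators there is N such that over every finite field with at least N elements some substitution of elements of PSL_2 into w is not the identity. -/
theorem result (w : FreeGroup ℕ) (hw : w ≠ 1) :
    ∃ N : ℕ, ∀ (F : Type*) [Field F] [Fintype F], N ≤ Fintype.card F →
      ∃ f : ℕ → Matrix.ProjectiveSpecialLinearGroup (Fin 2) F, FreeGroup.lift f w ≠ 1 := by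
  open Subgroup in
  classical
  obtain ⟨K, hK⟩ : ∃ K, ∀ l ∈ w.toWord, l.1 < K := by
    obtain ⟨K, hK⟩ := (w.toWord.toFinset.image Prod.fst).bddAbove
    exact ⟨K + 1, fun l hl => Nat.lt_succ_of_le (hK (Finset.mem_image_of_mem _ (List.mem_toFinset.2 hl)))⟩
  refine ⟨2 * K + w.toWord.length + 1, fun F _ _ hF => ?_⟩
  obtain ⟨ι⟩ : Nonempty (Fin (2 * K) ↪ F) := Function.Embedding.nonempty_of_card_le (by simp; omega)
  obtain ⟨f, hf⟩ := key (fun i => if h : i < 2 * K then ι ⟨i, h⟩ else 0) K (fun i hi j hj h => by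
      simp only [dif_pos hi, dif_pos hj] at h
      exact congrArg Fin.val (ι.injective h)) w.toWord FreeGroup.isReduced_toWord
    (fun h => hw (FreeGroup.toWord_eq_nil_iff.1 h)) hK
  rw [FreeGroup.mk_toWord] at hf
  obtain ⟨t, ht⟩ : ∃ t : F, (FreeGroup.lift f w 1 0).eval t ≠ 0 := by
    by_contra hc
    push Not at hc
    have := Polynomial.eq_zero_of_natDegree_lt_card_of_eval_eq_zero _ Function.injective_id hc
      (by rw [Polynomial.natDegree_eq_of_degree_eq_some hf]; omega)
    rw [this] at hf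
    simp at hf
  let φ : Matrix.SpecialLinearGroup (Fin 2) (Polynomial F) →* Matrix.ProjectiveSpecialLinearGroup (Fin 2) F :=
    (QuotientGroup.mk' _).comp (Matrix.SpecialLinearGroup.map (Polynomial.evalRingHom t))
  refine ⟨fun i => φ (f i), fun h => ht ?_⟩
  have e : FreeGroup.lift (fun x => φ (f x)) = φ.comp (FreeGroup.lift f) := by
    ext x; simp
  rw [e, MonoidHom.comp_apply] at h
  obtain ⟨r, -, hr⟩ := Matrix.SpecialLinearGroup.mem_center_iff.1 ((QuotientGroup.eq_one_iff _).1 h)
  have := congrFun (congrFun hr 1) 0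
  simpa using this.symm

end Cfsg.Agent.S2353
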