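import Cfsg.Statements.S2355
import Cfsg.Agent.H4.SLBasic
import Cfsg.Agent.H4.Disc
import Cfsg.Agent.S2352
import Cfsg.Agent.S2353

set_option autoImplicit false
open Cfsg

namespace Cfsg.Agent.S2355
open H7
open scoped commutatorElement

section
open Subgroup

def CL (w : FreeGroup ℕ) (X : Type*) [Group X] : Prop := ∀ f : ℕ → X, FreeGroup.lift f w ∈ Subgroup.center X

theorem lift_map {X Y : Type*} [Group X] [Group Y] (φ : X →* Y) (f : ℕ → X) (w : FreeGroup ℕ) :
    FreeGroup.lift (fun i => φ (f i)) w = φ (FreeGroup.lift f w) := by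
  have e : FreeGroup.lift (fun x => φ (f x)) = φ.comp (FreeGroup.lift f) := by
    ext x; simp
  rw [e]; rfl

theorem CL.inj {w : FreeGroup ℕ} {X Y : Type*} [Group X] [Group Y] (h : CL w X) (φ : Y →* X) (hφ : Function.Injective φ) :
    CL w Y := fun f => by
  have := h fun i => φ (f i)
  rw [lift_map] at this
  exact Subgroup.mem_center_iff.2 fun g => hφ (by rw [map_mul, map_mul]; exact Subgroup.mem_center_iff.1 this _)

theorem CL.of {w : FreeGroup ℕ} {G X : Type*} [Group G] [Group X] (h : ∀ f : ℕ → G, FreeGroup.lift f w = 1)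
    (e : G ≃* X ⧸ Subgroup.center X) : CL w X := fun f => by
  have := h fun i => (e.symm.toMonoidHom.comp (QuotientGroup.mk' _)) (f i)
  rw [lift_map] at this
  exact (QuotientGroup.eq_one_iff _).1 ((map_eq_one_iff _ e.symm.injective).1 this)

theorem CL.law {w : FreeGroup ℕ} {X : Type*} [Group X] (h : CL w X) (f : ℕ → X ⧸ Subgroup.center X) :
    FreeGroup.lift f w = 1 := by
  choose g hg using fun i => QuotientGroup.mk'_surjective (Subgroup.center X) (f i)
  rw [← funext hg, lift_map]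
  exact (QuotientGroup.eq_one_iff _).2 (h g)

theorem card_le {G X F ι : Type*} [Group G] [Group X] [Fintype F] [Fintype ι] (e : G ≃* X ⧸ Subgroup.center X)
    (j : X → Matrix ι ι F) (hj : Function.Injective j) {a b : ℕ} (ha : Fintype.card F ≤ a) (hb : Fintype.card ι ≤ b)
    (a0 : 0 < a) : Nat.card G ≤ a ^ (b * b) := by
  classical
  haveI : Finite X := Finite.of_injective j hj
  rw [Nat.card_congr e.toEquiv]
  refine (Nat.card_le_card_of_surjective _ QuotientGroup.mk_surjective).trans ((Nat.card_le_card_of_injective j hj).trans ?_)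
  have : Nat.card (Matrix ι ι F) = Fintype.card F ^ (Fintype.card ι * Fintype.card ι) := by
    rw [pow_mul]; simp [Matrix]
  rw [this]
  exact (Nat.pow_le_pow_left ha _).trans (Nat.pow_le_pow_right a0 (Nat.mul_le_mul hb hb))

open Matrix in
/-- block embedding `A ↦ A ⊕ 1` -/
def blk (ι κ F : Type*) [Fintype ι] [DecidableEq ι] [Fintype κ] [DecidableEq κ] [Field F] :
    Matrix ι ι F →* Matrix (ι ⊕ κ) (ι ⊕ κ) F where
  toFun A := fromBlocks A 0 0 1
  map_one' := fromBlocks_one
  map_mul' A B := by simp [fromBlocks_multiply]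

open Matrix in
/-- block embedding `A ↦ 1 ⊕ A` -/
def blk' (ι κ F : Type*) [Fintype ι] [DecidableEq ι] [Fintype κ] [DecidableEq κ] [Field F] :
    Matrix ι ι F →* Matrix (κ ⊕ ι) (κ ⊕ ι) F where
  toFun A := fromBlocks 1 0 0 A
  map_one' := fromBlocks_one
  map_mul' A B := by simp [fromBlocks_multiply]

open Matrix in
/-- hyperbolic embedding -/
def hyp (ι F : Type*) [Fintype ι] [DecidableEq ι] [Field F] :
    SpecialLinearGroup ι F →* Matrix (ι ⊕ ι) (ι ⊕ ι) F where
  toFun A := fromBlocks A 0 0 ((A⁻¹ : SpecialLinearGroup ι F) : Matrix ι ι F)ᵀ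
  map_one' := by rw [inv_one, Matrix.SpecialLinearGroup.coe_one, transpose_one, fromBlocks_one]
  map_mul' A B := by
    rw [_root_.mul_inv_rev, Matrix.SpecialLinearGroup.coe_mul, Matrix.SpecialLinearGroup.coe_mul, transpose_mul,
      fromBlocks_multiply]
    simp only [Matrix.mul_zero, Matrix.zero_mul, add_zero, zero_add]

theorem blk_inj (ι κ F : Type*) [Fintype ι] [DecidableEq ι] [Fintype κ] [DecidableEq κ] [Field F] :
    Function.Injective (blk ι κ F) := fun _ _ h => (Matrix.fromBlocks_inj.1 h).1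

theorem blk'_inj (ι κ F : Type*) [Fintype ι] [DecidableEq ι] [Fintype κ] [DecidableEq κ] [Field F] :
    Function.Injective (blk' ι κ F) := fun _ _ h => (Matrix.fromBlocks_inj.1 h).2.2.2

theorem hyp_inj (ι F : Type*) [Fintype ι] [DecidableEq ι] [Field F] :
    Function.Injective (hyp ι F) := fun _ _ h => Subtype.ext (Matrix.fromBlocks_inj.1 h).1

open Matrix in
theorem inv_mul_coe {ι F : Type*} [Fintype ι] [DecidableEq ι] [Field F] (A : SpecialLinearGroup ι F) :
    ((A⁻¹ : SpecialLinearGroup ι F) : Matrix ι ι F) * A = 1 := by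
  rw [← Matrix.SpecialLinearGroup.coe_mul, inv_mul_cancel, Matrix.SpecialLinearGroup.coe_one]

open Matrix in
theorem hyp_form {ι F : Type*} [Fintype ι] [DecidableEq ι] [Field F] (A : SpecialLinearGroup ι F) (v : ι ⊕ ι → F) :
    ∑ i, (hyp ι F A *ᵥ v) (.inl i) * (hyp ι F A *ᵥ v) (.inr i) = ∑ i, v (.inl i) * v (.inr i) := by
  show (((hyp ι F A *ᵥ v) ∘ Sum.inl) ⬝ᵥ ((hyp ι F A *ᵥ v) ∘ Sum.inr)) = (v ∘ Sum.inl) ⬝ᵥ (v ∘ Sum.inr)
  have : hyp ι F A = fromBlocks (A : Matrix ι ι F) 0 0 ((A⁻¹ : SpecialLinearGroup ι F) : Matrix ι ι F)ᵀ := rfl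
  rw [this, fromBlocks_mulVec, Sum.elim_comp_inl, Sum.elim_comp_inr, zero_mulVec, zero_mulVec, add_zero, zero_add,
    mulVec_transpose, dotProduct_comm, ← dotProduct_mulVec, mulVec_mulVec, inv_mul_coe, one_mulVec, dotProduct_comm]

open Matrix in
theorem toSL {H ι F : Type*} [Group H] [Fintype ι] [DecidableEq ι] [Field F] (M : H →* Matrix ι ι F)
    (hM : Function.Injective M) (hd : ∀ h, (M h).det = 1) :
    ∃ φ : H →* SpecialLinearGroup ι F, Function.Injective φ ∧ ∀ h, (φ h : Matrix ι ι F) = M h :=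
  ⟨{ toFun := fun h => ⟨M h, hd h⟩, map_one' := Subtype.ext (map_one M), map_mul' := fun a b => Subtype.ext (map_mul M a b) },
    fun _ _ h => hM (congrArg Subtype.val h), fun _ => rfl⟩

open Matrix in
theorem toOm {H F : Type*} {ι : Type} [Group H] [Fintype ι] [DecidableEq ι] [Field F] (M : H →* Matrix ι ι F)
    (hM : Function.Injective M) (Q : (ι → F) → F) (hQ : ∀ h v, Q (M h *ᵥ v) = Q v) (hH : commutator H = ⊤) :
    ∃ φ : H →* Omega F Q, Function.Injective φ := by
  let ψ : H →* isometryGroup F Q := M.toHomUnits.codRestrict _ fun h u _ => hQ h u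
  have : ∀ h, ψ h ∈ Omega F Q := fun h => by
    have h1 : (commutator H).map ψ ≤ commutator _ := by
      rw [commutator_def, Subgroup.map_commutator]; exact Subgroup.commutator_mono le_top le_top
    exact h1 ⟨h, hH ▸ Subgroup.mem_top h, rfl⟩
  exact ⟨ψ.codRestrict _ this, fun a b h => hM (congrArg (fun x : Omega F Q => (x.1.1 : Matrix ι ι F)) h)⟩

open Matrix in
theorem alt_sl (n : ℕ) (F : Type*) [Field F] : ∃ φ : alternatingGroup (Fin n) →* SpecialLinearGroup (Fin n) F,
    Function.Injective φ ∧ ∀ h v, (φ h : Matrix (Fin n) (Fin n) F) *ᵥ v = v ∘ (h⁻¹ : alternatingGroup (Fin n)).1 := by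
  have e : ∀ (h : alternatingGroup (Fin n)) (v : Fin n → F),
      ((permMatrixHom (R := F)).comp (alternatingGroup (Fin n)).subtype) h *ᵥ v = v ∘ (h⁻¹ : alternatingGroup (Fin n)).1 :=
    fun h v => permMatrix_mulVec _
  obtain ⟨φ, h1, h2⟩ := toSL ((permMatrixHom (R := F)).comp (alternatingGroup (Fin n)).subtype) (fun a b h => by
    apply inv_injective
    apply Subtype.ext
    ext1 i
    have h1 := congrFun (e a (Pi.single ((a⁻¹ : alternatingGroup (Fin n)).1 i) 1)) i
    rw [h, e] at h1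
    by_contra hne
    simp only [Function.comp, Pi.single_eq_same] at h1
    rw [Pi.single_eq_of_ne (Ne.symm hne)] at h1
    exact zero_ne_one h1) (fun h => by
      show det (((h⁻¹ : alternatingGroup (Fin n)).1).permMatrix F) = 1
      rw [det_permutation, show Equiv.Perm.sign (h⁻¹ : alternatingGroup (Fin n)).1 = 1 from (h⁻¹).2]
      simp)
  exact ⟨φ, h1, fun h v => by rw [h2, e]⟩

open Matrix in
theorem sl_sl (m k : ℕ) (F : Type*) [Field F] : ∃ φ : SpecialLinearGroup (Fin m) F →* SpecialLinearGroup (Fin (m + k)) F,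
    Function.Injective φ ∧ ∀ h v, (∀ i, ((φ h : Matrix (Fin (m + k)) (Fin (m + k)) F) *ᵥ v) (Fin.castAdd k i) =
      ((h : Matrix (Fin m) (Fin m) F) *ᵥ fun j => v (Fin.castAdd k j)) i) ∧
      ∀ i, ((φ h : Matrix (Fin (m + k)) (Fin (m + k)) F) *ᵥ v) (Fin.natAdd m i) = v (Fin.natAdd m i) := by
  obtain ⟨φ, h1, h2⟩ := toSL ((reindexRingEquiv F finSumFinEquiv).toMonoidHom.comp ((blk (Fin m) (Fin k) F).comp
    (slToMat m F))) (fun a b h => Subtype.ext (blk_inj _ _ _ ((reindexRingEquiv F finSumFinEquiv).injective h))) (fun h => by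
      show det (reindex finSumFinEquiv finSumFinEquiv (fromBlocks (h : Matrix (Fin m) (Fin m) F) 0 0 1)) = 1
      rw [det_reindex_self, det_fromBlocks_zero₂₁]; simp)
  refine ⟨φ, h1, fun h v => ?_⟩
  have : (φ h : Matrix (Fin (m + k)) (Fin (m + k)) F) *ᵥ v = (fromBlocks (h : Matrix (Fin m) (Fin m) F) 0 0 1 *ᵥ (v ∘ finSumFinEquiv)) ∘ finSumFinEquiv.symm := by
    rw [h2]
    exact submatrix_mulVec_equiv _ _ _ _
  rw [this, fromBlocks_mulVec]
  exact ⟨fun i => by simp [Function.comp_def], fun i => by simp⟩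

theorem alt_su (n : ℕ) (F : Type*) [Field F] (q : ℕ) : ∃ φ : alternatingGroup (Fin n) →* SU n F q, Function.Injective φ := by
  obtain ⟨φ, h1, h2⟩ := alt_sl n F
  refine ⟨φ.codRestrict _ fun h u v => ?_, fun a b h => h1 (congrArg Subtype.val h)⟩
  have e : ∀ v, (slToMat n F (φ h)).mulVec v = v ∘ (h⁻¹ : alternatingGroup (Fin n)).1 := h2 h
  rw [e, e]
  exact Equiv.sum_comp (h⁻¹ : alternatingGroup (Fin n)).1 fun i => u i * v i ^ q

theorem su_su (m k : ℕ) (F : Type*) [Field F] (q : ℕ) : ∃ φ : SU m F q →* SU (m + k) F q, Function.Injective φ := by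
  obtain ⟨φ, h1, h2⟩ := sl_sl m k F
  refine ⟨(φ.comp (SU m F q).subtype).codRestrict _ fun h u v => ?_,
    fun a b h => Subtype.ext (h1 (congrArg Subtype.val h))⟩
  have e := h.2 (fun j => u (Fin.castAdd k j)) (fun j => v (Fin.castAdd k j))
  show hermForm _ F q ((φ h.1 : Matrix (Fin (m + k)) (Fin (m + k)) F).mulVec u) ((φ h.1 : Matrix (Fin (m + k)) (Fin (m + k)) F).mulVec v) = _
  simp only [hermForm, Fin.sum_univ_add, (h2 _ _).1, (h2 _ _).2] at e ⊢
  rw [← e]; rfl

open Matrix in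
theorem sl_sp (m : ℕ) (F : Type*) [Field F] : ∃ φ : SpecialLinearGroup (Fin m) F →* symplecticGroup (Fin m) F,
    Function.Injective φ := by
  refine ⟨(hyp (Fin m) F).codRestrict _ fun A => ?_, fun a b h => hyp_inj _ _ (congrArg Subtype.val h)⟩
  have : hyp (Fin m) F A = fromBlocks (A : Matrix _ _ F) 0 0 ((A⁻¹ : SpecialLinearGroup (Fin m) F) : Matrix _ _ F)ᵀ := rfl
  have e1 := inv_mul_coe A
  have e2 := mul_eq_one_comm.1 e1
  rw [this, SymplecticGroup.mem_iff, J, fromBlocks_transpose, fromBlocks_multiply, fromBlocks_multiply]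
  simp only [Matrix.mul_zero, Matrix.zero_mul, add_zero, zero_add, transpose_zero, transpose_transpose, Matrix.mul_neg,
    Matrix.neg_mul, Matrix.mul_one, e2, ← transpose_mul, transpose_one, neg_zero]

open H4 H4.Form in
/-- adapted from `H4.su_two` -/
theorem sl_su {F K : Type*} [Field F] [Fintype F] [Field K] [Fintype K] {q : ℕ}
    (hF : Fintype.card F = q ^ 2) (hK : Fintype.card K = q) (j : K →+* F) :
    ∃ φ : Matrix.SpecialLinearGroup (Fin 2) K →* SU 2 F q, Function.Injective φ := by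
  obtain ⟨ω, hω⟩ := DFunLike.ne_iff.1 (frobq_ne_id hF)
  let σ := frobq hF
  have hσ : ∀ a, σ (σ a) = a := frobq_frobq hF
  have hθ : σ ω - ω ≠ 0 := sub_ne_zero.2 hω
  let g := H4.hermForm _ (frobq_ne_id hF) hσ (LinearMap.mk₂'ₛₗ σ (RingHom.id F)
    (fun x y : Fin 2 → F => (σ ω - ω) * (σ (x 0) * y 1 - σ (x 1) * y 0)) (by intros; simp; ring)
    (by intros; simp; ring) (by intros; simp; ring) (by intros; simp; ring))
    (fun x y => by change σ ((_ - _) * _) = (_ - _) * _; simp [hσ]; ring)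
  have hB : ∀ x y, g.B x y = (σ ω - ω) * (σ (x 0) * y 1 - σ (x 1) * y 0) := fun _ _ => rfl
  obtain ⟨e, he⟩ := u_exists_isIso 2 _ _ g (uForm hF 2) (fun x hx => by
    have h0 := hx ![1, 0]
    have h1 := hx ![0, 1]
    simp [hB, hθ] at h0 h1
    ext i; fin_cases i <;> assumption) (uForm_ND hF 2) (by simp) (by simp)
  have hj' : ∀ a, σ (j a) = j a := fun a => by
    rw [frobq_apply, ← map_pow, ← hK, FiniteField.pow_card]
  let χ : Matrix.SpecialLinearGroup (Fin 2) K →* g.Isom := (glEquiv.toMonoidHom.comp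
    (Matrix.SpecialLinearGroup.toGL.comp (Matrix.SpecialLinearGroup.map j))).codRestrict _ fun a =>
      (herm_mem_Isom _).2 fun x y => by
        have := congrArg j a.2
        rw [Matrix.det_fin_two] at this
        simp [hB, Matrix.mulVec, dotProduct, hj', hθ] at this ⊢
        linear_combination (σ (x 0) * y 1 - σ (x 1) * y 0) * this
  refine ⟨(suEquiv hF 2).symm.toMonoidHom.comp ((he.isomEquiv.toMonoidHom.comp χ).codRestrict _ fun a =>
    (det_linConj e _).trans ((det_glEquiv _).trans (Units.ext (by simp)))), (suEquiv hF 2).symm.injective.comp fun a b k => ?_⟩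
  have := glEquiv.injective (congrArg Subtype.val (he.isomEquiv.injective (congrArg Subtype.val k)))
  ext r s
  exact j.injective (congrArg (fun z : GL (Fin 2) F => z.1 r s) this)

end

/-- A non-trivial law is satisfied by only finitely many finite simple groups that are alternating or classical, up to isomorphism: for every non-trivial element w of the free group on countably many generators there is a bound N such that every alternating group of degree ≥ 5 and every simple classical group (linear, symplectic, unitary or orthogonal, in this problem's sense) in which w is a law has order at most N. -/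
theorem result (w : FreeGroup ℕ) (hw : w ≠ 1) :
    ∃ N : ℕ, ∀ (G : Type*) [Group G] [Finite G],
      (Cfsg.IsAlternating G ∨ Cfsg.IsPSL G ∨ Cfsg.IsPSp G ∨ Cfsg.IsPSU G ∨ Cfsg.IsPOmegaOdd G ∨
          Cfsg.IsPOmegaPlus G ∨ Cfsg.IsPOmegaMinus G) →
      (∀ f : ℕ → G, FreeGroup.lift f w = 1) → Nat.card G ≤ N := by
  open Subgroup in
  obtain ⟨N1, h1⟩ := Cfsg.Agent.S2352.result w hw
  obtain ⟨N2, h2⟩ := Cfsg.Agent.S2353.result.{0} w hw
  obtain ⟨K, K1, K2, K5⟩ : ∃ K, N1 ≤ K ∧ N2 ≤ K ∧ 5 ≤ K := ⟨N1 + N2 + 5, by omega, by omega, by omega⟩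
  have a1 : ∀ n, CL w (alternatingGroup (Fin n)) → n ≤ K := by
    intro n h
    by_contra hn
    obtain ⟨f, hf⟩ := h1 n (by omega)
    have := h f
    rw [alternatingGroup.center_eq_bot (by simp; omega)] at this
    exact hf this
  have a2 : ∀ (F : Type) [Field F] [Fintype F], CL w (Matrix.SpecialLinearGroup (Fin 2) F) → Fintype.card F ≤ K := by
    intro F _ _ h
    by_contra hn
    obtain ⟨f, hf⟩ := h2 F (by omega)
    exact hf (h.law f)
  have KK : K ≤ K ^ 2 := Nat.le_self_pow (by norm_num) K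
  have a3 : ∀ (F : Type) [Field F] [Fintype F] (n : ℕ), 2 ≤ n → CL w (Matrix.SpecialLinearGroup (Fin n) F) →
      n ≤ K ∧ Fintype.card F ≤ K ^ 2 := by
    intro F _ _ n hn h
    obtain ⟨φ, hφ, -⟩ := alt_sl n F
    obtain ⟨k, rfl⟩ := Nat.exists_eq_add_of_le hn
    obtain ⟨ψ, hψ, -⟩ := sl_sl 2 k F
    exact ⟨a1 _ (h.inj φ hφ), (a2 F (h.inj ψ hψ)).trans KK⟩
  have K0 : 0 < K ^ 2 := by positivity
  refine ⟨K.factorial + (K ^ 2) ^ ((2 * K + 2) * (2 * K + 2)), fun G _ _ hG hl => ?_⟩
  rcases hG with ⟨n, hn, ⟨e⟩⟩ | ⟨F, _, _, n, hn, -, ⟨e⟩⟩ | ⟨F, _, _, n, hn, -, ⟨e⟩⟩ | ⟨F, _, _, n, q, hq, hn, -, ⟨e⟩⟩ |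
    ⟨F, _, _, n, hn, -, ⟨e⟩⟩ | ⟨F, _, _, n, hn, ⟨e⟩⟩ | ⟨F, _, _, n, a, b, hn, -, ⟨e⟩⟩
  · have : n ≤ K := a1 n (CL.inj (X := G) (fun f => by rw [hl]; exact one_mem _) e.symm.toMonoidHom e.symm.injective)
    refine le_add_right ?_
    rw [Nat.card_congr e.toEquiv]
    refine (Nat.card_le_card_of_injective _ Subtype.val_injective).trans ?_
    rw [Nat.card_perm, Nat.card_eq_fintype_card, Fintype.card_fin]
    exact Nat.factorial_le this
  · obtain ⟨b1, b2⟩ := a3 F n hn (CL.of hl e)
    exact le_add_left (card_le e Subtype.val Subtype.val_injective b2 (by simp; omega) K0)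
  · obtain ⟨φ, hφ⟩ := sl_sp n F
    obtain ⟨b1, b2⟩ := a3 F n hn ((CL.of hl e).inj φ hφ)
    exact le_add_left (card_le e Subtype.val Subtype.val_injective b2 (by simp; omega) K0)
  · obtain ⟨φ, hφ⟩ := alt_su n F q
    have b1 := a1 n ((CL.of hl e).inj φ hφ)
    obtain ⟨k, rfl⟩ := Nat.exists_eq_add_of_le (show 2 ≤ n by omega)
    obtain ⟨ψ, hψ⟩ := su_su 2 k F q
    obtain ⟨p, _, r, hp, hr⟩ := FiniteField.card' F
    obtain ⟨j, -, hj⟩ := (Nat.dvd_prime_pow hp).1 (show q ∣ p ^ (r : ℕ) by rw [← hr, hq]; exact dvd_pow_self q (by norm_num))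
    have j0 : j ≠ 0 := by
      rintro rfl
      have := Fintype.one_lt_card (α := F)
      rw [hq, hj] at this
      simp at this
    haveI := Fact.mk hp
    haveI := Fintype.ofFinite (GaloisField p j)
    have hc : Fintype.card (GaloisField p j) = q := by rw [← Nat.card_eq_fintype_card, GaloisField.card p j j0, hj]
    letI := ZMod.algebra F p
    obtain ⟨ι⟩ := FiniteField.nonempty_algHom_of_finrank_dvd (F := ZMod p) (K := GaloisField p j) (L := F) (by
      rw [GaloisField.finrank p j0]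
      refine ⟨2, Nat.pow_right_injective hp.two_le ?_⟩
      have := Module.card_eq_pow_finrank (K := ZMod p) (V := F)
      rw [ZMod.card, hq, hj, ← pow_mul] at this
      exact this.symm)
    obtain ⟨e2, he2⟩ := sl_su hq hc ι.toRingHom
    have b2 := a2 _ (((CL.of hl e).inj ψ hψ).inj e2 he2)
    exact le_add_left (card_le e (fun x => x.1.1) (fun x y h => Subtype.ext (Subtype.ext h))
      (by rw [hq, ← hc]; exact Nat.pow_le_pow_left b2 2) (by simp; omega) K0)
  · obtain ⟨φ, hφ⟩ := toOm ((blk' _ Unit F).comp (hyp (Fin n) F)) ((blk'_inj _ _ _).comp (hyp_inj _ _)) (quadFormOdd n F)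
      (fun h v => by
        have := hyp_form h (v ∘ Sum.inr)
        show quadFormOdd n F ((Matrix.fromBlocks 1 0 0 (hyp (Fin n) F h)).mulVec v) = _
        rw [Matrix.fromBlocks_mulVec]
        simp only [quadFormOdd, Sum.elim_inl, Sum.elim_inr, Matrix.zero_mulVec, Matrix.one_mulVec, add_zero, zero_add, this,
          Function.comp])
      (H4.sl_commutator_eq_top (by simpa using hn))
    obtain ⟨b1, b2⟩ := a3 F n (by omega) ((CL.of hl e).inj φ hφ)
    exact le_add_left (card_le e (fun x => x.1.1.1) (fun x y h => Subtype.ext (Subtype.ext (Units.ext h))) b2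
      (by simp; omega) K0)
  · obtain ⟨φ, hφ⟩ := toOm (hyp (Fin n) F) (hyp_inj _ _) (quadFormPlus n F) (fun h v => hyp_form h v)
      (H4.sl_commutator_eq_top (by simp; omega))
    obtain ⟨b1, b2⟩ := a3 F n (by omega) ((CL.of hl e).inj φ hφ)
    exact le_add_left (card_le e (fun x => x.1.1.1) (fun x y h => Subtype.ext (Subtype.ext (Units.ext h))) b2
      (by simp; omega) K0)
  · obtain ⟨φ, hφ⟩ := toOm ((blk _ (Fin 2) F).comp (hyp (Fin (n - 1)) F)) ((blk_inj _ _ _).comp (hyp_inj _ _))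
      (quadFormMinus (n - 1) F a b) (fun h v => by
        have := hyp_form h (v ∘ Sum.inl)
        show quadFormMinus (n - 1) F a b ((Matrix.fromBlocks (hyp (Fin (n - 1)) F h) 0 0 1).mulVec v) = _
        rw [Matrix.fromBlocks_mulVec]
        simp only [quadFormMinus, Sum.elim_inl, Sum.elim_inr, Matrix.zero_mulVec, Matrix.one_mulVec, add_zero, zero_add, this,
          Function.comp])
      (H4.sl_commutator_eq_top (by simp; omega))
    obtain ⟨b1, b2⟩ := a3 F (n - 1) (by omega) ((CL.of hl e).inj φ hφ)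
    exact le_add_left (card_le e (fun x => x.1.1.1) (fun x y h => Subtype.ext (Subtype.ext (Units.ext h))) b2
      (by simp; omega) K0)

end Cfsg.Agent.S2355
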