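import Cfsg.Statements.S2359
import Cfsg.Agent.H5.RE2
import Cfsg.Agent.H5.RE6

set_option autoImplicit false
open Cfsg

namespace Cfsg.Agent.S2359

open H5.Ree H5.Ree.ReeS
open scoped Pointwise

/-- Let R be the small Ree group over the field with q = 3^(2m+1) ≥ 27 elements. If H is a cyclic subgroup of R of order (q−1)/2, then the centralizer of H in R is cyclic of order q−1, and every non-trivial subgroup of H has the same centralizer as H. If H is a cyclic subgroup of order (q+1)/4, then the centralizer of H is abelian of order q+1 with no element of order 4 (so it is the direct product of H and a group of order 4 whose non-identity elements all have order 2), and every non-trivial subgroup of H has the same centralizer as H. -/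
theorem result {K : Type*} [Field K] [Fintype K] {m : ℕ} (hm : 1 ≤ m)
    (hK : Fintype.card K = 3 ^ (2 * m + 1)) (H : Subgroup ↥(Cfsg.Lie.twistedG2 K (3 ^ m))) (hH : IsCyclic H) :
    (Nat.card H = (3 ^ (2 * m + 1) - 1) / 2 →
      IsCyclic ↥(Subgroup.centralizer (H : Set ↥(Cfsg.Lie.twistedG2 K (3 ^ m)))) ∧
        Nat.card ↥(Subgroup.centralizer (H : Set ↥(Cfsg.Lie.twistedG2 K (3 ^ m)))) = 3 ^ (2 * m + 1) - 1 ∧
        ∀ A : Subgroup ↥(Cfsg.Lie.twistedG2 K (3 ^ m)), A ≤ H → A ≠ ⊥ →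
          Subgroup.centralizer (A : Set ↥(Cfsg.Lie.twistedG2 K (3 ^ m))) = Subgroup.centralizer (H : Set ↥(Cfsg.Lie.twistedG2 K (3 ^ m)))) ∧
    (Nat.card H = (3 ^ (2 * m + 1) + 1) / 4 →
      IsMulCommutative ↥(Subgroup.centralizer (H : Set ↥(Cfsg.Lie.twistedG2 K (3 ^ m)))) ∧
        Nat.card ↥(Subgroup.centralizer (H : Set ↥(Cfsg.Lie.twistedG2 K (3 ^ m)))) = 3 ^ (2 * m + 1) + 1 ∧
        (∀ x ∈ Subgroup.centralizer (H : Set ↥(Cfsg.Lie.twistedG2 K (3 ^ m))), orderOf x ≠ 4) ∧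
        ∀ A : Subgroup ↥(Cfsg.Lie.twistedG2 K (3 ^ m)), A ≤ H → A ≠ ⊥ →
          Subgroup.centralizer (A : Set ↥(Cfsg.Lie.twistedG2 K (3 ^ m))) = Subgroup.centralizer (H : Set ↥(Cfsg.Lie.twistedG2 K (3 ^ m)))) := by
  obtain ⟨R⟩ := H5.Chev.ree hK
  have := R.finite
  have hq := R.big hm
  have key : ∀ {A C : Subgroup (Cfsg.Lie.twistedG2 K (3 ^ m))}, Tor A C → Nat.card H = Nat.card A →
      1 < Nat.card A → ∃ c, Subgroup.centralizer (H : Set (Cfsg.Lie.twistedG2 K (3 ^ m))) = MulAut.conj c • C ∧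
        ∀ A : Subgroup ↥(Cfsg.Lie.twistedG2 K (3 ^ m)), A ≤ H → A ≠ ⊥ →
          Subgroup.centralizer (A : Set ↥(Cfsg.Lie.twistedG2 K (3 ^ m))) =
            Subgroup.centralizer (H : Set ↥(Cfsg.Lie.twistedG2 K (3 ^ m))) := fun {A C} hT h1 h2 => by
    obtain ⟨c, hc⟩ := hT.conj_le hH h1.dvd
    have h3 : H ≤ MulAut.conj c⁻¹ • A := by
      rw [map_inv, Subgroup.subset_pointwise_smul_iff, inv_inv]; exact hc
    have h4 := (hT.smul c⁻¹).centralizer_eq h3 (by rintro rfl; simp at h1; omega)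
    exact ⟨c⁻¹, h4, fun X hX h5 => by rw [h4, (hT.smul c⁻¹).centralizer_eq (hX.trans h3) h5]⟩
  have h1 := R.card_A1
  have h2 := R.n4_spec.1
  rw [← hK]
  constructor
  · intro h
    obtain ⟨c, e, h3⟩ := key R.tor_A1 (by omega) (by omega)
    refine ⟨?_, ?_, h3⟩ <;> rw [e]
    · have := R.isCyclic_H
      exact isCyclic_of_surjective _ (Subgroup.equivSMul (MulAut.conj c) R.h.range).surjective
    · rw [← Nat.card_congr (Subgroup.equivSMul (MulAut.conj c) R.h.range).toEquiv, R.card_T]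
  · intro h
    obtain ⟨c, e, h3⟩ := key R.tor_A (by rw [R.card_A]; exact h) (by rw [R.card_A]; omega)
    refine ⟨?_, ?_, ?_, h3⟩ <;> rw [e]
    · refine ⟨⟨?_⟩⟩
      rintro ⟨_, x, hx, rfl⟩ ⟨_, y, hy, rfl⟩
      apply Subtype.ext
      show MulAut.conj c x * MulAut.conj c y = MulAut.conj c y * MulAut.conj c x
      rw [← map_mul, ← map_mul, R.T4_comm hx hy]
    · rw [← Nat.card_congr (Subgroup.equivSMul (MulAut.conj c) R.T4).toEquiv, R.card_T4]
    · intro x _ h4
      have := orderOf_dvd_of_pow_eq_one ((pow_two x).trans (R.sq_eq_one_of_four (h4 ▸ pow_orderOf_eq_one x)))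
      rw [h4] at this
      omega

end Cfsg.Agent.S2359
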