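import Cfsg.Statements.S2450
import Cfsg.Agent.H4.Cls3

set_option autoImplicit false
open Cfsg

namespace Cfsg.Agent.S2450


/-- The Arad–Herzog conjecture for PSL(2,q): let F be a finite field with q ≥ 4 elements. For any two non-identity elements a, b of PSL(2,F), the set of products of a conjugate of a with a conjugate of b is not a single conjugacy class. -/
theorem result {F : Type*} [Field F] [Fintype F] (h4 : 4 ≤ Fintype.card F)
    (a b : Matrix.ProjectiveSpecialLinearGroup (Fin 2) F) (ha : a ≠ 1) (hb : b ≠ 1) (c : Matrix.ProjectiveSpecialLinearGroup (Fin 2) F) :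
    {g : Matrix.ProjectiveSpecialLinearGroup (Fin 2) F | ∃ u v : Matrix.ProjectiveSpecialLinearGroup (Fin 2) F, g = (u * a * u⁻¹) * (v * b * v⁻¹)} ≠ {g | IsConj c g} := by
  intro hS
  obtain ⟨A, rfl⟩ := QuotientGroup.mk_surjective a
  obtain ⟨B, rfl⟩ := QuotientGroup.mk_surjective b
  obtain ⟨m, hm⟩ := H4.exists_conj_lower ha
  obtain ⟨n, hn⟩ := H4.exists_conj_lower hb
  set A' := m * A * m⁻¹
  set B' := n * B * n⁻¹
  have key : ∀ t : F, (A' * (H4.ub t * B' * (H4.ub t)⁻¹)).1.trace ^ 2 = H4.tau (H4.jL c) := by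
    intro t
    have : IsConj c (QuotientGroup.mk (A' * (H4.ub t * B' * (H4.ub t)⁻¹))) :=
      (Set.ext_iff.1 hS _).1 ⟨QuotientGroup.mk m, QuotientGroup.mk (H4.ub t * n), by
        simp only [A', B', QuotientGroup.mk_mul, QuotientGroup.mk_inv, mul_assoc, _root_.mul_inv_rev]⟩
    obtain ⟨u, hu⟩ := isConj_iff.1 this
    rw [← H4.tau_jL_mk, ← hu, map_mul, map_mul, map_inv, H4.tau_conj]
  set α := -(A'.1 1 0 * B'.1 1 0)
  set β := A'.1 0 0 * B'.1 1 0 - A'.1 1 0 * B'.1 0 0 + A'.1 1 0 * B'.1 1 1 - A'.1 1 1 * B'.1 1 0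
  set γ := A'.1 0 0 * B'.1 0 0 + A'.1 0 1 * B'.1 1 0 + A'.1 1 0 * B'.1 0 1 + A'.1 1 1 * B'.1 1 1
  have hα : α ≠ 0 := neg_ne_zero.2 (mul_ne_zero hm hn)
  have key2 : ∀ t : F, (α * t ^ 2 + β * t + γ) ^ 2 = H4.tau (H4.jL c) := fun t => by
    rw [← key t, Matrix.trace_fin_two]
    simp only [H4.sl2_mul_apply, Matrix.SpecialLinearGroup.coe_inv, Matrix.adjugate_fin_two]
    simp [H4.ub, α, β, γ]; ring
  clear_value α β γ
  generalize H4.tau (H4.jL c) = τ at key2
  classical
  rcases h4.eq_or_lt with h4 | h5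
  · have h2 : (2 : F) = 0 := by
      by_contra h2
      have := H4.two_ne_zero_iff_odd.1 h2
      rw [Nat.card_eq_fintype_card, ← h4] at this
      exact absurd this (by decide)
    obtain ⟨t, ht⟩ : ∃ t : F, t ∉ ({0, 1} : Finset F) := by
      by_contra hn
      push Not at hn
      have := Finset.card_le_card (show Finset.univ ⊆ ({0, 1} : Finset F) from fun t _ => hn t)
      have := Finset.card_le_two (a := (0 : F)) (b := 1)
      rw [Finset.card_univ] at *
      omega
    simp only [Finset.mem_insert, Finset.mem_singleton, not_or] at ht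
    have := key2 0
    have := key2 1
    have := key2 t
    grind
  · open Polynomial in
    have hd : ((C α * X ^ 2 + C β * X + C γ) ^ 2 - C τ : F[X]).natDegree = 4 := by
      rw [natDegree_sub_C, natDegree_pow, natDegree_quadratic hα]
    have := Polynomial.eq_zero_of_natDegree_lt_card_of_eval_eq_zero _ Function.injective_id
      (fun t : F => by simpa [sub_eq_zero] using key2 t) (hd ▸ h5)
    rw [this] at hd
    simp at hd

end Cfsg.Agent.S2450
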