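import Cfsg.Statements.S2455
import Cfsg.Agent.H4.Cls3

set_option autoImplicit false
open Cfsg

namespace Cfsg.Agent.S2455


/-- A strong covering result in the direction of Thompson's conjecture (non-identity elements) for PSL(2,q), q odd: let F be a finite field of odd characteristic p with at least 5 elements and let x ∈ PSL(2,F) have order greater than 2 and not divisible by p (so x is not unipotent). Then every non-identity element of PSL(2,F) is a product of two conjugates of x. -/
theorem result {F : Type*} [Field F] [Fintype F] (p : ℕ) [Fact p.Prime] [CharP F p] (hp : p ≠ 2) (h5 : 5 ≤ Fintype.card F)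
    (x : Matrix.ProjectiveSpecialLinearGroup (Fin 2) F) (hx2 : 2 < orderOf x) (hxp : ¬ p ∣ orderOf x) : ∀ g : Matrix.ProjectiveSpecialLinearGroup (Fin 2) F, g ≠ 1 → ∃ u v : Matrix.ProjectiveSpecialLinearGroup (Fin 2) F, g = (u * x * u⁻¹) * (v * x * v⁻¹) := by
  intro g hg
  obtain ⟨Y, rfl⟩ := QuotientGroup.mk_surjective x
  obtain ⟨G, rfl⟩ := QuotientGroup.mk_surjective g
  have hq : Odd (Nat.card F) := (H4.char_ne_two_iff_odd (p := p)).1 hp
  have h2 : (2 : F) ≠ 0 := H4.two_ne_zero_iff_odd.2 hq
  have h4 : Y.1.trace ^ 2 ≠ 4 := fun e => by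
    rcases (Nat.dvd_prime Fact.out).1 (orderOf_dvd_iff_pow_eq_one.2 (H4.psl_pow_char (p := p) e))
      with h | h
    · omega
    · exact hxp h.symm.dvd
  have h0 : Y.1.trace ≠ 0 := fun e => by
    have := Nat.le_of_dvd two_pos (orderOf_dvd_iff_pow_eq_one.2 (H4.psl_sq_of_trace e))
    omega
  set s := Y.1.trace
  set t := G.1.trace with ht
  by_cases h : t ^ 2 = 4
  · have : (t - 2) * (t + 2) = 0 := by linear_combination h
    rcases mul_eq_zero.1 this with e | e
    · refine H4.prod_conj_of hg h4 (r := -s) (a := (2 * s)⁻¹) (b := (2 * s)⁻¹) (by ring) ?_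
      rw [← ht, show t = 2 by linear_combination e]; field_simp; ring
    · refine H4.prod_conj_of hg h4 (r := s) (a := (2 * s)⁻¹) (b := -(2 * s)⁻¹) rfl ?_
      rw [← ht, show t = -2 by linear_combination e]; field_simp; ring
  · have h5 : 1 - t ^ 2 / 4 ≠ 0 := fun e => h (by
      have : (4 : F) ≠ 0 := fun e => mul_ne_zero h2 h2 (by linear_combination e)
      field_simp at e; linear_combination -e)
    open Polynomial in
    obtain ⟨u, b, hb⟩ := FiniteField.exists_root_sum_quadratic
      (f := C 1 * X ^ 2 + C (-s) * X + C 1) (g := C (1 - t ^ 2 / 4) * X ^ 2 + C (s - s * t / 2) * X + C 0)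
      (degree_quadratic one_ne_zero) (degree_quadratic h5)
      (by rw [← Nat.card_eq_fintype_card]; exact Nat.odd_iff.1 hq)
    refine H4.prod_conj_of hg h4 (r := s) (a := u + t * b / 2) (b := b) rfl ?_
    simp at hb
    rw [← ht, ← hb]
    have : (4 : F) = 2 * 2 := by norm_num
    rw [this]; field_simp; ring

end Cfsg.Agent.S2455
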