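import Cfsg.Statements.S2456
import Cfsg.Agent.H4.Cls3

set_option autoImplicit false
open Cfsg

namespace Cfsg.Agent.S2456


/-- A strong covering result in the direction of Thompson's conjecture (non-identity elements) for PSL(2,q), q even: let F be a finite field of characteristic 2 with q ≥ 4 elements and let x ∈ PSL(2,F) have order greater than 2 and not dividing q + 1. Then every non-identity element of PSL(2,F) is a product of two conjugates of x. -/
theorem result {F : Type*} [Field F] [Fintype F] [CharP F 2] (h4 : 4 ≤ Fintype.card F)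
    (x : Matrix.ProjectiveSpecialLinearGroup (Fin 2) F) (hx2 : 2 < orderOf x) (hxq : ¬ orderOf x ∣ Fintype.card F + 1) : ∀ g : Matrix.ProjectiveSpecialLinearGroup (Fin 2) F, g ≠ 1 → ∃ u v : Matrix.ProjectiveSpecialLinearGroup (Fin 2) F, g = (u * x * u⁻¹) * (v * x * v⁻¹) := by
  classical
  intro g hg
  obtain ⟨Y, rfl⟩ := QuotientGroup.mk_surjective x
  obtain ⟨G, rfl⟩ := QuotientGroup.mk_surjective g
  rw [← Nat.card_eq_fintype_card] at hxq h4
  have h4 : Y.1.trace ^ 2 ≠ 4 := fun e => by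
    have := Nat.le_of_dvd two_pos (orderOf_dvd_iff_pow_eq_one.2 (H4.psl_pow_char (p := 2) e))
    omega
  have h1 : H4.jL (QuotientGroup.mk Y) ≠ 1 := fun e => h4 (by rw [← H4.tau_jL_mk, e, H4.tau_one])
  obtain ⟨z, hz⟩ : ∃ z : OnePoint F, H4.jL (QuotientGroup.mk Y) • z = z := by
    rcases H4.elt_cases h1 with ⟨z, hz⟩ | ⟨u, v, m, h, hT⟩
    · exact ⟨z, hz.1⟩
    · rcases h.2 with h' | h'
      · obtain ⟨z, rfl⟩ := H4.Fr_eq_iff.1 h'.1
        exact ⟨z, H4.rat_injective (by rw [← H4.smul_rat]; exact hT.1)⟩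
      · have := Subgroup.orderOf_dvd_natCard _ hT
        rw [h.card_T, h'.2.2, orderOf_injective _ H4.jL_injective] at this
        exact absurd this hxq
  obtain ⟨a, ha⟩ : ∃ a : F, a ^ 2 - Y.1.trace * a + 1 = 0 := by
    obtain ⟨m, rfl⟩ := H4.exists_smul_infty z
    obtain ⟨a, b, e⟩ := H4.fix_iff_aff.1 hz
    have := H4.tau_jL_mk Y
    rw [e, H4.tau_conj, H4.tau_aff, div_eq_iff a.ne_zero] at this
    obtain ⟨c, hc⟩ := FiniteField.isSquare_of_char_two (ringChar.eq F 2) (a : F)
    have h2 : (2 : F) = 0 := CharTwo.two_eq_zero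
    refine ⟨c, ?_⟩
    rw [hc] at this
    grind
  exact H4.prod_conj_of hg h4 (r := Y.1.trace) (a := a) (b := 0) rfl (by linear_combination ha)

end Cfsg.Agent.S2456
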