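import Cfsg.Statements.S2466
import Cfsg.Agent.H0.Ord


set_option autoImplicit false
open Cfsg

namespace Cfsg.Agent.S2466

theorem dv {p : ℕ} (hp : p.Prime) {m : Multiset ℕ} (h : p ∣ m.lcm) : ∃ a ∈ m, p ∣ a := by
  induction m using Multiset.induction_on with
  | empty => simp [hp.ne_one] at h
  | cons a m ih =>
    rw [Multiset.lcm_cons] at h
    rcases hp.dvd_mul.1 (h.trans (lcm_dvd_mul _ _)) with h | h
    · exact ⟨a, by simp, h⟩
    · obtain ⟨b, hb, h⟩ := ih h; exact ⟨b, by simp [hb], h⟩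
theorem two {m : Multiset ℕ} {a b : ℕ} (hb : b ∈ m.erase a) (ha : a ∈ m) : a + b ≤ m.sum := by
  rw [← Multiset.cons_erase ha, Multiset.sum_cons]; exact Nat.add_le_add_left (Multiset.le_sum_of_mem hb) _

/-- Adjacency of odd primes in the prime graph of the alternating groups: let r ≠ s be odd primes at most n. The alternating group of degree n has an element of order r·s if and only if r + s ≤ n. -/
theorem result (n r s : ℕ) (hr : r.Prime) (hs : s.Prime) (hr2 : r ≠ 2) (hs2 : s ≠ 2) (hrs : r ≠ s) (hrn : r ≤ n) (hsn : s ≤ n) :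
    (r * s ∈ Set.range (orderOf : alternatingGroup (Fin n) → ℕ)) ↔ r + s ≤ n := by
  rw [H0.alt_ord]
  refine ⟨fun ⟨m, h, e, _⟩ => ?_, fun h => ⟨{r, s}, ⟨by simpa, by simp [hr.two_le, hs.two_le]⟩, ?_, ?_⟩⟩
  · obtain ⟨a, ha, h1⟩ := dv hr (e ▸ dvd_mul_right r s)
    obtain ⟨b, hb, h2⟩ := dv hs (e ▸ dvd_mul_left s r)
    have := h.2 a ha
    have := h.2 b hb
    by_cases e : a = b
    · subst e
      have h3 := Nat.le_of_dvd (by omega) (((Nat.coprime_primes hr hs).2 hrs).mul_dvd_of_dvd_of_dvd h1 h2)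
      exact (Nat.add_le_mul hr.two_le hs.two_le).trans (h3.trans ((Multiset.le_sum_of_mem ha).trans h.1))
    · have := Nat.le_of_dvd (by omega) h1
      have := Nat.le_of_dvd (by omega) h2
      have := two ((Multiset.mem_erase_of_ne (Ne.symm e)).2 hb) ha
      omega
  · simpa [lcm_eq_nat_lcm] using ((Nat.coprime_primes hr hs).2 hrs).lcm_eq_mul
  · obtain ⟨a, rfl⟩ := hr.odd_of_ne_two hr2
    obtain ⟨b, rfl⟩ := hs.odd_of_ne_two hs2
    exact ⟨a + b + 2, by simp; ring⟩

end Cfsg.Agent.S2466
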