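import Cfsg.Statements.S2467
import Cfsg.Agent.H0.Ord
import Cfsg.Agent.S2466


set_option autoImplicit false
open Cfsg

namespace Cfsg.Agent.S2467

/-- Adjacency of 2 and an odd prime in the prime graph of the alternating groups: let r be an odd prime at most n, with n ≥ 4. The alternating group of degree n has an element of order 2r if and only if r + 4 ≤ n. -/
theorem result (n r : ℕ) (hn : 4 ≤ n) (hr : r.Prime) (hr2 : r ≠ 2) (hrn : r ≤ n) :
    (2 * r ∈ Set.range (orderOf : alternatingGroup (Fin n) → ℕ)) ↔ r + 4 ≤ n := by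
  rw [H0.alt_ord]
  obtain ⟨k, hk⟩ := hr.odd_of_ne_two hr2
  have h3 := hr.two_le
  refine ⟨fun ⟨m, h, e, he⟩ => ?_, fun h => ⟨{r, 2, 2}, ⟨by simpa, by simp [hr.two_le]⟩, ?_, ⟨k + 4, by simp; omega⟩⟩⟩
  · obtain ⟨a, ha, h1⟩ := S2466.dv Nat.prime_two (e ▸ dvd_mul_right 2 r)
    have par : ∀ m : Multiset ℕ, (∀ a ∈ m, ¬ 2 ∣ a) → (m.sum + m.card) % 2 = 0 := fun m => by
      induction m using Multiset.induction_on with
      | empty => simp
      | cons a m ih =>
        intro h
        have := h a (by simp)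
        have := ih fun b hb => h b (by simp [hb])
        simp only [Multiset.sum_cons, Multiset.card_cons]; omega
    obtain ⟨m, rfl⟩ := Multiset.exists_cons_of_mem ha
    obtain ⟨b, hb, h2⟩ : ∃ b ∈ m, 2 ∣ b := by
      by_contra hc
      push Not at hc
      have := par m hc
      simp only [Multiset.sum_cons, Multiset.card_cons, Nat.even_iff] at he; omega
    obtain ⟨m, rfl⟩ := Multiset.exists_cons_of_mem hb
    obtain ⟨c, hc, h4⟩ := S2466.dv hr (e ▸ dvd_mul_left r 2)
    have h5 := h.2 a (by simp)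
    have h6 := h.2 b (by simp)
    have h7 := h.1
    have h8 : ∀ x, 2 ≤ x → 2 ∣ x → r ∣ x → 2 * r ≤ x := fun x a b c =>
      Nat.le_of_dvd (by omega) (((Nat.coprime_primes Nat.prime_two hr).2 hr2.symm).mul_dvd_of_dvd_of_dvd b c)
    simp only [Multiset.sum_cons, Multiset.mem_cons] at h7 hc
    rcases hc with rfl | rfl | hc
    · have := h8 _ h5 h1 h4; omega
    · have := h8 _ h6 h2 h4; omega
    · have := Nat.le_of_dvd (by have := h.2 c (by simp [hc]); omega) h4
      have := Multiset.le_sum_of_mem hc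
      omega
  · simpa [lcm_eq_nat_lcm, mul_comm] using ((Nat.coprime_primes hr Nat.prime_two).2 hr2).lcm_eq_mul

end Cfsg.Agent.S2467
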