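import Cfsg.Statements.S2471
import Cfsg.Agent.H4.Cls2

set_option autoImplicit false
open Cfsg

namespace Cfsg.Agent.S2471


/-- In PSL(2,q) with q odd, the characteristic p is isolated from 2 in the prime graph: for F a finite field of odd characteristic p with at least 5 elements, PSL(2,F) has no element of order 2p. -/
theorem result {F : Type*} [Field F] [Fintype F] (p : ℕ) [Fact p.Prime] [CharP F p] (hp : p ≠ 2) (h5 : 5 ≤ Fintype.card F) (g : Matrix.ProjectiveSpecialLinearGroup (Fin 2) F) :
    orderOf g ≠ 2 * p := by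
  intro h
  have hpp : p.Prime := Fact.out
  have h1 := H4.char_dvd_card (F := F) p
  have h2 : 1 < Nat.card F := Finite.one_lt_card
  have h3 := H4.gcd_two_of_odd ((H4.char_ne_two_iff_odd (F := F) p).1 hp)
  have h4 := Nat.odd_iff.1 ((H4.char_ne_two_iff_odd (F := F) p).1 hp)
  rcases H4.orderOf_psl_cases (p := p) g with e | e | e <;> rw [h] at e
  · have := Nat.le_of_dvd hpp.pos e
    have := hpp.pos
    omega
  · have := ((dvd_mul_left p 2).trans e).trans (Nat.div_dvd_of_dvd (Nat.gcd_dvd_right _ _))
    exact hpp.not_dvd_one ((Nat.dvd_sub_iff_right (by omega) h1).1 this)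
  · rw [h3] at e
    have := ((dvd_mul_left p 2).trans e).trans (Nat.div_dvd_of_dvd (by omega))
    exact hpp.not_dvd_one ((Nat.dvd_add_right h1).1 this)

end Cfsg.Agent.S2471
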