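import Cfsg.Statements.S2485
import Cfsg.Agent.H7.GK

set_option autoImplicit false
open scoped Pointwise
open Cfsg

namespace Cfsg.Agent.S2485
open H7
open scoped commutatorElement

section
open Subgroup

open Matrix

theorem cen_iff {F : Type*} [Field F] {g : GL (Fin 2) F} :
    g ∈ center (GL (Fin 2) F) ↔ ∃ c : F, g.1 = c • (1 : Matrix (Fin 2) (Fin 2) F) := by
  rw [GeneralLinearGroup.center_eq_range_scalar]
  constructor
  · rintro ⟨u, rfl⟩
    exact ⟨u, by ext i j; simp [Matrix.one_apply, Matrix.diagonal_apply]⟩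
  · rintro ⟨c, hc⟩
    have h0 : c ≠ 0 := by
      rintro rfl
      exact GeneralLinearGroup.det_ne_zero g (by rw [hc]; simp)
    exact ⟨Units.mk0 c h0, Units.ext (by rw [hc]; ext i j; simp [Matrix.one_apply, Matrix.diagonal_apply])⟩

/-- The standard elliptic involution. -/
def JJ (F : Type*) [Field F] : GL (Fin 2) F :=
  GeneralLinearGroup.mkOfDetNeZero !![0, 1; -1, 0] (by simp [det_fin_two])

theorem JJ_val (F : Type*) [Field F] : (JJ F).1 = !![0, 1; -1, 0] := rfl

theorem JJ_sq (F : Type*) [Field F] : (JJ F).1 * (JJ F).1 = -1 := by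
  rw [JJ_val]; ext i j; fin_cases i <;> fin_cases j <;> simp [Matrix.mul_apply, Fin.sum_univ_two]

theorem comm_of_anti {F : Type*} [Field F] {a b : GL (Fin 2) F} (h : a.1 * b.1 = -(b.1 * a.1)) :
    QuotientGroup.mk' (center (GL (Fin 2) F)) a * QuotientGroup.mk' _ b =
      QuotientGroup.mk' _ b * QuotientGroup.mk' (center (GL (Fin 2) F)) a := by
  rw [← map_mul, ← map_mul, QuotientGroup.mk'_apply, QuotientGroup.mk'_apply, QuotientGroup.eq, cen_iff]
  refine ⟨-1, ?_⟩
  have : b * a = -(a * b) := Units.ext (by simp [h])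
  rw [this]
  simp

theorem two_group {q k : ℕ} [Fact q.Prime] (hk : q + 1 = 2 ^ k) (h4 : q % 4 = 3) :
    IsPGroup 2 (centralizer {QuotientGroup.mk' (center (GL (Fin 2) (ZMod q))) (JJ (ZMod q))}) := by
  rintro ⟨y, hy⟩
  obtain ⟨g, rfl⟩ := QuotientGroup.mk'_surjective _ y
  refine ⟨k + 1, Subtype.ext ?_⟩
  change QuotientGroup.mk' _ g ^ 2 ^ (k + 1) = 1
  rw [mem_centralizer_singleton_iff, ← map_mul, ← map_mul, QuotientGroup.mk'_apply, QuotientGroup.mk'_apply,
    eq_comm, QuotientGroup.eq, cen_iff] at hy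
  obtain ⟨c, hc⟩ := hy
  set J := (JJ (ZMod q)).1 with hJ
  have hJJ : J * J = -1 := JJ_sq _
  have h1 : g.1 * J = c • (J * g.1) := by
    have := congrArg (fun M => (JJ (ZMod q) * g).1 * M) hc
    simp only [← Units.val_mul, mul_inv_cancel_left] at this
    simpa using this
  have hcc : c * c = 1 := by
    have h2 : g.1 * (J * J) = (c * c) • (J * J * g.1) := by
      rw [← Matrix.mul_assoc, h1, smul_mul_assoc, Matrix.mul_assoc, h1, mul_smul_comm, smul_smul, Matrix.mul_assoc]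
    rw [hJJ, Matrix.mul_neg, Matrix.mul_one, Matrix.neg_mul, Matrix.one_mul, smul_neg, neg_inj] at h2
    have h3 := congrArg (fun M => M * (g⁻¹).1) h2
    simp only [smul_mul_assoc, Units.mul_inv] at h3
    have := congrFun (congrFun h3 0) 0
    simpa using this.symm
  have h2 : (g.1 * g.1) * J = J * (g.1 * g.1) := by
    rw [Matrix.mul_assoc, h1, mul_smul_comm, ← Matrix.mul_assoc, h1, smul_mul_assoc, smul_smul, hcc, one_smul,
      Matrix.mul_assoc]
  set M := g.1 * g.1 with hM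
  have h3 : M = M 0 0 • (1 : Matrix (Fin 2) (Fin 2) (ZMod q)) + M 0 1 • J := by
    have e1 := congrFun (congrFun h2 0) 0
    have e2 := congrFun (congrFun h2 0) 1
    rw [hJ, JJ_val] at e1 e2 ⊢
    simp [Matrix.mul_apply, Fin.sum_univ_two] at e1 e2
    ext i j
    fin_cases i <;> fin_cases j <;> simp [e2, ← e1]
  have hJq : J ^ q = -J := by
    have e4 : J ^ 4 = 1 := by
      rw [show J ^ 4 = (J * J) * (J * J) by simp only [pow_succ, pow_zero, one_mul, mul_assoc], hJJ]; simp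
    have e5 : J ^ q = J ^ (4 * (q / 4) + q % 4) := by rw [Nat.div_add_mod]
    rw [e5, pow_add, pow_mul, e4, one_pow, one_mul, h4, pow_succ, pow_two, hJJ, neg_mul, one_mul]
  have h5 : M ^ q = M 0 0 • (1 : Matrix (Fin 2) (Fin 2) (ZMod q)) - M 0 1 • J := by
    haveI : CharP (Matrix (Fin 2) (Fin 2) (ZMod q)) q := inferInstance
    conv_lhs => rw [h3]
    rw [add_pow_char_of_commute _ ((Commute.one_left _).smul_left _), smul_pow, smul_pow, ZMod.pow_card, ZMod.pow_card,
      one_pow, hJq, smul_neg, sub_eq_add_neg]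
  rw [← map_pow, QuotientGroup.mk'_apply, QuotientGroup.eq_one_iff, cen_iff]
  refine ⟨M 0 0 ^ 2 + M 0 1 ^ 2, ?_⟩
  rw [Units.val_pow_eq_pow_val, pow_succ' 2, pow_mul, pow_two g.1, ← hM, ← hk, pow_succ, h5]
  generalize M 0 0 = a at h3 ⊢
  generalize M 0 1 = b at h3 ⊢
  rw [h3]
  simp only [sub_mul, mul_add, smul_mul_assoc, mul_smul_comm, one_mul, mul_one, hJJ]
  module

theorem common {F : Type*} [Field F] (h2 : (2 : F) ≠ 0) (hF : ∀ x y : F, x ^ 2 + y ^ 2 = 0 → x = 0 ∧ y = 0)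
    (g : GL (Fin 2) F) : ∃ u, u ≠ 1 ∧ u ∈ centralizer {QuotientGroup.mk' (center (GL (Fin 2) F)) (JJ F)} ∧
      u ∈ centralizer {QuotientGroup.mk' (center (GL (Fin 2) F)) (g * JJ F * g⁻¹)} := by
  set J := (JJ F).1 with hJ
  have hJJ : J * J = -1 := JJ_sq _
  set B := (g * JJ F * g⁻¹).1 with hB
  have hBB : B * B = -1 := by
    have e : g * JJ F * g⁻¹ * (g * JJ F * g⁻¹) = g * (JJ F * JJ F) * g⁻¹ := by group
    rw [hB, ← Units.val_mul, e, Units.val_mul, Units.val_mul, Units.val_mul, ← hJ, hJJ]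
    simp
  set U := J * B - B * J with hU
  have hUJ : U * J = -(J * U) := by
    rw [hU, sub_mul, mul_sub, mul_assoc B, hJJ, ← mul_assoc J J, hJJ, mul_assoc]; noncomm_ring
  have hUB : U * B = -(B * U) := by
    rw [hU, sub_mul, mul_sub, mul_assoc J, hBB, ← mul_assoc B B, hBB, mul_assoc]; noncomm_ring
  have hne : ∀ a : GL (Fin 2) F, QuotientGroup.mk' (center (GL (Fin 2) F)) a = 1 → a.1 0 1 = 0 ∧ a.1 0 0 = a.1 1 1 := by
    intro a ha
    obtain ⟨c, hc⟩ := cen_iff.1 ((QuotientGroup.eq_one_iff _).1 ha)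
    simp [hc]
  have e1 := congrFun (congrFun hUJ 0) 0
  have e2 := congrFun (congrFun hUJ 0) 1
  rw [hJ, JJ_val] at e1 e2
  simp only [Matrix.mul_apply, Fin.sum_univ_two, Matrix.neg_apply] at e1 e2
  simp at e1 e2
  by_cases hd : U.det = 0
  · have := hF (U 0 0) (U 0 1) (by rw [det_fin_two] at hd; linear_combination -hd + U 0 0 * e2 + U 0 1 * e1)
    have hU0 : U = 0 := by
      ext i j
      fin_cases i <;> fin_cases j
      · exact this.1
      · exact this.2
      · exact e1 ▸ this.2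
      · simpa [this.1] using e2.symm
    refine ⟨QuotientGroup.mk' _ (JJ F), fun h => ?_, mem_centralizer_singleton_iff.2 rfl,
      mem_centralizer_singleton_iff.2 ?_⟩
    · simpa [JJ_val] using (hne _ h).1
    · rw [← map_mul, ← map_mul]
      congr 1
      exact Units.ext (sub_eq_zero.1 hU0)
  · refine ⟨QuotientGroup.mk' _ (GeneralLinearGroup.mkOfDetNeZero U hd), fun h => hd ?_,
      mem_centralizer_singleton_iff.2 (comm_of_anti hUJ), mem_centralizer_singleton_iff.2 (comm_of_anti hUB)⟩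
    obtain ⟨f1, f2⟩ := hne _ h
    change U 0 1 = 0 at f1
    change U 0 0 = U 1 1 at f2
    have : U 0 0 = 0 := (mul_eq_zero.1 (show 2 * U 0 0 = 0 by linear_combination e2 + f2)).resolve_left h2
    rw [det_fin_two, f1, this]; ring

end

/-- Let q = 2^k − 1 ≥ 7 be a prime and let G = PGL(2,q), the general linear group of degree 2 over the field with q elements modulo its centre. Then any two Sylow 2-subgroups of G have a non-trivial intersection: for a Sylow 2-subgroup H and every x ∈ G, H ∩ H^x ≠ 1. -/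
theorem result {q k : ℕ} [Fact q.Prime] (hk : q + 1 = 2 ^ k) (hq : 7 ≤ q)
    (H : Sylow 2 (GL (Fin 2) (ZMod q) ⧸ Subgroup.center (GL (Fin 2) (ZMod q))))
    (x : GL (Fin 2) (ZMod q) ⧸ Subgroup.center (GL (Fin 2) (ZMod q))) :
    (H : Subgroup (GL (Fin 2) (ZMod q) ⧸ Subgroup.center (GL (Fin 2) (ZMod q)))) ⊓ MulAut.conj x • (H : Subgroup _) ≠ ⊥ := by
  open Subgroup in
  have hk2 : 2 ≤ k := by
    by_contra h
    have : 2 ^ k ≤ 2 ^ 1 := Nat.pow_le_pow_right (by norm_num) (by omega)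
    omega
  have h4 : q % 4 = 3 := by
    have : 2 ^ 2 ∣ 2 ^ k := pow_dvd_pow 2 hk2
    omega
  have h2 : (2 : ZMod q) ≠ 0 := by
    intro h
    have := Nat.le_of_dvd two_pos ((ZMod.natCast_eq_zero_iff 2 q).1 (by exact_mod_cast h))
    omega
  have hF : ∀ x y : ZMod q, x ^ 2 + y ^ 2 = 0 → x = 0 ∧ y = 0 := by
    intro x y h
    by_cases hy : y = 0
    · rw [hy] at h
      exact ⟨by simpa using h, hy⟩
    · exact absurd h4 (ZMod.mod_four_ne_three_of_sq_eq_neg_sq' hy (eq_neg_of_add_eq_zero_left h))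
  obtain ⟨P, hP⟩ := (two_group hk h4).exists_le_sylow
  obtain ⟨h, rfl⟩ := MulAction.exists_smul_eq (GL (Fin 2) (ZMod q) ⧸ Subgroup.center (GL (Fin 2) (ZMod q))) P H
  obtain ⟨g, hg⟩ := QuotientGroup.mk'_surjective _ (h⁻¹ * x * h)
  obtain ⟨u, hu1, hu2, hu3⟩ := common h2 hF g
  rw [map_mul, map_mul, map_inv, hg, mem_centralizer_singleton_iff] at hu3
  intro hbot
  have : h * u * h⁻¹ ∈ ((h • P : Sylow 2 _) : Subgroup _) ⊓ MulAut.conj x • ((h • P : Sylow 2 _) : Subgroup _) := by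
    rw [Sylow.coe_subgroup_smul, mem_inf, mem_pointwise_smul_iff_inv_smul_mem, mem_pointwise_smul_iff_inv_smul_mem,
      mem_pointwise_smul_iff_inv_smul_mem]
    simp only [← map_inv, MulAut.smul_def, MulAut.conj_apply, inv_inv]
    refine ⟨hP (by simpa [mul_assoc] using hu2), hP (mem_centralizer_singleton_iff.2 ?_)⟩
    generalize QuotientGroup.mk' (center (GL (Fin 2) (ZMod q))) (JJ (ZMod q)) = t at hu3 ⊢
    calc _ = (h⁻¹ * x * h)⁻¹ * (u * (h⁻¹ * x * h * t * (h⁻¹ * x * h)⁻¹)) * (h⁻¹ * x * h) := by group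
      _ = _ := by rw [hu3]; group
  rw [hbot, mem_bot] at this
  exact hu1 (by simpa using this)

end Cfsg.Agent.S2485
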