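import Cfsg.Statements.S2488
import Cfsg.Agent.H7.GK

set_option autoImplicit false
open scoped Pointwise
open Cfsg

namespace Cfsg.Agent.S2488
open Equiv
open scoped Pointwise

def L : List (Perm (Fin 6)) := [swap 0 1 * swap 2 3, swap 0 1 * swap 2 4, swap 0 1 * swap 2 5, swap 0 1 * swap 3 4, swap 0 1 * swap 3 5, swap 0 1 * swap 4 5, swap 0 2 * swap 1 3, swap 0 2 * swap 1 4, swap 0 2 * swap 1 5, swap 0 2 * swap 3 4, swap 0 2 * swap 3 5, swap 0 2 * swap 4 5, swap 0 3 * swap 1 2, swap 0 3 * swap 1 4, swap 0 3 * swap 1 5, swap 0 3 * swap 2 4, swap 0 3 * swap 2 5, swap 0 3 * swap 4 5, swap 0 4 * swap 1 2, swap 0 4 * swap 1 3, swap 0 4 * swap 1 5, swap 0 4 * swap 2 3, swap 0 4 * swap 2 5, swap 0 4 * swap 3 5, swap 0 5 * swap 1 2, swap 0 5 * swap 1 3, swap 0 5 * swap 1 4, swap 0 5 * swap 2 3, swap 0 5 * swap 2 4, swap 0 5 * swap 3 4, swap 1 2 * swap 3 4, swap 1 2 * swap 3 5, swap 1 2 * swap 4 5, swap 1 3 * swap 2 4, swap 1 3 * swap 2 5, swap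 1 3 * swap 4 5, swap 1 4 * swap 2 3, swap 1 4 * swap 2 5, swap 1 4 * swap 3 5, swap 1 5 * swap 2 3, swap 1 5 * swap 2 4, swap 1 5 * swap 3 4, swap 2 3 * swap 4 5, swap 2 4 * swap 3 5, swap 2 5 * swap 3 4]

theorem inv_mem_L : ∀ x : Perm (Fin 6), x * x = 1 → x ≠ 1 → x.sign = 1 → x ∈ L := by decide +kernel

theorem ord6 : ∀ x : Perm (Fin 6), x * x * x = 1 ∨ x * x * (x * x) = 1 ∨ x * x * (x * x) * x = 1 ∨ x.sign ≠ 1 := by
  decide +kernel

theorem cnt : ((L ×ˢ L).filter fun a => a.1 * a.2 * (a.1 * a.2) * (a.1 * a.2) = 1).length < 1440 ∧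
    ((L ×ˢ L).filter fun a => ¬ a.1 * a.2 * (a.1 * a.2) * (a.1 * a.2) = 1).length < 1440 := by decide +kernel


/-- Let G be a finite group with a normal subgroup N of index 4 isomorphic to the alternating group of degree 6 and with trivial centralizer in G (so G is the full automorphism group of A₆). Then any two Sylow 2-subgroups of G have a non-trivial intersection: for a Sylow 2-subgroup H and every x ∈ G, H ∩ H^x ≠ 1. -/
theorem result {G : Type*} [Group G] [Finite G] (N : Subgroup G) [N.Normal]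
    (e : N ≃* alternatingGroup (Fin 6)) (hidx : N.index = 4)
    (hC : Subgroup.centralizer (N : Set G) = ⊥)
    (H : Sylow 2 G) (x : G) :
    (H : Subgroup G) ⊓ MulAut.conj x • (H : Subgroup G) ≠ ⊥ := by
  classical
  have cN : Nat.card N = 360 := by
    have := two_mul_nat_card_alternatingGroup (α := Fin 6)
    rw [Nat.card_perm, Nat.card_eq_fintype_card (α := Fin 6), Fintype.card_fin, ← Nat.card_congr e.toEquiv] at this
    norm_num [Nat.factorial] at this; omega
  have cG : Nat.card G = 1440 := by rw [← N.card_mul_index, cN, hidx]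
  let φ : N →* Perm (Fin 6) := (alternatingGroup (Fin 6)).subtype.comp e.toMonoidHom
  have hφ : Function.Injective φ := Subtype.val_injective.comp e.injective
  have sφ : ∀ n, (φ n).sign = 1 := fun n => (e n).2
  -- a central involution of `H` in `N`
  obtain ⟨z, zN, zH, z1, z2, zc⟩ : ∃ z ∈ N, z ∈ (H : Subgroup G) ∧ z ≠ 1 ∧ z * z = 1 ∧ ∀ h ∈ (H : Subgroup G), h * z = z * h := by
    have h1 : (H : Subgroup G) ⊓ N ≠ ⊥ := fun h => by
      have h2 : Function.Injective ((QuotientGroup.mk' N).comp (H : Subgroup G).subtype) := by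
        rw [injective_iff_map_eq_one]
        intro a ha
        exact Subtype.ext (h.le ⟨a.2, (QuotientGroup.eq_one_iff _).1 ha⟩)
      have h3 := Subgroup.card_dvd_of_injective _ h2
      have h4 := (H : Subgroup G).card_mul_index
      have h5 := H.not_dvd_index
      rw [← Subgroup.index_eq_card, hidx] at h3
      have := Nat.le_of_dvd (by norm_num) h3
      rw [cG] at h4
      generalize Nat.card H = a at *
      interval_cases a <;> omega
    have h2 := H7.pgroup_inf_cen_ne_bot' H.isPGroup' (H.isPGroup'.to_le inf_le_left)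
      (H7.nrm_inf (H7.le_nrm_self _) (H7.le_nrm_of_normal _ N)) h1
    obtain ⟨⟨w, hw⟩, w1⟩ := Subgroup.ne_bot_iff_exists_ne_one.1 h2
    obtain ⟨k, hk⟩ := IsPGroup.iff_orderOf.1 H.isPGroup' ⟨w, hw.1.1⟩
    rw [← Subgroup.orderOf_coe] at hk
    have w1' : w ≠ 1 := fun h => w1 (Subtype.ext h)
    have k0 : k ≠ 0 := by rintro rfl; exact w1' (by simpa using hk)
    have ho := orderOf_pow_orderOf_div (orderOf_pos w).ne' (show 2 ∣ orderOf w from hk ▸ dvd_pow_self 2 k0)
    refine ⟨w ^ (orderOf w / 2), pow_mem hw.1.2 _, pow_mem hw.1.1 _, fun h => by simp [h] at ho,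
      by have := pow_orderOf_eq_one (w ^ (orderOf w / 2)); rwa [ho, pow_two] at this, fun h hh => (Commute.pow_right (hw.2 h hh) _).eq⟩
  have hp : IsPGroup 2 (Subgroup.centralizer {z}) := by
    refine IsPGroup.of_card (Nat.eq_prime_pow_of_unique_prime_dvd Nat.card_pos.ne' fun {l} hl hd => ?_)
    haveI := Fact.mk hl
    obtain ⟨⟨c, hc⟩, oc⟩ := exists_prime_orderOf_dvd_card' l hd
    rw [← Subgroup.orderOf_coe] at oc
    by_contra hne
    obtain ⟨m, hm⟩ := hl.odd_of_ne_two hne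
    have cc : Commute c z := Subgroup.mem_centralizer_singleton_iff.1 hc
    have cl : c ^ l = 1 := oc ▸ pow_orderOf_eq_one c
    have co : Nat.Coprime l 4 := (Nat.coprime_two_right.2 ⟨m, hm⟩).pow_right 2
    have c4 : c ^ 4 ≠ 1 := fun h => hl.one_lt.ne' (Nat.Coprime.eq_one_of_dvd co (oc ▸ orderOf_dvd_of_pow_eq_one h))
    have cN : c ∈ N := by
      have h4 : c ∈ Subgroup.zpowers (c ^ N.index) := by rw [mem_zpowers_pow_iff, hidx]; exact oc ▸ co.symm
      exact (Subgroup.zpowers_le.2 (N.pow_index_mem c)) h4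
    have z2' : z ^ 2 = 1 := by rw [pow_two, z2]
    have odd : ∀ j, (c * z) ^ (2 * j + 1) ≠ 1 := fun j h => by
      have h1 := congrArg (· ^ l) h
      simp only [one_pow] at h1
      rw [← pow_mul, cc.mul_pow, mul_comm (2 * j + 1), pow_mul, cl, one_pow, one_mul, hm,
        show (2 * m + 1) * (2 * j + 1) = 2 * (2 * m * j + m + j) + 1 by ring, pow_succ, pow_mul, z2', one_pow, one_mul] at h1
      exact z1 h1
    have back : ∀ n, φ ⟨c * z, mul_mem cN zN⟩ ^ n = 1 → (c * z) ^ n = 1 := fun n h =>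
      congrArg Subtype.val (hφ (by rw [map_pow, h, map_one]) : (⟨c * z, mul_mem cN zN⟩ : N) ^ n = 1)
    rcases ord6 (φ ⟨c * z, mul_mem cN zN⟩) with h | h | h | h
    · exact odd 1 (back 3 (by rw [← h]; simp [pow_succ]))
    · have := back 4 (by rw [← h]; simp [pow_succ, mul_assoc])
      rw [cc.mul_pow, show z ^ 4 = (z ^ 2) ^ 2 by rw [← pow_mul], z2', one_pow, mul_one] at this
      exact c4 this
    · exact odd 2 (back 5 (by rw [← h]; simp [pow_succ, mul_assoc]))
    · exact h (sφ _)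
  have hH : Subgroup.centralizer {z} = H :=
    H.is_maximal' hp fun h hh => Subgroup.mem_centralizer_singleton_iff.2 (zc h hh)
  let ψ : G → G → Perm (Fin 6) := fun a g => φ ⟨g * (a * z * a⁻¹) * g⁻¹, Subgroup.Normal.conj_mem ‹_› _
    (Subgroup.Normal.conj_mem ‹_› _ zN a) g⟩
  have hL : ∀ a g, ψ a g ∈ L := fun a g => inv_mem_L _
    (by rw [← map_mul, ← map_one φ]; congr 1; apply Subtype.ext; simp [mul_assoc, ← mul_assoc z z, z2])
    (fun h => z1 (by simpa using congrArg Subtype.val (hφ (h.trans (map_one φ).symm)))) (sφ _)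
  have hq : ∀ g, ψ 1 g * ψ x g * (ψ 1 g * ψ x g) * (ψ 1 g * ψ x g) = 1 ↔
      z * (x * z * x⁻¹) * (z * (x * z * x⁻¹)) * (z * (x * z * x⁻¹)) = 1 := fun g => by
    simp only [ψ, ← map_mul]
    rw [← map_one φ, hφ.eq_iff, Subtype.ext_iff, ← conj_eq_one_iff (a := g)]
    simp [mul_assoc]
  obtain ⟨g, k, hne, hgk⟩ : ∃ g k : G, g ≠ k ∧ (ψ 1 g, ψ x g) = (ψ 1 k, ψ x k) := by
    haveI := Fintype.ofFinite G
    have key : ∀ l : List (Perm (Fin 6) × Perm (Fin 6)), l.length < 1440 → (∀ g, (ψ 1 g, ψ x g) ∈ l) →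
        ∃ g k : G, g ≠ k ∧ (ψ 1 g, ψ x g) = (ψ 1 k, ψ x k) := fun l h1 h2 => by
      obtain ⟨g, -, k, -, h⟩ := Finset.exists_ne_map_eq_of_card_lt_of_maps_to (s := Finset.univ) (t := l.toFinset)
        (f := fun g => (ψ 1 g, ψ x g)) (by
          rw [Finset.card_univ, ← Nat.card_eq_fintype_card, cG]; exact (List.toFinset_card_le l).trans_lt h1)
        (fun g _ => by simpa using h2 g)
      exact ⟨g, k, h⟩
    by_cases h : z * (x * z * x⁻¹) * (z * (x * z * x⁻¹)) * (z * (x * z * x⁻¹)) = 1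
    · exact key _ cnt.1 fun g => List.mem_filter.2 ⟨List.pair_mem_product.2 ⟨hL _ _, hL _ _⟩, decide_eq_true ((hq g).2 h)⟩
    · exact key _ cnt.2 fun g => List.mem_filter.2 ⟨List.pair_mem_product.2 ⟨hL _ _, hL _ _⟩,
        decide_eq_true (mt (hq g).1 h)⟩
  have e1 : g * (1 * z * 1⁻¹) * g⁻¹ = k * (1 * z * 1⁻¹) * k⁻¹ := congrArg Subtype.val (hφ (congrArg Prod.fst hgk))
  have e2 : g * (x * z * x⁻¹) * g⁻¹ = k * (x * z * x⁻¹) * k⁻¹ := congrArg Subtype.val (hφ (congrArg Prod.snd hgk))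
  intro hb
  have : k⁻¹ * g ∈ (⊥ : Subgroup G) := by
    rw [← hb, ← hH]
    refine ⟨Subgroup.mem_centralizer_singleton_iff.2 ?_, ?_⟩
    · calc k⁻¹ * g * z = k⁻¹ * (g * (1 * z * 1⁻¹) * g⁻¹) * g := by group
        _ = z * (k⁻¹ * g) := by rw [e1]; group
    · show k⁻¹ * g ∈ MulAut.conj x • Subgroup.centralizer {z}
      rw [Subgroup.mem_pointwise_smul_iff_inv_smul_mem, Subgroup.mem_centralizer_singleton_iff]
      show x⁻¹ * (k⁻¹ * g) * x * z = z * (x⁻¹ * (k⁻¹ * g) * x)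
      calc _ = x⁻¹ * k⁻¹ * (g * (x * z * x⁻¹) * g⁻¹) * g * x := by group
        _ = _ := by rw [e2]; group
  exact hne (inv_mul_eq_one.1 this).symm

end Cfsg.Agent.S2488
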