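import Cfsg.Statements.S2490
import Mathlib
import Cfsg.Agent.H8.ME

set_option autoImplicit false
open Cfsg

namespace Cfsg.Agent.S2490

/-- Let G be a finite group of order 7920 = 2⁴·3²·5·11 (the order of the smallest Mathieu group) and suppose its prime graph (vertices the prime divisors of the order, distinct p, q joined when there is an element of order pq) is disconnected: the prime divisors split into two non-empty parts with no element of order pq for p in one part and q in the other. Then G is simple. -/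
theorem result {G : Type*} [Group G] [Finite G] (hord : Nat.card G = 7920)
    (hdisc : (∃ A : Set ℕ, (∃ a ∈ A, a.Prime ∧ a ∣ Nat.card G) ∧ (∃ b ∉ A, b.Prime ∧ b ∣ Nat.card G) ∧
      ∀ a ∈ A, ∀ b ∉ A, a.Prime → b.Prime → a ∣ Nat.card G → b ∣ Nat.card G → ¬ ∃ g : G, orderOf g = a * b)) :
    IsSimpleGroup G := by
  haveI : Fact (Nat.Prime 11) := ⟨by norm_num⟩
  haveI : Fact (Nat.Prime 5) := ⟨by norm_num⟩
  refine (H8.n11_cases hord).resolve_right fun h => ?_
  obtain ⟨A, ⟨a, a1, a2, a3⟩, ⟨b, b1, b2, b3⟩, hA⟩ := hdisc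
  have ed : ∀ (x y : G) (p q : ℕ), p.Prime → q.Prime → p ≠ q → orderOf x = p → orderOf y = q →
      Commute x y → (p ∈ A ↔ q ∈ A) := fun x y p q hp hq n hx hy c => by
    have e := c.orderOf_mul_eq_mul_orderOf_of_coprime (by
      rw [hx, hy]; exact (Nat.coprime_primes hp hq).2 n)
    rw [hx, hy] at e
    have d1 := hx ▸ orderOf_dvd_natCard x
    have d2 := hy ▸ orderOf_dvd_natCard y
    exact ⟨fun h => by_contra fun h' => hA p h q h' hp hq d1 d2 ⟨_, e⟩,
      fun h => by_contra fun h' => hA q h p h' hq hp d2 d1 ⟨_, e.trans (mul_comm _ _)⟩⟩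
  have ex : ∀ (K : Subgroup G) (p : ℕ), p.Prime → p ∣ Nat.card K → ∃ x ∈ K, orderOf x = p :=
    fun K p hp hd => by
      haveI := Fact.mk hp
      obtain ⟨x, hx⟩ := exists_prime_orderOf_dvd_card' (G := K) p hd
      exact ⟨x, x.2, (Subgroup.orderOf_coe x).trans hx⟩
  obtain ⟨P⟩ : Nonempty (Sylow 11 G) := inferInstance
  have c := (H8.card_sylow_pow (k := 1) (m := 720) (hord.trans (by norm_num))
    (by norm_num) P).1.trans (pow_one 11)
  obtain ⟨z, hz, oz⟩ := ex P 11 Fact.out c.symm.dvd
  have h2 := H7.card_le_relIndex_mul (H9.cen (P : Subgroup G)) (H9.nrm (P : Subgroup G))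
  have h3 := H8.relIndex_centralizer_normalizer_dvd_of_prime _ (by norm_num) c
  have h4 := (H9.nrm (P : Subgroup G)).card_mul_index
  rw [inf_eq_left.2 (Subgroup.centralizer_le_normalizer _)] at h2
  rw [hord, show (H9.nrm (P : Subgroup G)).index = _ from P.card_eq_index_normalizer.symm] at h4
  have h5 : 660 ∣ Nat.card (H9.nrm (P : Subgroup G)) := by rcases h with h | h <;> rw [h] at h4 <;> omega
  have h6 : 66 ∣ Nat.card (H9.cen (P : Subgroup G)) :=
    Nat.dvd_of_mul_dvd_mul_left (k := 10) (by norm_num) (h5.trans (h2 ▸ Nat.mul_dvd_mul_right h3 _))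
  have k : ∀ p : ℕ, p.Prime → p ≠ 11 → p ∣ Nat.card (H9.cen (P : Subgroup G)) → (p ∈ A ↔ 11 ∈ A) :=
    fun p hp n hd => by
      obtain ⟨x, hx, ox⟩ := ex _ p hp hd
      exact ed x z p 11 hp Fact.out n ox oz (Subgroup.mem_centralizer_iff.1 hx z hz).symm
  have k2 := k 2 Nat.prime_two (by norm_num) (by omega)
  have k3 := k 3 Nat.prime_three (by norm_num) (by omega)
  have k5 : 5 ∈ A ↔ 11 ∈ A := by
    by_cases h7 : 5 ∣ Nat.card (H9.cen (P : Subgroup G))
    · exact k 5 Fact.out (by norm_num) h7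
    obtain ⟨u, hu, ou⟩ := ex (H9.nrm (P : Subgroup G)) 5 Fact.out (by omega)
    have h8 := H8.cop_part (p := 5) (P := Subgroup.zpowers u) (K := H9.cen (P : Subgroup G))
      (IsPGroup.of_card (n := 1) (by rw [Nat.card_zpowers, ou, pow_one]))
      (Nat.coprime_comm.1 ((Nat.Prime.coprime_iff_not_dvd Fact.out).2 h7))
      (H7.nrm_cen (Subgroup.zpowers_le.2 hu)) Nat.prime_three
    have h9 := H7.card_le_relIndex_mul (H9.cen (Subgroup.zpowers u)) (H9.cen (P : Subgroup G))
    have h0 : (H9.cen (Subgroup.zpowers u)).relIndex (H9.cen (P : Subgroup G)) ≠ 0 :=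
      Subgroup.index_ne_zero_of_finite
    have h10 := ((Nat.ordProj_dvd _ 3).trans (Subgroup.relIndex_dvd_card (H9.cen (Subgroup.zpowers u))
      (H9.cen (P : Subgroup G)))).trans (hord ▸ Subgroup.card_subgroup_dvd_card _)
    have h11 : ¬ 3 ∣ (H9.cen (Subgroup.zpowers u)).relIndex (H9.cen (P : Subgroup G)) := fun e => by
      have := Nat.prime_three.factorization_pos_of_dvd h0 e
      generalize Nat.factorization _ 3 = n at h8 h10 this
      have : n < 3 := by
        by_contra hc
        have := (pow_dvd_pow 3 (not_lt.1 hc)).trans h10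
        norm_num at this
      interval_cases n <;> simp [Nat.ModEq] at h8
    obtain ⟨x, hx, ox⟩ := ex _ 3 Nat.prime_three ((Nat.prime_three.dvd_mul.1
      (h9 ▸ (by omega : 3 ∣ Nat.card (H9.cen (P : Subgroup G))))).resolve_left h11)
    exact (ed u x 5 3 Fact.out Nat.prime_three (by norm_num) ou ox
      (Subgroup.mem_centralizer_iff.1 hx.1 u (Subgroup.mem_zpowers u))).trans k3
  have pr : ∀ q : ℕ, q.Prime → q ∣ Nat.card G → (q ∈ A ↔ 11 ∈ A) := fun q hq hd => by
    have : q ∈ Nat.primeFactors 7920 := Nat.mem_primeFactors.2 ⟨hq, hord ▸ hd, by norm_num⟩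
    rw [show Nat.primeFactors 7920 = {2, 3, 5, 11} by decide +kernel] at this
    simp only [Finset.mem_insert, Finset.mem_singleton] at this
    rcases this with rfl | rfl | rfl | rfl
    exacts [k2, k3, k5, Iff.rfl]
  exact b1 ((pr b b2 b3).2 ((pr a a2 a3).1 a1))

end Cfsg.Agent.S2490
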