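import Cfsg.Statements.S2503
import Cfsg.Agent.H4.Cls3

set_option autoImplicit false
open Cfsg

namespace Cfsg.Agent.S2503

open H4 OnePoint in
open scoped MatrixGroups in
lemma key {F : Type*} [Field F] [Finite F] [DecidableEq F] (h2 : (2 : F) = 0)
    {x y : OnePoint (Kb F)} (h : Stable x y (Nat.card F + 1)) (g : PGL(2, F)) :
    ∃ a ∈ Tsub x y, ∃ b ∈ Usub (∞ : OnePoint F), ∃ c ∈ Tsub x y, g = a * b * c := by
  classical
  have hq : 1 < Nat.card F := Finite.one_lt_card
  obtain ⟨hxy, h' | ⟨f1, f2, -⟩⟩ := id h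
  · omega
  have h2' : (2 : Kb F) = 0 := by rw [← map_ofNat (algebraMap F (Kb F)), h2, map_zero]
  have hinf : ∀ z : OnePoint (Kb F), Fr z ≠ z → ∃ w : Kb F, z = w := fun z hz => by
    induction z with
    | infty => exact absurd rfl hz
    | coe w => exact ⟨w, rfl⟩
  have hfix : ∀ k : PGL(2, F), k • x = x → k ∈ Tsub x y := fun k hk =>
    ⟨hk, by rw [← f1, smul_Fr, hk]⟩
  obtain ⟨x, rfl⟩ := hinf x (f1 ▸ hxy.symm)
  obtain ⟨y, rfl⟩ := hinf y (f2 ▸ hxy)
  have hz : Fr (g • (x : OnePoint (Kb F))) ≠ g • (x : OnePoint (Kb F)) := by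
    rw [← smul_Fr, f1]; exact fun e => hxy (MulAction.injective g e).symm
  obtain ⟨z, e⟩ := hinf _ hz
  rw [e] at hz
  by_cases hzx : z = x
  · exact ⟨1, one_mem _, 1, one_mem _, g, hfix g (by rw [e, hzx]), by simp⟩
  have hxy' : x ≠ y := fun e => hxy (by rw [e])
  have g1 : frobK F x = y := OnePoint.coe_injective f1
  have g2 : frobK F y = x := OnePoint.coe_injective f2
  have g3 : frobK F z ≠ z := fun e => hz (congrArg _ e)
  have g4 : frobK F (frobK F z) = z := by
    have : Fr (Fr (g • (x : OnePoint (Kb F)))) = g • (x : OnePoint (Kb F)) := by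
      rw [← smul_Fr, ← smul_Fr, f1, f2]
    rw [e] at this
    exact OnePoint.coe_injective this
  have hzx' : z - x ≠ 0 := sub_ne_zero.2 hzx
  have hzy' : frobK F z - y ≠ 0 := by rw [← g1, ← map_sub]; exact (map_ne_zero _).2 hzx'
  have hd : x * 1 - y * 1 ≠ 0 := by simpa [sub_eq_zero] using hxy'
  set w := (z - y) / (z - x) with hw
  have hw' : frobK F w = (frobK F z - x) / (frobK F z - y) := by
    rw [hw, map_div₀, map_sub, map_sub, g1, g2]
  have hww : frobK F (frobK F w) = w := by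
    rw [hw', map_div₀, map_sub, map_sub, g1, g2, g4]
  obtain ⟨N, hN⟩ := mem_range_of_pow_card (algebraMap F (Kb F)) (t := w * frobK F w)
    (by rw [← frobK_apply, map_mul, hww, mul_comm])
  obtain ⟨δ, hδ⟩ := mem_range_of_pow_card (algebraMap F (Kb F)) (t := x + y)
    (by rw [← frobK_apply, map_add, g1, g2, add_comm])
  haveI := Fintype.ofFinite F
  obtain ⟨r, rfl⟩ := FiniteField.isSquare_of_char_two (F := F) (by
    rw [FiniteField.even_card_iff_char_two, ← Nat.card_eq_fintype_card, ← Nat.even_iff,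
      ← Nat.not_odd_iff_even, ← two_ne_zero_iff_odd]; exact fun h => h h2) N
  rw [map_mul] at hN
  set r' := algebraMap F (Kb F) r with hr'
  have hr1 : r' + 1 ≠ 0 := fun e => by
    rw [hw', hw] at hN
    field_simp at hN
    have : (x - y) * (frobK F z - z) = 0 := by grind
    rcases mul_eq_zero.1 this with e | e
    · exact hxy' (sub_eq_zero.1 e)
    · exact g3 (sub_eq_zero.1 e)
  obtain ⟨a, ha, ha'⟩ : ∃ a : (Kb F)ˣ, a ^ (Nat.card F + 1) = 1 ∧ w = a * r' := by
    by_cases hr : r' = 0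
    · refine ⟨1, one_pow _, ?_⟩
      rw [hr, mul_zero] at hN ⊢
      rcases mul_eq_zero.1 hN.symm with e | e
      · exact e
      · exact (map_eq_zero _).1 e
    · have hw0 : w ≠ 0 := by rintro e; rw [e, zero_mul] at hN; exact mul_ne_zero hr hr hN
      refine ⟨Units.mk0 (w / r') (div_ne_zero hw0 hr), Units.ext ?_, by simp [hr]⟩
      rw [Units.val_pow_eq_pow_val, Units.val_mk0, pow_succ, ← frobK_apply, map_div₀,
        frobK_algebraMap, ← hr', Units.val_one]
      field_simp
      linear_combination -hN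
  have m1 : mob x y 1 1 hd • (∞ : OnePoint (Kb F)) = x := by simp [mob_smul_infty]
  have m2 : mob x y 1 1 hd • ((0 : Kb F) : OnePoint (Kb F)) = y := by simp [mob_smul_coe]
  obtain ⟨t, ht⟩ := ((h.rational m1 m2).1 a).2 ha
  have hT : t ∈ Tsub (x : OnePoint (Kb F)) y := hfix t (by
    rw [kb_smul, ht, mul_smul, mul_smul, ← m1, inv_smul_smul, aff_smul_infty])
  have m3 : mob x y 1 1 hd • (r' : OnePoint (Kb F)) = aff 1 (δ / (r + 1)) • (x : OnePoint (Kb F)) := by
    rw [mob_smul_coe, if_neg (by rwa [one_mul]), kb_smul, iota, pgl_map_aff, aff_smul_coe]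
    congr 1
    simp only [map_one, map_div₀, map_add, hδ, ← hr', Units.val_one, one_mul]
    field_simp
    grind
  have hw1 : w + 1 ≠ 0 := fun e => by
    rw [hw] at e; field_simp at e; exact hxy' (by grind)
  have m4 : mob x y 1 1 hd • (w : OnePoint (Kb F)) = z := by
    rw [mob_smul_coe, if_neg (by rwa [one_mul])]
    congr 1
    rw [one_mul, div_eq_iff hw1, hw]
    field_simp
    grind
  refine ⟨t, hT, aff 1 (δ / (r + 1)), isU_aff.2 rfl, (t * aff 1 (δ / (r + 1)))⁻¹ * g, hfix _ ?_,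
    by simp [mul_assoc]⟩
  rw [mul_smul, inv_smul_eq_iff, e, mul_smul, ← m3, kb_smul, ht, mul_smul, mul_smul, inv_smul_smul,
    aff_smul_coe, add_zero, ← ha', m4]

/-- Let F be a finite field with q = 2^t ≥ 4 elements and L = PSL(2,F). Then L has a cyclic subgroup A of order q + 1 and an elementary abelian 2-subgroup B of order q such that L = ABA: every element of L is a product a·b·a' with a, a' ∈ A and b ∈ B. -/
theorem result {F : Type*} [Field F] [Fintype F]
    (h2 : 2 ∣ Fintype.card F) (h4 : 4 ≤ Fintype.card F) :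
    ∃ A B : Subgroup (Matrix.ProjectiveSpecialLinearGroup (Fin 2) F),
      IsCyclic A ∧ Nat.card A = Fintype.card F + 1 ∧ IsMulCommutative B ∧ (∀ b ∈ B, b * b = 1) ∧
        Nat.card B = Fintype.card F ∧
        ∀ g : Matrix.ProjectiveSpecialLinearGroup (Fin 2) F, ∃ a ∈ A, ∃ b ∈ B, ∃ c ∈ A, g = a * b * c := by
  classical
  rw [← Nat.card_eq_fintype_card] at *
  have hq : Even (Nat.card F) := even_iff_two_dvd.2 h2
  have h0 : (2 : F) = 0 := by
    by_contra h; exact Nat.not_odd_iff_even.2 hq (H4.two_ne_zero_iff_odd.1 h)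
  haveI : CharP F 2 := CharTwo.of_one_ne_zero_of_two_eq_zero one_ne_zero h0
  obtain ⟨x, y, h⟩ := H4.exists_stable_nonsplit (F := F)
  have hs : Function.Surjective (H4.jL (K := F)) := by
    rw [← MonoidHom.range_eq_top, H4.jL_range, H4.Lsub_eq_top hq]
  have hle : ∀ A, A ≤ (H4.jL (K := F)).range := fun A => by
    rw [H4.jL_range, H4.Lsub_eq_top hq]; exact le_top
  refine ⟨(H4.Tsub x y).comap H4.jL, (H4.Usub OnePoint.infty).comap H4.jL, ?_, ?_, ?_, ?_, ?_, ?_⟩
  · haveI := h.isCyclic_T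
    exact isCyclic_of_surjective _ (H4.comapEquiv H4.jL_injective (hle _)).symm.surjective
  · rw [Nat.card_congr (H4.comapEquiv H4.jL_injective (hle _)).toEquiv, h.card_T]
  · exact ⟨⟨fun a b => Subtype.ext (H4.jL_injective (by
      simpa using H4.pgl_comm_of_isU a.2 b.2))⟩⟩
  · intro b hb
    exact H4.jL_injective (by rw [map_mul, map_one, ← sq]; exact H4.isU_pow_char hb)
  · rw [Nat.card_congr (H4.comapEquiv H4.jL_injective (hle _)).toEquiv, H4.card_Usub]
  · intro g
    obtain ⟨a, ha, b, hb, c, hc, e⟩ := key h0 h (H4.jL g)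
    obtain ⟨a, rfl⟩ := hs a
    obtain ⟨b, rfl⟩ := hs b
    obtain ⟨c, rfl⟩ := hs c
    exact ⟨a, ha, b, hb, c, hc, H4.jL_injective (by rw [e, map_mul, map_mul])⟩

end Cfsg.Agent.S2503
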