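import Cfsg.Statements.S2505
import Cfsg.Agent.H7.AbSn

set_option autoImplicit false
open Cfsg

namespace Cfsg.Agent.S2505
open H7.AbSn

/-- The largest order of an abelian subgroup of the symmetric group of degree n is 3^k when n = 3k, 4·3^(k−1) when n = 3k + 1, and 2·3^k when n = 3k + 2, for every k ≥ 1. -/
theorem result (k : ℕ) (hk : 1 ≤ k) :
    IsGreatest {c : ℕ | ∃ A : Subgroup (Equiv.Perm (Fin (3 * k))), IsMulCommutative A ∧ Nat.card A = c} (3 ^ k) ∧
    IsGreatest {c : ℕ | ∃ A : Subgroup (Equiv.Perm (Fin (3 * k + 1))), IsMulCommutative A ∧ Nat.card A = c}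
      (4 * 3 ^ (k - 1)) ∧
    IsGreatest {c : ℕ | ∃ A : Subgroup (Equiv.Perm (Fin (3 * k + 2))), IsMulCommutative A ∧ Nat.card A = c}
      (2 * 3 ^ k) := by
  obtain ⟨k, rfl⟩ : ∃ j, k = j + 1 := ⟨k - 1, by omega⟩
  exact ⟨greatS (E3k _) (f_val k).1, greatS ((E4.mul (E3k k)).cast (by ring) rfl) (f_val k).2.1,
    greatS ((E2.mul (E3k (k + 1))).cast (by ring) rfl) (f_val k).2.2⟩

end Cfsg.Agent.S2505
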