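import Cfsg.Statements.S2507
import Cfsg.Agent.H4.Cls2

set_option autoImplicit false
open Cfsg

namespace Cfsg.Agent.S2507


/-- Let F be a finite field with q = 2^f ≥ 4 elements. The conjugacy class sizes of PSL(2,F) are exactly 1, q(q − 1), q² − 1 and q(q + 1). -/
theorem result {F : Type*} [Field F] [Fintype F]
    (h2 : 2 ∣ Fintype.card F) (h4 : 4 ≤ Fintype.card F) :
    Set.range (fun g : (Matrix.ProjectiveSpecialLinearGroup (Fin 2) F) => (Subgroup.centralizer ({g} : Set (Matrix.ProjectiveSpecialLinearGroup (Fin 2) F))).index) =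
      {1, Fintype.card F * (Fintype.card F - 1), Fintype.card F ^ 2 - 1, Fintype.card F * (Fintype.card F + 1)} := by
  classical
  rw [← Nat.card_eq_fintype_card] at *
  have hd := H4.gcd_two_of_even (even_iff_two_dvd.2 h2) (by omega)
  have kT : ∀ {x y n} (h : H4.Stable x y n) (g : Matrix.ProjectiveSpecialLinearGroup (Fin 2) F),
      H4.jL g ∈ H4.Tsub x y → H4.jL g ≠ 1 → H4.jL g * H4.jL g ≠ 1 := by
    intro x y n h g hg h1 h3
    haveI : Fact (Nat.Prime 2) := ⟨Nat.prime_two⟩
    have := Subgroup.orderOf_dvd_natCard _ hg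
    rw [h.card_T, orderOf_eq_prime (p := 2) (by rwa [sq]) h1] at this
    have := h.cases
    omega
  have kE : ∀ {x y n} (h : H4.Stable x y n), ∃ g : Matrix.ProjectiveSpecialLinearGroup (Fin 2) F,
      H4.jL g ∈ H4.Tsub x y ∧ H4.jL g ≠ 1 := by
    intro x y n h
    obtain ⟨g, h1, h3⟩ := h.exists_elt dvd_rfl
    refine ⟨g, h1, (map_ne_one_iff _ H4.jL_injective).2 ?_⟩
    rintro rfl
    rw [orderOf_one, hd] at h3
    have := h.cases
    omega
  ext m
  simp only [Set.mem_range, Set.mem_insert_iff, Set.mem_singleton_iff]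
  constructor
  · rintro ⟨g, rfl⟩
    by_cases h1 : H4.jL g = 1
    · rw [(map_eq_one_iff _ H4.jL_injective).1 h1]; simp
    rcases H4.elt_cases h1 with ⟨x, hx⟩ | ⟨x, y, n, h, hT⟩
    · have := H4.index_U hx h1
      rw [hd] at this; omega
    · have := h.index_T hT (kT h g hT h1); omega
  · rintro (rfl | rfl | rfl | rfl)
    · exact ⟨1, by simp⟩
    · obtain ⟨x, y, h⟩ := H4.exists_stable_nonsplit (F := F)
      obtain ⟨g, h1, h3⟩ := kE h
      exact ⟨g, by have := h.index_T h1 (kT h g h1 h3); omega⟩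
    · obtain ⟨g, h1, h3⟩ := H4.exists_unip (F := F) OnePoint.infty
      exact ⟨g, by rw [← H4.index_U h3 h1, hd, one_mul]⟩
    · obtain ⟨x, y, h⟩ := H4.exists_stable_split (F := F)
      obtain ⟨g, h1, h3⟩ := kE h
      exact ⟨g, by have := h.index_T h1 (kT h g h1 h3); omega⟩

end Cfsg.Agent.S2507
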