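import Cfsg.Statements.S2508
import Cfsg.Agent.H4.Cls2

set_option autoImplicit false
open Cfsg

namespace Cfsg.Agent.S2508


/-- Let F be a finite field with q elements, q odd and q ≥ 7. If q ≡ 1 (mod 4) the conjugacy class sizes of PSL(2,F) are exactly 1, (q² − 1)/2, q(q + 1)/2, q(q − 1) and q(q + 1); if q ≡ 3 (mod 4) they are exactly 1, (q² − 1)/2, q(q − 1)/2, q(q + 1) and q(q − 1). -/
theorem result {F : Type*} [Field F] [Fintype F]
    (hodd : ¬ 2 ∣ Fintype.card F) (h7 : 7 ≤ Fintype.card F) :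
    (Fintype.card F % 4 = 1 →
      Set.range (fun g : (Matrix.ProjectiveSpecialLinearGroup (Fin 2) F) => (Subgroup.centralizer ({g} : Set (Matrix.ProjectiveSpecialLinearGroup (Fin 2) F))).index) =
        {1, (Fintype.card F ^ 2 - 1) / 2, Fintype.card F * (Fintype.card F + 1) / 2,
          Fintype.card F * (Fintype.card F - 1), Fintype.card F * (Fintype.card F + 1)}) ∧
    (Fintype.card F % 4 = 3 →
      Set.range (fun g : (Matrix.ProjectiveSpecialLinearGroup (Fin 2) F) => (Subgroup.centralizer ({g} : Set (Matrix.ProjectiveSpecialLinearGroup (Fin 2) F))).index) =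
        {1, (Fintype.card F ^ 2 - 1) / 2, Fintype.card F * (Fintype.card F - 1) / 2,
          Fintype.card F * (Fintype.card F + 1), Fintype.card F * (Fintype.card F - 1)}) := by
  classical
  rw [← Nat.card_eq_fintype_card] at *
  have hq : Odd (Nat.card F) := Nat.odd_iff.2 (by omega)
  have hd := H4.gcd_two_of_odd hq
  have kE : ∀ {x y n} (h : H4.Stable x y n), ∃ g : Matrix.ProjectiveSpecialLinearGroup (Fin 2) F,
      H4.jL g ∈ H4.Tsub x y ∧ H4.jL g * H4.jL g ≠ 1 := by
    intro x y n h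
    obtain ⟨g, h1, h3⟩ := h.exists_elt dvd_rfl
    refine ⟨g, h1, ?_⟩
    rw [← map_mul, map_ne_one_iff _ H4.jL_injective, ← sq, Ne, ← orderOf_dvd_iff_pow_eq_one, h3, hd]
    have := h.cases
    intro e
    have := Nat.le_of_dvd two_pos e
    omega
  have k1 : ∃ g : Matrix.ProjectiveSpecialLinearGroup (Fin 2) F,
      (Subgroup.centralizer {g}).index = (Nat.card F ^ 2 - 1) / 2 := by
    obtain ⟨g, h1, h3⟩ := H4.exists_unip (F := F) OnePoint.infty
    exact ⟨g, by rw [← H4.index_U h3 h1, hd]; omega⟩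
  have k2 : ∃ g : Matrix.ProjectiveSpecialLinearGroup (Fin 2) F,
      (Subgroup.centralizer {g}).index = Nat.card F * (Nat.card F - 1) := by
    obtain ⟨x, y, h⟩ := H4.exists_stable_nonsplit (F := F)
    obtain ⟨g, h1, h3⟩ := kE h
    exact ⟨g, by have := h.index_T h1 h3; omega⟩
  have k3 : ∃ g : Matrix.ProjectiveSpecialLinearGroup (Fin 2) F,
      (Subgroup.centralizer {g}).index = Nat.card F * (Nat.card F + 1) := by
    obtain ⟨x, y, h⟩ := H4.exists_stable_split (F := F)
    obtain ⟨g, h1, h3⟩ := kE h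
    exact ⟨g, by have := h.index_T h1 h3; omega⟩
  have k4 : ∃ g : Matrix.ProjectiveSpecialLinearGroup (Fin 2) F,
      (Nat.card F % 4 = 1 ∧ 2 * (Subgroup.centralizer {g}).index = Nat.card F * (Nat.card F + 1)) ∨
      (Nat.card F % 4 = 3 ∧
        2 * (Subgroup.centralizer {g}).index = Nat.card F * (Nat.card F - 1)) := by
    obtain ⟨V, h1, h2⟩ := H4.exists_klein (H4.two_ne_zero_iff_odd.2 hq)
    obtain ⟨a, b, ha, hb, hab, h3, -, -, rfl⟩ := H4.exists_four h1
    obtain ⟨g, rfl⟩ := h2 (Or.inr (Or.inl rfl))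
    obtain ⟨x, y, n, h, hT⟩ := H4.invol_torus (H4.two_ne_zero_iff_odd.2 hq) h3 ha
    exact ⟨g, h.index_D hq hT h3 ha⟩
  have k5 : ∀ g : Matrix.ProjectiveSpecialLinearGroup (Fin 2) F,
      (Subgroup.centralizer {g}).index = 1 ∨
      (Subgroup.centralizer {g}).index = (Nat.card F ^ 2 - 1) / 2 ∨
      (Subgroup.centralizer {g}).index = Nat.card F * (Nat.card F - 1) ∨
      (Subgroup.centralizer {g}).index = Nat.card F * (Nat.card F + 1) ∨
      (Nat.card F % 4 = 1 ∧ 2 * (Subgroup.centralizer {g}).index = Nat.card F * (Nat.card F + 1)) ∨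
      (Nat.card F % 4 = 3 ∧
        2 * (Subgroup.centralizer {g}).index = Nat.card F * (Nat.card F - 1)) := by
    intro g
    by_cases h1 : H4.jL g = 1
    · rw [(map_eq_one_iff _ H4.jL_injective).1 h1]; simp
    rcases H4.elt_cases h1 with ⟨x, hx⟩ | ⟨x, y, n, h, hT⟩
    · have := H4.index_U hx h1
      rw [hd] at this; omega
    · by_cases h2 : H4.jL g * H4.jL g = 1
      · have := h.index_D hq hT h1 h2; omega
      · have := h.index_T hT h2; omega
  constructor <;> intro h4 <;> ext m <;>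
    simp only [Set.mem_range, Set.mem_insert_iff, Set.mem_singleton_iff] <;> constructor
  · rintro ⟨g, rfl⟩
    have := k5 g; omega
  · rintro (rfl | rfl | rfl | rfl | rfl)
    exacts [⟨1, by simp⟩, k1, k4.imp fun g h => by omega, k2, k3]
  · rintro ⟨g, rfl⟩
    have := k5 g; omega
  · rintro (rfl | rfl | rfl | rfl | rfl)
    exacts [⟨1, by simp⟩, k1, k4.imp fun g h => by omega, k3, k2]

end Cfsg.Agent.S2508
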