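import Cfsg.Statements.S2513
import Cfsg.Agent.H3.Spec2

set_option autoImplicit false
open Cfsg

namespace Cfsg.Agent.S2513

open Matrix H3.Spec

theorem ex {F : Type*} [Field F] [Fintype F] (hF : Fintype.card F = 2) {n : ℕ} (hn : 2 ≤ n) :
    Nonempty (ProjectiveSpecialLinearGroup (Fin n) F ≃* GL (Fin n) F) := by
  have : Nonempty (Fin n) := ⟨⟨0, by omega⟩⟩
  have h1 : Subgroup.center (SpecialLinearGroup (Fin n) F) = ⊥ := by
    rw [← Subgroup.card_eq_one, H4.card_center_sl, Nat.card_eq_fintype_card, hF]; simp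
  have h2 : Subsingleton Fˣ := by
    rw [← Finite.card_le_one_iff_subsingleton, Nat.card_units, Nat.card_eq_fintype_card, hF]
  have h3 : (GeneralLinearGroup.det : GL (Fin n) F →* Fˣ).ker = ⊤ := by
    rw [eq_top_iff]; intro g _; exact Subsingleton.elim _ _
  exact ⟨((QuotientGroup.quotientMulEquivOfEq h1).trans QuotientGroup.quotientBot).trans
    (H4.slEquivKer.trans ((MulEquiv.subgroupCongr h3).trans Subgroup.topEquiv))⟩

theorem key {F : Type*} [Field F] [Fintype F] (hF : Fintype.card F = 2) {n k : ℕ} (hn : 2 ≤ n)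
    (hk : (n + 3) / 2 ≤ k) : ∃ x : Fin k → ProjectiveSpecialLinearGroup (Fin n) F,
      Monoid.exponent (ProjectiveSpecialLinearGroup (Fin n) F) ∣ orderOf x := by
  obtain ⟨e⟩ := ex hF hn
  have hs : ∀ i, ∃ g : ProjectiveSpecialLinearGroup (Fin n) F,
      1 ≤ i → i ≤ n → orderOf g = 2 ^ i - 1 := fun i => by
    by_cases h : 1 ≤ i ∧ i ≤ n
    · obtain ⟨g, hg⟩ := singer (F := F) (ι := Fin n) h.1 (by simpa using h.2)
      exact ⟨e.symm g, fun _ _ => by rw [e.symm.orderOf_eq, hg, hF]⟩
    · exact ⟨1, fun a b => (h ⟨a, b⟩).elim⟩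
  choose s hs using hs
  obtain ⟨u, hu⟩ := Nat.prime_two.exists_orderOf_eq_pow_factorization_exponent
    (ProjectiveSpecialLinearGroup (Fin n) F)
  let x : Fin k → ProjectiveSpecialLinearGroup (Fin n) F :=
    fun j => if j.1 = 0 then u else s (n / 2 + j)
  have hx : ∀ j, orderOf (x j) ∣ orderOf x := fun j => orderOf_map_dvd (Pi.evalMonoidHom _ j) x
  refine ⟨x, (Nat.dvd_iff_prime_pow_dvd_dvd _ _).2 fun r b hr hb => ?_⟩
  refine (pow_dvd_pow r ((hr.pow_dvd_iff_le_factorization Monoid.exponent_ne_zero_of_finite).1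
    hb)).trans ?_
  by_cases h2 : r = 2
  · subst h2
    rw [← hu]
    exact hx ⟨0, by omega⟩
  obtain ⟨g, hg⟩ := hr.exists_orderOf_eq_pow_factorization_exponent
    (ProjectiveSpecialLinearGroup (Fin n) F)
  generalize (Monoid.exponent (ProjectiveSpecialLinearGroup (Fin n) F)).factorization r = c at hg
  rcases c with - | c
  · simp
  have h0 : (r : F) ≠ 0 := fun h => by
    have h3 := (CharP.cast_eq_zero_iff F (ringChar F) r).1 h
    have h4 := (CharP.cast_eq_zero_iff F (ringChar F) 2).1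
      (hF ▸ FiniteField.cast_card_eq_zero F)
    have h5 := CharP.char_is_prime F (ringChar F)
    rw [Nat.prime_dvd_prime_iff_eq h5 hr] at h3
    rw [Nat.prime_dvd_prime_iff_eq h5 Nat.prime_two] at h4
    omega
  obtain ⟨i, h1, h3, h4⟩ := pp_dvd (g := e g) hr h0 ((e.orderOf_eq g).trans hg)
  rw [Fintype.card_fin] at h3
  have h5 : i * (n / i) ≤ n := Nat.mul_div_le n i
  have h6 : n < i * (n / i) + i := by
    have := Nat.div_add_mod n i
    have := Nat.mod_lt n (show 0 < i by omega)
    omega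
  have h7 : i * 1 ≤ i * (n / i) := Nat.mul_le_mul_left _ (Nat.div_pos h3 (by omega))
  have h8 := hx ⟨i * (n / i) - n / 2, by omega⟩
  simp only [x] at h8
  rw [if_neg (by omega), show n / 2 + (i * (n / i) - n / 2) = i * (n / i) by omega,
    hs _ (by omega) h5] at h8
  rw [hF] at h4
  exact h4.trans ((Nat.pow_sub_one_dvd_pow_sub_one 2 (Dvd.intro _ rfl)).trans h8)

/-- Let F be the field with two elements, n ≥ 2, L = PSL(n, F) and k₀ = ⌊(n + 3)/2⌋. Then for every k ≥ k₀ the direct product of k copies of L has the same set of element orders as the direct product of k₀ copies of L. -/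
theorem result {F : Type*} [Field F] [Fintype F] (hF : Fintype.card F = 2) (n k : ℕ) (hn : 2 ≤ n) (hk : (n + 3) / 2 ≤ k) :
    Set.range (orderOf : (Fin k → Matrix.ProjectiveSpecialLinearGroup (Fin n) F) → ℕ) = Set.range (orderOf : (Fin ((n + 3) / 2) → Matrix.ProjectiveSpecialLinearGroup (Fin n) F) → ℕ) := by
  set_option maxSynthPendingDepth 3 in
  obtain ⟨x, hx⟩ := key hF hn hk
  obtain ⟨y, hy⟩ := key hF hn le_rfl
  rw [range_eq hx, range_eq hy]

end Cfsg.Agent.S2513
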