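import Cfsg.Statements.S2514
import Mathlib

set_option autoImplicit false
open Cfsg

namespace Cfsg.Agent.S2514

theorem mx {G : Type*} [Group G] [Finite G] (g : G) : ∃ m, (m ∈ Set.range (orderOf : G → ℕ) ∧
    ∀ l ∈ Set.range (orderOf : G → ℕ), m ∣ l → l = m) ∧ orderOf g ∣ m := by
  obtain ⟨x, a, b⟩ := Set.exists_max_image {x : G | orderOf g ∣ orderOf x} orderOf (Set.toFinite _) ⟨g, dvd_rfl⟩
  refine ⟨_, ⟨⟨x, rfl⟩, ?_⟩, a⟩
  rintro _ ⟨y, rfl⟩ d
  exact le_antisymm (b y (a.trans d)) (Nat.le_of_dvd (orderOf_pos y) d)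

theorem dv {G : Type*} [Group G] [Finite G] {m n : ℕ} (h : m ∈ Set.range (orderOf : G → ℕ)) (d : n ∣ m) :
    ∃ x : G, orderOf x = n := by
  obtain ⟨g, rfl⟩ := h
  exact ⟨_, orderOf_pow_orderOf_div (orderOf_pos g).ne' d⟩

/-- For a finite group X write μ(X) for the set of element orders of X that are maximal under divisibility. Let G and H be finite groups and k ≥ 1 such that μ(H) ⊆ μ(G) and μ(G) has fewer than k elements outside μ(H). Then the direct product of k copies of G has the same set of element orders as the direct product of k − 1 copies of G with H. -/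
theorem result {G H : Type*} [Group G] [Finite G] [Group H] [Finite H] (k : ℕ) (hk : 1 ≤ k)
    (hsub : {n : ℕ | n ∈ Set.range (orderOf : H → ℕ) ∧ ∀ m ∈ Set.range (orderOf : H → ℕ), n ∣ m → m = n} ⊆ {n : ℕ | n ∈ Set.range (orderOf : G → ℕ) ∧ ∀ m ∈ Set.range (orderOf : G → ℕ), n ∣ m → m = n})
    (hfew : ({n : ℕ | n ∈ Set.range (orderOf : G → ℕ) ∧ ∀ m ∈ Set.range (orderOf : G → ℕ), n ∣ m → m = n} \ {n : ℕ | n ∈ Set.range (orderOf : H → ℕ) ∧ ∀ m ∈ Set.range (orderOf : H → ℕ), n ∣ m → m = n}).ncard < k) :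
    Set.range (orderOf : (Fin k → G) → ℕ) = Set.range (orderOf : (Fin (k - 1) → G) × H → ℕ) := by
  set_option maxSynthPendingDepth 3 in
  classical
  obtain ⟨k, rfl⟩ := Nat.exists_eq_add_of_le' hk
  show _ = Set.range (orderOf : (Fin k → G) × H → ℕ)
  have e : ∀ (x : Fin (k + 1) → G) (i) (h : H), orderOf h = orderOf (x i) →
      orderOf ((fun j => x (i.succAbove j), h) : (Fin k → G) × H) = orderOf x := fun x i h e =>
    orderOf_eq_orderOf_iff.2 fun n => by
      simp only [Prod.ext_iff, funext_iff, Fin.forall_iff_succAbove i, and_comm]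
      exact and_congr_left' (orderOf_eq_orderOf_iff.1 e n)
  refine Set.Subset.antisymm ?_ ?_
  · rintro _ ⟨x, rfl⟩
    choose m m1 m2 using fun i => mx (x i)
    by_cases c : ∃ i, m i ∈ Set.range (orderOf : H → ℕ)
    · obtain ⟨i, c⟩ := c
      obtain ⟨h, c⟩ := dv c (m2 i)
      exact ⟨_, e x i h c⟩
    obtain ⟨i, -, j, -, n, z⟩ := Set.exists_ne_map_eq_of_ncard_lt_of_maps_to (s := Set.univ) (f := m)
      (hfew.trans_eq (by simp)) (fun i _ => ⟨m1 i, fun h => c ⟨i, h.1⟩⟩) ((Set.finite_range _).subset fun _ h => h.1.1)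
    obtain ⟨g, c⟩ := dv (m1 i).1 (Nat.lcm_dvd (m2 i) (z ▸ m2 j))
    refine ⟨_, (e (Function.update (Function.update x j g) i 1) i 1 (by simp)).trans (orderOf_eq_orderOf_iff.2 fun t => ?_)⟩
    have u : g ^ t = 1 ↔ x i ^ t = 1 ∧ x j ^ t = 1 := by simp only [← orderOf_dvd_iff_pow_eq_one, c, Nat.lcm_dvd_iff]
    simp only [funext_iff, Pi.pow_apply, Pi.one_apply, Function.update_apply]
    refine ⟨fun h l => ?_, fun h l => ?_⟩
    · have a := h j
      have b := h l
      rw [if_neg n.symm, if_pos rfl, u] at a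
      split_ifs at b with y w
      exacts [y ▸ a.1, w ▸ a.2, b]
    · split_ifs
      exacts [one_pow _, u.2 ⟨h i, h j⟩, h l]
  · rintro _ ⟨⟨x, h⟩, rfl⟩
    obtain ⟨m, a, b⟩ := mx h
    obtain ⟨g, c⟩ := dv (hsub a).1 b
    exact ⟨Fin.cons g x, (e _ 0 h c.symm).symm⟩

end Cfsg.Agent.S2514
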