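import Cfsg.Statements.S2516
import Mathlib

set_option autoImplicit false
open Cfsg

namespace Cfsg.Agent.S2516

/-- Let F be a field of characteristic p > 0, V a non-zero finite-dimensional F-vector space, G a finite group and ρ a representation of G on V; form the semidirect product V ⋊ G. For g ∈ G of order k, the coset Vg contains an element of order pk if and only if the minimal polynomial of ρ(g) does not divide 1 + X + ⋯ + X^(k−1). -/
theorem result {F : Type*} [Field F] (p : ℕ) [Fact p.Prime] [CharP F p] {V : Type*} [AddCommGroup V] [Module F V] [FiniteDimensional F V] [Nontrivial V]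
    {G : Type*} [Group G] [Finite G] (ρ : Representation F G V) (g : G) :
    (∃ x : Multiplicative V ⋊[(MulAutMultiplicative V).symm.toMonoidHom.comp
        ((DistribMulAction.toAddAut ((V →ₗ[F] V)ˣ) V).comp ρ.asGroupHom)] G,
        x.right = g ∧ orderOf x = p * orderOf g) ↔
      ¬ (minpoly F (ρ g) ∣ ∑ i ∈ Finset.range (orderOf g), (Polynomial.X : Polynomial F) ^ i) := by
  set_option maxSynthPendingDepth 3 in
  have hp : p.Prime := Fact.out
  have k0 := (orderOf_pos g).ne'
  have pw : ∀ (x : Multiplicative V ⋊[(MulAutMultiplicative V).symm.toMonoidHom.comp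
      ((DistribMulAction.toAddAut ((V →ₗ[F] V)ˣ) V).comp ρ.asGroupHom)] G) (n : ℕ),
      (x ^ n).left.toAdd = (∑ i ∈ Finset.range n, ρ x.right ^ i) x.left.toAdd := fun x n => by
    induction n with
    | zero => rfl
    | succ n ih =>
      rw [pow_succ, SemidirectProduct.mul_left, toAdd_mul, ih, Finset.sum_range_succ, LinearMap.add_apply, ← map_pow ρ,
        ← SemidirectProduct.rightHom_eq_right, map_pow]
      rfl
  have key : ∀ (x : Multiplicative V ⋊[(MulAutMultiplicative V).symm.toMonoidHom.comp
      ((DistribMulAction.toAddAut ((V →ₗ[F] V)ˣ) V).comp ρ.asGroupHom)] G), x.right = g →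
      (orderOf x = p * orderOf g ↔ (∑ i ∈ Finset.range (orderOf g), ρ g ^ i) x.left.toAdd ≠ 0) := fun x e => by
    have r : x ^ orderOf g = SemidirectProduct.inl (x ^ orderOf g).left := by
      refine SemidirectProduct.ext rfl ?_
      rw [← SemidirectProduct.rightHom_eq_right, map_pow, SemidirectProduct.rightHom_eq_right, e, pow_orderOf_eq_one]; rfl
    have d : orderOf g ∣ orderOf x := e ▸ orderOf_map_dvd SemidirectProduct.rightHom x
    rw [← Nat.div_mul_cancel d, ← orderOf_pow_of_dvd k0 d, mul_left_inj' k0, r,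
      orderOf_injective _ SemidirectProduct.inl_injective, ← e, ← pw, e]
    refine ⟨fun h z => hp.one_lt.ne' (h.symm.trans (orderOf_eq_one_iff.2 z)), fun h => orderOf_eq_prime ?_ h⟩
    show p • (x ^ orderOf g).left.toAdd = 0
    rw [← Nat.cast_smul_eq_nsmul F, CharP.cast_eq_zero, zero_smul]
  rw [minpoly.dvd_iff, map_sum]
  simp only [map_pow, Polynomial.aeval_X]
  refine ⟨fun ⟨x, a, b⟩ z => (key x a).1 b (by rw [z]; rfl), fun h => ?_⟩
  obtain ⟨v, h⟩ := DFunLike.ne_iff.1 h
  exact ⟨⟨.ofAdd v, g⟩, rfl, (key _ rfl).2 h⟩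

end Cfsg.Agent.S2516
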