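import Cfsg.Statements.S2521
import Cfsg.Agent.H2.Ms1

set_option autoImplicit false
open Cfsg

namespace Cfsg.Agent.S2521

open Subgroup hiding upperCentralSeries
open H2 Cfsg.FusionSystem

open Subgroup H2 H7 H1B

/-- Let B be a finite group that is the semidirect product of a nilpotent normal subgroup U by an abelian subgroup T (U ∩ T = 1, UT = B), and let t ∈ T have centralizer exactly T. Then every element of the coset tU is conjugate to t in B: for each u ∈ U there is b ∈ B with b t b⁻¹ = t u. -/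
theorem result {B : Type*} [Group B] [Finite B] (U T : Subgroup B) [U.Normal] (hU : Group.IsNilpotent ↥U) (hT : IsMulCommutative ↥T)
    (hcompl : Subgroup.IsComplement' U T) (t : B) (ht : t ∈ T) (hreg : Subgroup.centralizer ({t} : Set B) = T) (u : B) (hu : u ∈ U) :
    ∃ b : B, b * t * b⁻¹ = t * u := by
  have n : ∀ v : U, t⁻¹ * v * t * (v : B)⁻¹ ∈ U := fun v =>
    mul_mem (by simpa using Normal.conj_mem inferInstance _ v.2 t⁻¹) (inv_mem v.2)
  obtain ⟨v, e⟩ := Finite.surjective_of_injective (f := fun v : U => (⟨_, n v⟩ : U)) (fun v w e => by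
    have e' : t⁻¹ * v * t * (v : B)⁻¹ = t⁻¹ * w * t * (w : B)⁻¹ := congrArg Subtype.val e
    have m : ((w⁻¹ * v : U) : B) ∈ T := hreg.le (mem_cen1.2 (by
      calc _ = (w : B)⁻¹ * t * (t⁻¹ * v * t * (v : B)⁻¹) * v := by push_cast; group
        _ = _ := by rw [e']; push_cast; group))
    exact (inv_mul_eq_one.1 (Subtype.ext (mem_bot.1 (hcompl.disjoint.eq_bot.le ⟨(w⁻¹ * v).2, m⟩)))).symm) ⟨u, hu⟩
  exact ⟨v, by rw [← show _ = u from congrArg Subtype.val e]; group⟩

end Cfsg.Agent.S2521
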