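import Cfsg.Statements.S2556
import Cfsg.Agent.H5.TB9

set_option autoImplicit false
open Cfsg

namespace Cfsg.Agent.S2556

open H5.SzA in

/-- Let S be a Sylow 2-subgroup of the Suzuki group Sz(q), q = 2ⁿ with n = 2m + 1 ≥ 3 (realised as 4 × 4 matrices over the field with q elements). Then the largest normal 2-subgroup of the automorphism group of S is elementary abelian of order 2^(n²), and the automorphism group of S has order 2^(n²) · n · (q − 1). -/
theorem result {S : Type*} [Group S] [Finite S] (m : ℕ) (hm : 1 ≤ m)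
    {F : Type*} [Field F] [Fintype F] (hF : Fintype.card F = 2 ^ (2 * m + 1))
    (P : Sylow 2 ↥(Cfsg.Lie.Sz F (2 ^ (m + 1)))) (hS : Nonempty (S ≃* ↥(P : Subgroup ↥(Cfsg.Lie.Sz F (2 ^ (m + 1)))))) :
    Cfsg.IsElementaryAbelian 2 (Cfsg.pCore 2 (MulAut S)) ∧ Nat.card ↥(Cfsg.pCore 2 (MulAut S)) = 2 ^ ((2 * m + 1) ^ 2) ∧
      Nat.card (MulAut S) = 2 ^ ((2 * m + 1) ^ 2) * ((2 * m + 1) * (2 ^ (2 * m + 1) - 1)) := by
  obtain ⟨T, hT⟩ := (H5.Sz.lieS hm hF).exists_S_sylow P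
  haveI := T.charP
  have hF' := Nat.card_eq_fintype_card.trans hF
  have hs : ∀ b, ∃ t, T.θe t * t = b := fun b => (T.θ_mul_surj b).imp fun t h => (mul_comm _ _).trans h
  have h4 : T.θe ^ 4 ≠ 1 := fun h => by
    obtain ⟨x, h0, h1⟩ := T.exists_ne01
    have := (orderOf_dvd_natCard T.θe)
    rw [H5.Gen.card_ringAut hF'] at this
    have := orderOf_eq_one_iff.1 (Nat.eq_one_of_dvd_coprimes (Nat.Coprime.pow_left 2 (Nat.coprime_two_left.2 (odd_two_mul_add_one m)))
      (orderOf_dvd_of_pow_eq_one h) this)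
    exact (T.θ_fix (congrArg (· x) this)).elim h0 h1
  let f : VV T.θe →* T.U := .mk' (fun x => ⟨T.u x.a x.b, T.u_mem _ _⟩) fun x y => Subtype.ext (T.u_mul x.a x.b y.a y.b).symm
  let k : VV T.θe ≃* T.U := .ofBijective f ⟨fun x y h => by
      have : T.u x.a x.b = T.u y.a y.b := congrArg (fun z : T.U => z.1) h
      exact VV.ext (T.u_inj this).1 (T.u_inj this).2, fun ⟨_, a, b, h⟩ => ⟨⟨a, b⟩, Subtype.ext h.symm⟩⟩
  obtain ⟨j⟩ := hS
  have i := MulAut.congr (j.trans ((MulEquiv.subgroupCongr hT.symm).trans k.symm))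
  have c : Nat.card (NN T.θe) = 2 ^ ((2 * m + 1) ^ 2) := by
    rw [card_NN hs, card_end hF', hF', ← pow_mul, sq]
  have m : Cfsg.pCore 2 (MulAut S) = (NN T.θe).map i.symm.toMonoidHom := le_antisymm (sSup_le fun M h x hx =>
    ⟨i x, core_le h4 _ (h.1.map i.toMonoidHom i.surjective) (h.2.map _) ⟨x, hx, rfl⟩, by simp⟩)
    (le_sSup ⟨(NN_normal h4).map _ i.symm.surjective, (IsPGroup.of_card c).map _⟩)
  obtain ⟨a, b⟩ := NN_elem hs
  rw [m, Subgroup.card_map_of_injective i.symm.injective, Nat.card_congr i.toEquiv, card_aut h4, c, H5.Gen.card_ringAut hF',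
    Nat.card_units, hF']
  refine ⟨⟨inferInstance, ?_⟩, rfl, rfl⟩
  rintro _ ⟨x, h, rfl⟩
  rw [← map_pow, b x h, map_one]

end Cfsg.Agent.S2556
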