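import Cfsg.Statements.S2896
import Cfsg.Agent.H1.LS3

set_option autoImplicit false
open Cfsg

namespace Cfsg.Agent.S2896

open H7 H1B Subgroup

/-- Let p be a prime dividing the order of the finite group G, S a Sylow p-subgroup of G and X a subgroup of S. (i) If some nontrivial element z of the centre of X has F*(C_G(z)) = O_p(C_G(z)), then F*(N_G(X)) = O_p(N_G(X)). (ii) G has parabolic characteristic p if and only if F*(C_G(z)) = O_p(C_G(z)) for every nontrivial z ∈ Ω₁(Z(S)). (iii) If F*(C_G(z)) = O_p(C_G(z)) for every element z of S of order p, then G has local characteristic p. -/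
theorem result {G : Type*} [Group G] [Finite G] {p : ℕ} [Fact p.Prime] (hdiv : p ∣ Nat.card G) (S : Sylow p G) (X : Subgroup G) (hX : X ≤ (S : Subgroup G)) : (∀ z : G, z ≠ 1 → z ∈ X → (∀ x ∈ X, x * z = z * x) → Cfsg.generalizedFittingSubgroup ↥(Subgroup.centralizer ({z} : Set G)) = Cfsg.pCore p ↥(Subgroup.centralizer ({z} : Set G)) → Cfsg.generalizedFittingSubgroup ↥(Subgroup.normalizer (X : Set G)) = Cfsg.pCore p ↥(Subgroup.normalizer (X : Set G))) ∧ (Cfsg.IsOfParabolicCharacteristic p G ↔ ∀ z : G, z ≠ 1 → z ∈ Cfsg.omegaOne p ((S : Subgroup G) ⊓ Subgroup.centralizer ((S : Subgroup G) : Set G)) → Cfsg.generalizedFittingSubgroup ↥(Subgroup.centralizer ({z} : Set G)) = Cfsg.pCore p ↥(Subgroup.centralizer ({z} : Set G))) ∧ ((∀ z : G, z ∈ (S : Subgroup G) → orderOf z = p → Cfsg.generalizedFittingSubgroup ↥(Subgroup.centralizer ({z} : Set G)) = Cfsg.pCore p ↥(Subgroup.centralizer ({z} : Set G))) → Cfsg.IsOfLocalCharacteristic p G) := by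
  simp only [chp_gfit, omegaOne_eq, par_top, lch_top]
  refine ⟨fun z _ h1 h2 h3 => top_inf_eq (nrm X) ▸ ChP.nrm_of_cen1 (by rwa [top_inf_eq]) (S.isPGroup'.to_le hX) le_top h1
    fun x hx => mem_cen1.2 (h2 x hx), ⟨fun h z h1 h2 => top_inf_eq (cen1 z) ▸ h.cen1 (syl_top S) h2 h1,
    fun h => par_of (syl_top S) fun z h1 h2 => by rw [top_inf_eq]; exact h z h2 h1⟩,
    fun h => ⟨hdiv, lch_of (syl_top S) fun z h1 h2 => by rw [top_inf_eq]; exact h z h1 h2⟩⟩

end Cfsg.Agent.S2896
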