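import Cfsg.Statements.S2898
import Cfsg.Agent.H1.LS3

set_option autoImplicit false
open Cfsg

namespace Cfsg.Agent.S2898

open H7 H1B Subgroup

/-- Let G be a finite group of even order with parabolic characteristic 2. If the centre of G ⧸ O(G) is trivial, then O(G) = 1. -/
theorem result {G : Type*} [Group G] [Finite G] (h2 : 2 ∣ Nat.card G) (hG : Cfsg.IsOfParabolicCharacteristic 2 G) [hN : (Cfsg.oddCore G).Normal] (hZ : Subgroup.center (G ⧸ Cfsg.oddCore G) = ⊥) : Cfsg.oddCore G = ⊥ := by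
  rw [par_top] at hG
  obtain ⟨S, hS⟩ := exists_syl 2 (⊤ : Subgroup G)
  have e : oddCore G = Op' 2 ⊤ := pPrimeCore_eq 2
  have co : (ord (oddCore G)).Coprime 2 := e ▸ coprime_Op' 2 ⊤
  have nO : ∀ A : Subgroup G, A ≤ nrm (oddCore G) := fun A => le_nrm_of_normal A _
  have k : ∀ z ∈ Z1 2 S, z ≠ 1 → oddCore G ⊓ cen1 z = ⊥ := fun z h1 h2 => (hG.cen1 hS h1 h2).coprime_eq_bot
    (SN.of_normal (inf_le_inf_right _ le_top) (nrm_inf (nO _) (inf_le_right.trans (le_nrm_self _)))) (coprime_of_le inf_le_left co)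
  by_contra c
  have h1 : cen (oddCore G) ≤ oddCore G := le_trans (le_Op' le_top (nrm_cen (nO _)) (coprime_iff_not_dvd.2 fun d => by
    have s := syl_inf hS le_top (nrm_cen (nO S))
    obtain ⟨z, hz, o, c1, -⟩ := exists_Z1_mem s.isPGroup hS.isPGroup (nrm_inf (le_nrm_self S) (nrm_cen (nO S))) (syl_ne_bot s d)
    exact c (eq_bot_iff.2 ((le_inf le_rfl (le_cen1_iff.2 hz.2)).trans (k z (mem_Z1.2 ⟨hz.1, c1, o ▸ pow_orderOf_eq_one z⟩)
      (ne_one_of_orderOf o)).le)))) e.ge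
  obtain ⟨z, hz, h3⟩ := exists_ne_one (Z1_ne_bot hS.isPGroup (syl_ne_bot hS (by simpa using h2)))
  have z2 : z * z = 1 := by simpa [sq] using (mem_Z1.1 hz).2.2
  have inv : ∀ x ∈ oddCore G, z * x * z⁻¹ = x⁻¹ := fun x hx =>
    H1.inverts_of_fpf_involution (by rw [z2]; exact one_mem _) (nO ⊤ (mem_top z)) (k z hz h3) hx
  have : (z : G ⧸ oddCore G) ∈ center _ := mem_center_iff.2 fun g => by
    induction g using QuotientGroup.induction_on with
    | H g =>
      rw [← QuotientGroup.mk_mul, ← QuotientGroup.mk_mul, QuotientGroup.eq]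
      refine h1 (mem_cen.2 fun x hx => ?_)
      have a1 := inv _ (hN.conj_mem x hx g)
      have a2 := inv _ hx
      have a3 : z * g * x = g * x⁻¹ * g⁻¹ * z * g := by
        rw [show g * x⁻¹ * g⁻¹ = (g * x * g⁻¹)⁻¹ by group, ← a1]; group
      have a4 : x * z⁻¹ = z⁻¹ * x⁻¹ := by rw [← a2]; group
      calc x * ((g * z)⁻¹ * (z * g)) = x * z⁻¹ * g⁻¹ * z * g := by group
        _ = z⁻¹ * g⁻¹ * (g * x⁻¹ * g⁻¹ * z * g) := by rw [a4]; group
        _ = _ := by rw [← a3]; group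
  rw [hZ, mem_bot, QuotientGroup.eq_one_iff] at this
  exact h3 (mem_bot.1 ((k z hz h3).le ⟨this, self_mem_cen1 z⟩))

end Cfsg.Agent.S2898
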