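import Cfsg.Statements.S2905
import Cfsg.Agent.H1.LS4

set_option autoImplicit false
open Cfsg

namespace Cfsg.Agent.S2905

open H7 H1B Subgroup

/-- Let P be a finite p-minimal group (a Sylow p-subgroup S is not normal and lies in a unique maximal subgroup M of P) and let F be the normal core of M. Then: every subnormal subgroup N of P contained in M satisfies N ∩ S ≤ O_p(P); if O^p(P) has a normal Sylow p-subgroup then the order of P has at most two prime divisors; every normal subgroup N of P either contains O^p(P) or is contained in F; and O^p(P)F ⧸ F is a minimal normal subgroup of P ⧸ F. -/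
theorem result {P : Type*} [Group P] [Finite P] {p : ℕ} [Fact p.Prime] (hP : Cfsg.IsPMinimal p P) (S : Sylow p P) (M : Subgroup P) (hM : IsCoatom M) (hSM : (S : Subgroup P) ≤ M) [hF : M.normalCore.Normal] : (∀ N : Subgroup P, N.IsSubnormal → N ≤ M → N ⊓ (S : Subgroup P) ≤ Cfsg.pCore p P) ∧ ((∀ T : Sylow p ↥(Cfsg.pResidual p P), (T : Subgroup ↥(Cfsg.pResidual p P)).Normal) → (Nat.card P).primeFactors.card ≤ 2) ∧ (∀ N : Subgroup P, N.Normal → Cfsg.pResidual p P ≤ N ∨ N ≤ M.normalCore) ∧ (∀ N : Subgroup P, N.Normal → M.normalCore ≤ N → N ≤ Cfsg.pResidual p P ⊔ M.normalCore → N = M.normalCore ∨ N = Cfsg.pResidual p P ⊔ M.normalCore) ∧ M.normalCore < Cfsg.pResidual p P ⊔ M.normalCore := by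
  have s := syl_top S
  have h := MinO.of_coatom (minO_top.2 ((pmin_top s).1 hP)) hM hSM
  have k : ∀ N : Subgroup P, N.Normal → pRes p ⊤ ≤ N ∨ N ≤ M.normalCore := fun N _ =>
    (h.pRes_le_or S.isPGroup' le_top (top_nrm N)).imp id normal_le_normalCore.2
  refine ⟨fun N h1 h2 => ?_, fun c => ?_, H2.pRes_top (G := P) ▸ k, fun N h1 h2 h3 => ?_, lt_of_le_not_ge le_sup_right fun c =>
    h.lt.not_ge (syl_le_of_pRes s ((H2.pRes_top.le.trans le_sup_left).trans (c.trans (normalCore_le M))) hSM)⟩
  · obtain ⟨W, h3, h4, h5⟩ := h.exists_normal (sn_top_iff.2 h1) h2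
    exact ((inf_comm _ _).le.trans (inf_le_inf_left _ h3)).trans ((h.inf_le_Op s le_rfl h5 h4).trans (pCore_eq p).ge)
  · obtain ⟨q, -, h2⟩ := h.two_primes s (H2.pRes_top (G := P) ▸ pcl_iff.1 c)
    rw [card_top] at h2
    exact (Finset.card_le_card (t := {p, q}) fun r hr => by
      simpa using h2 r (Nat.prime_of_mem_primeFactors hr) (Nat.dvd_of_mem_primeFactors hr)).trans Finset.card_le_two
  · exact (k N h1).symm.imp (fun c => le_antisymm c h2) fun c => le_antisymm h3 (sup_le (H2.pRes_top.ge.trans c) h2)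

end Cfsg.Agent.S2905
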