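import Cfsg.Statements.S2906
import Cfsg.Agent.H1.LS4

set_option autoImplicit false
open Cfsg

namespace Cfsg.Agent.S2906

open H7 H1B Subgroup

/-- Let P be a finite p-minimal group with O_p(P) = 1, S a Sylow p-subgroup of P and K a component of P. Then O^p(P) = F*(P) = E(P) is generated by the S-conjugates of K, and the subgroup K·N_S(K) is again p-minimal. -/
theorem result {P : Type*} [Group P] [Finite P] {p : ℕ} [Fact p.Prime] (hP : Cfsg.IsPMinimal p P) (hOp : Cfsg.pCore p P = ⊥) (S : Sylow p P) (K : Subgroup P) (hK : Cfsg.IsComponent K) : Cfsg.pResidual p P = Cfsg.generalizedFittingSubgroup P ∧ Cfsg.generalizedFittingSubgroup P = Cfsg.layer P ∧ Cfsg.layer P = ⨆ s : ↥(S : Subgroup P), K.map (MulAut.conj (s : P)).toMonoidHom ∧ Cfsg.IsPMinimal p ↥(K ⊔ ((S : Subgroup P) ⊓ Subgroup.normalizer (K : Set P))) := by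
  have s := syl_top S
  obtain ⟨M, h⟩ := (pmin_top s).1 hP
  rw [pCore_eq] at hOp
  rw [isComponent_iff] at hK
  rw [← H2.pRes_top, gfit_eq, layer_eq]
  have km : ¬ K ≤ M := fun c => by
    obtain ⟨W, h3, h4, h5⟩ := h.exists_normal hK.sn c
    exact hK.qs.not_le_solv (solv_of_nilp (nilp_Phi ⊤)) (h3.trans (h.le_Phi s le_rfl hOp h5 h4))
  have a : ∀ A : Subgroup P, ¬ A ≤ M → pRes p ⊤ ≤ H1.ncl A S := fun A c => pRes_le_of_le_sup S.isPGroup' H1.le_nrm_ncl
    ((h.le_or le_sup_left).resolve_right fun e => c ((le_inf le_top (H1.le_ncl.trans le_sup_right)).trans e))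
  have l : H1.ncl K S ≤ Lay ⊤ := H1.ncl_le hK.le_Lay (le_top.trans (le_nrm_Lay ⊤))
  have f := Fst_le_pRes hOp
  have e1 := (a K km).trans l
  have kr := hK.le_Lay.trans ((Lay_le_Fst ⊤).trans f)
  refine ⟨le_antisymm (e1.trans (Lay_le_Fst ⊤)) f, le_antisymm (f.trans e1) (Lay_le_Fst ⊤), (le_antisymm (((Lay_le_Fst ⊤).trans
    f).trans (a K km)) l).trans (iSup_cj_eq_ncl K S).symm, ?_⟩
  have sk := syl_sn s hK.sn
  have t : IsSylowIn p ((S : Subgroup P) ⊓ nrm K) (K ⊔ (S : Subgroup P) ⊓ nrm K) := syl_sup_pg (by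
    rwa [inf_comm, inf_assoc, inf_eq_right.2 (le_nrm_self K)]) (S.isPGroup'.to_le inf_le_left) inf_le_right
  refine (pmin_iff t).2 ⟨(K ⊔ (S : Subgroup P) ⊓ nrm K) ⊓ M, minO_of t (fun c => ?_) (le_inf le_sup_right (inf_le_left.trans h.le))
    (lt_of_le_of_ne inf_le_left fun e => km (le_sup_left.trans (inf_eq_left.1 e))) fun U h1 h2 => le_inf h2.le ?_⟩
  · have z : (S : Subgroup P) ⊓ K = ⊥ := eq_bot_iff.2 ((le_Op inf_le_right (by
      have := nrm_inf (le_sup_left.trans c) (le_nrm_self K)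
      rwa [inf_assoc, inf_eq_right.2 (le_nrm_self K)] at this) sk.isPGroup).trans (Op_eq_bot_of_sn hOp hK.sn).le)
    have co := coprime_iff_not_dvd.2 (syl_bot_iff.1 (z ▸ sk))
    have r : pRes p ⊤ ≤ Op' p ⊤ := (a K km).trans (H1.ncl_le (le_Op'_of_sn hK.sn co) (le_top.trans (le_nrm_Opi _ _)))
    obtain ⟨q, h3, h4⟩ := h.two_primes s fun Q h3 h4 => (eq_bot_of_isPGroup_of_coprime h4
      (coprime_of_le (h3.trans r) (coprime_Op' p ⊤))).le.trans bot_le
    haveI := Fact.mk h3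
    refine hK.qs.not_solv (solv_of_isPGroup (p := q) (piN_iff_isPGroup.1 fun r h5 h6 => ?_))
    rcases h4.of_le le_top r h5 h6 with rfl | e
    exacts [absurd h6 (coprime_iff_not_dvd.1 co), e]
  · have e := modular (inf_le_right : (S : Subgroup P) ⊓ nrm K ≤ nrm K) h1
    rw [sup_comm, inf_eq_right.2 h2.le] at e
    refine e.le.trans (sup_le (inf_le_left.trans h.le) (by_contra fun c => h2.not_ge (sup_le ?_ h1)))
    have b : H1.ncl (K ⊓ U) S ≤ K ⊓ U ⊔ cen K := H1.ncl_le_iff.2 fun x hx =>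
      ((hK.cj_of_mem_nrm (le_nrm_self ⊤ (mem_top x))).eq_or_cen hK).elim (fun e => (cj_of_mem_nrm (nrm_inf inf_le_right
        (h1.trans (le_nrm_self U)) ⟨hx, cj_eq_self_iff.1 e⟩)).le.trans le_sup_left)
        fun e => ((H7.cj_mono x inf_le_left).trans e).trans le_sup_right
    exact hK.qs.perfect.ge.trans ((der_le_of_le_sup_cen ((le_inf ((kr.trans (a _ c)).trans b) le_rfl).trans ((modular'
      (le_nrm_of_le_cen (cen_anti inf_le_left)) inf_le_left).le.trans (sup_le_sup_left (inf_comm _ _).le _)))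
      inf_le_left).trans inf_le_right)

end Cfsg.Agent.S2906
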