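import Cfsg.Statements.S2907
import Cfsg.Agent.H2.LX1

set_option autoImplicit false
open Cfsg

namespace Cfsg.Agent.S2907

open Subgroup hiding upperCentralSeries
open H2 Cfsg.FusionSystem

open Subgroup H2 H7 H1B
open scoped commutatorElement

/-- Let X be a finite semi-extraspecial p-group and x an element of X outside the centre. Then the index of C_X(x) in X equals the order of Z(X), and the commutators [x, y], y ∈ X, form exactly the centre Z(X). -/
theorem result {X : Type*} [Group X] [Finite X] {p : ℕ} [Fact p.Prime] (hX : Cfsg.IsSemiExtraspecial p X) (x : X) (hx : x ∉ Subgroup.center X) : (Subgroup.centralizer ({x} : Set X)).index = Nat.card ↥(Subgroup.center X) ∧ {z : X | ∃ y : X, z = x * y * x⁻¹ * y⁻¹} = (Subgroup.center X : Set X) := by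
  obtain ⟨h1, h2, h3⟩ := hX.1
  have c : ∀ a b : X, ⁅a, b⁆ ∈ center X := fun a b =>
    h3 ▸ commutator_mem_commutator (mem_top a) (mem_top b)
  let f : X →* X := MonoidHom.mk' (fun y => ⁅x, y⁆) fun a b => by
    calc _ = ⁅x, a⁆ * (a * ⁅x, b⁆ * a⁻¹) := by group
      _ = _ := by rw [mem_center_iff.1 (c x b) a, mul_inv_cancel_right]
  have l : f.range ≤ center X := by rintro _ ⟨y, rfl⟩; exact c x y
  have e : f.range = center X := by
    by_contra e
    obtain ⟨M, hM, l'⟩ := (eq_top_or_exists_le_coatom (f.range.subgroupOf (center X))).resolve_left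
      fun k => e (le_antisymm l (subgroupOf_eq_top.1 k))
    obtain ⟨n, -, k⟩ := hX.2 (M.map (center X).subtype) (map_subtype_le M)
      (by rwa [subgroupOf, comap_map_eq_self_of_injective (subtype_injective _)])
    have lM : f.range ≤ M.map (center X).subtype := fun y hy => ⟨⟨y, l hy⟩, l' hy, rfl⟩
    have m : ∀ y ∈ center X ⊔ zpowers x, (y : X ⧸ M.map (center X).subtype) ∈ Subgroup.center _ := by
      refine fun y hy => (sup_le (fun y hy => ?_) (zpowers_le.2 ?_) :
        _ ≤ (Subgroup.center _).comap (QuotientGroup.mk' _)) hy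
      · refine mem_center_iff.2 fun b => ?_
        induction b using QuotientGroup.induction_on with | H b => ?_
        exact congrArg QuotientGroup.mk (mem_center_iff.1 hy b)
      · refine mem_center_iff.2 fun b => ?_
        induction b using QuotientGroup.induction_on with | H b => ?_
        refine (commutatorElement_eq_one_iff_mul_comm.1 ?_).symm
        exact (QuotientGroup.eq_one_iff ⁅x, b⁆).2 (lM ⟨b, rfl⟩)
    have o := card_le_of_le (fun y hy => by obtain ⟨y, hy, rfl⟩ := hy; exact m y hy :
      (center X ⊔ zpowers x).map (QuotientGroup.mk' _) ≤ Subgroup.center _)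
    rw [k, H1.card_map_mk'] at o
    have lt : M.map (center X).subtype < center X := (map_subtype_le M).lt_of_ne fun k =>
      hM.1 (top_le_iff.1 fun y _ => by obtain ⟨y', hy, e⟩ := k.ge y.2; exact Subtype.ext e ▸ hy)
    have lt' : center X < center X ⊔ zpowers x := left_lt_sup.2 fun k => hx (k (mem_zpowers x))
    have o1 := mul_card_le_of_lt (h1.to_subgroup _) lt
    have o2 := H7.card_lt_of_lt lt'
    rw [← relIndex_mul_card' (lt.trans lt').le] at o2
    exact (o1.trans_lt o2).not_ge (Nat.mul_le_mul_right _ o)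
  refine ⟨?_, Set.ext fun z => ?_⟩
  · rw [← e, ← index_ker]
    congr 1; ext y
    exact mem_cen1.trans (eq_comm.trans commutatorElement_eq_one_iff_mul_comm.symm)
  · rw [← e]; exact ⟨fun ⟨y, h⟩ => ⟨y, h.symm⟩, fun ⟨y, h⟩ => ⟨y, h.symm⟩⟩

end Cfsg.Agent.S2907
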