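import Cfsg.Statements.S2909
import Cfsg.Agent.H1.LS3

set_option autoImplicit false
open Cfsg

namespace Cfsg.Agent.S2909

open H7 H1B Subgroup

/-- Let p be a prime, E a normal p-subgroup of the finite group G, and U a non-cyclic elementary abelian p-subgroup of G such that either C_E(U) = C_E(u) for every nontrivial u ∈ U, or [E, U] = [E, ⟨u⟩] for every nontrivial u ∈ U. If R is a subgroup of order prime to p normalized by U, then [R, U] centralizes E. -/
theorem result {G : Type*} [Group G] [Finite G] {p : ℕ} [Fact p.Prime] (E : Subgroup G) [E.Normal] (hE : IsPGroup p ↥E) (U : Subgroup G) (hU : Cfsg.IsElementaryAbelian p U) (hnc : ¬ IsCyclic ↥U) (hcond : (∀ u ∈ U, u ≠ 1 → E ⊓ Subgroup.centralizer (U : Set G) = E ⊓ Subgroup.centralizer ({u} : Set G)) ∨ (∀ u ∈ U, u ≠ 1 → ⁅E, U⁆ = ⁅E, Subgroup.zpowers u⁆)) (R : Subgroup G) (hR : ¬ p ∣ Nat.card ↥R) (hRU : U ≤ Subgroup.normalizer (R : Set G)) : ⁅R, U⁆ ≤ Subgroup.centralizer (E : Set G) := by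
  have nE : ∀ A : Subgroup G, A ≤ nrm E := fun A => le_nrm_of_normal A E
  rw [commutator_comm, ← commutator_comm R U]
  refine (le_cmod.1 ((EA.cop hU hR hRU).le_of_cen1 (EA.comm hU) hnc fun u hu h1 => le_cmod.2 ⟨nrm_cen (nE _), ?_⟩)).2
  have c := EA.le_cen1 hU hu
  have n := nrm_inf hRU (nrm_cen1 c)
  have l := comm_le_left n
  have hc := coprime_of_le (l.trans inf_le_left) (coprime_iff_not_dvd.2 hR)
  have z := (EA.isPGroup hU).to_le (zpowers_le.2 hu)
  have c2 := le_cen_symm ((l.trans inf_le_right).trans (cen_zpowers u).ge)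
  rcases hcond with h | h
  · refine pxq z hc c2 hE (nE _) (nE _) (le_cen_symm ?_)
    rw [cen_zpowers]
    exact (commutator_mono le_rfl (le_cen_symm ((h u hu h1).ge.trans inf_le_right))).trans
      (comm_le_right (nrm_cen (nrm_inf (nE _) (nrm_cen1 inf_le_right))))
  · refine comm_eq_bot'.1 (cen_of_comm_le_comm hE z hc (nE _) (nE _) c2 ?_)
    have m := nrm_commutator (nE (R ⊓ cen1 u)) (le_nrm_of_le_cen (inf_le_right.trans (cen_zpowers u).ge))
    exact (commutator_mono le_rfl (comm_le_ncl' _ _)).trans (comm_ncl_le' (h u hu h1 ▸ nrm_comm_right E U) (h u hu h1).le m (nE _))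

end Cfsg.Agent.S2909
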