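import Cfsg.Statements.S2910
import Cfsg.Agent.H1.LS3

set_option autoImplicit false
open Cfsg

namespace Cfsg.Agent.S2910

open H7 H1B Subgroup

/-- Let p be an odd prime dividing the order of the finite group G and P a Sylow p-subgroup of G. If Ω₁(P) (generated by the elements of order dividing p) is contained in the centre of G, then G has a normal p-complement. In particular, if G is quasisimple then Ω₁(P) is not central in G. -/
theorem result {G : Type*} [Group G] [Finite G] {p : ℕ} [Fact p.Prime] (hp : p ≠ 2) (hdiv : p ∣ Nat.card G) (P : Sylow p G) (hZ : Cfsg.omegaOne p (P : Subgroup G) ≤ Subgroup.center G) : Cfsg.HasNormalPComplement p G ∧ ¬ Cfsg.IsQuasisimple G := by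
  rw [omegaOne_eq, ← cen_top] at hZ
  have h : NPC p (⊤ : Subgroup G) := npc_frob fun Q _ hQ x _ hx hc => by
    obtain ⟨g, -, e⟩ := (syl_top P).exists_cj_le hQ le_top
    refine zpowers_le.1 (cen_of_Om_le hp hQ (zpowers_le.2 hx) (card_zpowers_eq x ▸ hc) (le_trans ?_ (cen_anti le_top)))
    have := (Om_mono e).trans hZ
    rwa [← cj_Om, H7.cj_le_iff, cj_cen, H2.cj_top] at this
  exact ⟨npc_top_iff.2 h, fun q => (pRes_lt_of_npc h (by simpa using hdiv)).ne
    (pRes_of_perfect (qs_top_iff.2 q).perfect)⟩

end Cfsg.Agent.S2910
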