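import Cfsg.Statements.S2911
import Cfsg.Agent.H1.Xt

set_option autoImplicit false
open Cfsg

namespace Cfsg.Agent.S2911

open H7 H1B Subgroup
open scoped commutatorElement
theorem fin1 : ∀ w : Multiplicative (ZMod 2) × DihedralGroup 4, (∀ x, x * w = w * x) → w.1 = 1 → ∃ a b : Multiplicative (ZMod 2) × DihedralGroup 4, w = a * b * a⁻¹ * b⁻¹ := by
  decide
theorem fin2 : ∀ x : Multiplicative (ZMod 2) × DihedralGroup 4, x * (Multiplicative.ofAdd 1, 1) = (Multiplicative.ofAdd 1, 1) * x := by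
  decide

/-- A finite group whose Sylow 2-subgroups are isomorphic to the direct product of a group of order 2 and a dihedral group of order 8 has a subgroup of index two. -/
theorem result {G : Type*} [Group G] [Finite G] (S : Sylow 2 G) (hS : Nonempty (↥(S : Subgroup G) ≃* Multiplicative (ZMod 2) × DihedralGroup 4)) : ∃ H : Subgroup G, H.index = 2 := by
  obtain ⟨e⟩ := hS
  by_contra c
  have h0 : pResidual 2 G = ⊤ := H2.pResidual_eq_top_iff.2 fun M _ i => c ⟨M, i⟩
  let φ : (S : Subgroup G) →* Multiplicative (ZMod 2) := (MonoidHom.fst _ _).comp e.toMonoidHom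
  let z : (S : Subgroup G) := e.symm (Multiplicative.ofAdd 1, 1)
  have hz : (z : G) ∈ Z1 2 (S : Subgroup G) := by
    refine mem_Z1.2 ⟨z.2, fun x hx => mem_cen1.2 ?_, ?_⟩
    · have : (⟨x, hx⟩ : (S : Subgroup G)) * z = z * ⟨x, hx⟩ := e.injective (by
        rw [map_mul, map_mul, e.apply_symm_apply, fin2])
      exact congrArg Subtype.val this
    · have : z ^ 2 = 1 := e.injective (by rw [map_pow, e.apply_symm_apply, e.map_one]; decide)
      exact congrArg Subtype.val this
  have hy : ev φ z ≠ 1 := by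
    rw [ev_coe]; change (e (e.symm _)).1 ≠ 1; rw [e.apply_symm_apply]; decide
  obtain ⟨g, a, b⟩ := ext_transfer_cen h0 (syl_top S) φ hz hy
  obtain ⟨m1, m2, -⟩ := mem_Z1.1 (nconj_mem (nrm_Z1 (p := 2) le_rfl a) hz)
  obtain ⟨u, v, k⟩ := fin1 (e ⟨_, m1⟩) (fun x => by
    obtain ⟨x, rfl⟩ := e.surjective x
    rw [← map_mul, ← map_mul]
    exact congrArg e (Subtype.ext (mem_cen1.1 (m2 x.2)))) (by
      have := (mem_kr.1 b).2
      rwa [ev_eq m1] at this)
  obtain ⟨u, rfl⟩ := e.surjective u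
  obtain ⟨v, rfl⟩ := e.surjective v
  rw [← map_inv, ← map_inv, ← map_mul, ← map_mul, ← map_mul] at k
  have k2 : g * z * g⁻¹ = ⁅(u : G), (v : G)⁆ := congrArg Subtype.val (e.injective k)
  have k3 := nconj_mem' (nrm_commutator le_rfl le_rfl a) (k2 ▸ commutator_mem_commutator u.2 v.2)
  rw [show g⁻¹ * (g * z * g⁻¹) * g = z by group] at k3
  refine hy (mem_kr.1 ((im_le_cen_iff le_rfl le_rfl).1 (fun x _ y _ => mul_comm _ _) k3)).2

end Cfsg.Agent.S2911
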