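import Cfsg.Statements.S2912
import Cfsg.Agent.H1.XS
import Cfsg.Agent.H1.BG4
import Cfsg.Agent.H7.PG4
import Cfsg.Agent.H2.ZJ

set_option autoImplicit false
open Cfsg

namespace Cfsg.Agent.S2912

open H7 H1B Subgroup
open scoped commutatorElement

theorem exists_x {G : Type*} [Group G] [Finite G] {p : ℕ} [hp : Fact p.Prime] {E : Subgroup G} {z : G} (h : XS p E z)
    (h2 : p ≠ 2) (hc : ¬ E ≤ cen E) : ∃ x ∈ E, x ∉ cen E ∧ x ^ p = 1 := by
  obtain ⟨a, ha, c⟩ := SetLike.not_le_iff_exists.1 hc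
  obtain ⟨b, hb, e⟩ := h.toSQ.exists_y ha c
  by_cases a1 : a ^ p = 1
  · exact ⟨a, ha, c, a1⟩
  have z1 : z ≠ 1 := ne_one_of_orderOf h.oz
  have e2 := eq_zpowers_of_card ((Nat.card_zpowers z).trans h.oz) (h.pow a ha) a1
  obtain ⟨i, hi⟩ := mem_zpowers_iff.1 (e2.le (inv_mem (h.pow b hb)))
  have m := h.comm _ (zpow_mem ha i) b hb
  refine ⟨b * a ^ i, mul_mem hb (zpow_mem ha i), fun k => z1 ?_, ?_⟩
  · rw [← e, commutatorElement_eq_one_iff_mul_comm]
    have := mem_cen.1 k a ha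
    rw [mul_assoc, ← ((Commute.refl a).zpow_right i).eq, ← mul_assoc, ← mul_assoc] at this
    exact mul_right_cancel this
  · rw [H2.mul_pow_class_two' (hp.out.odd_of_ne_two h2) (h.toSQ.commZ m hb).symm (h.toSQ.commZ m (zpow_mem ha i)).symm
      (by rw [← h.oz, ← Nat.card_zpowers]; exact pow_card_eq_one'' m), ← zpow_natCast (a ^ i), ← zpow_mul, mul_comm i,
      zpow_mul, zpow_natCast, hi, mul_inv_cancel]

theorem main {G : Type*} [Group G] [Finite G] {p r n : ℕ} [hp : Fact p.Prime] [hr : Fact r.Prime] (hpr : p ≠ r) {z : G}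
    (hmin : ∀ k : ℕ, 1 ≤ k → p ∣ r ^ k - 1 → n ≤ k) (w : ℕ) : ∀ E A : Subgroup G, XS p E z → ord E = p ^ (2 * w + 1) → EA r A →
      A ≠ ⊥ → E ≤ nrm A → A ⊓ cen1 z = ⊥ → r ^ (n * p ^ w) ≤ ord A := by
  have base : ∀ A : Subgroup G, orderOf z = p → EA r A → A ≠ ⊥ → z ∈ nrm A → A ⊓ cen1 z = ⊥ →
      ∃ k, ord A = r ^ k ∧ 1 ≤ k ∧ n ≤ k := fun A oz eA ne hn h0 => by
    obtain ⟨k, hk⟩ := card_pgroup eA.isPGroup
    have k1 : 1 ≤ k := Nat.pos_of_ne_zero fun e => ne (card_eq_one.1 (by rw [hk, e, pow_zero]))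
    exact ⟨k, hk, k1, hmin k k1 (hk ▸ dvd_card_sub_one (isPGroup_zpowers_of_orderOf oz) (zpowers_le.2 hn)
      (by rwa [cen_zpowers]))⟩
  induction w with
  | zero =>
    intro E A h _ eA ne hn h0
    obtain ⟨k, hk, -, l⟩ := base A h.oz eA ne (hn h.zm) h0
    rw [hk, pow_zero, mul_one]
    exact Nat.pow_le_pow_right hr.out.pos l
  | succ w ih =>
  intro E A h hE eA ne hn h0
  have nc : ¬ E ≤ cen E := fun c => by simpa using (h.comm_iff hE).1 c
  have z1 : z ≠ 1 := ne_one_of_orderOf h.oz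
  by_cases ex : ∃ x ∈ E, x ∉ cen E ∧ x ^ p = 1
  swap
  · obtain rfl : p = 2 := by_contra fun c => ex (exists_x h c nc)
    have h2 : nsq E = 2 := by_contra fun c => let ⟨x, a, b, d⟩ := h.exists_inv c; ex ⟨x, a, b, by rw [pow_two, d]⟩
    obtain rfl : w = 0 := by have := h.le_one hE h2; omega
    obtain ⟨k, hk, k1, -⟩ := base A h.oz eA ne (hn h.zm) h0
    have n1 := hmin 1 le_rfl (by
      rw [pow_one]; exact (hr.out.even_sub_one hpr.symm).two_dvd)
    rw [hk]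
    refine Nat.pow_le_pow_right hr.out.pos (le_trans (by simpa using n1) (show 2 ≤ k from lt_of_le_of_ne k1 ?_))
    rintro rfl
    obtain ⟨a, ha, c⟩ := SetLike.not_le_iff_exists.1 nc
    obtain ⟨b, hb, e⟩ := h.toSQ.exists_y ha c
    have := H7.der_le_cen_of_cyc (isCyclic_of_prime_card (hk.trans (pow_one r))) hn hn (e ▸ commutator_mem_commutator ha hb)
    exact ne (eq_bot_iff.2 (h0.le.trans' (le_inf le_rfl (le_cen1_iff.2 this))))
  obtain ⟨x0, hx0, c0, p0⟩ := ex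
  have zp : z ^ p = 1 := h.oz ▸ pow_orderOf_eq_one z
  have eX : EA p (zpowers x0 ⊔ zpowers z) := (ea_zpowers p0).sup (ea_zpowers zp)
    (le_cen_symm (zpowers_le.2 (cen_anti (zpowers_le.2 hx0) h.zc)))
  have lX := sup_le (zpowers_le.2 hx0) (zpowers_le.2 h.zm)
  have cop : ∀ {X B : Subgroup G}, X ≤ E → B ≤ A → X ≤ nrm B → Cop X B := fun l l' n => cop_of_pgroup (h.toSQ.pgroup.to_le l)
    (coprime_of_isPGroup (eA.isPGroup.to_le l') ((Nat.coprime_primes hp.out hr.out).2 hpr)).symm n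
  obtain ⟨x, hx, x1, ne'⟩ : ∃ x ∈ zpowers x0 ⊔ zpowers z, x ≠ 1 ∧ A ⊓ cen1 x ≠ ⊥ := by
    by_contra! c
    refine ne (eq_bot_iff.2 ((cop lX le_rfl (lX.trans hn)).le_of_cen1 eX.comm (fun k => c0 ?_) fun a ha a1 => (c a ha a1).le))
    have := eq_of_le_of_card_le (le_sup_right : zpowers z ≤ zpowers x0 ⊔ zpowers z)
      ((eX.card_le_of_cyc k).trans ((Nat.card_zpowers z).trans h.oz).ge)
    exact (h.toSQ.zle (this.ge (mem_sup_left (mem_zpowers _)))).2
  have xE := lX hx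
  have gen : ∀ {u}, u ∈ zpowers z → u ≠ 1 → A ⊓ cen1 u = ⊥ := fun hu u1 => by
    rw [← cen_zpowers, ← eq_zpowers_of_card ((Nat.card_zpowers z).trans h.oz) hu u1, cen_zpowers, h0]
  obtain ⟨y, hy, e⟩ := h.toSQ.exists_y xE fun c => ne' (gen (h.ctr.le ⟨xE, c⟩) x1)
  have cz : ∀ {a}, a ∈ E → Commute a z := fun ha => h.toSQ.commZ (mem_zpowers z) ha
  have cb : ∀ i : ℕ, (y ^ i)⁻¹ * x * (y ^ i)⁻¹⁻¹ = x * z ^ i := fun i => by
    induction i with
    | zero => simp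
    | succ i ih =>
      have e1 : y⁻¹ * x * y = x * z := by
        rw [(cz xE).eq, ← e, ← mul_left_cancel_iff (a := y), ← mul_assoc y (⁅x, y⁆), e, (cz hy).eq, ← e]; group
      calc _ = y⁻¹ * ((y ^ i)⁻¹ * x * (y ^ i)⁻¹⁻¹) * y := by group
        _ = y⁻¹ * x * y * z ^ i := by rw [ih, mul_assoc (y⁻¹ * x), ((cz hy).pow_right i).eq]; group
        _ = _ := by rw [e1]; group
  have bE : ∀ i : ℕ, x * z ^ i ∈ E := fun i => mul_mem xE (pow_mem h.zm i)
  have cU : ∀ i : ℕ, ord (A ⊓ cen1 (x * z ^ i)) = ord (A ⊓ cen1 x) := fun i => by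
    rw [← cb, ← cj_cen1, ← H2.card_cj (y ^ i)⁻¹ (A ⊓ cen1 x), H7.cj_inf, cj_of_mem_nrm (hn (inv_mem (pow_mem hy i)))]
  have nU : ∀ i k : ℕ, zpowers (x * z ^ k) ≤ nrm (A ⊓ cen1 (x * z ^ i)) := fun i k => nrm_inf (zpowers_le.2 (hn (bE k)))
    (nrm_cen1 (zpowers_le.2 (mem_cen1.2 (((Commute.refl x).mul_right ((cz xE).pow_right i)).mul_left
      ((cz (bE i)).pow_right k).symm))))
  have key : ∀ m ≤ p, ∃ S ≤ A, ord S = ord (A ⊓ cen1 x) ^ m ∧ (∀ k : ℕ, zpowers (x * z ^ k) ≤ nrm S) ∧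
      ∀ k, m ≤ k → k < p → S ⊓ cen (zpowers (x * z ^ k)) = ⊥ := fun m hm => by
    induction m with
    | zero => exact ⟨⊥, bot_le, by simp, fun _ => le_nrm_bot _, fun _ _ _ => bot_inf_eq _⟩
    | succ m ih =>
      obtain ⟨S, s1, s2, s3, s4⟩ := ih (by omega)
      have n := s1.trans (eA.le_nrm (inf_le_left : A ⊓ cen1 (x * z ^ m) ≤ A))
      refine ⟨S ⊔ A ⊓ cen1 (x * z ^ m), sup_le s1 inf_le_left, ?_, fun k => nrm_sup (s3 k) (nU m k), fun k k1 k2 => ?_⟩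
      · rw [card_sup_of_inf_eq_bot n (eq_bot_iff.2 ((s4 m le_rfl hm).le.trans' (inf_le_inf_left _
          (inf_le_right.trans (cen_zpowers _).ge)))), s2, cU, pow_succ]
      rw [Cop.sup_inf_cen (s3 k) (nU m k) (cop (zpowers_le.2 (bE k)) (inf_le_left.trans s1) (nrm_inf (s3 k) (nU m k)))
        (prm_of_nrm n), s4 k (by omega) k2, bot_sup_eq, cen_zpowers]
      refine eq_bot_iff.2 ((gen (pow_mem (mem_zpowers z) (k - m)) (pow_ne_one_of_lt_orderOf (by omega)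
        (by rw [h.oz]; omega))).le.trans' fun u hu => ⟨hu.1.1, mem_cen1_comm.1 ?_⟩)
      have : z ^ (k - m) = (x * z ^ m)⁻¹ * (x * z ^ k) := by
        obtain ⟨j, rfl⟩ := Nat.exists_eq_add_of_le (show m ≤ k by omega)
        rw [Nat.add_sub_cancel_left]; group
      rw [this]
      exact mul_mem (inv_mem (mem_cen1_comm.1 hu.1.2)) (mem_cen1_comm.1 hu.2)
  obtain ⟨S, s1, s2, -⟩ := key p le_rfl
  have := ih _ _ (h.subC xE hy e) (h.cardC' xE hy e hE) (eA.of_le inf_le_left) ne' (nrm_inf (inf_le_left.trans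
    (inf_le_left.trans hn)) (nrm_cen1 (inf_le_left.trans inf_le_right))) (eq_bot_iff.2 (h0.le.trans'
      (inf_le_inf_right _ inf_le_left)))
  rw [pow_succ, ← mul_assoc, pow_mul]
  exact (Nat.pow_le_pow_left this p).trans (s2.ge.trans (card_le_of_le s1))

/-- Let p and r be distinct primes, let E be an extraspecial subgroup of order p^(2w+1) of a finite group, and let A be an elementary abelian r-subgroup normalized by E on which E acts faithfully (C_E(A) = 1). If n ≥ 1 is least with p dividing rⁿ − 1 (the smallest dimension of a faithful representation of a group of order p over the field with r elements), then the order of A is at least r^(n·p^w). -/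
theorem result {G : Type*} [Group G] [Finite G] {p r : ℕ} [Fact p.Prime] [hr : Fact r.Prime] (hpr : p ≠ r) (E A : Subgroup G) (w : ℕ) (hE : Cfsg.IsExtraspecial p ↥E) (hEcard : Nat.card ↥E = p ^ (2 * w + 1)) (hA : Cfsg.IsElementaryAbelian r A) (hnorm : E ≤ Subgroup.normalizer (A : Set G)) (hfaith : E ⊓ Subgroup.centralizer (A : Set G) = ⊥) (n : ℕ) (hn : 1 ≤ n) (hdiv : p ∣ r ^ n - 1) (hmin : ∀ k : ℕ, 1 ≤ k → p ∣ r ^ k - 1 → n ≤ k) : r ^ (n * p ^ w) ≤ Nat.card ↥A := by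
  obtain ⟨z, h, -⟩ := xs_of hE
  have n := zpowers_le.2 (hnorm h.zm)
  refine (main hpr hmin w E ⁅A, zpowers z⁆ h hEcard (EA.of_le hA (comm_le_left n)) (fun e => ne_one_of_orderOf h.oz
    (mem_bot.1 (hfaith.le ⟨h.zm, comm_eq_bot'.1 e (mem_zpowers z)⟩))) (nrm_commutator hnorm (h.toSQ.le_nrm
      (zpowers_le.2 h.zm) (mem_zpowers z))) ?_).trans (card_le_of_le (comm_le_left n))
  rw [← cen_zpowers]
  exact comm_inf_cen_of_comm (EA.comm hA) n (coprime_of_isPGroup (EA.isPGroup hA) (by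
    rw [Nat.card_zpowers, h.oz]; exact (Nat.coprime_primes Fact.out hr.out).2 hpr))

end Cfsg.Agent.S2912
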