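import Cfsg.Statements.S2924
import Cfsg.Agent.H7.Sig2
import Cfsg.Agent.H7.LBal
import Cfsg.Agent.H1.Frob

set_option autoImplicit false
open Cfsg

namespace Cfsg.Agent.S2924
open H7
open scoped commutatorElement

/-- Let X be a finite group and Y an elementary abelian 2-subgroup of X of order at least 8 such that C_X(x) has no components (E(C_X(x)) = 1) for every nontrivial x ∈ Y, and F*(C_X(z)) = O₂(C_X(z)) for some nontrivial z ∈ Y. Then the subgroup generated by the cores O(C_X(y)), y ∈ Y nontrivial, has odd order and is normalized by N_X(Y). -/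
theorem result {X : Type*} [Group X] [Finite X] (Y : Subgroup X) (hY : Cfsg.IsElementaryAbelian 2 Y) (h8 : 8 ≤ Nat.card ↥Y) (hE : ∀ x ∈ Y, x ≠ 1 → Cfsg.layer ↥(Subgroup.centralizer ({x} : Set X)) = ⊥) (hz : ∃ z ∈ Y, z ≠ 1 ∧ Cfsg.generalizedFittingSubgroup ↥(Subgroup.centralizer ({z} : Set X)) = Cfsg.pCore 2 ↥(Subgroup.centralizer ({z} : Set X))) : Odd (Nat.card ↥(⨆ y : {y : X // y ∈ Y ∧ y ≠ 1}, (Cfsg.oddCore ↥(Subgroup.centralizer ({(y : X)} : Set X))).map (Subgroup.centralizer ({(y : X)} : Set X)).subtype)) ∧ Subgroup.normalizer (Y : Set X) ≤ Subgroup.normalizer ((⨆ y : {y : X // y ∈ Y ∧ y ≠ 1}, (Cfsg.oddCore ↥(Subgroup.centralizer ({(y : X)} : Set X))).map (Subgroup.centralizer ({(y : X)} : Set X)).subtype : Subgroup X) : Set X) := by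
  open Subgroup in
    haveI := Fact.mk Nat.prime_two
    simp only [pPrimeCore_map]
    obtain ⟨z, hz, z1, cz⟩ := hz
    rw [gfit_eq_pCore_iff] at cz
    have eY : EA 2 Y := hY
    have n1 : ∀ a ∈ Y, Y ≤ nrm (cen1 a) := fun a ha => nrm_cen1 (eY.le_cen1 ha)
    have pz : ∀ a ∈ Y, IsPGroup 2 (zpowers a) := fun a ha => eY.isPGroup.to_le (zpowers_le.2 ha)
    have zz : z * z = 1 := by rw [← sq]; exact eY.pow hz
    have pc : ∀ a ∈ Y, ∀ b ∈ Y, PLay 2 (cen1 b) = ⊥ → PLay 2 (cen1 b ⊓ cen1 a) = ⊥ ∧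
        Op' 2 (cen1 a) ⊓ cen1 b ≤ Op' 2 (cen1 b) := fun a ha b hb h => by
      have := pcon_cen h (pz a ha) ((zpowers_le.2 ha).trans (n1 b hb))
      rw [cen_zpowers] at this
      refine ⟨this.1, le_trans ?_ this.2⟩
      exact (le_inf inf_le_left (le_inf inf_le_right (inf_le_left.trans (Opi_le _ _)))).trans
        (inf_le_Opi _ inf_le_right)
    have O1 := Op'_eq_bot_of_Fst cz
    have L1 : PLay 2 (cen1 z) = ⊥ := by rw [PLay_eq_Lay O1]; exact Lay_eq_bot_of_Fst cz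
    have inv : ∀ a ∈ Y, ∀ k ∈ Op' 2 (cen1 a), z * k * z⁻¹ = k⁻¹ := fun a ha k hk =>
      H1.inverts_of_fpf_involution (by rw [zz]; exact one_mem _) (nrm_Opi _ (n1 a ha) hz)
        (eq_bot_of_le (pc a ha z hz L1).2 O1) hk
    have com : ∀ a ∈ Y, Op' 2 (cen1 a) ≤ cen (Op' 2 (cen1 a)) := fun a ha =>
      isComm_iff.1 (H1.isMulCommutative_of_inverts (inv a ha))
    have pl : ∀ a ∈ Y, a ≠ 1 → PLay 2 (cen1 a) = ⊥ := fun a ha a1 => PLay_eq_bot_iff.2 fun L hL => by
      have nO : cen1 a ≤ nrm (Op' 2 (cen1 a)) := le_nrm_Opi _ _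
      have zl : zpowers z ≤ cen1 a := (zpowers_le.2 hz).trans (eY.le_cen1 ha)
      rcases hL.le_or_comm_le (SN.of_normal (inf_le_left : cen1 a ⊓ cen (Op' 2 (cen1 a)) ≤ _)
        (nrm_inf (le_nrm_self _) (nrm_cen nO))) with h | h
      · have q := hL.pqs.qs ((h.trans inf_le_right).trans (cen_anti (Opi_le_of_sn _ hL.sn)))
        have := hE a ha a1
        rw [eq_iff_map, layer_map, Subgroup.map_bot] at this
        exact Lay_eq_bot_iff.1 this L ⟨hL.sn, q⟩
      · have c : ⁅zpowers z, L⁆ ≤ cen1 a ⊓ cen (Op' 2 (cen1 a)) := by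
          refine le_inf (comm_le_of_le zl hL.le) (comm_zpowers_le
            (nrm_cen (zl.trans nO) (mem_zpowers z)) fun l hl => mem_cen.2 fun k hk => ?_)
          have hl' := nO (hL.le hl)
          have e1 := inv a ha _ (nconj_mem' hl' hk)
          have e2 := inv a ha _ (inv_mem hk)
          have e3 : z⁻¹ = z := inv_eq_of_mul_eq_one_right zz
          have e4 : z⁻¹ * (l⁻¹ * k * l) * z = (l⁻¹ * k * l)⁻¹ := by rw [← e1, e3]
          refine (mul_inv_eq_iff_eq_mul.1 ?_).symm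
          calc ⁅z, l⁆ * k * ⁅z, l⁆⁻¹ = z * l * (z⁻¹ * (l⁻¹ * k * l) * z) * l⁻¹ * z⁻¹ := by
                rw [commutatorElement_def]; group
            _ = z * k⁻¹ * z⁻¹ := by rw [e4]; group
            _ = k := by rw [e2, inv_inv]
        have c2 : ⁅zpowers z, L⁆ ≤ Op' 2 (cen1 a) := comm_le_of_perfect hL.pqs.perfect (zl.trans nO)
          (hL.le.trans nO) (by rw [Subgroup.commutator_comm]; exact (commutator_mono le_rfl c).trans h)
        obtain ⟨K0, -, hK, -⟩ := hL.exists_cen (pz z hz) (zl.trans (le_nrm_self _))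
          (by rwa [Subgroup.commutator_comm])
        rw [cen_zpowers, inf_comm] at hK
        exact PLay_eq_bot_iff.1 (pc a ha z hz L1).1 K0 hK
    have sf : SigF 2 Y Y fun a => Op' 2 (cen1 a) := ⟨eY.isPGroup, eY, le_rfl, eY.le_cen,
      fun a _ _ => not_dvd_Op' 2 _, fun a ha _ => nrm_Opi _ (n1 a ha),
      fun a ha _ b hb b1 => (pc a ha b hb (pl b hb b1)).2⟩
    have ne : Y ≠ ⊥ := ne_bot_of_pow_le (p := 2) (n := 2) h8
    have cc : ∀ U V, TS 2 Y Y (fun a => Op' 2 (cen1 a)) U → TS 2 Y Y (fun a => Op' 2 (cen1 a)) V →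
        U ≤ cen V := fun U V hU hV =>
      (hU.co sf.pg).le_of_hyper eY ne fun B hB iB => le_cen_symm
        ((hV.co sf.pg).le_of_hyper eY ne fun C hC iC => by
          obtain ⟨x, hx, x1⟩ := exists_ne_one (hyper_inf_ne_bot (p := 2) h8 hB iB iC)
          exact le_cen_mono (com x (hB hx.2))
            ((inf_le_inf_left _ (cen_le_cen1 hx.1)).trans (hV.fx x (hB hx.2) x1))
            ((inf_le_inf_left _ (cen_le_cen1 hx.2)).trans (hU.fx x (hB hx.2) x1)))
    obtain ⟨M, hM, hm⟩ := (wellFounded_gt (α := Subgroup X)).has_min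
      {U | TS 2 Y Y (fun a => Op' 2 (cen1 a)) U} ⟨⊥, ts_bot⟩
    refine ⟨odd_iff_coprime.2 (coprime_of_le (iSup_le fun a => ?_) (coprime_iff_not_dvd.2 hM.cop)),
      le_nrm_of_cj_le fun g hg => ?_⟩
    · have t := sf.ts a.2.1 a.2.2
      by_contra hc
      exact hm _ (t.sup hM sf (le_nrm_of_le_cen (cc _ _ t hM))) (right_lt_sup.2 hc)
    · rw [cj_iSup]
      refine iSup_le fun a => ?_
      rw [cj_Opi, cj_cen1]
      exact le_iSup (fun y : {y : X // y ∈ Y ∧ y ≠ 1} => Op' 2 (cen1 (y : X)))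
        ⟨_, nconj_mem hg a.2.1, by simpa [mul_inv_eq_iff_eq_mul] using a.2.2⟩

end Cfsg.Agent.S2924
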