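import Cfsg.Statements.S2925
import Cfsg.Agent.H1.Xt

set_option autoImplicit false
open Cfsg

namespace Cfsg.Agent.S2925

open H7 H1B Subgroup
open scoped commutatorElement
theorem comm_split {G : Type*} [Group G] {r s a b : G} (h1 : Commute r a) (h2 : Commute r b) (h3 : Commute s a) (h4 : Commute s b)
    (h : Commute (r * a) (s * b)) : ⁅r, s⁆ = ⁅b, a⁆ := by
  have e : r * s * (a * b) = s * r * (b * a) := by
    calc _ = r * (s * a) * b := by group
      _ = r * a * (s * b) := by rw [h3.eq]; group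
      _ = s * (b * r) * a := by rw [h.eq]; group
      _ = _ := by rw [← h2.eq]; group
  have c : Commute (s * r) (b * a * (a * b)⁻¹) :=
    (((h4.mul_right h3).mul_right (h3.mul_right h4).inv_right).mul_left ((h2.mul_right h1).mul_right (h1.mul_right h2).inv_right))
  calc _ = r * s * (a * b) * (a * b)⁻¹ * (s * r)⁻¹ := by rw [commutatorElement_def]; group
    _ = s * r * (b * a * (a * b)⁻¹) * (s * r)⁻¹ := by rw [e]; group
    _ = _ := by rw [c.eq, commutatorElement_def]; group

/-- Let K be a component of the finite group X and T a Sylow 2-subgroup of X. If some abelian normal subgroup Y of T does not normalize K, then K ⧸ Z(K) has abelian Sylow 2-subgroups. -/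
theorem result {X : Type*} [Group X] [Finite X] (K : Subgroup X) (hK : Cfsg.IsComponent K) (T : Sylow 2 X) (Y : Subgroup X) (hYT : Y ≤ (T : Subgroup X)) (hYn : (Y.subgroupOf (T : Subgroup X)).Normal) (hYab : IsMulCommutative ↥Y) (hnot : ¬ Y ≤ Subgroup.normalizer (K : Set X)) (P : Sylow 2 (↥K ⧸ Subgroup.center ↥K)) : IsMulCommutative ↥(P : Subgroup (↥K ⧸ Subgroup.center ↥K)) := by
  have h := isComponent_iff.1 hK
  obtain ⟨y, hy, hn⟩ := SetLike.not_le_iff_exists.1 hnot
  have c : cj y K ≤ cen K := (h.cj_of_mem_nrm (le_nrm_self ⊤ (mem_top y))).cen_of_ne h fun e => hn (cj_eq_self_iff.1 e)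
  have nY := (normal_subgroupOf_iff' hYT).1 hYn
  have s := syl_im (syl_sn (syl_top T) h.sn) le_rfl (QuotientGroup.mk' (center K))
  rw [im_mk'_dom] at s
  obtain ⟨g, -, e⟩ := H2.IsSylowIn.exists_cj_eq s (syl_top P)
  rw [← e, isComm_cj, H7.isComm_iff, im_le_cen_iff inf_le_right inf_le_right, kr_mk', center_eq_subgroupOf, subgroupOf_map_subtype]
  refine le_inf (commutator_le.2 fun r hr t ht => ?_) (comm_le_of_le inf_le_right inf_le_right)
  have m : ∀ x ∈ (T : Subgroup X) ⊓ K, y * x⁻¹ * y⁻¹ ∈ cj y K ∧ x * (y * x⁻¹ * y⁻¹) ∈ Y := fun x hx =>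
    ⟨H7.conj_mem_cj.2 (inv_mem hx.2), by
      rw [← mul_assoc, ← mul_assoc]; exact mul_mem (conj_mem nY hx.1 hy) (inv_mem hy)⟩
  have k : ∀ x ∈ K, ∀ w ∈ cj y K, Commute x w := fun x a w b => mem_centralizer_iff.1 (c b) x a
  rw [comm_split (k r hr.2 _ (m r hr).1) (k r hr.2 _ (m t ht).1) (k t ht.2 _ (m r hr).1) (k t ht.2 _ (m t ht).1)
    (isComm_iff'.1 hYab _ (m r hr).2 _ (m t ht).2)]
  exact c (comm_le_of_le le_rfl le_rfl (commutator_mem_commutator (m t ht).1 (m r hr).1))

end Cfsg.Agent.S2925
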