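import Cfsg.Statements.S2931
import Cfsg.Agent.H0.IWB4
import Cfsg.Agent.H0.IS43
import Cfsg.Agent.H0.Sym
import Cfsg.Agent.H0.ES43D.Main
import Cfsg.Agent.S0288
-- import your own Cfsg.Agent.* helpers here

set_option autoImplicit false
open Cfsg

namespace Cfsg.Agent.S2931

theorem syl_emb {G A : Type*} [Group G] [Finite G] [Group A] [Finite A] (i : A →* G) (hi : Function.Injective i) {m : ℕ}
    (hm : Nat.card G = Nat.card A * m) (h2 : ¬ 2 ∣ m) (P : Sylow 2 A) (S : Sylow 2 G) :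
    Nonempty ((P : Subgroup A) ≃* (S : Subgroup G)) := by
  have e := (P : Subgroup A).equivMapOfInjective i hi
  have h3 : ((P : Subgroup A).map i).index = (P : Subgroup A).index * m := by
    have h4 := ((P : Subgroup A).map i).card_mul_index
    rw [hm, ← Nat.card_congr e.toEquiv, ← (P : Subgroup A).card_mul_index, mul_assoc] at h4
    exact Nat.eq_of_mul_eq_mul_left Nat.card_pos h4
  have h6 : ¬ 2 ∣ ((P : Subgroup A).map i).index := by
    rw [h3]
    exact fun h5 => ((Nat.Prime.dvd_mul Nat.prime_two).1 h5).elim P.not_dvd_index h2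
  exact ⟨e.trans (Sylow.equiv ((P.2.map i).toSylow h6) S)⟩

/-- The Sylow 2-subgroups of the alternating group of degree 8 and of PSp₄(3) are isomorphic, and so are the Sylow 2-subgroups of the symmetric group of degree 8 and of the full isometry group of a non-degenerate quadratic form of minus type in dimension 6 over the field with 2 elements. -/
theorem result (F : Type) [Field F] [Fintype F] (hF : Fintype.card F = 3) (K : Type) [Field K] [Fintype K] (hK : Fintype.card K = 2) (a b : K) (hab : ∀ z₁ z₂ : K, z₁ ^ 2 + a * z₁ * z₂ + b * z₂ ^ 2 = 0 → z₁ = 0 ∧ z₂ = 0) (P : Sylow 2 ↥(alternatingGroup (Fin 8))) (Q : Sylow 2 (Cfsg.PSp 2 F)) (P' : Sylow 2 (Equiv.Perm (Fin 8))) (Q' : Sylow 2 ↥(Cfsg.isometryGroup K (Cfsg.quadFormMinus 2 K a b))) : Nonempty (↥(P : Subgroup ↥(alternatingGroup (Fin 8))) ≃* ↥(Q : Subgroup (Cfsg.PSp 2 F))) ∧ Nonempty (↥(P' : Subgroup (Equiv.Perm (Fin 8))) ≃* ↥(Q' : Subgroup ↥(Cfsg.isometryGroup K (Cfsg.quadFormMinus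 2 K a b)))) := by
  have := H0.MWB4.fin (H0.Pres.pg 10 H0.MWB4.B)
  have := H0.MWD4.fin (H0.Pres.pg 9 H0.MWD4.B)
  have := H0.MS43.fin (H0.Pres.pg 13 H0.MS43.B)
  obtain ⟨R⟩ : Nonempty (Sylow 2 (H0.PG 9 H0.MWD4.B)) := inferInstance
  obtain ⟨R'⟩ : Nonempty (Sylow 2 (H0.PG 10 H0.MWB4.B)) := inferInstance
  constructor
  · obtain ⟨e⟩ := H0.IS43.iso
    have f := e.trans (H0.cenEquiv (H0.spEquiv (H0.fe (ZMod 3) hF (ZMod.card 3)) 2))
    obtain ⟨L, ⟨j⟩⟩ := H0.ES43D.iso (H0.MS43.m (H0.Pres.pg 13 H0.MS43.B)) (H0.MS43.mR (H0.Pres.pg 13 H0.MS43.B)) (H0.MS43.base (H0.Pres.pg 13 H0.MS43.B)) (H0.MS43.card (H0.Pres.pg 13 H0.MS43.B))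
    have c1 : Nat.card (Cfsg.PSp 2 F) = 25920 := (Nat.card_congr f.toEquiv).symm.trans (H0.MS43.card (H0.Pres.pg 13 H0.MS43.B))
    have : Finite (Cfsg.PSp 2 F) := Nat.finite_of_card_ne_zero (by rw [c1]; decide)
    obtain ⟨u⟩ := syl_emb H0.IWB4.dψ H0.IWB4.dinj (m := 105) (by
      rw [H0.MWD4.card (H0.Pres.pg 9 H0.MWD4.B)]; exact (H0.card_alt 6).trans (by decide)) (by decide) R P
    obtain ⟨v⟩ := syl_emb (f.toMonoidHom.comp (L.subtype.comp j.toMonoidHom))
      (f.injective.comp (Subtype.val_injective.comp j.injective)) (m := 135) (by rw [c1, H0.MWD4.card (H0.Pres.pg 9 H0.MWD4.B)]) (by decide) R Q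
    exact ⟨u.symm.trans v⟩
  · have σ := H0.fe (ZMod 2) hK (ZMod.card 2)
    have c2 := Cfsg.Agent.S0288.result hK 3 (by decide) a b hab
    have c3 : Nat.card (Cfsg.isometryGroup K (Cfsg.quadFormMinus 2 K a b)) = 51840 := c2.trans (by decide +kernel)
    have one : ∀ x : K, x ≠ 0 → x = 1 := fun x hx => by
      obtain ⟨y, rfl⟩ := σ.surjective x
      have : y = 1 := by
        have : y ≠ 0 := fun h => hx (by rw [h, map_zero])
        exact (by decide : ∀ y : ZMod 2, y ≠ 0 → y = 1) y this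
      rw [this, map_one]
    have two : (1 : K) + 1 = 0 := by
      rw [← map_one σ, ← map_add, show (1 : ZMod 2) + 1 = 0 by decide, map_zero]
    obtain rfl : b = 1 := one b fun h => one_ne_zero (hab 0 1 (by simp [h])).2
    obtain rfl : a = 1 := one a fun h => one_ne_zero (hab 1 1 (by simp [h, two])).2
    have f := H0.isoEquiv σ (Q := Cfsg.quadFormMinus 2 (ZMod 2) 1 1) (Q' := Cfsg.quadFormMinus 2 K 1 1) fun v => by
      simp only [Cfsg.quadFormMinus, map_add, map_mul, map_pow, map_sum, map_one, Function.comp_apply]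
    have : Finite (Cfsg.isometryGroup K (Cfsg.quadFormMinus 2 K 1 1)) := Nat.finite_of_card_ne_zero (by rw [c3]; decide)
    obtain ⟨u⟩ := syl_emb H0.IWB4.bψ H0.IWB4.binj (m := 105) (by
      rw [H0.MWB4.card (H0.Pres.pg 10 H0.MWB4.B), Nat.card_perm, Nat.card_fin]; decide) (by decide) R' P'
    obtain ⟨v⟩ := syl_emb (f.toMonoidHom.comp H0.IWB4.ψ) (f.injective.comp H0.IWB4.inj) (m := 135)
      (by rw [c3, H0.MWB4.card (H0.Pres.pg 10 H0.MWB4.B)]) (by decide) R' Q'
    exact ⟨u.symm.trans v⟩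

end Cfsg.Agent.S2931
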