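import Cfsg.Statements.S2939
import Cfsg.Agent.H1.SCt

set_option autoImplicit false
open Cfsg

namespace Cfsg.Agent.S2939

open H7 H1B Subgroup Relation

/-- Let p be a prime dividing the order of the finite group G and 𝓕 a family of subgroups of G closed under conjugation, with conjugates taken as X^g = g⁻¹Xg. Then 𝓕 controls Sylow p-intersections in G (any two distinct Sylow p-subgroups S and T with S ∩ T ≠ 1 are joined by a chain S = S₀, S₁, …, Sₙ = T of Sylow p-subgroups where, for each i, some member Xᵢ of 𝓕 meets both S_{i-1} and Sᵢ in Sylow p-subgroups of Xᵢ, satisfies S ∩ T ≤ Sᵢ ∩ Xᵢ, and contains an element xᵢ with Sᵢ^{xᵢ} = S_{i-1}) if and only if 𝓕 strongly controls p-fusion in G (whenever A is a subset of a Sylow p-subgroup S, A contains an element other than 1, and A^g ⊆ S, the element g factorises as g = y₁⋯yₙy with y ∈ N_G(S) and each yᵢ in a member Yᵢ of 𝓕 that meets S in a Sylow p-subgroup of Yᵢ, with A^{y₁⋯yᵢ}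 ⊆ S ∩ Yᵢ for each i). -/
theorem result {G : Type*} [Group G] [Finite G] {p : ℕ} [Fact p.Prime] (hdiv : p ∣ Nat.card G) (𝓕 : Set (Subgroup G)) (h𝓕 : Cfsg.IsNormalSet 𝓕) : Cfsg.ControlsSylowIntersections p 𝓕 ↔ Cfsg.FamilyStronglyControlsFusion p 𝓕 := by
  rw [csi_top]
  refine ⟨fun h S A g h1 ⟨a, h2, h3⟩ h4 => ?_, fun h S T hS hT ne => ?_⟩
  · have l : ∀ a ∈ A, a ∈ (S : Subgroup G) ⊓ cj g S := fun a ha => ⟨h1 ha, mem_cj.2 (h4 ⟨a, ha, rfl⟩)⟩
    obtain ⟨z, e, k⟩ := (h _ _ (syl_top S) (syl_cj_of_mem (syl_top S) (le_nrm_of_normal ⊤ _ (mem_top g)))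
      fun t => h3 (mem_bot.1 (t ▸ l a h2))).exists_cj h𝓕
    obtain ⟨n, c, c0, rfl, k'⟩ := rtg_fin.1 k
    choose Y k1 k2 using k'
    have := Fin.partialProd_left_inv c
    rw [c0, one_smul] at this
    refine ⟨n, Y, _, (c (Fin.last n))⁻¹ * g, cj_eq_self_iff.1 (by rw [H7.cj_mul, e, H2.cj_inv_cj]), fun i => ⟨k1 i, (k2 i).1⟩,
      ?_, fun i => ?_⟩
    · rw [← List.take_length (l := List.ofFn _), List.length_ofFn, show (List.take n _).prod = _ from
        congrFun this (Fin.last n), mul_inv_cancel_left]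
    rw [show (List.take (i.val + 1) _).prod = _ from congrFun this i.succ]
    rintro _ ⟨b, hb, rfl⟩
    exact (k2 i).2 (mem_cj_inv.2 (by simpa [mul_assoc] using l b hb))
  obtain ⟨g, -, rfl⟩ := hS.exists_cj_eq hT
  obtain ⟨a, h2, h3⟩ := exists_ne_one ne
  obtain ⟨n, Y, y, y₀, k1, k2, rfl, k3⟩ := h hS.toSylowTop (S ⊓ cj g S : Subgroup G) g (fun _ h => h.1) ⟨a, h2, h3⟩
    (by rintro _ ⟨b, hb, rfl⟩; exact mem_cj.1 hb.2)
  nth_rw 2 [H7.cj_mul]
  rw [cj_of_mem_nrm (H := S) k1]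
  refine chn_of_rtg h𝓕 hS (rtg_fin.2 ⟨n, Fin.partialProd y, Fin.partialProd_zero y, ?_, fun i => ⟨Y i, (k2 i).1,
    by rw [Fin.partialProd_right_inv]; exact (k2 i).2, fun b hb => ?_⟩⟩)
  · rw [Fin.partialProd, Fin.val_last, ← List.take_length (l := List.ofFn y), List.length_ofFn, List.take_take, min_self]
  exact k3 i ⟨_, mem_cj_inv.1 hb, by simp [mul_assoc, Fin.partialProd]⟩

end Cfsg.Agent.S2939
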