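import Cfsg.Statements.S2955
import Cfsg.Agent.H1.SCt

set_option autoImplicit false
open Cfsg

namespace Cfsg.Agent.S2955

open H7 H1B Subgroup Relation

/-- Let p be a prime dividing the order of the finite group G and 𝓕 a conjugation-closed family of subgroups that controls Sylow p-intersections in G. Suppose the Sylow p-subgroups of G are chain-connected: any two of them are joined by a chain of Sylow p-subgroups, consecutive ones distinct with nontrivial intersection, all containing the intersection of the two ends (equivalently, the graph on the Sylow p-subgroups whose edges are the distinct pairs meeting nontrivially is connected). Then for every Sylow p-subgroup S, G is generated by N_G(S) together with the members of 𝓕 that meet S in a Sylow p-subgroup of themselves. -/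
theorem result {G : Type*} [Group G] [Finite G] (p : ℕ) [Fact p.Prime] (hdiv : p ∣ Nat.card G)
    (𝓕 : Set (Subgroup G)) (h𝓕 : Cfsg.IsNormalSet 𝓕) (hc : Cfsg.ControlsSylowIntersections p 𝓕)
    (hconn : Cfsg.IsSylowChainConnected p G) (S : Sylow p G) :
    (⨆ X ∈ Cfsg.sylowMembers p 𝓕 (S : Subgroup G), X) ⊔ Subgroup.normalizer ((S : Subgroup G) : Set G) = ⊤ := by
  set K := (⨆ X ∈ Cfsg.sylowMembers p 𝓕 (S : Subgroup G), X) ⊔ nrm (S : Subgroup G)
  have a : ∀ T : Sylow p G, ∃ k ∈ K, (T : Subgroup G) = cj k S := fun T => by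
    induction chain_iff.1 hconn S T with
    | refl => exact ⟨1, one_mem _, (H2.cj_one _).symm⟩
    | @tail U V _ h2 ih =>
      obtain ⟨k, hk, e⟩ := ih
      obtain ⟨z, e', h⟩ := (csi_top.1 hc _ _ (syl_top U) (syl_top V) h2.2).exists_cj h𝓕
      refine ⟨z * k, ?_, by rw [e', e, H7.cj_mul]⟩
      clear e'
      induction h with
      | refl => rwa [one_mul]
      | @tail a b _ h2 ih =>
        obtain ⟨Y, h1, h2, -⟩ := h2
        rw [mem_sylowMembers, e] at h1
        have := mul_mem ih (mem_sup_left (le_biSup (f := fun X => X) ((mem_sylowMembers (X := cj k⁻¹ Y)).2 ⟨h𝓕 Y h1.1 k, by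
          simpa only [H2.cj_inv_cj] using syl_cj_inf h1.2 k⁻¹⟩) (mem_cj.1 (H2.cj_cj_inv k Y ▸ h2))))
        simpa [mul_assoc] using this
  refine eq_top_iff.2 fun g _ => ?_
  obtain ⟨k, hk, e⟩ := a (g • S)
  rw [coe_smul_syl, ← H2.cj_cj_inv k (cj g S), ← H7.cj_mul k⁻¹, cj_eq_iff, H2.cj_inv_cj, cj_eq_self_iff] at e
  exact (mul_mem_cancel_left (inv_mem hk)).1 (mem_sup_right e)

end Cfsg.Agent.S2955
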