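import Cfsg.Statements.S2956
import Cfsg.Agent.H1.SCt

set_option autoImplicit false
open Cfsg

namespace Cfsg.Agent.S2956

open H7 H1B Subgroup Relation

/-- Let p be a prime dividing the order of the finite group G, and f an assignment to every p-subgroup P of a set f(P) of subgroups of P, each normalized by N_G(P), compatible with conjugation, such that for P ≠ 1 the members of f(P) are nontrivial. Let 𝓕 be the family of the normalizers N_G(F) of the members F of f(S) over the Sylow p-subgroups S of G, and 𝓕' the family of the maximal p-local subgroups M of G that are singular for f (the corresponding family of normalizers inside M does not control Sylow p-intersections in M). Then 𝓕 ∪ 𝓕' controls Sylow p-intersections in G. -/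
theorem result {G : Type*} [Group G] [Finite G] (p : ℕ) [Fact p.Prime] (hdiv : p ∣ Nat.card G)
    (f : Subgroup G → Set (Subgroup G)) (hf : Cfsg.IsNormalizerFunctor p f)
    (hf1 : ∀ P : Subgroup G, IsPGroup p ↥P → P ≠ ⊥ → ∀ F ∈ f P, F ≠ ⊥)
    (𝓕 𝓕' : Set (Subgroup G)) (h𝓕 : 𝓕 = Cfsg.functorFamily p f ⊤)
    (h𝓕' : 𝓕' = {M | Cfsg.IsMaximalPLocal p M ∧ ¬ Cfsg.IsFunctorRegular p f M}) :
    Cfsg.ControlsSylowIntersections p (𝓕 ∪ 𝓕') := by
  subst h𝓕 h𝓕'
  rw [csi_top]
  set F := functorFamily p f ⊤ ∪ {M | IsMaximalPLocal p M ∧ ¬ IsFunctorRegular p f M}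
  suffices h : ∀ D : Subgroup G, D ≠ ⊥ → ∀ S T, IsSylowIn p S ⊤ → IsSylowIn p T ⊤ → D ≤ S → D ≤ T → Chn p F ⊤ D S T from
    fun S T a b c => h _ c S T a b inf_le_left inf_le_right
  intro D
  induction D using WellFoundedGT.induction with
  | ind D ih =>
  intro ne
  have i1 : ∀ {A S T}, D < A → IsSylowIn p S ⊤ → IsSylowIn p T ⊤ → A ≤ S → A ≤ T → Chn p F ⊤ D S T :=
    fun h a b c d => (ih _ h (ne_bot_of_gt h) _ _ a b c d).anti h.le
  have key : ∀ n, ∀ L P, IsPLocal p L → IsSylowIn p P L → Nat.card G - ord P = n → ∀ A B S T, D < A → D < B → A ≤ L → B ≤ L →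
      IsSylowIn p S ⊤ → IsSylowIn p T ⊤ → A ≤ S → B ≤ T → Chn p F ⊤ D S T := fun n => by
    induction n using Nat.strong_induction_on with
    | _ n ih =>
    rintro L P hL hP rfl A B S T dA dB hA hB hS hT aS bT
    obtain ⟨M, hLM, hM⟩ := exists_maximal_ge_of_wellFoundedGT (IsPLocal p) L hL
    have mx : IsMaximalPLocal p M := ⟨hM.1, fun N a b => le_antisymm (hM.2 a b) b⟩
    obtain ⟨A₁, sA, lA⟩ := exists_syl_ge (hS.2.to_le aS) (hA.trans hLM)
    obtain ⟨B₁, sB, lB⟩ := exists_syl_ge (hT.2.to_le bT) (hB.trans hLM)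
    obtain ⟨S₁, sS, lS⟩ := exists_syl_ge sA.2 le_top
    have e : ∀ {A S}, IsSylowIn p A M → IsSylowIn p S ⊤ → A ≤ S → S ⊓ M = A := fun a b c =>
      a.eq_of_le (b.2.to_le inf_le_left) (le_inf c a.1) inf_le_right
    refine (i1 dA hS sS aS (lA.trans lS)).trans ?_
    by_cases r : IsFunctorRegular p f M
    swap
    · obtain ⟨x, hx, k⟩ := sA.exists_cj_eq sB
      have s := syl_cj_of_mem sS (le_nrm_of_normal ⊤ _ (mem_top x))
      have l : B₁ ≤ cj x S₁ := k ▸ H7.cj_mono x lS
      exact .head ⟨s, M, .inr ⟨mx, r⟩, (e sA sS lS).symm ▸ sA, (e sB s l).symm ▸ sB,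
        (e sB s l).symm ▸ dB.le.trans lB, x, hx, rfl⟩ (i1 dB s hT (lB.trans l) bT)
    have k : ∀ U, Chn p (functorFamily p f M) M D A₁ U →
        IsSylowIn p U M ∧ D < U ∧ ∀ T, IsSylowIn p T ⊤ → U ≤ T → Chn p F ⊤ D S₁ T := fun U hU => by
      induction hU with
      | refl => exact ⟨sA, dA.trans_le lA, fun T a b => i1 (dA.trans_le lA) sS a lS b⟩
      | @tail U V _ h2 ih' =>
        obtain ⟨a, _, b, c, d, k, x, hx, rfl⟩ := h2
        obtain ⟨R, hR, Y, hY, rfl⟩ := mem_functorFamily.1 b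
        obtain ⟨sU, dU, ch⟩ := ih'
        have dV : D < cj x U := (k.trans inf_le_left).lt_of_ne fun t => (card_lt_of_lt dU).ne (by rw [t, H2.card_cj])
        refine ⟨a, dV, fun T sT l => ?_⟩
        have n := ((hf R hR.2).1 Y hY).2
        have m := le_inf hR.1 ((le_nrm_self R).trans n)
        have w : ∀ {U}, IsSylowIn p U M → IsSylowIn p (U ⊓ (M ⊓ nrm Y)) (M ⊓ nrm Y : Subgroup G) → U ≤ nrm Y := fun a b =>
          (eq_of_le_of_card_le inf_le_left ((a.card_eq hR).le.trans (b.card_le hR.2 m))).ge.trans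
            (inf_le_right.trans inf_le_right)
        by_cases t : IsSylowIn p R ⊤
        · have u := t.mono (le_inf le_top (m.trans inf_le_right)) le_top
          have l' := inf_le_inf_right (nrm Y) (le_top : M ≤ ⊤)
          have s := syl_of_par a t hR.1 le_top
          exact ((ch U (syl_of_par sU t hR.1 le_top) le_rfl).tail ⟨s, _, .inl (mem_functorFamily.2 ⟨R, t, Y, hY, rfl⟩),
            syl_inf_up u m l' sU.2 c, syl_inf_up u m l' a.2 d, k.trans (inf_le_inf_left _ l'), x, l' hx, rfl⟩).trans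
            (i1 dV s sT le_rfl l)
        obtain ⟨R', hR', lR⟩ := exists_syl_ge hR.2 (m.trans inf_le_right)
        obtain ⟨U', sU', lU⟩ := exists_syl_ge sU.2 le_top
        have lt : ord R < ord R' := card_lt_of_lt (lR.lt_of_ne fun t' => t (syl_of_nrm le_top
          ((t' ▸ hR').mono (le_inf le_top (le_nrm_self R)) (inf_le_right.trans n))))
        refine (ch U' sU' lU).trans (ih _ (Nat.sub_lt_sub_left ?_ ((hR.card_le hP.2 (hP.1.trans hLM)).trans_lt lt)) _ R'
          ⟨Y, hR.2.to_le ((hf R hR.2).1 Y hY).1, hf1 R hR.2 (fun t => ?_) Y hY, rfl⟩ hR' rfl _ _ _ _ dU dV (w sU c) (w a d)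
          sU' sT lU l)
        · exact ((hR.card_le hP.2 (hP.1.trans hLM)).trans_lt lt).trans_le (card_le_card_group _)
        exact (card_lt_of_lt dU).not_ge ((sU.card_eq hR).le.trans (card_le_of_le (t.le.trans bot_le)))
    obtain ⟨T₁, sT, lT⟩ := exists_syl_ge sB.2 le_top
    exact ((k _ ((reg_iff.1 r).chn sA sB ne (dA.le.trans lA) (dB.le.trans lB))).2.2 T₁ sT lT).trans
      (i1 dB sT hT (lB.trans lT) bT)
  intro S T hS hT h1 h2
  rcases h1.eq_or_lt with rfl | h1
  · rw [hS.eq_of_le hT.2 h2 le_top]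
  have h3 : D < T := h2.lt_of_ne fun t => (card_lt_of_lt h1).ne (by rw [t, hT.card_eq hS])
  obtain ⟨P, hP⟩ := H2.exists_isSylowIn p (nrm D)
  exact key _ _ P ⟨D, hS.2.to_le h1.le, ne, rfl⟩ hP rfl _ _ S T (pgroup_lt_nrm hS.2 h1) (pgroup_lt_nrm hT.2 h3)
    inf_le_right inf_le_right hS hT inf_le_left inf_le_left

end Cfsg.Agent.S2956
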