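import Cfsg.Statements.S2957
import Cfsg.Agent.H1.SCt
import Cfsg.Agent.S2940

set_option autoImplicit false
open Cfsg

namespace Cfsg.Agent.S2957

open H7 H1B Subgroup Relation

/-- Let p be a prime dividing the order of the finite group G, f an equivariant assignment of a set of subgroups f(P) of P to every p-subgroup P, each normalized by N_G(P), and S a Sylow p-subgroup. If G = G₁G₂ for subgroups G₁, G₂ both containing S and both regular for f (in each Gᵢ, the family of normalizers in Gᵢ of the members of f(P), P a Sylow p-subgroup of Gᵢ, controls Sylow p-intersections), then G itself is regular for f. -/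
theorem result {G : Type*} [Group G] [Finite G] (p : ℕ) [Fact p.Prime] (hdiv : p ∣ Nat.card G)
    (f : Subgroup G → Set (Subgroup G)) (hf : Cfsg.IsNormalizerFunctor p f) (S : Sylow p G)
    (G₁ G₂ : Subgroup G) (h₁ : (S : Subgroup G) ≤ G₁) (h₂ : (S : Subgroup G) ≤ G₂)
    (hprod : ∀ g : G, ∃ g₁ ∈ G₁, ∃ g₂ ∈ G₂, g = g₁ * g₂)
    (hr₁ : Cfsg.IsFunctorRegular p f G₁) (hr₂ : Cfsg.IsFunctorRegular p f G₂) :
    Cfsg.IsFunctorRegular p f ⊤ := by
  rw [reg_iff] at *
  have up : ∀ g (M : Subgroup G), (S : Subgroup G) ≤ M → CSI p (functorFamily p f M) M → ∀ A B D, IsSylowIn p A ⊤ →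
      IsSylowIn p B ⊤ → A ≤ cj g M → B ≤ cj g M → D ≠ ⊥ → D ≤ A → D ≤ B → Chn p (functorFamily p f ⊤) ⊤ D A B := by
    intro g M hS h A B D hA hB h1 h2 h3 h4 h5
    have s := syl_cj_of_mem (syl_top S) (le_nrm_of_normal ⊤ _ (mem_top g))
    have t : ∀ {P}, IsSylowIn p P (cj g M) → IsSylowIn p P ⊤ := fun h => syl_of_par h s (H7.cj_mono _ hS) le_top
    have k : ∀ U, Chn p (map _ '' functorFamily p f M) (cj g M) D A U → IsPGroup p U ∧ Chn p (functorFamily p f ⊤) ⊤ D A U :=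
      fun U hU => by
        induction hU with
        | refl => exact ⟨hA.2, .refl⟩
        | tail _ h2 ih =>
          obtain ⟨a, _, ⟨_, b, rfl⟩, c, d, e, x, hx, k⟩ := h2
          obtain ⟨P, hP, Y, hY, rfl⟩ := mem_functorFamily.1 b
          have l : cj g (M ⊓ nrm Y) ≤ ⊤ ⊓ nrm (cj g Y) := by rw [H7.cj_inf, cj_nrm]; exact inf_le_inf_right _ le_top
          have m := H7.cj_mono g (le_inf hP.1 ((le_nrm_self P).trans ((hf P hP.2).1 Y hY).2))
          have u := (t (syl_cj hP g)).mono (m.trans l) le_top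
          exact ⟨a.2, ih.2.tail ⟨t a, _, mem_functorFamily.2 ⟨_, t (syl_cj hP g), _, ((hf P hP.2).2 g).ge ⟨Y, hY, rfl⟩, rfl⟩,
            syl_inf_up u m l ih.1 c, syl_inf_up u m l a.2 d, e.trans (inf_le_inf_left _ l), x, l hx, k⟩⟩
    exact (k _ (((csi_map_iff (MulAut.conj g).injective).2 h).chn (hA.mono h1 le_top) (hB.mono h2 le_top) h3 h4 h5)).2
  intro A B hA hB ne
  obtain ⟨a, -, rfl⟩ := (syl_top S).exists_cj_eq hA
  obtain ⟨b, -, rfl⟩ := (syl_top S).exists_cj_eq hB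
  obtain ⟨U, h1, h2⟩ := S2940.result S G₁ G₂ h₁ h₂ hprod (b⁻¹ * a)
  have e : ∀ X : Subgroup G, cj a (subgroupConjRight (b⁻¹ * a) X) = cj b X := fun X => by
    rw [subgroupConjRight, ← cj_def, ← H7.cj_mul]; simp
  have k1 := H7.cj_mono a h1
  have k2 := H7.cj_mono a h2
  rw [H7.cj_inf, e] at k1 k2
  have s := syl_cj_of_mem (syl_top U) (le_nrm_of_normal ⊤ _ (mem_top a))
  exact (up a G₁ h₁ hr₁ _ _ _ hA s (H7.cj_mono _ h₁) (k2.trans inf_le_left) ne inf_le_left k1).trans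
    (up b G₂ h₂ hr₂ _ _ _ s hB (k2.trans inf_le_right) (H7.cj_mono _ h₂) ne k1 inf_le_right)

end Cfsg.Agent.S2957
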