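import Cfsg.Statements.S2958
import Cfsg.Agent.H1.Iso

set_option autoImplicit false
open Cfsg

namespace Cfsg.Agent.S2958

open H7 H1B Subgroup

/-- Let X, A, B be subgroups of a group G such that G is generated by the conjugates of X and every conjugate of X is contained in A or in B. Then A = G or B = G. -/
theorem result {G : Type*} [Group G] (X A B : Subgroup G) (hgen : (⨆ g : G, X.map (MulAut.conj g).toMonoidHom) = ⊤) (hcover : ∀ g : G, X.map (MulAut.conj g).toMonoidHom ≤ A ∨ X.map (MulAut.conj g).toMonoidHom ≤ B) : A = ⊤ ∨ B = ⊤ := by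
  refine or_iff_not_imp_left.2 fun hA => eq_top_iff.2 ?_
  set C := sSup {Y | (∃ g, Y = cj g X) ∧ ¬ Y ≤ A}
  have l : C ≤ B := sSup_le fun Y ⟨⟨g, e⟩, h⟩ => by subst e; exact (hcover g).resolve_left h
  have n : A ≤ nrm C := nrm_sSup fun a ha Y ⟨⟨g, e⟩, h⟩ => ⟨⟨a * g, by rw [e, H7.cj_mul]⟩, fun k =>
    h (by rwa [H7.cj_le_iff, cj_of_mem (inv_mem ha)] at k)⟩
  have m : ⊤ ≤ nrm C := hgen.ge.trans (iSup_le fun g => (em (cj g X ≤ A)).elim (fun h => h.trans n) fun h =>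
    (le_sSup ⟨⟨g, rfl⟩, h⟩ : cj g X ≤ C).trans (le_nrm_self C))
  obtain ⟨g, hg⟩ : ∃ g, ¬ cj g X ≤ A := by
    by_contra! h
    exact hA (eq_top_iff.2 (hgen.ge.trans (iSup_le h)))
  refine hgen.ge.trans (iSup_le fun k => le_trans ?_ l)
  have := cj_le_of_mem_nrm (m (mem_top (k * g⁻¹))) (le_sSup ⟨⟨g, rfl⟩, hg⟩ : cj g X ≤ C)
  rwa [← H7.cj_mul, inv_mul_cancel_right] at this

end Cfsg.Agent.S2958
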