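import Cfsg.Statements.S2962
import Cfsg.Agent.H7.GlA

set_option autoImplicit false
open Cfsg

namespace Cfsg.Agent.S2962
open H7
open scoped commutatorElement

/-- Let G be a finite group with G = QN, where N is a normal subgroup of G and Q is a non-abelian 2-subgroup with Q ∩ N = 1. Suppose that some nontrivial element t of Z(Q) ∩ [Q, Q] satisfies C_N(Q) = C_N(t). Then [N, Q] is solvable of odd order. -/
theorem result {G : Type*} [Group G] [Finite G] (N Q : Subgroup G) [N.Normal] (hG : Q ⊔ N = ⊤) (hQ : IsPGroup 2 ↥Q) (hQna : ¬ IsMulCommutative ↥Q) (hdisj : Q ⊓ N = ⊥) (t : G) (ht1 : t ≠ 1) (htZ : t ∈ Q ⊓ Subgroup.centralizer (Q : Set G)) (htQ : t ∈ ⁅Q, Q⁆) (hC : N ⊓ Subgroup.centralizer (Q : Set G) = N ⊓ Subgroup.centralizer ({t} : Set G)) : Group.IsSolvable ↥⁅N, Q⁆ ∧ Odd (Nat.card ↥⁅N, Q⁆) := by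
  open Subgroup in
  have hn : Q ≤ nrm N := le_nrm_of_normal _ _
  obtain ⟨S, hS, nS⟩ := exists_syl_inv hQ hn
  have hc : Q ≤ cen S := by
    by_contra c
    have lt : S ⊓ cen Q < S := lt_of_le_of_ne inf_le_left fun e => c (le_cen_symm (e.ge.trans inf_le_right))
    have nC : Q ⊔ S ≤ nrm S := sup_le nS (le_nrm_self S)
    have lt2 := pgroup_lt_nrm hS.2 lt
    have n1 : Q ≤ nrm (S ⊓ cen Q) := nrm_inf nS (nrm_cen (le_nrm_self Q))
    have n2 : Q ≤ nrm (S ⊓ nrm (S ⊓ cen Q)) := nrm_inf nS (nrm_nrm n1)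
    have pg := isPGroup_sup n2 hQ (hS.2.to_le inf_le_left)
    obtain ⟨d, hd, hd1, hd2⟩ := nilp_exists_comm_le (nilp_of_isPGroup pg) le_sup_right lt2
      (sup_le n2 (le_nrm_self _)) (sup_le n1 inf_le_right)
    have l1 : ⁅zpowers d, Q⁆ ≤ S ⊓ cen Q := comm_zpowers_le hd.2 fun g hg => hd2 g (mem_sup_left hg)
    have l2 : ⁅⁅zpowers d, Q⁆, Q⁆ = ⊥ := comm_eq_bot.2 (l1.trans inf_le_right)
    have := three_subgroups (N := ⊥) (A := Q) (B := Q) (C := zpowers d) (le_nrm_bot _) (le_nrm_bot _)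
      (le_nrm_bot _) (by rw [commutator_comm Q, l2]) l2.le
    have h3 : d ∈ N ⊓ cen1 t := ⟨hS.1 hd.1, cen_le_cen1 htQ (comm_eq_bot'.1 (le_bot_iff.1 this) (mem_zpowers d))⟩
    rw [← hC] at h3
    exact hd1 ⟨hd.1, h3.2⟩
  obtain ⟨k, hk⟩ := isPGroup_iff_mem.1 hQ t htZ.1
  have h1 := glaub_aut hS hn hc htQ hk
  have h2 := (cop_of_pgroup (isPGroup_zpowers hk) (coprime_Op' 2 N)
    (nrm_Opi _ (le_nrm_of_normal _ _))).sup_cen_of_comm_le (Opi_le _ _) h1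
  rw [cen_zpowers, ← hC] at h2
  have h3 : ⁅N, Q⁆ ≤ Op' 2 N := by
    conv_lhs => rw [← h2]
    exact comm_sup_le (le_nrm_self _) (inf_le_left.trans (le_nrm_Opi _ _)) (comm_le_left (nrm_Opi _ hn))
      ((comm_eq_bot.2 inf_le_right).le.trans bot_le)
  have h4 := coprime_of_le h3 (coprime_Op' 2 N)
  exact ⟨solv_of_coprime_two h4, odd_iff_coprime.2 h4⟩

end Cfsg.Agent.S2962
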