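import Cfsg.Statements.S2963


set_option autoImplicit false
open Cfsg

namespace Cfsg.Agent.S2963

open MulAction Pointwise in

/-- Let n be odd. If the symmetric group of degree n is a minimal parabolic group for the prime 2, that is, a Sylow 2-subgroup is not normal and lies in exactly one maximal subgroup, then n = 2^m + 1 for some natural number m. -/
theorem result (n : ℕ) (hn : Odd n) (h : Cfsg.IsPMinimal 2 (Equiv.Perm (Fin n))) : ∃ m : ℕ, n = 2 ^ m + 1 := by
  obtain ⟨S⟩ : Nonempty (Sylow 2 (Equiv.Perm (Fin n))) := inferInstance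
  obtain ⟨hN, M, -, hM⟩ := h S
  obtain ⟨j, hj⟩ := hn
  obtain ⟨x, hx⟩ := S.isPGroup'.nonempty_fixed_point_of_prime_not_dvd_card (Fin n) (by simp; omega)
  obtain ⟨y, hy⟩ : ∃ y, y ≠ x := by_contra fun e => hN (by
    haveI : Subsingleton (Fin n) := ⟨fun a b => (not_not.1 fun c => e ⟨a, c⟩).trans (not_not.1 fun c => e ⟨b, c⟩).symm⟩
    exact ⟨fun a ha g => by rwa [Subsingleton.elim (g * a * g⁻¹) a]⟩)
  have k : ∀ s : Set (Fin n), s.Nonempty → sᶜ.Nonempty → S.1 ≤ stabilizer _ s → stabilizer (Equiv.Perm (Fin n)) s = M :=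
    fun s a b c => hM _ ⟨Equiv.Perm.isCoatom_stabilizer a b (by simp; omega), c⟩
  have xo : x ∉ orbit S y := fun h => hy (by
    obtain ⟨g, hg⟩ := mem_orbit_symm.1 h
    exact hg.symm.trans (hx g))
  obtain ⟨m, hm⟩ := S.isPGroup'.card_orbit y
  have e := (k _ ⟨y, mem_orbit_self y⟩ ⟨x, xo⟩ fun g hg => smul_orbit (⟨g, hg⟩ : S) y).trans
    (k {x} ⟨x, rfl⟩ ⟨y, hy⟩ fun g hg => by rw [stabilizer_singleton]; exact hx ⟨g, hg⟩).symm
  have : orbit S y = {x}ᶜ := Set.ext fun z => ⟨fun h e => xo (e ▸ h), fun h => by_contra fun c => h (by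
    have : Equiv.swap x z ∈ stabilizer (Equiv.Perm (Fin n)) (orbit S y) := Equiv.swap_mem_stabilizer.2 (iff_of_false xo c)
    rw [e, stabilizer_singleton] at this
    simpa using this)⟩
  rw [this, Nat.card_coe_set_eq, Set.ncard_compl] at hm
  exact ⟨m, by simp at hm; omega⟩

end Cfsg.Agent.S2963
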