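import Cfsg.Statements.S2998
import Cfsg.Agent.H1.Iso

set_option autoImplicit false
open Cfsg

namespace Cfsg.Agent.S2998

open H7 H1B Subgroup

/-- Let G be a finite group, p a prime, P a Sylow p-subgroup of G and x ∈ P an element such that N_G(R) ≤ C_G(x) for every nontrivial subgroup R of P. Then P ≤ C_G(x); every G-conjugate of x lying in P equals x (so g ∈ C_G(x) whenever g x g⁻¹ ∈ P); and for every normal subgroup N of G, the image of x in G ⧸ N has the same property with respect to the image of P: the normalizer of every nontrivial subgroup of the image of P centralizes the image of x. -/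
theorem result {G : Type*} [Group G] [Finite G] {p : ℕ} [Fact p.Prime] (P : Sylow p G) (x : G) (hxP : x ∈ (P : Subgroup G)) (hlc : ∀ R : Subgroup G, R ≤ (P : Subgroup G) → R ≠ ⊥ → Subgroup.normalizer (R : Set G) ≤ Subgroup.centralizer ({x} : Set G)) : (P : Subgroup G) ≤ Subgroup.centralizer ({x} : Set G) ∧ (∀ g : G, g * x * g⁻¹ ∈ (P : Subgroup G) → g * x * g⁻¹ = x) ∧ ∀ (N : Subgroup G) [N.Normal], ∀ R : Subgroup (G ⧸ N), R ≤ (P : Subgroup G).map (QuotientGroup.mk' N) → R ≠ ⊥ → Subgroup.normalizer (R : Set (G ⧸ N)) ≤ Subgroup.centralizer ({(QuotientGroup.mk x : G ⧸ N)} : Set (G ⧸ N)) := by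
  have a : (P : Subgroup G) ≤ cen1 x := by
    by_cases e : (P : Subgroup G) = ⊥
    · exact e.le.trans bot_le
    exact (le_nrm_self _).trans (hlc _ le_rfl e)
  refine ⟨a, fun g hg => ?_, fun N _ R h1 h2 g hg => ?_⟩
  · by_cases e : g * x * g⁻¹ = 1
    · rw [e, conj_eq_one_iff.1 e]
    have l : cj g (cen1 x) ≤ cen1 x := by
      rw [cj_cen1, ← cen_zpowers]
      exact (cen_le_nrm _).trans (hlc _ (zpowers_le.2 hg) (by rwa [Ne, zpowers_eq_bot]))
    have s := (syl_top P).mono a le_top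
    obtain ⟨c, hc, k⟩ := (syl_cj_of_mem s (mem_nrm_of_cj_le l)).exists_cj_eq s
    rw [← H7.cj_mul, cj_eq_self_iff] at k
    exact conj_eq_iff_cen1.2 ((mul_mem_cancel_left hc).1 (hlc _ le_rfl (fun t => e (mem_bot.1 (t ▸ hg))) k))
  obtain ⟨g, rfl⟩ := QuotientGroup.mk_surjective g
  have l : N ≤ R.comap (QuotientGroup.mk' N) := (QuotientGroup.ker_mk' N).ge.trans (ker_le_comap _ _)
  have s := syl_sn ((syl_top P).mono le_sup_right le_top) (sn_of_pRes_le ((pRes_sup_pg P.2 (le_nrm_of_normal _ N)).le.trans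
    ((H2.pRes_le N).trans l)) ((comap_mono h1).trans (by rw [comap_map_eq, QuotientGroup.ker_mk', sup_comm])))
  obtain ⟨n, hn, k⟩ := s.frattini (comap_le_nrm_comap (QuotientGroup.mk' N) (le_refl (nrm R)) hg)
  have m : ∀ {y : G}, y ∈ cen1 x → (y : G ⧸ N) ∈ cen1 (x : G ⧸ N) := fun {y} h =>
    mem_cen1.2 (congrArg _ (mem_cen1.1 h) : ((y * x : G) : G ⧸ N) = (x * y : G))
  have := m (hlc _ inf_le_left (fun t => h2 ?_) k)
  · obtain ⟨u, hu, e⟩ := h1 hn
    refine (mul_mem_cancel_left (x := (n : G ⧸ N)) ?_).1 this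
    have := m (a hu)
    rwa [show (u : G ⧸ N) = n from e] at this
  rw [t, syl_bot_iff] at s
  refine eq_bot_of_isPGroup_of_coprime ((P.2.map _).to_le h1) (coprime_iff_not_dvd.2 fun d => s (d.trans ?_))
  nth_rw 1 [← map_comap_eq_self_of_surjective (QuotientGroup.mk'_surjective N) R]
  exact card_map_dvd _ _

end Cfsg.Agent.S2998
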