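import Cfsg.Statements.S3003
import Cfsg.Agent.H1.Iso
import Cfsg.Agent.H1.Misc

set_option autoImplicit false
open Cfsg

namespace Cfsg.Agent.S3003

open H7 H1B Subgroup

/-- Let G be a finite group, p a prime and Q a large p-subgroup of G: C_G(Q) ≤ Q and N_G(U) ≤ N_G(Q) for every nontrivial subgroup U of C_G(Q). Let Q ≤ G₁ ≤ G, let R be a subgroup of order prime to p normalized by G₁, and let U ≤ G₁ be a p-subgroup. If U contains a nontrivial element which is G₁-conjugate to an element of Z(Q), then C_R(U) = 1. In particular, if U is elementary abelian of order at least p² and every maximal subgroup of U contains a nontrivial element G₁-conjugate into Z(Q), then R = 1. -/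
theorem result {G : Type*} [Group G] [Finite G] {p : ℕ} [Fact p.Prime] (Q : Subgroup G) (hQp : IsPGroup p ↥Q) (hlarge : Cfsg.IsLarge Q) (G₁ : Subgroup G) (hQG : Q ≤ G₁) (R : Subgroup G) (hR : (Nat.card ↥R).Coprime p) (hGR : G₁ ≤ Subgroup.normalizer (R : Set G)) (U : Subgroup G) (hUG : U ≤ G₁) (hUp : IsPGroup p ↥U) : ((∃ x ∈ U, x ≠ 1 ∧ ∃ g ∈ G₁, g * x * g⁻¹ ∈ Q ⊓ Subgroup.centralizer (Q : Set G)) → R ⊓ Subgroup.centralizer (U : Set G) = ⊥) ∧ (Cfsg.IsElementaryAbelian p U → p ^ 2 ≤ Nat.card ↥U → (∀ U₀ : Subgroup G, U₀ ≤ U → IsCoatom (U₀.subgroupOf U) → ∃ x ∈ U₀, x ≠ 1 ∧ ∃ g ∈ G₁, g * x * g⁻¹ ∈ Q ⊓ Subgroup.centralizer (Q : Set G)) → R = ⊥) := by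
  have key : ∀ U : Subgroup G, (∃ x ∈ U, x ≠ 1 ∧ ∃ g ∈ G₁, g * x * g⁻¹ ∈ Q ⊓ cen Q) → R ⊓ cen U = ⊥ := by
    rintro U ⟨x, hx, h1, g, hg, hz⟩
    have i := inf_eq_bot_of_isPGroup hQp hR
    have n : R ⊓ cen1 (g * x * g⁻¹) ≤ nrm Q := inf_le_right.trans ((cen_zpowers _).ge.trans ((cen_le_nrm _).trans
      (hlarge.2 _ (zpowers_le.2 hz.2) (by rwa [Ne, zpowers_eq_bot, conj_eq_one_iff]))))
    have c := comm_eq_bot.1 (eq_bot_iff.2 ((le_inf (comm_le_right n) ((commutator_mono inf_le_left le_rfl).trans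
      (comm_le_left (hQG.trans hGR)))).trans i.le))
    have := (le_inf (c.trans hlarge.1) inf_le_left).trans i.le
    rw [← cj_cen1, ← cj_of_mem_nrm (hGR hg), ← H7.cj_inf, H7.cj_le_iff, H2.cj_bot] at this
    exact eq_bot_iff.2 ((inf_le_inf_left _ (cen_le_cen1 hx)).trans this)
  refine ⟨key U, fun e h2 h => eq_bot_iff.2 ((cop_of_pgroup hUp hR (hUG.trans hGR)).le_of_hyper e (ne_bot_of_pow_le h2)
    fun B a b => (key B (h B a (H1.isCoatom_of_index_prime (b.symm ▸ Fact.out : (B.relIndex U).Prime)))).le)⟩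

end Cfsg.Agent.S3003
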