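import Cfsg.Statements.S3006
import Cfsg.Agent.H1.Cher

set_option autoImplicit false
open scoped Pointwise
open Cfsg

namespace Cfsg.Agent.S3006

open H7 H1B Subgroup

/-- Let P be a finite p-group, Q a centrally large subgroup of P (|Q|·|Z(Q)| maximal among subgroups of P) and A an abelian subgroup of P of largest order. Then QA = AQ is a centrally large subgroup of P, C_{QA}(Q ∩ A) = Z(Q)·A, and the subgroup generated by all centrally large subgroups of P contains C_P(Z(J(P))), where J(P) is generated by the abelian subgroups of largest order. -/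
theorem result {p : ℕ} [Fact p.Prime] (P : Type*) [Group P] [Finite P] (hP : IsPGroup p P) (Q A : Subgroup P) (hQ : Cfsg.IsCentrallyLarge Q) (hA : A ∈ Cfsg.maxAbelianSubgroups P) : ((Q ⊔ A : Subgroup P) : Set P) = (Q : Set P) * (A : Set P) ∧ Cfsg.IsCentrallyLarge (Q ⊔ A) ∧ (Q ⊔ A) ⊓ Subgroup.centralizer ((Q ⊓ A : Subgroup P) : Set P) = (Q ⊓ Subgroup.centralizer (Q : Set P)) ⊔ A ∧ (((Q ⊓ Subgroup.centralizer (Q : Set P)) ⊔ A : Subgroup P) : Set P) = ((Q ⊓ Subgroup.centralizer (Q : Set P)) : Set P) * (A : Set P) ∧ Subgroup.centralizer ((Cfsg.thompsonSubgroupA P ⊓ Subgroup.centralizer (Cfsg.thompsonSubgroupA P : Set P) : Subgroup P) : Set P) ≤ Cfsg.centrallyLargeJoin P := by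
  rw [cl_iff] at hQ
  obtain ⟨h1, h2, h3⟩ := hQ.mx hA
  have a : cen Q ≤ (Q ⊔ A) ⊓ cen (Q ⊓ A) := le_inf (hQ.2.trans le_sup_left) (cen_anti inf_le_left)
  have b : A ≤ (Q ⊔ A) ⊓ cen (Q ⊓ A) := le_inf le_sup_right ((isComm_iff.1 hA.1).trans (cen_anti inf_le_right))
  have e := le_antisymm h3.le_sup (sup_le a b)
  have m : CL (centrallyLargeJoin P) := cl_sSup (cl_iff.2 hQ) fun _ => cl_iff.1
  refine ⟨(fc_iff_coe le_sup_left le_sup_right).1 h2, cl_iff.2 h1, by rwa [inf_eq_right.2 hQ.2], ?_,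
    m.cen_ZJ (le_sup_right.trans (le_sSup (cl_iff.2 m.sup_J)))⟩
  rw [show (Q : Set P) ⊓ cen Q = cen Q from inf_eq_right.2 hQ.2, inf_eq_right.2 hQ.2, ← e]
  exact (fc_iff_coe a b).1 h3

end Cfsg.Agent.S3006
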