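import Cfsg.Statements.S3007
import Cfsg.Agent.H1.Cher

set_option autoImplicit false
open Cfsg

namespace Cfsg.Agent.S3007

open H7 H1B Subgroup

/-- Let P be a finite p-group and Q, R minimal centrally large subgroups of P (centrally large: |Q|·|Z(Q)| maximal among subgroups of P; minimal among such under inclusion). Then Q = (Q ∩ R)·Z(Q), the derived subgroups [Q, Q] and [R, R] coincide, |Q| = |R| and |Z(Q)| = |Z(R)|; and if Q is abelian then the minimal centrally large subgroups of P are exactly the abelian subgroups of P of largest order. -/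
theorem result {p : ℕ} [Fact p.Prime] (P : Type*) [Group P] [Finite P] (hP : IsPGroup p P) (Q R : Subgroup P) (hQ : Cfsg.IsMinimalCentrallyLarge Q) (hR : Cfsg.IsMinimalCentrallyLarge R) : (Q ⊓ R) ⊔ (Q ⊓ Subgroup.centralizer (Q : Set P)) = Q ∧ ⁅Q, Q⁆ = ⁅R, R⁆ ∧ Nat.card ↥Q = Nat.card ↥R ∧ Nat.card ↥(Q ⊓ Subgroup.centralizer (Q : Set P)) = Nat.card ↥(R ⊓ Subgroup.centralizer (R : Set P)) ∧ (IsMulCommutative ↥Q → ∀ X : Subgroup P, Cfsg.IsMinimalCentrallyLarge X ↔ X ∈ Cfsg.maxAbelianSubgroups P) := by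
  simp only [mcl_iff] at *
  rw [inf_eq_right.2 hQ.1.2, inf_eq_right.2 hR.1.2]
  exact ⟨hQ.eq hR.1, by rw [hQ.der hR.1, hR.der hQ.1, inf_comm], (hQ.card hR).1, (hQ.card hR).2,
    fun c X => hQ.comm_iff (isComm_iff.1 c)⟩

end Cfsg.Agent.S3007
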