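import Cfsg.Statements.S3008
import Cfsg.Agent.H1.Cher

set_option autoImplicit false
open Cfsg

namespace Cfsg.Agent.S3008

open H7 H1B Subgroup

/-- Let P be a finite p-group, with J(P) generated by its abelian subgroups of largest order and J̃(P) = C_P(Z(J(P))); call R ≤ P centrally large if |R|·|Z(R)| is as large as possible, and let P_MCL be generated by the minimal centrally large subgroups. Then: for every centrally large Q, Q·J(P) ⊇ J̃(P); some minimal centrally large subgroup of P is normalized by both J(P) and P_MCL; if P = J(P) and d(P)² = |P|·|Z(P)|, where d(P) is the largest order of an abelian subgroup, then every minimal centrally large subgroup of P is abelian; and if every minimal centrally large subgroup is abelian then J̃(P) = J(P). -/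
theorem result {p : ℕ} [Fact p.Prime] (P : Type*) [Group P] [Finite P] (hP : IsPGroup p P) : (∀ Q : Subgroup P, Cfsg.IsCentrallyLarge Q → Subgroup.centralizer ((Cfsg.thompsonSubgroupA P ⊓ Subgroup.centralizer (Cfsg.thompsonSubgroupA P : Set P) : Subgroup P) : Set P) ≤ Q ⊔ Cfsg.thompsonSubgroupA P) ∧ (∃ Q : Subgroup P, Cfsg.IsMinimalCentrallyLarge Q ∧ Cfsg.thompsonSubgroupA P ≤ Subgroup.normalizer (Q : Set P) ∧ Cfsg.minimalCentrallyLargeJoin P ≤ Subgroup.normalizer (Q : Set P)) ∧ (Cfsg.thompsonSubgroupA P = ⊤ → (∀ A ∈ Cfsg.maxAbelianSubgroups P, Nat.card ↥A ^ 2 = Nat.card P * Nat.card ↥(Subgroup.center P)) → ∀ Q : Subgroup P, Cfsg.IsMinimalCentrallyLarge Q → IsMulCommutative ↥Q) ∧ ((∀ Q : Subgroup P, Cfsg.IsMinimalCentrallyLarge Q → IsMulCommutative ↥Q) → Subgroup.centralizer ((Cfsg.thompsonSubgroupA P ⊓ Subgroup.centralizer (Cfsg.thompsonSubgroupA P : Set P) : Subgroup P) : Set P) = Cfsg.thompsonSubgroupA P) := by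
  simp only [mcl_iff, cl_iff]
  have := hP.isNilpotent
  obtain ⟨Q, h, k⟩ := exists_mcl_nrm (G := P)
  refine ⟨fun Q h => h.sup_J.cen_ZJ le_sup_right, ⟨Q, h, sSup_le fun A hA => ?_, sSup_le fun R hR => ?_⟩, fun e d R r => ?_,
    fun c => ?_⟩
  · exact k A _ (h.1.mx hA).2.2 (le_inf (h.1.2.trans le_sup_left) (cen_anti inf_le_left))
      (le_inf le_sup_right ((isComm_iff.1 hA.1).trans (cen_anti inf_le_right))) (isComm_iff.1 hA.1)
  · have r := mcl_iff.1 hR
    exact (r.eq h.1).ge.trans (sup_le (inf_le_right.trans (le_nrm_self Q)) (k _ _ (h.1.1.cen.fc r.1.1.cen) le_sup_left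
      le_sup_right r.1.comm))
  · obtain ⟨A, a⟩ := H2.exists_mx (P := (⊤ : Subgroup P)) 0
    have a : A ∈ maxAbelianSubgroups P := ⟨a.2.1.1, fun B hB => a.2.2 B le_top (H2.ea_zero_iff.2 hB)⟩
    have t := h.1.sup_J
    rw [e, sup_top_eq] at t
    obtain ⟨B, h1, h2⟩ := (cl_of_comm t (isComm_iff.1 a.1) (by rw [← pow_two, d A a, cen_top, card_top])).exists_mcl
    exact ((h2.comm_iff (isComm_iff.1 (isComm_of_le a.1 h1))).1 r).1
  · have m := fun X => h.comm_iff (X := X) (isComm_iff.1 (c Q h))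
    have t : CL (thompsonSubgroupA P) := cl_sSup ((m Q).1 h) fun B hB => ((m B).2 hB).1
    rw [inf_eq_right.2 t.2, t.1.cen_cen]

end Cfsg.Agent.S3008
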