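import Cfsg.Statements.S3011
import Cfsg.Agent.H1.Sid
import Cfsg.Agent.H1.Two5

set_option autoImplicit false
open Cfsg

namespace Cfsg.Agent.S3011

open H7 H1B Subgroup

theorem four {G : Type*} [Group G] [Finite G] {V : Subgroup G} (hV : EA 2 V) (h4 : ord V ≤ 4) {a b w : G} (ha : a ∈ V)
    (hb : b ∈ V) (h1 : a ≠ 1) (h2 : b ≠ 1) (h3 : a ≠ b) (hw : w ∈ V) (h : w ≠ 1) : w = a ∨ w = b ∨ w = a * b := by
  have oa := hV.orderOf ha h1
  have ob := hV.orderOf hb h2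
  have l : zpowers a ⊔ zpowers b ≤ V := sup_le (zpowers_le.2 ha) (zpowers_le.2 hb)
  have := mul_card_le_of_lt (hV.of_le l).isPGroup (left_lt_sup.2 fun t => ((mem_zp_two oa).1 (zpowers_le.1 t)).elim h2 h3.symm)
  rw [card_zpowers_eq, oa] at this
  obtain ⟨x, hx, y, hy, rfl⟩ := (mem_sup_nrm ((zpowers_le.2 ha).trans (hV.le_nrm (zpowers_le.2 hb)))).1
    ((eq_of_le_of_card_le l (h4.trans this)).ge hw)
  rcases (mem_zp_two oa).1 hx with rfl | rfl <;> rcases (mem_zp_two ob).1 hy with rfl | rfl <;> simp_all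

theorem key {G : Type*} [Group G] [Finite G] {V : Subgroup G} (hV : EA 2 V) (hS : IsSidkiPair V) (h4 : ord V ≤ 4)
    {a b h k : G} (ha : a ∈ V) (hb : b ∈ V) (h1 : a ≠ 1) (h2 : b ≠ 1) (oh : Odd (orderOf h)) (ok : Odd (orderOf k))
    (nh : h ≠ 1) (nk : k ≠ 1) (ah : a * h * a⁻¹ = h⁻¹) (bh : b * h * b⁻¹ = h) (ak : a * k * a⁻¹ = k)
    (bk : b * k * b⁻¹ = k⁻¹) : False := by
  have ni : ∀ {x : G}, Odd (orderOf x) → x ≠ 1 → x⁻¹ ≠ x := fun o n e => n (eq_one_of_odd o (by nth_rw 1 [← e]; simp))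
  have ab : a ≠ b := fun e => ni oh nh (by rw [← ah, e, bh])
  have ch : a * b * h * (a * b)⁻¹ = h⁻¹ := by rw [conj_conj', bh, ah]
  have ck : a * b * k * (a * b)⁻¹ = k⁻¹ := by rw [conj_conj', bk, ← conj_inv, ak]
  have c : Commute h k := by
    have i : a * (k * h * k⁻¹) * a⁻¹ = (k * h * k⁻¹)⁻¹ := by rw [← conj_mul, ← conj_mul, ← conj_inv, ah, ak]; group
    obtain ⟨w, w1, w2, w3⟩ := hS _ a ha (by rwa [ord_conj]) i
    rw [← mul_inv_eq_iff_eq_mul] at w3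
    rcases four hV h4 ha hb h1 h2 ab w1 w2 with rfl | rfl | rfl
    · exact absurd (i.symm.trans w3) (ni (by rwa [ord_conj]) (by rwa [Ne, conj_eq_one_iff]))
    · rw [← conj_mul, ← conj_mul, ← conj_inv, bh, bk] at w3
      refine mem_cen1.1 (mem_cen1_comm.1 (zpowers_le.2 (conj_eq_iff_cen1.1 ?_) (mem_zpowers_sq ok)))
      rw [show k * k * h * (k * k)⁻¹ = k * (k * h * k⁻¹) * k⁻¹ by group, ← w3]; group
    rw [← conj_mul, ← conj_mul, ← conj_inv, ch, ck] at w3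
    refine absurd (eq_one_of_odd oh (sq_eq_one_of_odd_inverts (s := k * k) ?_
      (odd_of_mem_zpowers ok (mul_mem (mem_zpowers k) (mem_zpowers k))))) nh
    rw [show k * k * h * (k * k)⁻¹ = k * (k * h * k⁻¹) * k⁻¹ by group, ← w3]; group
  have o := Odd.of_dvd_nat (oh.mul ok) c.orderOf_mul_dvd_mul_orderOf
  have i : a * b * (h * k) * (a * b)⁻¹ = (h * k)⁻¹ := by rw [← conj_mul, ch, ck, c.eq, mul_inv_rev]
  obtain ⟨w, w1, w2, w3⟩ := hS _ _ (mul_mem ha hb) o i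
  rw [← mul_inv_eq_iff_eq_mul] at w3
  rcases four hV h4 ha hb h1 h2 ab w1 w2 with rfl | rfl | rfl
  · rw [← conj_mul, ah, ak] at w3; exact ni oh nh (mul_right_cancel w3)
  · rw [← conj_mul, bh, bk] at w3; exact ni ok nk (mul_left_cancel w3)
  refine ni o (fun e => ni oh nh ?_) (i.symm.trans w3)
  rw [← ah, eq_inv_of_mul_eq_one_left e, ← conj_inv, ak]

/-- Let G be a finite group and V a nontrivial elementary abelian 2-subgroup of G of order at most 4 such that, whenever an element of V inverts an element h of G of odd order, some nontrivial element of V commutes with h. Then V meets O₂(G) nontrivially. (The case of order at most 4 has a short argument from the Baer–Suzuki theorem.) -/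
theorem result {G : Type*} [Group G] [Finite G] (V : Subgroup G) (hV : Cfsg.IsElementaryAbelian 2 V) (hV1 : V ≠ ⊥) (hS : Cfsg.IsSidkiPair V) (h4 : Nat.card V ≤ 4) : V ⊓ Cfsg.pCore 2 G ≠ ⊥ := by
  intro e
  have inv : ∀ v ∈ V, v ≠ 1 → ∃ h, Odd (orderOf h) ∧ h ≠ 1 ∧ v * h * v⁻¹ = h⁻¹ ∧ ∃ w ∈ V, w ≠ 1 ∧ w ≠ v ∧ w * h * w⁻¹ = h :=
    fun v hv h1 => by
      obtain ⟨x, a, b, c⟩ := H1.exists_inverted_of_not_mem_pCore (t := v) (by rw [← sq, hV.2 v hv])
        fun t => h1 (mem_bot.1 (e ▸ ⟨hv, t⟩))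
      have o := a.odd_of_ne_two b
      have n : x ≠ 1 := fun t => a.ne_one (by rw [t, orderOf_one])
      obtain ⟨w, w1, w2, w3⟩ := hS x v hv o c
      rw [← mul_inv_eq_iff_eq_mul] at w3
      exact ⟨x, o, n, c, w, w1, w2, fun t => n (eq_one_of_odd o (mul_eq_one_iff_eq_inv.2 (w3.symm.trans (t ▸ c)))), w3⟩
  obtain ⟨a, ha, h1⟩ := exists_ne_one hV1
  obtain ⟨h, oh, nh, ah, b, hb, h2, h3, bh⟩ := inv a ha h1
  obtain ⟨k, ok, nk, bk, w, hw, w1, w2, wk⟩ := inv b hb h2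
  refine key hV hS h4 hw hb w1 h2 oh ok nh nk ?_ bh wk bk
  rcases four hV h4 ha hb h1 h2 h3.symm hw w1 with rfl | rfl | rfl
  · exact ah
  · exact absurd rfl w2
  rw [conj_conj', bh, ah]

end Cfsg.Agent.S3011
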