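import Cfsg.Statements.S3012
import Cfsg.Agent.H1.Sid

set_option autoImplicit false
open Cfsg

namespace Cfsg.Agent.S3012

open H7 H1B Subgroup

/-- Let G be a finite group, V a nontrivial elementary abelian 2-subgroup of G satisfying the Sidki pair condition (every odd-order element inverted by an element of V commutes with a nontrivial element of V), and K a normal subgroup of G with V ∩ K = 1. Then the image of V in G/K satisfies the Sidki pair condition in G/K. -/
theorem result {G : Type*} [Group G] [Finite G] (V K : Subgroup G) [K.Normal] (hV : Cfsg.IsElementaryAbelian 2 V) (hV1 : V ≠ ⊥) (hS : Cfsg.IsSidkiPair V) (hVK : V ⊓ K = ⊥) : Cfsg.IsSidkiPair (V.map (QuotientGroup.mk' K)) := by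
  rintro h _ ⟨v, hv, rfl⟩ ho hi
  obtain ⟨k, hk, e⟩ := exists_sqrt ho
  have i := inverts_mem hi hk
  obtain ⟨g, rfl⟩ := QuotientGroup.mk'_surjective K k
  have v2 : v * v = 1 := by rw [← sq, hV.2 v hv]
  have vi := inv_eq_of_mul_self v2
  obtain ⟨n, hn⟩ := H2.exists_pow_coprime (p := 2) (g * v * g⁻¹ * v)
  obtain ⟨w, h1, h2, h3⟩ := hS _ v hv (odd_iff_coprime.2 hn) (inverts_pow (by
    simp only [mul_inv_rev, vi, inv_inv, mul_assoc, v2, mul_one]) _)
  refine ⟨_, ⟨w, h1, rfl⟩, fun t => h2 (mem_bot.1 (hVK ▸ ⟨h1, (QuotientGroup.eq_one_iff w).1 t⟩)),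
    (mem_cen1.1 (mem_of_pow_mem (p := 2) (k := n) (mem_cen1.2 ?_) (odd_iff_coprime.1 ho))).symm⟩
  have : QuotientGroup.mk' K (g * v * g⁻¹ * v) = h := by
    rw [← e]; nth_rw 2 [← vi]
    simp only [map_mul, map_inv, mul_assoc]
    rw [← mul_assoc _ _⁻¹, ← conj_inv, i, inv_inv]
  rw [← this, ← map_pow, ← map_mul, ← map_mul, h3]

end Cfsg.Agent.S3012
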