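import Cfsg.Statements.S3013
import Cfsg.Agent.H1.Sid

set_option autoImplicit false
open Cfsg

namespace Cfsg.Agent.S3013

open H7 H1B Subgroup

/-- Let G be a finite group and V a nontrivial elementary abelian 2-subgroup of G satisfying the Sidki pair condition. Let v ∈ V and let x be an element of odd order inverted by v, and put C = C_G(v) ∩ C_G(x), the centralizer of the dihedral subgroup generated by v and x. Then C ∩ V is nontrivial and satisfies the Sidki pair condition inside C: every odd-order element of C inverted by an element of C ∩ V commutes with a nontrivial element of C ∩ V. -/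
theorem result {G : Type*} [Group G] [Finite G] (V : Subgroup G) (hV : Cfsg.IsElementaryAbelian 2 V) (hV1 : V ≠ ⊥) (hS : Cfsg.IsSidkiPair V) (v x : G) (hv : v ∈ V) (hx : Odd (orderOf x)) (hinv : v * x * v⁻¹ = x⁻¹) (C : Subgroup G) (hC : C = Subgroup.centralizer ({v} : Set G) ⊓ Subgroup.centralizer ({x} : Set G)) : C ⊓ V ≠ ⊥ ∧ Cfsg.IsSidkiPair ((C ⊓ V).subgroupOf C) := by
  subst hC
  have ne : ∀ {w}, w ∈ V → x ∈ cen1 w → w ∈ cen1 v ⊓ cen1 x ⊓ V := fun h k =>
    ⟨⟨mem_cen1.2 (EA.mul_comm hV h hv), mem_cen1_comm.1 k⟩, h⟩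
  obtain ⟨w, h1, h2, h3⟩ := hS x v hv hx hinv
  refine ⟨fun e => h2 (mem_bot.1 (e ▸ ne h1 (mem_cen1.2 h3.symm))), sid_sub inf_le_left fun h hh u hu ho hi => ?_⟩
  obtain ⟨w, h1, h2, h3, h4⟩ := sid_split hV hS (mem_cen1.1 hh.2) ho hx hu.2 hv hi (conj_eq_iff_cen1.2 hu.1.2)
    (conj_eq_iff_cen1.2 (mem_cen1_comm.1 hh.1)) hinv
  exact ⟨w, ne h1 h4, h2, h3⟩

end Cfsg.Agent.S3013
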