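import Cfsg.Statements.S3014
import Cfsg.Agent.H1.Iso

set_option autoImplicit false
open Cfsg

namespace Cfsg.Agent.S3014

open H7 H1B Subgroup

/-- Let G be a finite group and H ≤ M ≤ G subgroups such that for every g ∈ G the subgroup generated by H and g H g⁻¹ meets M exactly in H. If H is a maximal subgroup of M and M is a maximal subgroup of G, then the normal closure of H in G meets M exactly in H. -/
theorem result {G : Type*} [Group G] [Finite G] (H M : Subgroup G) (hHM : H ≤ M) (hcl : ∀ g : G, (H ⊔ H.map (MulAut.conj g).toMonoidHom) ⊓ M = H) (hmaxH : IsCoatom (H.subgroupOf M)) (hmaxM : IsCoatom M) : Subgroup.normalClosure (H : Set G) ⊓ M = H := by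
  refine le_antisymm ?_ (le_inf le_normalClosure hHM)
  by_cases c : ∃ g, (H ⊔ cj g H).Normal
  · obtain ⟨g, c⟩ := c
    exact (inf_le_inf_right _ (normalClosure_le_normal (le_sup_left : H ≤ H ⊔ cj g H))).trans (hcl g).le
  have a : ∀ g, cj g H ≤ M → g ∈ nrm H := fun g h => mem_nrm_of_cj_le ((le_inf le_sup_right h).trans (hcl g).le)
  have n : M ≤ nrm H := fun g h => a g (cj_le_of_mem h hHM)
  have m : ∀ g, M ≤ nrm (H ⊔ cj g H) → nrm (H ⊔ cj g H) ≤ M := fun g h => by
    by_contra t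
    exact c ⟨g, normal_iff_top_le_nrm.2 (hmaxM.2 _ (h.lt_of_not_ge t)).ge⟩
  have m1 := m 1
  rw [H2.cj_one, sup_idem] at m1
  suffices w : ∀ x ∈ M, x ∉ H → ∀ g : G, g⁻¹ * x * g ∈ M → g ∈ M by
    obtain ⟨N, h1, h2, -⟩ := H1.frobenius_wielandt hHM n w
    exact (inf_le_inf_right _ (normalClosure_le_normal (h2.ge.trans inf_le_right))).trans ((inf_comm _ _).trans h2).le
  refine fun x hx h g hg => m1 n (a g (le_sup_right.trans ((le_nrm_self _).trans (m g fun y hy => ?_))))
  refine (hmaxH.2 ((nrm (H ⊔ cj g H)).subgroupOf M) ((comap_mono (le_sup_left.trans (le_nrm_self _))).lt_of_not_ge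
    fun t => h (t (x := ⟨x, hx⟩) ?_))).ge (mem_top ⟨y, hy⟩)
  exact (zpowers_le (g := x)).1 (nrm_sup (zpowers_le.2 (n hx)) (zpowers_le.2 (by rw [← cj_nrm]; exact mem_cj.2 (n hg))))

end Cfsg.Agent.S3014
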