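import Cfsg.Statements.S3015
import Cfsg.Agent.H1.Iso
import Cfsg.Agent.H1.Misc
import Cfsg.Agent.S3014

set_option autoImplicit false
open Cfsg

namespace Cfsg.Agent.S3015

open H7 H1B Subgroup

/-- Let G be a finite non-abelian simple group, M a maximal subgroup of G and H a normal subgroup of M of prime index in M. Then G is generated by H together with one of its conjugates. -/
theorem result {G : Type*} [Group G] [Finite G] [IsSimpleGroup G] (hG : ¬ IsMulCommutative G) (M H : Subgroup G) (hmaxM : IsCoatom M) (hHM : H ≤ M) (hHn : (H.subgroupOf M).Normal) (hidx : (H.relIndex M).Prime) : ∃ g : G, H ⊔ H.map (MulAut.conj g).toMonoidHom = ⊤ := by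
  by_contra! c
  have := Fact.mk hidx
  have n := (normal_subgroupOf_iff' hHM).1 hHn
  have co : IsCoatom (H.subgroupOf M) := H1.isCoatom_of_index_prime hidx
  have ne : ¬ M ≤ H := fun t => hidx.ne_one (relIndex_eq_one.2 t)
  have m : ∀ X ≤ M, X ≠ ⊥ → M ≤ nrm X → nrm X ≤ M := fun X a b h => by
    by_contra t
    rcases (normal_iff_top_le_nrm.2 (hmaxM.2 _ (h.lt_of_not_ge t)).ge).eq_bot_or_eq_top with e | e
    exacts [b e, hmaxM.1 (eq_top_iff.2 (e.ge.trans a))]
  have mM := m M le_rfl (fun e => ne (e.le.trans bot_le)) (le_nrm_self M)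
  have mx : ∀ X, H ≤ X → ¬ X ⊓ M ≤ H → M ≤ X := fun X a b y hy => (co.2 (X.subgroupOf M) ((comap_mono a).lt_of_not_ge
    fun t => b fun z hz => t (x := ⟨z, hz.2⟩) hz.1)).ge (mem_top ⟨y, hy⟩)
  by_cases hb : H = ⊥
  · subst hb
    obtain ⟨N, h1, h2, h3, -⟩ := H1.frobenius_wielandt hHM n fun x hx h g hg => inv_mem_iff.1 (mM (mem_nrm_of_cj_le
      ((H7.cj_mono _ (mx (zpowers x) bot_le fun t => h (t ⟨mem_zpowers x, hx⟩))).trans
        (by rw [cj_zpowers, inv_inv]; exact zpowers_le.2 hg))))
    rcases h1.eq_bot_or_eq_top with rfl | rfl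
    exacts [hmaxM.1 (by simpa using h3), ne (by simpa using h2)]
  have := S3014.result H M hHM (fun g => le_antisymm ?_ (le_inf le_sup_left hHM)) co hmaxM
  · rcases (inferInstance : (normalClosure (H : Set G)).Normal).eq_bot_or_eq_top with e | e
    · exact hb (eq_bot_iff.2 (le_normalClosure.trans e.le))
    exact ne (by simpa [e] using this.le)
  by_contra t
  have l : cj g H ≤ M := le_sup_right.trans (by
    by_contra k
    exact c g (hmaxM.2 _ ((mx _ le_sup_left t).lt_of_not_ge k)))
  refine t (inf_le_left.trans (sup_le le_rfl (cj_le_of_mem_nrm (n ?_) le_rfl)))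
  have r := pRes_le_of_piN n (by simpa using piN_pow (p := H.relIndex M) 1)
  by_cases e : pRes (H.relIndex M) M = ⊥
  · have q := pRes_eq_bot.1 e
    have i : (cj g H).relIndex M = H.relIndex M := Nat.eq_of_mul_eq_mul_right (card_pos' H) (by
      rw [relIndex_mul_card' hHM, ← relIndex_mul_card' l, H2.card_cj])
    obtain ⟨B, b1, b2, b3, b4⟩ := exists_index_p q (l.lt_of_ne fun t => hidx.ne_one (by rw [← i, t, relIndex_self]))
    obtain rfl : cj g H = B := eq_of_le_of_card_le b1 (Nat.eq_of_mul_eq_mul_left hidx.pos (by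
      rw [← card_of_hyper b2 b3, ← card_of_hyper l i])).le
    have := m _ l (cj_ne_bot hb g) b4
    rw [← cj_nrm] at this
    exact mM (mem_nrm_of_cj_le ((H7.cj_mono g n).trans this))
  refine m _ (H2.pRes_le M) e (nrm_pRes' _ M) (mem_nrm_of_cj_le ?_)
  rw [← pRes_of_le r hHM, H2.cj_pRes, pRes_of_le r hHM]
  exact H2.pRes_mono l

end Cfsg.Agent.S3015
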