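import Cfsg.Statements.S3020
import Cfsg.Agent.H1.Iso

set_option autoImplicit false
open Cfsg

namespace Cfsg.Agent.S3020

open H7 H1B Subgroup

/-- Let G be a finite group, p a prime and H an abelian p-subgroup of G that is extremely closed (for every g, the subgroup generated by H and g H g⁻¹ meets N_G(H) exactly in H). Then for every g ∈ G, the subgroup T generated by H and g H g⁻¹ is the product of H with O_{p'}(T), and H meets O_{p'}(T) trivially; that is, O_{p'}(T) is a normal p-complement of H in T. -/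
theorem result {G : Type*} [Group G] [Finite G] {p : ℕ} [Fact p.Prime] (H : Subgroup G) (hHp : IsPGroup p H) (hHab : IsMulCommutative H) (hcl : Cfsg.IsExtremelyClosed H) (g : G) (T : Subgroup G) (hT : T = H ⊔ H.map (MulAut.conj g).toMonoidHom) : H ⊔ (Cfsg.pPrimeCore p ↥T).map T.subtype = T ∧ H ⊓ (Cfsg.pPrimeCore p ↥T).map T.subtype = ⊥ := by
  have e : T ⊓ nrm H = H := hT ▸ hcl g
  have s : IsSylowIn p H T := syl_of_nrm (hT ▸ le_sup_left) (e.symm ▸ syl_self hHp)
  rw [pPrimeCore_map, sup_comm]
  exact ⟨(npc_burnside s (e.le.trans (isComm_iff.1 hHab))).sup s, inf_eq_bot_of_isPGroup hHp (coprime_Op' p T)⟩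

end Cfsg.Agent.S3020
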