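import Cfsg.Statements.S3021
import Cfsg.Agent.H1.Iso

set_option autoImplicit false
open Cfsg

namespace Cfsg.Agent.S3021

open H7 H1B Subgroup

/-- Let G be a finite group, p a prime and H a p-subgroup of G that is extremely closed (for every g, the subgroup generated by H and g H g⁻¹ meets N_G(H) exactly in H). Then every p-subgroup Q of G containing H has N_G(Q) ≤ N_G(H); in particular every Sylow p-subgroup P of G containing H normalizes H, and H is strongly closed in P with respect to G. -/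
theorem result {G : Type*} [Group G] [Finite G] {p : ℕ} [Fact p.Prime] (H : Subgroup G) (hHp : IsPGroup p H) (hcl : Cfsg.IsExtremelyClosed H) : (∀ Q : Subgroup G, IsPGroup p Q → H ≤ Q → Subgroup.normalizer (Q : Set G) ≤ Subgroup.normalizer (H : Set G)) ∧ ∀ P : Sylow p G, H ≤ (P : Subgroup G) → (P : Subgroup G) ≤ Subgroup.normalizer (H : Set G) ∧ Cfsg.IsStronglyClosed H (P : Subgroup G) := by
  have a : ∀ g, cj g H ⊓ nrm H ≤ H := fun g => (inf_le_inf_right _ le_sup_right).trans (hcl g).le
  have b : ∀ Q, H ≤ Q → Q ≤ nrm H → nrm Q ≤ nrm H := fun Q h k g hg =>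
    mem_nrm_of_cj_le ((le_inf le_rfl ((cj_le_of_mem_nrm hg h).trans k)).trans (a g))
  have c : ∀ Q : Subgroup G, IsPGroup p Q → H ≤ Q → Q ≤ nrm H := fun Q h k => by
    by_contra t
    exact (pgroup_lt_nrm h (inf_lt_left.2 t : Q ⊓ nrm H < Q)).not_ge (inf_le_inf_left _
      (b _ (le_inf k (le_nrm_self H)) inf_le_right))
  exact ⟨fun Q h k => b Q k (c Q h k), fun P h => ⟨c _ P.2 h, h, fun x hx g hg => a g ⟨conj_mem_cj.2 hx, c _ P.2 h hg⟩⟩⟩

end Cfsg.Agent.S3021
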