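import Cfsg.Statements.S3025
import Cfsg.Agent.H1.Xt
import Cfsg.Agent.H1.Two4

set_option autoImplicit false
open Cfsg

namespace Cfsg.Agent.S3025

open H7 H1B Subgroup

/-- Let F be a finite group and H a nontrivial subgroup of F that is contained in every nontrivial subgroup of F which H normalizes. Then F has a nontrivial normal subgroup N contained in every nontrivial normal subgroup of F (a unique minimal normal subgroup), N is simple, and one of the following holds: C_F(N) = 1; or H = N has prime order p, C_F(N) is cyclic of order a power of p, and F/C_F(N) is cyclic of order dividing p − 1; or H = N has order 2, N is central in F, and F is a generalized quaternion group. -/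
theorem result {F : Type*} [Group F] [Finite F] (H : Subgroup F) (hH : H ≠ ⊥)
    (hmin : ∀ R : Subgroup F, R ≠ ⊥ → H ≤ Subgroup.normalizer (R : Set F) → H ≤ R) :
    ∃ N : Subgroup F, N.Normal ∧ N ≠ ⊥ ∧ (∀ M : Subgroup F, M.Normal → M ≠ ⊥ → N ≤ M) ∧ IsSimpleGroup ↥N ∧
      (Subgroup.centralizer (N : Set F) = ⊥ ∨
       (H = N ∧ (Nat.card N).Prime ∧ IsCyclic ↥(Subgroup.centralizer (N : Set F)) ∧
          (∃ k : ℕ, 1 ≤ k ∧ Nat.card ↥(Subgroup.centralizer (N : Set F)) = Nat.card N ^ k) ∧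
          (∃ g : F, Subgroup.centralizer (N : Set F) ⊔ Subgroup.zpowers g = ⊤) ∧
          (Subgroup.centralizer (N : Set F)).index ∣ Nat.card N - 1) ∨
       (H = N ∧ Nat.card N = 2 ∧ Subgroup.centralizer (N : Set F) = ⊤ ∧
          ∃ k : ℕ, 1 ≤ k ∧ Nonempty (F ≃* QuaternionGroup (2 ^ k)))) := by
  set N := H1.ncl H ⊤ with hN
  have l : H ≤ N := H1.le_ncl
  have n : ⊤ ≤ nrm N := H1.le_nrm_ncl
  haveI nN : N.Normal := normal_iff_top_le_nrm.2 n
  have ne : N ≠ ⊥ := fun e => hH (eq_bot_iff.2 (l.trans e.le))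
  have mn : ∀ K : Subgroup F, K ≠ ⊥ → N ≤ nrm K → N ≤ K := fun K a b => H1.ncl_le_iff.2 fun g _ => H7.cj_le_iff.2
    (hmin _ (cj_ne_bot a _) (l.trans (by rw [← cj_nrm, ← H7.cj_le_iff, cj_normal]; exact b)))
  haveI := (nontrivial_iff_ne_bot N).2 ne
  haveI s : IsSimpleGroup N := ⟨fun K _ => or_iff_not_imp_left.2 fun a => by
    rw [eq_iff_map, map_subtype_top]
    exact le_antisymm (map_subtype_le K) (mn _ (mt (map_eq_bot_iff_of_injective _ N.subtype_injective).1 a) (le_nrm_map_subtype K))⟩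
  refine ⟨N, nN, ne, fun M _ a => mn M a le_normalizer_of_normal, s, or_iff_not_imp_left.2 fun c => ?_⟩
  have c1 : N ≤ cen N := mn _ c (nrm_cen (le_nrm_self N))
  haveI := H7.isComm_iff.2 c1
  have pr : (ord N).Prime := open scoped IsMulCommutative in IsSimpleGroup.prime_card
  haveI := Fact.mk pr
  obtain ⟨x, hx, x1⟩ := (H.bot_or_exists_ne_one).resolve_left hH
  have e : H = N := le_antisymm l ((eq_zpowers_of_prime pr (l hx) x1).le.trans (zpowers_le.2 hx))
  have k : ∀ y ∈ cen N, y ≠ 1 → N ≤ zpowers y := fun y a b =>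
    mn _ (zpowers_ne_bot.2 b) ((le_cen_symm (zpowers_le.2 a)).trans (cen_le_nrm _))
  have pg : IsPGroup (ord N) (cen N) := pRes_eq_bot.1 (eq_bot_iff.2 (H7.pRes_le_iff.2 fun y a b => by_contra fun d =>
    coprime_iff_not_dvd.1 b (Nat.card_zpowers y ▸ card_dvd_of_le (k y a d))))
  have r : Rk (ord N) 1 (cen N) := rk1_of_unique fun y a z b oy oz => by
    have q : ∀ w ∈ cen N, orderOf w = ord N → N = zpowers w := fun w a b =>
      eq_of_le_of_card_ge (k w a fun d => pr.one_lt.ne (by rw [← b, d, orderOf_one])) (by rw [Nat.card_zpowers, b])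
    exact (q y a oy).le ((q z b oz).ge (mem_zpowers z))
  haveI cy : IsCyclic N := isCyclic_of_prime_card rfl
  have ix : (cen N).index ∣ ord N - 1 := by
    rw [← Nat.totient_prime pr, ← IsCyclic.card_mulAut, ← relIndex_top_right, ← kr_act, ← card_im n]
    exact card_subgroup_dvd_card _
  rcases cyc_or_quat pg r with h | ⟨h, a, m, h1, h2⟩
  · refine Or.inl ⟨e, pr, h, ?_, ?_, ix⟩
    · obtain ⟨j, hj⟩ := pg.exists_card_eq
      refine ⟨j, Nat.pos_of_ne_zero fun d => c (card_eq_one.1 (by rw [hj, d, pow_zero])), hj⟩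
    · haveI : IsCyclic (MulAut N) := isCyclic_of_surjective (IsCyclic.mulAutMulEquiv N).symm (MulEquiv.surjective _)
      obtain ⟨⟨_, hz⟩, gz⟩ := IsCyclic.exists_generator (α := im (act N) ⊤)
      obtain ⟨g, -, hg, rfl⟩ := mem_im.1 hz
      refine ⟨g, eq_top_iff.2 ?_⟩
      rw [sup_comm, ← kr_act, ← im_le_im_iff n (zpowers_le.2 hg), im_zpowers hg]
      intro w hw
      obtain ⟨i, hi⟩ := gz ⟨w, hw⟩
      exact ⟨i, congrArg Subtype.val hi⟩
  · have t : cen N = ⊤ := index_eq_one.1 (Nat.dvd_one.1 (by rwa [h] at ix))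
    obtain ⟨b, b1, b2⟩ := h1.ex
    obtain ⟨φ⟩ := h1.quat rfl b1 b2 (h2 b b1 b2)
    exact Or.inr ⟨e, h, t, m + 1, by omega, ⟨(topEquiv.symm.trans (MulEquiv.subgroupCongr t.symm)).trans φ⟩⟩

end Cfsg.Agent.S3025
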