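import Cfsg.Statements.S3027
import Cfsg.Agent.H1.Iso

set_option autoImplicit false
open Cfsg

namespace Cfsg.Agent.S3027

open H7 H1B Subgroup
open scoped commutatorElement

/-- Let G be a finite group and D a normal subgroup of G such that G/D is perfect (that is, G = G′D). Then among the subnormal subgroups B of G with BD = G there is a least one, and it is normal in G. -/
theorem result {G : Type*} [Group G] [Finite G] (D : Subgroup G) [D.Normal] (hperf : ⁅(⊤ : Subgroup G), (⊤ : Subgroup G)⁆ ⊔ D = ⊤) :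
    ∃ B : Subgroup G, B.Normal ∧ B ⊔ D = ⊤ ∧ ∀ B' : Subgroup G, B'.IsSubnormal → B' ⊔ D = ⊤ → B ≤ B' := by
  have k : ∀ {X Y : Subgroup G}, X ⊔ D = ⊤ → Y ⊔ D = ⊤ → X ≤ nrm Y → Y ≤ nrm X → X ⊓ Y ⊔ D = ⊤ := fun {X Y} a b c d => by
    have m : ∀ {X : Subgroup G}, X ⊔ D = ⊤ ↔ X.map (QuotientGroup.mk' D) = ⊤ := fun {X} => by
      rw [← (comap_injective (QuotientGroup.mk'_surjective D)).eq_iff, comap_map_eq, QuotientGroup.ker_mk', comap_top]
    have t : (⊤ : Subgroup G).map (QuotientGroup.mk' D) = ⊤ := m.1 (top_sup_eq _)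
    have := m.1 hperf
    rw [map_commutator, t] at this
    refine eq_top_iff.2 ((m.2 ?_).ge.trans (sup_le_sup_right (comm_le_inf c d) _))
    rw [map_commutator, m.1 a, m.1 b, this]
  obtain ⟨B, ⟨b1, b2⟩, b3⟩ := exists_minimal_of_wellFoundedLT (fun B : Subgroup G => B.Normal ∧ B ⊔ D = ⊤)
    ⟨⊤, inferInstance, top_sup_eq _⟩
  obtain ⟨C, ⟨c1, c2, c3⟩, c4⟩ := exists_minimal_of_wellFoundedLT (fun C : Subgroup G => C ≤ B ∧ B ≤ nrm C ∧ C ⊔ D = ⊤)
    ⟨B, le_rfl, le_nrm_self B, b2⟩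
  have l : ∀ X ≤ B, B ≤ nrm X → X ⊔ D = ⊤ → C ≤ X := fun X a b c => (c4 ⟨inf_le_left.trans c1, nrm_inf c2 b,
    k c3 c (c1.trans b) (a.trans c2)⟩ inf_le_left).trans inf_le_right
  have n : C.Normal := normal_iff_top_le_nrm.2 fun g _ => inv_mem_iff.1 (mem_nrm_of_cj_le (le_cj_iff.1 (l _
    (cj_le_of_mem_nrm (le_nrm_of_normal ⊤ B trivial) c1) (by rw [← cj_nrm, ← cj_normal g B]; exact H7.cj_mono g c2)
    (by rw [← cj_normal g D, ← H7.cj_sup, c3, cj_normal]))))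
  refine ⟨B, b1, b2, fun A h e => ?_⟩
  rw [← sn_top_iff] at h
  induction h with
  | refl => exact le_top
  | @step A K h1 h2 _ ih =>
    have i := (ih (eq_top_iff.2 (e.ge.trans (sup_le_sup_right h1 _)))).trans h2
    exact (b3 ⟨n, c3⟩ c1).trans ((l _ inf_le_left (nrm_inf (le_nrm_self B) i) (k b2 e i (le_nrm_of_normal _ B))).trans inf_le_right)

end Cfsg.Agent.S3027
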