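import Cfsg.Statements.S3044
import Cfsg.Agent.H1.Isl

set_option autoImplicit false
open Cfsg

namespace Cfsg.Agent.S3044

open H7 H1B Subgroup

/-- Let G be a finite group, p a prime, S a Sylow p-subgroup of G and P a p-minimal subgroup of G containing S (S is not normal in P and lies in exactly one maximal subgroup of P). Let L be the subgroup generated by N_G(S) and all p-minimal subgroups of G containing S other than P, and suppose P is isolated: O_p(L) is not contained in O_p(P). Put Y for the normal closure of O^p(P) in G. Then G = YL; P is again isolated in the subgroup YS (the subgroup L₀ generated by N_{YS}(S) and the p-minimal subgroups of YS containing S other than P has O_p(L₀) not contained in O_p(P)); and either Y = O^p(P), or p divides |Y/O_p(Y)|, Y/O_p(Y) is generated by its components (a central product of quasisimple groups), and S permutes these components transitively by conjugation. -/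
theorem result {G : Type*} [Group G] [Finite G] {p : ℕ} [Fact p.Prime] (S : Sylow p G) (P : Subgroup G) (hSP : (S : Subgroup G) ≤ P) (hPmin : Cfsg.IsPMinimal p ↥P)
    (L Y : Subgroup G)
    (hL : L = Subgroup.normalizer ((S : Subgroup G) : Set G) ⊔ ⨆ P' : {P' : Subgroup G // (S : Subgroup G) ≤ P' ∧ Cfsg.IsPMinimal p ↥P' ∧ P' ≠ P}, (P' : Subgroup G))
    (hiso : ¬ (Cfsg.pCore p ↥L).map L.subtype ≤ (Cfsg.pCore p ↥P).map P.subtype)
    (hY : Y = Subgroup.normalClosure (((Cfsg.pResidual p ↥P).map P.subtype : Subgroup G) : Set G)) :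
    Y ⊔ L = ⊤ ∧
    ¬ (Cfsg.pCore p ↥((Subgroup.normalizer ((S : Subgroup G) : Set G) ⊓ (Y ⊔ (S : Subgroup G))) ⊔
          ⨆ P' : {P' : Subgroup G // (S : Subgroup G) ≤ P' ∧ P' ≤ Y ⊔ (S : Subgroup G) ∧ Cfsg.IsPMinimal p ↥P' ∧ P' ≠ P}, (P' : Subgroup G))).map
        (Subgroup.subtype _) ≤ (Cfsg.pCore p ↥P).map P.subtype ∧
    ((Cfsg.pResidual p ↥P).map P.subtype = Y ∨
     ∃ _ : (Cfsg.pCore p ↥Y).Normal,
       p ∣ Nat.card (↥Y ⧸ Cfsg.pCore p ↥Y) ∧ Cfsg.layer (↥Y ⧸ Cfsg.pCore p ↥Y) = ⊤ ∧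
       ∀ K₁ K₂ : Subgroup (↥Y ⧸ Cfsg.pCore p ↥Y), Cfsg.IsComponent K₁ → Cfsg.IsComponent K₂ →
         ∃ s ∈ (S : Subgroup G), ((K₂.comap (QuotientGroup.mk' (Cfsg.pCore p ↥Y))).map Y.subtype) = (((K₁.comap (QuotientGroup.mk' (Cfsg.pCore p ↥Y))).map Y.subtype)).map (MulAut.conj s).toMonoidHom) := by
  rw [pCore_map, pCore_map] at hiso
  rw [H2.map_pResidual_subtype, ← H1.ncl_top] at hY
  have h := isl_of (L := L) (syl_top S) hSP hPmin (hL ▸ le_sup_left) (fun U a b c => hL ▸ le_sup_of_le_right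
    (le_iSup (fun P' : {P' : Subgroup G // (S : Subgroup G) ≤ P' ∧ IsPMinimal p P' ∧ P' ≠ P} => (P' : Subgroup G)) ⟨U, a, b, c⟩)) hiso
  rw [pCore_map, pCore_map, H2.map_pResidual_subtype]
  refine ⟨hY ▸ h.gen, fun c => hiso (le_trans (le_Op (h.qS.trans (le_sup_of_le_left (le_inf (le_nrm_self _) le_sup_right)))
    (le_trans ?_ h.nQ) (isPGroup_Op p L)) c), ?_⟩
  · rw [hL]
    exact sup_le_sup inf_le_left (iSup_le fun U => le_iSup (fun P' : {P' : Subgroup G // (S : Subgroup G) ≤ P' ∧ IsPMinimal p P' ∧ P' ≠ P} =>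
      (P' : Subgroup G)) ⟨U, U.2.1, U.2.2.2⟩)
  obtain ⟨k, o, e⟩ := h.quo
  rw [← hY] at e
  by_cases d : p ∣ ord (im (qm (Op p ⊤)) Y)
  swap
  · exact Or.inl (hY ▸ h.res_eq (pRes_of_le le_rfl (H2.pRes_le P)) ((k.cop o (e ▸ d)).1.trans (hY ▸ e)))
  have nY : ⊤ ≤ nrm Y := hY ▸ H1.le_nrm_ncl
  have n := le_nrm_Opi {p} (⊤ : Subgroup G)
  haveI : (pCore p Y).Normal := by rw [pCore_eq]; exact normal_iff_top_le_nrm.2 (le_nrm_Opi _ _)
  obtain ⟨ψ, i, t, w⟩ := exists_quot_emb (p := p) nY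
  refine Or.inr ⟨this, by rwa [← t, card_map_of_injective i, card_top] at d, ?_, fun K M a b => ?_⟩
  · have := im_Lay (f := res ψ ⊤) (H := ⊤) le_top (by rw [kr_top, (MonoidHom.ker_eq_bot_iff _).2 i, inf_bot_eq]; exact bot_le)
    rw [im_top, im_top, t, ← e, k.Lay_eq o (e ▸ d), e, ← t] at this
    rw [layer_eq, map_injective i this]
  · have c : ∀ K : Subgroup (Y ⧸ pCore p Y), IsComponent K → IsComp (K.map ψ) (H1.ncl (im (qm (Op p ⊤)) (pRes p P)) ⊤) := fun K a => by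
      rw [e, ← t]
      exact (isComponent_iff.1 a).map ψ (mt (map_eq_bot_iff_of_injective _ i).1 (isComponent_iff.1 a).qs.ne_bot)
    obtain ⟨_, hs, q⟩ := k.trans o (e ▸ d) (c K a) (c M b)
    obtain ⟨s, s1, s2, rfl⟩ := mem_im.1 hs
    refine ⟨s, s1, ?_⟩
    rw [w, w, ← H7.cj_def, H7.cj_inf, cj_of_mem_nrm (nY (mem_top s)), cj_pre s2, q]

end Cfsg.Agent.S3044
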