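import Cfsg.Statements.S3045
import Cfsg.Agent.H1.Isl

set_option autoImplicit false
open Cfsg

namespace Cfsg.Agent.S3045

open H7 H1B Subgroup
open scoped commutatorElement

/-- Let G be a finite group, p a prime, S a Sylow p-subgroup of G and P a p-minimal subgroup of G containing S. Let L be the subgroup generated by N_G(S) and all p-minimal subgroups of G containing S other than P, and suppose O_p(L) is not contained in O_p(P). Put Y for the normal closure of O^p(P) in G. Then O^p(P) is contained in the preimage in G of F*(G/O_p(G)); and if Y is solvable, then Y = O^p(P) and Y/O_p(Y) is a t-group of nilpotency class at most 2 for some prime t ≠ p. -/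
theorem result {G : Type*} [Group G] [Finite G] {p : ℕ} [Fact p.Prime] (S : Sylow p G) (P : Subgroup G) (hSP : (S : Subgroup G) ≤ P) (hPmin : Cfsg.IsPMinimal p ↥P)
    (L Y : Subgroup G)
    (hL : L = Subgroup.normalizer ((S : Subgroup G) : Set G) ⊔ ⨆ P' : {P' : Subgroup G // (S : Subgroup G) ≤ P' ∧ Cfsg.IsPMinimal p ↥P' ∧ P' ≠ P}, (P' : Subgroup G))
    (hiso : ¬ (Cfsg.pCore p ↥L).map L.subtype ≤ (Cfsg.pCore p ↥P).map P.subtype)
    (hY : Y = Subgroup.normalClosure (((Cfsg.pResidual p ↥P).map P.subtype : Subgroup G) : Set G)) [hn : (Cfsg.pCore p G).Normal] :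
    (Cfsg.pResidual p ↥P).map P.subtype ≤ (Cfsg.generalizedFittingSubgroup (G ⧸ Cfsg.pCore p G)).comap (QuotientGroup.mk' (Cfsg.pCore p G)) ∧
    (Group.IsSolvable ↥Y → (Cfsg.pResidual p ↥P).map P.subtype = Y ∧
       ∃ _ : (Cfsg.pCore p ↥Y).Normal, ∃ t : ℕ, t.Prime ∧ t ≠ p ∧ IsPGroup t (↥Y ⧸ Cfsg.pCore p ↥Y) ∧
         ∃ _ : Group.IsNilpotent (↥Y ⧸ Cfsg.pCore p ↥Y), Group.nilpotencyClass (↥Y ⧸ Cfsg.pCore p ↥Y) ≤ 2) := by
  rw [pCore_map, pCore_map] at hiso
  rw [H2.map_pResidual_subtype, ← H1.ncl_top] at hY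
  have h := isl_of (L := L) (syl_top S) hSP hPmin (hL ▸ le_sup_left) (fun U a b c => hL ▸ le_sup_of_le_right
    (le_iSup (fun P' : {P' : Subgroup G // (S : Subgroup G) ≤ P' ∧ IsPMinimal p P' ∧ P' ≠ P} => (P' : Subgroup G)) ⟨U, a, b, c⟩)) hiso
  rw [H2.map_pResidual_subtype]
  refine ⟨?_, fun s => ?_⟩
  · let φ := QuotientGroup.mk' (pCore p G)
    have t : im (res φ ⊤) ⊤ = ⊤ := by rw [im_top]; exact map_top_of_surjective _ (QuotientGroup.mk'_surjective _)
    have kφ : kr (res φ ⊤) = Op p ⊤ := by rw [kr_top, QuotientGroup.ker_mk', pCore_eq]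
    have k := h.im le_rfl t (kφ ▸ (Op_le_of_sylow h.syl).trans h.sL)
    have o := Opi_im_eq_bot (f := res φ ⊤) (π := {p}) le_rfl (by rw [top_inf_eq, kφ])
    rw [t] at o
    rw [← map_le_iff_le_comap, ← im_top, gfit_eq]
    exact H1.le_ncl.trans ((k.Fst_eq o).ge.trans (Fst_le_of_sn (SN.of_normal le_top H1.le_nrm_ncl)))
  obtain ⟨k, o, e⟩ := h.quo
  rw [← hY] at e
  obtain ⟨a, b, r, r1, r2, r3⟩ := k.cop o (k.not_dvd_of_solv o (e ▸ solv_im _ s))
  have nY : ⊤ ≤ nrm Y := hY ▸ H1.le_nrm_ncl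
  haveI : (pCore p Y).Normal := by rw [pCore_eq]; exact normal_iff_top_le_nrm.2 (le_nrm_Opi _ _)
  obtain ⟨ψ, i, t, -⟩ := exists_quot_emb (p := p) nY
  rw [e, ← t] at b r3
  haveI := Fact.mk r1
  have q : IsPGroup r (Y ⧸ pCore p Y) := r3.of_equiv ((equivMapOfInjective _ ψ i).symm.trans topEquiv)
  haveI := q.isNilpotent
  refine ⟨hY ▸ h.res_eq (pRes_of_le le_rfl (H2.pRes_le P)) (a.trans (hY ▸ e)), inferInstance, r, r1, r2, q, this,
    Subgroup.lowerCentralSeries_eq_bot_iff_nilpotencyClass_le.1 ?_⟩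
  rw [← map_commutator, map_le_cen_map_iff i] at b
  exact comm_eq_bot.2 b

end Cfsg.Agent.S3045
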