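import Cfsg.Statements.S3048
import Cfsg.Agent.H1.Sid
import Cfsg.Agent.S3012

set_option autoImplicit false
universe u
open Cfsg

namespace Cfsg.Agent.S3048

open H7 H1B Subgroup

/-- Minimal counterexample reduction for the Sidki pair problem. Let G be a finite group and V a nontrivial elementary abelian 2-subgroup satisfying the Sidki pair condition with V ∩ O₂(G) = 1. Suppose that for every finite group H of smaller order, every nontrivial elementary abelian 2-subgroup W of H satisfying the Sidki pair condition meets O₂(H) nontrivially, and that the same holds in G for every such subgroup W of order smaller than that of V. Then the generalized Fitting subgroup F*(G) is a non-abelian simple group and G = V F*(G). -/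
theorem result {G : Type u} [Group G] [Finite G] (V : Subgroup G) (hV : Cfsg.IsElementaryAbelian 2 V) (hV1 : V ≠ ⊥) (hS : Cfsg.IsSidkiPair V) (hVO : V ⊓ Cfsg.pCore 2 G = ⊥) (hminG : ∀ (H : Type u) [Group H] [Finite H] (W : Subgroup H), Nat.card H < Nat.card G → Cfsg.IsElementaryAbelian 2 W → W ≠ ⊥ → Cfsg.IsSidkiPair W → W ⊓ Cfsg.pCore 2 H ≠ ⊥) (hminV : ∀ W : Subgroup G, Nat.card W < Nat.card V → Cfsg.IsElementaryAbelian 2 W → W ≠ ⊥ → Cfsg.IsSidkiPair W → W ⊓ Cfsg.pCore 2 G ≠ ⊥) : IsSimpleGroup ↥(Cfsg.generalizedFittingSubgroup G) ∧ ¬ IsMulCommutative ↥(Cfsg.generalizedFittingSubgroup G) ∧ V ⊔ Cfsg.generalizedFittingSubgroup G = ⊤ := by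
  rw [gfit_eq]
  have v2 := EA.isPGroup hV
  have nt : ∀ {X : Subgroup G}, ⊤ ≤ nrm X → X.Normal := normal_iff_top_le_nrm.2
  have quo : ∀ (K : Subgroup G) [K.Normal], K ≠ ⊥ → V ⊓ K = ⊥ → Op 2 (im (res (QuotientGroup.mk' K) ⊤) ⊤) ≠ ⊥ := fun K _ a b e => by
    rw [im_top, ← MonoidHom.range_eq_map, QuotientGroup.range_mk', ← pCore_eq] at e
    refine hminG (G ⧸ K) _ ?_ (EA.map hV _) (fun t => hV1 ?_) (S3012.result V K hV hV1 hS b) (by rw [e, inf_bot_eq])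
    · rw [← index_mul_card K]
      exact lt_mul_of_one_lt_right (Nat.pos_of_ne_zero index_ne_zero_of_finite) ((one_lt_card_iff_ne_bot K).2 a)
    rwa [Subgroup.map_eq_bot_iff, QuotientGroup.ker_mk', ← inf_eq_left, b, eq_comm] at t
  rw [pCore_eq] at hVO
  have hO : Op 2 (⊤ : Subgroup G) = ⊥ := by
    by_contra t
    have := nt (le_nrm_Opi {2} ⊤)
    exact quo _ t hVO (Opi_im_eq_bot le_rfl (by rw [kr_top, QuotientGroup.ker_mk', top_inf_eq]))
  have hZ : cen (⊤ : Subgroup G) = ⊥ := by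
    by_contra t
    have := nt (nrm_cen (le_nrm_self ⊤))
    refine quo _ t (eq_bot_iff.2 ((le_Op le_top (le_nrm_of_le_cen (le_cen_symm inf_le_right)) (v2.to_le inf_le_left)).trans
      hO.le)) (eq_bot_of_isPGroup_of_coprime (isPGroup_Op 2 _) (coprime_of_le (Op_le_Fit 2 _) ?_))
    rw [← im_Fit le_rfl (by rw [kr_top, QuotientGroup.ker_mk', top_inf_eq])]
    exact coprime_im _ (coprime_Fit hO)
  have A : ∀ X ≤ V, X ≠ ⊥ → ∀ N, SN ⊤ N → X ≤ nrm N → X ⊓ cen N = ⊥ → N ⊔ X ≠ ⊤ → ∃ k ∈ N, ∃ u ∈ X, Odd (orderOf k) ∧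
      u * k * u⁻¹ = k⁻¹ ∧ X ⊓ cen1 k = ⊥ := fun X a b N c d e f => by
    by_contra! t
    refine hminG _ (X.subgroupOf (N ⊔ X)) (card_top (G := G) ▸ card_lt_of_lt f.lt_top) ((ea_subgroupOf le_sup_right).2
      (EA.of_le hV a)) (by rwa [Ne, eq_iff_map, subgroupOf_map le_sup_right, Subgroup.map_bot])
      (sid_sub le_sup_right fun k hk u hu o i => ?_) ?_
    · obtain ⟨w, h1, h2⟩ := exists_ne_one (t k (H2.pRes_le N (pRes_sup_pg (v2.to_le a) d ▸ H2.mem_pRes hk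
        (odd_iff_coprime.1 o))) u hu o i)
      exact ⟨w, h1.1, h2, mem_cen1_comm.1 h1.2⟩
    rw [eq_iff_map, map_inf _ _ _ (subtype_injective _), subgroupOf_map le_sup_right, pCore_map, Subgroup.map_bot]
    exact eq_bot_iff.2 ((inf_le_inf_left _ (le_cen_of_inf_eq_bot ((Opi_le _ _).trans (sup_le (le_nrm_self N) d))
      (le_sup_left.trans (le_nrm_Opi _ _)) (eq_bot_iff.2 ((inf_le_Opi _ le_sup_left).trans
        (Op_eq_bot_of_sn hO c).le)))).trans e.le)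
  have sid : ∀ k, ∀ u ∈ V, Odd (orderOf k) → u * k * u⁻¹ = k⁻¹ → V ⊓ cen1 k ≠ ⊥ := fun k u a b c e => by
    obtain ⟨w, h1, h2, h3⟩ := hS k u a b c
    exact h2 (mem_bot.1 (e ▸ ⟨h1, mem_cen1.2 h3⟩))
  have B : ∀ M : Subgroup G, ⊤ ≤ nrm M → M ≠ ⊥ → V ⊓ cen M = ⊥ ∧ M ⊔ V = ⊤ := fun M n ne => by
    have s := SN.of_normal le_top n
    have c : V ⊓ cen M = ⊥ := by
      by_contra t
      obtain ⟨k, hk, u, hu, o, i, e⟩ := A _ inf_le_left t (cen M) (.of_normal le_top (nrm_cen n)) (le_top.trans (nrm_cen n))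
        (eq_bot_iff.2 ((le_Op (inf_le_left.trans inf_le_right) (le_nrm_of_le_cen (le_cen_symm inf_le_right))
          (v2.to_le (inf_le_left.trans inf_le_left))).trans (Op_eq_bot_of_sn hO (.of_normal le_top (nrm_cen n))).le))
        (by rw [sup_eq_left.2 inf_le_right]; exact fun e => ne (eq_bot_iff.2 ((le_cen_symm e.ge).trans hZ.le)))
      obtain ⟨h, hh, w, hw, o', i', e'⟩ := A _ inf_le_left (sid k u hu.1 o i) M s (le_top.trans n) (by
        rw [inf_right_comm, e]) fun e' => by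
          have := conj_eq_iff_cen1.2 (sup_le (le_cen1_iff.2 hk) inf_le_right (e'.ge (mem_top u)))
          rw [eq_one_of_odd o (mul_eq_one_iff_eq_inv.2 (this.symm.trans i))] at e
          exact t (e ▸ (inf_eq_left.2 fun x _ => mem_cen1.2 (by simp)).symm)
      obtain ⟨y, h1, h2, h3, h4⟩ := sid_split hV hS (mem_cen.1 hk h hh) o' o hw.1 hu.1 i' (conj_eq_iff_cen1.2 hw.2)
        (conj_eq_of_mem_cen hu.2 hh) i
      exact h2 (mem_bot.1 (e' ▸ ⟨⟨h1, mem_cen1_comm.1 h4⟩, mem_cen1_comm.1 h3⟩))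
    refine ⟨c, by_contra fun t => ?_⟩
    obtain ⟨k, -, u, hu, o, i, e⟩ := A V le_rfl hV1 M s (le_top.trans n) c t
    exact sid k u hu o i e
  obtain ⟨v, hv, v1⟩ := exists_ne_one hV1
  have vv : ∀ {v}, v ∈ V → v * v = 1 := fun h => by rw [← sq, hV.2 _ h]
  have vc : ∀ {v}, v ∈ V → V ≤ cen1 v := EA.le_cen1 hV
  have F : Fit (⊤ : Subgroup G) = ⊥ := by
    by_contra t
    set M := Fit (⊤ : Subgroup G) ⊓ cen (Fit (⊤ : Subgroup G))
    have n : ⊤ ≤ nrm M := nrm_inf (le_nrm_Fit _) (nrm_cen (le_nrm_Fit _))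
    have ne : M ≠ ⊥ := nilp_inf_cen_ne_bot (nilp_Fit _) le_rfl (le_nrm_self _) t
    have c : M ≤ cen M := inf_le_right.trans (cen_anti inf_le_left)
    have f : ∀ w ∈ V, w ≠ 1 → M ⊓ cen1 w = ⊥ := fun w a b => by_contra fun e => b (mem_bot.1 ((B _ ((B M n ne).2.ge.trans
      (sup_le (le_nrm_of_le_cen (c.trans (cen_anti inf_le_left))) (nrm_inf (le_top.trans n) (nrm_cen1 (vc a))))) e).1 ▸
      ⟨a, le_cen1_iff.1 inf_le_right⟩))
    obtain ⟨m, hm, m1⟩ := exists_ne_one ne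
    have m' := nconj_mem (n (mem_top v)) hm
    obtain ⟨w, h1, h2⟩ := exists_ne_one (sid m v hv (odd_iff_coprime.2 (coprime_orderOf hm.1 (coprime_Fit hO)))
      (eq_inv_of_mul_eq_one_right (mem_bot.1 (f v hv v1 ▸ ⟨mul_mem hm m', mem_cen1_comm.1 (conj_eq_iff_cen1.1 (by
        rw [← conj_mul, ← conj_conj', vv hv, comm_of_le_cen c hm m']; simp))⟩))))
    exact m1 (mem_bot.1 (f w h1.1 h2 ▸ ⟨hm, mem_cen1_comm.1 h1.2⟩))
  have ne : Lay (⊤ : Subgroup G) ≠ ⊥ := fun e => Fst_ne_bot (H := (⊤ : Subgroup G))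
    (fun t => hV1 (eq_bot_iff.2 (le_top.trans t.le))) (by rw [Fst, e, F, bot_sup_eq])
  obtain ⟨L, hL⟩ := exists_isComp ne
  have L1 : L ≠ ⊥ := fun e => hL.2.not_le_cen (e.le.trans bot_le)
  have zL : L ⊓ cen L = ⊥ := eq_bot_iff.2 ((le_Fit_of_sn ((SN.of_normal inf_le_left (nrm_inf (le_nrm_self L)
    (nrm_cen (le_nrm_self L)))).trans hL.1) (nilp_of_comm (isComm_iff.2 (inf_le_right.trans (cen_anti inf_le_left))))).trans F.le)
  have mv : ∀ {y}, y ∉ nrm L → cj y L ≤ cen L := fun a =>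
    (hL.cj_of_mem_nrm (le_nrm_self ⊤ trivial)).cen_of_ne hL fun e => a (cj_eq_self_iff.1 e)
  have r : ∀ {X : Subgroup G}, ⊤ ≤ nrm X → X ≠ ⊥ → L ≤ X := fun n a => by
    rw [← pRes_of_perfect (p := 2) hL.2.perfect]
    exact (H2.pRes_mono (le_top.trans (B _ n a).2.ge)).trans ((pRes_sup_pg v2 (le_top.trans n)).le.trans (H2.pRes_le _))
  have nL : V ≤ nrm L := by
    by_contra t
    by_cases e : V ⊓ nrm L = ⊥
    · obtain ⟨h, hh, o, h1⟩ : ∃ h ∈ L, (orderOf h).Coprime 2 ∧ h ≠ 1 := by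
        by_contra! k
        exact L1 (eq_bot_iff.2 ((pRes_of_perfect (p := 2) hL.2.perfect).ge.trans (pRes_le_iff.2 k)))
      have a : ∀ {y}, y ∈ V → y ≠ 1 → ∀ {x}, x ∈ L → y * x * y⁻¹ ∈ cen L := fun b c _ d =>
        mv (fun k => c (mem_bot.1 (e ▸ ⟨b, k⟩))) (conj_mem_cj.2 d)
      have c : Commute h (v * h * v⁻¹)⁻¹ := mem_cen.1 (inv_mem (a hv v1 hh)) h hh
      have o' := Odd.of_dvd_nat ((odd_iff_coprime.2 o).mul (by rw [orderOf_inv, ord_conj]; exact odd_iff_coprime.2 o))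
        c.orderOf_mul_dvd_mul_orderOf
      have i : v * (h * (v * h * v⁻¹)⁻¹) * v⁻¹ = (h * (v * h * v⁻¹)⁻¹)⁻¹ := by
        rw [← conj_mul, ← conj_inv (a := v * h * v⁻¹), ← conj_conj', vv hv, mul_inv_rev h, inv_inv]; simp
      obtain ⟨y, y1, y2⟩ := exists_ne_one (sid _ v hv o' i)
      refine h1 (mem_bot.1 (zL ▸ ⟨hh, (mul_mem_cancel_right (inv_mem (a hv v1 hh))).1 ?_⟩))
      have := conj_eq_iff_cen1.2 y1.2
      by_cases k : y = v
      · rw [eq_one_of_odd o' (mul_eq_one_iff_eq_inv.2 (this.symm.trans (k ▸ i)))]; exact one_mem _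
      rw [← this, ← conj_mul, ← conj_inv (a := v * h * v⁻¹), ← conj_conj']
      exact mul_mem (a y1.1 y2 hh) (inv_mem (a (mul_mem y1.1 hv) (fun t => k (mul_right_cancel (t.trans (vv hv).symm))) hh))
    have n : ⊤ ≤ nrm (H1.ncl L V) := (B _ (le_nrm_Lay _) ne).2.ge.trans (sup_le (nrm_iSup fun g => nrm_iSup fun _ => (hL.cj_of_mem_nrm (le_nrm_self ⊤ trivial)).Lay_le_nrm) H1.le_nrm_ncl)
    obtain ⟨h, hh, w, hw, o, i, f⟩ := A _ inf_le_left e L hL.1 inf_le_right (eq_bot_iff.2 ((le_inf (inf_le_left.trans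
      inf_le_left) (le_cen_ncl (le_nrm_of_le_cen ((EA.le_cen hV).trans (cen_anti (inf_le_left.trans inf_le_left))))
      inf_le_right)).trans (B _ n fun k => L1 (eq_bot_iff.2 (H1.le_ncl.trans k.le))).1.le))
      fun k => t (le_top.trans (k.ge.trans (sup_le (le_nrm_self L) inf_le_right)))
    obtain ⟨y, y1, y2⟩ := exists_ne_one (sid h w hw.1 o i)
    have := mem_bot.1 (zL ▸ ⟨hh, mv (fun k => y2 (mem_bot.1 (f ▸ ⟨⟨y1.1, k⟩, y1.2⟩)))
      (conj_eq_iff_cen1.2 y1.2 ▸ conj_mem_cj.2 hh)⟩ : h ∈ (⊥ : Subgroup G))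
    exact e (f ▸ (inf_eq_left.2 fun x _ => mem_cen1.2 (by simp [this])).symm)
  have n : ⊤ ≤ nrm L := (B _ (le_nrm_Lay _) ne).2.ge.trans (sup_le hL.Lay_le_nrm nL)
  have c : cen L = ⊥ := by_contra fun t => hL.2.not_le_cen (r (nrm_cen n) t)
  have e : Fst ⊤ = L := le_antisymm (sup_le (Lay_le_iff.2 fun K hK => (hK.eq_or_cen hL).elim Eq.le fun k =>
    k.trans (c.le.trans bot_le)) (F.le.trans bot_le)) (hL.le_Lay.trans (Lay_le_Fst _))
  rw [e, sup_comm]
  exact ⟨(hL.simple_of_Fit F).1, (hL.simple_of_Fit F).2, (B L n L1).2⟩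

end Cfsg.Agent.S3048
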