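import Cfsg.Statements.S3049
import Cfsg.Agent.H1.Iso

set_option autoImplicit false
open Cfsg

namespace Cfsg.Agent.S3049

open H7 H1B Subgroup

/-- Let G be a finite group and p an odd prime with O_{p'}(G) = 1. Suppose that G has p-rank at most 2 (no elementary abelian subgroup of order p³) and that some element x of order p is isolated in G (no G-conjugate of x other than x commutes with x) and not central. Then the generalized Fitting subgroup F*(G) is a non-abelian simple group. Since O_{p'}(G) = 1, such an x is not central modulo O_{p'}(G): the hypotheses describe a counterexample to the Z*_p statement in p-rank at most 2. -/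
theorem result {G : Type*} [Group G] [Finite G] {p : ℕ} [Fact p.Prime] (hp : p ≠ 2) (hcore : Cfsg.pPrimeCore p G = ⊥)
    (hrank : Cfsg.PRankLE p 2 G) (x : G) (hx : orderOf x = p) (hiso : Cfsg.IsIsolated x) (hnc : x ∉ Subgroup.center G) :
    IsSimpleGroup ↥(Cfsg.generalizedFittingSubgroup G) ∧ ¬ IsMulCommutative ↥(Cfsg.generalizedFittingSubgroup G) := by
  rw [pPrimeCore_eq] at hcore
  rw [gfit_eq]
  have q := isPGroup_zpowers_of_orderOf hx
  have nO : ⊤ ≤ nrm (Op p (⊤ : Subgroup G)) := le_nrm_Opi _ _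
  obtain ⟨K, hK, nc⟩ : ∃ K, IsComp K ⊤ ∧ ¬ K ≤ cen1 x := by
    by_contra! h
    have a := iso_cen hiso (isPGroup_sup (le_top.trans nO) q (isPGroup_Op p ⊤)) (mem_sup_left (mem_zpowers x))
    have b := cen_Fst_le_Fit ⊤ ⟨mem_top x, le_cen1_iff.1 (sup_le (Lay_le_iff.2 h)
      ((Fit_eq_Op hcore).le.trans (le_sup_right.trans a)))⟩
    rw [Fit_eq_Op hcore] at b
    exact hnc (by rw [← cen_top]; exact le_cen1_iff.1 (nO.trans (iso_nrm hiso (isPGroup_Op p ⊤) b)))
  have n := iso_nrm_comp hiso q (mem_top x) hcore hK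
  have nb : ∀ {D : Subgroup G}, SN ⊤ D → (ord D).Coprime p → D = ⊥ := fun a b => eq_bot_iff.2 ((le_Op'_of_sn a b).trans hcore.le)
  have hD : Fst ⊤ ⊓ cen K = ⊥ := by
    have s := (SN.of_normal inf_le_left (nrm_inf (le_nrm_self _) (nrm_cen hK.Fst_le_nrm))).trans (sn_Fst (⊤ : Subgroup G))
    refine nb s (coprime_iff_not_dvd.2 fun d => ?_)
    obtain ⟨P, hP, k⟩ := exists_syl_ge q le_top
    obtain ⟨z, hz, o⟩ := exists_orderOf_of_pgroup (syl_sn hP s).2 (syl_ne_bot (syl_sn hP s) d)
    have c := iso_cen hiso hP.2 (zpowers_le.1 k) hz.1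
    have ex := ea_zpowers (hx ▸ pow_orderOf_eq_one x)
    have ez := ea_zpowers (o ▸ pow_orderOf_eq_one z)
    have c' : zpowers z ≤ cen (zpowers x) := by rw [cen_zpowers]; exact zpowers_le.2 c
    have lz : K ⊔ zpowers x ≤ cen1 z := sup_le (le_cen1_iff.2 hz.2.2) (zpowers_le.2 (mem_cen1_comm.1 c))
    have lt : zpowers z < zpowers z ⊔ zpowers x := left_lt_sup.2 fun l =>
      nc (le_cen1_iff.2 (zpowers_le.2 hz.2.2 (zpowers_le.1 l)))
    have := (npc_of_iso hiso q (mem_sup_right (mem_zpowers x) : x ∈ K ⊔ zpowers x) (.inl hp) fun w a b => ?_).of_le le_sup_left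
    · rw [npc_iff_coprime, pRes_of_perfect hK.2.perfect] at this
      exact nc ((nb hK.1 this).le.trans bot_le)
    have e := (ea_zpowers b).sup (ez.sup ex c') (zpowers_le.2 (by
      rw [cen_sup, cen_zpowers, cen_zpowers]; exact ⟨lz a.1, a.2⟩))
    have m := mul_card_le_of_lt (ez.sup ex c').isPGroup lt
    rw [card_zpowers_eq, o, ← sq] at m
    have := (eq_of_le_of_card_le le_sup_right ((hrank _ e.1 e.2).trans m)).ge (mem_sup_left (mem_zpowers w))
    refine le_trans ?_ (cen_le_cen1 this)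
    rw [cen_sup, cen_zpowers, cen_zpowers]
    exact inf_le_inf_right _ lz
  have f : Fit (⊤ : Subgroup G) = ⊥ := eq_bot_iff.2 ((le_inf (Fit_le_Fst _) ((Fit_le_cen_Lay _).trans (cen_anti hK.le_Lay))).trans hD.le)
  have e : Fst ⊤ = K := le_antisymm (sup_le (Lay_le_iff.2 fun L hL => (hL.eq_or_cen hK).elim Eq.le fun c =>
    ((le_inf (hL.le_Lay.trans (Lay_le_Fst _)) c).trans hD.le).trans bot_le) (f.le.trans bot_le)) (hK.le_Lay.trans (Lay_le_Fst _))
  rw [e]
  exact hK.simple_of_Fit f

end Cfsg.Agent.S3049
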