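import Cfsg.Statements.S3053
import Cfsg.Agent.H1.Xt
import Cfsg.Agent.H1.V1
import Cfsg.Agent.H1.BG3c
import Cfsg.Agent.H7.Tk7

set_option autoImplicit false
open Cfsg

namespace Cfsg.Agent.S3053

open H7 H1B Subgroup
open scoped commutatorElement
theorem key {G : Type*} [Group G] [Finite G] {p : ℕ} [hp : Fact p.Prime] (h2 : p ≠ 2) {P : Subgroup G} (hE : IsExtraspecial p P)
    (hc : ord P = p ^ 3) {a x : G} (ha : a ∈ P) (ha' : a ^ p ≠ 1) (hx : x ∈ P) (hx' : x ^ p = 1) (hz : x ∉ cen P) :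
    ∃ m : ℤ, ∀ y ∈ P, ⁅x, y⁆ = (y ^ p) ^ m := by
  obtain ⟨pg, e1, e2, e3⟩ := extraspecial_iff.1 hE
  have c : ∀ u ∈ P, ∀ v ∈ P, ⁅u, v⁆ ∈ P ⊓ cen P := fun u a v b => e2.le (commutator_mem_commutator a b)
  have w : ∀ u ∈ P, u ^ p ∈ P ⊓ cen P := fun u a => e1.le (pow_mem_Phi pg a)
  have z : ∀ u ∈ P ⊓ cen P, u ^ p = 1 := fun u a => e3 ▸ pow_card_eq_one'' a
  have eZ := eq_zpowers_of_card e3 (w a ha) ha'
  obtain ⟨m, hm⟩ := eZ.le (c x hx a ha)
  have mp : ∀ u ∈ P, ∀ v ∈ P, (u * v) ^ p = u ^ p * v ^ p := fun u a v b =>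
    mul_pow_of_class2 h2 (e2.le.trans inf_le_right) a b (z _ (c v b u a))
  have k : ∀ u ∈ P ⊓ cen P, ∀ v ∈ P, Commute u v := fun u a v b => commute_of_mem_cen a.2 b
  let f : P →* G := MonoidHom.mk' (fun y => ⁅x, (y : G)⁆ * (((y : G) ^ p) ^ m)⁻¹) fun u v => by
    have a1 := w u u.2
    have a2 := w v v.2
    rw [coe_mul, mp u u.2 v v.2, comm_mul_right', ← (k _ (c x hx v v.2) u u.2).eq, mul_inv_cancel_right, (k _ a2 _ a1.1).symm.eq,
      (k _ a2 _ a1.1).mul_zpow, mul_inv_rev, mul_assoc, mul_assoc, ← mul_assoc ⁅x, (v : G)⁆,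
      (k _ (c x hx v v.2) _ (inv_mem (zpow_mem a1 m)).1).eq, mul_assoc]
  have oa : orderOf a = p ^ 2 := orderOf_eq_prime_pow (by rwa [pow_one]) (by rw [pow_succ, pow_mul, pow_one, z _ (w a ha)])
  have i : (zpowers a).relIndex P = p := by
    have := relIndex_mul_card' (zpowers_le.2 ha)
    rw [Nat.card_zpowers, oa, hc, pow_succ' p 2] at this
    exact Nat.eq_of_mul_eq_mul_right (pow_pos hp.out.pos 2) this
  have e := eq_sup_zpowers_of_prime (i ▸ hp.out) (zpowers_le.2 ha) hx (fun ⟨n, hn⟩ => hz (by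
    obtain ⟨j, rfl⟩ : (p : ℤ) ∣ n := by
      simp only at hn
      rw [← hn, ← zpow_natCast, ← zpow_mul, ← orderOf_dvd_iff_zpow_eq_one, oa] at hx'
      exact Int.dvd_of_mul_dvd_mul_right (a := p) (by exact_mod_cast hp.out.ne_zero) (by simpa [pow_two] using hx')
    simp only at hn
    rw [← hn, zpow_mul, zpow_natCast]
    exact (zpow_mem (w a ha) j).2))
  have : P ≤ kr f := e.ge.trans (sup_le (zpowers_le.2 (mem_kr.2 ⟨ha, by
    rw [ev_eq ha]; exact mul_inv_eq_one.2 hm.symm⟩)) (zpowers_le.2 (mem_kr.2 ⟨hx, by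
    rw [ev_eq hx]; exact mul_inv_eq_one.2 (by simp [hx'])⟩)))
  refine ⟨m, fun y hy => mul_inv_eq_one.1 ?_⟩
  have := (mem_kr.1 (this hy)).2
  rwa [ev_eq hy] at this

/-- Let p be an odd prime and G a finite group with a Sylow p-subgroup P that is extraspecial of order p³ and exponent p². Then the centre of P is strongly closed in P with respect to G: a G-conjugate of an element of Z(P) that lies in P already lies in Z(P). In particular a nontrivial central element of P is conjugate in G to no noncentral element of P. -/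
theorem result {G : Type*} [Group G] [Finite G]
    {p : ℕ} [Fact p.Prime] (hp : p ≠ 2) (P : Sylow p G) (hE : Cfsg.IsExtraspecial p ↥P)
    (hcard : Nat.card P = p ^ 3) (hexp : Monoid.exponent ↥P = p ^ 2) :
    Cfsg.IsStronglyClosed ((Subgroup.center ↥P).map (P : Subgroup G).subtype) (P : Subgroup G) := by
  change IsStronglyClosed ((center (P : Subgroup G)).map (P : Subgroup G).subtype) _
  rw [center_map_subtype]
  refine ⟨inf_le_left, fun z hz g hx => mem_inf.2 ⟨hx, by_contra fun c => ?_⟩⟩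
  obtain ⟨pg, e1, e2, e3⟩ := extraspecial_iff.1 hE
  obtain ⟨a, ha⟩ : ∃ a : (P : Subgroup G), a ^ p ≠ 1 := by
    by_contra! k
    have : p ^ 2 ∣ p := hexp ▸ Monoid.exponent_dvd_of_forall_pow_eq_one k
    exact absurd (Nat.le_of_dvd (Fact.out : p.Prime).pos this) (by have := (Fact.out : p.Prime).one_lt; nlinarith)
  set x := g * z * g⁻¹ with hx0
  have x1 : x ^ p = 1 := by rw [hx0, conj_pow, ← e3, pow_card_eq_one'' hz, mul_one, mul_inv_cancel]
  obtain ⟨m, hm⟩ := key hp hE hcard a.2 (fun k => ha (Subtype.ext k)) hx x1 c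
  set Z := (P : Subgroup G) ⊓ cen (P : Subgroup G) with hZ
  have nZ : nrm (P : Subgroup G) ≤ nrm Z := nrm_inf le_rfl (nrm_cen le_rfl)
  have pZ := (le_nrm_self _).trans nZ
  have hw := hall_wielandt P (Q := P) ⟨le_rfl, fun g l => eq_of_le_of_card_ge l (H2.card_cj g _).ge⟩ (fun u hu v hv => by
    obtain ⟨n, hn⟩ : ∃ n, p - 1 = n + 2 := ⟨p - 3, by have := (Fact.out : p.Prime).two_le; omega⟩
    have k : (fun y : G => y⁻¹ * v⁻¹ * y * v)^[2] u = 1 := by
      have : u⁻¹ * v⁻¹ * u * v ∈ Z := by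
        simpa [commutatorElement_def] using e2.le (commutator_mem_commutator (inv_mem hu) (inv_mem hv))
      change (u⁻¹ * v⁻¹ * u * v)⁻¹ * v⁻¹ * (u⁻¹ * v⁻¹ * u * v) * v = 1
      rw [mul_assoc, mul_assoc, ← mem_cen.1 this.2 v hv]; group
    rw [hn, Function.iterate_add_apply, k]
    exact Function.iterate_fixed (by simp) n)
  have d : x ∈ pResidual p G ⊔ Z := e2 ▸ H2.commutator_le_pResidual_sup P
    ((inferInstance : (commutator G).Normal).conj_mem z (commutator_mono le_top le_top (e2.ge hz)) g)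
  obtain ⟨r, hr, w, hw', e⟩ := (mem_sup_nrm' (le_nrm_of_normal _ _)).1 d
  have rP : r ∈ (P : Subgroup G) := (mul_mem_cancel_right (inf_le_left (a := (P : Subgroup G)) hw')).1 (e ▸ hx)
  have s := syl_im (syl_le P (le_nrm_self _)) nZ (qm Z)
  have := abel_syl_cen s (H7.isComm_iff.2 ((im_le_cen_iff pZ pZ).2 (by rw [kr_qm]; exact e2.le)))
  have k : ev (qm Z) x ∈ (⊥ : Subgroup (Quo Z)) := this.le (mem_inf.2 ⟨mem_inf.2 ⟨ev_mem_im hx, cen_anti inf_le_left ?_⟩, ?_⟩)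
  · rw [mem_bot, ev_eq_one_iff (pZ hx), kr_qm] at k
    exact c k.2
  · rw [← zpowers_le, ← im_zpowers (pZ hx), im_le_cen_iff (zpowers_le.2 (pZ hx)) nZ, kr_qm]
    refine comm_zpowers_le (pZ hx) fun k hk => ?_
    have b := nconj_mem hk hx
    refine mem_inf.2 ⟨by rw [commutatorElement_def, mul_assoc, mul_assoc, ← mul_assoc k, ← conj_inv]; exact mul_mem hx (inv_mem b), ?_⟩
    have q : ∀ y ∈ (P : Subgroup G), k * x * k⁻¹ * y * (k * x * k⁻¹)⁻¹ = x * y * x⁻¹ := fun y hy => by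
      have t := hm _ (nconj_mem (inv_mem hk) hy)
      have t2 := hm y hy
      rw [conj_pow, conj_zpow, inv_inv, ← t2, commutatorElement_def, commutatorElement_def] at t
      calc _ = k * (x * (k⁻¹ * y * k) * x⁻¹ * (k⁻¹ * y * k)⁻¹) * k⁻¹ * y := by group
        _ = _ := by rw [t]; group
    refine mem_cen.2 fun y hy => ?_
    have t := q _ (conj_mem' (le_nrm_self _) b hy)
    calc _ = k * x * k⁻¹ * ((k * x * k⁻¹)⁻¹ * y * (k * x * k⁻¹)) * (k * x * k⁻¹)⁻¹ * ⁅x, k⁆ := by group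
      _ = _ := by rw [t, commutatorElement_def]; group
  · rw [← im_pRes nZ, ← hw, ← e, ev_mul (pZ rP) (pZ hw'.1), (ev_eq_one_iff (pZ hw'.1)).2 (by rwa [kr_qm]), mul_one]
    exact ev_mem_im (mem_inf.2 ⟨le_nrm_self _ rP, hr⟩)

end Cfsg.Agent.S3053
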