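import Cfsg.Statements.S3057
import Cfsg.Agent.H1.LS4
import Cfsg.Agent.H1.Two4
import Cfsg.Agent.H7.FF2
import Cfsg.Agent.H9.BS
import Cfsg.Agent.H7.Tk3

set_option autoImplicit false
open Cfsg

namespace Cfsg.Agent.S3057

open H7 H1B Subgroup

/-- Let p be a prime and G a finite p-solvable group of order divisible by p, with Sylow p-subgroup P. Then the Sylow p-subgroups of G fail to be chain-connected through nontrivial intersections (equivalently, G has a strongly p-embedded subgroup) if and only if O_p(G) = 1 and P is cyclic or, for p = 2, generalized quaternion. -/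
theorem result {G : Type*} [Group G] [Finite G]
    (p : ℕ) [Fact p.Prime] (hdiv : p ∣ Nat.card G) (hsol : Cfsg.IsPSolvable p G) (P : Sylow p G) :
    ¬ Cfsg.IsSylowChainConnected p G ↔
      Cfsg.pCore p G = ⊥ ∧ (IsCyclic ↥P ∨ (p = 2 ∧ ∃ n : ℕ, Nonempty (↥P ≃* QuaternionGroup (2 ^ n)))) := by
  rw [not_chain_iff, pCore_eq]
  have s := syl_top P
  refine ⟨fun ⟨M, h⟩ => ⟨h.Op_eq_bot, ?_⟩, fun ⟨h0, h⟩ => ?_⟩
  · have r : Rk p 1 (P : Subgroup G) := by_contra fun c => by
      obtain ⟨A, h1, h2, h3⟩ := not_rk_iff.1 c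
      obtain ⟨S, hS⟩ := exists_syl p M
      obtain ⟨g, -, e⟩ := (h.syl hS).exists_cj_le h2.isPGroup le_top
      have n := le_nrm_Opi {p}ᶜ (⊤ : Subgroup G)
      have l := h.le_of_cop (h2.cj g) (e.trans hS.le) (fun c => h2.not_cyc h3 (cyc_cj.1 c)) le_top (coprime_Op' p ⊤)
        (le_top.trans n)
      have k := h.im (f := qm (Op' p ⊤)) n (by rw [kr_qm, top_inf_eq]; exact coprime_Op' p ⊤)
        (by rw [kr_qm, sup_eq_left.2 l]; exact h.lt.not_ge)
      exact ChP.Op_ne_bot (ps_chP (ps_im (ps_top.2 hsol) n) (Opi_im_qm _ _)) (ne_bot_of_gt k.lt) k.Op_eq_bot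
    rcases cyc_or_quat P.isPGroup' r with c | ⟨rfl, -⟩
    · exact .inl c
    · exact (quat_of_ui P.isPGroup' (ui_of_rk r)).imp id fun ⟨n, c⟩ => ⟨rfl, n + 1, c⟩
  · obtain ⟨z, hz, o, -⟩ := exists_Z1_mem P.isPGroup' P.isPGroup' (le_nrm_self _) (syl_ne_bot s (by simpa using hdiv))
    have u : ∀ x ∈ (P : Subgroup G), orderOf x = p → zpowers x = zpowers z := fun x hx e => by
      rcases h with h | ⟨rfl, n, ⟨h⟩⟩
      · have a := ea_Om (p := p) (H := (P : Subgroup G)) inferInstance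
        have b := a.card_le_of_cyc (cyc_of_le (H7.Om_le _ _) h)
        have c : ∀ y ∈ (P : Subgroup G), orderOf y = p → zpowers y = Om p P := fun y h1 h2 => eq_of_le_of_card_le
          (zpowers_le.2 (mem_Om h1 (h2 ▸ pow_orderOf_eq_one y))) (by rwa [card_zpowers_eq, h2])
        rw [c x hx e, c z hz o]
      · rw [((H9.ui_of_equiv_quaternion P h).mono le_top).eq_of_mem P.isPGroup' hx hz (ne_one_of_orderOf e)
          (ne_one_of_orderOf o) (e ▸ pow_orderOf_eq_one x) (o ▸ pow_orderOf_eq_one z)]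
    have n : nrm (P : Subgroup G) ≤ nrm (zpowers z) := fun g hg => cj_eq_self_iff.1 (by
      rw [cj_zpowers]; exact u _ (nconj_mem hg hz) ((ocj g z).trans o))
    refine ⟨nrm (zpowers z), spe_of_cen1 (lt_top_iff_ne_top.2 fun e => ne_one_of_orderOf o (zpowers_eq_bot.1 (eq_bot_iff.2
      (h0 ▸ le_Op le_top e.ge (isPGroup_zpowers_of_orderOf o))))) (syl_le P ((le_nrm_self _).trans n))
      (fun x hx e => inf_le_right.trans ?_) (inf_le_right.trans n)⟩
    rw [← u x hx e, ← cen_zpowers]; exact cen_le_nrm _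

end Cfsg.Agent.S3057
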