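import Cfsg.Statements.S3058
import Cfsg.Agent.H1.LS4

set_option autoImplicit false
open Cfsg

namespace Cfsg.Agent.S3058

open H7 H1B Subgroup

/-- Let p be a prime and G a finite group whose Sylow p-subgroups are not chain-connected through nontrivial intersections (so G has a strongly p-embedded subgroup). If N and M are normal subgroups of G whose orders are both divisible by p, then the order of N ∩ M is divisible by p. Consequently, among the normal subgroups of G whose order is divisible by p there is a smallest one (the intersection of all of them). -/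
theorem result {G : Type*} [Group G] [Finite G]
    (p : ℕ) [Fact p.Prime] (hG : ¬ Cfsg.IsSylowChainConnected p G)
    (N M : Subgroup G) [N.Normal] [M.Normal] (hN : p ∣ Nat.card N) (hM : p ∣ Nat.card M) :
    p ∣ Nat.card ↥(N ⊓ M) := by
  obtain ⟨X, h⟩ := not_chain_iff.1 hG
  by_contra c
  obtain ⟨S, hS⟩ := exists_syl p X
  have s1 := syl_inf (h.syl hS) le_top (le_nrm_of_normal S N)
  have s2 := syl_inf (h.syl hS) le_top (le_nrm_of_normal S M)
  have z : S ⊓ (N ⊓ M) = ⊥ := inf_eq_bot_of_isPGroup hS.isPGroup (coprime_iff_not_dvd.2 c)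
  have n : ∀ A : Subgroup G, A ≤ nrm (N ⊓ M) := fun A => le_nrm_of_normal A _
  have cm : S ⊓ N ≤ cen (S ⊓ M) := le_cen_of_inf_eq_bot (nrm_inf (inf_le_left.trans (le_nrm_self S)) (le_nrm_of_normal _ M))
    (nrm_inf (inf_le_left.trans (le_nrm_self S)) (le_nrm_of_normal _ N)) (by rwa [← inf_inf_distrib_left])
  obtain ⟨x, hx, o1⟩ := exists_orderOf_of_pgroup s1.isPGroup (syl_ne_bot s1 hN)
  obtain ⟨y, hy, o2⟩ := exists_orderOf_of_pgroup s2.isPGroup (syl_ne_bot s2 hM)
  have e := (ea_zpowers (o1 ▸ pow_orderOf_eq_one x)).sup (ea_zpowers (o2 ▸ pow_orderOf_eq_one y))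
    (le_cen_mono cm (zpowers_le.2 hx) (zpowers_le.2 hy))
  have l : N ⊓ M ≤ X := h.le_of_cop e (sup_le (zpowers_le.2 (hS.le hx.1)) (zpowers_le.2 (hS.le hy.1))) (fun b =>
    ne_one_of_orderOf o2 (mem_bot.1 (z.le ⟨hy.1, zpowers_le.2 hx.2 ((eq_of_le_of_card_le le_sup_left (by
      rw [card_zpowers_eq, o1]; exact e.card_le_of_cyc b)).ge (mem_sup_right (mem_zpowers y))), hy.2⟩))) le_top
    (coprime_iff_not_dvd.2 c) (n _)
  have k : N ≤ nrm (S ⊓ M ⊔ N ⊓ M) := le_nrm_of_comm_le ((commutator_mono (sup_le inf_le_right inf_le_right) le_rfl).trans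
    ((comm_le_inf (le_nrm_of_normal M N) (le_nrm_of_normal N M)).trans ((inf_comm _ _).le.trans le_sup_right)))
  have fr := syl_frattini (U := N ⊔ (S ⊓ M ⊔ N ⊓ M)) (s2.mono le_sup_left (sup_le inf_le_right inf_le_right)) le_sup_right
    (sup_le k (le_nrm_self _))
  exact h.not_dvd (le_sup_left.trans (fr.ge.trans (sup_le ((inf_le_inf_right _ le_top).trans (h.nrm_le (inf_le_left.trans hS.le)
    s2.isPGroup (syl_ne_bot s2 hM))) (sup_le (inf_le_left.trans hS.le) l)))) (top_nrm N) hN

end Cfsg.Agent.S3058
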