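import Cfsg.Statements.S3061
import Cfsg.Agent.H1.Cher

set_option autoImplicit false
open Cfsg

namespace Cfsg.Agent.S3061

open H7 H1B Subgroup

/-- Let S be a finite p-group. Then D*(S) itself belongs to the family that generates it: D*(S) is abelian, and every x ∈ S with ⟨D*(S), x⟩ of class at most two centralizes D*(S). Hence D*(S) is the unique maximal member of that family. -/
theorem result {S : Type*} [Group S] [Finite S] {p : ℕ} [Fact p.Prime] (hS : IsPGroup p S) :
    Cfsg.dStar S ∈ Cfsg.dStarFamily S := by
  have := hS.isNilpotent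
  obtain ⟨B, -, h⟩ := exists_scn (S := (⊤ : Subgroup S)) inferInstance bot_le inferInstance (le_nrm_bot _)
  refine ⟨isComm_of_le (scn_comm h) (sSup_le fun A hA => (le_inf le_top (le_cen_symm (dfam_cen hS hA (isComm_iff.1 (scn_comm h))
    (le_top.trans h.2.1)))).trans h.2.2.le), fun x hx => mem_cen.1 (le_cen_sSup (C := zpowers x) (fun A hA => zpowers_le.2
      (mem_cen.2 (hA.2 x (eq_bot_iff.2 (hx ▸ ?_))))) (mem_zpowers x))⟩
  have := sup_le_sup_right (le_sSup hA) (zpowers x)
  exact commutator_mono (commutator_mono this this) this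

end Cfsg.Agent.S3061
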