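import Cfsg.Statements.S3062
import Cfsg.Agent.H1.Cher
import Cfsg.Agent.S3061

set_option autoImplicit false
open Cfsg

namespace Cfsg.Agent.S3062

open H7 H1B Subgroup

/-- Let S be a finite p-group, J(S) the subgroup generated by the abelian subgroups of S of largest order and Z(J(S)) its centre. Then Z(S) ≤ D*(S) ≤ Z(J(S)), and every maximal normal abelian subgroup of S contains D*(S). -/
theorem result {S : Type*} [Group S] [Finite S] {p : ℕ} [Fact p.Prime]
    (hS : IsPGroup p S) :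
    Subgroup.center S ≤ Cfsg.dStar S ∧
    Cfsg.dStar S ≤ Cfsg.thompsonSubgroupA S ⊓ Subgroup.centralizer (Cfsg.thompsonSubgroupA S : Set S) ∧
    ∀ A : Subgroup S, A.Normal → IsMulCommutative A →
      (∀ B : Subgroup S, B.Normal → IsMulCommutative B → A ≤ B → B = A) → Cfsg.dStar S ≤ A := by
  have := hS.isNilpotent
  have d := S3061.result hS
  have n : ⊤ ≤ nrm (dStar S) := nrm_sSup fun g _ A hA => ⟨isComm_cj.2 hA.1, fun x hx a ha => by
    have := hA.2 (g⁻¹ * x * g) (by
      have := congrArg (cj g⁻¹) hx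
      rwa [cj_commutator, cj_commutator, H7.cj_sup, H2.cj_inv_cj, cj_zpowers, inv_inv, H2.cj_bot] at this) _ (mem_cj.1 ha)
    simpa [← mul_assoc] using (by simpa [mul_assoc] using this : a * (x * g) = x * (a * g))⟩
  have k : ∀ A ∈ maxAbelianSubgroups S, dStar S ≤ A := fun A hA => by_contra fun c => by
    obtain ⟨B, h1, -, h2, h3⟩ := H2.replacement (n := 0) (U := A) (.inr ⟨rfl, d.1⟩) (.inl rfl) (hS.to_subgroup ⊤) le_rfl (le_nrm_self _)
      le_top n ⟨le_top, H2.ea_zero_iff.2 hA.1, fun B _ hB => hA.2 B hB.1⟩ ((comm_eq_bot.2 (isComm_iff.1 d.1)).le.trans bot_le) c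
    exact h2 ((le_cen_symm (dfam_cen hS d (isComm_iff.1 h1.2.1.1) h3)).trans (cen_eq_of_mx ⟨h1.2.1.1, fun C hC =>
      h1.2.2 C le_top (H2.ea_zero_iff.2 hC)⟩))
  have c : dStar S ≤ cen (thompsonSubgroupA S) := le_cen_sSup fun A hA => (k A hA).trans (isComm_iff.1 hA.1)
  refine ⟨le_sSup ⟨inferInstance, fun x _ a ha => (mem_center_iff.1 ha x).symm⟩, le_inf (c.trans cen_J_le) c, fun A h1 h2 h3 => ?_⟩
  have := dfam_cen hS d (isComm_iff.1 h2) (le_nrm_of_normal _ A)
  exact le_sup_right.trans (h3 _ (normal_iff_top_le_nrm.2 (nrm_sup (le_nrm_of_normal _ A) n)) (isComm_iff.2 (sup_le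
    (le_cen_sup (isComm_iff.1 h2) this) (le_cen_sup (le_cen_symm this) (isComm_iff.1 d.1)))) le_sup_left).le

end Cfsg.Agent.S3062
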