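import Cfsg.Statements.S3063
import Cfsg.Agent.H1.Cher

set_option autoImplicit false
open Cfsg

namespace Cfsg.Agent.S3063

open H7 H1B Subgroup
open scoped commutatorElement

/-- A weak replacement Theorem for metabelian p-groups: let S be a finite p-group whose derived subgroup is abelian and A an abelian subgroup of S of largest possible order. Then the normal closure of A in S contains an abelian subgroup B of the same order as A that is normal in S. -/
theorem result {S : Type*} [Group S] [Finite S] {p : ℕ} [Fact p.Prime]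
    (hS : IsPGroup p S) (hmeta : IsMulCommutative ↥(commutator S))
    (A : Subgroup S) (hA : A ∈ Cfsg.maxAbelianSubgroups S) :
    ∃ B ∈ Cfsg.maxAbelianSubgroups S, B.Normal ∧ B ≤ Subgroup.normalClosure (A : Set S) := by
  obtain ⟨B, h1, h2⟩ := Set.exists_max_image {B | B ∈ maxAbelianSubgroups S ∧ B ≤ normalClosure (A : Set S)}
    (fun B => ord (B ⊓ commutator S)) (Set.toFinite _) ⟨A, hA, le_normalClosure⟩
  refine ⟨B, h1.1, normal_iff_top_le_nrm.2 fun x _ => nrm_of_cx ?_, h1.2⟩
  have l : cx x B ≤ commutator S := cx_le.2 fun _ _ => commutator_mem_commutator trivial trivial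
  have m := le_cen_mono (isComm_iff.1 hmeta) l l
  have c := isComm_iff.1 h1.1.1
  have := h2 _ ⟨⟨isComm_iff.2 (repl_comm c m), fun C hC => (h1.1.2 C hC).trans (repl_le' c m)⟩, sup_le (cx_le_sup.trans
    (sup_le h1.2 (cj_le_of_mem_nrm (le_nrm_of_normal ⊤ _ trivial) h1.2))) (inf_le_left.trans h1.2)⟩
  exact (le_inf le_sup_left l).trans ((eq_of_le_of_card_le (le_inf ((inf_le_inf_left _ ((isComm_iff.1 hmeta).trans
    (cen_anti l))).trans le_sup_right) inf_le_right) this).ge.trans inf_le_left)

end Cfsg.Agent.S3063
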