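import Cfsg.Statements.S3064
import Cfsg.Agent.H1.Iso

set_option autoImplicit false
open Cfsg

namespace Cfsg.Agent.S3064

open H7 H1B Subgroup

/-- Let S be a Sylow p-subgroup of the finite group G and x an element of S such that (i) x is the only G-conjugate of x lying in S, and (ii) x centralizes every subgroup of order prime to p that it normalizes. Then x lies in the centre of G. -/
theorem result {G : Type*} [Group G] [Finite G] {p : ℕ} [Fact p.Prime]
    (S : Sylow p G) (x : G) (hx : x ∈ S)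
    (hU : ∀ g : G, g⁻¹ * x * g ∈ S → g⁻¹ * x * g = x)
    (hb : ∀ H : Subgroup G, (Nat.card H).Coprime p → (∀ h ∈ H, x * h * x⁻¹ ∈ H) → ∀ h ∈ H, x * h = h * x) :
    x ∈ Subgroup.center G := by
  have q : IsPGroup p (zpowers x) := S.2.to_le (zpowers_le.2 hx)
  have hU' : ∀ g : G, g * x * g⁻¹ ∈ (S : Subgroup G) → g ∈ cen1 x := fun g h =>
    conj_eq_iff_cen1.1 (by simpa using hU g⁻¹ (by rwa [inv_inv]))
  have iso : IsIsolated x := fun g h => by
    obtain ⟨k, -, e⟩ := (syl_top S).exists_cj_le (isPGroup_sup (le_nrm_of_le_cen (by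
      rw [cj_zpowers, cen_zpowers]; exact zpowers_le.2 (mem_cen1.2 h))) q (isPGroup_cj.2 q : IsPGroup p (cj g _))) le_top
    rw [H7.cj_sup, ← H7.cj_mul, cj_zpowers, cj_zpowers] at e
    exact conj_eq_iff_cen1.2 ((mul_mem_cancel_left (hU' k (e (mem_sup_left (mem_zpowers _))))).1
      (hU' _ (e (mem_sup_right (mem_zpowers _)))))
  rw [← cen_top, ← le_cen1_iff]
  by_contra hc
  obtain ⟨H, ⟨h1, h2⟩, hm⟩ := exists_minimal_of_wellFoundedLT (fun H : Subgroup G => x ∈ H ∧ ¬ H ≤ cen1 x) ⟨⊤, trivial, hc⟩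
  obtain ⟨N, a, b, c, d⟩ := fw_rel (inf_le_left : H ⊓ cen1 x ≤ H) (L := H ⊓ cen H) (inf_le_inf_left _ (cen_le_cen1 h1))
    (inf_le_left.trans (nrm_inf (le_nrm_self H) (nrm_cen (le_nrm_self H)))) fun y hy hy' g hg k => by
      have : H ⊓ cen1 y ≤ cen1 x := by
        by_contra t
        exact hy' ⟨hy.1, le_cen1_iff.1 ((hm ⟨mem_inf.2 ⟨h1, mem_cen1_comm.1 hy.2⟩, t⟩ inf_le_left).trans inf_le_right)⟩
      refine ⟨hg, conj_eq_iff_cen1.1 (iso g (mem_cen1.1 (this (mem_inf.2 ⟨conj_mem (le_nrm_self H) hg h1, ?_⟩))).symm)⟩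
      rw [mem_cen1_comm, ← cj_cen1]
      exact mem_cj.2 k.2
  obtain ⟨R, hR, n⟩ := exists_syl_inv q ((zpowers_le.2 h1).trans b)
  have l : R ≤ cen H := (le_inf (le_inf (hR.1.trans a) (le_sup_right.trans (iso_cen iso (isPGroup_sup n q hR.2)
    (mem_sup_left (mem_zpowers x))))) hR.1).trans (c.le.trans inf_le_right)
  have e := (npc_burnside hR (inf_le_left.trans (a.trans (le_cen_symm l)))).sup hR
  refine h2 (d.ge.trans (sup_le inf_le_right (e.ge.trans (sup_le (fun y hy => ?_) (l.trans (cen_le_cen1 h1))))))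
  exact mem_cen1.2 (hb _ (coprime_Op' p N) (fun h k => conj_mem (nrm_Opi _ b) h1 k) y hy).symm

end Cfsg.Agent.S3064
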