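import Cfsg.Statements.S3065
import Cfsg.Agent.H7.GlA
import Cfsg.Agent.H9.BS

set_option autoImplicit false
open Cfsg

namespace Cfsg.Agent.S3065
open H7
open scoped commutatorElement

/-- Let G be a finite non-abelian simple group with a nontrivial Sylow 2-subgroup S (that is, G has even order). If the automorphism group of S is solvable, then the outer automorphism group Out(G) = Aut(G)/Inn(G) is solvable. -/
theorem result {G : Type*} [Group G] [Finite G] [IsSimpleGroup G]
    (hG : ¬ IsMulCommutative G) (S : Sylow 2 G) (hS1 : (S : Subgroup G) ≠ ⊥) (hS : Group.IsSolvable (MulAut ↥S)) :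
    Group.IsSolvable (Cfsg.Out G) := by
  open Subgroup in
  have hZ : center G = ⊥ := (inferInstance : (center G).Normal).eq_bot_or_eq_top.resolve_right fun h =>
    hG ⟨⟨fun a b => mem_center_iff.1 (h ▸ mem_top b) a⟩⟩
  have inj : Function.Injective (MulAut.conj : G →* MulAut G) := by
    rw [injective_iff_map_eq_one]
    intro a ha
    have : a ∈ center G := mem_center_iff.2 fun g => by
      have := congrArg (fun φ : MulAut G => φ g) ha
      simp only [MulAut.conj_apply, MulAut.one_apply] at this
      calc g * a = (a * g * a⁻¹) * a := by rw [this]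
        _ = _ := by group
    rwa [hZ] at this
  have hO : pPrimeCore 2 G = ⊥ := H9.pPrimeCore_two_eq_bot fun N hN ho => by
    rcases hN.eq_bot_or_eq_top with h | h
    · exact h
    · exact absurd (eq_bot_of_isPGroup_of_coprime S.isPGroup'
        (coprime_of_le (h ▸ le_top) (odd_iff_coprime.1 ho))) hS1
  have sy := (H2.sylow_isSylowIn_top S).map (MulAut.conj : G →* MulAut G)
  rw [← MonoidHom.range_eq_map] at sy
  have c1 : Group.IsSolvable (cen ((S : Subgroup G).map (MulAut.conj : G →* MulAut G))) :=
    glaub_solv sy (le_nrm_of_normal _ _) le_rfl (by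
      rw [MonoidHom.range_eq_map, ← map_Opi_of_inj _ inj, ← pPrimeCore_eq, hO, Subgroup.map_bot]) (by
      refine le_bot_iff.1 fun φ hφ => ?_
      ext g
      refine inj ?_
      have := mem_cen.1 hφ.2 (MulAut.conj g) ⟨g, rfl⟩
      ext x
      have := congrArg (fun ψ : MulAut G => ψ (φ⁻¹ x)) this
      simpa using this.symm)
  have c2 : Group.IsSolvable (nrm ((S : Subgroup G).map (MulAut.conj : G →* MulAut G))) := by
    refine solv_of_im (f := act _) le_rfl ?_ (solv_of_le inf_le_right (by rw [kr_act]; exact c1))
    haveI := solvable_of_surjective (f := (MulAut.congr ((S : Subgroup G).equivMapOfInjective _ inj)).toMonoidHom)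
      (MulEquiv.surjective _)
    infer_instance
  have fr := syl_frattini sy le_top (le_nrm_of_normal _ _)
  rw [top_inf_eq] at fr
  haveI := c2
  refine solvable_of_surjective (f := (QuotientGroup.mk' (Inn G)).comp
    (nrm ((S : Subgroup G).map (MulAut.conj : G →* MulAut G))).subtype) ?_
  intro q
  obtain ⟨x, rfl⟩ := QuotientGroup.mk_surjective q
  obtain ⟨a, ha, b, hb, rfl⟩ := (mem_sup_nrm (le_nrm_of_normal _ _)).1 (fr ▸ mem_top x)
  exact ⟨⟨a, ha⟩, QuotientGroup.eq.2 (show a⁻¹ * (a * b) ∈ Inn G by rwa [inv_mul_cancel_left])⟩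

end Cfsg.Agent.S3065
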