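import Cfsg.Statements.S3071
import Cfsg.Agent.H2.FS20

set_option autoImplicit false
open Cfsg

namespace Cfsg.Agent.S3071

open Subgroup H2 Cfsg.FusionSystem


/-- Let p be an odd prime and S a Sylow p-subgroup of the finite group G such that, for every subgroup P with Z(S) ≤ P ≤ S, the normalizer N_G(P) has no section isomorphic to SL₂(p). Let J(S) be the subgroup generated by the abelian subgroups of S of largest order. Then two elements of S are conjugate in G if and only if they are conjugate in N_G(Z(J(S))). -/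
theorem result {G : Type*} [Group G] [Finite G] {p : ℕ} [Fact p.Prime]
    (hp : p ≠ 2) (S : Sylow p G)
    (hfree : ∀ P : Subgroup G, (S : Subgroup G) ⊓ Subgroup.centralizer ((S : Subgroup G) : Set G) ≤ P → P ≤ S →
      ¬ ∃ (H K : Subgroup G) (hK : (K.subgroupOf H).Normal), H ≤ Subgroup.normalizer (P : Set G) ∧
        Nonempty ((H ⧸ K.subgroupOf H) ≃* Matrix.SpecialLinearGroup (Fin 2) (ZMod p))) :
    ∀ x ∈ S, ∀ y ∈ S, (∃ g : G, g * x * g⁻¹ = y) ↔
      ∃ n ∈ Subgroup.normalizer (Cfsg.centerThompsonAOf (S : Subgroup G) : Set G), n * x * n⁻¹ = y := by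
  have hS := sylow_isSylowIn_top S
  have hG := isGF_group (S : Subgroup G)
  have h := controlsStrongFusionOf_of_normal (normal_ZJ hp (Or.inl rfl)
    (secCl_free _) (pst_sl2free hp) hS.isPGroup (hG.saturated hS) (hG.loc' hS (secCl_free _)
      fun Q q1 q2 k => hfree Q ((inf_le_inf_left _ (H7.cen_anti q1)).trans q2) q1 (by
        obtain ⟨K, f, f1, f2⟩ := involves_iff'.1 k
        let N := (⊤ : Subgroup G) ⊓ normalizer (Q : Set G)
        have f3 : HomOn (K.map N.subtype) fun x => f (fn (MonoidHom.id N) x) :=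
          f1.comp ((homOn_fn _).mono (map_subtype_le K)) (by
            rintro _ ⟨x, hx, rfl⟩; rwa [coe_subtype, fn_coe])
        have hs : Function.Surjective f3.toHom := fun M => let ⟨g, hg, e⟩ := f2 M
          ⟨⟨g, g, hg, rfl⟩, by rw [HomOn.toHom_apply, fn_coe]; exact e⟩
        have e : (f3.toHom.ker.map (K.map N.subtype).subtype).subgroupOf _ = f3.toHom.ker :=
          comap_map_eq_self_of_injective (Subgroup.subtype_injective _) _
        have hn : ((f3.toHom.ker.map (K.map N.subtype).subtype).subgroupOf (K.map N.subtype)).Normal := by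
          rw [e]; infer_instance
        exact ⟨_, _, hn, (map_subtype_le K).trans inf_le_right,
          ⟨(QuotientGroup.quotientMulEquivOfEq e).trans
            (QuotientGroup.quotientKerEquivOfSurjective _ hs)⟩⟩)))
  rw [centerThompsonA_eq_zero]
  refine fun x hx y hy => ⟨fun ⟨g, e⟩ => ?_, fun ⟨n, _, e⟩ => ⟨n, e⟩⟩
  obtain ⟨n, h1, h2⟩ := (h {x} (Set.singleton_subset_iff.2 hx)).2 g (by
    rintro _ ⟨_, rfl, rfl⟩; show g * _ * g⁻¹ ∈ _; rw [e]; exact hy)
  exact ⟨n, h1, by rw [← h2 x rfl, e]⟩

end Cfsg.Agent.S3071
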