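import Cfsg.Statements.S3074
import Cfsg.Agent.H2.Qd2
import Cfsg.Agent.H1.BG4b
import Cfsg.Agent.H1.BG3c

set_option autoImplicit false
open Cfsg

namespace Cfsg.Agent.S3074

open Subgroup H2 Cfsg.FusionSystem

theorem pw {F : Type*} [Field F] (a : F) (v : Fin 2 → F) (n : ℕ) :
    qa (H4.slUp a) v ^ n = qa (H4.slUp (n * a)) ![n * v 0 + n.choose 2 * a * v 1, n * v 1] := by
  induction n with
  | zero =>
    rw [pow_zero, ← qa_one]
    refine qa_inj.2 ⟨by simp [H4.slUp_zero], funext fun i => by fin_cases i <;> simp⟩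
  | succ n ih =>
    rw [pow_succ, ih, qa_mul, H4.slUp_mul, mv_slUp]
    refine qa_inj.2 ⟨by congr 1; push_cast; ring, funext fun i => ?_⟩
    fin_cases i <;> simp [Nat.choose_succ_succ' n 1] <;> ring

/-- Let p be an odd prime. A Sylow p-subgroup of Qd(p), the split extension of an elementary abelian group of order p² by SL₂(p) acting naturally, is extraspecial of order p³ and exponent p. -/
theorem result (p : ℕ) [Fact p.Prime] (hp : p ≠ 2) (P : Sylow p ↥(Cfsg.qd p)) :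
    Cfsg.IsExtraspecial p ↥P ∧ Nat.card P = p ^ 3 ∧ Monoid.exponent ↥P = p := by
  revert P
  rw [qd_eq]
  intro P
  have hS := sylow_isSylowIn_top P
  obtain ⟨g, -, e⟩ := (syl_qS (p := p) (F := ZMod p)).exists_cj_eq hS
  have hpp := (Fact.out : p.Prime)
  have hc : Nat.card (qS (ZMod p)) = p ^ 3 := by
    have e : ZMod p × (Fin 2 → ZMod p) ≃ qS (ZMod p) := Equiv.ofBijective
      (fun x => ⟨qa (H4.slUp x.1) x.2, mem_qS.2 ⟨_, _, rfl⟩⟩)
      ⟨fun x y h => Prod.ext (slUp_inj (qa_inj.1 (congrArg Subtype.val h)).1)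
        (qa_inj.1 (congrArg Subtype.val h)).2, fun ⟨g, hg⟩ => by
          obtain ⟨a, v, rfl⟩ := mem_qS.1 hg; exact ⟨(a, v), rfl⟩⟩
    rw [← Nat.card_congr e]; simp; ring
  have hc' : Nat.card P = p ^ 3 := (hS.card_eq syl_qS).trans hc
  have hx : ∀ x ∈ (P : Subgroup (qdOver (ZMod p))), x ^ p = 1 := by
    intro x hx
    rw [← e, H7.mem_cj'] at hx
    obtain ⟨y, hy, rfl⟩ := hx
    obtain ⟨a, v, rfl⟩ := mem_qS.1 hy
    rw [conj_pow, pw]
    have h2 : ((p.choose 2 : ℕ) : ZMod p) = 0 := (ZMod.natCast_eq_zero_iff _ _).2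
      (hpp.dvd_choose_self two_ne_zero (lt_of_le_of_ne hpp.two_le hp.symm))
    have : qa (H4.slUp ((p : ZMod p) * a)) ![p * v 0 + p.choose 2 * a * v 1, p * v 1] = 1 :=
      qa_eq_one.2 ⟨by simp [H4.slUp_zero], funext fun i => by fin_cases i <;> simp [h2]⟩
    rw [this]; simp
  have hn : ¬ IsMulCommutative (P : Subgroup (qdOver (ZMod p))) := by
    rw [← e, H7.isComm_cj, H7.isComm_iff']
    intro h
    have := h _ (mem_qS.2 ⟨1, 0, rfl⟩) _ (mem_qS.2 ⟨0, ![0, 1], rfl⟩)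
    rw [qa_mul, qa_mul, mv_slUp, mv_zero] at this
    simpa using congrFun (qa_inj.1 this).2 0
  obtain ⟨h1, h2⟩ := H1B.extraspecial_of_card hS.isPGroup hc'.le hn
  refine ⟨H1B.extraspecial_iff.2 ⟨hS.isPGroup, ?_, h2.symm, h2 ▸ h1⟩, hc', ?_⟩
  · rw [h2]
    exact le_antisymm (H7.Phi_le_of_elem hpp le_rfl fun x h => hx x h ▸ one_mem _)
      (H7.comm_le_Phi (H7.nilp_of_isPGroup hS.isPGroup))
  · have := (Nat.dvd_prime hpp).1 (Monoid.exponent_dvd_of_forall_pow_eq_one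
      (G := P) fun x => Subtype.ext (hx x x.2))
    refine this.resolve_left fun h => hn ?_
    have := Monoid.exp_eq_one_iff.1 h
    exact ⟨⟨fun a b => Subsingleton.elim _ _⟩⟩

end Cfsg.Agent.S3074
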