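import Cfsg.Statements.S3075
import Cfsg.Agent.H7.PP

set_option autoImplicit false
open Cfsg

namespace Cfsg.Agent.S3075
open H7
open scoped commutatorElement

/-- Let p be an odd prime and N a finite group with a normal elementary abelian subgroup A of order p² that is its own centralizer in N, such that N/A is isomorphic to SL₂(p) (over any field F with p elements). Then N splits over A: some subgroup U of N satisfies A ∩ U = 1 and AU = N. -/
theorem result {N : Type*} [Group N] [Finite N] {p : ℕ} [Fact p.Prime] (hp : p ≠ 2)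
    (A : Subgroup N) [A.Normal] (hAcomm : IsMulCommutative A) (hAcard : Nat.card A = p ^ 2) (hAexp : Monoid.exponent ↥A = p)
    (hAself : Subgroup.centralizer (A : Set N) = A)
    {F : Type*} [Field F] [Fintype F] (hF : Fintype.card F = p) (e : N ⧸ A ≃* Matrix.SpecialLinearGroup (Fin 2) F) :
    ∃ U : Subgroup N, A ⊓ U = ⊥ ∧ A ⊔ U = ⊤ := by
  open Subgroup in
  haveI : Fact (Nat.Prime 2) := ⟨Nat.prime_two⟩
  have pA : IsPGroup p A := IsPGroup.of_card hAcard
  have nA : ⊤ ≤ nrm A := normal_iff_top_le_nrm.1 inferInstance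
  have c2 : (2 : F) ≠ 0 := fun k => by
    have h1 : ringChar F ∣ 2 := (ringChar.spec F 2).1 (by exact_mod_cast k)
    have h2 : ringChar F ∣ p := (ringChar.spec F p).1 (by rw [← hF]; exact FiniteField.cast_card_eq_zero F)
    have h3 := CharP.char_ne_one F (ringChar F)
    exact hp (((Nat.dvd_prime Fact.out).1 h2).resolve_left h3 ▸ ((Nat.dvd_prime Nat.prime_two).1 h1).resolve_left h3)
  let φ : N →* Matrix.SpecialLinearGroup (Fin 2) F := e.toMonoidHom.comp (QuotientGroup.mk' A)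
  have sφ : Function.Surjective φ := e.surjective.comp (QuotientGroup.mk'_surjective A)
  have kφ : ∀ x, φ x = 1 ↔ x ∈ A := fun x => by
    simp [φ, QuotientGroup.eq_one_iff]
  haveI : Fact (Even (Fintype.card (Fin 2))) := ⟨by decide⟩
  have m1 : (-1 : Matrix.SpecialLinearGroup (Fin 2) F) ≠ 1 := fun k => c2 (by
    have := congrArg (fun M : Matrix.SpecialLinearGroup (Fin 2) F => M.1 0 0) k
    simp at this; linear_combination -this)
  obtain ⟨s, hs⟩ := sφ (-1)
  have op : Odd (p ^ 2) := ((Fact.out : p.Prime).odd_of_ne_two hp).pow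
  have ht : φ (s ^ p ^ 2) = -1 := by rw [map_pow, hs, op.neg_one_pow]
  have t2 : (s ^ p ^ 2) ^ 2 = 1 := by
    rw [← pow_mul, mul_comm, pow_mul, ← hAcard]
    exact congrArg Subtype.val (pow_card_eq_one' (x := (⟨s ^ 2, (kφ _).1 (by rw [map_pow, hs]; simp)⟩ : A)))
  generalize s ^ p ^ 2 = t at ht t2
  have pt : IsPGroup 2 (zpowers t) := (ea_zpowers t2).isPGroup
  have oA : (Nat.card A).Coprime 2 := by rw [hAcard]; exact Nat.coprime_two_right.2 op
  have co : Cop (zpowers t) A := cop_of_pgroup pt oA (le_top.trans nA)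
  have cm : ⁅(⊤ : Subgroup N), zpowers t⁆ ≤ A := comm_zp_le' (nA (mem_top t)) fun c _ => (kφ _).1 (by
    rw [map_commutatorElement, ht, commutatorElement_eq_one_iff_mul_comm]; simp)
  have e1 := co.sup_cen_of_comm_le le_top cm
  rw [top_inf_eq] at e1
  refine ⟨cen (zpowers t), by_contra fun b => ?_, e1⟩
  have n1 : ⊤ ≤ nrm (A ⊓ cen (zpowers t)) := e1.ge.trans (sup_le (le_nrm_of_le_cen (le_cen_of_comm hAcomm le_rfl inf_le_left))
    (nrm_inf (le_top.trans nA) (le_nrm_self _)))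
  have l2 : ⁅A, zpowers t⁆ ≤ A := comm_le_left (le_top.trans nA)
  have n2 : ⊤ ≤ nrm ⁅A, zpowers t⁆ := e1.ge.trans (sup_le (H1B.nrm_comm_left _ _)
    (nrm_commutator (le_top.trans nA) (cen_le_nrm _)))
  have z2 : ⁅A, zpowers t⁆ ≠ ⊥ := fun k => m1 (ht ▸ (kφ t).2 (hAself ▸ zpowers_le.1 (le_cen_symm (comm_eq_bot.1 k))))
  have i0 : ⁅A, zpowers t⁆ ⊓ (A ⊓ cen (zpowers t)) = ⊥ := eq_bot_iff.2 ((inf_le_inf_left _ inf_le_right).trans
    (comm_inf_cen_of_comm hAcomm co.norm co.cop).le)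
  have cy : ∀ X Y : Subgroup N, X ≤ A → Y ≤ A → Y ≠ ⊥ → X ⊓ Y = ⊥ → ⊤ ≤ nrm X → ⁅(⊤ : Subgroup N), ⊤⁆ ≤ cen X := fun X Y a b c d n => by
    have lt : X < A := lt_of_le_of_ne a fun k => c (by rwa [k, inf_eq_right.2 b] at d)
    have : Nat.card X ≤ p := by
      obtain ⟨k, hk⟩ := (pA.to_le a).exists_card_eq
      have := card_lt_of_lt lt
      rw [hk, hAcard, Nat.pow_lt_pow_iff_right (Fact.out : p.Prime).one_lt] at this
      rw [hk]; exact (Nat.pow_le_pow_right (Fact.out : p.Prime).pos (by omega : k ≤ 1)).trans (pow_one p).le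
    exact der_le_cen_of_cyc (cyc_of_card_le (pA.to_le a) this) n n
  have d : ⁅(⊤ : Subgroup N), ⊤⁆ ≤ A := hAself ▸ co.comm_sup_cen ▸ le_cen_sup (cy _ _ l2 inf_le_left b i0 n2)
    (cy _ _ inf_le_left l2 z2 (by rwa [inf_comm]) n1)
  obtain ⟨x, hx⟩ := sφ ⟨!![1, 1; 0, 1], by simp [Matrix.det_fin_two]⟩
  obtain ⟨y, hy⟩ := sφ ⟨!![1, 0; 1, 1], by simp [Matrix.det_fin_two]⟩
  have := (kφ _).2 (d (commutator_mem_commutator (mem_top x) (mem_top y)))
  rw [map_commutatorElement, commutatorElement_eq_one_iff_mul_comm] at this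
  have h3 : ((φ x * φ y : Matrix.SpecialLinearGroup (Fin 2) F) : Matrix (Fin 2) (Fin 2) F) 0 0 =
    ((φ y * φ x : Matrix.SpecialLinearGroup (Fin 2) F) : Matrix (Fin 2) (Fin 2) F) 0 0 := by rw [this]
  rw [Matrix.SpecialLinearGroup.coe_mul, Matrix.SpecialLinearGroup.coe_mul, hx, hy] at h3
  simp at h3

end Cfsg.Agent.S3075
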