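import Cfsg.Statements.S3076
import Cfsg.Agent.H7.PP

set_option autoImplicit false
open Cfsg

namespace Cfsg.Agent.S3076
open H7
open scoped commutatorElement

/-- Let P be a Sylow p-subgroup of the finite group G and H ≤ P a subgroup with N_P(H) a Sylow p-subgroup of N_G(H). Let N be the preimage in N_G(H) of O_p(N_G(H)/C_G(H)). Then H is a Sylow p-subgroup of N if and only if C_P(H) ≤ H and O_{p',p}(N_G(H)) = H·C_G(H). -/
theorem result {G : Type*} [Group G] [Finite G] {p : ℕ} [Fact p.Prime]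
    (P : Sylow p G) (H : Subgroup G) (hHP : H ≤ (P : Subgroup G))
    (hSyl : ¬ p ∣ ((P : Subgroup G) ⊓ Subgroup.normalizer (H : Set G)).relIndex (Subgroup.normalizer (H : Set G)))
    [hC : ((Subgroup.centralizer (H : Set G)).subgroupOf (Subgroup.normalizer (H : Set G))).Normal] :
    (H ≤ ((Cfsg.pCore p (↥(Subgroup.normalizer (H : Set G)) ⧸
              (Subgroup.centralizer (H : Set G)).subgroupOf (Subgroup.normalizer (H : Set G)))).comap
            (QuotientGroup.mk' _)).map (Subgroup.normalizer (H : Set G)).subtype ∧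
      ¬ p ∣ H.relIndex (((Cfsg.pCore p (↥(Subgroup.normalizer (H : Set G)) ⧸
              (Subgroup.centralizer (H : Set G)).subgroupOf (Subgroup.normalizer (H : Set G)))).comap
            (QuotientGroup.mk' _)).map (Subgroup.normalizer (H : Set G)).subtype)) ↔
    ((P : Subgroup G) ⊓ Subgroup.centralizer (H : Set G) ≤ H ∧
      (Cfsg.pPrimePCore p ↥(Subgroup.normalizer (H : Set G))).map (Subgroup.normalizer (H : Set G)).subtype =
        H ⊔ Subgroup.centralizer (H : Set G)) := by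
  open Subgroup in
  have e := Omod_eq_pre (f := QuotientGroup.mk' ((cen H).subgroupOf (nrm H))) {p} (H := nrm H) (N := cen H) le_rfl
    (by rw [kr_mk'_subgroupOf, inf_comm (cen H), ← inf_assoc, inf_idem])
  rw [im_mk'_dom, ← pCore_eq, inf_eq_right.2 (pre_le _ _)] at e
  rw [pPrimePCore_map]
  show (H ≤ pre _ _ ∧ ¬ p ∣ H.relIndex (pre _ _)) ↔ _
  rw [← e]
  have pH := P.2.to_le hHP
  have s : H2.IsSylowIn p (P ⊓ nrm H) (nrm H) := ⟨inf_le_right, P.2.to_inf_left, hSyl⟩
  have nC : nrm H ≤ nrm (cen H) := nrm_cen le_rfl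
  have cX : cen H ≤ Omod {p} (cen H) (nrm H) := self_le_Omod _ (cen_le_nrm H) nC
  have hX : H ≤ Omod {p} (cen H) (nrm H) := le_Omod (le_nrm_self H) le_rfl ((piN_iff_isPGroup.2 pH).dvd (relIndex_dvd_card' _ _))
  have lX := Omod_le {p} (cen H) (nrm H)
  have k : (P : Subgroup G) ⊓ cen H ≤ H → H2.IsSylowIn p H (H ⊔ cen H) ∧ Op' p (nrm H) ≤ cen H ∧
      PiN {p} ((Op' p (nrm H)).relIndex (cen H)) := fun c => by
    have s1 := syl_inf s (cen_le_nrm H) (inf_le_right.trans nC)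
    have e1 : (P : Subgroup G) ⊓ nrm H ⊓ cen H ≤ H := (inf_le_inf_right _ inf_le_left).trans c
    have o1 : Op' p (nrm H) ≤ cen H := le_cen_of_inf_eq_bot (Opi_le _ _) ((le_nrm_self H).trans (le_nrm_Opi _ _))
      ((inf_comm _ _).trans (inf_eq_bot_of_isPGroup pH (coprime_Op' p _)))
    have np : NPC p (cen H) := npc_burnside s1 (inf_le_left.trans (cen_anti e1))
    refine ⟨?_, o1, ?_⟩
    · have s2 := syl_inf s (sup_le (le_nrm_self H) (cen_le_nrm H)) (inf_le_right.trans (nrm_sup le_rfl nC))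
      rwa [inf_comm, modular' (cen_le_nrm H) (le_inf hHP (le_nrm_self H)), sup_eq_left.2 ((inf_comm _ _).le.trans e1)] at s2
    exact piN_relIndex_mono (Opi_le_of_normal _ (cen_le_nrm H) nC) np.relIndex
  refine ⟨fun ⟨_, h⟩ => ?_, fun ⟨c, h⟩ => ⟨hX, ?_⟩⟩
  · have s3 : H2.IsSylowIn p H (Omod {p} (cen H) (nrm H)) := ⟨hX, pH, h⟩
    have c : (P : Subgroup G) ⊓ cen H ≤ H := le_sup_right.trans (s3.eq_of_le (isPGroup_sup (le_nrm_of_le_cen
      (le_cen_symm inf_le_right)) pH P.2.to_inf_left) le_sup_left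
      (sup_le hX (inf_le_right.trans cX))).le
    obtain ⟨-, k2, k3⟩ := k c
    have e2 := syl_Omod_sup s3 (cen_le_nrm H) nC
    refine ⟨c, le_antisymm ((le_Omod (Omod_le _ _ _) (le_nrm_Omod _ _ _) (piN_relIndex_mono k2
      (piN_relIndex_Omod _ (le_nrm_Opi _ _)))).trans (e2.ge.trans (sup_comm _ _).le)) (le_Omod (sup_le (le_nrm_self H)
        (cen_le_nrm H)) (nrm_sup le_rfl nC) ?_)⟩
    rw [← relIndex_mul_relIndex _ (cen H) _ k2 le_sup_right, relIndex_sup_nrm ((le_nrm_self H).trans nC)]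
    exact k3.mul ((piN_iff_isPGroup.2 pH).dvd (relIndex_dvd_card' _ _))
  obtain ⟨k1, k2, k3⟩ := k c
  have : Omod {p} (cen H) (nrm H) = H ⊔ cen H := le_antisymm (h ▸ le_Omod lX (le_nrm_Omod _ _ _) (by
    rw [← relIndex_mul_relIndex _ (cen H) _ k2 cX]; exact k3.mul (piN_relIndex_Omod _ nC))) (sup_le hX cX)
  rw [this]; exact k1.not_dvd

end Cfsg.Agent.S3076
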