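import Cfsg.Statements.S3078
import Cfsg.Agent.H2.ZJ

set_option autoImplicit false
open Cfsg

namespace Cfsg.Agent.S3078

open Subgroup H2
open H7 hiding mem_cj conj_mem_cj cj_le_iff card_cj card_sup_mul_card_inf
open scoped commutatorElement

/-- A replacement Theorem for abelian subgroups of p-groups, p odd. Let G be a finite p-group with p odd, A an abelian subgroup of G, and B a subgroup of nilpotency class at most 2 with [B, B] ≤ A, such that A normalizes B but B does not normalize A. Then there is an abelian subgroup A* of G of the same order as A with A ∩ B strictly contained in A* ∩ B, A* contained in N_G(A) and in the normal closure of A, the exponent of A* dividing the exponent of A, and with the subgroup generated by the elements of order dividing p in A of order at most that of the corresponding subgroup of A* (the rank of A is at most the rank of A*). -/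
theorem result {G : Type*} [Group G] [Finite G] {p : ℕ} [Fact p.Prime] (hp : p ≠ 2) (hG : IsPGroup p G) (A B : Subgroup G) (hA : IsMulCommutative A) (hB2 : ⁅⁅B, B⁆, B⁆ = ⊥) (hBA : ⁅B, B⁆ ≤ A) (hAB : A ≤ Subgroup.normalizer (B : Set G)) (hBnA : ¬ B ≤ Subgroup.normalizer (A : Set G)) : ∃ Astar : Subgroup G, IsMulCommutative Astar ∧ Nat.card Astar = Nat.card A ∧ A ⊓ B < Astar ⊓ B ∧ Astar ≤ Subgroup.normalizer (A : Set G) ∧ Astar ≤ Subgroup.normalClosure (A : Set G) ∧ Monoid.exponent Astar ∣ Monoid.exponent A ∧ Nat.card (Cfsg.omegaOne p A) ≤ Nat.card (Cfsg.omegaOne p Astar) := by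
  classical
  have hodd : Odd p := (Fact.out : p.Prime).odd_of_ne_two hp
  have nB : A ⊔ B ≤ nrm B := sup_le hAB (le_nrm_self B)
  obtain ⟨b, hb, hN, hn⟩ := exists_rp (p := p) (P := A ⊔ B) (hG.to_subgroup _) le_sup_left le_sup_right nB hBnA
  have r : Rp p (A ⊔ B) A B b :=
    ⟨hG.to_subgroup _, le_sup_left, le_sup_right, nB, fun e => absurd e hp, hA, hBA, hb, hN, hn⟩
  refine ⟨rpl A b, r.rpl_comm, r.card_rpl, r.inf_lt, r.rpl_le_N.trans inf_le_right, ?_, ?_, ?_⟩
  · refine r.rpl_le_sup.trans (sup_le Subgroup.le_normalClosure (cj_le_iff.2 fun a ha => ?_))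
    exact (Subgroup.normalClosure_normal (s := (A : Set G))).conj_mem _ (Subgroup.le_normalClosure ha) _
  · obtain ⟨k, hk⟩ := IsPGroup.iff_card.1 (hG.to_subgroup A)
    have ho : Odd (Monoid.exponent A) :=
      Odd.of_dvd_nat (n := Nat.card A) (by rw [hk]; exact hodd.pow) Group.exponent_dvd_nat_card
    refine Monoid.exponent_dvd_of_forall_pow_eq_one fun x => Subtype.ext ?_
    have := r.pow_rpl ho (fun a ha => by
      have := congrArg Subtype.val (Monoid.pow_exponent_eq_one (⟨a, ha⟩ : A))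
      simpa using this) x x.2
    simpa using this
  · change Nat.card (Om p A) ≤ Nat.card (Om p (rpl A b))
    have hA' : IsMulCommutative (cj b⁻¹ A) := isComm_cj.2 hA
    have hE : Om p A ≤ A := fun x hx => ((mem_Om_iff hA).1 hx).1
    have n1 : Om p A ≤ nrm (Om p (rpl A b)) := hE.trans (nrm_Om r.le_nrm_rpl)
    have n2 : Om p A ≤ nrm (Om p (cj b⁻¹ A)) := hE.trans (nrm_Om (r.le_N.trans r.N_le))
    have e1 := card_sup_mul_card_inf n1
    have e2 := card_sup_mul_card_inf n2
    have c1 : Nat.card (Om p A) ≤ Nat.card (Om p (cj b⁻¹ A)) := by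
      rw [← card_cj b⁻¹ (Om p A)]
      refine Subgroup.card_le_of_le (cj_le_iff.2 fun a ha => ?_)
      obtain ⟨h1, h2⟩ := (mem_Om_iff hA).1 ha
      exact mem_Om (conj_mem_cj h1) (by rw [conj_pow, h2]; simp)
    have s1 : Om p A ⊔ Om p (cj b⁻¹ A) ≤ Om p A ⊔ Om p (rpl A b) := by
      refine sup_le le_sup_left fun x hx => ?_
      obtain ⟨h1, h2⟩ := (mem_Om_iff hA').1 hx
      have ha : b * x * b⁻¹ ∈ A := by simpa using mem_cj.1 h1
      have hap : (b * x * b⁻¹) ^ p = 1 := by rw [conj_pow, h2]; simp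
      generalize ea : b * x * b⁻¹ = a at ha hap
      have ex : x = b⁻¹ * a * b := by rw [← ea]; group
      subst ex
      have a2 : ⁅a⁻¹, b⁻¹ * a * b⁆ ∈ A ⊓ cj b⁻¹ A :=
        r.comm_le (commutator_mem_commutator (A.inv_mem ha) h1)
      have hc : (b⁻¹ * a * b * a⁻¹) ^ p = 1 :=
        mul_pow_eq_one_of_class_two hodd h2 (by rw [inv_pow, hap, inv_one])
          (mem_cen.1 (r.inf_le_cen a2) _ (mem_sup_right h1)).symm
          (mem_cen.1 (r.inf_le_cen a2) _ (mem_sup_left (A.inv_mem ha))).symm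
      have := Subgroup.mul_mem (Om p A ⊔ Om p (rpl A b))
        (mem_sup_right (mem_Om (mem_sup_right (mem_cb (b := b) ha) : _ ∈ rpl A b) hc))
        (mem_sup_left (mem_Om ha hap))
      simpa using this
    have s2 : Om p A ⊓ Om p (cj b⁻¹ A) ≤ Om p A ⊓ Om p (rpl A b) := fun x hx =>
      ⟨hx.1, mem_Om (mem_sup_left ⟨hE hx.1, ((mem_Om_iff hA').1 hx.2).1⟩) ((mem_Om_iff hA).1 hx.1).2⟩
    have m := Nat.mul_le_mul (Subgroup.card_le_of_le s1) (Subgroup.card_le_of_le s2)
    rw [e1, e2] at m
    exact c1.trans (Nat.le_of_mul_le_mul_left m Nat.card_pos)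

end Cfsg.Agent.S3078
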