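import Cfsg.Statements.S3080
import Cfsg.Agent.H2.FS18

set_option autoImplicit false
open Cfsg

namespace Cfsg.Agent.S3080

open Subgroup H2 Cfsg.FusionSystem


/-- Let p be an odd prime, G a finite group that is p-stable in the normalizer form, P a Sylow p-subgroup such that N_G(U) is p-constrained for every nontrivial subgroup U of P, and D a subgroup of P strongly closed in P with respect to G. Then N_G(Z(J(D))) controls strong G-fusion in P (for every subset A of P and every g ∈ G with gAg⁻¹ ⊆ P, some element of that normalizer acts on A exactly as g does; J(D) is generated by the abelian subgroups of D of largest order), and so does N_G(Ω₁(Z(J_e(D)))) (J_e(D) generated by the elementary abelian subgroups of largest order). -/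
theorem result {G : Type*} [Group G] [Finite G] {p : ℕ} [Fact p.Prime] (hp : p ≠ 2) (P : Sylow p G) (D : Subgroup G) (hD : Cfsg.IsStronglyClosed D (P : Subgroup G)) (hst : Cfsg.IsNormalizerPStable p G) (hc : ∀ U : Subgroup G, U ≤ (P : Subgroup G) → U ≠ ⊥ → Cfsg.IsPConstrained p ↥(Subgroup.normalizer (U : Set G))) : (∀ A : Set G, A ⊆ (P : Subgroup G) → Cfsg.ControlsStrongFusionOf (Subgroup.normalizer ((Cfsg.centerThompsonAOf D) : Set G)) (P : Subgroup G) A) ∧ (∀ A : Set G, A ⊆ (P : Subgroup G) → Cfsg.ControlsStrongFusionOf (Subgroup.normalizer ((Cfsg.omegaOne p (Cfsg.centerThompsonOf p D)) : Set G)) (P : Subgroup G) A) := by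
  have hS := sylow_isSylowIn_top P
  have hG := isGF_group (P : Subgroup G)
  have hX := sc_group_iff.2 hD
  have h := fun n (hn : n = 0 ∨ n = p) => controlsStrongFusionOf_of_normal
    (normal_of_locals (pf_OZ hn) hS.isPGroup (hG.saturated hS) hX fun U u1 u2 N hN => by
      have h1 := (hG.rzS hS).isNK u1 hN
      rw [img_id, top_inf_eq] at h1
      exact (h1.mdl_of_pcon (hc U u1.1 u2)).normal_OZ hp hn (((nst_iff.1 hst).of_le le_top).im
        (H7.le_nrm_Opi _ _) (coprime_kr_qm p _)).pst (sc_sub_inf hN.sub hX))
  refine ⟨?_, h p (Or.inr rfl)⟩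
  rw [centerThompsonA_eq_zero, ← Om_zero (ZJ 0 D)]
  exact h 0 (Or.inl rfl)

end Cfsg.Agent.S3080
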