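import Cfsg.Statements.S3087
import Cfsg.Agent.H1.Cher

set_option autoImplicit false
open Cfsg

namespace Cfsg.Agent.S3087

open H7 H1B Subgroup

/-- Let p be a prime, G a finite group acting linearly on a finite vector space V over the field with p elements, W a G-invariant subspace, and A a subgroup of G with |A|·|C_V(A)| ≥ |B|·|C_V(B)| for every subgroup B of A. Then |A|·|C_W(A)| ≥ |B|·|C_W(B)| for every subgroup B of A that contains C_A(W); that is, the image of A in the group induced on W satisfies the same maximality condition. -/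
theorem result {G V : Type*} [Group G] [Finite G] [AddCommGroup V] [Finite V] (p : ℕ) [Fact p.Prime] [Module (ZMod p) V]
    (ρ : Representation (ZMod p) G V) (W : Submodule (ZMod p) V) (hW : ∀ g : G, ∀ w ∈ W, ρ g w ∈ W)
    (A : Subgroup G)
    (hP : ∀ B : Subgroup G, B ≤ A →
      Nat.card ↥B * Nat.card {v : V // ∀ b ∈ B, ρ b v = v} ≤ Nat.card ↥A * Nat.card {v : V // ∀ a ∈ A, ρ a v = v})
    (B : Subgroup G) (hBA : B ≤ A) (hCB : ∀ a ∈ A, (∀ w ∈ W, ρ a w = w) → a ∈ B) :
    Nat.card ↥B * Nat.card {w : W // ∀ b ∈ B, ρ b w = w} ≤ Nat.card ↥A * Nat.card {w : W // ∀ a ∈ A, ρ a w = w} := by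
  let F : Subgroup G → Subgroup (Multiplicative V) := fun B =>
    { carrier := {v | ∀ b ∈ B, ρ b v.toAdd = v.toAdd}
      one_mem' := fun b _ => map_zero _
      mul_mem' := fun hx hy b hb => by rw [toAdd_mul, map_add, hx b hb, hy b hb]
      inv_mem' := fun hx b hb => by rw [toAdd_inv, map_neg, hx b hb] }
  let U : Subgroup (Multiplicative V) := W.toAddSubgroup.toSubgroup
  have e1 : ∀ B : Subgroup G, Nat.card {v : V // ∀ b ∈ B, ρ b v = v} = ord (F B) := fun B => rfl
  have e2 : ∀ B : Subgroup G, Nat.card {w : W // ∀ b ∈ B, ρ b w = w} = ord (U ⊓ F B) := fun B =>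
    Nat.card_congr ⟨fun w => ⟨Multiplicative.ofAdd w.1.1, w.1.2, w.2⟩, fun w => ⟨⟨w.1.toAdd, w.2.1⟩, w.2.2⟩, fun _ => rfl, fun _ => rfl⟩
  have l : F A ≤ F B := fun v hv b hb => hv b (hBA hb)
  have h1 := card_mul_le_of_le (inf_le_right : U ⊓ F B ≤ F B) l
  rw [inf_assoc, inf_eq_right.2 l] at h1
  have h2 := hP B hBA
  rw [e1, e1] at h2
  rw [e2, e2]
  refine Nat.le_of_mul_le_mul_right ?_ (card_pos' (F A))
  nlinarith [Nat.mul_le_mul_left (ord B) h1, Nat.mul_le_mul_right (ord (U ⊓ F A)) h2]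

end Cfsg.Agent.S3087
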