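import Cfsg.Statements.S3155
import Mathlib

set_option autoImplicit false
open Cfsg

namespace Cfsg.Agent.S3155

/-- Let B be the direct product of three cyclic groups of order 4. Then the automorphism of B inverting every element is not the square of any automorphism of B. -/
theorem result {B : Type*} [CommGroup B] [Finite B] (hB : Nonempty (B ≃* Multiplicative (ZMod 4 × ZMod 4 × ZMod 4)))
    (τ : B ≃* B) : τ.trans τ ≠ MulEquiv.inv B := by
  obtain ⟨e⟩ := hB
  intro h
  let σ : (ZMod 4 × ZMod 4 × ZMod 4) →+ (ZMod 4 × ZMod 4 × ZMod 4) := AddMonoidHom.mk'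
    (fun x => (e (τ (e.symm (Multiplicative.ofAdd x)))).toAdd) (by intro x y; simp)
  let f := σ.toZModLinearMap 4
  have hf : f ∘ₗ f = (-1 : ZMod 4) • LinearMap.id := by
    apply LinearMap.ext
    intro x
    have := MulEquiv.congr_fun h (e.symm (Multiplicative.ofAdd x))
    simp only [MulEquiv.trans_apply, MulEquiv.inv_apply] at this
    show (e (τ (e.symm (Multiplicative.ofAdd (e (τ (e.symm (Multiplicative.ofAdd x)))).toAdd)))).toAdd = _
    simp [this]
  haveI : Fact (1 < 4) := ⟨by norm_num⟩
  have := congrArg LinearMap.det hf
  rw [LinearMap.det_comp, LinearMap.det_smul, LinearMap.det_id] at this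
  simp only [Module.finrank_prod, Module.finrank_self] at this
  revert this
  generalize LinearMap.det f = d
  revert d
  decide

end Cfsg.Agent.S3155
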