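import Cfsg.Statements.S3156
import Cfsg.Agent.H5.TB6

set_option autoImplicit false
open Cfsg

namespace Cfsg.Agent.S3156

open H5.U3 in

/-- If a finite group T is isomorphic to a Sylow 2-subgroup of the projective special unitary group of dimension 3 with parameter 4 (realised over the field with 16 elements), then no subgroup of the automorphism group of T is isomorphic to the symmetric group of degree 3. -/
theorem result {T : Type*} [Group T] [Finite T] (hT : (∃ (F : Type) (_ : Field F) (_ : Fintype F), Fintype.card F = 16 ∧ ∃ S : Sylow 2 (Cfsg.PSU 3 F 4), Nonempty (T ≃* ↥(S : Subgroup (Cfsg.PSU 3 F 4))))) (H : Subgroup (MulAut T)) : ¬ Nonempty (↥H ≃* Equiv.Perm (Fin 3)) := by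
  rintro ⟨j⟩
  obtain ⟨F, _, _, hF, S, ⟨k⟩⟩ := hT
  haveI : CharP F 2 := charP_of_card_eq_prime_pow (f := 4) hF
  have hF' : Fintype.card F = (2 ^ 2) ^ 2 := hF
  obtain ⟨φ, hφ, e, he, -, -, ⟨i⟩⟩ := main one_le_two hF' S
  replace i : T ≃* UU φ := k.trans i
  have p4 : ∀ a, φ a = a ^ 4 := fun a => by
    rcases inv_unique he (γ := H4.Au.frobE hF') (H4.frobq_frobq hF') with h | h
    · exact absurd (RingHom.ext fun a => congrArg (· a) h) (H4.frobq_ne_id hF')
    · rw [← h]; rfl
  let f := (MulAut.congr i).toMonoidHom.comp (H.subtype.comp j.symm.toMonoidHom)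
  have inj : Function.Injective f := (MulAut.congr i).injective.comp (H.subtype_injective.comp j.symm.injective)
  have iv : ∀ s : Equiv.Perm (Fin 3), s * s = 1 → ∀ x, (f s (f s x)).a = x.a := fun s h x => by
    rw [← MulAut.mul_apply, ← map_mul, h, map_one]; rfl
  have hs := iv (.swap 0 1) (by decide)
  have ht := iv (.swap 1 2) (by decide)
  have n : ¬f (.swap 0 1) * f (.swap 1 2) * (f (.swap 0 1) * f (.swap 1 2)) = 1 := by
    rw [← map_mul, ← map_mul, map_eq_one_iff _ inj]; decide
  have r3 : ∀ x, (f (.swap 0 1) * f (.swap 1 2)) ((f (.swap 0 1) * f (.swap 1 2)) ((f (.swap 0 1) * f (.swap 1 2)) x)) = x := fun x => by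
    rw [← MulAut.mul_apply, ← MulAut.mul_apply, ← map_mul, ← map_mul, ← map_mul, show _ * _ * _ = (1 : Equiv.Perm (Fin 3)) by decide, map_one]
    rfl
  generalize f (.swap 0 1) = s, f (.swap 1 2) = t at *
  have z : ∀ x, x.a = 0 → (s * t) x = x := fun x h => by rw [MulAut.mul_apply, fix_center he t ht h, fix_center he s hs h]
  have a2 : ∀ x, ((s * t) ((s * t) x)).a = x.a := fun x => by
    obtain ⟨c, b, k | k⟩ := aut_inv he s hs <;> obtain ⟨d, g, l | l⟩ := aut_inv he t ht <;>
      simp only [MulAut.mul_apply, k, l, map_mul, hφ.out]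
    · rw [← mul_assoc, g, one_mul]
    · rw [← mul_assoc, b, one_mul]
    have h := congrArg UU.a (r3 (sec he 1))
    simp only [MulAut.mul_apply, k, l, map_mul, hφ.out, sec] at h
    have h5 : c * φ d * φ (c * φ d) = 1 := by rw [map_mul, hφ.out]; linear_combination φ d * d * b + g
    rw [p4 (c * _)] at h5
    linear_combination x.a * h5 - x.a * (c * φ d) ^ 2 * h
  have a : ∀ x, ((s * t) x).a = x.a := fun x => by rw [← a2 ((s * t) x), r3]
  refine n (MulEquiv.ext fun x => ?_)
  generalize s * t = r at *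
  have w : (x⁻¹ * r x).a = 0 := by simp [a]
  calc r (r x) = r (x * (x⁻¹ * r x)) := by simp
    _ = x * ((x⁻¹ * r x) * (x⁻¹ * r x)) := by rw [map_mul, z _ w]; group
    _ = x := by rw [sq_eq_one.2 w, mul_one]

end Cfsg.Agent.S3156
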