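import Cfsg.Statements.S3162
import Cfsg.Agent.H5.TB7

set_option autoImplicit false
open Cfsg

namespace Cfsg.Agent.S3162

open H5.U3 in

/-- Let S be a Sylow 2-subgroup of the special unitary group of dimension 3 with parameter q = 2^n (n ≥ 2; realised over the field with q² elements). Then the largest normal 2-subgroup of the automorphism group of S is elementary abelian of order 2^(2n²), and the automorphism group has order 2^(2n²) · 2n(q² − 1). -/
theorem result {S : Type*} [Group S] [Finite S] (n : ℕ) (hn : 2 ≤ n) {F : Type*} [Field F] [Fintype F] (hF : Fintype.card F = 4 ^ n)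
    (P : Sylow 2 ↥(Cfsg.SU 3 F (2 ^ n))) (hS : Nonempty (S ≃* ↥(P : Subgroup ↥(Cfsg.SU 3 F (2 ^ n))))) :
    Cfsg.IsElementaryAbelian 2 (Cfsg.pCore 2 (MulAut S)) ∧ Nat.card ↥(Cfsg.pCore 2 (MulAut S)) = 2 ^ (2 * n ^ 2) ∧
      Nat.card (MulAut S) = 2 ^ (2 * n ^ 2) * (2 * n * ((2 ^ n) ^ 2 - 1)) := by
  have hF : Fintype.card F = (2 ^ n) ^ 2 := by rw [hF, ← pow_mul, mul_comm, pow_mul]; norm_num
  have hF' : Nat.card F = 2 ^ (2 * n) := by rw [Nat.card_eq_fintype_card, hF, ← pow_mul, mul_comm]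
  haveI : CharP F 2 := charP_of_card_eq_prime_pow (hF.trans (pow_mul _ _ _).symm)
  obtain ⟨φ, _, e, he, c1, -, ⟨i⟩⟩ := mainSU (by omega) hF P
  obtain ⟨j⟩ := hS
  have i := MulAut.congr (j.trans i)
  have c : Nat.card (NN φ) = 2 ^ (2 * n ^ 2) := by
    rw [card_NN he, card_hom hF', show Nat.card (KK φ) = _ from c1, ← pow_mul]; congr 1; ring
  have m : Cfsg.pCore 2 (MulAut S) = (NN φ).map i.symm.toMonoidHom := le_antisymm (sSup_le fun M h x hx =>
    ⟨i x, core_le he _ (h.1.map i.toMonoidHom i.surjective) (h.2.map _) ⟨x, hx, rfl⟩, by simp⟩)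
    (le_sSup ⟨(NN_normal he).map _ i.symm.surjective, (IsPGroup.of_card c).map _⟩)
  obtain ⟨a, b⟩ := NN_elem he
  rw [m, Subgroup.card_map_of_injective i.symm.injective, Nat.card_congr i.toEquiv, card_aut he, c, H5.Gen.card_ringAut hF',
    Nat.card_units, Nat.card_eq_fintype_card, hF]
  refine ⟨⟨inferInstance, ?_⟩, rfl, rfl⟩
  rintro _ ⟨x, h, rfl⟩
  rw [← map_pow, b x h, map_one]

end Cfsg.Agent.S3162
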