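import Cfsg.Statements.S3178
import Cfsg.Agent.H1.Two5

set_option autoImplicit false
open Cfsg

namespace Cfsg.Agent.S3178

open H7 H1B Subgroup

/-- Groups with a modular Sylow 2-subgroup have a normal 2-complement. Let S, of order 2^(n+1) with n ≥ 3, be a Sylow 2-subgroup of a finite group G, and suppose S contains an element a of order 2^n and an involution b with b a b⁻¹ = a^(2^(n-1) + 1); so S is the non-abelian 2-group with a cyclic subgroup of index 2 that is neither dihedral, semidihedral nor generalized quaternion. Then G has a normal 2-complement. -/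
theorem result {G : Type*} [Group G] [Finite G]
    (S : Sylow 2 G) (n : ℕ) (hn : 3 ≤ n) (hS : Nat.card ↥(S : Subgroup G) = 2 ^ (n + 1))
    (a b : G) (ha : a ∈ (S : Subgroup G)) (hb : b ∈ (S : Subgroup G))
    (hao : orderOf a = 2 ^ n) (hbo : orderOf b = 2) (hrel : b * a * b⁻¹ = a ^ (2 ^ (n - 1) + 1)) :
    Cfsg.HasNormalPComplement 2 G := by
  obtain ⟨m, rfl⟩ := Nat.exists_eq_add_of_le' hn
  have s := syl_top S
  have oz := ord_pow_two (m := 1) (j := m + 2) (by rw [hao, add_comm 1])
  have z1 := (ord2.1 oz).2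
  have h : Md (S : Subgroup G) a b m := ⟨ha, hb, hao, hS, fun h => by
    rw [(zp_comm h (mem_zpowers a)).eq, mul_inv_cancel_right, pow_succ', left_eq_mul] at hrel
    exact z1 hrel, (ord2.1 hbo).1, by rw [hrel, pow_succ']; rfl⟩
  have zc := h.sq_cen h.z_mem
  have bR : b ∉ Cfsg.pResidual 2 G := by
    obtain ⟨M, hM, i, hm⟩ := H2.thompson_transfer (by simpa using s.not_dvd) h.relIndex hb
      (ord2'.1 hbo).1 fun g hg => by
        have e := inv_unique_zpowers hg (npow_mem_zpowers a _) ((ord_conj g b).trans hbo) oz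
        have s1 := s.mono (le_cen1_iff.2 zc) le_top
        obtain ⟨c, hc, l⟩ := s1.exists_cj_le (Q := H2.cj g (zpowers (a ^ 2)))
          ((h.pgroup.to_le ((zp_pow_le a 2).trans (zpowers_le.2 ha))).map _) (by
            rw [← e, ← cj_cen1]; exact cj_mono g (zpowers_le.2 (mem_cen1.2 h.comm_sq)))
        rw [← cj_mul, H7.cj_zpowers] at l
        have m1 := l (mem_zpowers _)
        have sq : ∀ x ∈ (S : Subgroup G), x * x ∈ zpowers a := fun x hx => by
          rcases h.mem_iff.1 hx with h1 | ⟨i, hi⟩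
          · exact mul_mem h1 h1
          · rw [show x = a ^ i * b by rw [show a ^ i = _ from hi]; group, h.sq_out]
            exact mul_mem (zpow_mem (npow_mem_zpowers _ _) _) (zpow_mem (npow_mem_zpowers _ _) _)
        have m2 := sq _ (pow_mem m1 (2 ^ m))
        rw [← pow_two, ← pow_mul, conj_pow, ← pow_mul, ← pow_succ, ← pow_succ'] at m2
        have e2 := inv_unique_zpowers m2 (npow_mem_zpowers a _) ((ord_conj _ _).trans oz) oz
        have e3 : c * g * b * (c * g)⁻¹ = a ^ 2 ^ (m + 2) := by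
          rw [show c * g * b * (c * g)⁻¹ = c * (g * b * g⁻¹) * c⁻¹ by group, e]
          exact mul_inv_eq_iff_eq_mul.2 (mem_cen1.1 hc)
        have : b = a ^ 2 ^ (m + 2) := by simpa using e3.trans e2.symm
        exact h.out (this ▸ npow_mem_zpowers _ _)
    exact fun hR => hm (H2.pResidual_le_of_index (k := 1) i hR)
  refine npc_of_cyc_res s ?_
  generalize hR : (S : Subgroup G) ⊓ Cfsg.pResidual 2 G = R
  have RS : R ≤ S := hR ▸ inf_le_left
  have nR : (S : Subgroup G) ≤ nrm R := hR ▸ nrm_inf le_normalizer (le_nrm_of_normal _ _)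
  have bR' : b ∉ R := fun h => bR (hR.ge h).2
  by_cases h1 : R ≤ zpowers a
  · exact cyc_of_le h1 inferInstance
  obtain ⟨c, hc, hca⟩ := SetLike.not_le_iff_exists.1 h1
  have cb := (h.mem_iff.1 (RS hc)).resolve_left hca
  obtain ⟨j, -, e⟩ := le_zp_eq hao (inf_le_right (a := R))
  have l : R ⊓ zpowers a ≤ zpowers (a ^ 2) := by
    rcases j with _ | j
    · have : zpowers a ≤ R := by simpa using e.ge.trans inf_le_left
      exact (bR' (inv_mem_iff.1 ((mul_mem_cancel_left hc).1 (this cb)))).elim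
    · exact e.le.trans (zp_pow_le_pow a (dvd_pow_self 2 (by omega)))
  have cm : IsMulCommutative R := isComm_of_le (comm_sup_zp (mem_cen.1 (h.sq_cen (mem_zpowers _)) c (RS hc)).symm)
    fun x hx => by
      by_cases hxa : x ∈ zpowers a
      · exact mem_sup_left (l ⟨hx, hxa⟩)
      · rw [← inv_mul_cancel_right x c]
        exact mul_mem_sup (l ⟨R.mul_mem hx (R.inv_mem hc), (H2.mul_mem_iff_of_relIndex_two h.relIndex (RS hx)
          (inv_mem (RS hc))).2 (by simp [hxa, hca])⟩) (mem_zpowers c)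
  have key : ∀ x ∈ R, x ≠ 1 → x ^ 2 = 1 → x = a ^ 2 ^ (m + 2) := fun x hx x1 x2 => by
    refine inv_unique_zpowers ?_ (npow_mem_zpowers _ _) (ord2'.2 ⟨x2, x1⟩) oz
    by_contra hxa
    have zz := (ord2.1 oz).1
    have := h.Om_eq.le (mem_Om (RS hx) x2)
    rw [mem_sup_zp (cen_le_nrm _ (le_centralizer_iff.1 (zpowers_le.2 zc) hb)) (h.sq ▸ one_mem _)] at this
    have zb : a * b * a⁻¹ = a ^ 2 ^ (m + 2) * b := by
      have := h.inv
      rw [mul_inv_eq_iff_eq_mul] at this
      rw [mul_inv_eq_iff_eq_mul, mul_assoc, this, ← mul_assoc, ← mul_assoc,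
        (zp_comm (npow_mem_zpowers a _) (mem_zpowers a)).eq, mul_assoc a, zz, mul_one]
    rcases this with e | e
    · exact hxa (zp_pow_le _ _ e)
    · rcases (mem_zp_two oz).1 e with e | e
      · exact bR' (mul_inv_eq_one.1 e ▸ hx)
      · rw [mul_inv_eq_iff_eq_mul, ← zb] at e
        exact bR' ((mem_normalizer_iff.1 (nR ha) b).2 (e ▸ hx))
  exact H9.UI.isCyclic (fun s hs t ht s1 t1 s2 t2 _ => (key s hs s1 s2).trans (key t ht t1 t2).symm)
    (h.pgroup.to_le RS)

end Cfsg.Agent.S3178
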