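import Cfsg.Statements.S3179
import Cfsg.Agent.S0243
import Cfsg.Agent.S0280
import Cfsg.Agent.S1163

set_option autoImplicit false
open Cfsg

namespace Cfsg.Agent.S3179

open Polynomial Matrix

theorem no9 (A : Matrix (Fin 5) (Fin 5) (ZMod 2)) (h : A ^ 9 = 1) : A ^ 3 = 1 := by
  have d : minpoly (ZMod 2) A ∣ cyclotomic (3 ^ (1 + 1)) (ZMod 2) * (X ^ 3 ^ 1 - 1) := minpoly.dvd _ _ (by
    rw [cyclotomic_prime_pow_mul_X_pow_sub_one]; simp [h])
  have c : IsCoprime (minpoly (ZMod 2) A) (cyclotomic (3 ^ (1 + 1)) (ZMod 2)) :=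
    isCoprime_of_irreducible_dvd (by simp [cyclotomic_ne_zero]) fun P hP a b => by
      have := natDegree_of_dvd_cyclotomic_of_irreducible (p := 2) (f := 1) (by simp) (by norm_num) b hP
      have h2 := natDegree_le_of_dvd (a.trans (minpoly_dvd_charpoly A)) (charpoly_monic A).ne_zero
      rw [charpoly_natDegree_eq_dim, this, (orderOf_eq_iff (n := 6) (by norm_num)).2 (by decide)] at h2
      simp at h2
  obtain ⟨k, hk⟩ := c.dvd_of_dvd_mul_left d
  simpa [sub_eq_zero] using congrArg (aeval A) hk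

theorem ord9 {F : Type} [Field F] [Fintype F] (hF : Fintype.card F = 2 ^ 3) :
    ∃ x : ProjectiveSpecialLinearGroup (Fin 2) F, orderOf x = 3 ^ (1 + 1) := by
  haveI : CharP F 2 := charP_of_card_eq_prime_pow hF
  have t2 := (CharTwo.two_eq_zero : (2 : F) = 0)
  obtain ⟨x, h0, h1⟩ := ENat.exists_ne_ne_of_three_le (α := F) (by simp [hF]; norm_num) 0 1
  have hx := FiniteField.pow_card x
  rw [hF] at hx
  obtain ⟨a, ha⟩ : ∃ a : F, a ^ 3 + a + 1 = 0 := by
    by_cases h : x ^ 3 + x + 1 = 0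
    exacts [⟨x, h⟩, ⟨x + 1, by grind⟩]
  let M : SpecialLinearGroup (Fin 2) F := ⟨!![0, 1; 1, a], by simp [det_fin_two, CharTwo.neg_eq]⟩
  have m3 : (M ^ 3).1 = !![a, 1 + a ^ 2; 1 + a ^ 2, a + 1] := by
    show (!![0, 1; 1, a] : Matrix _ _ F) ^ 3 = _
    ext i j; fin_cases i <;> fin_cases j <;> simp [pow_succ, mul_apply, Fin.sum_univ_two] <;> grind
  refine ⟨M, orderOf_eq_prime_pow (fun h => ?_) ?_⟩
  · obtain ⟨r, -, h⟩ := Matrix.SpecialLinearGroup.mem_center_iff.1 ((QuotientGroup.eq_one_iff (M ^ 3)).1 h)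
    have := congrFun₂ (h.trans m3) 0 1
    simp at this
    grind
  · refine congrArg QuotientGroup.mk (show M ^ (3 * 3) = 1 from Subtype.ext ?_)
    rw [pow_mul]
    show (M ^ 3).1 ^ 3 = 1
    rw [m3]
    ext i j; fin_cases i <;> fin_cases j <;> simp [pow_succ, mul_apply, Fin.sum_univ_two] <;> grind

/-- Let X be a section of the general linear group GL(5, 2), that is, a quotient of a subgroup of it. If X is isomorphic to PSL(2, 2^n) for some n ≥ 2, to a Suzuki group over the field with 2^(2m+1) elements for some m ≥ 1, or to PSU(3, 2^n) for some n ≥ 2, then X is isomorphic to PSL(2, 4). -/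
theorem result {H : Subgroup (GL (Fin 5) (ZMod 2))}
    {K : Subgroup ↥H} [K.Normal]
    (hX : (∃ (n : ℕ) (F : Type) (_ : Field F) (_ : Fintype F), 2 ≤ n ∧ Fintype.card F = 2 ^ n ∧
        Nonempty (↥H ⧸ K ≃* Matrix.ProjectiveSpecialLinearGroup (Fin 2) F)) ∨
      (∃ (m : ℕ) (F : Type) (_ : Field F) (_ : Fintype F), 1 ≤ m ∧ Fintype.card F = 2 ^ (2 * m + 1) ∧
        Nonempty (↥H ⧸ K ≃* ↥(Cfsg.Lie.Sz F (2 ^ (m + 1))))) ∨
      (∃ (n : ℕ) (F : Type) (_ : Field F) (_ : Fintype F), 2 ≤ n ∧ Fintype.card F = 4 ^ n ∧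
        Nonempty (↥H ⧸ K ≃* Cfsg.PSU 3 F (2 ^ n)))) :
    ∃ (F : Type) (_ : Field F) (_ : Fintype F), Fintype.card F = 4 ∧
      Nonempty (↥H ⧸ K ≃* Matrix.ProjectiveSpecialLinearGroup (Fin 2) F) := by
  have d : Nat.card (H ⧸ K) ∣ 9999360 := (Subgroup.card_quotient_dvd_card K).trans
    ((Subgroup.card_subgroup_dvd_card H).trans (by rw [card_GL_field]; simp [Fin.prod_univ_succ]))
  have l := Nat.le_of_dvd (by norm_num) d
  rcases hX with ⟨n, F, _, _, hn, hF, ⟨e⟩⟩ | ⟨m, F, _, _, hm, hF, ⟨e⟩⟩ | ⟨n, F, _, _, hn, hF, ⟨e⟩⟩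
  · have h := Cfsg.Agent.S0243.result hF 2 le_rfl
    have q : 4 ≤ 2 ^ n := Nat.pow_le_pow_right two_pos hn
    rw [← Nat.card_congr e.toEquiv, Fin.prod_univ_two, mul_left_comm] at h
    simp only [Fin.val_zero, Fin.val_one, pow_zero, pow_one] at h
    rw [show (2 ^ n) ^ 2 - 2 ^ n = (2 ^ n - 1) * 2 ^ n by rw [Nat.sub_one_mul, sq], mul_left_comm _ (2 ^ n - 1)] at h
    have h := Nat.eq_of_mul_eq_mul_left (by omega) h
    have b : n < 25 := (Nat.pow_lt_pow_iff_right one_lt_two).1 (by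
      have := Nat.mul_le_mul (Nat.gcd_le_left (2 ^ n - 1) two_pos) l
      have := Nat.le_mul_of_pos_left (2 ^ n) (show 0 < (2 ^ n) ^ 2 - 1 by have := Nat.pow_le_pow_left q 2; omega)
      omega)
    have c := h ▸ Nat.mul_dvd_mul_left (Nat.gcd 2 (2 ^ n - 1)) d
    obtain rfl | rfl : n = 2 ∨ n = 3 := by interval_cases n <;> simp at c ⊢
    · exact ⟨F, _, _, hF, ⟨e⟩⟩
    obtain ⟨x, hx⟩ := ord9 hF
    obtain ⟨⟨g⟩, rfl⟩ := e.surjective x
    obtain ⟨k, hk⟩ : 9 ∣ orderOf g.1 := by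
      rw [Subgroup.orderOf_coe]; exact hx.symm.dvd.trans (orderOf_map_dvd (e.toMonoidHom.comp (QuotientGroup.mk' K)) g)
    have : g.1 ^ (k * 3) = 1 := Units.ext (by
      rw [pow_mul]; exact no9 _ (congrArg Units.val (show (g.1 ^ k) ^ 9 = 1 by rw [← pow_mul', ← hk, pow_orderOf_eq_one])))
    have := Nat.le_of_dvd (by have := orderOf_pos g.1; omega) (orderOf_dvd_of_pow_eq_one this)
    have := orderOf_pos g.1
    omega
  · rw [Nat.card_congr e.toEquiv, (Cfsg.Agent.S1163.result hm hF).1] at d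
    have b : 2 * m + 1 < 24 := (Nat.pow_lt_pow_iff_right one_lt_two).1 ((Nat.le_of_dvd (by norm_num)
      ((dvd_pow_self _ two_ne_zero).trans (((Dvd.intro _ rfl).mul_right _).trans d))).trans_lt (by norm_num))
    have : m < 12 := by omega
    interval_cases m <;> simp at d
  · have h := Cfsg.Agent.S0280.result (q := 2 ^ n) (hF.trans (by rw [← pow_mul, mul_comm, pow_mul]; norm_num)) 3 (by norm_num)
    have q : 4 ≤ 2 ^ n := Nat.pow_le_pow_right two_pos hn
    rw [← Nat.card_congr e.toEquiv, mul_left_comm] at h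
    simp only [Finset.prod_range_succ, Finset.prod_range_zero] at h
    norm_num at h
    rw [mul_assoc, mul_left_comm _ (2 ^ n + 1)] at h
    have h := Nat.eq_of_mul_eq_mul_left (by omega) h
    have b : n < 25 := (Nat.pow_lt_pow_iff_right one_lt_two).1 (by
      have := Nat.mul_le_mul (Nat.gcd_le_left (2 ^ n + 1) three_pos) l
      have := Nat.le_of_dvd (Nat.mul_pos (Nat.gcd_pos_of_pos_left _ three_pos) (Nat.pos_of_dvd_of_pos d (by norm_num)))
        ((dvd_pow_self _ three_ne_zero).trans (Dvd.intro _ h.symm))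
      omega)
    have c := h ▸ Nat.mul_dvd_mul_left (Nat.gcd 3 (2 ^ n + 1)) d
    interval_cases n <;> simp at c

end Cfsg.Agent.S3179
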