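import Cfsg.Statements.S3180
import Mathlib
import Cfsg.Agent.H1.SylowIn

set_option autoImplicit false
open Cfsg

namespace Cfsg.Agent.S3180

open scoped Pointwise

/-- Let P be a Sylow p-subgroup of a finite group J and P₁ a subgroup of P that is weakly closed in P with respect to J. If J acts on a set and two points, each fixed by every element of P₁, lie in one J-orbit, then they lie in one orbit of the normalizer of P₁ in J. -/
theorem result {J : Type*} [Group J] [Finite J]
    {p : ℕ} [Fact p.Prime] (P : Sylow p J) (P₁ : Subgroup J) (hW : Cfsg.IsWeaklyClosed P₁ (P : Subgroup J))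
    {Ω : Type*} [MulAction J Ω] (x y : Ω) (hx : ∀ g ∈ P₁, g • x = x) (hy : ∀ g ∈ P₁, g • y = y)
    (hc : ∃ g : J, g • x = y) :
    ∃ g ∈ Subgroup.normalizer (P₁ : Set J), g • x = y := by
  obtain ⟨g, rfl⟩ := hc
  have hp : IsPGroup p P₁ := P.isPGroup'.to_le hW.1
  set K := MulAction.stabilizer J (g • x)
  have h1 : P₁ ≤ K := hy
  have h2 : MulAut.conj g • P₁ ≤ K := by
    rintro _ ⟨u, hu, rfl⟩
    show (g * u * g⁻¹) • g • x = g • x
    rw [mul_smul, inv_smul_smul, mul_smul, hx u hu]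
  obtain ⟨Q, hQ, hQ1⟩ := H1.exists_isSylowIn_ge hp h1
  obtain ⟨k, hk, hk2⟩ := hQ.exists_conj_le (hp.map _) h2
  obtain ⟨j, -, hj⟩ := (H1.isSylowIn_top P).exists_conj_le hQ.isPGroup le_top
  have e1 : MulAut.conj j • P₁ = P₁ := hW.2 j ((Subgroup.pointwise_smul_le_pointwise_smul_iff.2 hQ1).trans hj)
  have hk3 : MulAut.conj k • MulAut.conj g • P₁ ≤ Q := hk2
  have e2 : MulAut.conj (j * (k * g)) • P₁ = P₁ := hW.2 _ (by
    have := (H1.conj_smul_le_conj_smul (g := j).2 hk3).trans hj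
    rwa [H1.conj_smul_conj_smul k, H1.conj_smul_conj_smul] at this)
  refine ⟨k * g, ?_, by rw [mul_smul]; exact hk⟩
  have m1 : j ∈ Subgroup.normalizer (P₁ : Set J) := H1.conj_smul_eq_self_iff.1 e1
  have m2 : j * (k * g) ∈ Subgroup.normalizer (P₁ : Set J) := H1.conj_smul_eq_self_iff.1 e2
  simpa [mul_assoc] using mul_mem (inv_mem m1) m2

end Cfsg.Agent.S3180
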