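import Cfsg.Statements.S3184
import Mathlib
import Cfsg.Agent.H8.Invol

set_option autoImplicit false
open Cfsg

namespace Cfsg.Agent.S3184

open scoped Pointwise

/-- Let G be a finite group in which the intersection of any two distinct Sylow 2-subgroups is contained in the centre of some Sylow 2-subgroup, and let S be a Sylow 2-subgroup. If C is a nontrivial cyclic characteristic subgroup of S, then the involution of C is central modulo the largest normal subgroup of odd order of G: each of its conjugates has the same image in G/O(G). -/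
theorem result {G : Type*} [Group G] [Finite G]
    (hCI : ∀ S T : Sylow 2 G, S ≠ T → ∃ U : Sylow 2 G,
      (S : Subgroup G) ⊓ (T : Subgroup G) ≤ (Subgroup.center ↥(U : Subgroup G)).map (U : Subgroup G).subtype)
    (S : Sylow 2 G) (C : Subgroup ↥(S : Subgroup G)) (hC : C ≠ ⊥) (hCc : IsCyclic ↥C) (hCh : C.Characteristic)
    (c : ↥(S : Subgroup G)) (hc : c ∈ C) (hc2 : orderOf c = 2) :
    ∀ g : G, (QuotientGroup.mk (s := Cfsg.oddCore G) (g * (c : G) * g⁻¹)) =
      QuotientGroup.mk (s := Cfsg.oddCore G) (c : G) := by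
  have c2 : c ^ 2 = 1 := orderOf_dvd_iff_pow_eq_one.1 hc2.dvd
  have c1 : c ≠ 1 := by rintro rfl; simp at hc2
  have hN : ∀ n ∈ Subgroup.normalizer (S : Set G), n * (c : G) * n⁻¹ = c := fun n hn => by
    let φ := (S : Subgroup G).normalizerMonoidHom ⟨n, hn⟩
    have h1 : φ c ∈ C := by
      rw [← (Subgroup.characteristic_iff_map_eq.1 hCh φ)]; exact ⟨c, hc, rfl⟩
    have := H8.eq_of_sq_of_isCyclic (G := C) (x := ⟨_, h1⟩) (y := ⟨c, hc⟩)
      (Subtype.ext (by simp [← map_pow, c2])) (Subtype.ext c2)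
      (fun e => c1 (by simpa using congrArg Subtype.val e)) fun e => c1 (congrArg Subtype.val e)
    exact congrArg (fun x : C => (x.1 : G)) this
  have hA := H8.conj_eq_of_mem_centralizer_sylow S hN
  have hB : ∀ (U : Sylow 2 G) (g h : G), g * c * g⁻¹ ∈ Subgroup.centralizer (U : Set G) →
      h * c * h⁻¹ ∈ Subgroup.centralizer (U : Set G) → g * c * g⁻¹ = h * c * h⁻¹ := by
    intro U g h h1 h2
    obtain ⟨x, rfl⟩ := MulAction.exists_smul_eq G S U
    have key : ∀ g : G, g * c * g⁻¹ ∈ Subgroup.centralizer ((x • S : Sylow 2 G) : Set G) →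
        g * c * g⁻¹ = x * c * x⁻¹ := fun g hg => by
      have := hA (x⁻¹ * g) fun s hs => by
        have := hg (x * s * x⁻¹) (Subgroup.smul_mem_pointwise_smul s (MulAut.conj x) _ hs)
        calc s * (x⁻¹ * g * c * (x⁻¹ * g)⁻¹) = x⁻¹ * (x * s * x⁻¹ * (g * c * g⁻¹)) * x := by group
          _ = _ := by rw [this]; group
      conv_rhs => rw [← this]
      group
    rw [key g h1, key h h2]
  have hcS : (c : G) ∈ Subgroup.centralizer (S : Set G) := fun s hs =>
    mul_inv_eq_iff_eq_mul.1 (hN s (Subgroup.le_normalizer (H := (S : Subgroup G)) hs))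
  have hiso : ∀ g : G, g * c * g⁻¹ ∈ (S : Subgroup G) → g * c * g⁻¹ = c := fun g hg => by
    set d := g * c * g⁻¹ with hd
    set K := Subgroup.centralizer ({d} : Set G)
    have hK : ((g • S : Sylow 2 G) : Subgroup G) ≤ K := by
      rintro _ ⟨s, hs, rfl⟩
      rw [Subgroup.mem_centralizer_singleton_iff]
      show g * s * g⁻¹ * d = d * (g * s * g⁻¹)
      calc g * s * g⁻¹ * d = g * (s * c) * g⁻¹ := by rw [hd]; group
        _ = _ := by rw [hcS s hs, hd]; group
    obtain ⟨P, hP, hle⟩ := H1.exists_isSylowIn_ge (p := 2) (K := K) (U := (S : Subgroup G) ⊓ K)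
      (S.2.to_inf_left) inf_le_right
    have hP' : H1.IsSylowIn 2 P ⊤ := ⟨le_top, hP.isPGroup, by
      rw [Subgroup.relIndex_top_right, ← Subgroup.relIndex_mul_index hP.le]
      exact Nat.prime_two.not_dvd_mul hP.not_dvd fun h =>
        (g • S).not_dvd_index (h.trans (Subgroup.index_dvd_of_le hK))⟩
    obtain ⟨T, rfl⟩ : ∃ T : Sylow 2 G, (T : Subgroup G) = P :=
      ⟨hP.isPGroup.toSylow (by simpa using hP'.not_dvd), rfl⟩
    by_cases hST : S = T
    · exact hA g fun s hs => Subgroup.mem_centralizer_singleton_iff.1 (hP.le (hST ▸ hs))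
    obtain ⟨U, hU⟩ := hCI S T hST
    have hz : ∀ x ∈ (S : Subgroup G) ⊓ K, x ∈ Subgroup.centralizer (U : Set G) := fun x hx => by
      obtain ⟨y, hy, rfl⟩ := hU ⟨hx.1, hle hx⟩
      intro u hu
      exact congrArg Subtype.val (Subgroup.mem_center_iff.1 hy ⟨u, hu⟩)
    simpa using hB U g 1 (hz _ ⟨hg, Subgroup.mem_centralizer_singleton_iff.2 rfl⟩)
      (by simpa using hz _ ⟨c.2, Subgroup.mem_centralizer_singleton_iff.2 (hcS d hg).symm⟩)
  intro g
  have := H9.zstar_sylow S (t := (c : G)) (by exact_mod_cast congrArg Subtype.val c2) hiso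
  rw [QuotientGroup.eq]
  have h1 := (inferInstance : (Cfsg.pPrimeCore 2 G).Normal).conj_mem _ (this g) (c : G)⁻¹
  convert h1 using 1
  group

end Cfsg.Agent.S3184
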