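import Cfsg.Statements.S3195
import Cfsg.Agent.H2.Ms3
import Cfsg.Agent.H1.Subnormal

set_option autoImplicit false
open Cfsg

namespace Cfsg.Agent.S3195

open Subgroup hiding upperCentralSeries
open H2 Cfsg.FusionSystem

open Subgroup H2 H7 H1B
theorem odd_cm {G : Type*} [Group G] {x : G} (h : (orderOf x).Prime) (h2 : orderOf x ≠ 2) {s : G}
    (c : Commute s (x * x)) : Commute s x := by
  haveI := orderOf_pos_iff.1 h.pos
  obtain ⟨k, e⟩ := (isOfFinOrder_iff_pow_eq_one.1 this)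
  have := (Nat.coprime_primes Nat.prime_two h).2 h2.symm
  obtain ⟨m, hm⟩ := exists_pow_eq_self_of_coprime this
  rw [← hm, pow_two]
  exact c.pow_right m
theorem not_cm {G : Type*} [Group G] {x u : G} (h : (orderOf x).Prime) (h2 : orderOf x ≠ 2)
    (e : u * x * u⁻¹ = x⁻¹) : ¬ Commute u x := fun c => by
  rw [c.eq, mul_inv_cancel_right, eq_inv_iff_mul_eq_one, ← pow_two, ← orderOf_dvd_iff_pow_eq_one] at e
  exact h2 ((Nat.prime_dvd_prime_iff_eq h Nat.prime_two).1 e)
theorem aux {G : Type*} [Group G] {u v x y : G} (c : Commute u v) (hx : (orderOf x).Prime) (x2 : orderOf x ≠ 2)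
    (hy : (orderOf y).Prime) (y2 : orderOf y ≠ 2) (e1 : u * x * u⁻¹ = x⁻¹) (c1 : Commute v x)
    (e2 : v * y * v⁻¹ = y⁻¹) (c2 : Commute u y)
    (h : ∀ a, a = v ∨ a = u * v → ∀ g : G, Commute u (g * a * g⁻¹) ∨ Commute v (g * a * g⁻¹) ∨
      Commute (u * v) (g * a * g⁻¹)) : False := by
  have f : ∀ {w z : G}, w * z * w⁻¹ = z⁻¹ → z * w * z⁻¹ = z * z * w ∧ z⁻¹ * w * z⁻¹⁻¹ = z⁻¹ * z⁻¹ * w :=
    fun {w z} e => ⟨by
      calc _ = z * (w * z * w⁻¹)⁻¹ * w := by group
        _ = _ := by rw [e, inv_inv], by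
      calc _ = z⁻¹ * (w * z * w⁻¹) * w := by group
        _ = _ := by rw [e]⟩
  have e3 : u * v * x * (u * v)⁻¹ = x⁻¹ := by
    rw [← e1, mul_assoc u, c1.eq]; group
  have e4 : u * v * y * (u * v)⁻¹ = y⁻¹ := by
    calc _ = u * (v * y * v⁻¹) * u⁻¹ := by group
      _ = _ := by rw [e2, c2.inv_right.eq, mul_inv_cancel_right]
  have h' : ∀ a, a = v ∨ a = u * v → ∀ g : G, Commute (g * u * g⁻¹) (y * a * y⁻¹) ∨
      Commute (g * v * g⁻¹) (y * a * y⁻¹) ∨ Commute (g * (u * v) * g⁻¹) (y * a * y⁻¹) := fun a ha g => by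
    have k : ∀ w, Commute w (g⁻¹ * y * a * (g⁻¹ * y)⁻¹) → Commute (g * w * g⁻¹) (y * a * y⁻¹) := fun w c => by
      convert c.conj g using 1; group
    exact (h a ha _).imp (k _) (Or.imp (k _) (k _))
  have t1 : Commute u (y * y * v) := (c2.mul_right c2).mul_right c
  have n1 : ¬ Commute v (y * y * v) := fun k =>
    not_cm hy y2 e2 (odd_cm hy y2 (by simpa using k.mul_right (Commute.refl v).inv_right))
  have k1 : Commute (y * y * v) x := by
    have a := h' v (.inl rfl) x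
    have b := h' v (.inl rfl) x⁻¹
    rw [(f e1).1, (f e2).1, (f e3).1, ← c1.eq, mul_inv_cancel_right] at a
    rw [(f e1).2, (f e2).1, (f e3).2, ← c1.inv_right.eq, mul_inv_cancel_right] at b
    rcases a with a | a | a
    · exact odd_cm hx x2 (by simpa using (a.mul_left t1.inv_left).symm)
    · exact (n1 a).elim
    rcases b with b | b | b
    · exact odd_cm hx x2 (by simpa using (b.mul_left t1.inv_left).inv_left.symm)
    · exact (n1 b).elim
    refine odd_cm hx x2 (odd_cm (x := x * x) ?_ ?_ (by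
      simpa [mul_assoc] using (a.mul_left b.inv_left).symm))
    all_goals rwa [← pow_two, ((Nat.coprime_primes hx Nat.prime_two).2 x2).orderOf_pow]
  have k2 : Commute x y := odd_cm hy y2 (by simpa using (k1.mul_left c1.inv_left).symm)
  have a := h' _ (.inr rfl) x
  have r : y * y * (u * v) = u * (y * y * v) := by rw [← mul_assoc, ← (c2.mul_right c2).eq, mul_assoc]
  rw [(f e1).1, (f e4).1, (f e3).1, ← c1.eq, mul_inv_cancel_right] at a
  refine not_cm hx x2 e1 ?_
  rcases a with a | a | a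
  · rw [r] at a
    have := odd_cm hx x2 (show Commute (u * (y * y * v)) (x * x) by
      simpa using (a.mul_left ((Commute.refl u).mul_right t1).inv_left).symm)
    simpa [mul_assoc] using this.mul_left k1.inv_left
  · rw [r] at a
    exact (n1 (by simpa [← mul_assoc] using c.symm.inv_right.mul_right a)).elim
  have q : x * x * (x * x) = y * y * (y * y) := by
    have k3 : Commute (x * x) (y * y) := (k2.mul_left k2).mul_right (k2.mul_left k2)
    have a1 : x * x * (u * v) * (y * y * (u * v)) = x * x * (y * y)⁻¹ * (u * v * (u * v)) := by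
      calc _ = x * x * ((u * v * y * (u * v)⁻¹) * (u * v * y * (u * v)⁻¹)) * (u * v * (u * v)) := by group
        _ = _ := by rw [e4]; group
    have a2 : y * y * (u * v) * (x * x * (u * v)) = y * y * (x * x)⁻¹ * (u * v * (u * v)) := by
      calc _ = y * y * ((u * v * x * (u * v)⁻¹) * (u * v * x * (u * v)⁻¹)) * (u * v * (u * v)) := by group
        _ = _ := by rw [e3]; group
    have a3 := mul_right_cancel (a1.symm.trans (a.eq.trans a2))
    calc _ = x * x * (y * y)⁻¹ * (y * y * (x * x)) := by group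
      _ = y * y * (x * x)⁻¹ * (x * x * (y * y)) := by rw [a3, k3.eq]
      _ = _ := by group
  refine odd_cm hx x2 (odd_cm (x := x * x) ?_ ?_ (q ▸ (c2.mul_right c2).mul_right (c2.mul_right c2)))
  all_goals rwa [← pow_two, ((Nat.coprime_primes hx Nat.prime_two).2 x2).orderOf_pow]

/-- Let A be a Klein four-subgroup of a finite group G. If every G-conjugate of every involution of A commutes with some involution of A (its centralizer meets A nontrivially), then A meets the largest normal 2-subgroup O₂(G) nontrivially. -/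
theorem result {G : Type*} [Group G] [Finite G]
    (A : Subgroup G) (hA : IsKleinFour ↥A)
    (h : ∀ a ∈ A, a ≠ 1 → ∀ g : G, A ⊓ Subgroup.centralizer ({g * a * g⁻¹} : Set G) ≠ ⊥) :
    A ⊓ Cfsg.pCore 2 G ≠ ⊥ := by
  intro hb
  have cA := isComm_iff'.1 (ea_of_klein hA).1
  have h' : ∀ a ∈ A, a ≠ 1 → ∀ g : G, ∃ v ∈ A, v ≠ 1 ∧ Commute v (g * a * g⁻¹) := fun a ha a1 g => by
    obtain ⟨v, hv, v1⟩ := exists_ne_one (h a ha a1 g)
    exact ⟨v, hv.1, v1, mem_cen1.1 hv.2⟩
  have k : ∀ u ∈ A, u ≠ 1 → ∃ x : G, (orderOf x).Prime ∧ orderOf x ≠ 2 ∧ u * x * u⁻¹ = x⁻¹ ∧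
      ∃ v ∈ A, v ≠ 1 ∧ Commute v x := fun u hu u1 => by
    obtain ⟨x, a, b, c⟩ := H1.exists_inverted_of_not_mem_pCore (klein_sq hA hu) fun m => u1 (mem_bot.1 (hb.le ⟨hu, m⟩))
    obtain ⟨v, hv, v1, e⟩ := h' u hu u1 x
    refine ⟨x, a, b, c, v, hv, v1, odd_cm a b ?_⟩
    rw [show x * x = x * u * x⁻¹ * u⁻¹ by
      calc _ = x * (u * x * u⁻¹)⁻¹ := by rw [c, inv_inv]
        _ = _ := by group]
    exact e.mul_right (Commute.inv_right (cA v hv u hu))
  have th : ∀ u ∈ A, ∀ v ∈ A, ∀ w ∈ A, u ≠ 1 → v ≠ 1 → w ≠ 1 → u ≠ v → w ≠ u → w ≠ v → w = u * v :=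
    fun u hu v hv w hw a b c d e f => congrArg Subtype.val (IsKleinFour.eq_mul_of_ne_all (G := A) (x := ⟨u, hu⟩)
      (y := ⟨v, hv⟩) (z := ⟨w, hw⟩) (by simpa using a) (by simpa using b) (by simpa using d) (by simpa using c)
      (by simpa using e) (by simpa using f))
  obtain ⟨u, hu, u1⟩ := exists_ne_one (show A ≠ ⊥ by rintro rfl; simpa using hA.card_four)
  obtain ⟨x, x1, x2, e1, v, hv, v1, c1⟩ := k u hu u1
  obtain ⟨y, y1, y2, e2, w, hw, w1, c2⟩ := k v hv v1
  have n : w ≠ v := fun e => not_cm y1 y2 e2 (e ▸ c2)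
  have e3 : w * x * w⁻¹ = x⁻¹ := by
    by_cases e : w = u
    · rwa [e]
    rw [th u hu v hv w hw u1 v1 w1 (fun e => not_cm x1 x2 e1 (e ▸ c1)) e n, ← e1, mul_assoc u, c1.eq]; group
  refine aux (cA w hw v hv) x1 x2 y1 y2 e3 c1 e2 c2 fun a ha g => ?_
  obtain ⟨s, hs, s1, c⟩ := h' a (ha.elim (· ▸ hv) (· ▸ mul_mem hw hv)) (ha.elim (· ▸ v1) fun e e' => n
    (mul_right_cancel ((e.symm.trans e').trans (klein_sq hA hv).symm))) g
  by_cases e : s = w
  · exact .inl (e ▸ c)
  by_cases e' : s = v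
  · exact .inr (.inl (e' ▸ c))
  exact .inr (.inr (th w hw v hv s hs w1 v1 s1 n e e' ▸ c))

end Cfsg.Agent.S3195
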