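import Cfsg.Statements.S3196
import Cfsg.Agent.H2.Ms3
import Cfsg.Agent.H1.Subnormal

set_option autoImplicit false
open Cfsg

namespace Cfsg.Agent.S3196

open Subgroup hiding upperCentralSeries
open H2 Cfsg.FusionSystem

open Subgroup H2 H7 H1B
open scoped commutatorElement
theorem aux {G : Type*} [Group G] (P : G → Prop) (cj : ∀ x g, P x → P (g * x * g⁻¹))
    (gen : ∀ x, P x → ∀ a ∈ zpowers x, a ≠ 1 → P a ∧ ∀ s, Commute a s → Commute x s)
    (ln : ∀ x y, P x → P y → Commute x y → y ∉ zpowers x → ∀ a ∈ zpowers x, ∀ b ∈ zpowers y, a * b ≠ 1 → P (a * b))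
    (L : ∀ x y t, P x → P y → Commute x y → y ∉ zpowers x → P t → ¬ Commute y t →
      ∃ a ∈ zpowers x, ∃ b ∈ zpowers y, a ≠ 1 ∧ P (a * b) ∧ Commute (a * b) t)
    (one : ¬ P 1) (h : ∀ v, P v → ∃ t, P t ∧ ¬ Commute v t) {x0 y0 : G} (h1 : P x0) (h2 : P y0)
    (c0 : Commute y0 x0) (m0 : x0 ∉ zpowers y0) : False := by
  have nm : ∀ {x y s : G}, P x → P y → Commute y s → ¬ Commute x s → y ∉ zpowers x :=
    fun px py c n m => n ((gen _ px _ m fun e => one (e ▸ py)).2 _ c)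
  have zc : ∀ {x a s : G}, a ∈ zpowers x → Commute x s → Commute a s := by
    rintro x _ s ⟨k, rfl⟩ c; exact c.zpow_left k
  have nc : ∀ {x w y a b a' b' : G}, P x → P w → Commute y x → Commute y w → ¬ Commute x w → a ∈ zpowers x →
      a ≠ 1 → a' ∈ zpowers w → a' ≠ 1 → b ∈ zpowers y → b' ∈ zpowers y → ¬ Commute (a * b) (a' * b') :=
    fun hx hw c1 c2 n ha a1 ha' a2 hb hb' c => by
      have k1 := (zc ha' (zc hb c2).symm).symm.mul_right (zc hb' (zc hb (.refl _)).symm).symm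
      have k0 := c.mul_left k1.inv_left
      rw [mul_inv_cancel_right] at k0
      have k2 := k0.mul_right (zc ha (zc hb' c1).symm).inv_right
      rw [mul_inv_cancel_right] at k2
      exact n ((gen _ hw _ ha' a2).2 _ ((gen _ hx _ ha a1).2 _ k2).symm).symm
  obtain ⟨w0, h3, n0⟩ := h x0 h1
  obtain ⟨a, ha, b, hb, -, py, c1⟩ := L y0 x0 w0 h2 h1 c0 m0 h3 n0
  have c2 := (zc ha c0).mul_left (zc hb (.refl _))
  generalize a * b = y at py c1 c2
  obtain ⟨u0, pu, n1⟩ := h y py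
  obtain ⟨a1, ha1, b1, hb1, o1, px, d1⟩ := L x0 y u0 h1 py c2.symm (nm h1 py c1 n0) pu n1
  obtain ⟨a2, ha2, b2, hb2, o2, pw, d2⟩ := L w0 y u0 h3 py c1.symm (nm h3 py c2 fun c => n0 c.symm) pu n1
  have n2 := nc h1 h3 c2 c1 n0 ha1 o1 ha2 o2 hb1 hb2
  have d3 := (zc ha1 c2.symm).mul_left (zc hb1 (.refl _))
  have d4 := (zc ha2 c1.symm).mul_left (zc hb2 (.refl _))
  generalize a1 * b1 = x at px d1 n2 d3
  generalize a2 * b2 = w1 at pw d2 n2 d4
  have n3 : ¬ Commute w1 (x * y) := fun c => n2 (by simpa using (c.mul_right d4.inv_right).symm)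
  obtain ⟨u, hu, w, hw, u1, -, e⟩ := L u0 w1 (x * y) pu pw d2.symm (nm pu pw d4 fun c => n1 c.symm) (ln x y px py d3 (fun m => n1 (zc m d1)) x
    (mem_zpowers x) y (mem_zpowers y) fun e => n3 (e ▸ .one_right _)) n3
  have xu := (zc hu d1.symm).symm
  have w' : w ≠ 1 := fun e' => n1 ((gen _ pu _ hu u1).2 _ (by
    simpa [e'] using xu.symm.inv_right.mul_right (show Commute u (x * y) by simpa [e'] using e))).symm
  obtain ⟨pw', g⟩ := gen _ pw _ hw w'
  have n4 : ¬ Commute x w := fun c => n2 (g _ c.symm).symm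
  have wy := zc hw d4
  have wu := zc hw (zc hu d2.symm).symm
  have k : ∀ s, Commute s y → Commute s u → Commute s ⁅u, y⁆ := fun s a b =>
    ((b.mul_right a).mul_right b.inv_right).mul_right a.inv_right
  have e1 : ⁅x, w⁆ = ⁅u, y⁆ := by
    have : x * w * (y * u) = w * x * (u * y) := by
      calc _ = x * y * (u * w) := by rw [mul_assoc, (wy.mul_right wu).eq]; group
        _ = u * (w * x) * y := by rw [← e.eq]; group
        _ = _ := by rw [← (wu.mul_left xu).eq, mul_assoc]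
    calc _ = x * w * (y * u) * (u⁻¹ * y⁻¹) * (w * x)⁻¹ := by rw [commutatorElement_def]; group
      _ = w * x * ⁅u, y⁆ * (w * x)⁻¹ := by rw [this, commutatorElement_def]; group
      _ = _ := by rw [((k w wy wu).mul_left (k x d3 xu)).eq, mul_inv_cancel_right]
  have cx := e1 ▸ k x d3 xu
  have cw := e1 ▸ k w wy wu
  have c1 : ⁅x, w⁆ ≠ 1 := fun e => n4 (commutatorElement_eq_one_iff_commute.1 e)
  have pc : P ⁅x, w⁆ := by
    have e2 : w * x * w⁻¹ = ⁅x, w⁆⁻¹ * x := by rw [commutatorElement_def]; group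
    have := ln x _ px (cj x w px) (e2 ▸ cx.inv_right.mul_right (.refl x)) (fun m => n4 ((gen _ px _
      (mul_mem (mem_zpowers x) (inv_mem m)) (by simpa [commutatorElement_def, mul_assoc] using c1)).2 _
        (by simpa [commutatorElement_def, mul_assoc] using cw.symm))) x (mem_zpowers x) _ (inv_mem (mem_zpowers _))
      (by simpa [commutatorElement_def, mul_assoc] using c1)
    simpa [commutatorElement_def, mul_assoc] using this
  obtain ⟨t, pt, n5⟩ := h _ pc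
  obtain ⟨a3, ha3, b3, hb3, o3, -, d5⟩ := L x _ t px pc cx (nm px pc cw.symm n4) pt n5
  obtain ⟨a4, ha4, b4, hb4, o4, -, d6⟩ := L w _ t pw' pc cw (nm pw' pc cx.symm fun c => n4 c.symm) pt n5
  have m : ∀ {s : G}, Commute s ⁅x, w⁆ → zpowers s ≤ cen (zpowers ⁅x, w⁆) := fun c => by
    rw [cen_zpowers, zpowers_le]; exact mem_cen1.2 c
  have l : ⁅zpowers x ⊔ zpowers ⁅x, w⁆, zpowers w ⊔ zpowers ⁅x, w⁆⁆ ≤ zpowers ⁅x, w⁆ :=
    comm_sup_le (le_nrm_of_le_cen (m cx)) (le_nrm_self _) (comm_sup_le' (le_nrm_of_le_cen (m cw)) (le_nrm_self _)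
      (comm_zp_zp_le (zpowers_le.1 (le_nrm_of_le_cen (m cx))) (zpowers_le.1 (le_nrm_of_le_cen (m cw)))
        (mem_zpowers _)) (comm_le_right (le_nrm_of_le_cen (m cx))))
      (comm_le_left (sup_le (le_nrm_of_le_cen (m cw)) (le_nrm_self _)))
  exact n5 ((gen _ pc _ (l (commutator_mem_commutator (mul_mem_sup ha3 hb3) (mul_mem_sup ha4 hb4)))
    fun e => nc px pw' cx.symm cw.symm n4 ha3 o3 ha4 o4 hb3 hb4 (commutatorElement_eq_one_iff_commute.1 e)).2 _
      (((d5.mul_left d6).mul_left d5.inv_left).mul_left d6.inv_left))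

/-- Let p be a prime and K a set of subgroups of order p of a finite group G, closed under conjugation, such that at least two distinct members of K commute elementwise, and whenever two distinct members X, Y of K commute: every subgroup of order p of the group XY they generate belongs to K, and every member W of K has centralizer meeting XY nontrivially. Then some member V of K commutes elementwise with every member of K and lies in O_p(G); in particular G is not simple. -/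
theorem result {G : Type*} [Group G] [Finite G]
    {p : ℕ} (hp : p.Prime) (K : Set (Subgroup G)) (hK : ∀ X ∈ K, Nat.card ↥X = p)
    (hKc : ∀ X ∈ K, ∀ g : G, X.map (MulAut.conj g).toMonoidHom ∈ K)
    (hex : ∃ X ∈ K, ∃ Y ∈ K, X ≠ Y ∧ ∀ x ∈ X, ∀ y ∈ Y, x * y = y * x)
    (ha : ∀ X ∈ K, ∀ Y ∈ K, X ≠ Y → (∀ x ∈ X, ∀ y ∈ Y, x * y = y * x) →
      ∀ Z : Subgroup G, Z ≤ X ⊔ Y → Nat.card ↥Z = p → Z ∈ K)
    (hb : ∀ X ∈ K, ∀ Y ∈ K, X ≠ Y → (∀ x ∈ X, ∀ y ∈ Y, x * y = y * x) →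
      ∀ W ∈ K, (X ⊔ Y) ⊓ Subgroup.centralizer (W : Set G) ≠ ⊥) :
    (∃ V ∈ K, (∀ W ∈ K, ∀ v ∈ V, ∀ w ∈ W, v * w = w * v) ∧ V ≤ Cfsg.pCore p G) ∧ ¬ IsSimpleGroup G := by
  haveI := Fact.mk hp
  obtain ⟨X, hX, Y, hY, ne, cm⟩ := hex
  have ex : ∀ X ∈ K, ∃ x, (x ≠ 1 ∧ zpowers x ∈ K) ∧ X = zpowers x := fun X hX => by
    obtain ⟨x, hx, x1⟩ := exists_ne_one (ne_bot_of_card_p (hK X hX))
    have e := eq_zpowers_of_card (hK X hX) hx x1
    exact ⟨x, ⟨x1, e ▸ hX⟩, e⟩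
  have zc : ∀ {x y : G}, Commute x y → ∀ a ∈ zpowers x, ∀ b ∈ zpowers y, a * b = b * a := by
    rintro x y c _ ⟨i, rfl⟩ _ ⟨j, rfl⟩; exact c.zpow_zpow i j
  have ln : ∀ x y : G, (x ≠ 1 ∧ zpowers x ∈ K) → (y ≠ 1 ∧ zpowers y ∈ K) → Commute x y → y ∉ zpowers x →
      ∀ a ∈ zpowers x, ∀ b ∈ zpowers y, a * b ≠ 1 → a * b ≠ 1 ∧ zpowers (a * b) ∈ K :=
    fun x y hx hy c n a h1 b h2 e => ⟨e, ha _ hx.2 _ hy.2 (fun e => n (e.ge (mem_zpowers y))) (zc c) _
      (zpowers_le.2 (mul_mem_sup h1 h2)) ((Nat.card_zpowers _).trans (orderOf_eq_prime (by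
        rw [Commute.mul_pow (zc c a h1 b h2), (H7.ea_of_card_p (p := p) (hK _ hx.2)).pow h1, (H7.ea_of_card_p (p := p) (hK _ hy.2)).pow h2,
          one_mul]) e))⟩
  have gen : ∀ x : G, (x ≠ 1 ∧ zpowers x ∈ K) → ∀ a ∈ zpowers x, a ≠ 1 → (a ≠ 1 ∧ zpowers a ∈ K) ∧
      ∀ s, Commute a s → Commute x s := fun x hx a h1 a1 => by
    have e := eq_zpowers_of_card (hK _ hx.2) h1 a1
    exact ⟨⟨a1, e ▸ hx.2⟩, fun s c => zc c x (e.le (mem_zpowers x)) s (mem_zpowers s)⟩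
  obtain ⟨v, pv, hv⟩ : ∃ v : G, (v ≠ 1 ∧ zpowers v ∈ K) ∧ ∀ t : G, (t ≠ 1 ∧ zpowers t ∈ K) → Commute v t := by
    by_contra c
    push Not at c
    obtain ⟨x, px, rfl⟩ := ex X hX
    obtain ⟨y, py, rfl⟩ := ex Y hY
    refine aux _ (fun x g h => ⟨by simpa using h.1, H7.cj_zpowers g x ▸ hKc _ h.2 g⟩) gen ln
      (fun x y t px py c e pt n => ?_) (fun h => h.1 rfl) (fun v h => (c v h).imp fun t h => h)
      px py (cm x (mem_zpowers x) y (mem_zpowers y)).symm fun m =>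
        ne (eq_zpowers_of_card (hK _ py.2) m px.1).symm
    obtain ⟨s, hs, s1⟩ := exists_ne_one (hb _ px.2 _ py.2 (fun e' => e (e'.ge (mem_zpowers y))) (zc c) _ pt.2)
    obtain ⟨a, h1, b, h2, rfl⟩ := (H2.mem_sup_of_le_normalizer (le_nrm_of_le_cen (le_cen_iff.2 (zc c)))).1 hs.1
    have k : Commute (a * b) t := (mem_cen.1 hs.2 t (mem_zpowers t)).symm
    refine ⟨a, h1, b, h2, ?_, ln x y px py c e a h1 b h2 s1, k⟩
    rintro rfl
    rw [one_mul] at k s1
    exact n ((gen y py b h2 s1).2 t k)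
  have k : ∀ W ∈ K, ∀ a ∈ zpowers v, ∀ w ∈ W, a * w = w * a := fun W hW => by
    obtain ⟨w, pw, rfl⟩ := ex W hW
    exact zc (hv w pw)
  have l : zpowers v ≤ pCore p G := H1.baer_suzuki_top fun g => IsPGroup.to_sup_of_normal_right'
    (pgroup_of_card_p (hK _ pv.2)) (pgroup_of_card_p (hK _ (hKc _ pv.2 g)))
    (le_nrm_of_le_cen (le_cen_iff.2 (k _ (hKc _ pv.2 g))))
  refine ⟨⟨_, pv.2, k, l⟩, fun s => ne ?_⟩
  have t : pCore p G = ⊤ := (s.eq_bot_or_eq_top_of_normal _ inferInstance).resolve_left fun e =>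
    pv.1 (mem_bot.1 ((l.trans e.le) (mem_zpowers v)))
  have pG : IsPGroup p (⊤ : Subgroup G) := by rw [← t, H7.pCore_eq p]; exact isPGroup_Op p ⊤
  haveI := (pG.of_equiv topEquiv).isNilpotent
  haveI : IsCyclic (⊤ : Subgroup G) := inferInstance
  exact eq_of_cyc this le_top le_top ((hK X hX).trans (hK Y hY).symm)

end Cfsg.Agent.S3196
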