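import Cfsg.Statements.S3200
import Cfsg.Agent.H2.Ms3
import Cfsg.Agent.H1.Kaz

set_option autoImplicit false
open Cfsg

namespace Cfsg.Agent.S3200

open Subgroup hiding upperCentralSeries
open H2 Cfsg.FusionSystem

open Subgroup H2 H7 H1B

/-- Let H be a finite group in which a Sylow 2-subgroup has an abelian complement (an abelian subgroup meeting it trivially whose product with it is all of H). Then H is solvable, and every subgroup and every quotient group of H again has a Sylow 2-subgroup with an abelian complement. -/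
theorem result {H : Type*} [Group H] [Finite H]
    (S : Sylow 2 H) (C : Subgroup H) (hC : IsMulCommutative ↥C) (hSC : Subgroup.IsComplement' (S : Subgroup H) C) :
    Group.IsSolvable H ∧
    (∀ L : Subgroup H, ∃ (P : Sylow 2 ↥L) (D : Subgroup ↥L), IsMulCommutative ↥D ∧ Subgroup.IsComplement' (P : Subgroup ↥L) D) ∧
    (∀ (N : Subgroup H) [N.Normal], ∃ (P : Sylow 2 (H ⧸ N)) (D : Subgroup (H ⧸ N)),
      IsMulCommutative ↥D ∧ Subgroup.IsComplement' (P : Subgroup (H ⧸ N)) D) := by
  obtain ⟨k, hk⟩ := S.2.exists_card_eq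
  have i := hSC.index_eq_card.trans hk
  have l : C ≤ Osol ⊤ := fun c hc => by
    obtain ⟨j, -, e⟩ := (Nat.dvd_prime_pow Nat.prime_two).1 (i ▸ index_dvd_of_le
      ((isComm_iff.1 hC).trans (cen_le_cen1 hc)))
    exact le_Osol le_top (le_nrm_of_normal _ _) (kazarin Nat.prime_two e) (subset_normalClosure rfl)
  have s : Group.IsSolvable (⊤ : Subgroup H) := solv_of_piN_relIndex (p := 2) le_top (le_nrm_Osol ⊤) (solv_Osol ⊤)
    ((piN_pow k).dvd (by rw [relIndex_top_right, ← i]; exact index_dvd_of_le l))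
  have h : Hall {2}ᶜ C ⊤ := ⟨le_top, piN_compl_iff'.2 (hSC.symm.index_eq_card ▸ S.not_dvd_index), by
    rw [compl_compl, relIndex_top_right, i]; exact piN_pow k⟩
  have f : ∀ {K : Type _} [Group K] [Finite K] (D : Subgroup K), Hall {2}ᶜ D ⊤ → IsMulCommutative D →
      ∃ (P : Sylow 2 K) (D : Subgroup K), IsMulCommutative D ∧ IsComplement' (P : Subgroup K) D := by
    intro K _ _ D h c
    obtain ⟨P⟩ : Nonempty (Sylow 2 K) := inferInstance
    have t := hall_single.2 (sylow_isSylowIn_top P)
    exact ⟨P, D, c, isComplement'_of_card_mul_and_disjoint ((t.card_mul h).trans card_top)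
      (disjoint_iff.2 (t.inf_eq_bot h.pi))⟩
  refine ⟨Group.isSolvable_of_surjective (f := (topEquiv (G := H)).toMonoidHom) topEquiv.surjective, fun L => ?_, fun N _ => ?_⟩
  · obtain ⟨D, hD⟩ := exists_hall {2}ᶜ (solv_of_le le_top s : Group.IsSolvable L)
    obtain ⟨g, -, e⟩ := h.conj_le s le_top hD.pi
    have c : IsMulCommutative D := isComm_of_le (isComm_cj.2 hC) (H7.cj_le_iff.1 e)
    refine f (D.subgroupOf L) ⟨le_top, ?_, by rw [relIndex_top_right]; exact hD.idx⟩ inferInstance
    rw [Nat.card_congr (subgroupOfEquivOfLe hD.le).toEquiv]; exact hD.pi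
  · refine f (C.map (QuotientGroup.mk' N)) ⟨le_top, h.pi.dvd (card_map_dvd _ _), h.idx.dvd ?_⟩ inferInstance
    rw [relIndex_top_right, relIndex_top_right]
    exact index_map_dvd _ (QuotientGroup.mk'_surjective N)

end Cfsg.Agent.S3200
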