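import Cfsg.Statements.S3201
import Cfsg.Agent.H2.Ms3

set_option autoImplicit false
open Cfsg

namespace Cfsg.Agent.S3201

open Subgroup hiding upperCentralSeries
open H2 Cfsg.FusionSystem

open Subgroup H2 H7 H1B
open scoped commutatorElement

/-- Let S be a finite 2-group whose centre Z(S) has n ≥ 2 distinct maximal subgroups C₁, …, Cₙ with trivial intersection such that each quotient S/Cᵢ is a non-abelian group with exactly one involution (a generalized quaternion group). Then S is the internal direct product of an elementary abelian subgroup and a non-abelian subgroup with exactly one involution. -/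
theorem result {S : Type*} [Group S] [Finite S]
    (hS : IsPGroup 2 S) (n : ℕ) (hn : 2 ≤ n) (C : Fin n → Subgroup ↥(Subgroup.center S))
    (hCmax : ∀ i, IsCoatom (C i)) (hCinj : Function.Injective C) (hCint : ⨅ i, C i = ⊥)
    (hCq : ∀ i, ∃ (_ : ((C i).map (Subgroup.center S).subtype).Normal),
      ¬ IsMulCommutative (S ⧸ (C i).map (Subgroup.center S).subtype) ∧
      ∃! x : S ⧸ (C i).map (Subgroup.center S).subtype, orderOf x = 2) :
    ∃ E Q : Subgroup S, Cfsg.IsInternalDirectProduct E Q ⊤ ∧ Cfsg.IsElementaryAbelian 2 E ∧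
      ¬ IsMulCommutative ↥Q ∧ ∃! x : ↥Q, orderOf x = 2 := by
  have i0 : Fin n := ⟨0, by omega⟩
  have pZ := hS.to_subgroup (center S)
  have ix : ∀ i, (C i).index = 2 := fun i => by
    obtain ⟨B, a, -, b, -⟩ := exists_index_p (pZ.to_subgroup ⊤) (lt_top_iff_ne_top.2 (hCmax i).1)
    rw [relIndex_top_right] at b
    rwa [← ((hCmax i).le_iff.1 a).resolve_left fun e => by simp [e] at b]
  have zz : ∀ x ∈ center S, ∀ y ∈ center S, (∀ i, x ∈ (C i).map (center S).subtype ↔
      y ∈ (C i).map (center S).subtype) → x * y = 1 := fun x hx y hy h =>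
    congrArg Subtype.val (mem_bot.1 (hCint.le (show (⟨x, hx⟩ * ⟨y, hy⟩ : center S) ∈ _ from
      mem_iInf.2 fun i => (mul_mem_iff_of_index_two (ix i)).2
        ((mem_map_iff_mem (center S).subtype_injective (x := ⟨x, hx⟩)).symm.trans ((h i).trans
          (mem_map_iff_mem (center S).subtype_injective (x := ⟨y, hy⟩)))))))
  have z2 : ∀ x ∈ center S, x * x = 1 := fun x hx => zz x hx x hx fun _ => Iff.rfl
  have ew : ∀ i, ∃ w ∈ center S, w ∉ (C i).map (center S).subtype := fun i => by
    obtain ⟨w, hw⟩ := SetLike.exists_of_lt (lt_top_iff_ne_top.2 (hCmax i).1)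
    exact ⟨w, w.2, fun e => hw.2 ((mem_map_iff_mem (center S).subtype_injective).1 e)⟩
  have sq : ∀ x, x ∉ center S → x * x ∈ center S → ∀ i, x * x ∉ (C i).map (center S).subtype :=
    fun x hx h i m => by
      obtain ⟨_, -, z, -, hz⟩ := hCq i
      obtain ⟨w, hw, w1⟩ := ew i
      have k : ∀ y : S, y ∉ (C i).map (center S).subtype → y * y ∈ (C i).map (center S).subtype →
          (y : S ⧸ (C i).map (center S).subtype) = z := fun y a b => hz _ (orderOf_eq_prime (by
        rw [pow_two, ← QuotientGroup.mk_mul]; exact (QuotientGroup.eq_one_iff _).2 b)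
          fun e => a ((QuotientGroup.eq_one_iff _).1 e))
      have := QuotientGroup.eq.1 ((k w w1 (by rw [z2 w hw]; exact one_mem _)).trans
          (k x (fun e => hx (map_subtype_le _ e)) m).symm)
      exact hx ((mul_mem_cancel_left (inv_mem hw)).1 (map_subtype_le _ this))
  obtain ⟨_, hc, hu⟩ := hCq i0
  replace zz : ∀ x y, x ∉ center S ∧ x * x ∈ center S → y ∉ center S ∧ y * y ∈ center S → x * x = y * y :=
    fun x y a c => mul_right_cancel ((zz _ a.2 _ c.2 fun i => iff_of_false (sq x a.1 a.2 i) (sq y c.1 c.2 i)).trans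
      (z2 _ c.2).symm)
  have l := map_subtype_le (C i0)
  obtain ⟨w, hw, w1⟩ := ew i0
  generalize (C i0).map (center S).subtype = D at *
  obtain ⟨a, b, m, h, hb, k, s, -⟩ := quat_gens hS D hc hu
  have wz : (w : S ⧸ D) = a ^ 2 ^ (m + 1) := (h.eq_of_sq (by
    by_contra c
    exact h.z_ne ((k _ c).symm.trans (by rw [← QuotientGroup.mk_mul, z2 w hw]; rfl))) (by
      rw [← QuotientGroup.mk_mul, z2 w hw]; rfl)).resolve_left fun e => w1 ((QuotientGroup.eq_one_iff _).1 e)
  have pr : ∀ x : S, (x : S ⧸ D) * x = a ^ 2 ^ (m + 1) → x ∉ center S ∧ x * x ∈ center S := fun x e =>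
    ⟨fun c => h.z_ne (by rw [← e, ← QuotientGroup.mk_mul, z2 x c]; rfl),
      (mul_mem_cancel_left (inv_mem hw)).1 (l (QuotientGroup.eq.1 (wz.trans e.symm)))⟩
  have p1 := pr b (k _ hb)
  have p2 := pr (a ^ 2 ^ m) (by rw [QuotientGroup.mk_pow, MX.u_sq])
  have e1 := zz _ _ p1 p2
  have e2 := zz _ _ (pr (a * b) (k _ (h.mul_out trivial hb (mem_zpowers _)))) p1
  have nb : b ∈ nrm (zpowers a) := mem_nrm_of_cj_le (by
    rw [H7.cj_zpowers, zpowers_le, show b * a * b⁻¹ = a⁻¹ by
      calc _ = a⁻¹ * (a * b * (a * b)) * b⁻¹ * b⁻¹ := by group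
        _ = _ := by
          rw [e2, mul_assoc a⁻¹, mul_inv_cancel_right, mul_inv_cancel_right]]
    exact inv_mem (mem_zpowers a))
  have c1 := card_sup_zp nb (e1 ▸ mul_mem (npow_mem_zpowers _ _) (npow_mem_zpowers _ _)) fun e => hb (by
    obtain ⟨j, rfl⟩ := e; exact ⟨j, by simp⟩)
  have oa : orderOf a ≤ 2 ^ (m + 2) := orderOf_le_of_pow_eq_one (by positivity) (by
    rw [← z2 _ p2.2, ← pow_add, ← pow_add]; congr 1; ring)
  have c2 := H7.card_sup_mul_card_inf (le_nrm_of_normal (zpowers a ⊔ zpowers b) D)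
  rw [s, c1, card_top, Nat.card_zpowers, card_eq_card_quotient_mul_card_subgroup D, ← card_top (G := S ⧸ D),
    h.card, mul_right_comm] at c2
  have i : (zpowers a ⊔ zpowers b) ⊓ D = ⊥ := eq_bot_of_card_le _ (by
    have := Nat.eq_of_mul_eq_mul_right Nat.card_pos c2
    refine Nat.le_of_mul_le_mul_left (c := 2 ^ (m + 3)) ?_ (by positivity)
    rw [this, pow_succ]; omega)
  let e := MulEquiv.ofBijective ((QuotientGroup.mk' D).comp (zpowers a ⊔ zpowers b).subtype) ⟨
    (injective_iff_map_eq_one _).2 fun x hx => Subtype.ext (mem_bot.1 (i.le ⟨x.2, (QuotientGroup.eq_one_iff _).1 hx⟩)),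
    MonoidHom.range_eq_top.1 (by
      rw [MonoidHom.range_comp, range_subtype, Subgroup.map_sup, MonoidHom.map_zpowers, MonoidHom.map_zpowers]
      exact h.eq_sup trivial hb)⟩
  refine ⟨D, zpowers a ⊔ zpowers b, ⟨le_top, le_top, fun x hx y _ => (mem_center_iff.1 (l hx) y).symm,
    (inf_comm _ _).trans i, (sup_comm _ _).trans s⟩, ⟨isComm_of_le inferInstance l, fun x hx =>
      (pow_two x).trans (z2 x (l hx))⟩, fun c => hc ⟨⟨fun x y => ?_⟩⟩,
    (e.toEquiv.existsUnique_congr fun x => by rw [← e.orderOf_eq]; rfl).2 hu⟩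
  obtain ⟨x, rfl⟩ := e.surjective x
  obtain ⟨y, rfl⟩ := e.surjective y
  rw [← map_mul, ← map_mul, c.1.1 x y]

end Cfsg.Agent.S3201
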