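import Cfsg.Statements.S3202
import Cfsg.Agent.H2.Ms3

set_option autoImplicit false
open Cfsg

namespace Cfsg.Agent.S3202

open Subgroup hiding upperCentralSeries
open H2 Cfsg.FusionSystem

open Subgroup H2 H7 H1B
open scoped commutatorElement

/-- Let S be a finite 2-group of 2-rank exactly 2 and D a maximal subgroup of the centre of S such that S/D is a non-abelian group with exactly one involution (a generalized quaternion group). Then S has a nontrivial cyclic characteristic subgroup. -/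
theorem result {S : Type*} [Group S]
    [Finite S] (hS : IsPGroup 2 S) (hr2 : Cfsg.PRankLE 2 2 S) (hr1 : ¬ Cfsg.PRankLE 2 1 S)
    (D : Subgroup ↥(Subgroup.center S)) (hD : IsCoatom D)
    (hq : ∃ (_ : (D.map (Subgroup.center S).subtype).Normal),
      ¬ IsMulCommutative (S ⧸ D.map (Subgroup.center S).subtype) ∧
      ∃! x : S ⧸ D.map (Subgroup.center S).subtype, orderOf x = 2) :
    ∃ C : Subgroup S, C ≠ ⊥ ∧ IsCyclic ↥C ∧ C.Characteristic := by
  obtain ⟨_, hc, hu⟩ := hq
  have l := map_subtype_le D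
  generalize D.map (center S).subtype = C at *
  obtain ⟨a, b, n, -, -, -, s, d, hd, e⟩ := quat_gens hS C hc hu
  have c := mem_center_iff.1 (l hd)
  have cC : ∀ X : Subgroup S, C ≤ cen X := fun X => l.trans (cen_top.ge.trans (cen_anti le_top))
  have e1 : ⁅b, a⁆ = a⁻¹ * a⁻¹ * d := by rw [commutatorElement_def, e, mul_assoc, ← c, mul_assoc]
  have na : a ∈ nrm (zpowers ⁅b, a⁆) := le_nrm_of_le_cen le_rfl (by
    rw [cen_zpowers, mem_cen1, e1, mul_assoc _ d, ← c]; group)
  have nb : b ∈ nrm (zpowers ⁅b, a⁆) := mem_nrm_of_cj_le (by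
    rw [H7.cj_zpowers, zpowers_le, show b * ⁅b, a⁆ * b⁻¹ = ⁅b, a⁆⁻¹ by
      rw [e1]
      calc _ = (b * a * b⁻¹)⁻¹ * (b * a * b⁻¹)⁻¹ * (b * d * b⁻¹) := by group
        _ = d⁻¹ * a * (d⁻¹ * (a * d)) := by rw [e, c b, mul_inv_cancel_right]; group
        _ = _ := by rw [c a]; simp [mul_assoc]]
    exact inv_mem (mem_zpowers _))
  have n1 : zpowers a ⊔ C ≤ nrm (zpowers ⁅b, a⁆) := sup_le (zpowers_le.2 na) (le_nrm_of_le_cen (cC _))
  have t : ⁅(⊤ : Subgroup S), (⊤ : Subgroup S)⁆ ≤ zpowers ⁅b, a⁆ := by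
    rw [← s, sup_right_comm]
    exact comm_sup_zpowers_le (isComm_sup (isComm_zpowers a) (isComm_iff.2 (cC _)) (le_cen_symm (cC _))) n1 nb
      (comm_sup_le' (le_sup_left.trans n1) (le_sup_right.trans n1) (comm_zp_zp_le nb na (mem_zpowers _))
        ((comm_eq_bot'.2 (cC _)).le.trans bot_le))
  refine ⟨_, fun e => hc ?_, cyc_of_le t (H7.cyc_zpowers _), inferInstance⟩
  refine ⟨⟨fun x y => ?_⟩⟩
  obtain ⟨x, rfl⟩ := QuotientGroup.mk_surjective x
  obtain ⟨y, rfl⟩ := QuotientGroup.mk_surjective y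
  rw [← QuotientGroup.mk_mul, isComm_iff'.1 (isComm_of_der e) x trivial y trivial, QuotientGroup.mk_mul]

end Cfsg.Agent.S3202
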