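import Cfsg.Statements.S3208
import Mathlib
import Cfsg.Agent.H1.SylowIn

set_option autoImplicit false
open Cfsg

namespace Cfsg.Agent.S3208

open scoped Pointwise

/-- Let j be an involution of a finite group G, H a subgroup of G, and T a Sylow 2-subgroup of H ∩ C_G(j) containing j such that ⟨j⟩ is a characteristic subgroup of T. Then T is a Sylow 2-subgroup of H. -/
theorem result {G : Type*} [Group G] [Finite G]
    (j : G) (hj : orderOf j = 2) (H T : Subgroup G) (hT : T ≤ H ⊓ Subgroup.centralizer ({j} : Set G)) (h2 : IsPGroup 2 ↥T)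
    (hSyl : ¬ 2 ∣ T.relIndex (H ⊓ Subgroup.centralizer ({j} : Set G))) (hjT : j ∈ T)
    (hchar : ((Subgroup.zpowers j).subgroupOf T).Characteristic) :
    ¬ 2 ∣ T.relIndex H := by
  obtain ⟨Q, hQ, hTQ⟩ := H1.exists_isSylowIn_ge h2 (hT.trans inf_le_left)
  have hS : H1.IsSylowIn 2 T (H ⊓ Subgroup.centralizer ({j} : Set G)) := ⟨hT, h2, hSyl⟩
  have : Q = T := by
    by_contra hne
    haveI := hQ.isPGroup.isNilpotent
    have hlt := H1.lt_inf_normalizer_of_isNilpotent (lt_of_le_of_ne hTQ (Ne.symm hne))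
    refine hlt.ne' (hS.eq_of_le (hQ.isPGroup.to_le inf_le_left) (le_inf (inf_le_left.trans hQ.le) ?_) hlt.le)
    intro g hg
    have h1 := H1.normalizer_le_normalizer_map_of_characteristic ((Subgroup.zpowers j).subgroupOf T) hg.2
    rw [Subgroup.subgroupOf_map_subtype, inf_eq_left.2 (Subgroup.zpowers_le.2 hjT)] at h1
    obtain ⟨k, hk⟩ := (Subgroup.mem_normalizer_iff.1 h1 j).1 (Subgroup.mem_zpowers j)
    simp only at hk
    have h4 : j ^ (2 : ℤ) = 1 := by rw [zpow_two, ← sq, ← hj, pow_orderOf_eq_one]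
    rw [Subgroup.mem_centralizer_singleton_iff]
    rcases Int.even_or_odd' k with ⟨i, rfl | rfl⟩
    · rw [zpow_mul, h4, one_zpow, eq_comm, conj_eq_one_iff] at hk
      rw [hk, orderOf_one] at hj; omega
    · rw [zpow_add, zpow_mul, h4, one_zpow, one_mul, zpow_one] at hk
      exact (eq_mul_inv_iff_mul_eq.1 hk).symm
  exact (this ▸ hQ).not_dvd

end Cfsg.Agent.S3208
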