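import Cfsg.Statements.S3209
import Cfsg.Agent.H7.GK

set_option autoImplicit false
open Cfsg

namespace Cfsg.Agent.S3209
open H7
open scoped commutatorElement

section
open Subgroup

open Matrix in
theorem sl2_facts {F : Type*} [Field F] [Fintype F] (hF : Odd (Fintype.card F)) :
    ∃ z w : SpecialLinearGroup (Fin 2) F, z ≠ 1 ∧ w * w = z ∧ (∀ y : SpecialLinearGroup (Fin 2) F, y * y = 1 → y = 1 ∨ y = z) ∧
      ∀ y : SpecialLinearGroup (Fin 2) F, y * y = z → ∃ g, g * w * g⁻¹ = y := by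
  classical
  have h2 : (2 : F) ≠ 0 := by
    intro h
    have := (ringChar.spec F 2).1 (by exact_mod_cast h)
    have h3 : ringChar F = 2 := by
      rcases (Nat.dvd_prime Nat.prime_two).1 this with h | h
      · exact absurd h (CharP.ringChar_ne_one)
      · exact h
    have := FiniteField.even_card_of_char_two h3
    rw [Nat.odd_iff] at hF; omega
  have ent : ∀ y : SpecialLinearGroup (Fin 2) F, y 0 0 * y 1 1 - y 0 1 * y 1 0 = 1 := fun y => by
    have := y.det_coe; rwa [det_fin_two] at this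
  have sq : ∀ (y : SpecialLinearGroup (Fin 2) F) i j, (y * y) i j = y i 0 * y 0 j + y i 1 * y 1 j := fun y i j => by
    simp [Matrix.mul_apply, Fin.sum_univ_two]
  have ml : ∀ (x y : SpecialLinearGroup (Fin 2) F) i j, (x * y) i j = x i 0 * y 0 j + x i 1 * y 1 j := fun x y i j => by
    simp [Matrix.mul_apply, Fin.sum_univ_two]
  have mk : ∀ a b c d : F, a * d - b * c = 1 → ∃ y : SpecialLinearGroup (Fin 2) F, y 0 0 = a ∧ y 0 1 = b ∧ y 1 0 = c ∧ y 1 1 = d :=
    fun a b c d h => ⟨⟨!![a, b; c, d], by rw [det_fin_two_of]; exact h⟩, rfl, rfl, rfl, rfl⟩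
  have ex : ∀ x y : SpecialLinearGroup (Fin 2) F, x 0 0 = y 0 0 → x 0 1 = y 0 1 → x 1 0 = y 1 0 → x 1 1 = y 1 1 → x = y := by
    intro x y h1 h2 h3 h4
    ext i j; fin_cases i <;> fin_cases j <;> assumption
  obtain ⟨z, z1, z2, z3, z4⟩ := mk (-1) 0 0 (-1) (by ring)
  obtain ⟨w, w1, w2, w3, w4⟩ := mk 0 (-1) 1 0 (by ring)
  refine ⟨z, w, ?_, ?_, ?_, ?_⟩
  · intro h
    rw [h] at z1
    simp at z1
    exact h2 (by linear_combination z1)
  · apply ex <;> simp only [ml, z1, z2, z3, z4, w1, w2, w3, w4] <;> ring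
  · intro y hy
    have e := ent y
    have a00 := sq y 0 0; have a01 := sq y 0 1; have a10 := sq y 1 0; have a11 := sq y 1 1
    rw [hy] at a00 a01 a10 a11
    simp at a00 a01 a10 a11
    have ht : y 0 0 + y 1 1 ≠ 0 := by
      intro h
      apply h2
      linear_combination a00 + y 0 0 * h - e
    have b01 : y 0 1 = 0 := mul_left_cancel₀ ht (by linear_combination -a01)
    have b10 : y 1 0 = 0 := mul_left_cancel₀ ht (by linear_combination -a10)
    have b : y 1 1 = y 0 0 := mul_left_cancel₀ ht (by linear_combination a00 - a11)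
    have : (y 0 0 - 1) * (y 0 0 + 1) = 0 := by linear_combination -a00 - y 1 0 * b01
    rcases mul_eq_zero.1 this with h | h
    · left; ext i j; fin_cases i <;> fin_cases j <;> simp [b01, b10, b, sub_eq_zero.1 h]
    · right; apply ex <;> simp [b01, b10, b, eq_neg_of_add_eq_zero_left h, z1, z2, z3, z4]
  · intro y hy
    have e := ent y
    have a00 := sq y 0 0; have a01 := sq y 0 1; have a10 := sq y 1 0; have a11 := sq y 1 1
    rw [hy] at a00 a01 a10 a11
    rw [z1] at a00; rw [z2] at a01; rw [z3] at a10; rw [z4] at a11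
    have ht : y 1 1 = - y 0 0 := by
      by_contra h
      have ht : y 0 0 + y 1 1 ≠ 0 := fun h' => h (by linear_combination h')
      have b01 : y 0 1 = 0 := mul_left_cancel₀ ht (by linear_combination -a01)
      have b : y 1 1 = y 0 0 := mul_left_cancel₀ ht (by linear_combination a00 - a11)
      apply h2
      linear_combination -e - a00 + y 0 0 * b - 2 * y 1 0 * b01
    have hv : ∃ s t : F, y 1 0 * s ^ 2 - 2 * y 0 0 * s * t - y 0 1 * t ^ 2 = 1 := by
      by_cases hc : y 1 0 = 0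
      · have ha : y 0 0 ≠ 0 := by
          intro h; rw [h, hc] at a00; simp at a00
        refine ⟨(-1 - y 0 1) / (2 * y 0 0), 1, ?_⟩
        rw [hc]; field_simp; ring
      · obtain ⟨u, t, h⟩ := FiniteField.exists_root_sum_quadratic (f := Polynomial.X ^ 2) (g := Polynomial.X ^ 2 - Polynomial.C (y 1 0))
          (Polynomial.degree_X_pow 2) (Polynomial.degree_X_pow_sub_C (by norm_num) _) (Nat.odd_iff.1 hF)
        simp at h
        refine ⟨(u + y 0 0 * t) / y 1 0, t, ?_⟩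
        field_simp
        linear_combination h + t ^ 2 * a00
    obtain ⟨s, t, h⟩ := hv
    obtain ⟨g, g1, g2, g3, g4⟩ := mk s (y 0 0 * s + y 0 1 * t) t (y 1 0 * s - y 0 0 * t) (by linear_combination h)
    refine ⟨g, ?_⟩
    rw [mul_inv_eq_iff_eq_mul]
    apply ex <;> simp only [ml, g1, g2, g3, g4, w1, w2, w3, w4, ht]
    · ring
    · linear_combination s * a00
    · ring
    · linear_combination t * a00

theorem tr_facts {G : Type*} [Group G] {F : Type*} [Field F] [Fintype F] (hF : Odd (Fintype.card F)) (L : Subgroup G)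
    (e : ↥L ≃* Matrix.SpecialLinearGroup (Fin 2) F) (j : G) (hj : orderOf j = 2) (hjL : j ∈ L) :
    ∃ w ∈ L, w * w = j ∧ (∀ y ∈ L, y * y = 1 → y = 1 ∨ y = j) ∧ ∀ y ∈ L, y * y = j → ∃ g ∈ L, g * w * g⁻¹ = y := by
  obtain ⟨z, w, -, h2, h3, h4⟩ := sl2_facts hF
  have hj1 : j ≠ 1 := by rintro rfl; simp at hj
  have hjj : j * j = 1 := by rw [← pow_two, ← hj, pow_orderOf_eq_one]
  have ej : e ⟨j, hjL⟩ = z := (h3 _ (by rw [← map_mul, ← map_one e]; congr 1; exact Subtype.ext hjj)).resolve_left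
    (fun h => hj1 (congrArg Subtype.val (e.injective (h.trans (map_one e).symm))))
  refine ⟨e.symm w, (e.symm w).2, ?_, fun y hy h => ?_, fun y hy h => ?_⟩
  · have : e.symm w * e.symm w = ⟨j, hjL⟩ := by rw [← map_mul, h2, ← ej, e.symm_apply_apply]
    exact congrArg Subtype.val this
  · refine (h3 (e ⟨y, hy⟩) (by rw [← map_mul, ← map_one e]; congr 1; exact Subtype.ext h)).imp (fun h => ?_) fun h => ?_
    · exact congrArg Subtype.val (e.injective (h.trans (map_one e).symm))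
    · exact congrArg Subtype.val (e.injective (h.trans ej.symm))
  · obtain ⟨g, hg⟩ := h4 (e ⟨y, hy⟩) (by rw [← map_mul, ← ej]; congr 1; exact Subtype.ext h)
    refine ⟨e.symm g, (e.symm g).2, ?_⟩
    have : e.symm g * e.symm w * (e.symm g)⁻¹ = ⟨y, hy⟩ := by rw [← map_inv, ← map_mul, ← map_mul, hg, e.symm_apply_apply]
    exact congrArg Subtype.val this

end

/-- Let L₁ ≅ SL₂(q₁) and L₂ ≅ SL₂(q₂), q₁ and q₂ odd, be elementwise-commuting subgroups of a finite group meeting in ⟨j⟩ for an involution j. Then L₁L₂ has exactly two conjugacy classes of involutions: the central involution j, and one further class (there is an involution x ≠ j in L₁L₂, and every involution of L₁L₂ other than j is conjugate to x by an element of L₁L₂). -/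
theorem result {G : Type*} [Group G] [Finite G]
    {F₁ : Type*} [Field F₁] [Fintype F₁] {F₂ : Type*} [Field F₂] [Fintype F₂]
    (hF₁ : Odd (Fintype.card F₁)) (hF₂ : Odd (Fintype.card F₂)) (L₁ L₂ : Subgroup G)
    (e₁ : ↥L₁ ≃* Matrix.SpecialLinearGroup (Fin 2) F₁) (e₂ : ↥L₂ ≃* Matrix.SpecialLinearGroup (Fin 2) F₂)
    (hc : ∀ x ∈ L₁, ∀ y ∈ L₂, x * y = y * x) (j : G) (hj : orderOf j = 2) (hm : L₁ ⊓ L₂ = Subgroup.zpowers j) :
    ∃ x ∈ L₁ ⊔ L₂, orderOf x = 2 ∧ x ≠ j ∧
      ∀ y ∈ L₁ ⊔ L₂, orderOf y = 2 → y = j ∨ ∃ g ∈ L₁ ⊔ L₂, g * x * g⁻¹ = y := by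
  open Subgroup in
  have hjm : j ∈ L₁ ⊓ L₂ := by rw [hm]; exact Subgroup.mem_zpowers j
  obtain ⟨w₁, m₁, s₁, i₁, c₁⟩ := tr_facts hF₁ L₁ e₁ j hj hjm.1
  obtain ⟨w₂, m₂, s₂, i₂, c₂⟩ := tr_facts hF₂ L₂ e₂ j hj hjm.2
  have hj1 : j ≠ 1 := by rintro rfl; simp at hj
  have hjj : j * j = 1 := by rw [← pow_two, ← hj, pow_orderOf_eq_one]
  have hz : ∀ y ∈ L₁, y ∈ L₂ → y = 1 ∨ y = j := by
    intro y h1 h2
    have : y ∈ Subgroup.zpowers j := by rw [← hm]; exact ⟨h1, h2⟩
    refine i₁ y h1 ?_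
    obtain ⟨k, rfl⟩ := this
    show j ^ k * j ^ k = 1
    rw [← (Commute.refl j).mul_zpow, hjj, one_zpow]
  have hsq : ∀ a ∈ L₁, ∀ b ∈ L₂, (a * b) * (a * b) = (a * a) * (b * b) := by
    intro a ha b hb
    rw [mul_assoc, ← mul_assoc b, ← hc a ha b hb]; group
  have hw : w₁ * w₂ ∉ L₂ := by
    intro h
    have : w₁ ∈ L₂ := by simpa using mul_mem h (inv_mem m₂)
    rcases hz w₁ m₁ this with h | h
    · rw [h, one_mul] at s₁; exact hj1 s₁.symm
    · rw [h, hjj] at s₁; exact hj1 s₁.symm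
  refine ⟨w₁ * w₂, Subgroup.mul_mem_sup m₁ m₂, orderOf_eq_prime (by rw [pow_two, hsq _ m₁ _ m₂, s₁, s₂, hjj])
    (fun h => hw (h ▸ one_mem _)), fun h => hw (h ▸ hjm.2), fun y hy ho => ?_⟩
  obtain ⟨a, ha, b, hb, rfl⟩ : ∃ a ∈ L₁, ∃ b ∈ L₂, a * b = y := by
    have hn : L₁ ≤ Subgroup.normalizer (L₂ : Set G) := H7.le_nrm_of_le_cen (H7.le_cen_iff.2 hc)
    rw [← SetLike.mem_coe, Subgroup.coe_mul_of_left_le_normalizer_right _ _ hn] at hy
    exact hy
  have h1 : (a * a) * (b * b) = 1 := by rw [← hsq a ha b hb, ← pow_two, ← ho, pow_orderOf_eq_one]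
  have hne : a * b ≠ 1 := by intro h; rw [h] at ho; simp at ho
  rcases hz (a * a) (mul_mem ha ha) (by rw [eq_inv_of_mul_eq_one_left h1]; exact inv_mem (mul_mem hb hb)) with h | h
  · left
    rw [h, one_mul] at h1
    rcases i₁ a ha h with rfl | rfl <;> rcases i₂ b hb h1 with rfl | rfl
    · simp at hne
    · simp
    · simp
    · exact absurd hjj hne
  · right
    have h2 : b * b = j := by rw [h] at h1; exact mul_left_cancel (h1.trans hjj.symm)
    obtain ⟨g, hg, eg⟩ := c₁ a ha h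
    obtain ⟨k, hk, ek⟩ := c₂ b hb h2
    refine ⟨g * k, Subgroup.mul_mem_sup hg hk, ?_⟩
    rw [← eg, ← ek]
    calc g * k * (w₁ * w₂) * (g * k)⁻¹ = g * (k * w₁) * (w₂ * k⁻¹ * g⁻¹) := by group
      _ = g * (w₁ * k) * (g⁻¹ * (w₂ * k⁻¹)) := by
        rw [hc w₁ m₁ k hk, hc g⁻¹ (inv_mem hg) _ (mul_mem m₂ (inv_mem hk))]
      _ = g * w₁ * (k * g⁻¹) * (w₂ * k⁻¹) := by group
      _ = _ := by rw [← hc g⁻¹ (inv_mem hg) k hk]; group

end Cfsg.Agent.S3209
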