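import Cfsg.Statements.S3210
import Cfsg.Agent.S3209
import Cfsg.Agent.H2.Qd2

set_option autoImplicit false
open Cfsg

namespace Cfsg.Agent.S3210
open H7
open scoped commutatorElement

section
open Subgroup

open Matrix Subgroup H2 H7 in
theorem sl2_indec {F : Type*} [Field F] [Fintype F] (hF : Odd (Fintype.card F)) (X Y : Subgroup (SpecialLinearGroup (Fin 2) F))
    [hX : X.Normal] [hY : Y.Normal] (h : X ⊔ Y = ⊤)
    (hc : ∀ x ∈ X, ∀ y ∈ Y, ⁅x, y⁆ * ⁅x, y⁆ = 1 ∧ ⁅x, y⁆ ∈ center _) : (∀ x ∈ X, x * x = 1) ∨ ∀ y ∈ Y, y * y = 1 := by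
  classical
  obtain ⟨p, hchar⟩ := CharP.exists F
  obtain ⟨k, hp, hk⟩ := FiniteField.card F p
  haveI := Fact.mk hp
  have hpo : Odd p := by
    rw [hk] at hF
    exact (Nat.odd_pow_iff k.ne_zero).1 hF
  have ent : ∀ y : SpecialLinearGroup (Fin 2) F, y 0 0 * y 1 1 - y 0 1 * y 1 0 = 1 := fun y => by
    have := y.det_coe; rwa [det_fin_two] at this
  have T : ∀ (N : Subgroup (SpecialLinearGroup (Fin 2) F)) [N.Normal] (b : F), b ≠ 0 →
      (∀ y ∈ N, ⁅H4.slUp b, y⁆ * ⁅H4.slUp b, y⁆ = 1 ∧ ⁅H4.slUp b, y⁆ ∈ center _) → ∀ y ∈ N, y * y = 1 := by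
    intro N hN b hb h
    have up : (H4.slUp b) ^ p = 1 := by rw [H4.slUp_pow, CharP.cast_eq_zero, zero_mul, H4.slUp_zero]
    have h1 : ∀ y ∈ N, y 1 0 = 0 ∧ y 1 1 = y 0 0 := by
      intro y hy
      obtain ⟨c1, c2⟩ := h y hy
      set c := ⁅H4.slUp b, y⁆ with hcd
      have e : y * (H4.slUp b)⁻¹ * y⁻¹ = (H4.slUp b)⁻¹ * c := by rw [hcd, commutatorElement_def]; group
      have e2 : c ^ p = 1 := by
        have := congrArg (· ^ p) e
        simp only [conj_pow, inv_pow, up, inv_one, mul_one, mul_inv_cancel] at this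
        rw [(show Commute (H4.slUp b)⁻¹ c from Subgroup.mem_center_iff.1 c2 _).mul_pow, inv_pow, up, inv_one, one_mul] at this
        exact this.symm
      obtain ⟨m, hm⟩ := hpo
      rw [hm, pow_succ, pow_mul, pow_two, c1, one_pow, one_mul] at e2
      have e3 := commutatorElement_eq_one_iff_mul_comm.1 (hcd ▸ e2)
      have a := congrArg (fun M : SpecialLinearGroup (Fin 2) F => M 0 0) e3
      have a' := congrArg (fun M : SpecialLinearGroup (Fin 2) F => M 0 1) e3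
      simp [Matrix.mul_apply, Fin.sum_univ_succ, hb] at a a'
      exact ⟨a, mul_left_cancel₀ hb (by linear_combination a')⟩
    intro y hy
    obtain ⟨a1, a2⟩ := h1 y hy
    obtain ⟨z, hz⟩ : ∃ z, z = H4.slLow (1 : F) * y * (H4.slLow 1)⁻¹ := ⟨_, rfl⟩
    obtain ⟨b1, b2⟩ := h1 z (hz ▸ hN.conj_mem y hy _)
    rw [eq_mul_inv_iff_mul_eq] at hz
    have a := congrArg (fun M : SpecialLinearGroup (Fin 2) F => M 1 0) hz
    have a' := congrArg (fun M : SpecialLinearGroup (Fin 2) F => M 1 1) hz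
    simp [Matrix.mul_apply, Fin.sum_univ_succ] at a a'
    have a3 : y 0 1 = 0 := by linear_combination a - a' - a2 - b1 + a1
    have e := ent y
    rw [a1, a2] at e
    ext i j
    fin_cases i <;> fin_cases j <;> simp [Matrix.mul_apply, Fin.sum_univ_succ, a1, a2, a3] <;> linear_combination e
  have key : ∀ N : Subgroup (SpecialLinearGroup (Fin 2) F), N.Normal → p ∣ ord N → ∃ b : F, b ≠ 0 ∧ H4.slUp b ∈ N := by
    intro N hN hd
    have := syl_ne_bot (syl_inf (syl_slU (F := F) (p := p)) (le_top : N ≤ ⊤) (by rw [normalizer_eq_top]; exact le_top)) hd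
    obtain ⟨⟨_, ⟨b, rfl⟩, hb⟩, hne⟩ := ne_bot_iff_exists_ne_one.1 this
    exact ⟨b, fun e => hne (Subtype.ext (by simp [e, H4.slUp_zero])), hb⟩
  have hd : p ∣ ord X * ord Y := by
    refine Dvd.dvd.trans ?_ (card_sup_dvd (A := X) (B := Y) (by rw [normalizer_eq_top]; exact le_top))
    rw [h, card_top, H4.card_sl2, mul_assoc, Nat.card_eq_fintype_card, hk]
    exact (dvd_pow_self p k.ne_zero).mul_right _
  rcases (hp.dvd_mul).1 hd with h1 | h1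
  · obtain ⟨b, hb, hm⟩ := key X hX h1
    exact Or.inr (T Y b hb fun y hy => hc _ hm y hy)
  · obtain ⟨b, hb, hm⟩ := key Y hY h1
    refine Or.inl (T X b hb fun x hx => ?_)
    obtain ⟨c1, c2⟩ := hc x hx _ hm
    rw [← commutatorElement_inv]
    exact ⟨by rw [← _root_.mul_inv_rev, c1, inv_one], inv_mem c2⟩

open Subgroup H2 H7 in
theorem dec {G : Type*} [Group G] [Finite G] {F : Type*} [Field F] [Fintype F] (hF : Odd (Fintype.card F)) (L₁ L₂ A B : Subgroup G)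
    (e : ↥L₁ ≃* Matrix.SpecialLinearGroup (Fin 2) F) (hc : L₁ ≤ cen L₂) (j : G) (hj : orderOf j = 2) (hm : L₁ ⊓ L₂ = zpowers j)
    (hAB : A ≤ cen B) (hs : A ⊔ B = L₁ ⊔ L₂) : A ≤ L₂ ∨ B ≤ L₂ := by
  have hjm : j ∈ L₁ ⊓ L₂ := by rw [hm]; exact mem_zpowers j
  obtain ⟨-, -, -, i₁, -⟩ := Cfsg.Agent.S3209.tr_facts hF L₁ e j hj hjm.1
  have hjj : j * j = 1 := by rw [← pow_two, ← hj, pow_orderOf_eq_one]
  have n12 : L₁ ≤ nrm L₂ := le_nrm_of_le_cen hc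
  have nA : L₁ ⊔ L₂ ≤ nrm A := by rw [← hs]; exact sup_le le_normalizer (le_nrm_of_le_cen (le_cen_symm hAB))
  have nB : L₁ ⊔ L₂ ≤ nrm B := by rw [← hs]; exact sup_le (le_nrm_of_le_cen hAB) le_normalizer
  have n2 : L₁ ⊔ L₂ ≤ nrm L₂ := sup_le n12 le_normalizer
  have lA : A ≤ L₁ ⊔ L₂ := hs ▸ le_sup_left
  have lB : B ≤ L₁ ⊔ L₂ := hs ▸ le_sup_right
  have hN : ∀ C : Subgroup G, L₁ ⊔ L₂ ≤ nrm C → (((C ⊔ L₂).subgroupOf L₁).map e.toMonoidHom).Normal := by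
    intro C hC
    refine Normal.map ⟨fun x hx g => ?_⟩ _ e.surjective
    exact (mem_normalizer_iff.1 (nrm_sup (le_sup_left.trans hC) n12 g.2) _).1 hx
  have fin : ∀ C : Subgroup G, C ≤ L₁ ⊔ L₂ → (∀ x ∈ ((C ⊔ L₂).subgroupOf L₁).map e.toMonoidHom, x * x = 1) → C ≤ L₂ := by
    intro C hC h c hcC
    obtain ⟨a, ha, b, hb, rfl⟩ := (mem_sup_of_le_normalizer n12).1 (hC hcC)
    have h1 : a ∈ C ⊔ L₂ := by simpa using mul_mem_sup hcC (inv_mem hb)
    have h2 := h (e ⟨a, ha⟩) ⟨⟨a, ha⟩, h1, rfl⟩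
    rw [← map_mul, MulEquiv.map_eq_one_iff] at h2
    rcases i₁ a ha (congrArg Subtype.val h2) with rfl | rfl
    · simpa using hb
    · exact mul_mem hjm.2 hb
  haveI := hN A nA
  haveI := hN B nB
  refine (sl2_indec hF (((A ⊔ L₂).subgroupOf L₁).map e.toMonoidHom) (((B ⊔ L₂).subgroupOf L₁).map e.toMonoidHom) ?_ ?_).imp
    (fin A lA) (fin B lB)
  · rw [← Subgroup.map_sup, eq_top_iff, ← map_top_of_surjective e.toMonoidHom e.surjective]
    refine map_mono fun x _ => ?_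
    have hx : (x : G) ∈ A ⊔ B := hs ▸ mem_sup_left x.2
    obtain ⟨a, ha, b, hb, e1⟩ := (mem_sup_of_le_normalizer (le_nrm_of_le_cen hAB)).1 hx
    obtain ⟨b1, h1, b2, h2, rfl⟩ := (mem_sup_of_le_normalizer n12).1 (lB hb)
    have : x = (x * (⟨b1, h1⟩ : L₁)⁻¹) * ⟨b1, h1⟩ := by group
    rw [this]
    refine mul_mem_sup ?_ ?_
    · show (x : G) * b1⁻¹ ∈ A ⊔ L₂
      rw [← e1, comm_of_le_cen hc h1 h2, ← mul_assoc, mul_inv_cancel_right]
      exact mul_mem_sup ha h2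
    · show b1 ∈ B ⊔ L₂
      simpa using mul_mem_sup hb (inv_mem h2)
  · rintro _ ⟨x, hx, rfl⟩ _ ⟨y, hy, rfl⟩
    obtain ⟨a, ha, s, hs', e1⟩ := (mem_sup_of_le_normalizer (lA.trans n2)).1 hx
    obtain ⟨b, hb, t, ht, e2⟩ := (mem_sup_of_le_normalizer (lB.trans n2)).1 hy
    have hk : (⁅x, y⁆ : L₁).1 ∈ L₁ ⊓ L₂ := by
      refine ⟨(⁅x, y⁆ : L₁).2, ?_⟩
      have e3 : (⁅x, y⁆ : L₁).1 = a * s * (b * t) * (a * s)⁻¹ * (b * t)⁻¹ := by
        rw [e1, e2]; rfl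
      have e4 : a * s * (b * t) * (a * s)⁻¹ * (b * t)⁻¹ = (a * s * a⁻¹) * ((a * b) * (t * s⁻¹) * (a * b)⁻¹) * (b * t⁻¹ * b⁻¹) := by
        calc _ = (a * s * a⁻¹) * ((a * b) * (t * s⁻¹) * (b * a)⁻¹) * (b * t⁻¹ * b⁻¹) := by group
          _ = _ := by rw [comm_of_le_cen hAB ha hb]
      rw [e3, e4]
      have m := fun (g : G) (hg : g ∈ L₁ ⊔ L₂) (u : G) (hu : u ∈ L₂) => (mem_normalizer_iff.1 (n2 hg) u).1 hu
      exact mul_mem (mul_mem (m _ (lA ha) _ hs') (m _ (mul_mem (lA ha) (lB hb)) _ (mul_mem ht (inv_mem hs'))))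
        (m _ (lB hb) _ (inv_mem ht))
    rw [← map_commutatorElement]
    constructor
    · rw [← map_mul, ← map_one e.toMonoidHom]
      congr 1
      apply Subtype.ext
      rw [hm] at hk
      obtain ⟨k, hk⟩ := hk
      show (⁅x, y⁆ : L₁).1 * (⁅x, y⁆ : L₁).1 = 1
      rw [← hk]
      show j ^ k * j ^ k = 1
      rw [← (Commute.refl j).mul_zpow, hjj, one_zpow]
    · rw [Subgroup.mem_center_iff]
      intro g
      obtain ⟨g, rfl⟩ := e.surjective g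
      show e g * e _ = e _ * e g
      rw [← map_mul, ← map_mul]
      congr 1
      exact Subtype.ext (comm_of_le_cen hc g.2 hk.2)

end

/-- Let G be a finite group with subgroups L₁ ≅ SL₂(q₁) and L₂ ≅ SL₂(q₂), q₁ and q₂ odd prime powers, which commute elementwise and meet in ⟨j⟩ for an involution j, and suppose L₁L₂ has index 2 in C_G(j). Then every element n of C_G(j) outside L₁L₂ either normalizes both L₁ and L₂, or conjugates L₁ onto L₂; in the second case q₁ = q₂ and there is an element n′ of C_G(j) outside L₁L₂ conjugating L₁ onto L₂ with n′² ∈ ⟨j⟩. -/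
theorem result {G : Type*} [Group G] [Finite G]
    {F₁ : Type*} [Field F₁] [Fintype F₁] {F₂ : Type*} [Field F₂] [Fintype F₂]
    (hF₁ : Odd (Fintype.card F₁)) (hF₂ : Odd (Fintype.card F₂)) (L₁ L₂ : Subgroup G)
    (e₁ : ↥L₁ ≃* Matrix.SpecialLinearGroup (Fin 2) F₁) (e₂ : ↥L₂ ≃* Matrix.SpecialLinearGroup (Fin 2) F₂)
    (hc : ∀ x ∈ L₁, ∀ y ∈ L₂, x * y = y * x) (j : G) (hj : orderOf j = 2) (hm : L₁ ⊓ L₂ = Subgroup.zpowers j)
    (hle : L₁ ⊔ L₂ ≤ Subgroup.centralizer ({j} : Set G)) (hi : (L₁ ⊔ L₂).relIndex (Subgroup.centralizer ({j} : Set G)) = 2) (n : G) (hn : n ∈ Subgroup.centralizer ({j} : Set G)) (hn' : n ∉ L₁ ⊔ L₂) :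
    (L₁.map (MulAut.conj n).toMonoidHom = L₁ ∧ L₂.map (MulAut.conj n).toMonoidHom = L₂) ∨
      (L₁.map (MulAut.conj n).toMonoidHom = L₂ ∧ Fintype.card F₁ = Fintype.card F₂ ∧
        ∃ n' ∈ Subgroup.centralizer ({j} : Set G), n' ∉ L₁ ⊔ L₂ ∧ L₁.map (MulAut.conj n').toMonoidHom = L₂ ∧ n' ^ 2 ∈ Subgroup.zpowers j) := by
  open Subgroup in
  have hc' : L₁ ≤ Subgroup.centralizer (L₂ : Set G) := H7.le_cen_iff.2 hc
  have hjm : j ∈ L₁ ⊓ L₂ := by rw [hm]; exact Subgroup.mem_zpowers j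
  have hj1 : j ≠ 1 := by rintro rfl; simp at hj
  have hjj : j * j = 1 := by rw [← pow_two, ← hj, pow_orderOf_eq_one]
  have hnj : n * j = j * n := Subgroup.mem_centralizer_singleton_iff.1 hn
  have hnL : ∀ x ∈ L₁ ⊔ L₂, n * x * n⁻¹ ∈ L₁ ⊔ L₂ := fun x hx =>
    (Subgroup.normal_of_index_eq_two hi).conj_mem ⟨x, hle hx⟩ hx ⟨n, hn⟩
  have hs : H2.cj n L₁ ⊔ H2.cj n L₂ = L₁ ⊔ L₂ := by
    rw [← H2.cj_sup]
    exact Subgroup.eq_of_le_of_card_ge (H2.cj_le_iff.2 hnL) (H2.card_cj _ _).ge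
  have hAB : H2.cj n L₁ ≤ Subgroup.centralizer (H2.cj n L₂ : Set G) := H7.map_le_cen_map _ hc'
  have d1 := dec hF₁ L₁ L₂ _ _ e₁ hc' j hj hm hAB hs
  have d2 := dec hF₂ L₂ L₁ _ _ e₂ (H7.le_cen_symm hc') j hj (by rw [inf_comm, hm]) hAB (by rw [hs, sup_comm])
  have no : ∀ w : G, w * w = j → n * w * n⁻¹ ∈ L₁ → n * w * n⁻¹ ∉ L₂ := by
    intro w hw h1 h2
    have : n * w * n⁻¹ ∈ Subgroup.zpowers j := by rw [← hm]; exact ⟨h1, h2⟩
    obtain ⟨k, hk⟩ := this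
    have h3 : j ^ k * j ^ k = 1 := by rw [← (Commute.refl j).mul_zpow, hjj, one_zpow]
    have hk' : j ^ k = n * w * n⁻¹ := hk
    rw [hk', conj_mul, hw, hnj, mul_inv_cancel_right] at h3
    exact hj1 h3
  obtain ⟨w₁, m₁, s₁, -⟩ := Cfsg.Agent.S3209.tr_facts hF₁ L₁ e₁ j hj hjm.1
  obtain ⟨w₂, m₂, s₂, -⟩ := Cfsg.Agent.S3209.tr_facts hF₂ L₂ e₂ j hj hjm.2
  rcases d1 with a | a <;> rcases d2 with b | b
  · exact absurd (a (H2.conj_mem_cj m₁)) (no w₁ s₁ (b (H2.conj_mem_cj m₁)))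
  · right
    have c1 := Subgroup.card_le_of_le a
    have c2 := Subgroup.card_le_of_le b
    rw [H2.card_cj] at c1 c2
    have ea : H2.cj n L₁ = L₂ := Subgroup.eq_of_le_of_card_ge a (by rw [H2.card_cj]; exact c2)
    refine ⟨ea, ?_, ?_⟩
    · have := le_antisymm c1 c2
      rw [Nat.card_congr e₁.toEquiv, Nat.card_congr e₂.toEquiv, H4.card_sl2, H4.card_sl2, Nat.card_eq_fintype_card,
        Nat.card_eq_fintype_card] at this
      have mono : ∀ x y : ℕ, 1 < y → x < y → x * (x - 1) * (x + 1) < y * (y - 1) * (y + 1) := by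
        intro x y h1 h2
        refine Nat.mul_lt_mul_of_le_of_lt (Nat.mul_le_mul h2.le (by omega)) (by omega) (Nat.mul_pos (by omega) (by omega))
      rcases lt_trichotomy (Fintype.card F₁) (Fintype.card F₂) with h | h | h
      · exact absurd this (mono _ _ Fintype.one_lt_card h).ne
      · exact h
      · exact absurd this (mono _ _ Fintype.one_lt_card h).ne'
    · have hnn : n * n ∈ L₁ ⊔ L₂ := Subgroup.mul_self_mem_of_index_two hi ⟨n, hn⟩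
      obtain ⟨x, hx, y, hy, e⟩ := (H2.mem_sup_of_le_normalizer (H7.le_nrm_of_le_cen hc')).1 hnn
      have hx' : x ∈ L₁ ⊔ L₂ := Subgroup.mem_sup_left hx
      refine ⟨x⁻¹ * n, mul_mem (inv_mem (hle hx')) hn, fun h => hn' (by simpa using mul_mem hx' h), ?_, ?_⟩
      · show H2.cj (x⁻¹ * n) L₁ = L₂
        rw [← H2.cj_cj, ea]
        exact H2.cj_eq_of_mem_normalizer (inv_mem (H7.le_nrm_of_le_cen hc' hx))
      · have u2 : n * x * n⁻¹ ∈ L₂ := a (H2.conj_mem_cj hx)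
        have u1 : n * y * n⁻¹ ∈ L₁ := b (H2.conj_mem_cj hy)
        have e1 : (x⁻¹ * n) ^ 2 = (n * x * n⁻¹)⁻¹ * y := by
          calc (x⁻¹ * n) ^ 2 = x⁻¹ * (n * x * n⁻¹)⁻¹ * (n * n) := by rw [pow_two]; group
            _ = (n * x * n⁻¹)⁻¹ * x⁻¹ * (x * y) := by rw [e, hc _ (inv_mem hx) _ (inv_mem u2)]
            _ = _ := by group
        have e2 : (x⁻¹ * n) ^ 2 = x⁻¹ * (n * y * n⁻¹) := by
          calc (x⁻¹ * n) ^ 2 = x⁻¹ * (n * (x⁻¹ * (n * n)) * n⁻¹) := by rw [pow_two]; group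
            _ = _ := by rw [← e, inv_mul_cancel_left]
        rw [← hm]
        refine Subgroup.mem_inf.2 ⟨?_, ?_⟩
        · rw [e2]; exact mul_mem (inv_mem hx) u1
        · rw [e1]; exact mul_mem (inv_mem u2) hy
  · left
    exact ⟨Subgroup.eq_of_le_of_card_ge b (H2.card_cj _ _).ge, Subgroup.eq_of_le_of_card_ge a (H2.card_cj _ _).ge⟩
  · exact absurd (a (H2.conj_mem_cj m₂)) (no w₂ s₂ (b (H2.conj_mem_cj m₂)))

end Cfsg.Agent.S3210
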