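import Cfsg.Statements.S3213
import Cfsg.Agent.H0.Fld
-- import your own Cfsg.Agent.* helpers here

set_option autoImplicit false
open Cfsg

namespace Cfsg.Agent.S3213

open Matrix Module

abbrev I := Fin 2 ⊕ Fin 2
instance f5 : Fact (Nat.Prime 5) := ⟨by decide⟩
section
variable {F : Type*} [Field F]
noncomputable def Fx (A : Matrix I I F) : Submodule F (I → F) := LinearMap.ker (toLin' A - LinearMap.id)
theorem mem_Fx {A : Matrix I I F} {v : I → F} : v ∈ Fx A ↔ A *ᵥ v = v := by simp [Fx, sub_eq_zero]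

theorem five [Fintype F] (hF : Fintype.card F = 3) {A : Matrix I I F} (h : A ^ 5 = 1) (h2 : 2 ≤ finrank F (Fx A)) : A = 1 := by
  classical
  have h3 := Equiv.Perm.card_fixedPoints_modEq (f := (fun v => A *ᵥ v : Function.End (I → F))) (p := 5) (n := 1) (by
    funext v
    show A *ᵥ (A *ᵥ (A *ᵥ (A *ᵥ (A *ᵥ v)))) = v
    simp only [mulVec_mulVec]
    rw [show A * (A * (A * (A * A))) = A ^ 5 by simp only [pow_succ, pow_zero, one_mul, mul_assoc], h, one_mulVec])
  have h4 : Fintype.card (Function.fixedPoints (fun v => A *ᵥ v : Function.End (I → F))) = 3 ^ finrank F (Fx A) := by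
    rw [← hF, ← Nat.card_eq_fintype_card, ← Nat.card_eq_fintype_card, ← Module.natCard_eq_pow_finrank]
    exact Nat.card_congr (Equiv.subtypeEquivRight fun v => mem_Fx.symm)
  have h5 : finrank F (Fx A) ≤ 4 := (Submodule.finrank_le _).trans (by simp)
  rw [h4, Fintype.card_fun, hF] at h3
  have h6 : finrank F (Fx A) = 4 := by
    generalize finrank F (Fx A) = d at *
    interval_cases d <;> first | rfl | exact absurd h3 (by decide)
  have h7 : Fx A = ⊤ := Submodule.eq_top_of_finrank_eq (by simpa using h6)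
  exact toLin'.injective (LinearMap.ext fun v => by simpa using mem_Fx.1 (h7 ▸ Submodule.mem_top : v ∈ Fx A))

theorem form {g : Matrix I I F} (hg : g ∈ symplecticGroup (Fin 2) F) (u v : I → F) :
    (g *ᵥ u) ⬝ᵥ (J (Fin 2) F *ᵥ (g *ᵥ v)) = u ⬝ᵥ (J (Fin 2) F *ᵥ v) := by
  rw [mulVec_mulVec, ← vecMul_transpose, ← dotProduct_mulVec, mulVec_mulVec, ← mul_assoc, SymplecticGroup.mem_iff'.1 hg]
theorem skew (u v : I → F) : u ⬝ᵥ (J (Fin 2) F *ᵥ v) = -(v ⬝ᵥ (J (Fin 2) F *ᵥ u)) := by
  rw [dotProduct_mulVec, dotProduct_comm, ← mulVec_transpose, J_transpose, neg_mulVec, dotProduct_neg]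
end

/-- Let F be the field with 3 elements and K the field with 5 elements. For every injective homomorphism φ from SL₂(K) into the symplectic group Sp₄(F) (4 × 4 matrices g with g J gᵀ = J for the standard alternating matrix J) and every element x of order 3 of SL₂(K), the vectors of F⁴ fixed by φ(x) form a 2-dimensional subspace that is totally isotropic for the alternating form defined by J. -/
theorem result {F : Type*} [Field F] [Fintype F] (hF : Fintype.card F = 3)
    {K : Type*} [Field K] [Fintype K] (hK : Fintype.card K = 5)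
    (φ : Matrix.SpecialLinearGroup (Fin 2) K →* ↥(Matrix.symplecticGroup (Fin 2) F)) (hφ : Function.Injective φ)
    (x : Matrix.SpecialLinearGroup (Fin 2) K) (hx : orderOf x = 3) :
    Module.finrank F ↥(LinearMap.ker (Matrix.toLin' ((φ x : Matrix (Fin 2 ⊕ Fin 2) (Fin 2 ⊕ Fin 2) F)) - LinearMap.id)) = 2 ∧
      ∀ v w : Fin 2 ⊕ Fin 2 → F, (φ x : Matrix (Fin 2 ⊕ Fin 2) (Fin 2 ⊕ Fin 2) F).mulVec v = v →
        (φ x : Matrix (Fin 2 ⊕ Fin 2) (Fin 2 ⊕ Fin 2) F).mulVec w = w →
          dotProduct v ((Matrix.J (Fin 2) F).mulVec w) = 0 := by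
  have c3 : (3 : F) = 0 := by
    have := FiniteField.cast_card_eq_zero F
    rw [hF] at this; exact_mod_cast this
  have c2 : (2 : F) ≠ 0 := fun h => one_ne_zero (α := F) (by linear_combination c3 - h)
  set g : Matrix I I F := (φ x : Matrix I I F) with hg
  have g3 : g * (g * g) = 1 := by
    have := congrArg (fun t => ((φ t : symplecticGroup (Fin 2) F) : Matrix I I F)) (hx ▸ pow_orderOf_eq_one x)
    simpa [pow_succ, mul_assoc] using this
  let N : (I → F) →ₗ[F] (I → F) := toLin' g - LinearMap.id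
  have hN : ∀ v, N v = g *ᵥ v - v := fun v => by simp [N]
  have ggg : ∀ v, g *ᵥ (g *ᵥ (g *ᵥ v)) = v := fun v => by simp only [mulVec_mulVec]; rw [g3, one_mulVec]
  have N3 : ∀ v, N (N (N v)) = 0 := fun v => by
    simp only [hN, mulVec_sub, ggg]
    ext i; simp only [Pi.sub_apply, Pi.zero_apply]
    linear_combination ((g *ᵥ v) i - (g *ᵥ (g *ᵥ v)) i) * c3
  let B : (I → F) → (I → F) → F := fun u v => u ⬝ᵥ (J (Fin 2) F *ᵥ v)
  have f1 : ∀ u v, B (g *ᵥ u) (g *ᵥ v) = B u v := form (φ x).2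
  have alt : ∀ u, B (N (N u)) u = 0 := fun u => by
    have h1 := skew u u
    have h2 := f1 (g *ᵥ (g *ᵥ u)) u
    have h3 := skew u (g *ᵥ u)
    rw [ggg] at h2
    simp only [B, hN, mulVec_sub, sub_dotProduct] at h1 h2 h3 ⊢
    apply mul_left_cancel₀ c2
    linear_combination -2 * h2 + 2 * h3 + h1 - 2 * ((g *ᵥ u) ⬝ᵥ (J (Fin 2) F *ᵥ u)) * c3
  have rk := LinearMap.finrank_range_add_finrank_ker N
  rw [show finrank F (I → F) = 4 by simp] at rk
  have k2 : finrank F (LinearMap.ker N) ≤ 2 := by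
    by_contra hlt
    have τ := H0.slEquiv (ι := Fin 2) (H0.fe (ZMod 5) hK (ZMod.card 5))
    obtain ⟨x₀, rfl⟩ := τ.surjective x
    rw [τ.orderOf_eq] at hx
    obtain ⟨c, h1, h2⟩ := (by decide +kernel : ∀ x : SpecialLinearGroup (Fin 2) (ZMod 5), x ^ 3 = 1 → x ≠ 1 →
      ∃ c : SpecialLinearGroup (Fin 2) (ZMod 5), ((x * (c * x * c⁻¹)) ^ 2) ^ 5 = 1 ∧ (x * (c * x * c⁻¹)) ^ 2 ≠ 1) x₀
      (hx ▸ pow_orderOf_eq_one x₀) (by rintro rfl; simp at hx)
    let ψ : SpecialLinearGroup (Fin 2) (ZMod 5) →* Matrix I I F := (Submonoid.subtype _).comp (φ.comp τ.toMonoidHom)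
    have hψ : Function.Injective ψ := Subtype.val_injective.comp (hφ.comp τ.injective)
    have a1 : 3 ≤ finrank F (Fx (ψ x₀)) := not_le.1 hlt
    have a2 : 3 ≤ finrank F (Fx (ψ (c * x₀ * c⁻¹))) := a1.trans ((Submodule.finrank_mono (t := (Fx (ψ (c * x₀ * c⁻¹))).map (toLin' (ψ c⁻¹)))
      fun v hv => ⟨ψ c *ᵥ v, mem_Fx.2 (by rw [mulVec_mulVec, ← map_mul, inv_mul_cancel_right, map_mul, ← mulVec_mulVec, mem_Fx.1 hv]),
        by rw [toLin'_apply, mulVec_mulVec, ← map_mul, inv_mul_cancel, map_one, one_mulVec]⟩).trans (Submodule.finrank_map_le _ _))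
    have a3 := Submodule.finrank_sup_add_finrank_inf_eq (Fx (ψ x₀)) (Fx (ψ (c * x₀ * c⁻¹)))
    have a4 : finrank F (Fx (ψ x₀) ⊔ Fx (ψ (c * x₀ * c⁻¹)) :) ≤ 4 := (Submodule.finrank_le _).trans (by simp)
    refine h2 (hψ ((five hF (by rw [← map_pow, h1, map_one]) (le_trans (by omega) (Submodule.finrank_mono
      (s := Fx (ψ x₀) ⊓ Fx (ψ (c * x₀ * c⁻¹))) fun v hv => mem_Fx.2 ?_))).trans (map_one ψ).symm))
    rw [sq, map_mul, map_mul _ x₀, ← mulVec_mulVec, ← mulVec_mulVec, ← mulVec_mulVec, mem_Fx.1 hv.2, mem_Fx.1 hv.1, mem_Fx.1 hv.2, mem_Fx.1 hv.1]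
  have N2 : ∀ u, N (N u) = 0 := fun u => by
    by_contra hu
    obtain ⟨v, hv⟩ : ∃ v, B (N (N u)) v ≠ 0 := by
      by_contra! h
      have h1 : N (N u) ᵥ* J (Fin 2) F = 0 := dotProduct_eq_zero _ fun v => by rw [← dotProduct_mulVec]; exact h v
      have h2 := congrArg (· ᵥ* J (Fin 2) F) h1
      simp only [vecMul_vecMul, J_squared, vecMul_neg, vecMul_one, zero_vecMul, neg_eq_zero] at h2
      exact hu h2
    have hv' : B (N (N v)) u = -B (N (N u)) v := by
      have h1 := alt (u + v)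
      have h2 := alt u
      have h3 := alt v
      simp only [B, map_add, mulVec_add, add_dotProduct, dotProduct_add] at h1 h2 h3 ⊢
      linear_combination h1 - h2 - h3
    have li : LinearIndependent F ![N (N u), N (N v), N u, N v] := by
      rw [Fintype.linearIndependent_iff]
      intro s hs
      simp only [Fin.sum_univ_four, cons_val_zero, cons_val_one, cons_val] at hs
      have key : ∀ a b : F, a • N (N u) + b • N (N v) = 0 → a = 0 ∧ b = 0 := fun a b h => by
        have h1 := congrArg (B · v) h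
        have h2 := congrArg (B · u) h
        have h3 := alt u
        have h4 := alt v
        simp only [B, add_dotProduct, smul_dotProduct, zero_dotProduct, smul_eq_mul] at h1 h2 h3 h4 hv hv'
        rw [h4, mul_zero, add_zero] at h1
        rw [h3, mul_zero, zero_add, hv'] at h2
        exact ⟨(mul_eq_zero.1 h1).resolve_right hv, (mul_eq_zero.1 h2).resolve_right (neg_ne_zero.2 hv)⟩
      have h5 := congrArg N hs
      simp only [map_add, map_smul, N3, smul_zero, zero_add, map_zero] at h5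
      obtain ⟨h6, h7⟩ := key _ _ h5
      rw [h6, h7, zero_smul, zero_smul, add_zero, add_zero] at hs
      obtain ⟨h8, h9⟩ := key _ _ hs
      intro i; fin_cases i <;> assumption
    have h4 : 4 ≤ finrank F (LinearMap.range N) := by
      have := finrank_span_eq_card li
      refine (show 4 = _ from by simpa using this.symm).le.trans (Submodule.finrank_mono (Submodule.span_le.2 ?_))
      rintro _ ⟨i, rfl⟩; fin_cases i <;> exact ⟨_, rfl⟩
    have h0 : LinearMap.ker N = ⊥ := Submodule.finrank_eq_zero.1 (by omega)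
    exact hu (by simpa [h0] using (show N (N u) ∈ LinearMap.ker N from N3 u))
  have le : LinearMap.range N ≤ LinearMap.ker N := by rintro _ ⟨u, rfl⟩; exact N2 u
  have k3 := Submodule.finrank_mono le
  have eq : LinearMap.range N = LinearMap.ker N := Submodule.eq_of_le_of_finrank_eq le (by omega)
  refine ⟨(show finrank F (LinearMap.ker N) = 2 by omega), fun v w hv hw => ?_⟩
  obtain ⟨u, rfl⟩ : v ∈ LinearMap.range N := eq ▸ (show N v = 0 by rw [hN, hv, sub_self])
  have := f1 u w
  simp only [B, hw] at this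
  rw [hN, sub_dotProduct, this, sub_self]

end Cfsg.Agent.S3213
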