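import Cfsg.Statements.S3215
import Cfsg.Agent.H2.Ms3

set_option autoImplicit false
open Cfsg

namespace Cfsg.Agent.S3215

open Subgroup hiding upperCentralSeries
open H2 Cfsg.FusionSystem

open Subgroup H2 H7 H1B
open scoped commutatorElement

theorem key {H : Type*} [Group H] [Finite H] (hsol : Group.IsSolvable H)
    (hO : Cfsg.oddCore H = ⊥)
    (hI : ∀ t : H, orderOf t = 2 → Cfsg.HasNormalPComplement 2 ↥(Subgroup.centralizer ({t} : Set H)))
    {t x : H} (ht : orderOf t = 2) (hx : (orderOf x).Coprime 2) (c : x ∈ cen1 t) : x = 1 := by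
  have hN : H7.NPC 2 (cen1 t) := H7.npc_iff.1 (hI t ht)
  have hY : IsPGroup 2 (pCore 2 H) := H1.isPGroup_pCore
  have ox : (ord (zpowers x)).Coprime 2 := by rwa [Nat.card_zpowers]
  have nY : ∀ A : Subgroup H, A ≤ nrm (pCore 2 H) := fun A => le_normalizer_of_normal
  have h1 : zpowers x ≤ cen (pCore 2 H ⊓ cen1 t) :=
    hN.le_cen (hY.to_le inf_le_left) inf_le_right (zpowers_le.2 c) ox
      (nrm_inf (nY _) ((zpowers_le.2 c).trans le_normalizer))
  have h2 : zpowers x ≤ cen (pCore 2 H) :=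
    pxq (p := 2) (P := zpowers t) (IsPGroup.of_card (n := 1) (by rw [Nat.card_zpowers, ht, pow_one])) ox
      (by rw [cen_zpowers, zpowers_le]; exact mem_cen1_comm.1 c) hY (nY _) (nY _)
      (by rw [cen_zpowers]; exact le_cen_symm h1)
  have h3 : zpowers x ≤ pCore 2 H := h2.trans (H1.centralizer_pCore_le_of_isSolvable hO)
  exact zpowers_eq_bot.1 (eq_bot_of_isPGroup_of_coprime (hY.to_le h3) ox)

theorem key2 {H : Type*} [Group H] [Finite H] (hsol : Group.IsSolvable H)
    (hO : Cfsg.oddCore H = ⊥)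
    (hI : ∀ t : H, orderOf t = 2 → Cfsg.HasNormalPComplement 2 ↥(Subgroup.centralizer ({t} : Set H)))
    {X W : Subgroup H} (hX : (ord X).Coprime 2) (hW : IsPGroup 2 W) : H1B.Reg X W := by
  intro x hx h1
  by_contra hne
  obtain ⟨k, hk⟩ := IsPGroup.iff_card.1 (hW.to_le (inf_le_left : W ⊓ cen1 x ≤ W))
  have hk0 : k ≠ 0 := by
    rintro rfl
    exact hne (card_eq_one.1 hk)
  obtain ⟨t, ht, ot⟩ := exists_inv (H := W ⊓ cen1 x) (by
    rw [hk]; exact (Nat.even_pow' hk0).2 even_two)
  exact h1 (key hsol hO hI ot (hX.coprime_dvd_left (Subgroup.orderOf_dvd_natCard X hx))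
    (mem_cen1_comm.1 ht.2))

/-- Let H be a finite solvable group with no nontrivial normal subgroup of odd order in which the centralizer of every involution has a normal 2-complement. Let X be a Hall 2'-subgroup of H (odd order, index a power of 2) and Y = O₂(H). Then no non-identity element of X commutes with a non-identity element of Y (so for X ≠ 1 the group XY is a Frobenius group with kernel Y), every Sylow subgroup of X is cyclic, XY is normal in H, and H/XY is a cyclic 2-group. -/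
theorem result {H : Type*} [Group H] [Finite H] (hsol : Group.IsSolvable H)
    (hO : Cfsg.oddCore H = ⊥)
    (hI : ∀ t : H, orderOf t = 2 → Cfsg.HasNormalPComplement 2 ↥(Subgroup.centralizer ({t} : Set H)))
    (X : Subgroup H) (hXodd : Odd (Nat.card X)) (hXidx : ∃ k : ℕ, X.index = 2 ^ k) :
    (∀ x ∈ X, x ≠ 1 → ∀ y ∈ Cfsg.pCore 2 H, y ≠ 1 → x * y ≠ y * x) ∧
      (∀ (p : ℕ) [Fact p.Prime] (P : Sylow p ↥X), IsCyclic ↥(P : Subgroup ↥X)) ∧
      (X ⊔ Cfsg.pCore 2 H).Normal ∧
      ∀ hN : (X ⊔ Cfsg.pCore 2 H).Normal, IsCyclic (H ⧸ (X ⊔ Cfsg.pCore 2 H)) ∧ IsPGroup 2 (H ⧸ (X ⊔ Cfsg.pCore 2 H)) := by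
  have hX : (ord X).Coprime 2 := (Nat.coprime_two_right).2 hXodd
  have hY : IsPGroup 2 (pCore 2 H) := H1.isPGroup_pCore
  set Y := pCore 2 H with hYd
  have nY : ∀ A : Subgroup H, A ≤ nrm Y := fun A => le_normalizer_of_normal
  have R := key2 hsol hO hI hX hY
  have p2 : ∀ (p : ℕ) [Fact p.Prime] (P : Sylow p ↥X), IsCyclic ↥(P : Subgroup ↥X) := by
    intro p _ P
    have hP : IsPGroup p ((P : Subgroup X).map X.subtype) := P.isPGroup'.map _
    have e := (P : Subgroup X).equivMapOfInjective X.subtype X.subtype_injective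
    refine (e.isCyclic).2 ?_
    by_cases hb : Y = ⊥
    · have h1 : cen Y ≤ Y := H1.centralizer_pCore_le_of_isSolvable hO
      have h2 : (P : Subgroup X).map X.subtype = ⊥ := by
        rw [eq_bot_iff, ← hb]
        exact le_trans (by rw [hb, cen_bot]; exact le_top) h1
      rw [h2]; infer_instance
    by_cases h2 : p = 2
    · subst h2
      have h3 : (P : Subgroup X).map X.subtype = ⊥ := eq_bot_of_isPGroup_of_coprime hP
          (hX.coprime_dvd_left (card_dvd_of_le (map_subtype_le _)))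
      rw [h3]; infer_instance
    · exact R.cyc (nY _) hb h2 hP (map_subtype_le _)
  haveI zX : IsZGroup X := ⟨fun p hp P => @p2 p ⟨hp⟩ P⟩
  let f := QuotientGroup.mk' Y
  have hf : Function.Surjective f := QuotientGroup.mk'_surjective Y
  set F := fittingSubgroup (H ⧸ Y) with hFd
  obtain ⟨k, hk⟩ := hXidx
  have iX : (X.map f).index ∣ 2 ^ k := hk ▸ index_map_dvd X hf
  have oF : (ord F).Coprime 2 := by
    have h1 := H1.fitting_le_pCore_sup_pPrimeCore (G := H ⧸ Y) Nat.prime_two
    have h0 : pCore 2 (H ⧸ Y) = ⊥ := H1.pCore_quotient_pCore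
    rw [h0, bot_sup_eq, H7.pPrimeCore_eq 2] at h1
    exact (coprime_Op' 2 ⊤).coprime_dvd_left (card_dvd_of_le h1)
  have FX : F ≤ X.map f := by
    have hH : Hall {2}ᶜ (X.map f) ⊤ := hall_top_iff.1
      ⟨piN_compl_iff.2 (hX.coprime_dvd_left (card_map_dvd X f)), fun p hp h1 h2 =>
        h1 ((Nat.prime_dvd_prime_iff_eq hp Nat.prime_two).1 (hp.dvd_of_dvd_pow (h2.trans iX)))⟩
    exact hH.le_of_normal le_top le_normalizer_of_normal (piN_compl_iff.2 oF)
  have cF : IsCyclic F := by
    haveI : IsZGroup (X.map f) := IsZGroup.of_surjective (f := f.subgroupMap X) (f.subgroupMap_surjective X)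
    haveI : IsZGroup F := IsZGroup.of_injective (f := inclusion FX) (inclusion_injective FX)
    infer_instance
  have cenF : cen F ≤ F := H1.centralizer_fitting_le
  have nF : ∀ A : Subgroup (H ⧸ Y), A ≤ nrm F := fun A => le_normalizer_of_normal
  have dF : ⁅(⊤ : Subgroup (H ⧸ Y)), (⊤ : Subgroup (H ⧸ Y))⁆ ≤ F :=
    (H7.der_le_cen_of_cyc cF (nF _) (nF _)).trans cenF
  have nX : (X.map f).Normal := by
    refine ⟨fun a ha g => ?_⟩
    have : g * a * g⁻¹ = ⁅g, a⁆ * a := by rw [commutatorElement_def]; group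
    rw [this]
    exact mul_mem (FX (dF (commutator_mem_commutator (mem_top g) (mem_top a)))) ha
  have eX : (X.map f).comap f = X ⊔ Y := by rw [comap_map_eq, QuotientGroup.ker_mk']
  refine ⟨fun x hx h1 y hy h2 e => h2 ?_, p2, eX ▸ nX.comap f, fun hN => ⟨?_, ?_⟩⟩
  · have : y ∈ Y ⊓ cen1 x := ⟨hy, mem_cen1.2 e.symm⟩
    rwa [R x hx h1, mem_bot] at this
  · obtain ⟨T⟩ : Nonempty (Sylow 2 (H ⧸ Y)) := inferInstance
    have cT : IsCyclic (T : Subgroup (H ⧸ Y)) := by
      by_cases hb : F = ⊥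
      · have h2 : (T : Subgroup (H ⧸ Y)) = ⊥ := by
          rw [eq_bot_iff, ← hb]
          exact le_trans (by rw [hb, cen_bot]; exact le_top) cenF
        rw [h2]; infer_instance
      have aT : IsMulCommutative (T : Subgroup (H ⧸ Y)) := by
        apply isComm_of_der
        rw [eq_bot_iff]
        have h1 : ⁅(T : Subgroup (H ⧸ Y)), (T : Subgroup (H ⧸ Y))⁆ ≤ (T : Subgroup (H ⧸ Y)) ⊓ F :=
          le_inf (der_le _) ((commutator_mono le_top le_top).trans dF)
        exact h1.trans (inf_eq_bot_of_isPGroup T.isPGroup' oF).le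
      have rT : H7.Reg F T := by
        refine H7.reg_of_prime fun p hp V hV oV => ?_
        obtain ⟨j, hj⟩ := IsPGroup.iff_card.1 (T.isPGroup'.to_le hV)
        have hp2 : p = 2 := by
          have : p ∣ 2 ^ j := by rw [← hj]; exact oV ▸ dvd_rfl
          exact (Nat.prime_dvd_prime_iff_eq hp Nat.prime_two).1 (hp.dvd_of_dvd_pow this)
        subst hp2
        rw [eq_bot_iff]
        rintro _ ⟨hu, hc⟩
        obtain ⟨u, huX, rfl⟩ := FX hu
        have hW : IsPGroup 2 (V.comap f) :=
          (T.isPGroup'.to_le hV).comap_of_ker_isPGroup f (by rw [QuotientGroup.ker_mk']; exact hY)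
        have ou : (ord (zpowers u)).Coprime 2 := hX.coprime_dvd_left (card_dvd_of_le (zpowers_le.2 huX))
        have nW : zpowers u ≤ nrm (V.comap f) := by
          rw [zpowers_le]
          have : f u ∈ nrm V := le_nrm_of_le_cen le_rfl hc
          exact le_normalizer_comap f this
        have m1 := (key2 hsol hO hI ou hW).modEq nW
        have m2 := (key2 hsol hO hI ou hY).modEq (nY _)
        have oW : ord (V.comap f) = 2 * ord Y := by
          have := H1.card_comap_mk' Y V
          rw [this]; exact congrArg (· * _) oV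
        rw [oW] at m1
        have m3 : 2 ≡ 1 [MOD ord (zpowers u)] := by
          have := (m2.mul_left 2).symm.trans m1
          rwa [mul_one] at this
        have m4 : ord (zpowers u) = 1 := by
          have := (Nat.modEq_iff_dvd' (by norm_num)).1 m3.symm
          exact Nat.dvd_one.1 this
        have : u ∈ (⊥ : Subgroup H) := card_eq_one.1 m4 ▸ mem_zpowers u
        rw [mem_bot.1 this, map_one]; exact one_mem _
      exact rT.cyc (nF _) hb aT
    let g : H ⧸ Y →* H ⧸ (X ⊔ Y) := QuotientGroup.map Y (X ⊔ Y) (MonoidHom.id H) le_sup_right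
    refine isCyclic_of_surjective (g.comp (T : Subgroup (H ⧸ Y)).subtype) fun z => ?_
    obtain ⟨z, rfl⟩ := QuotientGroup.mk_surjective z
    obtain ⟨a, ha, b, hb, e⟩ := H1.mul_eq_univ_of_coprime_index (H := (T : Subgroup (H ⧸ Y))) (K := X.map f)
      (Nat.Coprime.coprime_dvd_right iX (Nat.Coprime.pow_right k
        ((Nat.Prime.coprime_iff_not_dvd Nat.prime_two).2 T.not_dvd_index).symm)) (f z)
    refine ⟨⟨a, ha⟩, ?_⟩
    obtain ⟨x, hx, rfl⟩ := hb
    have e1 : g (f z) = z := rfl
    have e2 : g (f x) = 1 := (QuotientGroup.eq_one_iff x).2 (mem_sup_left hx)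
    rw [← e1, e, map_mul, e2, mul_one]; rfl
  · obtain ⟨j, -, hj⟩ := (Nat.dvd_prime_pow Nat.prime_two).1
      (hk ▸ index_dvd_of_le (le_sup_left : X ≤ X ⊔ Y))
    exact IsPGroup.of_card hj

end Cfsg.Agent.S3215
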