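import Cfsg.Statements.S3224
import Cfsg.Agent.H1.Two4

set_option autoImplicit false
open Cfsg

namespace Cfsg.Agent.S3224

open H7 H1B Subgroup

/-- A finite 2-group containing an involution whose centralizer has order 4 is dihedral, quasi-dihedral (semidihedral), or of order 4. -/
theorem result {S : Type*} [Group S] [Finite S] (hS : IsPGroup 2 S)
    (x : S) (hx : orderOf x = 2) (hC : Nat.card ↥(Subgroup.centralizer ({x} : Set S)) = 4) :
    (∃ n : ℕ, Nonempty (S ≃* DihedralGroup n)) ∨ Cfsg.IsQuasiDihedral S ∨ Nat.card S = 4 := by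
  by_cases hc : IsMulCommutative S
  · refine .inr (.inr ?_)
    rw [← hC, ← card_top (G := S)]
    exact congrArg (fun H : Subgroup S => Nat.card H)
      (top_le_iff.1 fun g _ => mem_cen1.2 (comm_top.1 (comm_top'.2 hc) g x)).symm
  obtain ⟨a, w, n, h⟩ := mx_of_der hS ((index_der_le x).trans hC.le) hc
  rcases h.types_top with e | ⟨⟨e⟩⟩ | e
  · exact .inl ⟨_, e⟩
  · obtain ⟨a, h, h'⟩ := mx_of_quat (topEquiv.trans e)
    have xa : x ∈ zpowers a := by
      by_contra hx'; exact h.z_ne ((h' x trivial hx').symm.trans (ord2.1 hx).1)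
    have l := card_le_of_le (le_cen1_iff.2 h.z_cen)
    rw [← inv_unique_zpowers xa MX.z_memA hx h.z_ord, h.card, pow_add] at l
    have := Nat.one_le_two_pow (n := n)
    omega
  · exact .inr (.inl e)

end Cfsg.Agent.S3224
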