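import Cfsg.Statements.S3225
import Cfsg.Agent.H7.PP
import Cfsg.Agent.H2.Transfer

set_option autoImplicit false
open Cfsg

namespace Cfsg.Agent.S3225
open H7
open scoped commutatorElement

/-- Let G be a finite group of even order with no subgroup of index 2, S a Sylow 2-subgroup of G and M a subgroup of index 2 in S such that, for some n ≥ 1, every element of S outside M has order greater than 2^(n−1). Then every element of S of order 2ⁿ is conjugate in G to an element of M. -/
theorem result {G : Type*} [Group G] [Finite G] (hev : Even (Nat.card G))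
    (hG : ∀ H : Subgroup G, H.index ≠ 2) (S : Sylow 2 G) (M : Subgroup G) (hMS : M ≤ (S : Subgroup G)) (hM : M.relIndex (S : Subgroup G) = 2)
    (n : ℕ) (hn : 1 ≤ n) (hord : ∀ y ∈ (S : Subgroup G), y ∉ M → 2 ^ (n - 1) < orderOf y)
    (x : G) (hx : x ∈ (S : Subgroup G)) (hxn : orderOf x = 2 ^ n) :
    ∃ g : G, g * x * g⁻¹ ∈ M := by
  open Subgroup in
  by_contra h
  push Not at h
  refine (H2.thompson_transfer' S.not_dvd_index hM hx (fun k g hk hg => ?_) fun k g hk hg => by_contra fun nn => ?_).elim
    fun N h => hG N h.2.1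
  · have c : Nat.Coprime k (orderOf x) := by
      rw [hxn]; exact (Nat.Coprime.pow_right _ (Odd.coprime_two_right hk))
    obtain ⟨m, hm⟩ := exists_pow_eq_self_of_coprime c
    refine h g ?_
    have := pow_mem hg m
    rwa [conj_pow, hm] at this
  obtain ⟨m, rfl⟩ := hk
  have := hord _ hg nn
  have d : orderOf (g * x ^ (m + m) * g⁻¹) ∣ 2 ^ (n - 1) := orderOf_dvd_of_pow_eq_one (by
    rw [conj_pow, ← pow_mul, ← two_mul, mul_right_comm, ← pow_succ', Nat.sub_add_cancel hn, pow_mul, ← hxn, pow_orderOf_eq_one]; simp)
  exact absurd (Nat.le_of_dvd (by positivity) d) (not_le.2 this)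

end Cfsg.Agent.S3225
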