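import Cfsg.Statements.S3246
import Cfsg.Agent.H7.Tk3

set_option autoImplicit false
open Cfsg

namespace Cfsg.Agent.S3246
open H7
open scoped commutatorElement

/-- Let G be a finite group whose Sylow 2-subgroup S has a self-centralizing normal subgroup of rank at least 3. Suppose that either every maximal 2-local subgroup of G is 2-constrained with no nontrivial normal subgroup of odd order, or the centralizer of every involution of G is 2-constrained with no nontrivial normal subgroup of odd order. Then S normalizes no nontrivial subgroup of G of odd order and every 2-local subgroup of G is 2-constrained. -/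
theorem result {G : Type*} [Group G] [Finite G]
    (S : Sylow 2 G) (A : Subgroup G) (hA : Cfsg.IsSCN (S : Subgroup G) A) (hA3 : ¬ Cfsg.PRankLE 2 2 ↥A)
    (h : (∀ M : Subgroup G, Cfsg.IsMaximalTwoLocal M → Cfsg.IsPConstrained 2 ↥M ∧ Cfsg.oddCore ↥M = ⊥) ∨
      (∀ t : G, orderOf t = 2 → Cfsg.IsPConstrained 2 ↥(Subgroup.centralizer ({t} : Set G)) ∧
        Cfsg.oddCore ↥(Subgroup.centralizer ({t} : Set G)) = ⊥)) :
    (∀ X : Subgroup G, Odd (Nat.card ↥X) → (S : Subgroup G) ≤ Subgroup.normalizer (X : Set G) → X = ⊥) ∧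
      (∀ T : Subgroup G, IsPGroup 2 ↥T → T ≠ ⊥ → Cfsg.IsPConstrained 2 ↥(Subgroup.normalizer (T : Set G))) := by
  open Subgroup in
    have k : ∀ t : G, orderOf t = 2 → Fst (cen1 t) = Op 2 (cen1 t) := fun t ht => by
      rcases h with h | h
      · have z := isPGroup_zpowers_of_orderOf ht
        obtain ⟨M, a, -, b, c⟩ := exists_max_local z (zpowers_ne_bot' (ne_one_of_orderOf ht)) (fun _ => True) trivial
        have := h M ⟨a, fun N h1 h2 => c N h1 trivial h2⟩
        have := Fst_nrm_eq_Op (Fst_eq_of_PLay (isPConstrained_iff.1 this.1) (pPrimeCore_eq_bot_iff.1 this.2)) z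
          ((le_nrm_self _).trans b)
        rw [inf_eq_right.2 b] at this
        exact Fst_cen1_of_nrm ht this
      · exact Fst_eq_of_PLay (isPConstrained_iff.1 (h t ht).1) (pPrimeCore_eq_bot_iff.1 (h t ht).2)
    refine ⟨fun X h1 h2 => ?_, fun T h1 h2 => isPConstrained_iff.2 (PLay_eq_bot_of_Fst (Fst_nrm_of_all k h1 h2))⟩
    obtain ⟨U, a, b, c, d⟩ := exists_normal_pp S.isPGroup' fun r => hA3 (pRankLE_iff.2 (r.of_le hA.1))
    exact eq_bot_of_four (H2.sylow_isSylowIn_top S) a b c d (fun t h3 h4 => k t (c.orderOf h3 h4))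
      (odd_iff_coprime.1 h1) (inf_le_left.trans h2)

end Cfsg.Agent.S3246
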