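import Cfsg.Statements.S3247
import Cfsg.Agent.H7.Tk3

set_option autoImplicit false
open Cfsg

namespace Cfsg.Agent.S3247
open H7
open scoped commutatorElement

/-- Let G be a finite group and p a prime; here a p-local subgroup means the normalizer of a nontrivial p-subgroup, other than G itself. If every p-local subgroup of G that is maximal among p-local subgroups is p-constrained, or if the centralizer of every element of order p of G is p-constrained, then every p-local subgroup of G is p-constrained. -/
theorem result {G : Type*} [Group G] [Finite G] (p : ℕ) [hp : Fact p.Prime]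
    (h : (∀ M : Subgroup G, (∃ T : Subgroup G, IsPGroup p ↥T ∧ T ≠ ⊥ ∧ M = Subgroup.normalizer (T : Set G)) → M ≠ ⊤ →
        (∀ M' : Subgroup G, (∃ T' : Subgroup G, IsPGroup p ↥T' ∧ T' ≠ ⊥ ∧ M' = Subgroup.normalizer (T' : Set G)) → M' ≠ ⊤ → M ≤ M' → M = M') →
        Cfsg.IsPConstrained p ↥M) ∨
      (∀ x : G, orderOf x = p → Cfsg.IsPConstrained p ↥(Subgroup.centralizer ({x} : Set G))))
    (T : Subgroup G) (hT : IsPGroup p ↥T) (hT1 : T ≠ ⊥) (hTG : Subgroup.normalizer (T : Set G) ≠ ⊤) :
    Cfsg.IsPConstrained p ↥(Subgroup.normalizer (T : Set G)) := by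
  open Subgroup in
    refine isPConstrained_iff.2 ?_
    rcases h with h | h
    · obtain ⟨M, a, b, c, d⟩ := exists_max_local hT hT1 (· ≠ ⊤) hTG
      have := (pcon_nrm (isPConstrained_iff.1 (h M a b fun N h1 h2 h3 => (d N h1 h2 h3).symm)) hT
        ((le_nrm_self _).trans c)).1
      rwa [inf_eq_right.2 c] at this
    · exact PLay_nrm_of_all (fun t ht => isPConstrained_iff.1 (h t ht)) hT hT1

end Cfsg.Agent.S3247
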