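import Cfsg.Statements.S3269
import Mathlib
import Cfsg.Agent.H8.Invol

set_option autoImplicit false
open Cfsg

namespace Cfsg.Agent.S3269

open scoped commutatorElement IsMulCommutative
open Subgroup in
/-- `z` is the unique involution of a direct factor of order `m` and lies in its derived subgroup -/
def Zs {S : Type*} [Group S] (m : ℕ) (z : S) : Prop :=
  ∃ A B : Subgroup S, Cfsg.IsInternalDirectProduct A B ⊤ ∧ Nat.card A = m ∧ z ≠ 1 ∧ z ^ 2 = 1 ∧
    z ∈ ⁅A, A⁆ ∧ ∀ y ∈ A, y ^ 2 = 1 → y ≠ 1 → y = z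

theorem Zs.map {S : Type*} [Group S] {m : ℕ} {z : S} (h : Zs m z) (φ : S ≃* S) : Zs m (φ z) := by
  obtain ⟨A, B, ⟨-, -, h1, h2, h3⟩, h4, h5, h6, h7, h8⟩ := h
  refine ⟨A.map φ.toMonoidHom, B.map φ.toMonoidHom, ⟨le_top, le_top, ?_, ?_, ?_⟩, ?_, by simpa using h5,
    by rw [← map_pow, h6, map_one], ?_, ?_⟩
  · rintro _ ⟨a, ha, rfl⟩ _ ⟨b, hb, rfl⟩
    rw [← map_mul, h1 a ha b hb, map_mul]
  · rw [← Subgroup.map_inf _ _ _ φ.injective, h2, Subgroup.map_bot]
  · rw [← Subgroup.map_sup, h3, Subgroup.map_top_of_surjective _ φ.surjective]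
  · rw [Subgroup.card_map_of_injective φ.injective, h4]
  · rw [← Subgroup.map_commutator]; exact ⟨z, h7, rfl⟩
  · rintro _ ⟨y, hy, rfl⟩ e1 e2
    rw [h8 y hy (φ.injective (by simpa using e1)) (by simpa using e2)]; rfl

open Subgroup in
theorem decomp {S : Type*} [Group S] {A B : Subgroup S} (h : Cfsg.IsInternalDirectProduct A B ⊤) :
    A.Normal ∧ B.Normal ∧ ∀ s, ∃ a ∈ A, ∃ b ∈ B, a * b = s := by
  obtain ⟨-, -, h1, h2, h3⟩ := h
  have hA : A.Normal := normalizer_eq_top_iff.1 (top_le_iff.1 (h3 ▸ sup_le le_normalizer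
    ((le_centralizer_iff.1 fun a ha b hb => (h1 a ha b hb).symm).trans (centralizer_le_normalizer _))))
  have hB : B.Normal := normalizer_eq_top_iff.1 (top_le_iff.1 (h3 ▸ sup_le
    (le_trans (show A ≤ centralizer (B : Set S) from fun a ha b hb => (h1 a ha b hb).symm)
      (centralizer_le_normalizer _)) le_normalizer))
  exact ⟨hA, hB, fun s => by
    have : s ∈ ((A ⊔ B : Subgroup S) : Set S) := h3 ▸ mem_top s
    rw [mul_normal] at this
    exact this⟩

open Subgroup in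
theorem Zs.mem {S : Type*} [Group S] [Finite S] {A B : Subgroup S}
    (h : Cfsg.IsInternalDirectProduct A B ⊤) {z w : S} (hz : z ∈ ⁅A, A⁆) (hz1 : z ≠ 1)
    (hz2 : z ^ 2 = 1) (hw : Zs (Nat.card A) w) (hne : w ≠ z) (hS : IsPGroup 2 S) : w ∈ B := by
  obtain ⟨hA, hB, hd⟩ := decomp h
  obtain ⟨A', B', h', h4, h5, h6, h7, h8⟩ := hw
  obtain ⟨hA', hB', hd'⟩ := decomp h'
  by_contra hwB
  have hi : A' ⊓ B = ⊥ := by
    by_contra hne
    haveI := (nontrivial_iff_ne_bot _).2 hne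
    obtain ⟨k, hk, e⟩ := (hS.to_subgroup (A' ⊓ B)).nontrivial_iff_card.1 this
    obtain ⟨y, hy⟩ := exists_prime_orderOf_dvd_card' (G := (A' ⊓ B : Subgroup S)) 2
      (e ▸ dvd_pow_self 2 hk.ne')
    have := h8 y y.2.1 (by exact_mod_cast congrArg Subtype.val (orderOf_dvd_iff_pow_eq_one.1 hy.dvd))
      (fun e => by rw [show y = 1 from Subtype.ext e] at hy; simp at hy)
    exact hwB (this ▸ y.2.2)
  have hsup : A' ⊔ B = ⊤ := by
    have e1 := H1.card_sup_mul_card_inf (H := A') (N := B) (by rw [normalizer_eq_top]; exact le_top)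
    have e2 := H1.card_sup_mul_card_inf (H := A) (N := B) (by rw [normalizer_eq_top]; exact le_top)
    rw [hi] at e1
    rw [h.2.2.2.1, h.2.2.2.2, ← h4, ← e1] at e2
    exact eq_top_of_card_eq _ (by simpa using e2.symm)
  have hc : ⁅A', B⁆ = ⊥ := le_bot_iff.1 (hi ▸ commutator_le_inf A' B)
  have hle : ⁅A, A⁆ ≤ A' := by
    rw [commutator_le]
    intro a ha c hc'
    have : a ∈ ((A' ⊔ B : Subgroup S) : Set S) := hsup ▸ mem_top a
    rw [mul_normal] at this
    obtain ⟨a', ha', b, hb, rfl⟩ := this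
    have e : b * c = c * b := (h.2.2.1 c hc' b hb).symm
    have : ⁅a' * b, c⁆ = a' * (c * a'⁻¹ * c⁻¹) := by
      rw [commutatorElement_def, mul_assoc a' b c, e]; group
    rw [this]
    exact mul_mem ha' (hA'.conj_mem _ (inv_mem ha') c)
  exact hne (h8 z (hle hz) hz2 hz1).symm

theorem quat (n : ℕ) (hn : 1 ≤ n) : ∃ z : QuaternionGroup (2 ^ n), z ≠ 1 ∧ z ^ 2 = 1 ∧
    z ∈ commutator (QuaternionGroup (2 ^ n)) ∧ (∀ s, s * z = z * s) ∧
    (∀ y, y ^ 2 = 1 → y ≠ 1 → y = z) ∧ ∃ y : QuaternionGroup (2 ^ n), y ^ 2 ≠ 1 := by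
  obtain ⟨n, rfl⟩ : ∃ k, n = k + 1 := ⟨n - 1, by omega⟩
  have hz1 : (QuaternionGroup.a ((2 ^ (n + 1) : ℕ) : ZMod (2 * 2 ^ (n + 1))) : QuaternionGroup (2 ^ (n + 1))) ≠ 1 := by
    rw [← QuaternionGroup.xa_sq 0]
    intro e
    have := orderOf_dvd_of_pow_eq_one e
    rw [QuaternionGroup.orderOf_xa] at this
    omega
  have hz2 : (QuaternionGroup.a ((2 ^ (n + 1) : ℕ) : ZMod (2 * 2 ^ (n + 1))) : QuaternionGroup (2 ^ (n + 1))) ^ 2 = 1 := by
    rw [← QuaternionGroup.xa_sq 0, ← pow_mul]; exact QuaternionGroup.xa_pow_four 0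
  have hc : ∀ s, s * (QuaternionGroup.a ((2 ^ (n + 1) : ℕ) : ZMod (2 * 2 ^ (n + 1))) : QuaternionGroup (2 ^ (n + 1))) =
      QuaternionGroup.a ((2 ^ (n + 1) : ℕ) : ZMod (2 * 2 ^ (n + 1))) * s := by
    rintro (i | i)
    · simp [add_comm]
    · rw [← QuaternionGroup.xa_sq i]; exact ((Commute.refl _).pow_right 2).eq
  refine ⟨_, hz1, hz2, ?_, hc, fun y h2 h1 => H9.ui_quaternion _ y trivial _ trivial h1 hz1 h2 hz2 (hc y),
    QuaternionGroup.xa 0, by rwa [QuaternionGroup.xa_sq]⟩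
  have : (QuaternionGroup.a ((2 ^ (n + 1) : ℕ) : ZMod (2 * 2 ^ (n + 1))) : QuaternionGroup (2 ^ (n + 1))) =
      ⁅QuaternionGroup.a ((2 ^ n : ℕ) : ZMod (2 * 2 ^ (n + 1))), QuaternionGroup.xa 0⁆ := by
    rw [commutatorElement_def, eq_mul_inv_iff_mul_eq, eq_mul_inv_iff_mul_eq]
    simp only [QuaternionGroup.a_mul_xa, QuaternionGroup.xa_mul_a, QuaternionGroup.xa.injEq]
    push_cast; ring
  rw [this]
  exact Subgroup.commutator_mem_commutator trivial trivial

/-- Let G be a finite group whose Sylow 2-subgroup S is an internal direct product Q × R with Q generalized quaternion (of order at least 8) and R a subgroup all of whose involutions are central in R. Then G is not simple. In particular no finite simple group has a Sylow 2-subgroup that is a direct product of one or more generalized quaternion groups. -/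
theorem result {G : Type*} [Group G] [Finite G]
    (S : Sylow 2 G) (Q R : Subgroup G) (hQR : Cfsg.IsInternalDirectProduct Q R (S : Subgroup G))
    (n : ℕ) (hn : 1 ≤ n) (eQ : ↥Q ≃* QuaternionGroup (2 ^ n))
    (hR : ∀ r ∈ R, orderOf r = 2 → ∀ s ∈ R, r * s = s * r) :
    ¬ IsSimpleGroup G := by
  intro hsimple
  classical
  obtain ⟨z0, h1, h2, h3, h4, h5, y0, h6⟩ := quat n hn
  obtain ⟨hQ, hRS, hcomm, hinf, hsup⟩ := hQR
  let A := Q.subgroupOf (S : Subgroup G)
  let B := R.subgroupOf (S : Subgroup G)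
  have hAB : Cfsg.IsInternalDirectProduct A B ⊤ := ⟨le_top, le_top,
    fun a ha b hb => Subtype.ext (hcomm _ ha _ hb),
    (Subgroup.eq_bot_iff_forall _).2 fun x hx => Subtype.ext
      ((Subgroup.eq_bot_iff_forall _).1 hinf _ ⟨hx.1, hx.2⟩), by
      rw [← Subgroup.subgroupOf_sup hQ hRS, hsup, Subgroup.subgroupOf_self]⟩
  let e : QuaternionGroup (2 ^ n) ≃* A := ((Subgroup.subgroupOfEquivOfLe hQ).trans eQ).symm
  have hzA : ((e z0 : A) : S) ∈ ⁅A, A⁆ := by
    rw [← Subgroup.map_subtype_commutator]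
    have : e z0 ∈ (commutator _).map e.toMonoidHom := ⟨z0, h3, rfl⟩
    rw [map_commutator_eq] at this
    exact ⟨e z0, Subgroup.commutator_mono le_top le_top this, rfl⟩
  have huniq : ∀ y ∈ A, y ^ 2 = 1 → y ≠ 1 → y = e z0 := fun y hy a1 a2 => by
    rw [← h5 (e.symm ⟨y, hy⟩) (by rw [← map_pow, show (⟨y, hy⟩ : A) ^ 2 = 1 from Subtype.ext a1, map_one])
      (by simpa using a2)]
    simp
  have hz1 : ((e z0 : A) : S) ≠ 1 := by simpa using h1
  have hz2 : ((e z0 : A) : S) ^ 2 = 1 := by exact_mod_cast (by rw [← map_pow, h2, map_one] : (e z0) ^ 2 = 1)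
  have hZ : Zs (Nat.card A) ((e z0 : A) : S) := ⟨A, B, hAB, rfl, hz1, hz2, hzA, huniq⟩
  obtain ⟨-, -, hd⟩ := decomp hAB
  have hcen : ∀ y : S, y ^ 2 = 1 → y ∈ Subgroup.center S := fun y hy => by
    obtain ⟨a, ha, b, hb, rfl⟩ := hd y
    have hab : Commute a b := hAB.2.2.1 a ha b hb
    rw [hab.mul_pow] at hy
    have ha2 : a ^ 2 = 1 := (Subgroup.eq_bot_iff_forall _).1 hAB.2.2.2.1 _ ⟨pow_mem ha 2, by
      rw [eq_inv_of_mul_eq_one_left hy]; exact B.inv_mem (B.pow_mem hb 2)⟩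
    rw [ha2, one_mul] at hy
    refine mul_mem (Subgroup.mem_center_iff.2 fun s => ?_) (Subgroup.mem_center_iff.2 fun s => ?_)
    · obtain ⟨c, hc, d, hd, rfl⟩ := hd s
      have : c * a = a * c := by
        by_cases ha1 : a = 1
        · simp [ha1]
        · rw [huniq a ha ha2 ha1]
          simpa using congrArg (fun x => ((e x : A) : S)) (h4 (e.symm ⟨c, hc⟩))
      rw [mul_assoc, ← hAB.2.2.1 a ha d hd, ← mul_assoc, this, mul_assoc]
    · obtain ⟨c, hc, d, hd, rfl⟩ := hd s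
      have : d * b = b * d := by
        by_cases hb1 : b = 1
        · simp [hb1]
        · exact Subtype.ext (hR b hb (by rw [Subgroup.orderOf_coe]; exact orderOf_eq_prime hy hb1) d hd).symm
      rw [mul_assoc, this, ← mul_assoc, hAB.2.2.1 c hc b hb, mul_assoc]
  haveI := Fintype.ofFinite (Subgroup.center S)
  let Z : Finset (Subgroup.center S) := Finset.univ.filter fun z => Zs (Nat.card A) z.1
  let t : Subgroup.center S := ∏ z ∈ Z, z
  have ht2 : t ^ 2 = 1 := by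
    rw [← Finset.prod_pow]
    refine Finset.prod_eq_one fun z hz => Subtype.ext ?_
    obtain ⟨_, _, -, -, -, h, -⟩ := (Finset.mem_filter.1 hz).2
    exact h
  have ht1 : t ≠ 1 := fun h => by
    have hm : (⟨_, hcen _ hz2⟩ : Subgroup.center S) ∈ Z := Finset.mem_filter.2 ⟨Finset.mem_univ _, hZ⟩
    have := Finset.mul_prod_erase Z (fun z => z) hm
    have hb : ∏ z ∈ Z.erase ⟨_, hcen _ hz2⟩, z ∈ B.subgroupOf (Subgroup.center S) :=
      prod_mem fun w hw => Zs.mem hAB hzA hz1 hz2 (Finset.mem_filter.1 (Finset.mem_of_mem_erase hw)).2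
        (fun e => (Finset.mem_erase.1 hw).1 (Subtype.ext e)) S.2
    rw [show (∏ z ∈ Z, z) = 1 from h, mul_eq_one_iff_eq_inv] at this
    refine hz1 ((Subgroup.eq_bot_iff_forall _).1 hAB.2.2.2.1 _ ⟨(e z0).2, ?_⟩)
    have h' := inv_mem hb
    rw [← this] at h'
    exact h'
  have hfix : ∀ φ : S ≃* S, φ t = t := fun φ => by
    have : Subgroup.centerCongr φ t = t := by
      rw [map_prod]
      refine Finset.prod_bijective (Subgroup.centerCongr φ) (Subgroup.centerCongr φ).bijective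
        (fun z => ?_) fun _ _ => rfl
      simp only [Z, Finset.mem_filter, Finset.mem_univ, true_and]
      exact ⟨fun h => h.map φ, fun h => φ.symm_apply_apply z ▸ h.map φ.symm⟩
    exact congrArg Subtype.val this
  have hN : ∀ n ∈ Subgroup.normalizer (S : Set G), n * ((t : S) : G) * n⁻¹ = t := fun n hn =>
    congrArg Subtype.val (hfix ((S : Subgroup G).normalizerMonoidHom ⟨n, hn⟩))
  have hT2 : ((t : S) : G) ^ 2 = 1 := by exact_mod_cast ht2
  have hall := H8.card_eq_two_of_isolated hT2 (by simpa using ht1) fun _ => (H9.iso_of_sylow (H1.isSylowIn_top S) hT2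
    fun g hg => H8.conj_eq_of_mem_centralizer_sylow S hN g fun s hs => congrArg Subtype.val
      (Subgroup.mem_center_iff.1 (hcen ⟨_, hg⟩ (Subtype.ext (by simp [conj_pow, hT2]))) ⟨s, hs⟩)).eq_of_commute
  exact h6 (eQ.symm.injective (by rw [map_pow, map_one]; exact Subtype.ext (hall _)))

end Cfsg.Agent.S3269
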