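import Cfsg.Statements.S3276
import Mathlib
import Cfsg.Agent.H1.SylowIn
import Cfsg.Agent.H8.Dihedral

set_option autoImplicit false
open Cfsg

namespace Cfsg.Agent.S3276

open Subgroup

/-- Let x and y be commuting, non-conjugate involutions of a finite group G, and suppose that for every involution u commuting with x, each conjugate of y that commutes with u also commutes with y. Then the normal closure of y is a proper, normal, elementary abelian 2-subgroup of G; and if y is the only involution of that normal closure commuting with x, it has order at most 4. -/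
theorem result {G : Type*} [Group G] [Finite G] (x y : G) (hx : orderOf x = 2) (hy : orderOf y = 2)
    (hxy : Commute x y) (hnc : ¬ IsConj x y)
    (hstar : ∀ u : G, orderOf u = 2 → Commute u x → ∀ g : G, Commute (g * y * g⁻¹) u → Commute (g * y * g⁻¹) y) :
    Subgroup.normalClosure ({y} : Set G) ≠ ⊤ ∧ Cfsg.IsElementaryAbelian 2 (Subgroup.normalClosure ({y} : Set G)) ∧
      ((∀ u ∈ Subgroup.normalClosure ({y} : Set G), orderOf u = 2 → Commute u x → u = y) →
        Nat.card ↥(Subgroup.normalClosure ({y} : Set G)) ≤ 4) := by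
  have hx2 : x * x = 1 := by rw [← sq, ← hx, pow_orderOf_eq_one]
  have hy2 : y * y = 1 := by rw [← sq, ← hy, pow_orderOf_eq_one]
  have h1 : ∀ g, Commute (g * y * g⁻¹) y := by
    intro g
    have hy' : (g * y * g⁻¹) * (g * y * g⁻¹) = 1 := by
      calc _ = g * (y * y) * g⁻¹ := by group
        _ = 1 := by rw [hy2]; group
    rcases Nat.even_or_odd (orderOf (x * (g * y * g⁻¹))) with h | h
    · obtain ⟨z, -, hz, e1, e2⟩ := H8.exists_central_invol_of_even hx2 hy' h
      exact hstar z hz e1.symm g e2
    · obtain ⟨k, -, hk⟩ := H8.exists_invol_conj_of_odd hx2 hy' h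
      exact absurd ((isConj_iff.2 ⟨_, hk⟩).trans (isConj_iff.2 ⟨g, rfl⟩).symm) hnc
  have h2 : ∀ a ∈ Group.conjugatesOfSet ({y} : Set G), ∃ g, g * y * g⁻¹ = a := by
    intro a ha
    obtain ⟨b, rfl, hb⟩ := Group.mem_conjugatesOfSet_iff.1 ha
    exact isConj_iff.1 hb
  have hcomm : IsMulCommutative (normalClosure ({y} : Set G)) := by
    apply isMulCommutative_closure
    intro a ha b hb
    obtain ⟨g, rfl⟩ := h2 a ha
    obtain ⟨h, rfl⟩ := h2 b hb
    have := (h1 (h⁻¹ * g)).eq
    calc g * y * g⁻¹ * (h * y * h⁻¹) = h * (h⁻¹ * g * y * (h⁻¹ * g)⁻¹ * y) * h⁻¹ := by group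
      _ = _ := by rw [this]; group
  have hexp : ∀ a ∈ normalClosure ({y} : Set G), a ^ 2 = 1 := by
    intro a ha
    induction ha using closure_induction with
    | mem a ha =>
      obtain ⟨g, rfl⟩ := h2 a ha
      rw [conj_pow, sq, hy2]; simp
    | one => simp
    | mul a b ha hb iha ihb =>
      rw [(show Commute a b from H1.comm_of_mem (H := normalClosure {y}) ha hb).mul_pow, iha, ihb, one_mul]
    | inv a _ ih => rw [inv_pow, ih, inv_one]
  refine ⟨fun h => ?_, ⟨hcomm, hexp⟩, fun hu => ?_⟩
  · have h3 : (zpowers y).Normal := ⟨fun a ha g => by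
      have e : g * a = a * g := H1.comm_of_mem (H := normalClosure {y}) (h ▸ mem_top g) (h ▸ mem_top a)
      rw [e, mul_inv_cancel_right]
      exact ha⟩
    have h4 : normalClosure ({y} : Set G) ≤ zpowers y := normalClosure_le_normal (by simp)
    obtain ⟨k, hk⟩ := h4 (h ▸ mem_top x)
    simp only at hk
    have h5 : y ^ (2 : ℤ) = 1 := by rw [zpow_two, hy2]
    rcases Int.even_or_odd' k with ⟨i, rfl | rfl⟩
    · rw [zpow_mul, h5, one_zpow] at hk
      rw [← hk, orderOf_one] at hx; omega
    · rw [zpow_add, zpow_mul, h5, one_zpow, one_mul, zpow_one] at hk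
      exact hnc (hk ▸ IsConj.refl _)
  · set N := normalClosure ({y} : Set G)
    have hn : N.Normal := normalClosure_normal
    have hfix : ∀ u ∈ N, u * x = x * u → u = 1 ∨ u = y := by
      intro u huN e
      by_cases h : u = 1
      · exact Or.inl h
      · haveI : Fact (Nat.Prime 2) := ⟨Nat.prime_two⟩
        exact Or.inr (hu u huN (orderOf_eq_prime (hexp u huN) h) e)
    classical
    haveI := Fintype.ofFinite G
    have hxi : x⁻¹ = x := inv_eq_of_mul_eq_one_right hx2
    have hle : (Finset.univ.filter (· ∈ N)).card ≤ 2 * ({1, y} : Finset G).card := by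
      apply Finset.card_le_mul_card_image_of_maps_to (f := fun n => n * (x * n * x⁻¹))
      · intro n hn'
        have hnN : n ∈ N := by simpa using hn'
        have hc := hn.conj_mem n hnN x
        have := hfix _ (mul_mem hnN hc) (by
          calc n * (x * n * x⁻¹) * x = x * (x⁻¹ * n * x * n) := by rw [hxi]; simp [← mul_assoc, hx2]; simp [mul_assoc, hx2]
            _ = x * (x * n * x⁻¹ * n) := by rw [hxi]
            _ = _ := by rw [H1.comm_of_mem hc hnN])
        simpa using this
      · intro b _
        by_cases he : (Finset.filter (fun n => n * (x * n * x⁻¹) = b) (Finset.univ.filter (· ∈ N))).Nonempty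
        · obtain ⟨n, hn'⟩ := he
          simp only [Finset.mem_filter, Finset.mem_univ, true_and] at hn'
          refine le_trans (Finset.card_le_card (t := {n, n * y}) fun m hm => ?_) Finset.card_le_two
          simp only [Finset.mem_filter, Finset.mem_univ, true_and] at hm
          have e := hm.2.trans hn'.2.symm
          have hnm : n⁻¹ * m ∈ N := mul_mem (inv_mem hn'.1) hm.1
          have hm2 : m⁻¹ = m := inv_eq_of_mul_eq_one_right (by rw [← sq, hexp m hm.1])
          have hn2 : n⁻¹ = n := inv_eq_of_mul_eq_one_right (by rw [← sq, hexp n hn'.1])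
          have := hfix _ hnm (by
            have e2 : n⁻¹ * m = x * n * m⁻¹ * x⁻¹ := by
              calc n⁻¹ * m = n⁻¹ * (m * (x * m * x⁻¹)) * (x * m⁻¹ * x⁻¹) := by group
                _ = _ := by rw [e]; group
            nth_rewrite 1 [e2]
            rw [hm2, hn2]; group)
          rcases this with h | h
          · simp [(inv_mul_eq_one.1 h).symm]
          · simp [← h]
        · rw [Finset.not_nonempty_iff_eq_empty.1 he]; simp
    have := Finset.card_le_two (a := (1 : G)) (b := y)
    rw [Nat.card_eq_fintype_card, Fintype.card_subtype]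
    omega

end Cfsg.Agent.S3276
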