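import Cfsg.Statements.S3279
import Mathlib
import Cfsg.Agent.H8.Inv3

set_option autoImplicit false
open Cfsg

namespace Cfsg.Agent.S3279

open H8 H7 Subgroup

/-- Let G be a finite simple group and x an involution of G whose centralizer contains at most three involutions. Then C_G(x) contains a Sylow 2-subgroup of G, and all involutions of G are conjugate. -/
theorem result {G : Type*} [Group G] [Finite G] [IsSimpleGroup G] (x : G) (hx : orderOf x = 2)
    (h3 : Nat.card {u : ↥(Subgroup.centralizer ({x} : Set G)) // orderOf u = 2} ≤ 3) :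
    (∃ S : Sylow 2 G, (S : Subgroup G) ≤ Subgroup.centralizer ({x} : Set G)) ∧
      ∀ u v : G, orderOf u = 2 → orderOf v = 2 → IsConj u v := by
  have f : ∀ u : G, orderOf u = 2 → u ≠ 1 ∧ u * u = 1 := fun u hu =>
    ⟨fun e => by simp [e] at hu, by rw [← pow_two, ← hu, pow_orderOf_eq_one]⟩
  by_cases hG : ∀ a b : G, a * b = b * a
  · obtain ⟨S⟩ : Nonempty (Sylow 2 G) := inferInstance
    letI : CommGroup G := { (inferInstance : Group G) with mul_comm := hG }
    haveI : IsCyclic G := IsSimpleGroup.isCyclic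
    exact ⟨⟨S, fun a _ => mem_cen1.2 (hG _ _)⟩, fun u v hu hv => by
      rw [eq_of_sq_of_isCyclic (x := u) (y := v) (by rw [pow_two, (f u hu).2]) (by rw [pow_two, (f v hv).2])
        (f u hu).1 (f v hv).1]⟩
  obtain ⟨⟨S, hS, hSx⟩, h⟩ := (three_of_card hx h3).simple (f x hx).1 (f x hx).2 hG
  exact ⟨⟨hS.toSylowTop, by rwa [hS.coe_toSylowTop]⟩, fun u v hu hv =>
    (h u (f u hu).1 (f u hu).2).symm.trans (h v (f v hv).1 (f v hv).2)⟩

end Cfsg.Agent.S3279
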