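import Cfsg.Statements.S3299
import Cfsg.Agent.H2.LX3
import Cfsg.Agent.H1.Xt

set_option autoImplicit false
open Cfsg

namespace Cfsg.Agent.S3299

open Subgroup hiding upperCentralSeries
open H2 Cfsg.FusionSystem

open Subgroup H2 H7 H1B
open scoped commutatorElement

/-- Let G be a finite group with no nontrivial 2-group quotient (O^2(G) = G), z an involution of G with H = C_G(z), and suppose E = O_2(H) is extraspecial with C_G(E) ≤ E and of order 2^(2n+1) with n ≥ 2. Then E is contained in every normal subgroup of H of index 2. -/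
theorem result {G : Type*} [Group G] [Finite G] (hres : Cfsg.pResidual 2 G = ⊤) (z : G) (hz : orderOf z = 2)
    (E : Subgroup G) (hE : E = (Cfsg.pCore 2 ↥(Subgroup.centralizer ({z} : Set G))).map (Subgroup.centralizer ({z} : Set G)).subtype)
    (hext : Cfsg.IsExtraspecial 2 ↥E) (hcent : Subgroup.centralizer (E : Set G) ≤ E) (n : ℕ) (hn : 2 ≤ n) (hcard : Nat.card ↥E = 2 ^ (2 * n + 1))
    (K : Subgroup G) (hKH : K ≤ Subgroup.centralizer ({z} : Set G))
    (hKn : ∀ h ∈ Subgroup.centralizer ({z} : Set G), K.map (MulAut.conj h).toMonoidHom = K)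
    (hKi : K.relIndex (Subgroup.centralizer ({z} : Set G)) = 2) : E ≤ K := by
  rw [pCore_map] at hE
  have s : LX E z := lx_of' hext hcent hz (hE ▸ Opi_le _ _) (hE ▸ le_nrm_Opi _ _)
  have d := commutator_le_of_relIndex_two hKi
  have big : ∀ {F : Subgroup G} {x : G} (U : Subgroup G), XS 2 F x → Nat.card F = 2 ^ (2 * n + 1) → U ≤ F →
      U ≤ cen1 z → Nat.card F ≤ 2 * Nat.card U → ¬ U ≤ cen U ∧ x ∈ K := fun U t o l l' i => by
    have nc : ¬ U ≤ cen U := fun c => (Nat.pow_lt_pow_right one_lt_two (by omega : 3 < 2 * n + 1)).not_ge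
      (o ▸ xs_small t l i c)
    obtain ⟨y, hy, y1⟩ := exists_ne_one (H := ⁅U, U⁆) fun e => nc (comm_eq_bot.1 e)
    exact ⟨nc, ((mem_zp_two t.oz).1 ((commutator_mono l l).trans t.der hy)).resolve_left y1 ▸
      d (commutator_mono l' l' hy)⟩
  have zK := (big E s.toXS hcard le_rfl s.le (by omega)).2
  have mm := @mul_mem_iff_of_relIndex_two _ _ _ _ hKi
  by_contra c
  obtain ⟨a, ha, ha'⟩ := SetLike.not_le_iff_exists.1 c
  obtain ⟨e, he, he', e2⟩ : ∃ e ∈ E, e ∉ K ∧ e * e = 1 := by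
    by_contra! k
    have k' := fun b hb hb' => (s.sq (a := b) hb).resolve_left (k b hb hb')
    have sq : ∀ b ∈ E ⊓ K, b * b = ⁅a, b⁆ := fun b hb => by
      have h1 := k' _ (mul_mem ha hb.1) fun m => ha' ((K.mul_mem_cancel_right hb.2).1 m)
      have h2 := (s.commZ (s.comm a ha b hb.1) hb.1).eq
      have h3 : b * a * b = a := mul_left_cancel (a := a) (by rw [k' a ha ha', ← h1]; group)
      have h4 : ⁅a, b⁆ * (b * b) = 1 := by
        calc _ = ⁅a, b⁆ * b * b := by group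
          _ = a * (b * a⁻¹ * b) := by group
          _ = a * (a⁻¹ * (a * b * a⁻¹) * b) := by group
          _ = a * (a⁻¹ * (b⁻¹ * (b * a * b) * a⁻¹) * b) := by group
          _ = _ := by rw [h3]; group
      rcases s.sq hb.1 with e | e <;> rw [e] at h4 ⊢
      · rw [← h4, mul_one]
      · rw [eq_inv_of_mul_eq_one_left h4, inv_eq_of_mul_eq_one_left s.z2]
    refine (big (E ⊓ K) s.toXS hcard inf_le_left (inf_le_left.trans s.le) ?_).1 fun b hb =>
      mem_cen.2 fun c hc => (commutatorElement_eq_one_iff_mul_comm.1 ?_).symm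
    · rw [← relIndex_mul_card_inf K E, inf_comm]
      exact Nat.mul_le_mul_right _ (hKi ▸ relIndex_le_of_le_right s.le (by omega))
    rcases (mem_zp_two hz).1 (s.comm b hb.1 c hc.1) with e | e
    · exact e
    have := sq _ (mul_mem hb hc)
    rw [s.xy_sq hb.1 hc.1 e, s.comm_mul ha hb.1 hc.1, sq b hb, sq c hc, mul_eq_left] at this
    exact absurd this s.z1
  have ez : e ∉ zpowers z := fun k => he' (zpowers_le.2 zK k)
  obtain ⟨T, hT⟩ := exists_isSylowIn 2 (cen1 z)
  obtain ⟨l, -, t⟩ := s.syl hT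
  have n : cen1 z ≤ nrm K := fun h hh => cj_eq_self_iff.1 (hKn h hh)
  haveI := normal_subgroupOf n
  obtain ⟨φ, hφ⟩ := exists_hom_of_index Nat.prime_two (K.subgroupOf (cen1 z)) hKi
  have kφ : ∀ y ∈ T, ev (φ.comp (inclusion hT.le)) y = 1 ↔ y ∈ K := fun y hy => by
    rw [ev_eq hy, ← mem_subgroupOf (K := cen1 z) (h := ⟨y, hT.le hy⟩), ← hφ]; rfl
  obtain ⟨g, h1, h2⟩ := ext_transfer hres t (φ.comp (inclusion hT.le)) e2 (mt (kφ e (l he)).1 he')
    (s.pgroup.to_le (inf_le_left (b := cen1 e))) inf_le_right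
  have m : g * z * g⁻¹ ∈ cen (E ⊓ cen1 e) := by
    have := cen_anti h2 (le_cen1_iff.1 hT.le)
    rwa [← cj_cen, mem_cj_inv] at this
  have m' := s.mem_of_cen he ez e2 (cen_le_cen1 (mem_inf.2 ⟨s.zm, mem_cen1.2 (s.commZ (mem_zpowers z) he).symm⟩) m) m
  obtain ⟨v, hv, ev⟩ := s.exists_conj he ez
  obtain ⟨u, hu⟩ : ∃ u, u * z * u⁻¹ = e := by
    rcases mem_four hz (ord2.2 ⟨e2, fun k => ez (k ▸ one_mem _)⟩) (s.le he) m' with k | k | k | k
    · exact absurd (conj_eq_one_iff.1 k) s.z1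
    · have := nconj_mem (n (mem_cen1.2 (mul_inv_eq_iff_eq_mul.1 k))) ((kφ _ (kr_le _ h1)).1 (mem_kr.1 h1).2)
      exact absurd (by simpa [mul_assoc] using this) he'
    · exact ⟨g, k⟩
    · exact ⟨v⁻¹ * g, by rw [← ev] at k; calc _ = v⁻¹ * (g * z * g⁻¹) * v := by group
        _ = _ := by rw [k]; group⟩
  subst hu
  have h := s.pr hn hcard he fun k => ez (by rw [k]; exact mem_zpowers z)
  exact he' (big (cj u E ⊓ cen1 z) h.symm.s.toXS ((H7.card_cj u E).trans hcard) inf_le_left inf_le_right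
    (xs_idx h.symm.s.toXS h.hz)).2

end Cfsg.Agent.S3299
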