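import Cfsg.Statements.S3303
import Cfsg.Agent.H2.Ms3
import Cfsg.Agent.H1.V2

set_option autoImplicit false
open Cfsg

namespace Cfsg.Agent.S3303

open Subgroup hiding upperCentralSeries
open H2 Cfsg.FusionSystem

open Subgroup H2 H7 H1B

/-- Let G be a finite solvable group in which the intersection of any two distinct Sylow 2-subgroups is cyclic. Then G/O(G) has a normal Sylow 2-subgroup, where O(G) is the largest normal subgroup of odd order. -/
theorem result {G : Type*} [Group G] [Finite G] (hs : Group.IsSolvable G)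
    (hC : ∀ S T : Sylow 2 G, S ≠ T → IsCyclic ↥((S : Subgroup G) ⊓ (T : Subgroup G))) :
    ∃ P : Sylow 2 (G ⧸ Cfsg.oddCore G), (P : Subgroup (G ⧸ Cfsg.oddCore G)).Normal := by
  obtain ⟨P⟩ : Nonempty (Sylow 2 (G ⧸ oddCore G)) := inferInstance
  refine ⟨P, by_contra fun n => ?_⟩
  obtain ⟨T, ne⟩ : ∃ T, P ≠ T := by
    by_contra c
    push Not at c
    haveI : Subsingleton (Sylow 2 (G ⧸ oddCore G)) := ⟨fun a b => (c a).symm.trans (c b)⟩
    exact n P.normal_of_subsingleton
  obtain ⟨S', T', a, b⟩ := lift_syl_inter _ ne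
  haveI := hC S' T' a
  have c := cyc_of_le ((le_inf (Op_le_of_sylow (sylow_isSylowIn_top P)) (Op_le_of_sylow
    (sylow_isSylowIn_top T))).trans b) (isCyclic_of_surjective _ ((QuotientGroup.mk' _).subgroupMap_surjective _))
  have k := cen_Op_le (p := 2) (H := (⊤ : Subgroup (G ⧸ oddCore G))) inferInstance
    ((H7.pPrimeCore_eq 2).symm.trans H1.pPrimeCore_quotient_pPrimeCore)
  have : (⊤ : Subgroup (G ⧸ oddCore G)) ≤ P := ((sylow_isSylowIn_top P).pRes_sup.ge.trans
    (sup_le (H7.pRes_le_iff.2 fun x _ hx =>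
    Op_le_of_sylow (sylow_isSylowIn_top P) (k ⟨trivial, zpowers_le.1 (cen_of_cyc_two (isPGroup_Op 2 ⊤) c
      (le_top.trans (le_nrm_Opi _ _)) (by rwa [Nat.card_zpowers]))⟩)) le_rfl))
  exact n (top_le_iff.1 this ▸ inferInstance)

end Cfsg.Agent.S3303
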