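import Cfsg.Statements.S3309
import Cfsg.Agent.H2.Ms3
import Cfsg.Agent.H1.Xt
import Cfsg.Agent.H2.SG1

set_option autoImplicit false
open Cfsg

namespace Cfsg.Agent.S3309

open Subgroup hiding upperCentralSeries
open H2 Cfsg.FusionSystem

open Subgroup H2 H7 H1B
open scoped commutatorElement

/-- A finite group whose Sylow 2-subgroups are isomorphic to the direct product of a group of order 2 and the dihedral group of order 8 is not a non-abelian simple group. -/
theorem result {G : Type*} [Group G] [Finite G] (S : Sylow 2 G) (hS : Nonempty (↥(S : Subgroup G) ≃* Multiplicative (ZMod 2) × DihedralGroup 4))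
    [IsSimpleGroup G] (hG : ¬ IsMulCommutative G) : False := by
  obtain ⟨e⟩ := hS
  have h0 : pResidual 2 G = ⊤ := pRes_top_of_simple fun h =>
    hG (by haveI := isCyclic_of_prime_card (p := 2) h; infer_instance)
  let φ : (S : Subgroup G) →* Multiplicative (ZMod 2) := (MonoidHom.fst _ _).comp e.toMonoidHom
  let c := e.symm (Multiplicative.ofAdd 1, 1)
  have k : ∀ x : Multiplicative (ZMod 2) × DihedralGroup 4, (Multiplicative.ofAdd 1, 1) * x =
      x * (Multiplicative.ofAdd 1, 1) := by decide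
  have m : (c : G) ∈ Z1 2 (S : Subgroup G) := mem_Z1.2 ⟨c.2, fun x hx => mem_cen1.2 (congrArg Subtype.val
    (e.injective (show e (⟨x, hx⟩ * c) = e (c * ⟨x, hx⟩) by simp [c, k]))), by
      rw [← SubmonoidClass.coe_pow, ← map_pow, show ((Multiplicative.ofAdd 1, 1) :
        Multiplicative (ZMod 2) × DihedralGroup 4) ^ 2 = 1 by decide, map_one]; rfl⟩
  have n : ev φ (c : G) ≠ 1 := by rw [ev_coe]; simp [φ, c]
  obtain ⟨g, hg, h⟩ := ext_transfer_cen h0 (sylow_isSylowIn_top S) φ m n
  have z : g * c * g⁻¹ ∈ cen (S : Subgroup G) := nconj_mem (nrm_cen le_rfl hg) (le_cen1_iff.1 (mem_Z1.1 m).2.1)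
  have d : g * c * g⁻¹ ∈ ⁅(S : Subgroup G), (S : Subgroup G)⁆ := by
    obtain ⟨a, b⟩ := mem_kr.1 h
    have t : ∀ x : Multiplicative (ZMod 2) × DihedralGroup 4, x.1 = 1 → (∀ y, y * x = x * y) →
      ∃ u v : Multiplicative (ZMod 2) × DihedralGroup 4, x = ⁅u, v⁆ := by decide
    obtain ⟨u, v, w⟩ := t (e ⟨_, a⟩) ((ev_coe (f := φ) ⟨_, a⟩).symm.trans b) fun y => by
      obtain ⟨y, rfl⟩ := e.surjective y
      rw [← map_mul, ← map_mul]
      exact congrArg e (Subtype.ext (mem_cen.1 z y y.2))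
    rw [show g * c * g⁻¹ = ⁅(e.symm u : G), (e.symm v : G)⁆ from congrArg Subtype.val
      ((e.eq_symm_apply.2 w).trans (map_commutatorElement e.symm u v))]
    exact commutator_mem_commutator (e.symm u).2 (e.symm v).2
  have d' := nconj_mem' (nrm_der le_rfl hg) d
  rw [show g⁻¹ * (g * c * g⁻¹) * g = c by group] at d'
  exact n (mem_kr.1 ((im_le_cen_iff le_rfl le_rfl).1 (isComm_iff.1 inferInstance) d')).2

end Cfsg.Agent.S3309
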