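import Cfsg.Statements.S3315
import Cfsg.Agent.H5.TB6

set_option autoImplicit false
open Cfsg

namespace Cfsg.Agent.S3315

/-- Let S be a Sylow 2-subgroup of SU₃(2ⁿ), n ≥ 2 (realised over the field with 4ⁿ elements). If a finite 2-group R contains a subgroup S' of index 2 isomorphic to S, then the centre of S' is contained in the centre of R. -/
theorem result {R : Type*} [Group R] [Finite R]
    (hR : IsPGroup 2 R) (n : ℕ) (hn : 2 ≤ n) {F : Type*} [Field F] [Fintype F] (hF : Fintype.card F = 4 ^ n)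
    (P : Sylow 2 ↥(Cfsg.SU 3 F (2 ^ n))) (S' : Subgroup R) (hS : Nonempty (↥S' ≃* ↥(P : Subgroup ↥(Cfsg.SU 3 F (2 ^ n)))))
    (hidx : S'.index = 2) :
    (Subgroup.center ↥S').map S'.subtype ≤ Subgroup.center R := by
  have hF : Fintype.card F = (2 ^ n) ^ 2 := by rw [hF, ← pow_mul, mul_comm, pow_mul]; norm_num
  haveI : CharP F 2 := charP_of_card_eq_prime_pow (hF.trans (pow_mul _ _ _).symm)
  obtain ⟨φ, _, e, he, -, -, ⟨i⟩⟩ := H5.U3.mainSU (by omega) hF P
  obtain ⟨j⟩ := hS
  replace i := j.trans i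
  haveI := Subgroup.normal_of_index_eq_two hidx
  rintro _ ⟨z, hz, rfl⟩
  refine Subgroup.mem_center_iff.2 fun r => ?_
  have := H5.U3.fix_center he (MulAut.congr i (MulAut.conjNormal r)) (fun x => ?_) (z := i z)
    ((H5.U3.mem_center he).1 ((MulEquivClass.apply_mem_center_iff i).2 hz))
  · have : MulAut.conjNormal r z = z := by simpa using this
    exact mul_inv_eq_iff_eq_mul.1 (congrArg Subtype.val this)
  · obtain ⟨y, rfl⟩ := i.surjective x
    let u : S' := ⟨r * r, Subgroup.mul_self_mem_of_index_two hidx r⟩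
    have : MulAut.conjNormal r (MulAut.conjNormal r y) = u * y * u⁻¹ := Subtype.ext (by simp [u, mul_assoc])
    simp [this]

end Cfsg.Agent.S3315
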