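import Cfsg.Statements.S3349
import Mathlib

set_option autoImplicit false
open Cfsg

namespace Cfsg.Agent.S3349

/-- Let Q be a finite extraspecial p-group and α an automorphism of Q fixing every element of some maximal abelian subgroup of Q. Then the order of α is a power of p. -/
theorem result {Q : Type*} [Group Q] [Finite Q]
    (p : ℕ) [Fact p.Prime] (hQ : Cfsg.IsExtraspecial p Q) (α : MulAut Q)
    (A : Subgroup Q) (hA : IsMulCommutative A) (hmax : ∀ B : Subgroup Q, A ≤ B → IsMulCommutative B → B = A)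
    (hfix : ∀ a ∈ A, α a = a) :
    ∃ k : ℕ, orderOf α = p ^ k := by
  have hC : ∀ c, (∀ a ∈ A, c * a = a * c) → c ∈ A := by
    intro c hc
    have hcomm : ∀ x ∈ insert c (A : Set Q), ∀ y ∈ insert c (A : Set Q), x * y = y * x := by
      rintro x (rfl | hx) y (rfl | hy)
      · rfl
      · exact hc y hy
      · exact (hc x hx).symm
      · exact congrArg Subtype.val (hA.is_comm.comm (⟨x, hx⟩ : A) ⟨y, hy⟩)
    rw [← hmax (Subgroup.closure (insert c (A : Set Q))) (fun a ha => Subgroup.subset_closure (Or.inr ha))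
      (Subgroup.isMulCommutative_closure hcomm)]
    exact Subgroup.subset_closure (Or.inl rfl)
  have hn : ∀ x, ∀ a ∈ A, x * a * x⁻¹ ∈ A := by
    intro x a ha
    have h1 : x * a * x⁻¹ * a⁻¹ ∈ Subgroup.center Q :=
      hQ.1.2.2 ▸ Subgroup.commutator_mem_commutator (Subgroup.mem_top x) (Subgroup.mem_top a)
    have h2 : x * a * x⁻¹ * a⁻¹ ∈ A := hC _ fun b _ => (Subgroup.mem_center_iff.1 h1 b).symm
    have : x * a * x⁻¹ = x * a * x⁻¹ * a⁻¹ * a := by group
    rw [this]; exact mul_mem h2 ha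
  have h1 : ∀ x, x⁻¹ * α x ∈ A := by
    intro x
    apply hC
    intro a ha
    have := hfix _ (hn x a ha)
    rw [map_mul, map_mul, map_inv, hfix a ha] at this
    calc x⁻¹ * α x * a = x⁻¹ * (α x * a * (α x)⁻¹) * α x := by group
      _ = _ := by rw [this]; group
  have h2 : ∀ (k : ℕ) x, (α ^ k) x = x * (x⁻¹ * α x) ^ k := by
    intro k x
    induction k with
    | zero => simp
    | succ k ih =>
      rw [pow_succ', MulAut.mul_apply, ih, map_mul, hfix _ (pow_mem (h1 x) k), pow_succ',
        ← mul_assoc, mul_inv_cancel_left]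
  obtain ⟨n, hn⟩ := hQ.1.1.exists_card_eq
  have h3 : α ^ (p ^ n) = 1 := by
    ext x
    rw [h2, ← hn, pow_card_eq_one', mul_one]; rfl
  obtain ⟨k, -, hk⟩ := (Nat.dvd_prime_pow Fact.out).1 (orderOf_dvd_of_pow_eq_one h3)
  exact ⟨k, hk⟩

end Cfsg.Agent.S3349
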