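import Cfsg.Statements.S3357
import Mathlib
import Cfsg.Agent.H8.FC4

set_option autoImplicit false
open Cfsg

namespace Cfsg.Agent.S3357

open H8 Subgroup

/-- Let G be a finite group that occurs as a Frobenius complement. Then G has a faithful irreducible representation over an algebraic closure of the rationals in which no non-identity element of G has 1 as an eigenvalue: there are n ≥ 1 and an injective homomorphism ρ from G to GL(n) over that field, with no invariant subspace other than 0 and the whole space, such that for g ≠ 1 the only vector fixed by ρ(g) is 0. -/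
theorem result {G : Type*} [Group G] [Finite G]
    (hFC : ∃ (L : Type) (_ : Group L) (_ : Finite L) (H : Subgroup L), Cfsg.IsFrobeniusComplement H ∧ Nonempty (G ≃* H)) :
    ∃ (n : ℕ) (ρ : G →* GL (Fin n) (AlgebraicClosure ℚ)), 0 < n ∧ Function.Injective ρ ∧
      (∀ W : Submodule (AlgebraicClosure ℚ) (Fin n → AlgebraicClosure ℚ),
        (∀ g : G, ∀ w ∈ W, ((ρ g : GL (Fin n) (AlgebraicClosure ℚ)) : Matrix (Fin n) (Fin n) (AlgebraicClosure ℚ)).mulVec w ∈ W) → W = ⊥ ∨ W = ⊤) ∧
      ∀ g : G, g ≠ 1 → ∀ v : Fin n → AlgebraicClosure ℚ,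
        ((ρ g : GL (Fin n) (AlgebraicClosure ℚ)) : Matrix (Fin n) (Fin n) (AlgebraicClosure ℚ)).mulVec v = v → v = 0 := by
  obtain ⟨n, ρ, h⟩ := (fc_of_frob hFC).rep
  set K := AlgebraicClosure ℚ
  haveI : Algebra.IsAlgebraic ℚ K := AlgebraicClosure.isAlgebraic ℚ
  letI : Algebra K ℂ := (IsAlgClosed.lift (R := ℚ) (S := K) (M := ℂ)).toRingHom.toAlgebra
  let V := Fin n → ℂ
  let σ : Representation K G V :=
    { toFun := fun g => (ρ g).restrictScalars K
      map_one' := LinearMap.ext fun v => by simp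
      map_mul' := fun a b => LinearMap.ext fun v => by simp }
  have fp : ∀ g, g ≠ 1 → ∀ v, σ g v = v → v = 0 := fun g g1 v e =>
    ((Module.End.isUnit_iff _).1 (h.unit g g1)).1 ((sub_eq_zero.2 e).trans (map_zero _).symm)
  let S := {W : Submodule K V | W ≠ ⊥ ∧ FiniteDimensional K W ∧ ∀ g, W ≤ W.comap (σ g)}
  haveI := h.nt
  haveI : Nontrivial V := by
    by_contra! hV
    exact not_subsingleton (Module.End ℂ (Fin n → ℂ)) ⟨fun a b => LinearMap.ext fun x => hV.elim _ _⟩
  obtain ⟨v, v0⟩ := exists_ne (0 : V)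
  obtain ⟨W, ⟨w1, w2, w3⟩, hW⟩ := (measure fun W : Submodule K V => Module.finrank K W).wf.has_min S
    ⟨Submodule.span K (Set.range fun g => σ g v), fun e => v0 (by
      simpa using e.le (Submodule.subset_span ⟨1, rfl⟩)),
      FiniteDimensional.span_of_finite _ (Set.finite_range _), fun g => Submodule.span_le.2 (by
        rintro _ ⟨x, rfl⟩
        exact Submodule.subset_span ⟨g * x, by simp⟩)⟩
  let τ := σ.subrepresentation W w3
  let b := Module.finBasis K W
  let μ : G →* Matrix _ _ K := (LinearMap.toMatrixAlgEquiv b).toMonoidHom.comp τ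
  have hμ : ∀ g x, (μ g).mulVec (b.equivFun x) = b.equivFun (τ g x) := fun g x =>
    LinearMap.toMatrix_mulVec_repr b b (τ g) x
  haveI := Submodule.nontrivial_iff_ne_bot.2 w1
  have fp' : ∀ g, g ≠ 1 → ∀ v, (μ g).mulVec v = v → v = 0 := fun g g1 v e => by
    obtain ⟨x, rfl⟩ := b.equivFun.surjective v
    rw [hμ, b.equivFun.injective.eq_iff] at e
    rw [show x = 0 from Subtype.ext (fp g g1 x (congrArg Subtype.val e)), map_zero]
  refine ⟨_, μ.toHomUnits, Module.finrank_pos, (injective_iff_map_eq_one _).2 fun g e => ?_,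
    fun U hU => or_iff_not_imp_left.2 fun U0 => ?_, fp'⟩
  · by_contra g1
    obtain ⟨x, x0⟩ := exists_ne (0 : W)
    exact x0 (by simpa using fp' g g1 (b.equivFun x) (by
      rw [show μ g = 1 from congrArg Units.val e, Matrix.one_mulVec]))
  · let U' := (U.map b.equivFun.symm.toLinearMap).map W.subtype
    have := hW U' ⟨fun e => U0 (by
      rwa [← le_bot_iff, Submodule.map_le_iff_le_comap, Submodule.comap_bot, Submodule.ker_subtype,
        le_bot_iff, Submodule.map_eq_bot_iff] at e), inferInstance, fun g => by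
      rintro _ ⟨x, ⟨u, hu, rfl⟩, rfl⟩
      refine ⟨τ g (b.equivFun.symm u), ⟨_, hU g u hu, ?_⟩, rfl⟩
      exact b.equivFun.symm_apply_eq.2 (by rw [← hμ, LinearEquiv.apply_symm_apply]; rfl)⟩
    refine Submodule.eq_top_of_finrank_eq (le_antisymm U.finrank_le ?_)
    rw [Module.finrank_fin_fun]
    refine (not_lt.1 this).trans ?_
    exact (Submodule.finrank_map_le _ _).trans (Submodule.finrank_map_le _ _)

end Cfsg.Agent.S3357
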