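import Cfsg.Statements.S3358
import Mathlib
import Cfsg.Agent.H8.FC6

set_option autoImplicit false
open Cfsg

namespace Cfsg.Agent.S3358

open H8 H7 H1B Subgroup
open scoped commutatorElement

/-- Elements of prime order centralize the abelian subgroups of coprime order they normalize. -/
def PQ (G : Type*) [Group G] : Prop :=
  ∀ A W : Subgroup G, IsMulCommutative A → W ≤ nrm A → (ord W).Prime → (ord W).Coprime (ord A) →
    W ≤ cen A

theorem PQ.of_injective {G H : Type*} [Group G] [Group H] (h : PQ G) (f : H →* G)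
    (hf : Function.Injective f) : PQ H := fun A W h1 h2 h3 h4 =>
  (map_le_cen_map_iff hf).1 (h _ _ inferInstance (map_le_nrm_map f h2)
    (by rwa [card_map_of_injective hf]) (by rwa [card_map_of_injective hf, card_map_of_injective hf]))

theorem pq_of_frob {G : Type*} [Group G] (h : ∃ (L : Type) (_ : Group L) (_ : Finite L)
    (H : Subgroup L), IsFrobeniusComplement H ∧ Nonempty (G ≃* H)) : PQ G := by
  obtain ⟨L, _, _, H, hH, ⟨e⟩⟩ := h
  obtain ⟨N, hN, hn, hc⟩ := H1.FrobC.exists_kernel hH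
  have hr : H1B.Reg H N := fun x hx x1 => eq_bot_iff.2 fun k hk => mem_bot.2
    ((fpf_of_frob hH hx (hN ▸ hk.1) (mem_cen1.1 hk.2).symm).resolve_left x1)
  haveI := hr.nilp (le_nrm_of_normal _ _) hH.1
  refine PQ.of_injective (fun A W h1 h2 h3 h4 => ?_) e.toMonoidHom e.injective
  have i := H.subtype_injective
  rw [← map_le_cen_map_iff i]
  rw [← map_le_nrm_map_iff i] at h2
  rw [← card_map_of_injective (K := W) i] at h3 h4
  rw [← card_map_of_injective (K := A) i] at h4
  have hA := map_subtype_le A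
  have hW := map_subtype_le W
  have h1 : IsMulCommutative (A.map H.subtype) := inferInstance
  generalize A.map H.subtype = A at *
  generalize W.map H.subtype = W at *
  have k := comm_inf_cen_of_comm h1 h2 h4
  have le : ⁅A, W⁆ ≤ H := comm_le_of_le hA hW
  have := cen_of_frob (M := N) inferInstance (le_nrm_of_normal _ _) (le_nrm_of_normal _ _)
    (nrm_commutator h2 (le_nrm_self _)) (reg_of_prime h3 k)
    ((hr.mono le le_rfl).coprime (le_nrm_of_normal _ _))
    ((hr.mono hW le_rfl).coprime (le_nrm_of_normal _ _))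
    ((hr.mono hW le_rfl).cen_eq fun e => by simp [e, Nat.not_prime_one] at h3)
  refine comm_eq_bot'.1 (by_contra fun e => hH.2.1 ?_)
  have e := (hr.mono le le_rfl).cen_eq e
  rw [inf_eq_left.2 (le_cen_symm this)] at e
  rw [← hc.sup_eq_top, e, bot_sup_eq]

theorem pres {G : Type*} [Group G] [Finite G] {x y : G} {r : ℕ} (h : x⁻¹ * y * x = y ^ r)
    (ht : zpowers x ⊔ zpowers y = ⊤) (hc : orderOf x * orderOf y = Nat.card G) :
    Nonempty (G ≃* PresentedGroup ({FreeGroup.of (0 : Fin 2) ^ orderOf x,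
      FreeGroup.of (1 : Fin 2) ^ orderOf y, (FreeGroup.of (0 : Fin 2))⁻¹ * FreeGroup.of 1 *
        FreeGroup.of 0 * (FreeGroup.of (1 : Fin 2) ^ r)⁻¹} : Set (FreeGroup (Fin 2)))) := by
  set R := ({FreeGroup.of (0 : Fin 2) ^ orderOf x,
      FreeGroup.of (1 : Fin 2) ^ orderOf y, (FreeGroup.of (0 : Fin 2))⁻¹ * FreeGroup.of 1 *
        FreeGroup.of 0 * (FreeGroup.of (1 : Fin 2) ^ r)⁻¹} : Set (FreeGroup (Fin 2))) with hR
  let f : PresentedGroup R →* G := PresentedGroup.toGroup (f := ![x, y]) (by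
    rintro _ (rfl | rfl | rfl) <;> simp [h])
  have f0 : f (PresentedGroup.of 0) = x := PresentedGroup.toGroup.of _
  have f1 : f (PresentedGroup.of 1) = y := PresentedGroup.toGroup.of _
  set a : PresentedGroup R := PresentedGroup.of 0 with ha
  set b : PresentedGroup R := PresentedGroup.of 1 with hb
  have rel : ∀ r ∈ R, PresentedGroup.mk R r = 1 := fun r hr => PresentedGroup.one_of_mem hr
  have e1 : a ^ orderOf x = 1 := rel _ (.inl rfl)
  have e2 : b ^ orderOf y = 1 := rel _ (.inr (.inl rfl))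
  have e3 : a⁻¹ * b * a * (b ^ r)⁻¹ = 1 := rel _ (.inr (.inr rfl))
  have fa : IsOfFinOrder a := isOfFinOrder_iff_pow_eq_one.2 ⟨_, orderOf_pos x, e1⟩
  have fb : IsOfFinOrder b := isOfFinOrder_iff_pow_eq_one.2 ⟨_, orderOf_pos y, e2⟩
  haveI : Finite (zpowers a) := fa.finite_zpowers
  haveI : Finite (zpowers b) := fb.finite_zpowers
  have n : a⁻¹ ∈ nrm (zpowers b) := mem_normalizer_fintype (by
    rintro _ ⟨k, rfl⟩
    rw [← conj_zpow, inv_inv, mul_inv_eq_one.1 e3]
    exact zpow_mem (pow_mem (mem_zpowers b) r) k)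
  have top : zpowers a ⊔ zpowers b = ⊤ := by
    rw [eq_top_iff, ← PresentedGroup.closure_range_of, closure_le]
    rintro _ ⟨i, rfl⟩
    fin_cases i
    exacts [mem_sup_left (mem_zpowers a), mem_sup_right (mem_zpowers b)]
  have hs : Function.Surjective fun p : zpowers a × zpowers b => (p.1 * p.2 : PresentedGroup R) :=
    fun g => by
      obtain ⟨u, hu, v, hv, e⟩ := (mem_sup_nrm (zpowers_le.2 (inv_mem_iff.1 n))).1 (top.ge (mem_top g))
      exact ⟨(⟨u, hu⟩, ⟨v, hv⟩), e⟩
  haveI := Finite.of_surjective _ hs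
  refine ⟨(MulEquiv.ofBijective f (Function.Surjective.bijective_of_nat_card_le ?_ ?_)).symm⟩
  · rw [← MonoidHom.range_eq_top, eq_top_iff, ← ht]
    exact sup_le (zpowers_le.2 ⟨_, f0⟩) (zpowers_le.2 ⟨_, f1⟩)
  · refine (Nat.card_le_card_of_surjective _ hs).trans ?_
    rw [Nat.card_prod, Nat.card_zpowers, Nat.card_zpowers, ← hc]
    exact Nat.mul_le_mul (orderOf_le_of_pow_eq_one (orderOf_pos x) e1)
      (orderOf_le_of_pow_eq_one (orderOf_pos y) e2)

theorem zg {G : Type*} [Group G] [Finite G] [IsZGroup G] (h : PQ G) :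
    ∃ n m r : ℕ, 0 < n ∧ 0 < m ∧ Nat.Coprime (r - 1) m ∧ Nat.Coprime n m ∧ 1 ≤ r ∧
        r ^ (n / ∏ p ∈ n.primeFactors, p) % m = 1 % m ∧
        Nonempty (G ≃* PresentedGroup
          ({FreeGroup.of (0 : Fin 2) ^ n, FreeGroup.of (1 : Fin 2) ^ m,
            (FreeGroup.of (0 : Fin 2))⁻¹ * FreeGroup.of 1 * FreeGroup.of 0 *
              (FreeGroup.of (1 : Fin 2) ^ r)⁻¹} : Set (FreeGroup (Fin 2)))) := by
  have cp := IsZGroup.coprime_commutator_index G
  obtain ⟨E, hE⟩ := exists_right_complement'_of_coprime cp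
  haveI := IsZGroup.isCyclic_commutator G
  let e : Abelianization G ≃* E := hE.symm.QuotientMulEquiv
  haveI : IsCyclic E := isCyclic_of_surjective _ e.surjective
  obtain ⟨y, -, hy⟩ := H1.exists_zpowers_eq (K := _root_.commutator G)
  obtain ⟨x, -, rfl⟩ := H1.exists_zpowers_eq (K := E)
  rw [← hE.symm.index_eq_card.symm, ← hy, Nat.card_zpowers, Nat.card_zpowers] at cp
  haveI : (zpowers y).Normal := hy ▸ inferInstance
  obtain ⟨k, hk⟩ := mem_powers_iff_mem_zpowers.2 (Normal.conj_mem' this y (mem_zpowers y) x)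
  have hr : x⁻¹ * y * x = y ^ (k + orderOf y) := by rw [pow_add, pow_orderOf_eq_one, mul_one]; exact hk.symm
  have m0 := orderOf_pos y
  have top : zpowers x ⊔ zpowers y = ⊤ := by rw [hy, hE.symm.sup_eq_top]
  obtain ⟨s, hs⟩ : ∃ s, k + orderOf y = s + 1 := ⟨k + orderOf y - 1, by omega⟩
  rw [hs] at hr
  refine ⟨orderOf x, orderOf y, s + 1, orderOf_pos x, m0, ?_, cp.symm, by omega, ?_,
    pres hr top ?_⟩
  · haveI : (zpowers (y ^ s)).Normal := normal_of ((le_nrm_of_normal _ _).trans
      (nrm_le_of_cyc inferInstance (zp_pow_le y s)))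
    let π := QuotientGroup.mk' (zpowers (y ^ s))
    have c : π x * π y = π y * π x := by
      have := congrArg π hr
      rw [pow_succ, map_mul, map_mul, map_mul π _ y, show π (y ^ s) = 1 from
        (QuotientGroup.eq_one_iff _).2 (mem_zpowers _), one_mul, map_inv, mul_assoc,
        inv_mul_eq_iff_eq_mul] at this
      exact this.symm
    have := isComm_sup (isComm_zpowers (π x)) (isComm_zpowers (π y))
      (by rw [cen_zpowers, zpowers_le]; exact mem_cen1.2 c)
    rw [← MonoidHom.map_zpowers, ← MonoidHom.map_zpowers, ← Subgroup.map_sup, top,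
      map_top_of_surjective _ (QuotientGroup.mk'_surjective _)] at this
    exact mem_zpowers_pow_iff.1 (Subgroup.Normal.quotient_commutative_iff_commutator_le.1
      ⟨⟨fun a b => isComm_iff'.1 this a trivial b trivial⟩⟩ (hy.le (mem_zpowers y)))
  · set j := orderOf x / ∏ p ∈ (orderOf x).primeFactors, p with hj
    have d := Nat.prod_primeFactors_dvd (orderOf x)
    have o : orderOf (x ^ j) = ∏ p ∈ (orderOf x).primeFactors, p := by
      rw [orderOf_pow_of_dvd (Nat.div_pos (Nat.le_of_dvd (orderOf_pos x) d)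
        (Nat.pos_of_dvd_of_pos d (orderOf_pos x))).ne' (Nat.div_dvd_of_dvd d),
        Nat.div_div_self d (orderOf_pos x).ne']
    have sq : Squarefree (orderOf (x ^ j)) := by
      rw [o]
      exact Finset.squarefree_prod_of_pairwise_isCoprime (fun p hp q hq e => Nat.coprime_iff_isRelPrime.1
        ((Nat.coprime_primes (Nat.prime_of_mem_primeFactors hp) (Nat.prime_of_mem_primeFactors hq)).2 e))
        fun p hp => (Nat.prime_of_mem_primeFactors hp).squarefree
    have c : zpowers (x ^ j) ≤ cen (zpowers y) := le_of_pgroups_le fun p hp P hP pP => by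
      haveI := Fact.mk hp
      obtain ⟨k, hk⟩ := IsPGroup.iff_card.1 pP
      have d := card_dvd_of_le hP
      rw [Nat.card_zpowers, hk] at d
      rcases k with _ | _ | k
      · rw [card_eq_one.1 hk]; exact bot_le
      · refine h _ _ (isComm_zpowers y) (le_nrm_of_normal _ _) (by rwa [hk, zero_add, pow_one]) ?_
        rw [Nat.card_zpowers, hk]
        exact cp.symm.of_dvd_left (d.trans (orderOf_pow_dvd j))
      · exact absurd (sq p ((Dvd.intro_left (p ^ k) (by ring)).trans d)) hp.not_isUnit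
    have pw : ∀ i : ℕ, (x ^ i)⁻¹ * y * x ^ i = y ^ (s + 1) ^ i := fun i => by
      induction i with
      | zero => simp
      | succ i ih =>
        calc _ = x⁻¹ * ((x ^ i)⁻¹ * y * x ^ i) * x⁻¹⁻¹ := by group
          _ = _ := by rw [ih, ← conj_pow, inv_inv, hr, ← pow_mul, ← pow_succ']
    refine (pow_eq_pow_iff_modEq (x := y)).1 ?_
    rw [← pw, pow_one, mul_assoc, mem_cen.1 (c (mem_zpowers _)) y (mem_zpowers y), inv_mul_cancel_left]
  · rw [← Nat.card_zpowers, ← Nat.card_zpowers, hy, hE.symm.card_mul_card]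

/-- Structure of solvable Frobenius complements. Let G be a finite solvable group that occurs as a Frobenius complement. Then G has a normal subgroup G₀ such that G/G₀ is isomorphic to a subgroup of Sym(4) (G₀ is the kernel of a homomorphism to Sym(4)), all Sylow subgroups of G₀ are cyclic, and G₀ has a presentation ⟨x, y | x^n = 1, y^m = 1, x⁻¹ y x = y^r⟩ with n, m ≥ 1, gcd(r − 1, m) = gcd(n, m) = 1 and r^(n/n′) ≡ 1 (mod m), where n′ is the product of the distinct primes dividing n. -/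
theorem result {G : Type*} [Group G] [Finite G] (hsol : Group.IsSolvable G)
    (hFC : ∃ (L : Type) (_ : Group L) (_ : Finite L) (H : Subgroup L), Cfsg.IsFrobeniusComplement H ∧ Nonempty (G ≃* H)) :
    ∃ G₀ : Subgroup G, G₀.Normal ∧
      (∃ f : G →* Equiv.Perm (Fin 4), f.ker = G₀) ∧
      (∀ (p : ℕ) [Fact p.Prime] (P : Sylow p G₀), IsCyclic P) ∧
      ∃ n m r : ℕ, 0 < n ∧ 0 < m ∧ Nat.Coprime (r - 1) m ∧ Nat.Coprime n m ∧ 1 ≤ r ∧
        r ^ (n / ∏ p ∈ n.primeFactors, p) % m = 1 % m ∧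
        Nonempty (G₀ ≃* PresentedGroup
          ({FreeGroup.of (0 : Fin 2) ^ n, FreeGroup.of (1 : Fin 2) ^ m,
            (FreeGroup.of (0 : Fin 2))⁻¹ * FreeGroup.of 1 * FreeGroup.of 0 * (FreeGroup.of (1 : Fin 2) ^ r)⁻¹} :
            Set (FreeGroup (Fin 2)))) := by
  obtain ⟨N, hN, h1, h2⟩ := (fc_of_frob hFC).solv_cases
  refine ⟨N, hN, ?_, fun _ _ _ => inferInstance, zg ((pq_of_frob hFC).of_injective _ N.subtype_injective)⟩
  rcases h2 with rfl | h2 | ⟨f, h2, -⟩
  · exact ⟨1, MonoidHom.ker_one⟩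
  · haveI := H4.vS4_klein
    obtain ⟨e⟩ := IsKleinFour.nonempty_mulEquiv (G₁ := G ⧸ N) (G₂ := H4.vS4)
    exact ⟨(H4.vS4.subtype.comp e.toMonoidHom).comp (QuotientGroup.mk' N), by
      rw [MonoidHom.ker_comp_of_injective, QuotientGroup.ker_mk']
      exact H4.vS4.subtype_injective.comp e.injective⟩
  · exact ⟨f, h2⟩

end Cfsg.Agent.S3358
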