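import Cfsg.Statements.S3361
import Mathlib
import Cfsg.Agent.H8.NFy

set_option autoImplicit false
open Cfsg

namespace Cfsg.Agent.S3361

/-- Let q be a prime and V a non-trivial finite vector space over the field with q elements, and let G be a finite solvable group acting faithfully and linearly on V and regularly on the non-zero vectors (transitively, with only the identity fixing a non-zero vector). Then either V can be identified with the additive group of a finite field F so that every element of G acts as x ↦ a·σ(x) (a ∈ F, σ a field automorphism), or V has 5^2, 7^2, 11^2 or 23^2 elements. Moreover, if q ≠ 2 then G has a normal subgroup of index 2, except that when V has 25 elements G may be isomorphic to SL(2,3) and when V has 121 elements G may be isomorphic to SL(2,3) × C₅. -/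
theorem result
    (q : ℕ) [Fact q.Prime] {V : Type*} [AddCommGroup V] [Module (ZMod q) V] [Finite V] [Nontrivial V]
    {G : Type*} [Group G] [Finite G] (hsol : Group.IsSolvable G)
    (ρ : G →* (V ≃ₗ[ZMod q] V)) (hρ : Function.Injective ρ)
    (htrans : ∀ v w : V, v ≠ 0 → w ≠ 0 → ∃ g : G, ρ g v = w)
    (hreg : ∀ v : V, v ≠ 0 → ∀ g : G, ρ g v = v → g = 1) :
    ((∃ (F : Type) (_ : Field F) (_ : Fintype F) (e : V ≃+ F),
        ∀ g : G, ∃ (a : F) (σ : F ≃+* F), ∀ v : V, e (ρ g v) = a * σ (e v)) ∨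
      Nat.card V ∈ ({25, 49, 121, 529} : Set ℕ)) ∧
    (q ≠ 2 → (∃ N : Subgroup G, N.Normal ∧ N.index = 2) ∨
      (Nat.card V = 25 ∧ Nonempty (G ≃* Matrix.SpecialLinearGroup (Fin 2) (ZMod 3))) ∨
      (Nat.card V = 121 ∧ Nonempty (G ≃* Matrix.SpecialLinearGroup (Fin 2) (ZMod 3) × Multiplicative (ZMod 5)))) := by
  let ε := MonoidHom.ofInjective hρ
  have hr : ∀ v w : V, v ≠ 0 → w ≠ 0 → ∃! h : ρ.range, (h : V ≃ₗ[ZMod q] V) v = w :=
    fun v w hv hw => by
    obtain ⟨g, hg⟩ := htrans v w hv hw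
    refine ⟨ε g, hg, ?_⟩
    rintro ⟨_, k, rfl⟩ hk
    obtain rfl : g = k := inv_mul_eq_one.1 (hreg v hv _ (by
      rw [map_mul, map_inv, LinearEquiv.mul_apply, show ρ k v = w from hk, ← hg]; simp))
    rfl
  have hs : Group.IsSolvable ρ.range := Group.isSolvable_of_surjective ρ.rangeRestrict_surjective
  have i2 : (∃ M : Subgroup ρ.range, M.index = 2) → ∃ N : Subgroup G, N.Normal ∧ N.index = 2 :=
    fun ⟨M, hM⟩ => have := (M.index_comap_of_surjective ρ.rangeRestrict_surjective).trans hM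
      ⟨_, Subgroup.normal_of_index_eq_two this, this⟩
  by_cases hI : ∀ A : Subgroup ρ.range, A.Normal → IsCyclic A → ∃ W : Submodule (ZMod q) V,
      W ≠ ⊥ ∧ W ≠ ⊤ ∧ ∀ a ∈ A, ∀ v ∈ W, ((a : ρ.range) : V ≃ₗ[ZMod q] V) v ∈ W
  · refine ⟨.inr (Cfsg.Agent.S0688.result _ hr hI hs), fun _ => or_iff_not_imp_left.2 fun no => ?_⟩
    exact (H8.nf_exc _ hr hI hs fun M hM => no (i2 ⟨M, hM⟩)).imp
      (fun ⟨a, ⟨b⟩⟩ => ⟨a, ⟨ε.trans b⟩⟩) fun ⟨a, ⟨b⟩⟩ => ⟨a, ⟨ε.trans b⟩⟩
  simp only [not_forall, not_exists, not_and] at hI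
  obtain ⟨A, _, _, h⟩ := hI
  haveI : IsMulCommutative A := IsCyclic.isMulCommutative
  obtain ⟨⟨F, _, _, e, he⟩, k⟩ := H8.nf_semi _ hr A fun W a b c => by
    obtain ⟨x, hx, v, hv, n⟩ := h W a b
    exact n (c x hx v hv)
  exact ⟨.inl ⟨F, inferInstance, inferInstance, e, fun g => he (ε g)⟩, fun h => .inl (i2 (k h))⟩

end Cfsg.Agent.S3361
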