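import Cfsg.Statements.S3378
import Mathlib
import Cfsg.Agent.H8.FC5

set_option autoImplicit false
open Cfsg

namespace Cfsg.Agent.S3378

open Subgroup H8

/-- Every non-solvable group of order 120 whose Sylow 2-subgroups are quaternion of order 8 is isomorphic to SL(2,5), and SL(2,5) has the presentation ⟨x, y, z | x³ = y⁵ = z² = 1, z⁻¹xz = x, z⁻¹yz = y, (xy)² = z⟩. -/
theorem result :
    (∀ (G : Type*) [Group G] [Finite G], Nat.card G = 120 → ¬ Group.IsSolvable G →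
      (∀ P : Sylow 2 G, Nonempty ((P : Subgroup G) ≃* QuaternionGroup 2)) →
      Nonempty (G ≃* Matrix.SpecialLinearGroup (Fin 2) (ZMod 5))) ∧
    Nonempty (PresentedGroup ({FreeGroup.of (0 : Fin 3) ^ 3, FreeGroup.of (1 : Fin 3) ^ 5, FreeGroup.of (2 : Fin 3) ^ 2,
        (FreeGroup.of (2 : Fin 3))⁻¹ * FreeGroup.of 0 * FreeGroup.of 2 * (FreeGroup.of (0 : Fin 3))⁻¹,
        (FreeGroup.of (2 : Fin 3))⁻¹ * FreeGroup.of 1 * FreeGroup.of 2 * (FreeGroup.of (1 : Fin 3))⁻¹,
        (FreeGroup.of (0 : Fin 3) * FreeGroup.of 1) ^ 2 * (FreeGroup.of (2 : Fin 3))⁻¹} : Set (FreeGroup (Fin 3)))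
      ≃* Matrix.SpecialLinearGroup (Fin 2) (ZMod 5)) := by
  refine ⟨fun G _ _ h hs hP => ?_, ?_⟩
  · obtain ⟨e⟩ := hP default
    exact sl25_of_ui h hs (H9.ui_of_equiv_quaternion _ e)
  obtain ⟨r1, r2, r3, r4, -⟩ := sl_rel
  have gen := sl_gen
  have hom := @exists_hom_sl25
  generalize slA = a at *
  generalize slB = b at *
  set R := ({FreeGroup.of (0 : Fin 3) ^ 3, FreeGroup.of (1 : Fin 3) ^ 5, FreeGroup.of (2 : Fin 3) ^ 2,
        (FreeGroup.of (2 : Fin 3))⁻¹ * FreeGroup.of 0 * FreeGroup.of 2 * (FreeGroup.of (0 : Fin 3))⁻¹,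
        (FreeGroup.of (2 : Fin 3))⁻¹ * FreeGroup.of 1 * FreeGroup.of 2 * (FreeGroup.of (1 : Fin 3))⁻¹,
        (FreeGroup.of (0 : Fin 3) * FreeGroup.of 1) ^ 2 * (FreeGroup.of (2 : Fin 3))⁻¹} :
        Set (FreeGroup (Fin 3))) with hR
  have c1 : Commute (a * a) b := r4
  have c2 : Commute (a * a) a := (mul_assoc a a a)
  have c3 : Commute (a * a) (b⁻¹ * a) := c1.inv_right.mul_right c2
  have e5 : (b⁻¹ * a) ^ 5 = 1 := by
    rw [show b⁻¹ * a = (a * b)⁻¹ * (a * a) by group, Commute.mul_pow (c2.mul_right c1).inv_right.symm,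
      inv_pow, r3, (pow_add _ 2 3).trans (by rw [sq, r1, one_mul]), pow_three, r1, mul_one,
      inv_mul_cancel]
  let f : PresentedGroup R →* _ :=
    PresentedGroup.toGroup (f := ![b, b⁻¹ * a, a * a]) (by
      rintro _ (rfl | rfl | rfl | rfl | rfl | rfl)
      · simpa using r2
      · simpa using e5
      · simpa [sq] using r1
      · simp only [map_mul, map_inv, FreeGroup.lift_apply_of]
        show (a * a)⁻¹ * b * (a * a) * b⁻¹ = 1
        rw [mul_assoc _ b, ← c1.eq]; group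
      · simp only [map_mul, map_inv, FreeGroup.lift_apply_of]
        show (a * a)⁻¹ * (b⁻¹ * a) * (a * a) * (b⁻¹ * a)⁻¹ = 1
        rw [mul_assoc _ (b⁻¹ * a), ← c3.eq]; group
      · simp [sq])
  have f0 : f (PresentedGroup.of 0) = b := PresentedGroup.toGroup.of _
  have f1 : f (PresentedGroup.of 1) = b⁻¹ * a := PresentedGroup.toGroup.of _
  have f2 : f (PresentedGroup.of 2) = a * a := PresentedGroup.toGroup.of _
  set x : PresentedGroup R := PresentedGroup.of 0 with hx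
  set y : PresentedGroup R := PresentedGroup.of 1 with hy
  set z : PresentedGroup R := PresentedGroup.of 2 with hz
  have rel : ∀ r ∈ R, PresentedGroup.mk R r = 1 := fun r hr => PresentedGroup.one_of_mem hr
  have e1 : x ^ 3 = 1 := rel _ (.inl rfl)
  have e2 : y ^ 5 = 1 := rel _ (.inr (.inl rfl))
  have e3 : z ^ 2 = 1 := rel _ (.inr (.inr (.inl rfl)))
  have e4 : z⁻¹ * x * z * x⁻¹ = 1 := rel _ (.inr (.inr (.inr (.inl rfl))))
  have e6 : z⁻¹ * y * z * y⁻¹ = 1 := rel _ (.inr (.inr (.inr (.inr (.inl rfl)))))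
  have e7 : (x * y) ^ 2 * z⁻¹ = 1 := rel _ (.inr (.inr (.inr (.inr (.inr rfl)))))
  rw [mul_inv_eq_one, sq] at e7
  rw [mul_inv_eq_one, mul_assoc, inv_mul_eq_iff_eq_mul] at e4 e6
  have e8 : x * y * x = z * y⁻¹ := by rw [← e7]; group
  obtain ⟨φ, p1, p2⟩ := hom (a := x * y) (b := x) (by rw [e7, ← sq, e3]) e1 (by
    rw [e8, e7, Commute.mul_pow (Commute.inv_right e6.symm), inv_pow, e2, inv_one, mul_one,
      (pow_add _ 2 3).trans (by rw [e3, one_mul]), pow_succ, e3, one_mul]) (by rw [e7, e4])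
  refine ⟨MonoidHom.toMulEquiv f φ (PresentedGroup.ext ?_) ?_⟩
  · intro i
    fin_cases i
    · show φ (f x) = x
      rw [f0, p2]
    · show φ (f y) = y
      rw [f1, map_mul, map_inv, p1, p2, inv_mul_cancel_left]
    · show φ (f z) = z
      rw [f2, map_mul, p1, e7]
  · have := gen ((f.comp φ).eqLocus (MonoidHom.id _))
      (show f (φ _) = a by rw [p1, map_mul, f0, f1, mul_inv_cancel_left])
      (show f (φ _) = b by rw [p2, f0])
    exact MonoidHom.ext fun g => this.ge (mem_top g)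

end Cfsg.Agent.S3378
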