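import Cfsg.Statements.S3389
import Mathlib
import Cfsg.Agent.H1.Misc
import Cfsg.Agent.H8.PermBasic

set_option autoImplicit false
open Cfsg

namespace Cfsg.Agent.S3389

open MulAction Subgroup

/-- a subgroup acting freely on an invariant finite set -/
theorem dvd_card_of_free {G Ω : Type*} [Group G] [MulAction G Ω] (A : Subgroup G) (S : Set Ω)
    (hS : ∀ a ∈ A, ∀ x ∈ S, a • x ∈ S) (hf : ∀ a ∈ A, ∀ x ∈ S, a • x = x → a = 1) :
    Nat.card A ∣ Nat.card S := by
  letI : MulAction A S :=
    { smul := fun a x => ⟨(a : G) • (x : Ω), hS _ a.2 _ x.2⟩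
      one_smul := fun x => Subtype.ext (one_smul G _)
      mul_smul := fun a b x => Subtype.ext (mul_smul (a : G) b _) }
  exact H1.card_dvd_of_free fun x => eq_bot_iff.2 fun a ha =>
    Subtype.ext (hf a a.2 x x.2 (congrArg Subtype.val ha))

/-- Let G be a finite group acting faithfully and transitively on a finite set Ω with fixity k ≥ 1: every non-identity element fixes at most k points and some non-identity element fixes exactly k points. Then |Z(G)| divides k; if k = 2 then |G| is even; and for every prime p > k dividing |G| and every point α, either p does not divide |G_α| or G_α contains a Sylow p-subgroup of G. -/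
theorem result {G : Type*} [Group G] [Finite G] {Ω : Type*} [Fintype Ω] [MulAction G Ω] [FaithfulSMul G Ω]
    (htr : MulAction.IsPretransitive G Ω) (k : ℕ) (hk : 1 ≤ k)
    (hfix : ∀ g : G, g ≠ 1 → Nat.card (MulAction.fixedBy Ω g) ≤ k) (hex : ∃ g : G, g ≠ 1 ∧ Nat.card (MulAction.fixedBy Ω g) = k) :
    Nat.card (Subgroup.center G) ∣ k ∧ (k = 2 → 2 ∣ Nat.card G) ∧
      ∀ (p : ℕ), p.Prime → k < p → p ∣ Nat.card G → ∀ α : Ω,
        ¬ p ∣ Nat.card (MulAction.stabilizer G α) ∨ ¬ p ∣ (MulAction.stabilizer G α).index := by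
  obtain ⟨g, hg1, hgk⟩ := hex
  refine ⟨?_, ?_, ?_⟩
  · rw [← hgk]
    refine dvd_card_of_free _ _ (fun a ha x hx => ?_) (fun a ha x _ hx => ?_)
    · rw [mem_fixedBy, ← mul_smul, mem_center_iff.1 ha g, mul_smul, mem_fixedBy.1 hx]
    · exact H8.eq_one_of_commute_of_fix ⊤ ⟨fun x y => by
        obtain ⟨k, hk⟩ := htr.exists_smul_eq x y; exact ⟨⟨k, trivial⟩, hk⟩⟩
        (fun m _ => mem_center_iff.1 ha m) hx
  · rintro rfl
    classical
    haveI := Fintype.ofFinite G
    obtain ⟨α, β, hαβ, hF⟩ := Set.ncard_eq_two.1 (show (fixedBy Ω g).ncard = 2 from hgk)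
    have hgα : g • α = α := (show α ∈ fixedBy Ω g from hF ▸ by simp)
    have hgβ : g • β = β := (show β ∈ fixedBy Ω g from hF ▸ by simp)
    have three : ∀ x : G, ∀ a b c : Ω, a ≠ b → a ≠ c → b ≠ c → x • a = a → x • b = b → x • c = c → x = 1 := by
      intro x a b c h1 h2 h3 e1 e2 e3
      by_contra hx
      have := le_trans (Set.ncard_le_ncard (s := {a, b, c}) (t := fixedBy Ω x) (by
        rintro y (rfl | rfl | rfl) <;> assumption)) (hfix x hx)
      rw [Set.ncard_eq_three.2 ⟨a, b, c, h1, h2, h3, rfl⟩] at this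
      omega
    set L := stabilizer G α
    have key : ∀ γ : Ω, γ ≠ α → (∃ x : L, x ≠ 1 ∧ x • γ = γ) → γ ∈ orbit L β := by
      intro γ hγ hx
      by_contra hno
      have hsum : ∀ γ : Ω, ∑ δ ∈ (orbit L γ).toFinset, Nat.card (stabilizer L δ) = Nat.card L := by
        intro γ
        rw [Finset.sum_congr rfl (g := fun _ => Nat.card (stabilizer L γ)) (fun δ hδ => by
          obtain ⟨u, rfl⟩ := Set.mem_toFinset.1 hδ
          exact (Nat.card_congr (stabilizerEquivStabilizer (g := u) rfl).toEquiv).symm)]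
        rw [Finset.sum_const, smul_eq_mul, ← Set.ncard_eq_toFinset_card', ← index_stabilizer,
          index_mul_card]
      have hgood : ∀ γ : Ω, γ ≠ α → (∃ x : L, x ≠ 1 ∧ x • γ = γ) → ∀ δ ∈ orbit L γ,
          δ ≠ α ∧ 2 ≤ Nat.card (stabilizer L δ) := by
        rintro γ hγ ⟨x, hx1, hx⟩ _ ⟨u, rfl⟩
        refine ⟨fun h => hγ ?_, ?_⟩
        · have h2 : u • α = α := u.2
          exact MulAction.injective u (h.trans h2.symm)
        · rw [← Nat.card_congr (stabilizerEquivStabilizer (g := u) rfl).toEquiv]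
          exact (one_lt_card_iff_ne_bot _).2 (ne_bot_iff_exists_ne_one.2
            ⟨⟨x, hx⟩, fun h => hx1 (congrArg Subtype.val h)⟩)
      have hdisj : Disjoint (orbit L β).toFinset (orbit L γ).toFinset := by
        rw [Finset.disjoint_left]
        intro δ h1 h2
        rw [Set.mem_toFinset] at h1 h2
        exact hno (by rw [← orbit_eq_iff.2 h1, orbit_eq_iff.2 h2]; exact mem_orbit_self γ)
      set T := (orbit L β).toFinset ∪ (orbit L γ).toFinset
      have hT : ∀ δ ∈ T, δ ≠ α ∧ 2 ≤ Nat.card (stabilizer L δ) := by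
        intro δ hδ
        rcases Finset.mem_union.1 hδ with h | h
        · exact hgood β hαβ.symm ⟨⟨g, hgα⟩, fun h => hg1 (congrArg Subtype.val h), hgβ⟩ δ (Set.mem_toFinset.1 h)
        · exact hgood γ hγ hx δ (Set.mem_toFinset.1 h)
      have h1 : ∑ δ ∈ T, Nat.card (stabilizer L δ) = 2 * Nat.card L := by
        rw [Finset.sum_union hdisj, hsum, hsum, two_mul]
      let A : Ω → Finset L := fun δ => (Finset.univ.filter (· ∈ stabilizer L δ)).erase 1
      have hA : ∀ δ, (A δ).card = Nat.card (stabilizer L δ) - 1 := fun δ => by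
        rw [Finset.card_erase_of_mem (by simp), Nat.card_eq_fintype_card, Fintype.card_subtype]
      have h2 : (T.biUnion A).card = ∑ δ ∈ T, (A δ).card := by
        apply Finset.card_biUnion
        intro δ hδ ε hε hne
        rw [Function.onFun, Finset.disjoint_left]
        intro x h1 h2
        simp only [A, Finset.mem_erase, Finset.mem_filter, Finset.mem_univ, true_and] at h1 h2
        exact h1.1 (Subtype.ext (three x α δ ε (hT δ hδ).1.symm (hT ε hε).1.symm hne x.2 h1.2 h2.2))
      have h3 : (T.biUnion A).card < Nat.card L := by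
        rw [Nat.card_eq_fintype_card]
        exact Finset.card_lt_univ_of_notMem (x := 1) (by simp [A])
      have h4 : ∑ δ ∈ T, Nat.card (stabilizer L δ) ≤ ∑ δ ∈ T, 2 * (A δ).card :=
        Finset.sum_le_sum fun δ hδ => by have := (hT δ hδ).2; rw [hA]; omega
      rw [← Finset.mul_sum] at h4
      omega
    obtain ⟨u, hu⟩ := htr.exists_smul_eq β α
    obtain ⟨v, hv⟩ := key (u • α) (fun h => hαβ (MulAction.injective u (h.trans hu.symm))) ⟨⟨u * g * u⁻¹, by
      rw [mem_stabilizer_iff, ← hu, mul_smul, inv_smul_smul, mul_smul, hgβ]⟩,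
      fun h => hg1 (by simpa using congrArg Subtype.val h), by
        show (u * g * u⁻¹) • u • α = u • α
        rw [mul_smul, inv_smul_smul, mul_smul, hgα]⟩
    have hv' : (v : G) • β = u • α := hv
    have hvα : (v : G) • α = α := v.2
    have e1 : ((v : G)⁻¹ * u) • α = β := by rw [mul_smul, inv_smul_eq_iff, hv']
    have e2 : ((v : G)⁻¹ * u) • β = α := by rw [mul_smul, hu, inv_smul_eq_iff, hvα]
    by_contra hodd
    obtain ⟨m, hm⟩ := Nat.odd_iff.2 (Nat.two_dvd_ne_zero.1 hodd)
    have e3 : (((v : G)⁻¹ * u) ^ 2) ∈ L := by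
      rw [mem_stabilizer_iff, sq, mul_smul, e1, e2]
    have e4 := pow_card_eq_one' (x := (v : G)⁻¹ * u)
    rw [hm, pow_succ', pow_mul] at e4
    have e5 := congrArg (· • α) e4
    simp only [one_smul] at e5
    rw [mul_smul, mem_stabilizer_iff.1 (pow_mem e3 m), e1] at e5
    exact hαβ e5.symm
  · intro p hp hkp hpG α
    by_contra hc
    push Not at hc
    haveI := Fact.mk hp
    obtain ⟨P, hP⟩ := H1.exists_isSylowIn p (stabilizer G α)
    have hP1 := hP.ne_bot hc.1
    obtain ⟨Q, hQ, hPQ⟩ := H1.exists_isSylowIn_ge hP.isPGroup (le_top)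
    have hlt : P < Q := lt_of_le_of_ne hPQ fun h => hQ.not_dvd (by
      rw [← h, relIndex_top_right]; exact hc.2.trans (index_dvd_of_le hP.le))
    haveI := hQ.isPGroup.isNilpotent
    obtain ⟨y, hy, hyP⟩ := SetLike.exists_of_lt (H1.lt_inf_normalizer_of_isNilpotent hlt)
    have hyα : y • α ≠ α := fun h => hyP (by
      have := hP.le_of_le_normalizer (Q := zpowers y) (hQ.isPGroup.to_le (zpowers_le.2 hy.1))
        (zpowers_le.2 h) (zpowers_le.2 hy.2)
      exact this (mem_zpowers y))
    obtain ⟨⟨x, hx⟩, hx1⟩ := ne_bot_iff_exists_ne_one.1 hP1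
    have hS : ∀ g ∈ zpowers y, ∀ ω ∈ fixedPoints P Ω, g • ω ∈ fixedPoints P Ω := by
      intro g hg ω hω u
      have := hω ⟨_, H1.conj_mem_of_mem_normalizer' (zpowers_le.2 hy.2 hg) u.2⟩
      show (u : G) • g • ω = g • ω
      have e : (g⁻¹ * u * g) • ω = ω := this
      rwa [mul_smul, mul_smul, inv_smul_eq_iff] at e
    have hmod := H8.ncard_modEq_of_isPGroup (hQ.isPGroup.to_le (zpowers_le.2 hy.1)) _ (Set.toFinite _) hS
    have hlt2 : {x ∈ fixedPoints P Ω | ∀ g ∈ zpowers y, g • x = x}.ncard < (fixedPoints P Ω).ncard :=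
      Set.ncard_lt_ncard ⟨Set.sep_subset _ _, fun h => hyα ((h (show α ∈ fixedPoints P Ω from
        fun u => hP.le u.2)).2 y (mem_zpowers y))⟩
    have hle : (fixedPoints P Ω).ncard ≤ k := le_trans (Set.ncard_le_ncard (t := fixedBy Ω x)
      (fun ω hω => hω ⟨x, hx⟩)) (hfix x fun h => hx1 (Subtype.ext h))
    exact hlt2.ne' (hmod.eq_of_lt_of_lt (by omega) (by omega))

end Cfsg.Agent.S3389
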