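import Cfsg.Statements.S3413
import Mathlib
import Cfsg.Agent.H8.MF

set_option autoImplicit false
open Cfsg

namespace Cfsg.Agent.S3413

/-- Let H be a finite group whose commuting graph (vertices the non-identity elements, two joined when they commute) is isomorphic to that of the Mathieu group M_11: there is a bijection between the non-identity elements of H and of M_11 under which two elements commute exactly when their images do. Then H ≅ M_11. -/
theorem result {H : Type*} [Group H] [Finite H]
    (f : {h : H // h ≠ 1} ≃ {g : ↥Cfsg.Spor.M11 // g ≠ 1})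
    (hf : ∀ x y : {h : H // h ≠ 1}, (x : H) * y = y * x ↔ ((f x) : ↥Cfsg.Spor.M11) * (f y) = (f y) * (f x)) :
    Nonempty (H ≃* ↥Cfsg.Spor.M11) := by
  classical
  obtain ⟨hs, hc⟩ := H8.spor_m11
  haveI : Fact (Nat.Prime 11) := ⟨by norm_num⟩
  let F : H ≃ ↥Cfsg.Spor.M11 :=
    (Equiv.optionSubtypeNe 1).symm.trans (f.optionCongr.trans (Equiv.optionSubtypeNe 1))
  have F1 : F 1 = 1 := by simp [F]
  have F2 : ∀ x (h : x ≠ 1), F x = f ⟨x, h⟩ := fun x h => by
    simp [F, Equiv.optionSubtypeNe_symm_of_ne h]
  have F3 : ∀ x y, x * y = y * x ↔ F x * F y = F y * F x := fun x y => by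
    by_cases hx : x = 1
    · simp [hx, F1]
    by_cases hy : y = 1
    · simp [hy, F1]
    rw [F2 x hx, F2 y hy]; exact hf ⟨x, hx⟩ ⟨y, hy⟩
  have hcard : Nat.card H = 7920 := (Nat.card_congr F).trans hc
  obtain ⟨a, ha⟩ := exists_prime_orderOf_dvd_card' (G := ↥Cfsg.Spor.M11) 11 (by rw [hc]; norm_num)
  haveI : IsSimpleGroup H := H8.simple_of_cen11 hcard (x := F.symm a) (fun e => by
    rw [Equiv.symm_apply_eq, F1] at e; simp [e] at ha) (by
      rw [← ha, ← Nat.card_zpowers, ← H8.m11_cen11 hc ha]
      exact Nat.card_congr (F.subtypeEquiv fun x => by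
        rw [Subgroup.mem_centralizer_singleton_iff, Subgroup.mem_centralizer_singleton_iff, F3,
          F.apply_symm_apply]))
  exact H8.m11_unique hcard hc

end Cfsg.Agent.S3413
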