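import Cfsg.Statements.S3495
import Cfsg.Agent.H7.Cop

set_option autoImplicit false
open Cfsg

namespace Cfsg.Agent.S3495

open MulAction Subgroup

/-- Let a finite group G act faithfully and primitively on a finite set Ω with non-trivial point stabilizers, each acting primitively on every one of its orbits (an extremely primitive group), and suppose G has an elementary abelian normal p-subgroup N acting regularly on Ω (affine type). Then every non-trivial subgroup M of a point stabilizer G_α that is normal in G_α has the same orbits on Ω as G_α, and normalizes no subgroup of N other than 1 and N. -/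
theorem result {G : Type*} [Group G] [Finite G] {Ω : Type*} [Fintype Ω] [MulAction G Ω] [FaithfulSMul G Ω] (hprim : MulAction.IsPreprimitive G Ω) (hH : ∀ α : Ω, MulAction.stabilizer G α ≠ ⊥) (hep : ∀ (α : Ω) (ω : Ω), MulAction.IsPreprimitive (MulAction.stabilizer G α) (MulAction.orbit (MulAction.stabilizer G α) ω))
    (N : Subgroup G) [N.Normal] (hNc : IsMulCommutative N) (p : ℕ) (hp : p.Prime) (hNp : ∀ n ∈ N, n ^ p = 1)
    (hNtr : MulAction.IsPretransitive N Ω) (hNreg : ∀ ω : Ω, MulAction.stabilizer N ω = ⊥) (α : Ω) (M : Subgroup G) (hM : M ≠ ⊥) (hMle : M ≤ MulAction.stabilizer G α)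
    (hMn : MulAction.stabilizer G α ≤ Subgroup.normalizer (M : Set G)) :
    (∀ ω : Ω, MulAction.orbit M ω = MulAction.orbit (MulAction.stabilizer G α) ω) ∧
    (∀ L : Subgroup G, L ≤ N → M ≤ Subgroup.normalizer (L : Set G) → L = ⊥ ∨ L = N) := by
  set_option maxSynthPendingDepth 3 in
  classical
  haveI : Nontrivial Ω := by
    by_contra h
    haveI := not_nontrivial_iff_subsingleton.1 h
    exact hH α (eq_bot_iff.2 fun g _ => eq_of_smul_eq_smul (α := Ω) fun _ => Subsingleton.elim _ _)
  have mx := IsPreprimitive.isCoatom_stabilizer_of_isPreprimitive G α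
  have rg : ∀ n ∈ N, ∀ n' ∈ N, n • α = n' • α → n = n' := fun n a n' b e => by
    have : (⟨n', b⟩⁻¹ * ⟨n, a⟩ : N) ∈ stabilizer N α := show (n'⁻¹ * n) • α = α by rw [mul_smul, e, inv_smul_smul]
    rw [hNreg, mem_bot, inv_mul_eq_one] at this
    exact (congrArg Subtype.val this).symm
  have cj : ∀ g ∈ stabilizer G α, ∀ n : G, (g * n * g⁻¹) • α = g • n • α := fun g h n => by
    rw [mul_smul, mul_smul, show g⁻¹ • α = α from inv_mem h]
  have nm : normalizer (M : Set G) = stabilizer G α := (mx.le_iff.1 hMn).resolve_left fun z => hM (eq_bot_iff.2 fun m h =>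
    eq_of_smul_eq_smul (α := Ω) fun ω => by
      obtain ⟨g, rfl⟩ := exists_smul_eq G α ω
      have : (g⁻¹ * m * g) • α = α := hMle ((mem_normalizer_iff''.1 (z.ge (mem_top g)) m).1 h)
      rw [mul_smul, mul_smul, inv_smul_eq_iff] at this
      rw [this, one_smul])
  have o : ∀ ω : Ω, orbit M ω = orbit (stabilizer G α) ω := fun ω => by
    refine Set.Subset.antisymm (by rintro _ ⟨m, rfl⟩; exact ⟨⟨m, hMle m.2⟩, rfl⟩) fun y h => ?_
    haveI := hep α ω
    haveI : (M.subgroupOf (stabilizer G α)).Normal := (normal_subgroupOf_iff_le_normalizer hMle).2 hMn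
    by_cases z : fixedPoints (M.subgroupOf (stabilizer G α)) (orbit (stabilizer G α) ω) = Set.univ
    · obtain ⟨n, rfl⟩ := exists_smul_eq N α ω
      have : (n : G) ∈ stabilizer G α := nm ▸ centralizer_le_normalizer _ fun m k => by
        have e0 := congrArg Subtype.val (z.ge (Set.mem_univ ⟨n • α, mem_orbit_self _⟩) ⟨⟨m, hMle k⟩, k⟩)
        have e : m • (n : G) • α = (n : G) • α := e0
        exact mul_inv_eq_iff_eq_mul.1 (rg _ (‹N.Normal›.conj_mem _ n.2 m) _ n.2 ((cj m (hMle k) n).trans e))
      obtain ⟨g, rfl⟩ := h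
      refine ⟨1, (one_smul _ _).trans ?_⟩
      show (n : G) • α = (g : G) • (n : G) • α
      rw [show (n : G) • α = α from this, show (g : G) • α = α from g.2]
    · obtain ⟨m, e⟩ := (IsQuasiPreprimitive.isPretransitive_of_normal z).1 ⟨_, mem_orbit_self _⟩ ⟨y, h⟩
      exact ⟨⟨m.1.1, m.2⟩, congrArg Subtype.val e⟩
  refine ⟨o, fun L l h => ?_⟩
  have k : stabilizer G α ≤ normalizer (L : Set G) := fun g a => mem_normalizer_fintype fun x b => by
    obtain ⟨m, e⟩ := (o (x • α)).ge ⟨⟨g, a⟩, rfl⟩
    rw [rg _ (‹N.Normal›.conj_mem _ (l b) g) _ (‹N.Normal›.conj_mem _ (l b) m) (by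
      rw [cj g a, cj m (hMle m.2)]; exact e.symm)]
    exact H7.conj_mem h m.2 b
  rcases mx.le_iff.1 (le_sup_right : _ ≤ L ⊔ stabilizer G α) with z | z
  · refine .inr (le_antisymm l fun n a => ?_)
    obtain ⟨x, b, g, c, rfl⟩ := (H7.mem_sup_nrm' k).1 (z.ge (mem_top n))
    rw [rg _ ((N.mul_mem_cancel_left (l b)).1 a) 1 (one_mem _) (c.trans (one_smul _ _).symm), mul_one]; exact b
  · exact .inl (eq_bot_iff.2 fun x b => rg _ (l b) 1 (one_mem _) ((z.le (mem_sup_left b)).trans (one_smul _ _).symm))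

end Cfsg.Agent.S3495
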