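import Cfsg.Statements.S3504
import Mathlib

set_option autoImplicit false
open Cfsg

namespace Cfsg.Agent.S3504

open Equiv Perm

/-- For n ≥ 5, the fixed-point-free permutations of prime order in the symmetric group of degree n form a single conjugacy class if and only if n is a prime power. -/
theorem result (n : ℕ) (hn : 5 ≤ n) :
    Nat.card {c : ConjClasses (Equiv.Perm (Fin n)) // ∃ g : Equiv.Perm (Fin n), ConjClasses.mk g = c ∧ (orderOf g).Prime ∧ ∀ i : Fin n, g i ≠ i} = 1 ↔ IsPrimePow n := by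
  set_option maxSynthPendingDepth 3 in
  classical
  have ex : ∀ p : n.primeFactors, ∃ g : Perm (Fin n), g.cycleType = Multiset.replicate (n / p) p.1 := fun p =>
    (exists_with_cycleType_iff _).2 ⟨by simp [Nat.div_mul_le_self], fun a h =>
      Multiset.eq_of_mem_replicate h ▸ (Nat.prime_of_mem_primeFactors p.2).two_le⟩
  choose g hg using ex
  have o : ∀ p, orderOf (g p) = p := fun p => by
    rw [← lcm_cycleType, hg]
    obtain ⟨k, e⟩ := Nat.exists_eq_succ_of_ne_zero (Nat.div_pos (Nat.le_of_mem_primeFactors p.2)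
      (Nat.pos_of_mem_primeFactors p.2)).ne'
    rw [e]
    exact Nat.dvd_antisymm (Multiset.lcm_dvd.2 fun _ h => Multiset.eq_of_mem_replicate h ▸ dvd_rfl)
      (Multiset.dvd_lcm (Multiset.mem_replicate.2 ⟨k.succ_ne_zero, rfl⟩))
  rw [isPrimePow_iff_card_primeFactors_eq_one, ← Fintype.card_coe, ← Nat.card_eq_fintype_card,
    Nat.card_congr (Equiv.ofBijective (fun p : n.primeFactors => (⟨ConjClasses.mk (g p), _, rfl,
      (o p).symm ▸ Nat.prime_of_mem_primeFactors p.2, fun i => mem_support.1 ((Finset.eq_univ_of_card _ (by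
        rw [← sum_cycleType, hg]; simp [Nat.div_mul_cancel (Nat.dvd_of_mem_primeFactors p.2)])).ge (Finset.mem_univ i))⟩ :
      {c : ConjClasses (Perm (Fin n)) // ∃ g : Perm (Fin n), ConjClasses.mk g = c ∧ (orderOf g).Prime ∧ ∀ i, g i ≠ i}))
    ⟨fun p q e => Subtype.ext (by rw [← o, ← o, ← lcm_cycleType, ← lcm_cycleType,
      isConj_iff_cycleType_eq.1 (ConjClasses.mk_eq_mk_iff_isConj.1 (congrArg Subtype.val e))]), ?_⟩)]
  · rintro ⟨_, σ, rfl, a, b⟩
    obtain ⟨k, e⟩ := cycleType_prime_order a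
    have s := sum_cycleType σ
    rw [e, Finset.eq_univ_of_forall fun i => mem_support.2 (b i), Multiset.sum_replicate, Finset.card_fin, smul_eq_mul] at s
    refine ⟨⟨_, a.mem_primeFactors (Dvd.intro_left _ s) (by omega)⟩, Subtype.ext
      (ConjClasses.mk_eq_mk_iff_isConj.2 (isConj_iff_cycleType_eq.2 ?_))⟩
    rw [hg, e, Nat.div_eq_of_eq_mul_left a.pos s.symm]

end Cfsg.Agent.S3504
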