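import Cfsg.Statements.S3508
import Mathlib

set_option autoImplicit false
open Cfsg

namespace Cfsg.Agent.S3508

open MulAction Polynomial

theorem aux {V : Type*} [AddCommGroup V] [Finite V] {p m r j : ℕ} [hp : Fact p.Prime] [Module (ZMod p) V]
    (c : Nat.card V = p ^ m) (f : V →+ V) (e : ∀ x, f^[p ^ r] x = x) (lt : m < p ^ j) (x : V) :
    ∑ i ∈ Finset.range (p ^ j), f^[i] x = 0 ∧ f^[p ^ j] x = x := by

  have fr : Module.finrank (ZMod p) V = m := Nat.pow_right_injective hp.out.two_le (by
    have := Module.natCard_eq_pow_finrank (K := ZMod p) (V := V)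
    rw [Nat.card_zmod] at this
    exact this.symm.trans c)
  let A : Module.End (ZMod p) V := f.toZModLinearMap p
  have a : ∀ k x, (A ^ k) x = f^[k] x := fun k x => Module.End.pow_apply A k x
  have ch : ∀ j, (X - 1 : (ZMod p)[X]) ^ p ^ j = X ^ p ^ j - 1 := fun j => by rw [sub_pow_char_pow, one_pow]
  have nl : (A - 1) ^ m = 0 := by
    have : IsNilpotent (A - 1) := ⟨p ^ r, by
      have := congrArg (aeval A) (ch r)
      simp only [map_pow, map_sub, aeval_X, map_one] at this
      rw [this, sub_eq_zero]
      exact LinearMap.ext fun x => (a _ x).trans (e x)⟩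
    simpa [this.charpoly_eq_X_pow_finrank, fr] using (A - 1).aeval_self_charpoly
  have s : ∑ i ∈ Finset.range (p ^ j), A ^ i = 0 := by
    have : (∑ i ∈ Finset.range (p ^ j), X ^ i : (ZMod p)[X]) = (X - 1) ^ (p ^ j - 1) :=
      mul_right_cancel₀ (X_sub_C_ne_zero 1) (by rw [C_1, geom_sum_mul, pow_sub_one_mul (by omega), ch])
    have := congrArg (aeval A) this
    simp only [map_pow, map_sub, aeval_X, map_one, map_sum] at this
    rw [this, pow_eq_zero_of_le (by omega) nl]
  have e : A ^ p ^ j = 1 := by rw [← sub_eq_zero, ← geom_sum_mul, s, zero_mul]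
  exact ⟨by simpa [a] using DFunLike.congr_fun s x, by rw [← a, e]; rfl⟩

/-- Let a finite group G act faithfully on a set Ω with p ^ m points (p prime) and have an elementary abelian normal p-subgroup N acting regularly on Ω (so G is a group of affine transformations of an m-dimensional space over the field with p elements). If G contains an element of order p ^ r with r ≥ 1, then p ^ (r − 1) ≤ m. In particular an element of order p ^ m forces m ≤ 2, and m ≤ 1 when p is odd. -/
theorem result {G : Type*} [Group G] [Finite G] {Ω : Type*} [Fintype Ω] [MulAction G Ω] [FaithfulSMul G Ω] (p m : ℕ) (hp : p.Prime) (hcard : Fintype.card Ω = p ^ m)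
    (N : Subgroup G) [N.Normal] (hNc : IsMulCommutative N) (hNp : ∀ n ∈ N, n ^ p = 1)
    (hNtr : MulAction.IsPretransitive N Ω) (hNreg : ∀ ω : Ω, MulAction.stabilizer N ω = ⊥)
    (g : G) (r : ℕ) (hr : 1 ≤ r) (hg : orderOf g = p ^ r) :
    p ^ (r - 1) ≤ m ∧ (r = m → m ≤ 2 ∧ (2 < p → m ≤ 1)) := by
  set_option maxSynthPendingDepth 3 in
  haveI := Fact.mk hp
  have main : p ^ (r - 1) ≤ m := by
    by_contra! lt
    haveI : Nonempty Ω := Fintype.card_pos_iff.1 (hcard ▸ pow_pos hp.pos m)
    obtain ⟨α⟩ := this
    letI : CommGroup N := { (inferInstance : Group N) with mul_comm := hNc.1.1 }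
    have cN : Nat.card N = p ^ m := by
      rw [← hcard, ← Nat.card_eq_fintype_card, ← index_stabilizer_of_transitive N α, hNreg, Subgroup.index_bot]
    obtain ⟨n, hn⟩ := exists_smul_eq N α (g • α)
    let A : Additive N →+ Additive N := MonoidHom.toAdditive (MulAut.conjNormal g).toMonoidHom
    have a : ∀ k (x : Additive N), (A^[k] x).toMul.1 = g ^ k * x.toMul.1 * (g ^ k)⁻¹ := fun k => by
      induction k with
      | zero => simp
      | succ k ih => intro x; rw [Function.iterate_succ_apply, ih, pow_succ]; simp [A, mul_assoc]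
    have b : ∀ k, g ^ k • α = (∑ i ∈ Finset.range k, A^[i] (.ofMul n)).toMul.1 • α := fun k => by
      induction k with
      | zero => simp
      | succ k ih =>
        rw [Finset.sum_range_succ, add_comm (Finset.sum _ _), toMul_add, Subgroup.coe_mul, mul_smul, ← ih, a,
          mul_smul, inv_smul_smul, mul_smul, pow_succ, mul_smul]
        exact congrArg _ hn.symm
    letI : Module (ZMod p) (Additive N) := AddCommGroup.zmodModule fun x => Subtype.ext (hNp _ x.toMul.2)
    have s := aux (V := Additive N) (r := r) cN A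
      (fun x => Subtype.ext ((a _ x).trans (by rw [← hg, pow_orderOf_eq_one, inv_one, one_mul, mul_one]; rfl))) lt
    have : g ^ p ^ (r - 1) = 1 := eq_of_smul_eq_smul (α := Ω) fun ω => by
      obtain ⟨x, rfl⟩ := exists_smul_eq N α ω
      have := a (p ^ (r - 1)) (.ofMul x)
      rw [(s _).2, eq_mul_inv_iff_mul_eq] at this
      rw [one_smul, Subgroup.smul_def, ← mul_smul, ← show _ = g ^ p ^ (r - 1) * (x : G) from this, mul_smul, b, (s _).1]
      simp
    have := (Nat.pow_dvd_pow_iff_le_right hp.one_lt).1 (hg ▸ orderOf_dvd_of_pow_eq_one this)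
    omega
  refine ⟨main, fun e => ?_⟩
  subst e
  obtain ⟨r, rfl⟩ := Nat.exists_eq_add_of_le' hr
  rw [Nat.add_sub_cancel] at main
  refine ⟨by_contra fun z => ?_, fun h => by_contra fun z => ?_⟩
  · obtain ⟨r, rfl⟩ : ∃ k, r = k + 2 := ⟨r - 2, by omega⟩
    have := (Nat.pow_le_pow_left hp.two_le _).trans main
    have := @Nat.lt_two_pow_self r
    rw [pow_add] at *; omega
  · obtain ⟨r, rfl⟩ : ∃ k, r = k + 1 := ⟨r - 1, by omega⟩
    have := (Nat.pow_le_pow_left (show 3 ≤ p from h) _).trans main
    have := Nat.lt_pow_self (show 1 < 3 by omega) (n := r)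
    rw [pow_add] at *; omega

end Cfsg.Agent.S3508
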