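import Cfsg.Statements.S3511
import Mathlib
import Cfsg.Agent.H8.FrobSol
import Cfsg.Agent.H1.Basic

set_option autoImplicit false
open Cfsg

namespace Cfsg.Agent.S3511

/-- Let a finite group G act faithfully on a set Ω. If every element of G of square-free order has a regular cycle (an orbit of the cyclic group it generates with trivial stabilizer), then every element of G has a regular cycle. -/
theorem result {G : Type*} [Group G] [Finite G] {Ω : Type*} [MulAction G Ω] [FaithfulSMul G Ω]
    (h : ∀ g : G, Squarefree (orderOf g) → ∃ ω : Ω, MulAction.stabilizer (Subgroup.zpowers g) ω = ⊥) (g : G) :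
    ∃ ω : Ω, MulAction.stabilizer (Subgroup.zpowers g) ω = ⊥ := by
  have hpos := orderOf_pos g
  set n := orderOf g with hn
  obtain ⟨m, hm⟩ : UniqueFactorizationMonoid.radical n ∣ n := UniqueFactorizationMonoid.radical_dvd_self
  have hm0 : m ≠ 0 := by rintro rfl; omega
  have ho : orderOf (g ^ m) = UniqueFactorizationMonoid.radical n := by
    rw [orderOf_pow' _ hm0, ← hn, Nat.gcd_eq_right (Dvd.intro_left _ hm.symm)]
    exact Nat.div_eq_of_eq_mul_left (by omega) hm
  obtain ⟨ω, hω⟩ := h (g ^ m) (ho ▸ UniqueFactorizationMonoid.squarefree_radical)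
  refine ⟨ω, ?_⟩
  by_contra hne
  obtain ⟨p, hp, hd⟩ := Nat.exists_prime_and_dvd (fun h => hne (Subgroup.card_eq_one.1 h))
  obtain ⟨c, hc, hco⟩ := H1.exists_mem_orderOf_eq_prime hp hd
  have hpn : p ∣ n := by
    rw [← hco, hn, ← Nat.card_zpowers g]; exact orderOf_dvd_natCard c
  have h2 : (c : G) ∈ Subgroup.zpowers (g ^ m) := by
    apply H8.mem_zpowers_of_orderOf_dvd c.2 (Subgroup.npow_mem_zpowers g m)
    rw [ho, Subgroup.orderOf_coe, hco]
    exact (UniqueFactorizationMonoid.dvd_radical_iff_of_irreducible hp.prime.irreducible (by omega)).2 hpn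
  obtain ⟨k, hk⟩ := h2
  have hk' : (g ^ m) ^ k = c := hk
  have h3 : (⟨c, hk' ▸ Subgroup.zpow_mem_zpowers _ k⟩ : Subgroup.zpowers (g ^ m)) ∈
      MulAction.stabilizer (Subgroup.zpowers (g ^ m)) ω := hc
  rw [hω, Subgroup.mem_bot] at h3
  have h4 : c = 1 := Subtype.ext (by simpa using h3)
  rw [h4, orderOf_one] at hco
  exact hp.one_lt.ne hco

end Cfsg.Agent.S3511
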