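import Cfsg.Statements.S3514
import Cfsg.Agent.H7.Cop

set_option autoImplicit false
open Cfsg

namespace Cfsg.Agent.S3514

open MulAction Subgroup

/-- Let p be a prime, V a finite vector space over the field with p elements, and H a group of linear transformations of V all of whose orbits on V have size coprime to p. (i) Every normal subgroup K of H has all its orbits on V of size coprime to p. (ii) If N is a group of linear transformations of V of order coprime to p that is normalized by H, then the group generated by N and H has all its orbits on V of size coprime to p. -/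
theorem result (p : ℕ) [Fact p.Prime] {V : Type*} [AddCommGroup V] [Module (ZMod p) V] [Finite V]
    (H : Subgroup (V ≃ₗ[ZMod p] V)) (hH : ∀ v : V, ¬ p ∣ Nat.card {u : V | ∃ h ∈ H, h v = u}) :
    (∀ K : Subgroup (V ≃ₗ[ZMod p] V), K ≤ H → H ≤ Subgroup.normalizer (K : Set (V ≃ₗ[ZMod p] V)) →
        ∀ v : V, ¬ p ∣ Nat.card {u : V | ∃ k ∈ K, k v = u}) ∧
    (∀ N : Subgroup (V ≃ₗ[ZMod p] V), ¬ p ∣ Nat.card N → H ≤ Subgroup.normalizer (N : Set (V ≃ₗ[ZMod p] V)) →
        ∀ v : V, ¬ p ∣ Nat.card {u : V | ∃ x ∈ N ⊔ H, x v = u}) := by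
  set_option maxSynthPendingDepth 3 in
  have hp : p.Prime := Fact.out
  haveI : Finite (V ≃ₗ[ZMod p] V) := .of_injective _ DFunLike.coe_injective
  have o : ∀ (K : Subgroup (V ≃ₗ[ZMod p] V)) v, Nat.card {u : V | ∃ k ∈ K, k v = u} =
      (stabilizer (V ≃ₗ[ZMod p] V) v).relIndex K := fun K v => by
    rw [Nat.card_coe_set_eq, show {u : V | ∃ k ∈ K, k v = u} = orbit K v from
      Set.ext fun u => ⟨fun ⟨k, a, b⟩ => ⟨⟨k, a⟩, b⟩, fun ⟨k, b⟩ => ⟨k, k.2, b⟩⟩, ← index_stabilizer]
    rfl
  have c : ∀ A B : Subgroup (V ≃ₗ[ZMod p] V), Nat.card (A ⊓ B : Subgroup _) * A.relIndex B = Nat.card B := fun A B => by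
    rw [← relIndex_bot_left, ← relIndex_bot_left, ← inf_relIndex_right A, relIndex_mul_relIndex _ _ _ bot_le inf_le_right]
  have s : ∀ A B : Subgroup (V ≃ₗ[ZMod p] V), A ≤ normalizer (B : Set _) → A.relIndex (B ⊔ A) = A.relIndex B :=
    fun A B h => by
      have a := c A (B ⊔ A)
      have b := H7.card_sup_mul_card_inf h
      rw [inf_eq_left.2 le_sup_right, sup_comm] at a
      rw [← a, ← c A B, mul_right_comm, mul_assoc] at b
      rw [sup_comm]
      exact Nat.eq_of_mul_eq_mul_left Nat.card_pos (Nat.eq_of_mul_eq_mul_left Nat.card_pos b)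
  simp only [o] at hH ⊢
  refine ⟨fun K l h v d => hH v (d.trans ?_), fun N n h v d => ?_⟩
  · rw [← inf_relIndex_right _ H, ← relIndex_mul_relIndex _ (K ⊔ stabilizer _ v ⊓ H) H le_sup_right (sup_le l inf_le_right),
      s _ _ (inf_le_right.trans h), ← inf_relIndex_right (_ ⊓ H), inf_assoc, inf_eq_right.2 l, inf_relIndex_right]
    exact dvd_mul_right _ _
  · have := d.trans (relIndex_dvd_of_le_left (N ⊔ H) (inf_le_left : stabilizer _ v ⊓ H ≤ _))
    rw [← relIndex_mul_relIndex _ H _ inf_le_right le_sup_right, s _ _ h, inf_relIndex_right] at this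
    exact (hp.dvd_mul.1 this).elim (hH v) fun z => n (z.trans (relIndex_dvd_card _ _))

end Cfsg.Agent.S3514
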