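import Cfsg.Statements.S3516
import Cfsg.Agent.H3.Lin2

set_option autoImplicit false
open Cfsg

namespace Cfsg.Agent.S3516

/-- Let p be an odd prime, d ≥ 3, and G a group of affine permutations x ↦ Ax + b of V = F_p^d containing all translations and all maps x ↦ Ax with A of determinant 1. Then the 3-closure of G is the full affine group: a permutation σ of V agrees on every triple of points with some element of G if and only if σ is an affine map. -/
theorem result (p : ℕ) [Fact p.Prime] (hp : p ≠ 2) (d : ℕ) (hd : 3 ≤ d) (G : Subgroup (Equiv.Perm (Fin d → ZMod p)))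
    (haff : (G : Set (Equiv.Perm (Fin d → ZMod p))) ⊆ {τ : Equiv.Perm (Fin d → ZMod p) | ∃ (A : (Fin d → ZMod p) ≃ₗ[ZMod p] (Fin d → ZMod p)) (b : Fin d → ZMod p), ∀ x, τ x = A x + b})
    (htrans : ∀ b : Fin d → ZMod p, ∃ g ∈ G, ∀ x, g x = x + b)
    (hsl : ∀ A : (Fin d → ZMod p) ≃ₗ[ZMod p] (Fin d → ZMod p), LinearMap.det (A : (Fin d → ZMod p) →ₗ[ZMod p] (Fin d → ZMod p)) = 1 → ∃ g ∈ G, ∀ x, g x = A x)
    (σ : Equiv.Perm (Fin d → ZMod p)) :
    (∀ t : Fin 3 → (Fin d → ZMod p), ∃ g ∈ G, ∀ i, σ (t i) = g (t i)) ↔ σ ∈ {τ : Equiv.Perm (Fin d → ZMod p) | ∃ (A : (Fin d → ZMod p) ≃ₗ[ZMod p] (Fin d → ZMod p)) (b : Fin d → ZMod p), ∀ x, τ x = A x + b} := by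
  set_option maxSynthPendingDepth 3 in
  refine ⟨fun h => H3.affine_of_triples hp fun t => ?_, fun ⟨A, b, h⟩ t => ?_⟩
  · obtain ⟨g, m, e⟩ := h t
    obtain ⟨A, b, h⟩ := haff m
    exact ⟨A, b, fun i => (e i).trans (h _)⟩
  obtain ⟨u, n⟩ : ∃ u, u ∉ Submodule.span (ZMod p) (Set.range ![t 1 - t 0, t 2 - t 0]) := by
    by_contra! z
    have := finrank_range_le_card (R := ZMod p) ![t 1 - t 0, t 2 - t 0]
    rw [Set.finrank, Submodule.eq_top_iff'.2 z] at this
    simp at this; omega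
  obtain ⟨φ, a, e⟩ := H4.exists_dual_eq n (((LinearEquiv.det A)⁻¹ : (ZMod p)ˣ) - 1)
  have i : IsUnit (1 + φ u) := by rw [e, add_sub_cancel]; exact Units.isUnit _
  obtain ⟨g, m, k⟩ := hsl (A * LinearEquiv.dilatransvection i) (by
    rw [← LinearEquiv.coe_det, map_mul, Units.val_mul, LinearEquiv.coe_det (LinearEquiv.dilatransvection i),
      LinearEquiv.dilatransvection.coe_toLinearMap, LinearMap.transvection.det, e, add_sub_cancel]
    exact Units.mul_inv _)
  obtain ⟨s, l, r⟩ := htrans (b - φ (t 0) • A u)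
  refine ⟨s * g, mul_mem l m, fun j => ?_⟩
  have : φ (t j) = φ (t 0) := by
    rw [← sub_eq_zero, ← map_sub]
    fin_cases j
    exacts [by simp, a _ (Submodule.subset_span ⟨0, rfl⟩), a _ (Submodule.subset_span ⟨1, rfl⟩)]
  rw [Equiv.Perm.mul_apply, r, k, h, LinearEquiv.mul_apply, LinearEquiv.dilatransvection.apply, map_add, map_smul, this]
  abel

end Cfsg.Agent.S3516
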