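import Cfsg.Statements.S3517
import Cfsg.Agent.H3.Lin1

set_option autoImplicit false
open Cfsg

namespace Cfsg.Agent.S3517

/-- For d ≥ 3, the 3-closure of the affine group AGL_d(2) acting on F_2^d is the full symmetric group: every permutation of F_2^d agrees on every ordered triple of points with some affine map (AGL_d(2) is 3-transitive). -/
theorem result (d : ℕ) (hd : 3 ≤ d) (σ : Equiv.Perm (Fin d → ZMod 2)) (t : Fin 3 → (Fin d → ZMod 2)) :
    ∃ (A : (Fin d → ZMod 2) ≃ₗ[ZMod 2] (Fin d → ZMod 2)) (b : Fin d → ZMod 2), ∀ i, σ (t i) = A (t i) + b := by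
  set_option maxSynthPendingDepth 3 in
  classical
  have z : ∀ c : ZMod 2, c = 0 ∨ c = 1 := by decide
  have li : ∀ {u v : Fin d → ZMod 2}, u ≠ 0 → v ≠ 0 → u ≠ v → LinearIndependent (ZMod 2) ![u, v] := fun {u v} a b c =>
    LinearIndependent.pair_iff.2 fun s t e => by
      rcases z s with rfl | rfl <;> rcases z t with rfl | rfl <;> simp_all
      exact c (funext fun i => CharTwo.add_eq_zero.1 (congrFun e i))
  have k : ∀ {ι : Type} [Finite ι] {u v : ι → Fin d → ZMod 2}, LinearIndependent (ZMod 2) u → LinearIndependent (ZMod 2) v →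
      ∃ A : (Fin d → ZMod 2) ≃ₗ[ZMod 2] (Fin d → ZMod 2), ∀ i, A (u i) = v i := fun {ι _ u v} a b => by
    obtain ⟨A, h⟩ := Submodule.exists_linearEquiv_restrict_eq ((Module.Basis.span a).equiv (Module.Basis.span b) (.refl _))
    refine ⟨A, fun i => ?_⟩
    have := h (Module.Basis.span a i)
    rw [Module.Basis.equiv_apply] at this
    simpa using this.symm
  suffices ∃ A : (Fin d → ZMod 2) ≃ₗ[ZMod 2] (Fin d → ZMod 2), A (t 1 - t 0) = σ (t 1) - σ (t 0) ∧
      A (t 2 - t 0) = σ (t 2) - σ (t 0) by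
    obtain ⟨A, a, b⟩ := this
    refine ⟨A, σ (t 0) - A (t 0), fun i => ?_⟩
    rw [map_sub] at a b
    fin_cases i
    · simp
    · exact (sub_eq_iff_eq_add.1 a.symm).trans (by simp; abel)
    · exact (sub_eq_iff_eq_add.1 b.symm).trans (by simp; abel)
  have o : ∀ x y, ∃ A : (Fin d → ZMod 2) ≃ₗ[ZMod 2] (Fin d → ZMod 2), A (x - y) = σ x - σ y := fun x y => by
    by_cases e : x = y
    · exact ⟨1, by simp [e]⟩
    · exact (k (ι := Unit) (u := fun _ => x - y) (v := fun _ => σ x - σ y)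
        (linearIndependent_unique_iff.2 (sub_ne_zero.2 e)) (linearIndependent_unique_iff.2
          (sub_ne_zero.2 (σ.injective.ne e)))).imp fun _ h => h ()
  by_cases a : t 1 = t 0
  · exact (o (t 2) (t 0)).imp fun A h => ⟨by simp [a], h⟩
  by_cases b : t 2 = t 0
  · exact (o (t 1) (t 0)).imp fun A h => ⟨h, by simp [b]⟩
  by_cases c : t 1 = t 2
  · exact (o (t 1) (t 0)).imp fun A h => ⟨h, c ▸ h⟩
  exact (k (li (sub_ne_zero.2 a) (sub_ne_zero.2 b) (by simpa)) (li (sub_ne_zero.2 (σ.injective.ne a))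
    (sub_ne_zero.2 (σ.injective.ne b)) (by simpa))).imp fun A h => ⟨h 0, h 1⟩

end Cfsg.Agent.S3517
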