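import Cfsg.Statements.S3518
import Mathlib
import Cfsg.Agent.S0675

set_option autoImplicit false
open Cfsg

namespace Cfsg.Agent.S3518
open Equiv

theorem aff_of_solv (p : ℕ) [hp : Fact p.Prime] (X : Subgroup (Perm (ZMod p))) (hs : Group.IsSolvable X)
    (ht : Equiv.addRight (1 : ZMod p) ∈ X) : X ≤ Cfsg.affineGroup (ZMod p) := by
  classical
  set t : Perm (ZMod p) := Equiv.addRight (1 : ZMod p) with htd
  have tp : ∀ (n : ℕ) (x : ZMod p), (t ^ n) x = x + n := fun n => by
    induction n with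
    | zero => simp
    | succ n ih => intro x; rw [pow_succ', Perm.mul_apply, ih]; simp [t, add_assoc]
  have t1 : (⟨t, ht⟩ : X) ≠ 1 := fun e => by
    have := congrArg (fun g : X => g.1 0) e
    simp [t] at this
  haveI : Nontrivial X := ⟨_, _, t1⟩
  -- last nontrivial term of the derived series
  have hex : ∃ n, derivedSeries X n = ⊥ := hs.solvable
  have h0 : Nat.find hex ≠ 0 := fun e => by
    have := Nat.find_spec hex
    rw [e] at this
    exact top_ne_bot this
  obtain ⟨n, hn⟩ := Nat.exists_eq_succ_of_ne_zero h0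
  have h1 : derivedSeries X n ≠ ⊥ := Nat.find_min hex (by omega)
  have h2 : derivedSeries X (n + 1) = ⊥ := by have := Nat.find_spec hex; rwa [hn] at this
  set A := derivedSeries X n
  have hA : A.Normal := derivedSeries_normal X n
  have hc : ∀ a ∈ A, ∀ b ∈ A, a * b = b * a := fun a ha b hb =>
    commutatorElement_eq_one_iff_mul_comm.1 (h2.le (Subgroup.commutator_mem_commutator ha hb))
  obtain ⟨⟨a, ha⟩, a1⟩ := Subgroup.ne_bot_iff_exists_ne_one.1 h1
  -- `t` commutes with `a`: otherwise `A` would be too large; we show `t ∈ A`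
  have hord : orderOf (⟨t, ht⟩ : X) = p := orderOf_eq_prime (Subtype.ext (Equiv.ext fun x => by
    show (t ^ p) x = x
    rw [tp]; simp)) t1
  have hcard : Nat.card X ∣ p.factorial := by
    have := X.card_subgroup_dvd_card
    rwa [Nat.card_perm, Nat.card_zmod] at this
  have hp2 : ¬ p ^ 2 ∣ Nat.card X := fun h => by
    have h3 := h.trans hcard
    obtain ⟨m, hm⟩ := Nat.exists_eq_succ_of_ne_zero hp.out.ne_zero
    have : p.factorial = p * m.factorial := by conv_lhs => rw [hm, Nat.factorial_succ, ← Nat.succ_eq_add_one, ← hm]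
    rw [this, sq, Nat.mul_dvd_mul_iff_left hp.out.pos, hp.out.dvd_factorial] at h3
    omega
  haveI : MulAction.IsPretransitive X (ZMod p) := ⟨fun x y => ⟨⟨t, ht⟩ ^ (y - x).val, by
    show (t ^ (y - x).val) x = y
    rw [tp]; simp⟩⟩
  haveI : MulAction.IsPreprimitive X (ZMod p) := MulAction.IsPreprimitive.of_prime_card (by rw [Nat.card_zmod]; exact hp.out)
  haveI : MulAction.IsPretransitive A (ZMod p) := MulAction.IsQuasiPreprimitive.isPretransitive_of_normal (fun h => a1 (by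
    apply Subtype.ext; apply Subtype.ext; ext x
    have : x ∈ MulAction.fixedPoints A (ZMod p) := h ▸ Set.mem_univ x
    exact this ⟨a, ha⟩))
  have hpA : p ∣ Nat.card A := by
    have := MulAction.index_stabilizer_of_transitive A (0 : ZMod p)
    rw [Nat.card_zmod] at this
    have h3 := (MulAction.stabilizer A (0 : ZMod p)).index_dvd_card
    rwa [this] at h3
  have hidx : ¬ p ∣ A.index := fun h => hp2 (by
    rw [← A.card_mul_index, sq]; exact Nat.mul_dvd_mul hpA h)
  have tA : (⟨t, ht⟩ : X) ∈ A := by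
    have h3 := A.pow_index_mem (⟨t, ht⟩ : X)
    have h4 : (⟨t, ht⟩ : X) ∈ Subgroup.zpowers ((⟨t, ht⟩ : X) ^ A.index) := by
      rw [mem_zpowers_pow_iff, hord]
      exact ((Nat.Prime.coprime_iff_not_dvd hp.out).2 hidx).symm
    exact (Subgroup.zpowers_le.2 h3) h4
  intro σ hσ
  have h5 := congrArg Subtype.val (hc _ (hA.conj_mem _ tA ⟨σ, hσ⟩) _ tA)
  have h6 : ∀ x, (σ * t * σ⁻¹) (x + 1) = (σ * t * σ⁻¹) x + 1 := fun x => congrArg (fun g : Perm (ZMod p) => g x) h5
  have h7 : ∀ n : ℕ, (σ * t * σ⁻¹) n = (σ * t * σ⁻¹) 0 + n := fun n => by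
    induction n with
    | zero => simp
    | succ n ih => rw [Nat.cast_succ, h6, ih, add_assoc]
  have h8 : ∀ x, σ (x + 1) = σ x + (σ * t * σ⁻¹) 0 := fun x => by
    have := h7 (σ x).val
    rw [ZMod.natCast_zmod_val, add_comm] at this
    rw [← this]; simp [t]
  have h9 : ∀ n : ℕ, σ n = (σ * t * σ⁻¹) 0 * n + σ 0 := fun n => by
    induction n with
    | zero => simp
    | succ n ih => rw [Nat.cast_succ, h8, ih]; ring
  have h10 : (σ * t * σ⁻¹) 0 ≠ 0 := fun e => by
    have := h8 0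
    rw [e, add_zero] at this
    simpa using σ.injective this
  exact ⟨Units.mk0 _ h10, σ 0, fun x => by simpa using h9 x.val⟩

def aff {p : ℕ} [Fact p.Prime] (a b : ZMod p) (ha : a ≠ 0) : Perm (ZMod p) := (Equiv.mulLeft₀ a ha).trans (Equiv.addRight b)

theorem aff_mem {p : ℕ} [Fact p.Prime] (a b : ZMod p) (ha : a ≠ 0) : aff a b ha ∈ Cfsg.affineGroup (ZMod p) :=
  ⟨Units.mk0 a ha, b, fun _ => rfl⟩


/-- Closures of subgroups of the one-dimensional affine group. Let p be a prime and G a group of permutations of F_p lying in the affine group AGL₁(p) = {x ↦ ax + b, a ≠ 0} and containing all translations. (1) If G is a proper subgroup of AGL₁(p), then G is 2-closed: a permutation of F_p agreeing on every ordered pair of points with some element of G lies in G. (2) Every permutation of F_p agrees on every ordered pair with some element of AGL₁(p) (the 2-closure of AGL₁(p) is the symmetric group). (3) AGL₁(p) is 3-closed: a permutation agreeing on every ordered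 triple with some affine map is affine. -/
theorem result (p : ℕ) [Fact p.Prime] (G : Subgroup (Equiv.Perm (ZMod p))) (hG : G ≤ Cfsg.affineGroup (ZMod p))
    (htrans : ∀ b : ZMod p, ∃ g ∈ G, ∀ x, g x = x + b) :
    (G ≠ Cfsg.affineGroup (ZMod p) → ∀ σ : Equiv.Perm (ZMod p), (∀ t : Fin 2 → ZMod p, ∃ g ∈ G, ∀ i, σ (t i) = g (t i)) → σ ∈ G) ∧
    (∀ σ : Equiv.Perm (ZMod p), (∀ t : Fin 2 → ZMod p, ∃ g ∈ Cfsg.affineGroup (ZMod p), ∀ i, σ (t i) = g (t i))) ∧
    (∀ σ : Equiv.Perm (ZMod p), (∀ t : Fin 3 → ZMod p, ∃ g ∈ Cfsg.affineGroup (ZMod p), ∀ i, σ (t i) = g (t i)) → σ ∈ Cfsg.affineGroup (ZMod p)) := by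
  have eq01 : ∀ g ∈ Cfsg.affineGroup (ZMod p), ∀ h ∈ Cfsg.affineGroup (ZMod p), g 0 = h 0 → g 1 = h 1 → g = h := by
    rintro g ⟨a, b, hg⟩ h ⟨c, d, hh⟩ h0 h1
    simp only [hg, hh, mul_zero, zero_add, mul_one] at h0 h1
    subst h0
    ext x
    rw [hg, hh, add_right_cancel h1]
  refine ⟨fun hne σ hσ => ?_, fun σ t => ?_, fun σ hσ => ?_⟩
  · let X : Subgroup (Perm (ZMod p)) :=
      { carrier := {σ | ∀ x y, ∃ g ∈ G, σ x = g x ∧ σ y = g y}
        one_mem' := fun x y => ⟨1, one_mem _, rfl, rfl⟩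
        mul_mem' := fun {a b} ha hb x y => by
          obtain ⟨g, hg, h1, h2⟩ := hb x y
          obtain ⟨k, hk, h3, h4⟩ := ha (b x) (b y)
          exact ⟨k * g, mul_mem hk hg, by simp [← h1, h3], by simp [← h2, h4]⟩
        inv_mem' := fun {a} ha x y => by
          obtain ⟨g, hg, h1, h2⟩ := ha (a⁻¹ x) (a⁻¹ y)
          refine ⟨g⁻¹, inv_mem hg, ?_, ?_⟩
          · rw [Perm.eq_inv_iff_eq, ← h1]; simp
          · rw [Perm.eq_inv_iff_eq, ← h2]; simp }
    have hX : σ ∈ X := fun x y => by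
      obtain ⟨g, hg, h⟩ := hσ ![x, y]
      exact ⟨g, hg, h 0, h 1⟩
    have ht : Equiv.addRight (1 : ZMod p) ∈ X := fun x y => by
      obtain ⟨g, hg, h⟩ := htrans 1
      exact ⟨g, hg, (h x).symm, (h y).symm⟩
    haveI : MulAction.IsPretransitive X (ZMod p) := ⟨fun x y => by
      obtain ⟨g, hg, h⟩ := htrans (y - x)
      exact ⟨⟨g, fun _ _ => ⟨g, hg, rfl, rfl⟩⟩, by show g x = y; rw [h]; ring⟩⟩
    rcases Cfsg.Agent.S0675.result (by rw [ZMod.card]; exact Fact.out) X with h | h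
    · obtain ⟨g, hg, h0, h1⟩ := hX 0 1
      rwa [eq01 σ (aff_of_solv p X h ht hX) g (hG hg) h0 h1]
    · refine absurd (le_antisymm hG fun k hk => ?_) hne
      obtain ⟨⟨x, hx⟩, h0, h1⟩ := (MulAction.is_two_pretransitive_iff.1 h) (zero_ne_one (α := ZMod p))
        (k.injective.ne (zero_ne_one (α := ZMod p)))
      obtain ⟨g, hg, h2, h3⟩ := hx 0 1
      rwa [eq01 k hk g (hG hg) (h0.symm.trans h2) (h1.symm.trans h3)]
  · by_cases h : t 0 = t 1
    · refine ⟨aff 1 (σ (t 0) - t 0) one_ne_zero, aff_mem _ _ _, fun i => ?_⟩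
      show _ = 1 * t i + _
      fin_cases i
      · simp
      · simp [h]
    · have h1 : t 0 - t 1 ≠ 0 := sub_ne_zero.2 h
      have h2 : σ (t 0) - σ (t 1) ≠ 0 := sub_ne_zero.2 (σ.injective.ne h)
      refine ⟨aff ((σ (t 0) - σ (t 1)) / (t 0 - t 1)) (σ (t 0) - (σ (t 0) - σ (t 1)) / (t 0 - t 1) * t 0)
        (div_ne_zero h2 h1), aff_mem _ _ _, fun i => ?_⟩
      show _ = _ * t i + _
      fin_cases i
      · simp
      · show σ (t 1) = (σ (t 0) - σ (t 1)) / (t 0 - t 1) * t 1 + (σ (t 0) - (σ (t 0) - σ (t 1)) / (t 0 - t 1) * t 0)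
        field_simp; ring
  · obtain ⟨g, hg, h⟩ := hσ ![0, 1, 0]
    suffices σ = g from this ▸ hg
    ext x
    obtain ⟨k, hk, h'⟩ := hσ ![0, 1, x]
    rw [eq01 g hg k hk ((h 0).symm.trans (h' 0)) ((h 1).symm.trans (h' 1))]
    exact h' 2

end Cfsg.Agent.S3518
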