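import Cfsg.Statements.S3524
import Mathlib

set_option autoImplicit false
open Cfsg

namespace Cfsg.Agent.S3524

/-- A permutation group with a base is closed at one level above the base size. Let G be a group of permutations of a set Ω and suppose some k points α₁, …, α_k are fixed simultaneously only by the identity of G (a base of size k). Then G is (k+1)-closed: a permutation of Ω that agrees on every (k+1)-tuple of points with some element of G belongs to G. -/
theorem result {Ω : Type*} (G : Subgroup (Equiv.Perm Ω)) (k : ℕ) (α : Fin k → Ω)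
    (hbase : ∀ g ∈ G, (∀ i, g (α i) = α i) → g = 1) (σ : Equiv.Perm Ω)
    (hσ : ∀ t : Fin (k + 1) → Ω, ∃ g ∈ G, ∀ i, σ (t i) = g (t i)) : σ ∈ G := by
  rcases isEmpty_or_nonempty Ω with h | ⟨⟨x0⟩⟩
  · rw [Subsingleton.elim σ 1]; exact one_mem G
  obtain ⟨g0, hg0, h0⟩ := hσ (Fin.cons x0 α)
  have : σ = g0 := by
    ext x
    obtain ⟨g, hg, h⟩ := hσ (Fin.cons x α)
    have h1 : g0⁻¹ * g = 1 := hbase _ (mul_mem (inv_mem hg0) hg) fun i => by
      have a := h i.succ
      have b := h0 i.succ
      simp only [Fin.cons_succ] at a b
      simp [← a, b]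
    have := h 0
    simp only [Fin.cons_zero] at this
    rw [this, ← inv_mul_eq_one.1 h1]
  rw [this]; exact hg0

end Cfsg.Agent.S3524
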