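import Cfsg.Statements.S3546
import Mathlib
import Cfsg.Agent.H8.PermBasic
import Cfsg.Agent.H8.Misc1

set_option autoImplicit false
open Cfsg

namespace Cfsg.Agent.S3546

open MulAction Subgroup

/-- sum of fixed points over a coset of a transitive subgroup -/
theorem sum_coset {G Ω : Type*} [Group G] [Finite G] [MulAction G Ω] [Finite Ω] (D : Subgroup G)
    [Fintype D] (hD : IsPretransitive D Ω) [Nonempty Ω] (g : G) :
    ∑ d : D, Nat.card (fixedBy Ω (g * d)) = Nat.card D := by
  classical
  haveI := Fintype.ofFinite Ω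
  have h1 : ∀ ω : Ω, (Finset.univ.filter fun d : D => (g * d) • ω = ω).card = Nat.card (stabilizer D ω) := by
    intro ω
    obtain ⟨d0, hd0⟩ := hD.exists_smul_eq ω (g⁻¹ • ω)
    rw [Nat.card_eq_fintype_card, Fintype.card_subtype]
    refine Finset.card_bij' (fun d _ => d0⁻¹ * d) (fun d _ => d0 * d) ?_ ?_ (by simp) (by simp)
    · intro d hd
      simp only [Finset.mem_filter, Finset.mem_univ, true_and, mem_stabilizer_iff] at hd ⊢
      rw [mul_smul, inv_smul_eq_iff, hd0, eq_inv_smul_iff]
      rwa [mul_smul] at hd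
    · intro d hd
      simp only [Finset.mem_filter, Finset.mem_univ, true_and, mem_stabilizer_iff] at hd ⊢
      rw [mul_smul]
      show g • (d0 * d) • ω = ω
      rw [mul_smul, hd, hd0, smul_inv_smul]
  have h2 : ∑ d : D, Nat.card (fixedBy Ω (g * d)) =
      ∑ ω : Ω, (Finset.univ.filter fun d : D => (g * d) • ω = ω).card := by
    simp only [Nat.card_eq_fintype_card, Fintype.card_subtype, Finset.card_filter, mem_fixedBy]
    exact Finset.sum_comm
  have h3 : ∀ ω : Ω, Nat.card (stabilizer D ω) * Nat.card Ω = Nat.card D := fun ω => by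
    rw [← index_stabilizer_of_transitive D ω, card_mul_index]
  rw [h2]
  simp only [h1]
  apply Nat.eq_of_mul_eq_mul_right (Nat.card_pos (α := Ω))
  rw [Finset.sum_mul]
  simp only [h3, Finset.sum_const, Finset.card_univ, smul_eq_mul, ← Nat.card_eq_fintype_card, mul_comm]

theorem normal_der {G Ω : Type*} [Group G] [MulAction G Ω] :
    (closure {g : G | ∀ ω : Ω, g • ω ≠ ω}).Normal := by
  refine ⟨fun n hn g => ?_⟩
  induction hn using closure_induction with
  | mem x hx =>
    refine subset_closure fun ω h => hx (g⁻¹ • ω) ?_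
    rwa [mul_smul, mul_smul, ← eq_inv_smul_iff] at h
  | one => simp
  | mul x y _ _ hx hy => simpa [mul_assoc] using mul_mem hx hy
  | inv x _ hx => simpa [mul_assoc] using inv_mem hx

theorem trans_der {G Ω : Type*} [Group G] [Finite G] [MulAction G Ω] [Finite Ω]
    (htrans : IsPretransitive G Ω) : IsPretransitive (closure {g : G | ∀ ω : Ω, g • ω ≠ ω}) Ω := by
  set D := closure {g : G | ∀ ω : Ω, g • ω ≠ ω}
  haveI : D.Normal := normal_der
  rcases isEmpty_or_nonempty Ω with h | ⟨⟨a⟩⟩
  · exact ⟨fun x => h.elim x⟩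
  have h1 : stabilizer G a ⊔ D = ⊤ := by
    by_contra h
    obtain ⟨x, hx⟩ := H8.exists_not_mem_conj h
    by_cases hd : ∀ ω : Ω, x • ω ≠ ω
    · have : x ∈ D := Subgroup.subset_closure hd
      exact hx 1 (by simpa using mem_sup_right this)
    · push Not at hd
      obtain ⟨ω, hω⟩ := hd
      obtain ⟨k, rfl⟩ := exists_smul_eq G a ω
      exact hx k (mem_sup_left (by rw [mem_stabilizer_iff, mul_smul, mul_smul, hω, inv_smul_smul]))
  have h2 : ∀ b, ∃ d : D, d • a = b := by
    intro b
    obtain ⟨k, rfl⟩ := exists_smul_eq G a b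
    have : k ∈ ((D ⊔ stabilizer G a : Subgroup G) : Set G) := by rw [sup_comm, h1]; trivial
    rw [normal_mul] at this
    obtain ⟨d, hd, s, hs, rfl⟩ := this
    exact ⟨⟨d, hd⟩, by rw [mul_smul, mem_stabilizer_iff.1 hs]; rfl⟩
  refine ⟨fun x y => ?_⟩
  obtain ⟨d, rfl⟩ := h2 x
  obtain ⟨e, rfl⟩ := h2 y
  exact ⟨e * d⁻¹, by simp [mul_smul]⟩

theorem fix_one {G Ω : Type*} [Group G] [Finite G] [MulAction G Ω] [Finite Ω] [Nonempty Ω]
    (htrans : IsPretransitive G Ω) (g : G) (hg : g ∉ closure {g : G | ∀ ω : Ω, g • ω ≠ ω}) :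
    Nat.card (fixedBy Ω g) = 1 := by
  set D := closure {g : G | ∀ ω : Ω, g • ω ≠ ω}
  haveI := Fintype.ofFinite D
  have h1 := sum_coset D (trans_der htrans) g
  have h2 : ∀ d : D, 1 ≤ Nat.card (fixedBy Ω (g * d)) := by
    intro d
    have : ¬ ∀ ω : Ω, (g * d) • ω ≠ ω := fun h =>
      hg ((mul_mem_cancel_right d.2).1 (subset_closure h))
    push Not at this
    obtain ⟨ω, hω⟩ := this
    haveI : Nonempty (fixedBy Ω (g * d)) := ⟨⟨ω, hω⟩⟩
    exact Nat.card_pos
  have h3 := (Finset.sum_eq_sum_iff_of_le (s := Finset.univ) (fun d _ => h2 d)).1 (by rw [h1]; simp) 1 (by simp)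
  simpa using h3.symm

/-- Let G act faithfully and transitively on a finite set and let D be the subgroup of G generated by the derangements (the elements fixing no point). Then D is itself transitive, and D contains every element of G whose number of fixed points is different from 1. -/
theorem result {G Ω : Type*} [Group G] [Finite G] [MulAction G Ω] [FaithfulSMul G Ω] [Finite Ω]
    (htrans : MulAction.IsPretransitive G Ω) :
    MulAction.IsPretransitive ↥(Subgroup.closure {g : G | ∀ ω : Ω, g • ω ≠ ω}) Ω ∧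
    ∀ g : G, Nat.card (MulAction.fixedBy Ω g) ≠ 1 → g ∈ Subgroup.closure {g : G | ∀ ω : Ω, g • ω ≠ ω} := by
  refine ⟨trans_der htrans, fun g hg => ?_⟩
  rcases isEmpty_or_nonempty Ω with h | h
  · exact subset_closure fun ω => h.elim ω
  by_contra h'
  exact hg (fix_one htrans g h')

end Cfsg.Agent.S3546
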