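import Cfsg.Statements.S3547
import Mathlib
import Cfsg.Agent.S3546

set_option autoImplicit false
open Cfsg

namespace Cfsg.Agent.S3547

open MulAction Subgroup

theorem card_fix_prod {G Ω : Type*} [Group G] [MulAction G Ω] (g : G) :
    Nat.card (fixedBy (Ω × Ω) g) = Nat.card (fixedBy Ω g) * Nat.card (fixedBy Ω g) := by
  rw [← Nat.card_prod]
  refine Nat.card_congr ⟨fun x => (⟨x.1.1, congrArg Prod.fst x.2⟩, ⟨x.1.2, congrArg Prod.snd x.2⟩),
    fun x => ⟨(x.1.1, x.2.1), Prod.ext x.1.2 x.2.2⟩, fun _ => rfl, fun _ => rfl⟩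

theorem burnside (G Ω : Type*) [Group G] [Fintype G] [MulAction G Ω] [Finite Ω] :
    ∑ g : G, Nat.card (fixedBy Ω g) = Nat.card (orbitRel.Quotient G Ω) * Nat.card G := by
  classical
  haveI := Fintype.ofFinite Ω
  haveI := Fintype.ofFinite (orbitRel.Quotient G Ω)
  simp only [Nat.card_eq_fintype_card]
  exact sum_card_fixedBy_eq_card_orbits_mul_card_group G Ω

/-- Let G act faithfully and transitively on a finite set Ω, let D be the subgroup generated by the derangements, and let r_G and r_D be the numbers of orbits of G and of D on ordered pairs of points (the permutation ranks). Then r_D − 1 = (r_G − 1)·[G : D]. -/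
theorem result {G Ω : Type*} [Group G] [Finite G] [MulAction G Ω] [FaithfulSMul G Ω] [Finite Ω]
    (htrans : MulAction.IsPretransitive G Ω) :
    Nat.card (MulAction.orbitRel.Quotient ↥(Subgroup.closure {g : G | ∀ ω : Ω, g • ω ≠ ω}) (Ω × Ω)) - 1 =
      (Nat.card (MulAction.orbitRel.Quotient G (Ω × Ω)) - 1) * (Subgroup.closure {g : G | ∀ ω : Ω, g • ω ≠ ω}).index := by
  classical
  rcases isEmpty_or_nonempty Ω with h | h
  · simp [Nat.card_of_isEmpty]
  set D := closure {g : G | ∀ ω : Ω, g • ω ≠ ω}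
  haveI := Fintype.ofFinite G
  have h1 := burnside G (Ω × Ω)
  have h2 := burnside D (Ω × Ω)
  have h3 : ∑ g : G, Nat.card (fixedBy (Ω × Ω) g) + Nat.card D =
      ∑ g : D, Nat.card (fixedBy (Ω × Ω) g) + Nat.card G := by
    rw [← Finset.sum_filter_add_sum_filter_not Finset.univ (· ∈ D),
      Finset.sum_subtype (Finset.univ.filter (· ∈ D)) (p := (· ∈ D)) (by simp),
      Finset.sum_congr rfl (g := fun _ => 1) (s₁ := Finset.univ.filter (· ∉ D)) (fun g hg => by
        rw [card_fix_prod, S3546.fix_one htrans g (by simpa using hg)])]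
    have := Finset.card_filter_add_card_filter_not (s := (Finset.univ : Finset G)) (· ∈ D)
    simp only [Finset.sum_const, smul_eq_mul, mul_one, Nat.card_eq_fintype_card (α := G),
      Nat.card_eq_fintype_card (α := D), Fintype.card_subtype]
    rw [Finset.card_univ] at this
    rw [add_assoc, add_comm (Finset.card _), this]; rfl
  rw [h1, h2, ← D.card_mul_index] at h3
  have hp : 0 < Nat.card D := Nat.card_pos
  obtain ⟨ω⟩ := h
  haveI : Nonempty (orbitRel.Quotient G (Ω × Ω)) := ⟨Quotient.mk _ (ω, ω)⟩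
  haveI : Nonempty (orbitRel.Quotient D (Ω × Ω)) := ⟨Quotient.mk _ (ω, ω)⟩
  have hG : 1 ≤ Nat.card (orbitRel.Quotient G (Ω × Ω)) := Nat.card_pos
  have hD : 1 ≤ Nat.card (orbitRel.Quotient D (Ω × Ω)) := Nat.card_pos
  apply Nat.eq_of_mul_eq_mul_left hp
  zify [hG, hD] at h3 ⊢
  linear_combination -h3

end Cfsg.Agent.S3547
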