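import Cfsg.Statements.S3548
import Cfsg.Agent.H3.Der

set_option autoImplicit false
open Cfsg

namespace Cfsg.Agent.S3548

open MulAction Subgroup H3.Der

/-- Let G act faithfully and transitively on a finite set with n ≥ 2 points and let D be the subgroup generated by the derangements. Then the index of D in G divides n − 1, and if it equals n − 1 then n is a prime power. -/
theorem result {G Ω : Type*} [Group G] [Finite G] [MulAction G Ω] [FaithfulSMul G Ω] [Finite Ω]
    (htrans : MulAction.IsPretransitive G Ω) (hΩ : 2 ≤ Nat.card Ω) :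
    (Subgroup.closure {g : G | ∀ ω : Ω, g • ω ≠ ω}).index ∣ Nat.card Ω - 1 ∧
    ((Subgroup.closure {g : G | ∀ ω : Ω, g • ω ≠ ω}).index = Nat.card Ω - 1 → IsPrimePow (Nat.card Ω)) := by
  set_option maxSynthPendingDepth 3 in
  haveI : Nontrivial Ω := Finite.one_lt_card_iff_nontrivial.1 hΩ
  haveI := normal G Ω
  set D := Subgroup.closure {g : G | ∀ ω : Ω, g • ω ≠ ω}
  have hD : ∀ g : G, (∀ ω : Ω, g • ω ≠ ω) → g ∈ D := fun g h => Subgroup.subset_closure h
  obtain ⟨a⟩ : Nonempty Ω := inferInstance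
  obtain ⟨e, l, d⟩ := der_dvd D hD a
  refine ⟨d, fun h => ?_⟩
  haveI := (der D hD).1
  have k : ∀ x : SubMulAction.ofStabilizer G a, D.subgroupOf (stabilizer G a) ≤ stabilizer (stabilizer G a) x ∧
      orbit (stabilizer G a) x = Set.univ := fun x => by
    have l' : stabilizer (stabilizer G a) x ≤ D.subgroupOf (stabilizer G a) := fun g k => l x x.2 ⟨g.2, congrArg Subtype.val k⟩
    have m := relIndex_mul_index l'
    have c := SubMulAction.nat_card_ofStabilizer_add_one_eq G a
    have o := Set.ncard_le_card (orbit (stabilizer G a) x)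
    have p : 0 < (orbit (stabilizer G a) x).ncard := (Set.ncard_pos (Set.toFinite _)).2 ⟨_, mem_orbit_self x⟩
    rw [index_stabilizer, show (D.subgroupOf _).index = _ from e.symm, h, ← c, Nat.add_sub_cancel] at m
    have : (stabilizer (stabilizer G a) x).relIndex (D.subgroupOf (stabilizer G a)) = 1 := by
      rcases z : (stabilizer (stabilizer G a) x).relIndex (D.subgroupOf (stabilizer G a)) with _ | _ | n <;>
        rw [z] at m <;> first | rfl | nlinarith
    rw [this, one_mul] at m
    exact ⟨relIndex_eq_one.1 this, (Set.eq_univ_iff_ncard _).2 m.symm⟩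
  have rg : ∀ x ∈ D, x • a = a → x = 1 := fun x h1 h2 => eq_of_smul_eq_smul (α := Ω) fun b => by
    by_cases z : b = a
    · rw [z, h2, one_smul]
    · exact (congrArg Subtype.val ((k ⟨b, z⟩).1 (show (⟨x, h2⟩ : stabilizer G a) ∈ _ from h1))).trans (one_smul _ _).symm
  have c : Nat.card Ω = Nat.card D := by
    rw [← index_stabilizer_of_transitive D a, show stabilizer D a = ⊥ from eq_bot_iff.2 fun x h => Subtype.ext (rg x x.2 h), index_bot]
  obtain ⟨p, hp, q⟩ := Nat.exists_prime_and_dvd (show Nat.card D ≠ 1 by omega)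
  haveI := Fact.mk hp
  obtain ⟨x, hx⟩ := exists_prime_orderOf_dvd_card' p q
  have x1 : (x : G) • a ≠ a := fun z => hp.one_lt.ne' (by rw [← hx, show x = 1 from Subtype.ext (rg x x.2 z), orderOf_one])
  have : IsPGroup p D := fun y => ⟨1, by
    by_cases z : (y : G) • a = a
    · rw [show y = 1 from Subtype.ext (rg y y.2 z), one_pow]
    obtain ⟨g, e⟩ := (k ⟨_, x1⟩).2.ge (Set.mem_univ ⟨_, z⟩)
    have e : (g : G) • (x : G) • a = (y : G) • a := congrArg Subtype.val e
    have := rg ((y : G)⁻¹ * (g * x * (g : G)⁻¹)) (mul_mem (inv_mem y.2) (‹D.Normal›.conj_mem _ x.2 g)) (by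
      rw [mul_smul, mul_smul, mul_smul, show (g : G)⁻¹ • a = a from inv_mem g.2, e, inv_smul_smul])
    refine Subtype.ext ?_
    rw [coe_pow, inv_mul_eq_one.1 this, conj_pow, pow_one, ← coe_pow, ← hx, pow_orderOf_eq_one]; simp⟩
  obtain ⟨n, e⟩ := this.exists_card_eq
  exact (isPrimePow_nat_iff _).2 ⟨p, n, hp, Nat.pos_of_ne_zero (by rintro rfl; rw [pow_zero] at e; omega), (c.trans e).symm⟩

end Cfsg.Agent.S3548
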