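import Cfsg.Statements.S3549
import Cfsg.Agent.H3.Der

set_option autoImplicit false
open Cfsg

namespace Cfsg.Agent.S3549

open MulAction Subgroup H3.Der

/-- Let G act faithfully, transitively but imprimitively on a finite set with n points, and let D be the subgroup generated by the derangements. Then the index of D in G is at most √n − 1. -/
theorem result {G Ω : Type*} [Group G] [Finite G] [MulAction G Ω] [FaithfulSMul G Ω] [Finite Ω]
    (htrans : MulAction.IsPretransitive G Ω) (himp : ¬ MulAction.IsPreprimitive G Ω) :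
    ((Subgroup.closure {g : G | ∀ ω : Ω, g • ω ≠ ω}).index : ℝ) ≤ Real.sqrt (Nat.card Ω) - 1 := by
  set_option maxSynthPendingDepth 3 in
  haveI : Nontrivial Ω := by
    by_contra h
    haveI := not_nontrivial_iff_subsingleton.1 h
    exact himp IsPreprimitive.of_subsingleton
  haveI := normal G Ω
  set D := Subgroup.closure {g : G | ∀ ω : Ω, g • ω ≠ ω}
  have hD : ∀ g : G, (∀ ω : Ω, g • ω ≠ ω) → g ∈ D := fun g h => Subgroup.subset_closure h
  obtain ⟨a⟩ : Nonempty Ω := inferInstance
  obtain ⟨H, h1, h2⟩ : ∃ H, stabilizer G a < H ∧ H ≠ ⊤ := by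
    by_contra! z
    refine himp ((isCoatom_stabilizer_iff_preprimitive G a).1 ⟨fun e => ?_, z⟩)
    obtain ⟨b, h⟩ := exists_ne a
    obtain ⟨g, k⟩ := exists_smul_eq G a b
    exact h (k.symm.trans (e.ge (mem_top g)))
  have d1 := (der_dvd D hD a).2.2
  have d2 := (der_dvd (Ω := G ⧸ H) D (fun g h => hD g fun ω e => by
    obtain ⟨x, rfl⟩ := exists_smul_eq G a ω
    refine h x (QuotientGroup.eq.2 ?_)
    refine h1.le (show ((g * x)⁻¹ * x) • a = a from ?_)
    rw [mul_smul, inv_smul_eq_iff, mul_smul, e]) (1 : G)).2.2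
  have m := relIndex_mul_index h1.le
  rw [index_stabilizer_of_transitive] at m
  rw [← index_eq_card] at d2
  have b1 : (stabilizer G a).relIndex H ≠ 1 := fun z => h1.not_ge (relIndex_eq_one.1 z)
  have b2 : H.index ≠ 1 := fun z => h2 (index_eq_one.1 z)
  have p : 0 < Nat.card Ω := Nat.card_pos
  rw [← m] at d1 p ⊢
  generalize (stabilizer G a).relIndex H = u at *
  generalize H.index = v at *
  obtain _ | _ | u := u
  · omega
  · omega
  obtain _ | _ | v := v
  · omega
  · omega
  rw [show (u + 1 + 1) * (v + 1 + 1) - 1 = (u + 2) * (v + 1) + (u + 1) from Nat.sub_eq_of_eq_add (by ring)] at d1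
  have l1 := Nat.le_of_dvd (by omega) ((Nat.dvd_add_right (d2.mul_left _)).1 d1)
  have l2 := Nat.le_of_dvd (by omega) d2
  rw [le_sub_iff_add_le]
  refine Real.le_sqrt_of_sq_le ?_
  norm_cast
  rw [sq]
  exact Nat.mul_le_mul (by omega) (by omega)

end Cfsg.Agent.S3549
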