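import Cfsg.Statements.S3559
import Mathlib
import Cfsg.Agent.H8.SR

set_option autoImplicit false
open Cfsg

namespace Cfsg.Agent.S3559

/-- Let G act faithfully and transitively on a finite set whose number of points n ≥ 2 is not a prime power, and suppose G has a cyclic subgroup acting regularly (transitively with trivial point stabilizers). Then G is imprimitive or doubly transitive. -/
theorem result {G Ω : Type*} [Group G] [Finite G] [MulAction G Ω] [FaithfulSMul G Ω] [Finite Ω]
    (htrans : MulAction.IsPretransitive G Ω) (hn : 2 ≤ Nat.card Ω) (hnp : ¬ IsPrimePow (Nat.card Ω))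
    (C : Subgroup G) (hcyc : IsCyclic ↥C) (hC : MulAction.IsPretransitive ↥C Ω ∧ ∀ a : Ω, MulAction.stabilizer ↥C a = ⊥) :
    ¬ MulAction.IsPreprimitive G Ω ∨ MulAction.IsMultiplyPretransitive G Ω 2 := by
  refine or_iff_not_imp_left.2 fun hG => ?_
  obtain ⟨a⟩ := (Nat.card_pos_iff.1 (by omega : 0 < Nat.card Ω)).1
  have b := H8.reg_bij hC a
  refine H8.reg_transfer C.subtype a b (not_not.1 hG) fun hK hG => ?_
  rw [← Nat.card_eq_of_bijective _ b] at hn hnp
  obtain ⟨p, hp, pd⟩ := Nat.exists_prime_and_dvd (show Nat.card C ≠ 1 by omega)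
  obtain ⟨q, ⟨hq, qd⟩, pq⟩ : ∃ q, (q.Prime ∧ q ∣ Nat.card C) ∧ q ≠ p := by
    by_contra! k
    exact hnp (isPrimePow_iff_unique_prime_dvd.2 ⟨p, ⟨hp, pd⟩, k⟩)
  haveI := Fintype.ofFinite C
  letI : CommGroup C := IsCyclic.commGroup
  exact H8.schur_cyc hK hG hp ((IsCyclic.card_powMonoidHom_ker C p).trans
    (Nat.gcd_eq_right pd)) hq pq.symm qd

end Cfsg.Agent.S3559
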