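import Cfsg.Statements.S3560
-- import your own Cfsg.Agent.* helpers here

set_option autoImplicit false
open Cfsg

namespace Cfsg.Agent.S3560

section Aux
variable {ι : Type*} {A : Type*}

/-- differ in exactly one coordinate -/
def Adj (x y : ι → A) : Prop := ∃ i, x i ≠ y i ∧ ∀ j, j ≠ i → x j = y j

/-- product action of the wreath product -/
def W (s : Equiv.Perm ι) (t : ι → Equiv.Perm A) : Equiv.Perm (ι → A) where
  toFun x := fun k => t k (x (s k))
  invFun x := fun k => (t (s.symm k)).symm (x (s.symm k))
  left_inv x := by funext k; simp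
  right_inv x := by funext k; simp

theorem W_apply (s : Equiv.Perm ι) (t : ι → Equiv.Perm A) (x : ι → A) (k : ι) :
    W s t x k = t k (x (s k)) := rfl

theorem adj_W (s : Equiv.Perm ι) (t : ι → Equiv.Perm A) (x y : ι → A) :
    Adj (W s t x) (W s t y) ↔ Adj x y := by
  constructor
  · rintro ⟨i, h1, h2⟩
    refine ⟨s i, fun e => h1 (by simp [W_apply, e]), fun j hj => ?_⟩
    have := h2 (s.symm j) (fun e => hj (by rw [← e]; simp))
    simpa [W_apply] using this
  · rintro ⟨i, h1, h2⟩
    refine ⟨s.symm i, by simpa [W_apply] using h1, fun j hj => ?_⟩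
    have := h2 (s j) (fun e => hj (by rw [← e]; simp))
    simp [W_apply, this]

theorem block_univ [Fintype ι] (h3 : ∀ a b : A, ∃ c, c ≠ a ∧ c ≠ b) (B : Set (ι → A))
    (hB : ∀ s t, ∀ x ∈ B, W s t x ∈ B → ∀ y ∈ B, W s t y ∈ B) {x y : ι → A} (hx : x ∈ B)
    (hy : y ∈ B) (hxy : x ≠ y) (w : ι → A) : w ∈ B := by
  classical
  obtain ⟨i, hi⟩ := Function.ne_iff.mp hxy
  obtain ⟨c, hcx, hcy⟩ := h3 (x i) (y i)
  have h1 : Function.update y i c ∈ B := by
    have e1 : W 1 (fun k => if k = i then Equiv.swap (y i) c else 1) x = x := by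
      funext k
      by_cases hk : k = i
      · subst hk
        simp [W_apply, Equiv.swap_apply_of_ne_of_ne hi hcx.symm]
      · simp [W_apply, hk]
    have e2 : W 1 (fun k => if k = i then Equiv.swap (y i) c else 1) y =
        Function.update y i c := by
      funext k
      by_cases hk : k = i
      · subst hk
        simp [W_apply]
      · simp [W_apply, hk]
    rw [← e2]
    exact hB _ _ x hx (e1.symm ▸ hx) y hy
  have h2 : ∀ z ∈ B, ∀ j d, Function.update z j d ∈ B := by
    intro z hz j d
    by_cases hd : d = z j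
    · rw [hd, Function.update_eq_self]; exact hz
    have hne : z j ≠ Equiv.swap (y i) (z j) c := by
      intro e
      apply hcy
      have := congrArg (Equiv.swap (y i) (z j)) e
      simpa using this.symm
    let T : Equiv.Perm A := Equiv.swap (Equiv.swap (y i) (z j) c) d * Equiv.swap (y i) (z j)
    have hT1 : T (y i) = z j := by
      simp [T, Equiv.swap_apply_of_ne_of_ne hne (Ne.symm hd)]
    have hT2 : T c = d := by simp [T]
    let s : Equiv.Perm ι := Equiv.swap i j
    have e1 : W s (fun k => if k = j then T else Equiv.swap (y (s k)) (z k)) y = z := by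
      funext k
      by_cases hk : k = j
      · subst hk
        simp [W_apply, s, hT1]
      · simp [W_apply, hk]
    have e2 : W s (fun k => if k = j then T else Equiv.swap (y (s k)) (z k))
        (Function.update y i c) = Function.update z j d := by
      funext k
      by_cases hk : k = j
      · subst hk
        simp [W_apply, s, hT2]
      · have : s k ≠ i := by
          intro e
          apply hk
          have := congrArg (Equiv.swap i j) e
          simpa [s] using this
        simp [W_apply, hk, this]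
    rw [← e2]
    exact hB _ _ y hy (e1.symm ▸ hz) _ h1
  have h4 : ∀ S : Finset ι, S.piecewise w y ∈ B := by
    intro S
    induction S using Finset.induction_on with
    | empty => simpa using hy
    | insert j S _ ih => rw [Finset.piecewise_insert]; exact h2 _ ih _ _
  simpa using h4 Finset.univ

/-- the automorphism group of the Hamming graph, transported -/
def GG {X : Type*} (ψ : (ι → A) ≃ X) : Subgroup (Equiv.Perm X) where
  carrier := {τ | ∀ a b : X, Adj (ψ.symm (τ a)) (ψ.symm (τ b)) ↔ Adj (ψ.symm a) (ψ.symm b)}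
  one_mem' := fun a b => Iff.rfl
  mul_mem' := by
    intro σ τ hσ hτ a b
    exact (hσ (τ a) (τ b)).trans (hτ a b)
  inv_mem' := by
    intro σ hσ a b
    have := hσ (σ⁻¹ a) (σ⁻¹ b)
    simpa using this.symm

theorem W_mem {X : Type*} (ψ : (ι → A) ≃ X) (s : Equiv.Perm ι) (t : ι → Equiv.Perm A) :
    ψ.permCongr (W s t) ∈ GG ψ := by
  intro a b
  simp [adj_W]

end Aux

/-- Let K be a finite group isomorphic to a direct product of r ≥ 2 groups all of the same order m ≥ 3. Then K is not a B-group: there is a primitive but not doubly transitive permutation group (on some finite set) containing a regular subgroup isomorphic to K. -/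
theorem result {K : Type*} [Group K] [Finite K] {ι : Type*} [Fintype ι] (F : ι → Type*) [∀ i, Group (F i)]
    (hr : 2 ≤ Fintype.card ι) (m : ℕ) (hm : 3 ≤ m) (hcard : ∀ i, Nat.card (F i) = m) (e : K ≃* (∀ i, F i)) :
    ∃ (n : ℕ) (G R : Subgroup (Equiv.Perm (Fin n))), R ≤ G ∧ Nonempty (↥R ≃* K) ∧
      MulAction.IsPretransitive ↥R (Fin n) ∧ (∀ a : Fin n, MulAction.stabilizer ↥R a = ⊥) ∧
      MulAction.IsPreprimitive ↥G (Fin n) ∧ ¬ MulAction.IsMultiplyPretransitive ↥G (Fin n) 2 := by
  classical
  have hfin : ∀ i, Finite (F i) := fun i => Nat.finite_of_card_ne_zero (by rw [hcard]; omega)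
  let b : ∀ i, F i ≃ Fin m := fun i => (Finite.equivFin (F i)).trans (finCongr (hcard i))
  let ψ : (ι → Fin m) ≃ Fin (Nat.card (ι → Fin m)) := Finite.equivFin _
  let φ : (∀ i, F i) ≃ Fin (Nat.card (ι → Fin m)) := (Equiv.piCongrRight b).trans ψ
  let ρ : (∀ i, F i) →* Equiv.Perm (Fin (Nat.card (ι → Fin m))) :=
    φ.permCongrHom.toMonoidHom.comp (MulAction.toPermHom _ _)
  have hρ : ∀ k a, ρ k a = φ (k * φ.symm a) := fun k a => rfl
  have hinj : Function.Injective ρ :=
    φ.permCongrHom.injective.comp MulAction.toPerm_injective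
  have hle : ρ.range ≤ GG ψ := by
    rintro _ ⟨k, rfl⟩
    have : ρ k = ψ.permCongr (W 1 fun i => (b i).permCongr (Equiv.mulLeft (k i))) := by
      ext a
      rfl
    rw [this]
    exact W_mem _ _ _
  have htr : MulAction.IsPretransitive ρ.range (Fin (Nat.card (ι → Fin m))) := by
    constructor
    intro x y
    refine ⟨⟨ρ (φ.symm y * (φ.symm x)⁻¹), _, rfl⟩, ?_⟩
    show ρ _ x = y
    rw [hρ]; simp
  have htrG : MulAction.IsPretransitive (GG ψ) (Fin (Nat.card (ι → Fin m))) := by
    constructor
    intro x y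
    obtain ⟨g, hg⟩ := htr.exists_smul_eq x y
    exact ⟨⟨g, hle g.2⟩, hg⟩
  refine ⟨_, GG ψ, ρ.range, hle, ⟨(MonoidHom.ofInjective hinj).symm.trans e.symm⟩, htr, ?_, ?_, ?_⟩
  · intro a
    rw [eq_bot_iff]
    rintro ⟨_, k, rfl⟩ hk
    have h1 : ρ k a = a := hk
    rw [hρ, ← Equiv.eq_symm_apply] at h1
    have h2 : k = 1 := by simpa using h1
    subst h2
    simp [Subgroup.mem_bot, Subtype.ext_iff]
  · refine { isTrivialBlock_of_isBlock := ?_ }
    intro B hB
    by_cases hs : B.Subsingleton
    · exact Or.inl hs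
    right
    rw [Set.not_subsingleton_iff] at hs
    obtain ⟨x, hx, y, hy, hxy⟩ := hs
    have h3 : ∀ u v : Fin m, ∃ c, c ≠ u ∧ c ≠ v := by
      intro u v
      obtain ⟨c, hc⟩ : ∃ c, c ∉ ({u, v} : Finset (Fin m)) := by
        by_contra hc
        push Not at hc
        have := Finset.card_le_card (fun c _ => hc c : Finset.univ ⊆ ({u, v} : Finset (Fin m)))
        have h2 := Finset.card_le_two (a := u) (b := v)
        simp only [Finset.card_univ, Fintype.card_fin] at this
        omega
      exact ⟨c, by simpa using hc⟩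
    rw [Set.eq_univ_iff_forall]
    intro w
    have := block_univ h3 (ψ ⁻¹' B) ?_ (x := ψ.symm x) (y := ψ.symm y) (by simpa using hx)
      (by simpa using hy) (by simpa using hxy) (ψ.symm w)
    · simpa using this
    intro s t u hu hu' v hv
    have h5 := hB.smul_eq_of_mem (g := (⟨_, W_mem ψ s t⟩ : GG ψ)) hu (by
      show ψ.permCongr (W s t) (ψ u) ∈ B
      simpa using hu')
    have h6 : (⟨_, W_mem ψ s t⟩ : GG ψ) • ψ v ∈ B := by
      rw [← h5]
      exact Set.smul_mem_smul_set hv
    have h7 : ψ.permCongr (W s t) (ψ v) ∈ B := h6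
    simpa using h7
  · rw [MulAction.is_two_pretransitive_iff]
    intro h
    have : Nontrivial ι := Fintype.one_lt_card_iff_nontrivial.mp hr
    obtain ⟨i⟩ : Nonempty ι := inferInstance
    let u : Fin m := ⟨0, by omega⟩
    let v : Fin m := ⟨1, by omega⟩
    have huv : u ≠ v := by simp [u, v]
    have hadj : Adj (fun _ : ι => u) (Function.update (fun _ => u) i v) :=
      ⟨i, by simpa using huv, fun j hj => by simp [hj]⟩
    obtain ⟨g, hg1, hg2⟩ := h (a := ψ fun _ => u) (b := ψ (Function.update (fun _ => u) i v))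
      (c := ψ fun _ => u) (d := ψ fun _ => v)
      (fun e => huv (by simpa using congrFun (ψ.injective e) i))
      (fun e => huv (congrFun (ψ.injective e) i))
    have h1 := (g.2 (ψ fun _ => u) (ψ (Function.update (fun _ => u) i v))).2 (by simpa using hadj)
    have hg1' : (g : Equiv.Perm _) (ψ fun _ => u) = ψ fun _ => u := hg1
    have hg2' : (g : Equiv.Perm _) (ψ (Function.update (fun _ => u) i v)) = ψ fun _ => v := hg2
    rw [hg1', hg2'] at h1
    simp only [Equiv.symm_apply_apply] at h1
    obtain ⟨k, -, hk⟩ := h1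
    obtain ⟨j, hj⟩ := exists_ne k
    exact huv (hk j hj)

end Cfsg.Agent.S3560
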