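import Cfsg.Statements.S3573
import Mathlib

set_option autoImplicit false
open Cfsg

namespace Cfsg.Agent.S3573

open Equiv Perm Finset

/-- Let 1 ≤ k with 2k < n and consider the symmetric group of degree n acting on the k-subsets of an n-set. Let r be a prime dividing the number C(n,k) of k-subsets. If r is odd, then every permutation of order r fixes some k-subset if and only if r ≤ k and the remainder of k modulo r is at most the remainder of n modulo r. If r = 2, then every involution fixes some k-subset if and only if k is even or n is odd. -/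
theorem result (n k : ℕ) (hk : 1 ≤ k) (hkn : 2 * k < n) (r : ℕ) (hr : r.Prime) (hrd : r ∣ Nat.choose n k) :
    (r ≠ 2 → ((∀ σ : Equiv.Perm (Fin n), orderOf σ = r → ∃ s : Finset (Fin n), s.card = k ∧ s.image σ = s) ↔
      (r ≤ k ∧ k % r ≤ n % r))) ∧
    (r = 2 → ((∀ σ : Equiv.Perm (Fin n), orderOf σ = 2 → ∃ s : Finset (Fin n), s.card = k ∧ s.image σ = s) ↔
      (Even k ∨ Odd n))) := by
  set_option maxSynthPendingDepth 3 in
  classical
  haveI := Fact.mk hr
  have key : (∀ σ : Perm (Fin n), orderOf σ = r → ∃ s : Finset (Fin n), s.card = k ∧ s.image σ = s) ↔ k % r ≤ n % r := by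
    refine ⟨fun h => ?_, fun h σ o => ?_⟩
    · have rn : r ≤ n := hr.dvd_factorial.1 (hrd.trans (Dvd.intro _ (by
        rw [← mul_assoc]; exact Nat.choose_mul_factorial_mul_factorial (by omega))))
      obtain ⟨σ, e⟩ := (exists_with_cycleType_iff (α := Fin n) (m := Multiset.replicate (n / r) r)).2
        ⟨by simp [Nat.div_mul_le_self], fun a h => Multiset.eq_of_mem_replicate h ▸ hr.two_le⟩
      have o : orderOf σ = r := by
        rw [← lcm_cycleType, e]
        exact Nat.dvd_antisymm (Multiset.lcm_dvd.2 fun _ h => Multiset.eq_of_mem_replicate h ▸ dvd_rfl)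
          (Multiset.dvd_lcm (Multiset.mem_replicate.2 ⟨(Nat.div_pos rn hr.pos).ne', rfl⟩))
      obtain ⟨s, c, i⟩ := h σ o
      have i' : ∀ x, σ x ∈ s ↔ x ∈ s := fun x => by
        nth_rewrite 1 [← i]; exact σ.injective.mem_finset_image
      have a := card_compl_support_modEq (p := r) (n := 1) (σ := σ.subtypePerm i') (by
        rw [pow_one, subtypePerm_pow]; simp only [← o, pow_orderOf_eq_one]; rfl)
      have b : σ.supportᶜ.card = n % r := by
        rw [card_compl, ← sum_cycleType, e, Nat.mod_def]; simp [mul_comm]
      rw [Fintype.card_coe, c] at a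
      rw [← a, ← b]
      refine (Nat.mod_le _ _).trans (card_le_card_of_injOn Subtype.val (fun x h => ?_) Subtype.val_injective.injOn)
      simpa [Subtype.ext_iff] using h
    · obtain ⟨c, e⟩ := cycleType_prime_order (o.symm ▸ hr)
      have sc : ∀ f ∈ σ.cycleFactorsFinset, f.support.card = r := fun f m =>
        (Multiset.eq_of_mem_replicate (e ▸ (cycleType_def σ ▸ Multiset.mem_map_of_mem _ m))).trans o
      have s1 := sum_cycleType σ
      have s2 : σ.cycleType.card = σ.cycleFactorsFinset.card := by rw [cycleType_def, Multiset.card_map]; rfl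
      rw [e] at s1 s2
      simp only [Multiset.sum_replicate, smul_eq_mul, o, Multiset.card_replicate] at s1 s2
      have s3 : σ.supportᶜ.card + (c + 1) * r = n := by rw [s1, card_compl_add_card, Fintype.card_fin]
      obtain ⟨j, f, j1, f1, jf⟩ : ∃ j f, j ≤ c + 1 ∧ f ≤ σ.supportᶜ.card ∧ j * r + f = k := by
        rcases le_total (k / r) (c + 1) with l | l
        · exact ⟨_, _, l, h.trans (by
            have := Nat.mod_le σ.supportᶜ.card r
            rwa [← Nat.add_mul_mod_self_right _ (c + 1), s3] at this), Nat.div_add_mod' k r⟩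
        · have := (Nat.mul_le_mul_right r l).trans (Nat.div_mul_le_self k r)
          exact ⟨_, k - (c + 1) * r, le_rfl, by omega, by omega⟩
      obtain ⟨T, t1, t2⟩ := exists_subset_card_eq (j1.trans_eq s2)
      obtain ⟨S, u1, u2⟩ := exists_subset_card_eq f1
      refine ⟨T.biUnion support ∪ S, ?_, eq_of_subset_of_card_le (image_subset_iff.2 fun x m => ?_)
        (card_image_of_injective _ σ.injective).ge⟩
      · rw [card_union_of_disjoint (disjoint_left.2 fun x a b => ?_), card_biUnion fun f a g b n =>
          (cycleFactorsFinset_pairwise_disjoint σ (t1 a) (t1 b) n).disjoint_support,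
          sum_const_nat fun f a => sc f (t1 a), t2, u2, jf]
        obtain ⟨f, a1, a2⟩ := mem_biUnion.1 a
        exact mem_compl.1 (u1 b) (mem_cycleFactorsFinset_support_le (t1 a1) a2)
      · rcases mem_union.1 m with a | a
        · obtain ⟨f, a1, a2⟩ := mem_biUnion.1 a
          exact mem_union_left _ (mem_biUnion.2 ⟨f, a1, (mem_cycleFactorsFinset_iff.1 (t1 a1)).2 x a2 ▸
            apply_mem_support.2 a2⟩)
        · rw [notMem_support.1 (mem_compl.1 (u1 a))]; exact m
  refine ⟨fun _ => key.trans ⟨fun h => ⟨by_contra fun z => ?_, h⟩, And.right⟩, fun e => ?_⟩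
  · have := (Choose.choose_modEq_choose_mod_mul_choose_div_nat (n := n) (k := k) (p := r)).dvd_iff dvd_rfl |>.1 hrd
    rw [Nat.div_eq_of_lt (not_le.1 z), Nat.choose_zero_right, mul_one] at this
    have := hr.dvd_factorial.1 (this.trans (Dvd.intro _ (by
      rw [← mul_assoc]; exact Nat.choose_mul_factorial_mul_factorial h)))
    exact this.not_gt (Nat.mod_lt _ hr.pos)
  · subst e
    rw [key, Nat.even_iff, Nat.odd_iff]; omega

end Cfsg.Agent.S3573
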