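import Cfsg.Statements.S3592
import Mathlib
import Cfsg.Agent.H8.MF

set_option autoImplicit false
open Cfsg

namespace Cfsg.Agent.S3592

/-- Let M be the Mathieu group M₁₁ (order 7920). If a finite group G has the same order as M and the same set of values of the function 'number of elements of order n' (taken over the element orders n that occur), then G is isomorphic to M. -/
theorem result {G : Type*} [Group G] [Finite G]
    (hcard : Nat.card G = Nat.card ↥Cfsg.Spor.M11)
    (hnse : {c : ℕ | 0 < c ∧ ∃ n : ℕ, c = Nat.card {g : G // orderOf g = n}} =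
      {c : ℕ | 0 < c ∧ ∃ n : ℕ, c = Nat.card {g : ↥Cfsg.Spor.M11 // orderOf g = n}}) :
    Nonempty (G ≃* ↥Cfsg.Spor.M11) := by
  obtain ⟨hs, hc⟩ := H8.spor_m11
  haveI : Fact (Nat.Prime 11) := ⟨by norm_num⟩
  rw [hc] at hcard
  haveI : IsSimpleGroup G := by
    refine (H8.n11_cases hcard).resolve_right fun h => ?_
    have h1 := H8.ncard_order_prime (default : Sylow 11 G) ((H8.card_sylow_pow (k := 1) (m := 720)
      (hcard.trans (by norm_num)) (by norm_num) _).1.trans (pow_one 11))
    obtain ⟨-, n, hn⟩ := hnse.le (show {x : G | orderOf x = 11}.ncard ∈ _ from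
      ⟨by rw [h1]; omega, 11, (Nat.card_coe_set_eq _).symm⟩)
    have h2 := H8.m11_nse hc n
    rw [← Nat.card_coe_set_eq] at h2
    change Nat.card {g : ↥Cfsg.Spor.M11 // orderOf g = n} = 1 ∨
      Nat.card {g : ↥Cfsg.Spor.M11 // orderOf g = n} = 1440 ∨
      11 ∣ Nat.card {g : ↥Cfsg.Spor.M11 // orderOf g = n} at h2
    omega
  exact H8.m11_unique hcard hc

end Cfsg.Agent.S3592
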