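import Cfsg.Statements.S3619
import Mathlib
import Cfsg.Agent.H8.JordanSet2

set_option autoImplicit false
open Cfsg

namespace Cfsg.Agent.S3619

open scoped Pointwise

/-- Let G act faithfully on a finite set in such a way that every non-trivial normal subgroup of G is transitive (G is quasiprimitive). Let Γ be a subset with more than one point and not the whole set, such that the pointwise stabilizer of the complement of Γ acts transitively on Γ (a Jordan set). If that pointwise stabilizer acts primitively on Γ, then G is k-fold transitive where k is one more than the number of points outside Γ (the Jordan set is a trivial one). -/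
theorem result {G Ω : Type*} [Group G] [Finite G] [MulAction G Ω] [FaithfulSMul G Ω] [Finite Ω]
    (hqp : ∀ N : Subgroup G, N.Normal → N ≠ ⊥ → MulAction.IsPretransitive ↥N Ω)
    (Γ : Set Ω) (hΓ1 : 1 < Γ.ncard) (hΓ2 : Γ.ncard < Nat.card Ω)
    (hJ : MulAction.IsPretransitive ↥(fixingSubgroup G Γᶜ) ↥(SubMulAction.ofFixingSubgroup G Γᶜ))
    (hJp : MulAction.IsPreprimitive ↥(fixingSubgroup G Γᶜ) ↥(SubMulAction.ofFixingSubgroup G Γᶜ)) :
    MulAction.IsMultiplyPretransitive G Ω (Nat.card Ω - Γ.ncard + 1) := by
  have h : H8.IsJ G Γ := fun x hx y hy => H8.trans_ofFixing hJ (by simpa using hx) (by simpa using hy)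
  have hnt : Γ.Nontrivial := Set.one_lt_ncard_iff_nontrivial.1 hΓ1
  haveI := h.isPretransitive hqp hnt
  have hG : MulAction.IsPreprimitive G Ω := ⟨fun {B} hB => by
    by_contra hno
    rw [MulAction.IsTrivialBlock, not_or, Set.not_subsingleton_iff] at hno
    obtain ⟨a, ha⟩ := hnt.nonempty
    obtain ⟨b, hb⟩ := hno.1.nonempty
    obtain ⟨g, rfl⟩ := MulAction.exists_smul_eq G b a
    have hbl := h.blocks hqp hnt hB hno.1.nonempty hno.2 g
    have hs := hbl.2 _ (Set.smul_mem_smul_set hb) ha
    rcases H8.block_trivial_ofFixing hJp (g • B) (fun x hx => by simpa using hs hx)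
      (fun u _ x hx hux y hy => by
        rw [← (hB.translate g).smul_eq_of_mem hx hux]; exact Set.smul_mem_smul_set hy) with h1 | h1
    · obtain ⟨x, hx, y, hy, hxy⟩ := hno.1
      exact hxy (MulAction.injective g (h1 (Set.smul_mem_smul_set hx) (Set.smul_mem_smul_set hy)))
    · exact hbl.1 fun x hx => h1 x (by simpa using hx)⟩
  have := Set.ncard_add_ncard_compl Γ
  have h2 := (hG.isMultiplyPreprimitive (s := Γᶜ) (n := Γᶜ.ncard - 1) (by omega) (by omega)
    hJp).isMultiplyPretransitive
  rwa [show Γᶜ.ncard - 1 + 2 = Nat.card Ω - Γ.ncard + 1 by omega] at h2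

end Cfsg.Agent.S3619
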