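import Cfsg.Statements.S3620
import Mathlib
import Cfsg.Agent.H8.JordanSet2

set_option autoImplicit false
open Cfsg

namespace Cfsg.Agent.S3620

/-- Let G act faithfully on a finite set in such a way that every non-trivial normal subgroup of G is transitive (G is quasiprimitive). Let Γ be a subset with more than one point and fewer than half of the points, such that the pointwise stabilizer of the complement of Γ acts transitively on Γ. Then G induces every even permutation of the set (G is the alternating or the symmetric group). -/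
theorem result {G Ω : Type*} [Group G] [Finite G] [MulAction G Ω] [FaithfulSMul G Ω] [Fintype Ω] [DecidableEq Ω]
    (hqp : ∀ N : Subgroup G, N.Normal → N ≠ ⊥ → MulAction.IsPretransitive ↥N Ω)
    (Γ : Set Ω) (hΓ1 : 1 < Γ.ncard) (hΓ2 : 2 * Γ.ncard < Fintype.card Ω)
    (hJ : MulAction.IsPretransitive ↥(fixingSubgroup G Γᶜ) ↥(SubMulAction.ofFixingSubgroup G Γᶜ)) :
    ∀ σ : Equiv.Perm Ω, Equiv.Perm.sign σ = 1 → ∃ x : G, (MulAction.toPerm x : Equiv.Perm Ω) = σ := by
  have h : H8.IsJ G Γ := fun x hx y hy => H8.trans_ofFixing hJ (by simpa using hx) (by simpa using hy)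
  have := H8.marggraf_quasi _ G Ω rfl hqp Γ h hΓ1 (by simpa using hΓ2)
  intro σ hσ
  exact IsMultiplyPretransitive.alternatingGroup_le _ _ (H8.isMPT_range_iff.2 this)
    (Equiv.Perm.mem_alternatingGroup.2 hσ)

end Cfsg.Agent.S3620
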