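import Cfsg.Statements.S3627
import Cfsg.Agent.H0.Ord
import Cfsg.Agent.H0.IJ1
import Cfsg.Agent.H0.YJ1.Main


set_option autoImplicit false
open Cfsg

namespace Cfsg.Agent.S3627

abbrev D := DihedralGroup 3 × DihedralGroup 5
def e4 (G : Type) [Group G] : (Fin 4 → G) ≃* G × G × G × G where
  toFun f := (f 0, f 1, f 2, f 3)
  invFun x := ![x.1, x.2.1, x.2.2.1, x.2.2.2]
  left_inv f := by ext i; fin_cases i <;> rfl
  right_inv _ := rfl
  map_mul' _ _ := rfl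

/-- Let J be the first Janko group. Then there are finite groups of arbitrarily large order with exactly the same set of element orders as J × J × J × J. -/
theorem result (N : ℕ) : ∃ (H : Type) (_ : Group H) (_ : Fintype H), N < Fintype.card H ∧
      Set.range (orderOf : H → ℕ) = Set.range (orderOf : ↥Cfsg.Spor.J1 × ↥Cfsg.Spor.J1 × ↥Cfsg.Spor.J1 × ↥Cfsg.Spor.J1 → ℕ) := by
  obtain ⟨e⟩ := H0.IJ1.iso
  have := H0.MJ1.fin (H0.Pres.pg _ _)
  have : Finite Spor.J1 := Finite.of_equiv _ e.toEquiv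
  have j1 : H0.ω Spor.J1 = _ := (H0.spec_congr e).symm.trans (H0.YJ1.spec _ (H0.MJ1.mR _) (H0.MJ1.base (H0.Pres.pg _ _)) (H0.MJ1.card (H0.Pres.pg _ _)))
  have h0 : ∀ d ∈ [6, 10, 15], d ∈ H0.ω D := by
    have : ∀ a b, (orderOf a).lcm (orderOf b) ∈ H0.ω D := fun a b => ⟨(a, b), Prod.orderOf _⟩
    have h1 := this (.r 1) (.sr 0)
    have h2 := this (.sr 0) (.r 1)
    have h3 := this (.r 1) (.r 1)
    simp only [DihedralGroup.orderOf_r_one, DihedralGroup.orderOf_sr] at h1 h2 h3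
    exact List.forall_mem_cons.2 ⟨h1, List.forall_mem_cons.2 ⟨h2, List.forall_mem_cons.2 ⟨h3, by simp⟩⟩⟩
  have h1 := H0.ω_pi (G := Spor.J1) (H := D) 3 (by
      rintro _ ⟨x, rfl⟩
      obtain ⟨d, hd, h⟩ := (by decide +kernel : ∀ x : D, ∃ d ∈ [6, 10, 15], x ^ d = 1) x
      exact H0.ω_dvd (j1 ▸ (by decide : ∀ d ∈ [6, 10, 15], d ∈ _) d hd) (orderOf_dvd_of_pow_eq_one h))
    {7, 11, 19} (by simp) (by simp) (by rw [j1]; rintro _ (rfl | rfl | rfl) <;> decide) fun g => by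
      have : orderOf g ∈ _ := j1.le ⟨g, rfl⟩
      rcases (by decide : ∀ a ∈ [1, 2, 3, 5, 6, 7, 10, 11, 15, 19], (∃ d ∈ [6, 10, 15], a ∣ d) ∨ ∃ d ∈ [7, 11, 19], a ∣ d) _ this with ⟨d, h, h'⟩ | ⟨d, h, h'⟩
      · exact Or.inl (H0.ω_dvd (h0 d h) h')
      · exact Or.inr ⟨d, by simpa using h, h'⟩
  rw [← H0.spec_congr (e4 Spor.J1), show Set.range _ = _ from h1]
  refine H0.big_zp (1, (.r 1, 1)) (fun h => absurd (congrArg Prod.snd h) (by decide)) (fun g => ?_) N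
  rcases (by decide +kernel : ∀ g : D, g * (.r 1, 1) * g⁻¹ = (.r 1, 1) ∨ g * (.r 1, 1) * g⁻¹ = (.r 1, 1)⁻¹) g.2 with h | h
  · exact Subgroup.mem_zpowers_iff.2 ⟨1, Prod.ext (by simp) (by simpa using h.symm)⟩
  · exact Subgroup.mem_zpowers_iff.2 ⟨-1, Prod.ext (by simp) (by simpa using h.symm)⟩

end Cfsg.Agent.S3627
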