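import Cfsg.Statements.S3633
import Cfsg.Agent.H7.GK

set_option autoImplicit false
open Cfsg

namespace Cfsg.Agent.S3633
open H7
open scoped commutatorElement

/-- Let G be a finite group and ρ a set of at least three prime divisors of the order of G that are pairwise non-adjacent in the prime graph (no element of order rs for distinct r, s ∈ ρ). Then at most one prime of ρ divides the order of any given solvable normal subgroup of G; in particular G is not solvable. -/
theorem result {G : Type*} [Group G] [Finite G] (ρ : Finset ℕ) (hρ : 3 ≤ ρ.card) (hc : ((∀ r ∈ ρ, r.Prime ∧ r ∣ Nat.card G) ∧ (∀ r ∈ ρ, ∀ s ∈ ρ, r ≠ s → ¬ ∃ x : G, orderOf x = r * s)))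
    (K : Subgroup G) [K.Normal] (hK : Group.IsSolvable ↥K) :
    (∀ r ∈ ρ, ∀ s ∈ ρ, r ∣ Nat.card ↥K → s ∣ Nat.card ↥K → r = s) ∧ ¬ Group.IsSolvable G := by
  open Subgroup in
  have key : ∀ K : Subgroup G, K.Normal → Group.IsSolvable K →
      ∀ r ∈ ρ, ∀ s ∈ ρ, r ∣ Nat.card ↥K → s ∣ Nat.card ↥K → r = s := fun K n hK r hr s hs h1 h2 => by
    by_contra ne
    obtain ⟨t, ht, k⟩ : ∃ t ∈ ρ, t ∉ ({r, s} : Finset ℕ) := by
      by_contra k
      push Not at k
      have := (Finset.card_le_card k).trans Finset.card_le_two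
      omega
    simp only [Finset.mem_insert, Finset.mem_singleton, not_or] at k
    exact no_three_normal (π := ρ) hK n hc.2 hr hs ht (hc.1 r hr).1 (hc.1 s hs).1 (hc.1 t ht).1 ne (Ne.symm k.1)
      (Ne.symm k.2) h1 h2 (hc.1 t ht).2
  refine ⟨key K inferInstance hK, fun h => ?_⟩
  obtain ⟨r, hr, s, hs, ne⟩ := Finset.one_lt_card.1 (show 1 < ρ.card by omega)
  exact ne (key ⊤ inferInstance inferInstance r hr s hs (card_top (G := G) ▸ (hc.1 r hr).2)
    (card_top (G := G) ▸ (hc.1 s hs).2))

end Cfsg.Agent.S3633
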