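import Cfsg.Statements.S3641
import Mathlib
import Cfsg.Agent.H8.NS

set_option autoImplicit false
open Cfsg

namespace Cfsg.Agent.S3641

/-- Let G be a finite group with trivial centre whose set of Sylow numbers (numbers of Sylow r-subgroups, r over the prime divisors of its order) is exactly {18, 136, 153}. Then G is isomorphic to PSL(2, 17) or to PGL(2, 17). -/
theorem result {G : Type*} [Group G] [Finite G] (hZ : Subgroup.center G = ⊥) (hNS : {c : ℕ | ∃ r : ℕ, r.Prime ∧ r ∣ Nat.card G ∧ c = Nat.card (Sylow r G)} = ({18, 136, 153} : Set ℕ))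
    {F : Type*} [Field F] [Fintype F] (hF : Fintype.card F = 17) :
    Nonempty (G ≃* Matrix.ProjectiveSpecialLinearGroup (Fin 2) F) ∨ Nonempty (G ≃* (GL (Fin 2) F ⧸ Subgroup.center (GL (Fin 2) F))) := by
  classical
  haveI : Fact (Nat.Prime 17) := ⟨by norm_num⟩
  have h1 : ∀ (r : ℕ) [Fact r.Prime], r ∣ Nat.card G → (r = 17 ∧ Nat.card (Sylow r G) = 18) ∨
      ((r = 3 ∨ r = 5) ∧ Nat.card (Sylow r G) = 136) ∨
      ((r = 2 ∨ r = 19) ∧ Nat.card (Sylow r G) = 153) := fun r hr hd => by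
    have a := hNS.le ⟨r, hr.1, hd, rfl⟩
    have b := (Nat.modEq_iff_dvd' Nat.card_pos).1 (card_sylow_modEq_one r G).symm
    have k : ∀ n, n ≠ 0 → r ∣ n → r ∈ n.primeFactors := fun n h e => Nat.mem_primeFactors.2 ⟨hr.1, e, h⟩
    rcases a with a | a | a <;> rw [a] at b ⊢
    · exact .inl ⟨(Nat.prime_dvd_prime_iff_eq hr.1 (by norm_num)).1 b, rfl⟩
    · have := k _ (by norm_num) b
      rw [show Nat.primeFactors (136 - 1) = {3, 5} by decide +kernel] at this
      exact .inr (.inl ⟨by simpa using this, rfl⟩)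
    · have := k _ (by norm_num) b
      rw [show Nat.primeFactors (153 - 1) = {2, 19} by decide +kernel] at this
      exact .inr (.inr ⟨by simpa using this, rfl⟩)
  obtain ⟨r, hr, hd, e⟩ := hNS.ge (show 18 ∈ ({18, 136, 153} : Set ℕ) by simp)
  haveI := Fact.mk hr
  obtain rfl : r = 17 := by have := h1 r hd; omega
  obtain ⟨P⟩ : Nonempty (Sylow 17 G) := inferInstance
  have d18 : 18 ∣ Nat.card G := e ▸ P.card_dvd_index.trans (Subgroup.index_dvd_card _)
  have n2 : Nat.card (Sylow 2 G) = 153 := by have := h1 2 (Dvd.dvd.trans (by norm_num) d18); omega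
  have n3 : Nat.card (Sylow 3 G) = 136 := by have := h1 3 (Dvd.dvd.trans (by norm_num) d18); omega
  haveI := Fintype.ofFinite (Sylow 17 G)
  let φ := MulAction.toPermHom G (Sylow 17 G)
  have hf := φ.rangeRestrict_surjective
  have hK : ∀ Q : Sylow 17 G, φ.rangeRestrict.ker ≤ H9.nrm (Q : Subgroup G) := fun Q x hx =>
    Sylow.smul_eq_iff_mem_normalizer.1 (DFunLike.congr_fun (congrArg Subtype.val hx) Q)
  have m17 := (H8.card_sylow_eq_of_ker_le hf hK).trans e.symm
  obtain ⟨Q, -, -, q1, q2⟩ := H8.card_perm_syl (p := 17) (by rw [← Nat.card_eq_fintype_card, ← e])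
    (by norm_num) φ.range (H8.dvd_of_syl_ne (by omega))
  haveI : MulAction.IsPretransitive φ.range (Sylow 17 G) := ⟨fun x y => by
    obtain ⟨g, hg⟩ := MulAction.exists_smul_eq G x y
    exact ⟨⟨φ g, g, rfl⟩, hg⟩⟩
  have z : H8.Zs φ.range (Sylow 17 G) := H8.zs_of_prime (p := 17) (by norm_num) e.symm
    (by rw [q2, m17]; ring) (Nat.lt_succ_of_le (Nat.le_of_dvd (by norm_num) q1))
  obtain ⟨a1, a2, a3, a4⟩ := H8.zs_18 z e.symm (by omega)
    (n3 ▸ (H8.syl_map hf (default : Sylow 3 G)).1) F (by rw [Nat.card_eq_fintype_card, hF])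
  have i : φ.rangeRestrict.ker.index ∣ 4896 := by
    rwa [Subgroup.index_ker, MonoidHom.range_eq_top.2 hf, Subgroup.card_top]
  have k := H8.eq_bot_of_nrm_syl hZ (K := φ.rangeRestrict.ker) fun q _ T hq => by
    rcases h1 q hq with ⟨rfl, -⟩ | ⟨rfl | rfl, c⟩ | ⟨rfl | rfl, c⟩
    · exact hK T
    · exact (H8.syl_map hf T).2 (a3.trans c.symm)
    · exact (H8.not_syl_of_ker (r := 5) hK (fun h => by have := h.trans i; omega) (by rw [c]; norm_num)
        (by rw [c]; norm_num) (by decide)).elim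
    · exact (H8.syl_map hf T).2 (a2.trans c.symm)
    · exact (H8.not_syl_of_ker (r := 19) hK (fun h => by have := h.trans i; omega) (by rw [c]; norm_num)
        (by rw [c]; norm_num) (by decide)).elim
  have ψ := MulEquiv.ofBijective φ.rangeRestrict ⟨(MonoidHom.ker_eq_bot_iff _).1 k, hf⟩
  exact a4.imp (fun ⟨e⟩ => ⟨ψ.trans e⟩) fun ⟨e⟩ => ⟨ψ.trans e⟩

end Cfsg.Agent.S3641
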