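import Cfsg.Statements.S3669
import Mathlib
import Cfsg.Agent.H8.ME
import Cfsg.Agent.H3.Deg
import Cfsg.Agent.S0494

set_option autoImplicit false
open Cfsg

namespace Cfsg.Agent.S3669

/-- The character degree graph of a finite group has as vertices the primes dividing some irreducible complex character degree, two distinct primes being joined when their product divides some irreducible character degree; two groups have the same character degree graph when they have the same vertices and the same joined pairs. A finite group of order 60 with the same character degree graph as the alternating group A₅ (whose character degrees are 1, 3, 4, 5, so the graph has vertices 2, 3, 5 and no edges) is isomorphic to A₅. -/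
theorem result {G : Type*} [Group G] [Finite G] (hcard : Nat.card G = 60)
    (hΓ : Cfsg.degreePrimes G = Cfsg.degreePrimes (alternatingGroup (Fin 5)) ∧ Cfsg.degreeGraph G = Cfsg.degreeGraph (alternatingGroup (Fin 5))) : Nonempty (G ≃* alternatingGroup (Fin 5)) := by
  classical
  haveI : Fact (Nat.Prime 5) := ⟨by norm_num⟩
  have cA : Nat.card (alternatingGroup (Fin 5)) = 60 := by
    rw [nat_card_alternatingGroup]; simp [Nat.factorial]
  have h5 : 5 ∈ Cfsg.degreePrimes (alternatingGroup (Fin 5)) := by
    refine ⟨Fact.out, by_contra fun hc => ?_⟩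
    have np : ¬ (Nat.card (alternatingGroup (Fin 5))).Prime := by rw [cA]; norm_num
    obtain ⟨-, h1, h2⟩ := H8.DC.chkDE_sound np (p := 5) (B := 8) (L := [(2, 2), (3, 1)])
      (wl := []) (ok := fun _ e c => e == 2 && c == 1) (tw := [3, 4])
      (by rw [cA]; decide +kernel) (by simp)
    obtain ⟨e, c, a1, a2, a3, a4⟩ := h2 default
    simp only [Bool.and_eq_true, beq_iff_eq] at a1
    obtain ⟨s, t, b1, b2, b3, b4, b5⟩ := H8.filter_degs _ a2 (H8.cen_eq_of_card a2 (a1.2 ▸ a3)) h1
      (by decide)
    rw [(Multiset.filter_eq_self (p := (¬ 5 ∣ ·))).2 fun d hd e => hc ⟨d, by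
      obtain ⟨χ, -, e⟩ := Multiset.mem_map.1 hd; exact ⟨χ, e⟩, e⟩] at b5
    have b6 := H8.degs_sq (G := alternatingGroup (Fin 5))
    obtain ⟨x, rfl⟩ := Multiset.card_eq_one.1 (by omega : s.card = 1)
    obtain rfl : t = 2 := by simp at b2; omega
    have := (b3 x (by simp)).2
    rw [b5, cA] at b6
    simp at b4 b6 this
    rcases b4 with e | e <;> rcases this with f | f <;> rw [e, f] at b6 <;> omega
  obtain ⟨-, _, ⟨χ, rfl⟩, hd⟩ := hΓ.1.ge h5
  rcases H8.syl_red (p := 5) (m := 12) (L := [2, 3]) (by decide) (by decide)
    (by decide +kernel) G (by rw [hcard]) with e | ⟨S, _, _, b1, b2, b3, b4, b5, b6⟩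
  · haveI := (Nat.card_eq_one_iff_unique.1 e).1
    obtain ⟨P⟩ : Nonempty (Sylow 5 G) := inferInstance
    haveI := P.normal_of_subsingleton
    obtain ⟨c1, c2⟩ := H8.card_sylow_pow (k := 1) (m := 12) (hcard.trans (by norm_num)) (by norm_num) P
    haveI : IsCyclic P := isCyclic_of_prime_card (c1.trans (pow_one 5))
    have := hd.trans (H3.Cfsg.IsIrrCharacter.dg_dvd_index χ.2 (P : Subgroup G) fun a ha b hb =>
      congrArg Subtype.val (IsCyclic.commGroup.mul_comm (⟨a, ha⟩ : P) ⟨b, hb⟩))
    rw [c2] at this; norm_num at this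
  · have h1 := Nat.le_of_dvd (by norm_num) (hcard ▸ b4)
    have h2 := H8.DC.small_orders b2 (by omega)
    haveI := b6 (by simp at h2; omega)
    exact Cfsg.Agent.S0494.result hcard

end Cfsg.Agent.S3669
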