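import Cfsg.Statements.S3670
import Cfsg.Agent.H8.MA
import Cfsg.Agent.S0280
import Cfsg.Agent.S0283

set_option autoImplicit false
open Cfsg

namespace Cfsg.Agent.S3670

section
open H3 SemidirectProduct

/-- Scalar action of units on the additive group. -/
def act (R : Type) [CommRing R] : Rˣ →* MulAut (Multiplicative R) where
  toFun a :=
    { toFun := fun x => Multiplicative.ofAdd ((a : R) * x.toAdd)
      invFun := fun x => Multiplicative.ofAdd (((a⁻¹ : Rˣ) : R) * x.toAdd)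
      left_inv := fun x => by simp
      right_inv := fun x => by simp
      map_mul' := fun x y => by simp [mul_add] }
  map_one' := by ext x; simp
  map_mul' a b := by ext x; simp [mul_assoc]

theorem act_apply (R : Type) [CommRing R] (a : Rˣ) (x : Multiplicative R) :
    act R a x = Multiplicative.ofAdd ((a : R) * x.toAdd) := rfl

theorem aff (R : Type) [CommRing R] [Finite R] (ψ : AddChar R ℂ) (hψ : ψ.IsPrimitive) :
    Nat.card Rˣ ∈ charDegrees (Multiplicative R ⋊[act R] Rˣ) := by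
  haveI : Finite (Multiplicative R ⋊[act R] Rˣ) := Finite.of_equiv _ SemidirectProduct.equivProd.symm
  haveI := Fintype.ofFinite (Multiplicative R ⋊[act R] Rˣ)
  let N := (rightHom : Multiplicative R ⋊[act R] Rˣ →* Rˣ).ker
  let l0 : N →* Multiplicative R :=
    { toFun := fun n => n.1.left
      map_one' := rfl
      map_mul' := fun a b => by
        have : a.1.right = 1 := a.2
        simp [this] }
  let l : N →* ℂˣ := ψ.toMonoidHom.toHomUnits.comp l0
  have hl : ∀ n : N, lf l n = ψ (n.1.left.toAdd) := fun n => rfl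
  have hi : inertia (lf l) ≤ N := fun g hg => by
    rw [mem_inertia'] at hg
    have h1 : ∀ x : R, ψ ((g.right : R) * x) = ψ x := fun x => by
      have := hg ⟨inl (Multiplicative.ofAdd x), by simp [N]⟩
      rw [hl, hl] at this
      simp only [mul_left, left_inl, inv_left, mul_right, right_inl, mul_one, toAdd_ofAdd] at this
      rw [← MulAut.mul_apply, ← map_mul, mul_inv_cancel, map_one, MulAut.one_apply,
        mul_comm g.left, mul_inv_cancel_right] at this
      exact this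
    have h2 : (g.right : R) - 1 = 0 := by
      by_contra hc
      refine hψ hc (AddChar.ext _ _ fun x => ?_)
      rw [AddChar.mulShift_apply, sub_mul, one_mul, AddChar.map_sub_eq_div, h1, AddChar.one_apply,
        div_self]
      exact (ψ.val_isUnit x).ne_zero
    exact Units.ext (sub_eq_zero.1 h2)
  refine ⟨⟨_, isIrr_indFun_of_inertia_le (lf_irr l) hi⟩, ?_⟩
  have : indFun N (lf l) 1 = (Nat.card Rˣ : ℕ) := by
    rw [indFun_one, Subgroup.index_ker, MonoidHom.range_eq_top.2 rightHom_surjective,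
      Subgroup.card_top, lf_apply, map_one, Units.val_one, mul_one]
  simp [charDegree, this]

theorem exH : ∃ (H : Type) (_ : Group H) (_ : Fintype H), Group.IsSolvable H ∧ Nat.card H = 6048 ∧
    42 ∈ charDegrees H := by
  let R := GaloisField 2 3 × ZMod 18
  have c8 : Nat.card (GaloisField 2 3) = 8 := GaloisField.card 2 3 (by decide)
  have cR : Nat.card R = 144 := by rw [Nat.card_prod, c8, Nat.card_zmod]
  have cU : Nat.card Rˣ = 42 := by
    rw [Nat.card_congr MulEquiv.prodUnits.toEquiv, Nat.card_prod, Nat.card_units, c8,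
      Nat.card_eq_fintype_card, ZMod.card_units_eq_totient]
    decide
  haveI : Finite (Multiplicative R ⋊[act R] Rˣ) := Finite.of_equiv _ SemidirectProduct.equivProd.symm
  let ψ1 := AddChar.FiniteField.primitiveChar_to_Complex (GaloisField 2 3)
  have h1 : ψ1.IsPrimitive := AddChar.FiniteField.primitiveChar_to_Complex_isPrimitive _
  let ψ2 : AddChar (ZMod 18) ℂ := ZMod.stdAddChar
  have h2 : ψ2.IsPrimitive := ZMod.isPrimitive_stdAddChar 18
  let ψ : AddChar R ℂ := ψ1.compAddMonoidHom (AddMonoidHom.fst _ _) * ψ2.compAddMonoidHom (AddMonoidHom.snd _ _)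
  have hψ : ψ.IsPrimitive := fun a ha e => by
    have k : ∀ x : R, ψ1 (a.1 * x.1) * ψ2 (a.2 * x.2) = 1 := fun x => DFunLike.congr_fun e x
    by_cases a1 : a.1 = 0
    · refine h2 (a := a.2) (fun a2 => ha (Prod.ext a1 a2)) (AddChar.ext _ _ fun x => ?_)
      simpa using k (0, x)
    · refine h1 a1 (AddChar.ext _ _ fun x => ?_)
      simpa using k (x, 0)
  refine ⟨Multiplicative R ⋊[act R] Rˣ, inferInstance, Fintype.ofFinite _, ?_, ?_, cU ▸ aff R ψ hψ⟩
  · exact Group.isSolvable_of_ker_le_range inl rightHom range_inl_eq_ker_rightHom.ge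
  · rw [Nat.card_congr SemidirectProduct.equivProd, Nat.card_prod, cU]
    change Nat.card R * 42 = _
    rw [cR]
end

section
open Matrix Subgroup
variable {F : Type*} [Field F]

theorem mem_su {g : SpecialLinearGroup (Fin 3) F} (h : ∀ i j, ∃ a : ℤ, g.1 i j = a ∧ a ^ 3 = a)
    (h3 : (3 : F) = 0) (ho : g.1ᵀ * g.1 = 1) : g ∈ SU 3 F 3 := by
  intro u v
  change hermForm 3 F 3 (g.1 *ᵥ u) (g.1 *ᵥ v) = hermForm 3 F 3 u v
  have fr : ∀ x y : F, (x + y) ^ 3 = x ^ 3 + y ^ 3 := fun x y => by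
    linear_combination (x ^ 2 * y + x * y ^ 2) * h3
  have c : ∀ i j, g.1 i j ^ 3 = g.1 i j := fun i j => by
    obtain ⟨a, e1, e2⟩ := h i j
    rw [e1]; exact_mod_cast congrArg (Int.cast : ℤ → F) e2
  have e : ∀ w : Fin 3 → F, (fun i => (g.1 *ᵥ w) i ^ 3) = g.1 *ᵥ fun i => w i ^ 3 := fun w => by
    funext i
    simp only [mulVec, dotProduct, Fin.sum_univ_three, fr, mul_pow, c]
  change (g.1 *ᵥ u) ⬝ᵥ (fun i => (g.1 *ᵥ v) i ^ 3) = u ⬝ᵥ fun i => v i ^ 3
  rw [e, dotProduct_mulVec, vecMul_mulVec, ho, vecMul_one]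

def P0 (F : Type*) [Field F] : SpecialLinearGroup (Fin 3) F :=
  ⟨!![0, 1, 0; 0, 0, 1; 1, 0, 0], by simp [det_fin_three]⟩
def T0 (F : Type*) [Field F] : SpecialLinearGroup (Fin 3) F :=
  ⟨!![-1, 0, 0; 0, 0, -1; 0, -1, 0], by simp [det_fin_three]⟩

def D0 (F : Type*) [Field F] : SpecialLinearGroup (Fin 3) F :=
  ⟨!![-1, 0, 0; 0, -1, 0; 0, 0, 1], by simp [det_fin_three]⟩

theorem D0_mem (h3 : (3 : F) = 0) : D0 F ∈ SU 3 F 3 :=
  mem_su (fun i j => by
    fin_cases i <;> fin_cases j <;> first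
      | (refine ⟨0, ?_, by simp⟩; simp [D0]; done)
      | (refine ⟨1, ?_, by simp⟩; simp [D0]; done)
      | (refine ⟨-1, ?_, by decide⟩; simp [D0]; done)) h3 (by
    ext i j
    fin_cases i <;> fin_cases j <;> simp [D0, mul_apply, Fin.sum_univ_three])

theorem P0_mem (h3 : (3 : F) = 0) : P0 F ∈ SU 3 F 3 :=
  mem_su (fun i j => by
    fin_cases i <;> fin_cases j <;> first
      | (refine ⟨0, ?_, by simp⟩; simp [P0]; done)
      | (refine ⟨1, ?_, by simp⟩; simp [P0]; done)) h3 (by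
    ext i j
    fin_cases i <;> fin_cases j <;> simp [P0, mul_apply, Fin.sum_univ_three])

theorem T0_mem (h3 : (3 : F) = 0) : T0 F ∈ SU 3 F 3 :=
  mem_su (fun i j => by
    fin_cases i <;> fin_cases j <;> first
      | (refine ⟨0, ?_, by simp⟩; simp [T0]; done)
      | (refine ⟨-1, ?_, by decide⟩; simp [T0]; done)) h3 (by
    ext i j
    fin_cases i <;> fin_cases j <;> simp [T0, mul_apply, Fin.sum_univ_three])

theorem circ (h3 : (3 : F) = 0) {g : SpecialLinearGroup (Fin 3) F} (hg : g ∈ SU 3 F 3)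
    (hc : g * P0 F = P0 F * g) : ∃ b c : F, g.1 = !![1 - b - c, b, c; c, 1 - b - c, b; b, c, 1 - b - c] ∧
      (b - c) ^ 3 = 1 * (b - c) ∧
      (c + (b - c) ^ 2 - (b - c)) ^ 3 = -1 * (c + (b - c) ^ 2 - (b - c)) := by
  have h1 : g.1 * !![0, 1, 0; 0, 0, 1; 1, 0, 0] = !![0, 1, 0; 0, 0, 1; 1, 0, 0] * g.1 :=
    congrArg Subtype.val hc
  have e := fun i j => congrFun (congrFun h1 i) j
  have e00 := e 0 0
  have e01 := e 0 1
  have e02 := e 0 2
  have e10 := e 1 0
  have e11 := e 1 1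
  have e12 := e 1 2
  simp [mul_apply, Fin.sum_univ_three, vecMul, dotProduct] at e00 e01 e02 e10 e11 e12
  have hM : g.1 = !![g.1 0 0, g.1 0 1, g.1 0 2; g.1 0 2, g.1 0 0, g.1 0 1; g.1 0 1, g.1 0 2, g.1 0 0] := by
    ext i j
    fin_cases i <;> fin_cases j <;> simp [*]
  generalize g.1 0 0 = a, g.1 0 1 = b, g.1 0 2 = c at hM
  have hd := g.2
  rw [hM, det_fin_three] at hd
  simp at hd
  have hs : a = 1 - b - c := by
    have : (a + b + c - 1) ^ 3 = 0 := by
      linear_combination hd + (a^2*b + a*b^2 + a^2*c + a*c^2 + b^2*c + b*c^2 + 3*a*b*c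
        - (a+b+c)^2 + (a+b+c)) * h3
    linear_combination pow_eq_zero_iff (by norm_num) |>.1 this
  subst hs
  have k1 : hermForm 3 F 3 (g.1 *ᵥ ![1, 0, 0]) (g.1 *ᵥ ![0, 1, 0]) = hermForm 3 F 3 ![1, 0, 0] ![0, 1, 0] :=
    hg _ _
  have k2 : hermForm 3 F 3 (g.1 *ᵥ ![0, 1, 0]) (g.1 *ᵥ ![1, 0, 0]) = hermForm 3 F 3 ![0, 1, 0] ![1, 0, 0] :=
    hg _ _
  rw [hM] at k1 k2
  simp [hermForm, Fin.sum_univ_three, mulVec, dotProduct] at k1 k2
  have fa : (1 - b - c) ^ 3 = 1 - b ^ 3 - c ^ 3 := by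
    linear_combination (-b - c + b^2 + c^2 + 2*b*c - b^2*c - b*c^2) * h3
  rw [fa] at k1 k2
  have q1 : b ^ 3 - c ^ 3 = b - c := by
    linear_combination k1 - k2 + (c * b^3 - b * c^3) * h3
  have q2 : (b - c) ^ 3 = b - c := by
    linear_combination q1 + (b * c^2 - b^2 * c) * h3
  refine ⟨b, c, hM, by rw [q2, one_mul], ?_⟩
  have q3 : c ^ 3 + c = (b - c) ^ 2 - (b - c) := by
    linear_combination k1 + (b - c - 1) * q1 + (c * b^3) * h3
  generalize b - c = β at q2 q3
  have q4 : (β ^ 2 - β) ^ 3 = β ^ 2 - β := by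
    linear_combination (β ^ 3 + β - 1) * q2 + (β ^ 4 - β ^ 5) * h3
  rw [add_sub_assoc]
  generalize β ^ 2 - β = s at q3 q4
  linear_combination q3 + q4 + (c^2 * s + c * s^2 + s) * h3

theorem cube_card (e : F) : Nat.card {x : F // x ^ 3 = e * x} ≤ 3 := by
  classical
  have : {x : F | x ^ 3 = e * x} ⊆ ↑(insert 0 (Polynomial.nthRoots 2 e).toFinset) := fun x hx => by
    by_cases h0 : x = 0
    · simp [h0]
    · have : x ^ 2 = e := mul_right_cancel₀ h0 (by rw [← pow_succ]; exact hx)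
      simp [this]
  refine (Nat.card_mono (Finset.finite_toSet _) this).trans ?_
  rw [Nat.card_coe_set_eq, Set.ncard_coe_finset]
  refine (Finset.card_insert_le _ _).trans ?_
  have := (Multiset.toFinset_card_le _).trans (Polynomial.card_nthRoots 2 e)
  omega

theorem su_facts [Finite F] (h3 : (3 : F) = 0) : center (SU 3 F 3) = ⊥ ∧ ∃ u : SU 3 F 3, u ≠ 1 ∧ u ^ 3 = 1 ∧
    IsConj u u⁻¹ ∧ Nat.card (centralizer ({u} : Set (SU 3 F 3))) ≤ 9 := by
  let u : SU 3 F 3 := ⟨P0 F, P0_mem h3⟩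
  let t : SU 3 F 3 := ⟨T0 F, T0_mem h3⟩
  have u3 : u ^ 3 = 1 := Subtype.ext (Subtype.ext (show (P0 F).1 ^ 3 = 1 by
    ext i j
    fin_cases i <;> fin_cases j <;> simp [P0, pow_succ, mul_apply, Fin.sum_univ_three]))
  refine ⟨(eq_bot_iff_forall _).2 fun z hz => ?_, u, fun e => ?_, u3, ?_, ?_⟩
  · obtain ⟨b, c, e1, e2, e3⟩ := circ h3 z.2 (congrArg Subtype.val (mem_center_iff.1 hz u).symm)
    have h1 : z.1.1 * !![-1, 0, 0; 0, -1, 0; 0, 0, 1] = !![-1, 0, 0; 0, -1, 0; 0, 0, 1] * z.1.1 :=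
      congrArg (fun x : SU 3 F 3 => x.1.1) (mem_center_iff.1 hz ⟨D0 F, D0_mem h3⟩).symm
    rw [e1] at h1
    have a1 : c = -c := by simpa using congrFun (congrFun h1 0) 2
    have a2 : b = -b := by simpa using congrFun (congrFun h1 1) 2
    have a3 : c = 0 := by linear_combination c * h3 - a1
    have a4 : b = 0 := by linear_combination b * h3 - a2
    refine Subtype.ext (Subtype.ext (e1.trans ?_))
    rw [a3, a4]
    ext i j
    fin_cases i <;> fin_cases j <;> simp
  · have := congrArg (fun x : SU 3 F 3 => x.1.1 0 0) e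
    simp [u, P0] at this
  · refine isConj_iff.2 ⟨t, ?_⟩
    rw [mul_inv_eq_iff_eq_mul, eq_inv_mul_iff_mul_eq]
    exact Subtype.ext (Subtype.ext (show (P0 F).1 * ((T0 F).1 * (P0 F).1) = (T0 F).1 by
      ext i j
      fin_cases i <;> fin_cases j <;> simp [P0, T0]))
  · have hc : ∀ g : centralizer ({u} : Set (SU 3 F 3)), g.1.1 * P0 F = P0 F * g.1.1 := fun g =>
      congrArg Subtype.val (mem_centralizer_singleton_iff.1 g.2)
    choose b c e1 e2 e3 using fun g : centralizer ({u} : Set (SU 3 F 3)) => circ h3 g.1.2 (hc g)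
    let f : centralizer ({u} : Set (SU 3 F 3)) → {x : F // x ^ 3 = 1 * x} × {x : F // x ^ 3 = -1 * x} :=
      fun g => (⟨_, e2 g⟩, ⟨_, e3 g⟩)
    have hf : Function.Injective f := fun g h e => by
      have a1 : b g - c g = b h - c h := congrArg (fun x => x.1.1) e
      have a2 : c g + (b g - c g) ^ 2 - (b g - c g) = c h + (b h - c h) ^ 2 - (b h - c h) :=
        congrArg (fun x => x.2.1) e
      rw [a1] at a2
      have a3 : c g = c h := by linear_combination a2
      have a4 : b g = b h := by linear_combination a1 + a3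
      exact Subtype.ext (Subtype.ext (Subtype.ext (by rw [e1, e1, a3, a4])))
    refine (Nat.card_le_card_of_injective f hf).trans ?_
    rw [Nat.card_prod]
    exact Nat.mul_le_mul (cube_card 1) (cube_card (-1))
end

section

theorem gen (S : Multiset (ℕ × ℤ)) (b : ℕ) (t : Multiset ℕ) (h : S.map Prod.fst = b ::ₘ t) :
    ∃ n S', S = (b, n) ::ₘ S' ∧ S'.map Prod.fst = t := by
  obtain ⟨a, ha, rfl, e⟩ := (Multiset.map_eq_cons _ _ _ _).2 h
  exact ⟨a.2, S.erase a, (Multiset.cons_erase ha).symm, e⟩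

theorem cnt1 (R : Multiset (ℕ × ℤ)) (h : ∀ x ∈ R, (x.1 : ℤ) * x.2 ≤ 7 * x.2 ^ 2) :
    (R.map fun x => (x.1 : ℤ) * x.2).sum ≤ 7 * (R.map fun x => x.2 ^ 2).sum := by
  rw [← Multiset.sum_map_mul_left]
  exact Multiset.sum_map_le_sum_map _ _ h

theorem cnt2 (R : Multiset (ℕ × ℤ)) (h : ∀ x ∈ R, x ∈ [(7, 1), (7, -2), (14, -1), (14, 2), (28, 1),
      (28, -2), (56, -1), (56, 2)]) : ∃ a b c d e f g h : ℕ,
    (R.map fun x => (x.1 : ℤ) ^ 2).sum = 49 * (a + b + 4 * c + 4 * d + 16 * e + 16 * f + 64 * g + 64 * h) ∧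
    (R.map fun x => x.2 ^ 2).sum = (a : ℤ) + 4 * b + c + 4 * d + e + 4 * f + g + 4 * h ∧
    (R.map fun x => (x.1 : ℤ) * x.2).sum = 7 * (a - 2 * b - 2 * c + 4 * d + 4 * e - 8 * f - 8 * g + 16 * h) := by
  induction R using Multiset.induction_on with
  | empty => exact ⟨0, 0, 0, 0, 0, 0, 0, 0, by simp⟩
  | cons x R ih =>
    obtain ⟨a, b, c, d, e, f, g, k, h1, h2, h3⟩ := ih fun y hy => h y (Multiset.mem_cons_of_mem hy)
    have := h x (Multiset.mem_cons_self _ _)
    simp only [Multiset.map_cons, Multiset.sum_cons, h1, h2, h3]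
    simp only [List.mem_cons, List.not_mem_nil, or_false] at this
    rcases this with rfl | rfl | rfl | rfl | rfl | rfl | rfl | rfl
    · exact ⟨a + 1, b, c, d, e, f, g, k, by push_cast; ring, by push_cast; ring, by push_cast; ring⟩
    · exact ⟨a, b + 1, c, d, e, f, g, k, by push_cast; ring, by push_cast; ring, by push_cast; ring⟩
    · exact ⟨a, b, c + 1, d, e, f, g, k, by push_cast; ring, by push_cast; ring, by push_cast; ring⟩
    · exact ⟨a, b, c, d + 1, e, f, g, k, by push_cast; ring, by push_cast; ring, by push_cast; ring⟩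
    · exact ⟨a, b, c, d, e + 1, f, g, k, by push_cast; ring, by push_cast; ring, by push_cast; ring⟩
    · exact ⟨a, b, c, d, e, f + 1, g, k, by push_cast; ring, by push_cast; ring, by push_cast; ring⟩
    · exact ⟨a, b, c, d, e, f, g + 1, k, by push_cast; ring, by push_cast; ring, by push_cast; ring⟩
    · exact ⟨a, b, c, d, e, f, g, k + 1, by push_cast; ring, by push_cast; ring, by push_cast; ring⟩

theorem num (M : Multiset (ℕ × ℤ)) (hS : (M.map Prod.fst).filter (¬ 7 ∣ ·) = {1, 6, 27, 32, 32})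
    (hd : ∀ x ∈ M, x.1 ∣ 6048 ∧ (3 : ℤ) ∣ x.1 - x.2)
    (h1 : (M.map fun x => (x.1 : ℤ) ^ 2).sum = 6048) (h2 : (M.map fun x => x.2 ^ 2).sum ≤ 9)
    (h3 : (M.map fun x => (x.1 : ℤ) * x.2).sum = 0) :
    (∃ x ∈ M, 14 ∣ x.1) ∧ ∃ x ∈ M, 21 ∣ x.1 := by
  rw [Multiset.filter_map] at hS
  obtain ⟨n0, S0, e0, s0⟩ := gen _ _ _ hS
  obtain ⟨n1, S1, e1, s1⟩ := gen _ _ _ s0
  obtain ⟨n2, S2, e2, s2⟩ := gen _ _ _ s1
  obtain ⟨n3, S3, e3, s3⟩ := gen _ _ _ s2
  obtain ⟨n4, S4, e4, s4⟩ := gen S3 32 0 s3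
  rw [e1, e2, e3, e4, Multiset.map_eq_zero.1 s4] at e0
  clear e1 e2 e3 e4 s0 s1 s2 s3 s4 hS
  have eM := Multiset.filter_add_not ((¬ 7 ∣ ·) ∘ Prod.fst) M
  rw [e0] at eM
  generalize hR : M.filter (fun a => ¬ ((¬ 7 ∣ ·) ∘ Prod.fst) a) = R at eM
  have h7 : ∀ x ∈ R, 7 ∣ x.1 := fun x hx => by
    rw [← hR] at hx
    simpa using (Multiset.mem_filter.1 hx).2
  clear e0 hR
  subst eM
  simp only [Multiset.map_add, Multiset.map_cons, Multiset.sum_add, Multiset.sum_cons,
    Multiset.map_zero, Multiset.sum_zero] at h1 h2 h3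
  have d0 := (hd (1, n0) (by simp)).2
  have d1 := (hd (6, n1) (by simp)).2
  have d2 := (hd (27, n2) (by simp)).2
  have d3 := (hd (32, n3) (by simp)).2
  have d4 := (hd (32, n4) (by simp)).2
  have p2 : 0 ≤ (R.map fun x => x.2 ^ 2).sum := Multiset.sum_nonneg fun y hy => by
    obtain ⟨x, -, rfl⟩ := Multiset.mem_map.1 hy
    positivity
  have q7 : (7 : ℤ) ∣ (R.map fun x => (x.1 : ℤ) * x.2).sum := Multiset.dvd_sum fun y hy => by
    obtain ⟨x, hx, rfl⟩ := Multiset.mem_map.1 hy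
    exact (Int.natCast_dvd_natCast.2 (h7 x hx)).mul_right _
  have hA : (R.map fun x => (x.1 : ℤ) ^ 2).sum = 3234 := by push_cast at h1; omega
  have hBC : (R.map fun x => x.2 ^ 2).sum ≤ 6 ∧ (R.map fun x => (x.1 : ℤ) * x.2).sum = 63 := by
    generalize (R.map fun x => x.2 ^ 2).sum = B at *
    generalize (R.map fun x => (x.1 : ℤ) * x.2).sum = C at *
    push_cast at d0 d1 d2 d3 d4 h3
    have b : ∀ n : ℤ, n ^ 2 ≤ 9 → -3 ≤ n ∧ n ≤ 3 := fun n h => by constructor <;> nlinarith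
    obtain ⟨_, _⟩ := b n0 (by nlinarith [sq_nonneg n1, sq_nonneg n2, sq_nonneg n3, sq_nonneg n4])
    obtain ⟨_, _⟩ := b n1 (by nlinarith [sq_nonneg n0, sq_nonneg n2, sq_nonneg n3, sq_nonneg n4])
    obtain ⟨_, _⟩ := b n2 (by nlinarith [sq_nonneg n1, sq_nonneg n0, sq_nonneg n3, sq_nonneg n4])
    obtain ⟨_, _⟩ := b n3 (by nlinarith [sq_nonneg n1, sq_nonneg n2, sq_nonneg n0, sq_nonneg n4])
    obtain ⟨_, _⟩ := b n4 (by nlinarith [sq_nonneg n1, sq_nonneg n2, sq_nonneg n3, sq_nonneg n0])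
    have c0 : n0 = 1 ∨ n0 = -2 := by omega
    have c1 : n1 = 0 ∨ n1 = 3 ∨ n1 = -3 := by omega
    have c2 : n2 = 0 ∨ n2 = 3 ∨ n2 = -3 := by omega
    have c3 : n3 = -1 ∨ n3 = 2 := by omega
    have c4 : n4 = -1 ∨ n4 = 2 := by omega
    rcases c0 with rfl | rfl <;> rcases c1 with rfl | rfl | rfl <;> rcases c2 with rfl | rfl | rfl <;>
      rcases c3 with rfl | rfl <;> rcases c4 with rfl | rfl <;> omega
  obtain ⟨hB, hC⟩ := hBC
  have hx : ∀ x ∈ R, x.1 ∈ [7, 14, 21, 28, 42, 56] ∧ -2 ≤ x.2 ∧ x.2 ≤ 2 ∧ (3 : ℤ) ∣ x.1 - x.2 := fun x hx => by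
    have a1 : (x.1 : ℤ) ^ 2 ≤ 3234 := hA ▸ Multiset.single_le_sum (fun y hy => by
      obtain ⟨x, -, rfl⟩ := Multiset.mem_map.1 hy
      positivity) _ (Multiset.mem_map_of_mem _ hx)
    have a2 : x.2 ^ 2 ≤ 6 := le_trans (Multiset.single_le_sum (fun y hy => by
      obtain ⟨x, -, rfl⟩ := Multiset.mem_map.1 hy
      positivity) _ (Multiset.mem_map_of_mem (fun x => x.2 ^ 2) hx)) hB
    have a3 := hd x (by simp [hx])
    have a4 : x.1 < 57 := by nlinarith
    refine ⟨?_, by nlinarith, by nlinarith, a3.2⟩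
    exact (by decide : ∀ d < 57, 7 ∣ d → d ∣ 6048 → d ∈ [7, 14, 21, 28, 42, 56]) _ a4 (h7 x hx) a3.1
  constructor
  · by_contra hc
    push Not at hc
    have := cnt1 R fun x h => by
      obtain ⟨a1, a2, a3, a4⟩ := hx x h
      have a5 := hc x (by simp [h])
      obtain ⟨d, n⟩ := x
      simp only [List.mem_cons, List.not_mem_nil, or_false] at a1 a2 a3 a4 a5 ⊢
      rcases a1 with rfl | rfl | rfl | rfl | rfl | rfl <;> interval_cases n <;> omega
    omega
  · by_contra hc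
    push Not at hc
    obtain ⟨a, b, c, d, e, f, g, k, i1, i2, i3⟩ := cnt2 R fun x h => by
      obtain ⟨a1, a2, a3, a4⟩ := hx x h
      have a5 := hc x (by simp [h])
      obtain ⟨d, n⟩ := x
      simp only [List.mem_cons, List.not_mem_nil, or_false] at a1 a2 a3 a4 a5
      rcases a1 with rfl | rfl | rfl | rfl | rfl | rfl <;> interval_cases n <;>
        first | decide | omega
    omega
end

section
open H3 H9 H8 H8.DC Subgroup

local instance fact7 : Fact (Nat.Prime 7) := ⟨by norm_num⟩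

theorem f7 {G : Type*} [Group G] [Finite G] [IsSimpleGroup G] (hN : Nat.card G = 6048) :
    (degs G).filter (¬ 7 ∣ ·) = {1, 6, 27, 32, 32} := by
  obtain ⟨-, h1, h2⟩ := chkDE_sound (G := G) (by rw [hN]; norm_num) (p := 7) (B := 80)
    (L := [(2, 5), (3, 3)]) (wl := []) (ok := fun _ e c => e == 3 && c == 1) (tw := [6, 27, 32])
    (by rw [hN]; decide +kernel) (by simp)
  obtain ⟨e, c, a1, a2, a3, a4⟩ := h2 default
  simp only [Bool.and_eq_true, beq_iff_eq] at a1
  obtain ⟨s, t, b1, b2, b3, b4, b5⟩ := filter_degs _ a2 (cen_eq_of_card a2 (a1.2 ▸ a3)) h1 (by decide)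
  rw [a4, a1.1] at b1
  obtain ⟨x, y, rfl⟩ := Multiset.card_eq_two.1 (by omega : s.card = 2)
  obtain rfl : t = 2 := by simp at b2; omega
  have k : ∀ u ∈ ({x, y} : Multiset ℤ), u ∈ [-6, -27] := fun u hu => by
    have := b3 u hu
    simp only [List.mem_cons, List.not_mem_nil, or_false, Nat.cast_ofNat] at this ⊢
    omega
  rw [b5]
  revert b4
  have : ∀ x ∈ [-6, -27], ∀ y ∈ [-6, -27],
      (1 + ({x, y} : Multiset ℤ).sum).natAbs ∈ [6, 27, 32] →
      1 ::ₘ (({x, y} : Multiset ℤ).map Int.natAbs + Multiset.replicate 2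
        (1 + ({x, y} : Multiset ℤ).sum).natAbs) = {1, 6, 27, 32, 32} := by
    decide +kernel
  exact this x (k x (by simp)) y (k y (by simp))

theorem key {G : Type*} [Group G] [Finite G] [IsSimpleGroup G] (hN : Nat.card G = 6048) {u : G}
    (h1 : u ≠ 1) (h3 : u ^ 3 = 1) (hc : IsConj u u⁻¹) (h9 : Nat.card (centralizer ({u} : Set G)) ≤ 9) :
    (∃ d ∈ charDegrees G, 6 ∣ d) ∧ (∃ d ∈ charDegrees G, 14 ∣ d) ∧ ∃ d ∈ charDegrees G, 21 ∣ d := by
  classical
  haveI := Fintype.ofFinite G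
  haveI : Fact (Nat.Prime 3) := ⟨by norm_num⟩
  have o3 : orderOf u = 3 := orderOf_eq_prime h3 h1
  have hi : ∀ χ : IrrCharacter G, ∃ n : ℤ, χ.1 u = n := fun χ =>
    χ.2.isGen.exists_int_of_pow fun k hk => by
      rw [o3] at hk
      rw [← pow_mod_orderOf, o3]
      have : k % 3 = 1 ∨ k % 3 = 2 := by
        have : ¬ 3 ∣ k := (Nat.Prime.coprime_iff_not_dvd (by norm_num)).1 hk.symm
        omega
      rcases this with e | e <;> rw [e]
      · rw [pow_one]
      · have : u ^ 2 = u⁻¹ := eq_inv_of_mul_eq_one_left (by rw [← pow_succ, h3])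
        obtain ⟨c, hc⟩ := isConj_iff.1 hc
        rw [this, ← hc]
        exact χ.2.isClassFunction _ _
  choose n hn using hi
  have hf := f7 hN
  let M : Multiset (ℕ × ℤ) := (Finset.univ : Finset (IrrCharacter G)).val.map fun χ => (charDegree χ.1, n χ)
  have hM : M.map Prod.fst = degs G := by simp only [M, degs, Multiset.map_map]; rfl
  have mem : ∀ x ∈ M, x.1 ∈ charDegrees G := fun x hx => by
    obtain ⟨χ, -, rfl⟩ := Multiset.mem_map.1 hx
    exact ⟨χ, rfl⟩
  obtain ⟨⟨x, x1, x2⟩, y, y1, y2⟩ := num M (hM ▸ hf) (fun x hx => by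
      obtain ⟨χ, -, rfl⟩ := Multiset.mem_map.1 hx
      exact ⟨hN ▸ charDegree_dvd_card χ.2, DE.dvd_of_rat (q := 3) (by norm_num) ⟨1, o3⟩ (hn χ)⟩)
    (by
      have := sum_deg_sq (G := G)
      simp only [irr_deg, hN] at this
      have h : ∑ χ : IrrCharacter G, (charDegree χ.1 : ℤ) ^ 2 = 6048 := by exact_mod_cast this
      simp only [M, Multiset.map_map]
      exact h)
    (by
      have := sum_normSq_irr u
      simp only [hn, Complex.norm_intCast, sq_abs] at this
      have h : ((∑ χ, n χ ^ 2 : ℤ) : ℝ) ≤ 9 := by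
        push_cast
        rw [this]; exact_mod_cast h9
      simp only [M, Multiset.map_map]
      exact_mod_cast h)
    (by
      have := sum_deg_mul_eq_zero h1
      simp only [irr_deg, hn] at this
      simp only [M, Multiset.map_map]
      exact_mod_cast this)
  refine ⟨⟨6, ?_, dvd_rfl⟩, ⟨_, mem x x1, x2⟩, _, mem y y1, y2⟩
  obtain ⟨χ, -, hχ⟩ : ∃ χ ∈ (Finset.univ : Finset (IrrCharacter G)).val, charDegree χ.1 = 6 :=
    Multiset.mem_map.1 (Multiset.mem_of_mem_filter (p := (¬ 7 ∣ ·)) (s := degs G) (by rw [hf]; simp))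
  exact ⟨χ, hχ⟩

theorem shape {G : Type*} [Group G] [Finite G] (hN : Nat.card G = 6048)
    (h : (∃ d ∈ charDegrees G, 6 ∣ d) ∧ (∃ d ∈ charDegrees G, 14 ∣ d) ∧ ∃ d ∈ charDegrees G, 21 ∣ d) :
    (∀ p, p ∈ degreePrimes G ↔ p = 2 ∨ p = 3 ∨ p = 7) ∧ ∀ p q, (degreeGraph G).Adj p q ↔
      p ≠ q ∧ (p = 2 ∨ p = 3 ∨ p = 7) ∧ (q = 2 ∨ q = 3 ∨ q = 7) := by
  obtain ⟨⟨a, a1, a2⟩, ⟨b, b1, b2⟩, c, c1, c2⟩ := h
  have k : ∀ p d, p.Prime → d ∈ charDegrees G → p ∣ d → p = 2 ∨ p = 3 ∨ p = 7 := by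
    rintro p _ hp ⟨χ, rfl⟩ hd
    have := hd.trans (hN ▸ charDegree_dvd_card χ.2)
    have := (Nat.mem_primeFactorsList (by norm_num)).2 ⟨hp, this⟩
    revert this
    exact (by decide +kernel : ∀ r ∈ Nat.primeFactorsList 6048, r = 2 ∨ r = 3 ∨ r = 7) p
  refine ⟨fun p => ⟨fun ⟨hp, d, h1, h2⟩ => k p d hp h1 h2, ?_⟩, fun p q =>
    ⟨fun ⟨h0, hp, hq, d, h1, h2⟩ => ⟨h0, k p d hp h1 ((dvd_mul_right _ _).trans h2),
      k q d hq h1 ((dvd_mul_left _ _).trans h2)⟩, ?_⟩⟩
  · rintro (rfl | rfl | rfl)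
    · exact ⟨by norm_num, a, a1, by omega⟩
    · exact ⟨by norm_num, a, a1, by omega⟩
    · exact ⟨by norm_num, b, b1, by omega⟩
  · rintro ⟨h0, rfl | rfl | rfl, rfl | rfl | rfl⟩ <;> first
      | exact (h0 rfl).elim
      | (refine ⟨h0, by norm_num, by norm_num, a, a1, ?_⟩; omega)
      | (refine ⟨h0, by norm_num, by norm_num, b, b1, ?_⟩; omega)
      | (refine ⟨h0, by norm_num, by norm_num, c, c1, ?_⟩; omega)
end

/-- The character degree graph of a finite group has as vertices the primes dividing some irreducible complex character degree, two distinct primes being joined when their product divides some irreducible character degree; two groups have the same character degree graph when they have the same vertices and the same joined pairs. Let F be the field with 9 elements and L = PSU(3,3) realised over F (order 6048). There is a finite solvable group of order 6048 with the same character degree graph as L; so L is not determined by its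 order together with its character degree graph. -/
theorem result {F : Type*} [Field F] [Fintype F] (hF : Fintype.card F = 9) :
    ∃ (H : Type) (_ : Group H) (_ : Fintype H), Group.IsSolvable H ∧ Nat.card H = 6048 ∧ Cfsg.degreePrimes H = Cfsg.degreePrimes (Cfsg.PSU 3 F 3) ∧ Cfsg.degreeGraph H = Cfsg.degreeGraph (Cfsg.PSU 3 F 3) := by
  obtain ⟨H, iH, fH, h1, h2, h3⟩ := exH
  have h9 : (9 : F) = 0 := by simpa [hF] using FiniteField.cast_card_eq_zero F
  have t3 : (3 : F) = 0 := pow_eq_zero_iff (n := 2) (by norm_num) |>.1 (by linear_combination h9)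
  obtain ⟨hz, u, u1, u3, uc, u9⟩ := su_facts t3
  haveI := S0283.result (q := 3) hF 3 le_rfl (by norm_num)
  have hN : Nat.card (PSU 3 F 3) = 6048 := by
    have := S0280.result (q := 3) hF 3 (by norm_num)
    simp [Finset.prod_range_succ, (by decide : ¬ Even 1), (by decide : Even 2)] at this
    omega
  let e : SU 3 F 3 ≃* PSU 3 F 3 := MulEquiv.ofBijective (QuotientGroup.mk' _)
    ⟨(MonoidHom.ker_eq_bot_iff _).1 ((QuotientGroup.ker_mk' _).trans hz), QuotientGroup.mk'_surjective _⟩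
  have k := key hN (u := e u) (by simpa using u1) (by rw [← map_pow, u3, map_one])
    (by rw [← map_inv]; exact e.toMonoidHom.map_isConj uc) (by
      have hm : ∀ g : Subgroup.centralizer ({e u} : Set (PSU 3 F 3)),
          e.symm g.1 ∈ Subgroup.centralizer ({u} : Set (SU 3 F 3)) := fun g => by
        have := Subgroup.mem_centralizer_singleton_iff.1 g.2
        rw [Subgroup.mem_centralizer_singleton_iff]
        apply e.injective
        simpa using this
      refine le_trans (Nat.card_le_card_of_injective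
        (fun g => (⟨_, hm g⟩ : Subgroup.centralizer ({u} : Set (SU 3 F 3)))) fun a b h => ?_) u9
      exact Subtype.ext (e.symm.injective (congrArg Subtype.val h)))
  obtain ⟨a1, a2⟩ := shape hN k
  obtain ⟨b1, b2⟩ := shape h2 ⟨⟨42, h3, by norm_num⟩, ⟨42, h3, by norm_num⟩, 42, h3, by norm_num⟩
  refine ⟨H, iH, fH, h1, h2, Set.ext fun p => (b1 p).trans (a1 p).symm, ?_⟩
  ext p q
  exact (b2 p q).trans (a2 p q).symm

end Cfsg.Agent.S3670
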