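import Cfsg.Statements.S3680
import Mathlib
import Cfsg.Agent.H8.DirPow

set_option autoImplicit false
open Cfsg

namespace Cfsg.Agent.S3680

open Subgroup H7 H8 MulAction

/-- The socle of a finite primitive permutation group. Let a finite group G act faithfully and primitively on a set Ω, and let N be the subgroup generated by the minimal normal subgroups of G. Then either N is an elementary abelian p-group for some prime p and acts regularly on Ω (transitively with trivial point stabilizers), or N is isomorphic to a direct product of m ≥ 1 copies of a non-abelian simple group. -/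
theorem result {G Ω : Type*} [Group G] [Finite G] [MulAction G Ω] [FaithfulSMul G Ω] [Finite Ω]
    (hprim : MulAction.IsPreprimitive G Ω) (N : Subgroup G)
    (hN : N = sSup {V : Subgroup G | V.Normal ∧ V ≠ ⊥ ∧ ∀ M : Subgroup G, M.Normal → M ≤ V → M = ⊥ ∨ M = V}) :
    (∃ p : ℕ, p.Prime ∧ IsMulCommutative N ∧ (∀ x : N, x ^ p = 1) ∧
      MulAction.IsPretransitive N Ω ∧ ∀ ω : Ω, MulAction.stabilizer N ω = ⊥) ∨
    (∃ (T : Type) (_ : Group T) (m : ℕ), 1 ≤ m ∧ IsSimpleGroup T ∧ ¬ IsMulCommutative T ∧ Nonempty (N ≃* (Fin m → T))) := by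
  classical
  set S := {V : Subgroup G | V.Normal ∧ V ≠ ⊥ ∧ ∀ M : Subgroup G, M.Normal → M ≤ V → M = ⊥ ∨ M = V}
  have hS : ∀ V ∈ S, MinN V := fun V h => h
  have tr : ∀ V : Subgroup G, MinN V → IsPretransitive V Ω := fun V hV => by
    haveI := hV.1
    refine hprim.isQuasiPreprimitive.isPretransitive_of_normal fun e => hV.2.1 ?_
    exact eq_bot_iff.2 fun v hv => eq_of_smul_eq_smul fun a : Ω => by
      rw [one_smul]; exact (e.ge (Set.mem_univ a)) ⟨v, hv⟩
  have reg : ∀ (V : Subgroup G) (x : G), IsPretransitive V Ω → x ∈ cen V → ∀ a : Ω, x • a = a →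
      x = 1 := fun V x h hx a e => eq_of_smul_eq_smul fun b : Ω => by
    obtain ⟨v, rfl⟩ := exists_smul_eq V a b
    rw [one_smul, Subgroup.smul_def, ← mul_smul, ← mem_cen.1 hx v v.2, mul_smul, e]
  by_cases h0 : N = ⊥
  · subst h0
    refine Or.inl ⟨2, Nat.prime_two, inferInstance, fun x => Subsingleton.elim _ _, ⟨fun a b => ?_⟩,
      fun ω => Subsingleton.elim _ _⟩
    have : (⊤ : Subgroup G) = ⊥ := by
      by_contra e
      obtain ⟨V, -, hV⟩ := exists_minN e
      exact hV.2.1 (eq_bot_iff.2 (hN ▸ le_sSup (show V ∈ S from hV)))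
    obtain ⟨g, rfl⟩ := exists_smul_eq G a b
    exact ⟨⟨g, this ▸ mem_top g⟩, rfl⟩
  obtain ⟨n, V, h1, h2, h3⟩ := exists_indep_minN S hS
  rw [← hN] at h3
  have hn : n ≠ 0 := by rintro rfl; exact h0 (h3 ▸ iSup_of_empty V)
  obtain ⟨k, rfl⟩ := Nat.exists_eq_succ_of_ne_zero hn
  obtain ⟨T, _, m, hT, hm, ⟨e⟩⟩ := pow_of_minN (hS _ (h1 0))
  haveI : Nonempty Ω := by
    by_contra hc
    rw [not_nonempty_iff] at hc
    exact h0 (eq_bot_iff.2 fun g _ => eq_of_smul_eq_smul fun a : Ω => hc.elim a)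
  obtain ⟨a⟩ := ‹Nonempty Ω›
  by_cases hc : IsMulCommutative T
  · have cV : IsMulCommutative (V 0) := ⟨⟨fun x y => e.injective (by
      rw [map_mul, map_mul]; exact funext fun i => hc.1.1 _ _)⟩⟩
    have t0 := tr _ (h1 0)
    have hNV : N = V 0 := by
      rw [hN]
      refine le_antisymm (sSup_le fun W hW => ?_) (le_sSup (h1 0))
      by_cases e' : W = V 0
      · exact e'.le
      intro w hw
      obtain ⟨v, hv⟩ := exists_smul_eq (V 0) a (w • a)
      have := reg _ ((v : G)⁻¹ * w) t0 (mul_mem (inv_mem (isComm_iff.1 cV v.2)) (mem_cen.2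
        fun x hx => (hS _ (h1 0)).commute (hS W hW) (Ne.symm e') hx hw)) a
        (by rw [mul_smul, ← hv, Subgroup.smul_def, inv_smul_smul])
      rw [inv_mul_eq_one] at this
      exact this ▸ v.2
    subst hNV
    haveI : Finite (Fin m → T) := Finite.of_equiv _ e.toEquiv
    haveI : Finite T := Finite.of_injective (fun t (_ : Fin m) => t) fun a b e => congrFun e ⟨0, hm⟩
    letI : CommGroup T := open scoped IsMulCommutative in inferInstance
    refine Or.inl ⟨_, IsSimpleGroup.prime_card (α := T), cV, fun x => e.injective ?_, t0, fun ω =>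
      eq_bot_iff.2 fun x hx => Subtype.ext (reg _ x t0 (isComm_iff.1 cV x.2) ω hx)⟩
    rw [map_pow, map_one]
    exact funext fun i => pow_card_eq_one'
  have iso : ∀ i, Nonempty (V i ≃* V 0) := fun i => by
    by_cases e' : V i = V 0
    · exact ⟨MulEquiv.subgroupCongr e'⟩
    have t0 := tr _ (h1 0)
    have ti := tr _ (h1 i)
    have cm : ∀ (x : V i) (y : V 0), (x : G) * y = y * x := fun x y =>
      (hS _ (h1 i)).commute (hS _ (h1 0)) e' x.2 y.2
    have ex : ∀ x : V i, ∃ y : V 0, (y : G) • (x : G) • a = a := fun x =>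
      exists_smul_eq (V 0) _ _
    choose f hf using ex
    have un : ∀ (x : V i) (y : V 0), (y : G) • (x : G) • a = a → f x = y := fun x y h => by
      have := reg _ ((f x : G) * (y : G)⁻¹) ti (mem_cen.2 fun z hz => cm ⟨z, hz⟩ (f x * y⁻¹)) a
        (by nth_rw 1 [← h]; rw [mul_smul, inv_smul_smul, hf])
      exact Subtype.ext (mul_inv_eq_one.1 this)
    let φ : V i →* V 0 := MonoidHom.mk' f fun x y => un _ _ (by
      rw [coe_mul, coe_mul, mul_smul, mul_smul, ← mul_smul (f y : G), ← cm, mul_smul, hf, hf])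
    refine ⟨MulEquiv.ofBijective φ ⟨(injective_iff_map_eq_one φ).2 fun x hx => ?_, fun y => ?_⟩⟩
    · have := hf x
      rw [show f x = 1 from hx, coe_one, one_smul] at this
      exact Subtype.ext (reg _ x t0 (mem_cen.2 fun z hz => (cm x ⟨z, hz⟩).symm) a this)
    · obtain ⟨x, hx⟩ := exists_smul_eq (V i) a ((y : G)⁻¹ • a)
      exact ⟨x, un x y (by rw [show (x : G) • a = _ from hx, smul_inv_smul])⟩
  obtain ⟨e1⟩ := exists_pi_equiv (fun i => hS _ (h1 i)) h2
  refine Or.inr ⟨T, inferInstance, (k + 1) * m, Nat.mul_pos k.succ_pos hm, hT, hc,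
    ⟨(((MulEquiv.subgroupCongr h3.symm).trans e1).trans
      (MulEquiv.piCongrRight fun i => (iso i).some.trans e)).trans ?_⟩⟩
  exact (MulEquiv.symm ⟨Equiv.curry _ _ _, fun _ _ => rfl⟩).trans
    (MulEquiv.arrowCongr finProdFinEquiv (MulEquiv.refl T))

end Cfsg.Agent.S3680
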