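import Cfsg.Statements.S3683
import Mathlib
import Cfsg.Agent.H1.Basic

set_option autoImplicit false
open Cfsg

namespace Cfsg.Agent.S3683

/-- Let a finite group G act faithfully and primitively on a set Ω, and suppose the stabilizer of a point a fixes a second point b ≠ a (a suborbit of length 1 other than {a}). Then the stabilizer of a is trivial and G is cyclic of prime order. -/
theorem result {G Ω : Type*} [Group G] [Finite G] [MulAction G Ω] [FaithfulSMul G Ω] [Finite Ω]
    (hprim : MulAction.IsPreprimitive G Ω) (a b : Ω) (hab : a ≠ b) (hfix : ∀ g : G, g • a = a → g • b = b) :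
    MulAction.stabilizer G a = ⊥ ∧ IsCyclic G ∧ (Nat.card G).Prime := by
  haveI : Nontrivial Ω := ⟨⟨a, b, hab⟩⟩
  have hco := (MulAction.isCoatom_stabilizer_iff_preprimitive G a).2 hprim
  obtain ⟨g, hg⟩ := hprim.toIsPretransitive.exists_smul_eq a b
  have hle : MulAction.stabilizer G a ≤ MulAction.stabilizer G b := fun x hx => hfix x hx
  have hcob := (MulAction.isCoatom_stabilizer_iff_preprimitive G b).2 hprim
  have heq : MulAction.stabilizer G b = MulAction.stabilizer G a := (hco.le_iff.1 hle).resolve_left hcob.1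
  have hn : g ∈ Subgroup.normalizer (MulAction.stabilizer G a : Set G) := by
    rw [Subgroup.mem_normalizer_iff]
    intro x
    conv_rhs => rw [← heq]
    simp only [MulAction.mem_stabilizer_iff, ← hg, mul_smul, inv_smul_smul, smul_left_cancel_iff]
  have hN : Subgroup.normalizer (MulAction.stabilizer G a : Set G) = ⊤ := by
    refine hco.2 _ (lt_of_le_of_ne Subgroup.le_normalizer fun h => hab ?_)
    rw [← h] at hn
    rw [← hg]; exact hn.symm
  have hnorm : (MulAction.stabilizer G a).Normal := Subgroup.normalizer_eq_top_iff.1 hN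
  have hbot : MulAction.stabilizer G a = ⊥ := by
    rw [eq_bot_iff]
    intro x hx
    refine FaithfulSMul.eq_of_smul_eq_smul (α := Ω) fun y => ?_
    obtain ⟨k, rfl⟩ := hprim.toIsPretransitive.exists_smul_eq a y
    have := hnorm.conj_mem x hx k⁻¹
    rw [MulAction.mem_stabilizer_iff, inv_inv, mul_smul, mul_smul, inv_smul_eq_iff] at this
    rw [this, one_smul]
  rw [hbot] at hco
  haveI : Nontrivial G := by
    rw [← Subgroup.nontrivial_iff]; exact ⟨⟨_, _, hco.1⟩⟩
  obtain ⟨p, hp, hd⟩ := Nat.exists_prime_and_dvd (n := Nat.card G) (Finite.one_lt_card.ne')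
  haveI := Fact.mk hp
  obtain ⟨c, hc⟩ := exists_prime_orderOf_dvd_card' p hd
  have hz : Subgroup.zpowers c = ⊤ := hco.2 _ (bot_lt_iff_ne_bot.2 (by
    rw [Ne, Subgroup.zpowers_eq_bot]; rintro rfl; rw [orderOf_one] at hc; exact hp.one_lt.ne hc))
  have hcard : Nat.card G = p := by rw [← hc, ← Nat.card_zpowers, hz, Subgroup.card_top]
  exact ⟨hbot, isCyclic_of_prime_card hcard, hcard ▸ hp⟩

end Cfsg.Agent.S3683
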