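import Cfsg.Statements.S3684
import Mathlib
import Cfsg.Agent.H1.SZ
import Cfsg.Agent.H8.Dihedral

set_option autoImplicit false
open Cfsg

namespace Cfsg.Agent.S3684

open MulAction Subgroup

theorem normal_bot {G Ω : Type*} [Group G] [MulAction G Ω] [FaithfulSMul G Ω]
    [IsPretransitive G Ω] {N : Subgroup G} (hN : N.Normal) {a : Ω} (h : N ≤ stabilizer G a) : N = ⊥ := by
  rw [eq_bot_iff]
  intro x hx
  refine FaithfulSMul.eq_of_smul_eq_smul (α := Ω) fun y => ?_
  obtain ⟨k, rfl⟩ := exists_smul_eq G a y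
  have := h (hN.conj_mem x hx k⁻¹)
  rw [MulAction.mem_stabilizer_iff, inv_inv, mul_smul, mul_smul, inv_smul_eq_iff] at this
  rw [this, one_smul]

theorem card_stab {G Ω : Type*} [Group G] [MulAction G Ω] [IsPretransitive G Ω] (a b : Ω) :
    Nat.card (stabilizer G a) = Nat.card (stabilizer G b) := by
  obtain ⟨k, rfl⟩ := exists_smul_eq G a b
  exact Nat.card_congr (stabilizerEquivStabilizer (g := k) rfl).toEquiv

/-- Let a finite group G act faithfully and primitively on a set Ω, and suppose the stabilizer of a point a has an orbit of length 2. Then the stabilizer of a has order 2 and G is isomorphic to the dihedral group of order 2p for some prime p. -/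
theorem result {G Ω : Type*} [Group G] [Finite G] [MulAction G Ω] [FaithfulSMul G Ω] [Finite Ω]
    (hprim : MulAction.IsPreprimitive G Ω) (a b : Ω) (h2 : Nat.card (MulAction.orbit (MulAction.stabilizer G a) b) = 2) :
    Nat.card (MulAction.stabilizer G a) = 2 ∧ ∃ p : ℕ, p.Prime ∧ Nonempty (G ≃* DihedralGroup p) := by
  haveI := hprim.toIsPretransitive
  set A := stabilizer G a
  set B := stabilizer G b
  have hi : B.relIndex A = 2 := by
    rw [← h2, Nat.card_coe_set_eq, ← index_stabilizer]; rfl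
  have hab : a ≠ b := by
    rintro rfl; rw [relIndex_self] at hi; omega
  haveI : Nontrivial Ω := ⟨⟨a, b, hab⟩⟩
  have hco := (isCoatom_stabilizer_iff_preprimitive G a).2 hprim
  have hcob := (isCoatom_stabilizer_iff_preprimitive G b).2 hprim
  have hAB : Nat.card A = Nat.card B := card_stab a b
  have hc1 := card_mul_index ((B ⊓ A).subgroupOf A)
  have hc2 := card_mul_index ((B ⊓ A).subgroupOf B)
  rw [Nat.card_congr (subgroupOfEquivOfLe inf_le_right).toEquiv] at hc1
  rw [Nat.card_congr (subgroupOfEquivOfLe inf_le_left).toEquiv] at hc2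
  have hi1 : ((B ⊓ A).subgroupOf A).index = 2 := by rw [← hi, inf_subgroupOf_right]; rfl
  have hi2 : ((B ⊓ A).subgroupOf B).index = 2 := by
    rw [hi1, hAB, ← hc2] at hc1
    exact (Nat.eq_of_mul_eq_mul_left Nat.card_pos hc1).symm
  have hnA : A ≤ normalizer ((B ⊓ A : Subgroup G) : Set G) :=
    (normal_subgroupOf_iff_le_normalizer inf_le_right).1 (normal_of_index_eq_two hi1)
  have hnB : B ≤ normalizer ((B ⊓ A : Subgroup G) : Set G) :=
    (normal_subgroupOf_iff_le_normalizer inf_le_left).1 (normal_of_index_eq_two hi2)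
  have hne : ¬ B ≤ A := by
    intro h
    have := (hcob.le_iff.1 h).resolve_left hco.1
    rw [this, relIndex_self] at hi; omega
  have hsup : A ⊔ B = ⊤ := hco.2 _ (left_lt_sup.2 hne)
  have hbot : B ⊓ A = ⊥ := normal_bot (normalizer_eq_top_iff.1 (eq_top_iff.2 (hsup ▸ sup_le hnA hnB)))
    (a := a) inf_le_right
  rw [hi1, hbot, card_bot] at hc1
  have hA2 : Nat.card A = 2 := by omega
  refine ⟨hA2, ?_⟩
  have key : ∀ K : Subgroup G, Nat.card K = 2 → ∃ s, s ≠ 1 ∧ s * s = 1 ∧ zpowers s = K := by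
    intro K hK
    obtain ⟨s, hs, ho⟩ := H1.exists_mem_orderOf_eq_prime (H := K) Nat.prime_two (by rw [hK])
    refine ⟨s, by rintro rfl; simp at ho, by rw [← sq, ← ho, pow_orderOf_eq_one], ?_⟩
    exact eq_of_le_of_card_ge (zpowers_le.2 hs) (by rw [Nat.card_zpowers, ho, hK])
  obtain ⟨s, hs1, hs, hsA⟩ := key A hA2
  obtain ⟨t, ht1, ht, htB⟩ := key B (hAB ▸ hA2)
  have hst : s ≠ t := by rintro rfl; exact hne (by rw [← hsA, htB])
  have htop : closure {s, t} = (⊤ : Subgroup G) := by
    rw [← hsup, ← hsA, ← htB, zpowers_eq_closure, zpowers_eq_closure, ← Subgroup.closure_union]; rfl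
  obtain ⟨e⟩ := H8.nonempty_equiv_dihedral_of_invol hs ht hs1 ht1 hst ⊤ htop
  refine ⟨_, ?_, ⟨topEquiv.symm.trans e⟩⟩
  have hinv := H8.inverts_mul_of_invol hs ht
  have hnm := H8.not_mem_zpowers_mul_of_invol hs ht hs1 ht1 hst
  set r := s * t with hr
  have hr1 : r ≠ 1 := fun h => hst (by rw [eq_inv_of_mul_eq_one_left h, inv_eq_of_mul_eq_one_right ht])
  obtain ⟨p, hp, hd⟩ := Nat.exists_prime_and_dvd (n := orderOf r) (fun h => hr1 (orderOf_eq_one_iff.1 h))
  obtain ⟨c, hc, hco'⟩ := H1.exists_mem_orderOf_eq_prime (H := zpowers r) hp (by rwa [Nat.card_zpowers])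
  obtain ⟨k, rfl⟩ := hc
  simp only at hco'
  have hinv' : s * r ^ k * s⁻¹ = (r ^ k)⁻¹ := by rw [← conj_zpow, hinv, inv_zpow]
  have hlt : A < closure {r ^ k, s} := by
    refine lt_of_le_of_ne (by rw [← hsA, zpowers_le]; exact subset_closure (by simp)) fun h => ?_
    have h1 : r ^ k ∈ A := h ▸ subset_closure (by simp)
    rw [← hsA] at h1
    obtain ⟨j, hj⟩ := h1
    simp only at hj
    have h4 : s ^ (2 : ℤ) = 1 := by rw [zpow_two, hs]
    rcases Int.even_or_odd' j with ⟨i, rfl | rfl⟩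
    · rw [zpow_mul, h4, one_zpow] at hj
      rw [← hj, orderOf_one] at hco'; exact hp.one_lt.ne hco'
    · rw [zpow_add, zpow_mul, h4, one_zpow, one_mul, zpow_one] at hj
      exact hnm (hj ▸ zpow_mem_zpowers _ _)
  have htop' := hco.2 _ hlt
  obtain ⟨j, hj | hj⟩ := H8.mem_closure_pair_of_inverts (x := r) (by rw [hs]; exact one_mem _) hinv'
    (htop' ▸ mem_top r)
  · have : orderOf r ∣ p := by
      rw [← hco']; nth_rewrite 1 [hj]; exact orderOf_dvd_of_mem_zpowers (zpow_mem_zpowers _ _)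
    rw [Nat.dvd_antisymm this hd]; exact hp
  · refine absurd ?_ hnm
    have : s = r * ((r ^ k) ^ j)⁻¹ := by rw [eq_mul_inv_iff_mul_eq]; exact hj.symm
    rw [this]
    exact mul_mem (mem_zpowers r) (inv_mem (zpow_mem (zpow_mem_zpowers r k) j))

end Cfsg.Agent.S3684
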