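import Cfsg.Statements.S3696
import Mathlib

set_option autoImplicit false
open Cfsg

namespace Cfsg.Agent.S3696

open Subgroup

theorem amgm (u v d j : ℕ) (hd : 0 < d) : u ^ d * v ^ j * (d + j) ^ (d + j) ≤ (u + v) ^ (d + j) * (d ^ d * j ^ j) := by
  rcases Nat.eq_zero_or_pos j with rfl | hj
  · simp only [pow_zero, mul_one, add_zero]
    exact Nat.mul_le_mul_right _ (Nat.pow_le_pow_left (by omega) _)
  have hd' : (0 : ℝ) < d := by exact_mod_cast hd
  have hj' : (0 : ℝ) < j := by exact_mod_cast hj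
  have h := Real.geom_mean_le_arith_mean2_weighted (w₁ := (d : ℝ) / (d + j)) (w₂ := (j : ℝ) / (d + j))
    (p₁ := (u : ℝ) / d) (p₂ := (v : ℝ) / j) (by positivity) (by positivity) (by positivity) (by positivity)
    (by field_simp)
  have h2 := pow_le_pow_left₀ (by positivity) h (d + j)
  rw [mul_pow, ← Real.rpow_mul_natCast (by positivity), ← Real.rpow_mul_natCast (by positivity),
    show (d : ℝ) / (d + j) * ((d + j : ℕ) : ℝ) = (d : ℕ) by push_cast; field_simp,
    show (j : ℝ) / (d + j) * ((d + j : ℕ) : ℝ) = (j : ℕ) by push_cast; field_simp,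
    Real.rpow_natCast, Real.rpow_natCast,
    show (d : ℝ) / (d + j) * (u / d) + j / (d + j) * (v / j) = (u + v) / (d + j) by field_simp,
    div_pow, div_pow, div_pow, div_mul_div_comm, div_le_div_iff₀ (by positivity) (by positivity)] at h2
  exact_mod_cast h2

/-- elements of order dividing `p` -/
def om {G : Type*} [Group G] (p : ℕ) {A : Subgroup G} (hab : ∀ a ∈ A, ∀ b ∈ A, Commute a b) : Subgroup G where
  carrier := {x | x ∈ A ∧ x ^ p = 1}
  one_mem' := ⟨A.one_mem, one_pow _⟩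
  mul_mem' := fun {a b} ha hb => ⟨A.mul_mem ha.1 hb.1, by rw [(hab a ha.1 b hb.1).mul_pow, ha.2, hb.2, mul_one]⟩
  inv_mem' := fun {a} ha => ⟨A.inv_mem ha.1, by rw [inv_pow, ha.2, inv_one]⟩

theorem key {Ω : Type*} [Fintype Ω] [DecidableEq Ω] {p : ℕ} (hp : p.Prime) {A : Subgroup (Equiv.Perm Ω)}
    (hA : IsPGroup p A) (hab : ∀ a ∈ A, ∀ b ∈ A, Commute a b) (n : ℕ) :
    ∀ (X : Finset Ω) (S : Subgroup (Equiv.Perm Ω)), X.card = n → S ≤ A → (∀ a ∈ A, ∀ x, a x ∈ X ↔ x ∈ X) →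
      (∀ s ∈ S, ∀ x ∉ X, s x = x) → ∀ j, Nat.card (S ⊓ om p hab : Subgroup _) = p ^ j →
      Nat.card S * j ^ j ≤ n ^ j := by
  classical
  haveI := Fact.mk hp
  induction n using Nat.strong_induction_on with
  | _ n ih =>
  intro X S hX hS hinv hfix j hj
  by_cases hb : S = ⊥
  · subst hb
    rw [bot_inf_eq, Subgroup.card_bot] at hj
    obtain rfl : j = 0 := by
      by_contra h
      exact (Nat.one_lt_pow h hp.one_lt).ne hj
    simp
  haveI := (Subgroup.nontrivial_iff_ne_bot S).2 hb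
  obtain ⟨z, hz⟩ := exists_prime_orderOf_dvd_card' (G := S) p (by
    obtain ⟨k, hk, e⟩ := (hA.to_le hS).nontrivial_iff_card.1 inferInstance
    rw [e]; exact dvd_pow_self p hk.ne')
  have hz1 : (z : Equiv.Perm Ω) ≠ 1 := fun e => by
    rw [show z = 1 from Subtype.ext e, orderOf_one] at hz
    exact hp.one_lt.ne hz
  have hzp : (z : Equiv.Perm Ω) ^ p = 1 := by rw [← hz, ← Subgroup.coe_pow, pow_orderOf_eq_one]; rfl
  obtain ⟨x, hx⟩ : ∃ x, (z : Equiv.Perm Ω) x ≠ x := by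
    by_contra h
    push Not at h
    exact hz1 (Equiv.ext h)
  have hxX : x ∈ X := by
    by_contra h
    exact hx (hfix z z.2 x h)
  let O : Finset Ω := Finset.univ.filter fun y => ∃ a ∈ A, a x = y
  have hO : ∀ y, y ∈ O ↔ ∃ a ∈ A, a x = y := fun y => by simp [O]
  have hOX : O ⊆ X := fun y hy => by
    obtain ⟨a, ha, rfl⟩ := (hO y).1 hy
    exact (hinv a ha x).2 hxX
  have hxO : x ∈ O := (hO x).2 ⟨1, A.one_mem, rfl⟩
  have hOpos := Finset.card_pos.2 ⟨x, hxO⟩
  have hOle := Finset.card_le_card hOX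
  let H := MulAction.stabilizer (Equiv.Perm Ω) x
  obtain ⟨i, hi⟩ := ((hA.to_le (inf_le_left.trans (inf_le_left.trans hS))) : IsPGroup p (S ⊓ H ⊓ om p hab : Subgroup _)).exists_card_eq
  have h1 := ih (n - O.card) (by omega) (X \ O) (S ⊓ H) (by rw [Finset.card_sdiff_of_subset hOX, hX])
    (inf_le_left.trans hS) (fun a ha y => by
      rw [Finset.mem_sdiff, Finset.mem_sdiff, hinv a ha, hO, hO]
      refine and_congr_right fun _ => not_congr ⟨?_, ?_⟩
      · rintro ⟨b, hb, e⟩; exact ⟨a⁻¹ * b, A.mul_mem (A.inv_mem ha) hb, by simp [e]⟩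
      · rintro ⟨b, hb, rfl⟩; exact ⟨a * b, A.mul_mem ha hb, rfl⟩)
    (fun s hs y hy => by
      by_cases hyX : y ∈ X
      · obtain ⟨a, ha, rfl⟩ := (hO y).1 (by simpa [hyX] using hy)
        have e : s x = x := hs.2
        rw [← Equiv.Perm.mul_apply, (hab s (hS hs.1) a ha).eq, Equiv.Perm.mul_apply, e]
      · exact hfix s hs.1 y hyX) i hi
  have cm : ∀ K : Subgroup (Equiv.Perm Ω), Nat.card (K ⊓ H : Subgroup _) * H.relIndex K = Nat.card K := by
    intro K
    rw [← (H.subgroupOf K).card_mul_index, ← inf_subgroupOf_right, inf_comm H K,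
      Nat.card_congr (subgroupOfEquivOfLe inf_le_left).toEquiv, inf_comm K H, inf_subgroupOf_right]
    rfl
  have c1 := cm S
  have c2 := cm (S ⊓ om p hab)
  rw [inf_right_comm, hi, hj] at c2
  have c3 : H.relIndex (S ⊓ om p hab) ≤ H.relIndex S :=
    relIndex_le_of_le_right inf_le_left (index_ne_zero_of_finite)
  have c4 : H.relIndex S ≤ O.card := by
    have : H.relIndex S = (MulAction.orbit S x).ncard := by
      rw [← MulAction.index_stabilizer]; rfl
    rw [this, ← Set.ncard_coe_finset]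
    refine Set.ncard_le_ncard ?_
    rintro _ ⟨s, rfl⟩
    exact (hO _).2 ⟨s, hS s.2, rfl⟩
  have c5 : H.relIndex (S ⊓ om p hab) ≠ 1 := fun e =>
    hx ((relIndex_eq_one.1 e) ⟨z.2, hS z.2, hzp⟩)
  obtain ⟨d, hd, e⟩ := (Nat.dvd_prime_pow hp).1 (Dvd.intro_left _ c2)
  rw [e] at c2 c3 c5
  have d0 : 0 < d := Nat.pos_of_ne_zero (by rintro rfl; simp at c5)
  obtain rfl : j = d + i := by
    rw [← pow_add] at c2
    have := Nat.pow_right_injective hp.two_le c2
    omega
  set s := H.relIndex S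
  have c6 : s * d ^ d ≤ O.card ^ d := by
    obtain ⟨r, rfl⟩ : ∃ r, d = r + 1 := ⟨d - 1, by omega⟩
    have a1 : (r + 1) ^ (r + 1) ≤ s ^ r :=
      calc (r + 1) ^ (r + 1) ≤ (2 ^ r) ^ (r + 1) := Nat.pow_le_pow_left Nat.lt_two_pow_self _
        _ = (2 ^ (r + 1)) ^ r := by rw [← pow_mul, ← pow_mul, mul_comm]
        _ ≤ s ^ r := Nat.pow_le_pow_left ((Nat.pow_le_pow_left hp.two_le _).trans c3) _
    calc s * (r + 1) ^ (r + 1) ≤ s * s ^ r := Nat.mul_le_mul_left _ a1
      _ = s ^ (r + 1) := by rw [pow_succ']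
      _ ≤ _ := Nat.pow_le_pow_left c4 _
  have c7 := amgm O.card (n - O.card) d i d0
  rw [show O.card + (n - O.card) = n by omega] at c7
  have pos : 0 < d ^ d * i ^ i := Nat.mul_pos (Nat.pow_pos d0) (Nat.pow_self_pos)
  refine Nat.le_of_mul_le_mul_right (le_trans ?_ c7) pos
  rw [← c1]
  calc Nat.card (S ⊓ H : Subgroup _) * s * (d + i) ^ (d + i) * (d ^ d * i ^ i)
      = (s * d ^ d) * (Nat.card (S ⊓ H : Subgroup _) * i ^ i) * (d + i) ^ (d + i) := by ring
    _ ≤ _ := Nat.mul_le_mul_right _ (Nat.mul_le_mul c6 h1)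

/-- Let p be a prime, Ω a finite set with n ≥ p elements, and A an abelian p-subgroup of the symmetric group on Ω whose elements of order dividing p number p^k (so k is the rank of A). Then |A| · k^k ≤ n^k, that is, |A| ≤ (n/k)^k. -/
theorem result {Ω : Type*} [Fintype Ω] [DecidableEq Ω]
    (p : ℕ) (hp : p.Prime) (hn : p ≤ Fintype.card Ω) (A : Subgroup (Equiv.Perm Ω)) (hA : IsPGroup p A) (hab : IsMulCommutative A)
    (k : ℕ) (hk : Nat.card {x : A // x ^ p = 1} = p ^ k) :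
    Nat.card A * k ^ k ≤ Fintype.card Ω ^ k := by
  have hc : ∀ a ∈ A, ∀ b ∈ A, Commute a b := fun a ha b hb =>
    congrArg Subtype.val (hab.is_comm.comm (⟨a, ha⟩ : A) ⟨b, hb⟩)
  refine key hp hA hc _ Finset.univ A rfl le_rfl (by simp) (by simp) k ?_
  rw [← hk]
  exact Nat.card_congr ⟨fun x => ⟨⟨x.1, x.2.1⟩, Subtype.ext x.2.2.2⟩,
    fun x => ⟨x.1.1, x.1.2, x.1.2, congrArg Subtype.val x.2⟩, fun _ => rfl, fun _ => rfl⟩

end Cfsg.Agent.S3696
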