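import Cfsg.Statements.S3703
import Cfsg.Agent.H7.PLen
import Cfsg.Agent.H7.BG13
import Cfsg.Agent.H7.GK

set_option autoImplicit false
open Cfsg

namespace Cfsg.Agent.S3703
open H7
open scoped commutatorElement

section
open Subgroup

open Subgroup H2 H7 in
theorem frob_p {G : Type*} [Group G] [Finite G] {P Q : Subgroup G} {p : ℕ} [Fact p.Prime] {x : G} (hP : IsPGroup p P)
    (hc : (ord Q).Coprime (ord P)) (nQ : Q ≤ nrm P) (h1 : x ∈ nrm P) (h2 : x ∈ nrm Q)
    (hf : ∀ k : ℕ, x ^ k ≠ 1 → Q ⊓ cen1 (x ^ k) = ⊥) (h : ∀ v ∈ P, (v * x) ^ orderOf x = 1) : Q ≤ cen P := by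
  by_cases hQ : Q = ⊥
  · rw [hQ]; exact bot_le
  have dP : P ≤ nrm (Phi P) := le_nrm_Phi P
  have dQ : Q ≤ nrm (Phi P) := nrm_Phi nQ
  have dx : x ∈ nrm (Phi P) := nrm_Phi (A := nrm P) le_rfl h1
  have hk : kr (qm (Phi P)) = Phi P := kr_qm _
  have hdis : Q ⊓ Phi P = ⊥ := le_bot_iff.1 ((inf_le_inf_left _ (Phi_le P)).trans (inf_eq_bot_of_coprime hc).le)
  have key : ∀ q ∈ Q, ∀ k : ℕ, ⁅q, x ^ k⁆ ∈ Phi P → q ∈ cen1 (x ^ k) := by
    intro q hq k hm
    have : ⁅q, x ^ k⁆ ∈ Q := by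
      rw [commutatorElement_def, mul_assoc, mul_assoc, ← mul_assoc (x ^ k)]
      exact mul_mem hq ((mem_normalizer_iff.1 (pow_mem h2 k) _).1 (inv_mem hq))
    have e : ⁅q, x ^ k⁆ = 1 := by rw [← mem_bot (G := G), ← hdis]; exact ⟨this, hm⟩
    exact mem_centralizer_singleton_iff.2 (commutatorElement_eq_one_iff_mul_comm.1 e)
  haveI : IsMulCommutative (im (qm (Phi P)) P) := by
    rw [← le_centralizer_iff_isMulCommutative, im_le_cen_iff dP dP, hk]
    exact comm_le_Phi hP.isNilpotent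
  have ho : orderOf (ev (qm (Phi P)) x) = orderOf x := by
    rw [orderOf_eq_orderOf_iff]
    intro n
    rw [← ev_pow dx, ev_eq_one_iff (pow_mem dx n), hk]
    refine ⟨fun hn => ?_, fun hn => by rw [hn]; exact one_mem _⟩
    by_contra hne
    apply hQ
    rw [← hf n hne]
    refine (inf_eq_left.2 fun q hq => key q hq n ?_).symm
    rw [commutatorElement_def]
    exact mul_mem ((mem_normalizer_iff.1 (dQ hq) _).1 hn) (inv_mem hn)
  have hx' : ev (qm (Phi P)) x ∈ nrm (im (qm (Phi P)) P) :=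
    im_le_nrm (qm (Phi P)) (A := nrm P) le_rfl (ev_mem_im h1)
  have hx'' : ev (qm (Phi P)) x ∈ nrm (im (qm (Phi P)) Q) :=
    im_le_nrm (qm (Phi P)) (A := nrm Q) le_rfl (ev_mem_im h2)
  have := frob_tr (V := im (qm (Phi P)) P) (K := im (qm (Phi P)) Q) (H := zpowers (ev (qm (Phi P)) x))
    (im_le_nrm _ nQ) (zpowers_le.2 hx') (zpowers_le.2 hx'') (by
      intro y hy hy1
      obtain ⟨k, rfl⟩ : ∃ k : ℕ, ev (qm (Phi P)) x ^ k = y := (Submonoid.mem_powers_iff _ _).1 (mem_powers_iff_mem_zpowers.2 hy)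
      rw [eq_bot_iff]
      rintro _ ⟨hz, hz'⟩
      obtain ⟨q, hq, rfl⟩ := (mem_im_of_le dQ).1 hz
      have hk1 : x ^ k ≠ 1 := by
        intro e; apply hy1; rw [← ev_pow dx, e, ev_one]
      have : q ∈ Q ⊓ cen1 (x ^ k) := ⟨hq, key q hq k (by
        rw [← hk, ← ev_eq_one_iff (by
          rw [commutatorElement_def]
          exact mul_mem (mul_mem (mul_mem (dQ hq) (pow_mem dx k)) (inv_mem (dQ hq))) (inv_mem (pow_mem dx k))),
          ev_comm (dQ hq) (pow_mem dx k), ev_pow dx, commutatorElement_eq_one_iff_mul_comm]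
        exact mem_centralizer_singleton_iff.1 hz')⟩
      rw [hf k hk1, mem_bot] at this
      rw [this, ev_one]; exact one_mem _)
    (Nat.Coprime.coprime_dvd_left (card_im_dvd _ _) (Nat.Coprime.coprime_dvd_right (card_im_dvd _ _) hc)) (by
      intro v
      apply Subtype.ext
      rw [tr_zpowers hx', ho]
      obtain ⟨w, hw, e⟩ := (mem_im_of_le dP).1 v.2
      rw [← e, ← ev_mul (dP hw) dx, ← ev_pow (mul_mem (dP hw) dx), h w hw, ev_one]; rfl)
  rw [im_le_cen_iff dQ dP, hk, commutator_comm] at this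
  exact cen_of_comm_le_Phi nQ hc this

end

/-- Let N be a normal subgroup of the finite group G such that G/N is a Frobenius group with kernel F and cyclic complement H, where the order of F is coprime to that of N and F is not contained in the image of C_G(N) in G/N. Then G has an element of order p·#H for some prime p dividing the order of N. (A standard tool in recognising groups by their element orders.) -/
theorem result {G : Type*} [Group G] [Finite G] (N : Subgroup G) [N.Normal]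
    (Fb Hb : Subgroup (G ⧸ N)) [Fb.Normal] (hHb : Cfsg.IsFrobeniusComplement Hb) (hker : Cfsg.frobeniusKernel Hb = (Fb : Set (G ⧸ N)))
    (hcyc : IsCyclic Hb) (hcop : (Nat.card Fb).Coprime (Nat.card N))
    (hnot : ¬ Fb ≤ (Subgroup.centralizer (N : Set G)).map (QuotientGroup.mk' N)) :
    ∃ p : ℕ, p.Prime ∧ p ∣ Nat.card N ∧ ∃ g : G, orderOf g = p * Nat.card Hb := by
  open Subgroup in
  classical
  by_contra hcon
  push Not at hcon
  set φ := QuotientGroup.mk' N with hφ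
  have hsurj : Function.Surjective φ := QuotientGroup.mk'_surjective N
  have hker' : ∀ g, φ g = 1 ↔ g ∈ N := fun g => QuotientGroup.eq_one_iff g
  obtain ⟨c, hc⟩ := (Subgroup.isCyclic_iff_exists_zpowers_eq_top Hb).1 hcyc
  have hoc : orderOf c = Nat.card Hb := by rw [← hc, Nat.card_zpowers]
  have hfp : ∀ h ∈ Hb, h ≠ 1 → ∀ f ∈ Fb, f * h = h * f → f = 1 := by
    intro h hh h1 f hf e
    have hfk : f ∈ Cfsg.frobeniusKernel Hb := by rw [hker]; exact hf
    refine hfk.resolve_right fun hn => ?_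
    have hfH : f ∉ Hb := by simpa using hn 1
    apply h1
    rw [← Subgroup.mem_bot, ← hHb.2.2 f hfH]
    refine Subgroup.mem_inf.2 ⟨hh, ?_⟩
    rw [Subgroup.mem_pointwise_smul_iff_inv_smul_mem]
    have : (MulAut.conj f)⁻¹ • h = h := by
      simp only [MulAut.smul_def, MulAut.conj_inv_apply]
      rw [mul_assoc, ← e, ← mul_assoc, inv_mul_cancel, one_mul]
    rw [this]; exact hh
  have hc1 : c ≠ 1 := by
    rintro rfl; apply hHb.1; rw [← hc]; simp
  have hcH : c ∈ Hb := by rw [← hc]; exact Subgroup.mem_zpowers c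
  have hconj : ∀ f ∈ Fb, ∃ u ∈ Fb, f * c = u * c * u⁻¹ := by
    let ψ : Fb → Fb := fun u => ⟨u * (c * (u : G ⧸ N)⁻¹ * c⁻¹), mul_mem u.2 (Subgroup.Normal.conj_mem inferInstance _ (inv_mem u.2) c)⟩
    have hinj : Function.Injective ψ := by
      intro a b hab
      have e : (a : G ⧸ N) * (c * (a : G ⧸ N)⁻¹ * c⁻¹) = b * (c * (b : G ⧸ N)⁻¹ * c⁻¹) := congrArg Subtype.val hab
      have := hfp c hcH hc1 ((b : G ⧸ N)⁻¹ * a) (mul_mem (inv_mem b.2) a.2) (by
        calc (b : G ⧸ N)⁻¹ * a * c = (b : G ⧸ N)⁻¹ * ((a : G ⧸ N) * (c * (a : G ⧸ N)⁻¹ * c⁻¹)) * c * a := by group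
          _ = _ := by rw [e]; group)
      exact Subtype.ext (inv_mul_eq_one.1 this).symm
    intro f hf
    obtain ⟨u, hu⟩ := Finite.injective_iff_surjective.1 hinj ⟨f, hf⟩
    have e : (u : G ⧸ N) * (c * (u : G ⧸ N)⁻¹ * c⁻¹) = f := congrArg Subtype.val hu
    exact ⟨u, u.2, by rw [← e]; group⟩
  have hord : ∀ g : G, orderOf (φ g) = Nat.card Hb → orderOf g = Nat.card Hb := by
    intro g hg
    obtain ⟨d, hd⟩ : Nat.card Hb ∣ orderOf g := hg ▸ orderOf_map_dvd φ g
    by_cases h1 : d = 1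
    · rw [hd, h1, mul_one]
    exfalso
    obtain ⟨p, hp, hpd⟩ := Nat.exists_prime_and_dvd h1
    have hn : g ^ Nat.card Hb ∈ N := by rw [← hker', map_pow, ← hg, pow_orderOf_eq_one]
    have ho : orderOf (g ^ Nat.card Hb) = d := by
      rw [orderOf_pow_of_dvd Nat.card_pos.ne' ⟨d, hd⟩, hd, Nat.mul_div_cancel_left _ Nat.card_pos]
    have hpN : p ∣ Nat.card N := hpd.trans (ho ▸ Subgroup.orderOf_dvd_natCard N hn)
    obtain ⟨y, -, hy⟩ := H7.exists_ord_of_dvd (g := g) (n := p * Nat.card Hb) (by rw [hd, mul_comm]; exact Nat.mul_dvd_mul_left _ hpd)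
    exact hcon p hp hpN y hy
  set Y : Subgroup G := Fb.comap φ with hY
  have hNY : N ≤ Y := fun n hn => by
    show φ n ∈ Fb
    rw [(hker' n).2 hn]; exact one_mem _
  have hYc : Nat.card Y = Nat.card Fb * Nat.card N := by
    have := H7.card_pre (f := H7.res φ ⊤) (B := Fb) (by rw [H7.im_top, Subgroup.map_top_of_surjective _ hsurj]; exact le_top)
    rwa [H7.pre_top', H7.kr_top, QuotientGroup.ker_mk'] at this
  have hex : ∃ q : ℕ, q.Prime ∧ ∃ Q, H2.IsSylowIn q Q Y ∧ (Nat.card Q).Coprime (Nat.card N) ∧ ¬ Q ≤ Subgroup.centralizer (N : Set G) := by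
    by_contra hh
    push Not at hh
    apply hnot
    have : Y ≤ Subgroup.centralizer (N : Set G) ⊔ N := by
      apply H7.le_of_sylows_le
      intro q hq _
      haveI := Fact.mk hq
      obtain ⟨Q, hQ⟩ := H2.exists_isSylowIn q Y
      refine ⟨Q, hQ, ?_⟩
      by_cases hqN : q ∣ Nat.card N
      · refine le_trans ?_ le_sup_right
        intro x hx
        rw [← hker']
        have h1 : orderOf (φ x) ∣ Nat.card Fb := Subgroup.orderOf_dvd_natCard Fb (hQ.le hx)
        obtain ⟨k, hk⟩ := hQ.isPGroup ⟨x, hx⟩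
        have h2 : orderOf (φ x) ∣ q ^ k := by
          apply orderOf_dvd_of_pow_eq_one
          rw [← map_pow, show x ^ q ^ k = 1 from congrArg Subtype.val hk, map_one]
        have h3 : (Nat.card Fb).Coprime (q ^ k) := Nat.Coprime.pow_right _ (Nat.Coprime.coprime_dvd_right hqN hcop)
        rw [← orderOf_eq_one_iff]
        exact Nat.eq_one_of_dvd_coprimes h3 h1 h2
      · refine (hh q hq Q hQ ?_).trans le_sup_left
        obtain ⟨k, hk⟩ := hQ.isPGroup.exists_card_eq
        rw [hk]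
        exact Nat.Coprime.pow_left _ ((Nat.Prime.coprime_iff_not_dvd hq).2 hqN)
    intro f hf
    obtain ⟨g, rfl⟩ := hsurj f
    have h2 := Subgroup.map_mono (f := φ) this ⟨g, hf, rfl⟩
    rwa [Subgroup.map_sup, hφ, QuotientGroup.map_mk'_self, sup_bot_eq] at h2
  obtain ⟨q, hq, Q, hQ, hQc, hQn⟩ := hex
  haveI := Fact.mk hq
  have nN : ∀ A : Subgroup G, A ≤ Subgroup.normalizer (N : Set G) := fun A => by rw [Subgroup.normalizer_eq_top]; exact le_top
  obtain ⟨p, hp, -, P, hP, nP, ncP⟩ := H7.Cop.exists_syl_not_cen (A := Q) (K := N) ⟨nN Q, hQc, Or.inl (by haveI := hQ.isPGroup.isNilpotent; infer_instance)⟩ hQn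
  haveI := Fact.mk hp
  have fr1 := H7.syl_frattini hP (U := ⊤) le_top (nN ⊤)
  rw [top_inf_eq] at fr1
  have hQ1 : H2.IsSylowIn q Q (Y ⊓ Subgroup.normalizer (P : Set G)) := hQ.mono (le_inf hQ.le nP) inf_le_left
  have fr2 := H7.syl_frattini hQ1 (U := Subgroup.normalizer (P : Set G)) inf_le_right (by
    intro g hg
    have hYn : Y.Normal := inferInstance
    exact Subgroup.inf_normalizer_le_normalizer_inf ⟨by rw [Subgroup.normalizer_eq_top]; trivial, Subgroup.le_normalizer hg⟩)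
  have hYn : Y.Normal := inferInstance
  have hex : ∃ g ∈ Subgroup.normalizer (P : Set G) ⊓ Subgroup.normalizer (Q : Set G), ∃ f ∈ Fb, φ g = f * c := by
    have htop : (⊤ : Subgroup G) ≤ Y ⊔ (Subgroup.normalizer (P : Set G) ⊓ Subgroup.normalizer (Q : Set G)) := by
      rw [← fr1]
      refine sup_le ?_ (hNY.trans le_sup_left)
      rw [← fr2]
      refine sup_le ?_ (inf_le_left.trans le_sup_left)
      rw [fr2]; exact le_sup_right
    obtain ⟨g0, hg0⟩ := hsurj c
    have := htop (Subgroup.mem_top g0)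
    rw [← SetLike.mem_coe, Subgroup.normal_mul] at this
    obtain ⟨y, hy, g, hg, e⟩ := this
    refine ⟨g, hg, (φ y)⁻¹, inv_mem hy, ?_⟩
    rw [← hg0, ← e]; simp
  obtain ⟨g, ⟨hgP, hgQ⟩, f, hf, hgf⟩ := hex
  obtain ⟨u, hu, huc⟩ := hconj f hf
  have ho1 : orderOf (f * c) = Nat.card Hb := by
    rw [huc, ← hoc]; exact (MulAut.conj u).orderOf_eq c
  have hog : orderOf g = Nat.card Hb := hord g (by rw [hgf, ho1])
  apply ncP
  refine frob_p hP.isPGroup (Nat.Coprime.coprime_dvd_right (Subgroup.card_dvd_of_le hP.le) hQc) nP hgP hgQ ?_ ?_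
  · intro k hk
    rw [eq_bot_iff]
    rintro x ⟨hx, hx'⟩
    have e := Subgroup.mem_centralizer_singleton_iff.1 hx'
    have hck : c ^ k ≠ 1 := by
      intro h; apply hk
      rw [← orderOf_dvd_iff_pow_eq_one] at h ⊢
      rwa [hog, ← hoc]
    have e2 : φ x * (u * c ^ k * u⁻¹) = (u * c ^ k * u⁻¹) * φ x := by
      rw [← conj_pow, ← huc, ← hgf, ← map_pow, ← map_mul, e, map_mul]
    have := hfp (c ^ k) (pow_mem hcH k) hck (u⁻¹ * φ x * u) (mul_mem (mul_mem (inv_mem hu) (hQ.le hx)) hu) (by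
      calc u⁻¹ * φ x * u * c ^ k = u⁻¹ * (φ x * (u * c ^ k * u⁻¹)) * u := by group
        _ = _ := by rw [e2]; group)
    have h1 : φ x = 1 := by
      calc φ x = u * (u⁻¹ * φ x * u) * u⁻¹ := by group
        _ = 1 := by rw [this]; group
    rw [← Subgroup.inf_eq_bot_of_coprime hQc]
    exact ⟨hx, (hker' x).1 h1⟩
  · intro v hv
    rw [hog, ← hord (v * g) (by rw [map_mul, (hker' v).2 (hP.le hv), one_mul, hgf, ho1]), pow_orderOf_eq_one]

end Cfsg.Agent.S3703
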