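import Cfsg.Statements.S3803
import Cfsg.Agent.H7.QD

set_option autoImplicit false
open Cfsg

namespace Cfsg.Agent.S3803
open H7
open scoped commutatorElement

/-- Let P be a 2-subgroup and A a subgroup of odd order of a finite group, with A normalizing P. Let D ≤ P with 1 < |D| < |P|. If every subgroup of P of order |D|, and also every subgroup of P of order 4 in case |D| = 2, is normalized by A, then A centralizes P. -/
theorem result {X : Type*} [Group X] [Finite X] (P A D : Subgroup X) (hP : IsPGroup 2 P) (hA : Odd (Nat.card A))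
    (hAP : A ≤ Subgroup.normalizer (P : Set X)) (hDP : D ≤ P) (hD1 : 1 < Nat.card D) (hD2 : Nat.card D < Nat.card P)
    (hinv : ∀ E : Subgroup X, E ≤ P → (Nat.card E = Nat.card D ∨ (Nat.card D = 2 ∧ Nat.card E = 4)) → A ≤ Subgroup.normalizer (E : Set X)) :
    A ≤ Subgroup.centralizer (P : Set X) := by
  open Subgroup in
  by_contra h0
  have co : (Nat.card A).Coprime 2 := hA.coprime_two_right
  obtain ⟨M, lM, h⟩ := exists_minQ hP hAP le_rfl (le_nrm_self A) co h0
  have nc : ¬ IsCyclic M := fun c => by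
    have e := comm_inf_cen_of_comm (isComm_of_cyc c) h.norm (coprime_of_isPGroup h.pg co)
    rw [h.comm] at e
    exact Om_ne_bot' h.pg (fun e => h.nc (e ▸ le_cen_bot _)) (eq_bot_of_le (le_inf (Om_le _ _) (le_cen_symm
      (cen_of_two (H1B.card_Om_le_of_cyc c) (nrm_Om h.norm)))) e)
  obtain ⟨d, hd⟩ := IsPGroup.iff_card.1 (hP.to_le hDP)
  obtain ⟨m, hm⟩ := IsPGroup.iff_card.1 h.pg
  obtain ⟨n, hn⟩ := IsPGroup.iff_card.1 hP
  rw [hd] at hD1 hD2 hinv
  rw [hn, Nat.pow_lt_pow_iff_right (by norm_num)] at hD2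
  have d1 : 1 ≤ d := Nat.pos_of_ne_zero fun e => by simp [e] at hD1
  rcases lt_or_ge d m with l | l
  · refine h.nc (le_cen_symm fun x hx => ?_)
    have o4 : orderOf x ∣ 2 ^ 2 := orderOf_dvd_of_pow_eq_one (by
      rcases h.sm x hx with k | ⟨-, k⟩
      · rw [pow_two 2, pow_mul, k, one_pow]
      · exact k)
    by_cases c : orderOf x ≤ 2 ^ d
    · obtain ⟨E, e1, e2, e3⟩ := exists_card_eq_pow h.pg (zpowers_le.2 hx) (by rwa [Nat.card_zpowers])
        (hm ▸ Nat.pow_le_pow_right (by norm_num) l.le)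
      exact le_cen_symm (h.min E (lt_of_le_of_ne e2 fun e => by
        rw [e, hm] at e3; exact l.ne' (Nat.pow_right_injective le_rfl e3)) (hinv E (e2.trans lM) (Or.inl e3))) (e1 (mem_zpowers x))
    obtain ⟨j, hj, e⟩ := (Nat.dvd_prime_pow Nat.prime_two).1 o4
    rw [e, Nat.pow_le_pow_iff_right (by norm_num)] at c
    obtain rfl : j = 2 := by omega
    obtain rfl : d = 1 := by omega
    exact le_cen_symm (h.min _ (lt_of_le_of_ne (zpowers_le.2 hx) fun e => nc (e ▸ inferInstance))
      (hinv _ (zpowers_le.2 (lM hx)) (Or.inr ⟨rfl, by rw [Nat.card_zpowers, e]; rfl⟩))) (mem_zpowers x)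
  obtain ⟨F, f1, f2, f3⟩ := exists_card_eq_pow hP lM (n := d + 1) (hm ▸ Nat.pow_le_pow_right (by norm_num) (by omega))
    (hn ▸ Nat.pow_le_pow_right (by norm_num) hD2)
  have pF := hP.to_le f2
  have mx : ∀ E ≤ F, E.relIndex F = 2 → A ≤ nrm E := fun E e1 e2 => hinv E (e1.trans f2) (Or.inl (by
    have := H2.card_mul_relIndex e1
    rw [e2, f3, pow_succ] at this; omega))
  have nF : A ≤ nrm F := fun a ha => H2.mem_normalizer_of_conj_mem fun x hx => by
    obtain ⟨E, e1, e2, e3, -⟩ := exists_index_p pF (lt_of_le_of_ne (zpowers_le.2 hx) fun e =>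
      nc (by haveI : IsCyclic F := e ▸ inferInstance; exact isCyclic_of_injective (inclusion f1) (inclusion_injective f1)))
    exact e2 (conj_mem (mx E e2 e3) ha (e1 (mem_zpowers x)))
  refine h.nc ((cen_of_comm_le_Phi nF (coprime_of_isPGroup pF co) (le_Phi_of_forall (comm_le_left nF) fun L l1 l2 => ?_)).trans
    (cen_anti f1))
  obtain ⟨E, e1, e2, e3, -⟩ := exists_index_p pF l1
  obtain rfl : E = L := (l2 E e1 e2).resolve_right fun e => by rw [e, relIndex_self] at e3; omega
  refine commutator_le.2 fun x hx a ha => ?_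
  rw [show ⁅x, a⁆ = x * (a * x⁻¹ * a⁻¹) by rw [commutatorElement_def]; group,
    H2.mul_mem_iff_of_relIndex_two e3 hx (conj_mem nF ha (inv_mem hx))]
  exact ⟨fun k => conj_mem (mx E e2 e3) ha (inv_mem k), fun k => by
    simpa [mul_assoc] using conj_mem (mx E e2 e3) (inv_mem ha) (inv_mem k)⟩

end Cfsg.Agent.S3803
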