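import Cfsg.Statements.S3815
import Cfsg.Agent.H1.V2

set_option autoImplicit false
open Cfsg

namespace Cfsg.Agent.S3815

open H7 H1B Subgroup

/-- Let G be a finite group, p a prime and d ∈ G an element of order prime to p. If dg has order prime to p for every element g ∈ G of order prime to p, then d ∈ O_{p'}(G). -/
theorem result {G : Type*} [Group G] [Finite G] {p : ℕ} [Fact p.Prime]
    (d : G) (hd : (orderOf d).Coprime p)
    (h : ∀ g : G, (orderOf g).Coprime p → (orderOf (d * g)).Coprime p) :
    d ∈ Cfsg.pPrimeCore p G := by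
  let M : Submonoid G :=
    { carrier := {d | ∀ g : G, (orderOf g).Coprime p → (orderOf (d * g)).Coprime p}
      mul_mem' := fun ha hb g hg => by rw [mul_assoc]; exact ha _ (hb g hg)
      one_mem' := fun g hg => by rwa [one_mul] }
  let N : Subgroup G := { M with
    inv_mem' := fun {x} hx => (Submonoid.powers_le.2 (show x ∈ M from hx))
      (mem_powers_iff_mem_zpowers.2 (inv_mem (mem_zpowers x))) }
  rw [pPrimeCore_eq]
  refine le_Op' (N := N) le_top (le_nrm_iff_conj.2 fun a _ x hx g hg => ?_)
    (H2.coprime_card_subgroup_iff.2 fun x hx => by simpa using hx 1 (by simp)) h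
  have := hx (a⁻¹ * g * a⁻¹⁻¹) (by rwa [ord_conj])
  rwa [← ord_conj a, show a * (x * (a⁻¹ * g * a⁻¹⁻¹)) * a⁻¹ = a * x * a⁻¹ * g by group] at this

end Cfsg.Agent.S3815
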