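import Cfsg.Statements.S3821
import Cfsg.Agent.H1.V2

set_option autoImplicit false
open Cfsg

namespace Cfsg.Agent.S3821

open H7 H1B Subgroup

/-- Let A be a normal subgroup of the finite group G and H a subgroup of A. Then H is pronormal in G (H and gHg⁻¹ conjugate inside ⟨H, gHg⁻¹⟩ for every g ∈ G) if and only if H is pronormal in A and G = A · N_G(H). -/
theorem result {G : Type*} [Group G] [Finite G] (A H : Subgroup G) [A.Normal] (hHA : H ≤ A) :
    Cfsg.IsPronormal H ↔ (Cfsg.IsPronormal (H.subgroupOf A) ∧ A ⊔ Subgroup.normalizer (H : Set G) = ⊤) := by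
  rw [pronormal_sub hHA]
  refine ⟨fun h => ⟨fun g _ => h g, eq_top_iff.2 fun g _ => ?_⟩, fun ⟨h1, h2⟩ g => ?_⟩
  · obtain ⟨x, hx, e⟩ := h g
    change cj g H = cj x H at e
    rw [← mul_inv_cancel_left x g]
    exact mul_mem_sup (sup_le hHA (cj_le_of_mem_nrm (top_nrm A trivial) hHA) hx)
      (cj_eq_self_iff.1 (by rw [cj_mul, e, H2.cj_inv_cj]))
  · obtain ⟨a, ha, n, hn, rfl⟩ := (mem_sup_nrm' (le_nrm_of_normal _ A)).1 (h2.ge (mem_top g))
    change ∃ x ∈ H ⊔ cj _ H, cj _ H = cj x H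
    rw [cj_mul, cj_of_mem_nrm hn]
    exact h1 a ha

end Cfsg.Agent.S3821
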