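import Cfsg.Statements.S3825
import Cfsg.Agent.H1.V2

set_option autoImplicit false
open Cfsg

namespace Cfsg.Agent.S3825

open H7 H1B Subgroup

/-- Let U be a subgroup of a finite group H and w an involution of H normalizing U and commuting with exactly two elements of U, the identity and y. If V is a non-cyclic elementary abelian 2-subgroup of U containing y which is normal in U and invariant under w, then V is a Sylow 2-subgroup of U, V has order 4, and U/V is abelian. -/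
theorem result {H : Type*} [Group H] [Finite H] (U : Subgroup H) (w : H) (hw : orderOf w = 2)
    (hwU : w ∈ Subgroup.normalizer (U : Set H)) (y : H) (hy : y ≠ 1) (hyU : y ∈ U)
    (hfix : ∀ u ∈ U, w * u * w⁻¹ = u ↔ (u = 1 ∨ u = y))
    (V : Subgroup H) (hVU : V ≤ U) (hVn : (V.subgroupOf U).Normal) (hVw : ∀ v ∈ V, w * v * w⁻¹ ∈ V)
    (hVe : Cfsg.IsElementaryAbelian 2 V) (hVc : ¬ IsCyclic ↥V) (hyV : y ∈ V) :
    ¬ 2 ∣ V.relIndex U ∧ Nat.card ↥V = 4 ∧ ⁅U, U⁆ ≤ V := by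
  have hn := (normal_subgroupOf_iff' hVU).1 hVn
  have hw2 := (ord2.1 hw).1
  have hwV : w ∈ nrm V := mem_nrm_of_cj_le (H2.cj_le_iff.2 hVw)
  have hc : ∀ u : H, w * (u⁻¹ * (w * u * w⁻¹)) * w⁻¹ = (u⁻¹ * (w * u * w⁻¹))⁻¹ := fun u => by
    rw [inv_eq_of_mul_self hw2]
    simp [mul_assoc, ← mul_assoc w w, hw2, inv_eq_of_mul_self hw2]
  have hi : ∀ v ∈ V, v⁻¹ = v := fun v hv => inv_eq_of_mul_self (pow_two v ▸ hVe.2 v hv)
  have h1 : ∀ u : H, u⁻¹ * (w * u * w⁻¹) ∈ V → u⁻¹ * (w * u * w⁻¹) = 1 ∨ u⁻¹ * (w * u * w⁻¹) = y :=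
    fun u hu => (hfix _ (hVU hu)).1 ((hc u).trans (hi _ hu))
  have h2 : ∀ u ∈ U, u⁻¹ * (w * u * w⁻¹) = 1 → u ∈ zpowers y := fun u hu h => by
    rcases (hfix u hu).1 (inv_mul_eq_one.1 h).symm with rfl | rfl
    exacts [one_mem _, mem_zpowers _]
  have h3 : ∀ u ∈ U, ∀ v ∈ U, u⁻¹ * (w * u * w⁻¹) = v⁻¹ * (w * v * w⁻¹) → v * u⁻¹ ∈ zpowers y :=
    fun u hu v hv h => h2 _ (mul_mem hv (inv_mem hu)) (by
      calc _ = u * (v⁻¹ * (w * v * w⁻¹)) * (w * u * w⁻¹)⁻¹ := by group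
        _ = 1 := by rw [← h]; group)
  obtain ⟨v, hv, hvy⟩ : ∃ v ∈ V, v ∉ zpowers y := by
    by_contra h
    push Not at h
    exact hVc (cyc_of_le h (H7.cyc_zpowers y))
  have hv1 : v⁻¹ * (w * v * w⁻¹) = y :=
    (h1 v (mul_mem (inv_mem hv) (hVw v hv))).resolve_left fun h => hvy (h2 v (hVU hv) h)
  have h4 : ∀ u ∈ U, u⁻¹ * (w * u * w⁻¹) ∈ V → u ∈ zpowers y ⊔ zpowers v := fun u hu h => by
    rcases h1 u h with e | e
    · exact mem_sup_left (h2 u hu e)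
    · rw [← inv_mul_cancel_right u v]
      exact mul_mem_sup (h3 v (hVU hv) u hu (hv1.trans e.symm)) (mem_zpowers v)
  have h5 : zpowers y ⊔ zpowers v ≤ V := sup_le (zpowers_le.2 hyV) (zpowers_le.2 hv)
  obtain ⟨h6, h7⟩ := ea_of_fpf_inv (t := ev (qm V) w) (K := im (qm V) U)
    (by rw [← ev_mul hwV hwV, hw2]; simp) (im_le_nrm _ (zpowers_le.2 hwU) (ev_mem_im (mem_zpowers w)))
    (eq_bot_iff.2 fun z ⟨hz, hz'⟩ => by
      obtain ⟨u, hu, rfl⟩ := (mem_im_of_le hn).1 hz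
      refine (ev_eq_one_iff (hn hu)).2 ?_
      simp only [kr_qm]
      refine h5 (h4 u hu ?_)
      have := (ev_eq_iff (f := qm V) (hn hu) (conj_mem (le_nrm_self _) hwV (hn hu))).1
        (by rw [ev_conj hwV (hn hu), ← mem_cen1.1 hz', mul_inv_cancel_right])
      simpa using this)
  refine ⟨?_, ?_, by simpa using (im_le_cen_iff hn hn).1 (isComm_iff.1 h6)⟩
  · rw [card_im hn] at h7
    simpa [← even_iff_two_dvd] using h7
  · have e : V = zpowers y ⊔ zpowers v :=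
      le_antisymm (fun u hu => h4 u (hVU hu) (mul_mem (inv_mem hu) (hVw u hu))) h5
    have o1 : orderOf y = 2 := EA.orderOf hVe hyV hy
    have o2 : orderOf v = 2 := EA.orderOf hVe hv (by rintro rfl; exact hvy (one_mem _))
    rw [e, card_sup_of_inf_eq_bot ((zpowers_le.2 hyV).trans (EA.le_nrm hVe (zpowers_le.2 hv))),
      Nat.card_zpowers, Nat.card_zpowers, o1, o2]
    rw [inf_comm]
    exact inf_eq_bot_of_card_p ((Nat.card_zpowers v).trans o2) fun h => hvy (h (mem_zpowers v))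

end Cfsg.Agent.S3825
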