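import Cfsg.Statements.S3838
import Cfsg.Agent.H1.V3

set_option autoImplicit false
open Cfsg

namespace Cfsg.Agent.S3838

open H7 H1B Subgroup
open scoped commutatorElement

/-- Let G be a finite group with Sylow p-subgroup P such that N_G(P) has a normal p-complement. Then N_G(Q) has a normal p-complement for every subgroup Q with [P, P] ≤ Q ≤ Φ(P). -/
theorem result {G : Type*} [Group G] [Finite G] {p : ℕ} [Fact p.Prime] (P : Sylow p G) (hN : Cfsg.HasNormalPComplement p ↥(Subgroup.normalizer ((P : Subgroup G) : Set G))) (Q : Subgroup G) (h1 : (commutator ↥(P : Subgroup G)).map (P : Subgroup G).subtype ≤ Q) (h2 : Q ≤ (frattini ↥(P : Subgroup G)).map (P : Subgroup G).subtype) : Cfsg.HasNormalPComplement p ↥(Subgroup.normalizer (Q : Set G)) := by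
  rw [map_subtype_commutator] at h1
  rw [← Phi_def] at h2
  have h3 : (P : Subgroup G) ≤ nrm Q := le_nrm_of_comm_le' (h2.trans (Phi_le _)) h1
  have hP := (syl_top P).mono h3 le_top
  have k : kr (qm Q) ≤ P := by rw [kr_qm]; exact h2.trans (Phi_le _)
  have h4 : NPC p (im (qm Q) (nrm Q) ⊓ nrm (im (qm Q) P)) := by
    rw [← im_nrm_inf le_rfl h3 k]; exact ((npc_iff.1 hN).of_le inf_le_right).im inf_le_left
  have hP' := syl_im hP le_rfl (qm Q)
  have h5 : NPC p (im (qm Q) (nrm Q)) := npc_burnside hP' (by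
    rw [← (hP'.mono (le_inf hP'.le (le_nrm_self _)) inf_le_left).pRes_sup]
    exact sup_le (NPC.cen_of_nrm h4 hP'.isPGroup (le_inf hP'.le (le_nrm_self _)) inf_le_right)
      ((im_le_cen_iff h3 h3).2 (by rwa [kr_qm])))
  refine npc_iff.2 (npc_tate hP (le_trans ?_ h2))
  have := (im_inf_le (qm Q) P (pRes p (nrm Q))).trans (by rw [im_pRes le_rfl, NPC.inf_eq_bot h5 hP'.isPGroup])
  rwa [le_bot_iff, im_eq_bot_iff (inf_le_left.trans h3), kr_qm] at this

end Cfsg.Agent.S3838
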