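import Cfsg.Statements.S3839
import Cfsg.Agent.H7.Tk7

set_option autoImplicit false
open Cfsg

namespace Cfsg.Agent.S3839
open H7
open scoped commutatorElement

/-- A Frobenius normal p-complement criterion relative to a strongly closed subgroup. Let G be a finite group, S a Sylow p-subgroup and D a subgroup of S strongly closed in S with respect to G. Then G has a normal p-complement if and only if N_G(U) has a normal p-complement for every subgroup U of D with C_D(U) ≤ U. -/
theorem result {G : Type*} [Group G] [Finite G] {p : ℕ} [Fact p.Prime] (S : Sylow p G) (D : Subgroup G) (hD : Cfsg.IsStronglyClosed D (S : Subgroup G)) : Cfsg.HasNormalPComplement p G ↔ ∀ U : Subgroup G, U ≤ D → D ⊓ Subgroup.centralizer (U : Set G) ≤ U → Cfsg.HasNormalPComplement p ↥(Subgroup.normalizer (U : Set G)) := by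
  open Subgroup in
  have hP := H2.sylow_isSylowIn_top S
  refine ⟨fun h U _ _ => npc_iff.2 ((npc_top_iff.1 h).of_le le_top), fun h => ?_⟩
  have nD : (S : Subgroup G) ≤ normalizer (D : Set G) := le_nrm_iff_conj.2 fun s hs x hx =>
    hD.2 x hx s (conj_mem (le_nrm_self _) hs (hD.1 hx))
  have b : ∀ E, AG p S E → ∀ x ∈ normalizer (E : Set G), ∃ u ∈ S, ∀ a ∈ E, x⁻¹ * a * x = u⁻¹ * a * u := by
    intro E hE x hx
    have pE := hP.isPGroup.to_le hE.le
    have nU : normalizer (E : Set G) ≤ normalizer ((E ⊓ D : Subgroup G) : Set G) := le_nrm_iff_conj.2 fun s hs x hx =>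
      ⟨nconj_mem hs hx.1, hD.2 x hx.2 s (hE.le (nconj_mem hs hx.1))⟩
    have k : D ⊓ centralizer ((E ⊓ D : Subgroup G) : Set G) ≤ E := by
      have nE : E ≤ normalizer ((E ⊓ D : Subgroup G) : Set G) := (le_nrm_self E).trans nU
      set U := E ⊓ D
      have k2 : D ⊓ centralizer (U : Set G) ⊓ normalizer (E : Set G) ≤ E := by
        set K := normalizer (E : Set G) ⊓ (cmod U E ⊓ centralizer (U : Set G))
        have l : D ⊓ centralizer (U : Set G) ⊓ normalizer (E : Set G) ≤ K := le_inf inf_le_right (le_inf (le_cmod.2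
          ⟨inf_le_right.trans nU, le_inf (comm_le_right inf_le_right) ((commutator_comm _ _).le.trans (comm_le_of_le_nrm
            (inf_le_left.trans inf_le_left) (hE.le.trans nD)))⟩) (inf_le_left.trans inf_le_right))
        have pX := hP.isPGroup.to_le ((inf_le_left.trans inf_le_left).trans hD.1 :
          D ⊓ centralizer (U : Set G) ⊓ normalizer (E : Set G) ≤ S)
        obtain ⟨T, hT, lT⟩ := H2.exists_isSylowIn_ge pX l
        have r : H2.pRes p K ≤ Op' p (normalizer (E : Set G)) := pRes_le_iff.2 fun y hy c => by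
          have c2 : (Nat.card (zpowers y)).Coprime p := by rwa [card_zpowers_eq]
          refine zpowers_le.1 ((le_inf le_rfl (le_trans (cen_of_chain (N := U) (coprime_of_isPGroup
            (pE.to_le inf_le_left) c2) ?_ (zpowers_le.2 hy.2.2)) hE.cen_le)).trans (inf_Opp_le c2))
          rw [commutator_comm]; exact (le_cmod.1 (zpowers_le.2 hy.2.1)).2
        have e := syl_sup_normal hT (H2.pRes_le K) (piN_relIndex_pRes K)
        have := sup_le_Opp (H := normalizer (E : Set G)) hT.isPGroup (hT.le.trans inf_le_left) (by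
          rw [show T ⊔ Op' p (normalizer (E : Set G)) = K ⊔ Op' p (normalizer (E : Set G)) by
            rw [← e, sup_comm _ T, sup_assoc, sup_eq_right.2 r]]
          exact nrm_sup (nrm_inf (le_nrm_self _) (nrm_inf (nrm_cmod nU le_rfl) (nrm_cen nU))) (le_nrm_Opi _ _))
        exact (syl_of_sup ((le_nrm_self E).trans (le_nrm_Opi _ _)) ((sup_comm _ _).trans hE.sup) (coprime_Op' p _)
          (syl_self pE)).le_of_le_normalizer pX (lT.trans this) inf_le_right
      by_contra k3
      have nW := nrm_inf (hE.le.trans nD) (nrm_cen nE)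
      obtain ⟨y, ⟨y1, y2⟩, y3⟩ := SetLike.exists_of_lt (pgroup_lt_nrm (hP.isPGroup.to_le (sup_le
        (inf_le_left.trans hD.1) hE.le)) (right_lt_sup.2 k3))
      obtain ⟨w, w1, e, e1, rfl⟩ := (mem_sup_nrm' nW).1 y1
      exact y3 (mul_mem (k2 ⟨w1, (Subgroup.mul_mem_cancel_right _ (le_nrm_self E e1)).1 y2⟩) e1)
    have n := (npc_iff.1 (h _ inf_le_right (le_inf k inf_le_left))).of_le nU
    obtain ⟨c, hc, s, hs, rfl⟩ := (H2.autIsP_of_hasNPC_normalizer pE (npc_iff.2 n)).decomp hE.syl hx
    exact ⟨s, hs.1, fun a ha => by rw [mul_inv_rev, mul_assoc, mul_assoc, ← mul_assoc a, hc a ha]; group⟩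
  have k : ∀ Q g, Ch (AG p S) Q g → ∃ u ∈ S, ∀ a ∈ Q, g⁻¹ * a * g = u⁻¹ * a * u := fun Q g h => by
    induction h with
    | nil => exact ⟨1, one_mem _, fun _ _ => rfl⟩
    | @cons Q E x g a l c _ ih =>
      obtain ⟨u, u1, u2⟩ := b E a x c
      obtain ⟨v, v1, v2⟩ := ih
      refine ⟨u * v, mul_mem u1 v1, fun y k => ?_⟩
      have := v2 (x⁻¹ * y * x) (mem_cj_inv.2 (by simpa [mul_assoc] using k))
      calc _ = g⁻¹ * (x⁻¹ * y * x) * g := by group
        _ = _ := by rw [this, u2 y (l k)]; group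
  refine H2.hasNPC_of_controls_fusion S fun x hx g hg => ?_
  obtain ⟨c, hc, w, hw, e⟩ := alperin_ag hP (Q := zpowers x) (g := g⁻¹) (zpowers_le.2 hx)
    (by rw [inv_inv, cj_zpowers]; exact zpowers_le.2 hg)
  obtain ⟨u, u1, u2⟩ := k _ _ hw
  refine ⟨u⁻¹, inv_mem u1, ?_⟩
  rw [inv_inv, ← u2 x (mem_zpowers x), ← inv_inv g, e, inv_inv, mul_assoc (c * w)⁻¹, ← mul_assoc x, hc x (mem_zpowers x)]
  group

end Cfsg.Agent.S3839
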