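import Cfsg.Statements.S3857
import Cfsg.Agent.H7.GK

set_option autoImplicit false
open Cfsg

namespace Cfsg.Agent.S3857
open H7
open scoped commutatorElement

/-- A finite solvable group whose prime graph (prime divisors of the order, two distinct primes joined when there is an element of order their product) is disconnected is a Frobenius group or a 2-Frobenius group (it has normal subgroups H < K with K a Frobenius group with kernel H and G/H a Frobenius group with kernel K/H). -/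
theorem result {G : Type*} [Group G] [Finite G] (hsol : Group.IsSolvable G)
    (hdisc : (∃ A : Set ℕ, (∃ a ∈ A, a.Prime ∧ a ∣ Nat.card G) ∧ (∃ b ∉ A, b.Prime ∧ b ∣ Nat.card G) ∧
      ∀ a ∈ A, ∀ b ∉ A, a.Prime → b.Prime → a ∣ Nat.card G → b ∣ Nat.card G → ¬ ∃ g : G, orderOf g = a * b)) :
    (∃ C : Subgroup G, Cfsg.IsFrobeniusComplement C) ∨
    (∃ (H K : Subgroup G) (_ : H.Normal), K.Normal ∧ H < K ∧
      (∃ C : Subgroup ↥K, Cfsg.IsFrobeniusComplement C ∧ Cfsg.frobeniusKernel C = (H.subgroupOf K : Set ↥K)) ∧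
      (∃ C : Subgroup (G ⧸ H), Cfsg.IsFrobeniusComplement C ∧ Cfsg.frobeniusKernel C = (K.map (QuotientGroup.mk' H) : Set (G ⧸ H)))) := by
  open Subgroup in
  obtain ⟨A, ⟨a, a1, a2, a3⟩, ⟨b, b1, b2, b3⟩, h⟩ := hdisc
  have hs : Group.IsSolvable (⊤ : Subgroup G) := inferInstance
  have key : ∀ π : Set ℕ, NoE G π → (∃ b ∉ π, b.Prime ∧ b ∣ Nat.card G) → Opi π (⊤ : Subgroup G) ≠ ⊥ →
      (∃ H B : Subgroup G, Reg H B ∧ H.Normal ∧ B ⊔ H = ⊤ ∧ H ≠ ⊥ ∧ B ≠ ⊥) ∨ ∃ H B C : Subgroup G, F2 H B C :=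
    fun π k ⟨b, b1, b2, b3⟩ n => k.F2 hs n fun e => by
      have := piN_Opi π (⊤ : Subgroup G)
      rw [e, card_top] at this
      exact b1 (this b b2 b3)
  have : (∃ H B : Subgroup G, Reg H B ∧ H.Normal ∧ B ⊔ H = ⊤ ∧ H ≠ ⊥ ∧ B ≠ ⊥) ∨ ∃ H B C : Subgroup G, F2 H B C := by
    by_cases e : Opi A (⊤ : Subgroup G) = ⊥
    · refine key Aᶜ (NoE.compl h) ⟨a, not_not.2 a1, a2, a3⟩ fun k => ?_
      refine Fit_ne_bot hs (ne_bot_of_dvd a2 (card_top (G := G) ▸ a3)) (eq_bot_iff.2 ((Fit_le_sup A _).trans ?_))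
      rw [e, k, sup_bot_eq]
    exact key A h ⟨b, b1, b2, b3⟩ e
  rcases this with ⟨H, B, r, n, s, h1, h2⟩ | ⟨H, B, C, k⟩
  · exact Or.inl ⟨B, (frob_top r n s h1 h2).1⟩
  haveI := k.n1
  refine Or.inr ⟨H, B ⊔ H, k.n1, normal_iff_top_le_nrm.2 (k.sup' ▸ sup_le k.nK (le_nrm_self _)),
    lt_of_le_of_ne le_sup_right fun e => k.b1 ?_, ⟨_, frob_sub k.r1 k.nH rfl k.h1 k.b1⟩, ⟨_, k.quot⟩⟩
  exact eq_bot_of_le (le_inf (le_sup_left.trans e.ge) le_rfl) k.r1.inf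

end Cfsg.Agent.S3857
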