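import Cfsg.Statements.S3858
import Cfsg.Agent.H1.V2

set_option autoImplicit false
open Cfsg

namespace Cfsg.Agent.S3858

open H7 H1B Subgroup

/-- Let G be a finite group with a normal non-abelian simple subgroup T whose centralizer is trivial (G almost simple with socle T), r a prime and R a Sylow r-subgroup of G meeting T nontrivially. Then R lies in exactly one maximal subgroup of G if and only if G has exactly one conjugacy class of maximal subgroups whose index is prime to r. -/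
theorem result {G : Type*} [Group G] [Finite G] (T : Subgroup G) [T.Normal] (hT : IsSimpleGroup T) (hna : ¬ IsMulCommutative T)
    (hC : Subgroup.centralizer (T : Set G) = ⊥) {r : ℕ} [Fact r.Prime] (R : Sylow r G) (hR0 : (R : Subgroup G) ⊓ T ≠ ⊥) :
    (∃! M : Subgroup G, IsCoatom M ∧ (R : Subgroup G) ≤ M) ↔
      ((∃ M : Subgroup G, IsCoatom M ∧ ¬ r ∣ M.index) ∧
        ∀ M₁ M₂ : Subgroup G, IsCoatom M₁ → ¬ r ∣ M₁.index → IsCoatom M₂ → ¬ r ∣ M₂.index → ∃ g : G, M₂ = M₁.map (MulAut.conj g).toMonoidHom) := by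
  have hR := syl_top R
  have k1 : ∀ M : Subgroup G, ¬ r ∣ M.index → ∃ g, (R : Subgroup G) ≤ cj g M := fun M hM => by
    obtain ⟨S, hS⟩ := exists_syl r M
    obtain ⟨g, -, e⟩ := (hS.trans le_top (by rwa [relIndex_top_right])).exists_cj_eq hR
    exact ⟨g, e ▸ H7.cj_mono g hS.le⟩
  have k2 : ∀ (M : Subgroup G) g, IsCoatom M → IsCoatom (cj g M) := fun M g h =>
    (OrderIso.isCoatom_iff (MulAut.conj g).mapSubgroup M).2 h
  have k3 : ∀ M : Subgroup G, (R : Subgroup G) ≤ M → ¬ r ∣ M.index := fun M hM h =>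
    R.not_dvd_index (h.trans (index_dvd_of_le hM))
  have k4 : nrm (R : Subgroup G) ≠ ⊤ := fun h => by
    have h1 : T ≤ nrm ((R : Subgroup G) ⊓ T) := nrm_inf (h ▸ le_top) (le_nrm_self _)
    rcases (normal_subgroupOf h1).eq_bot_or_eq_top with e | e
    · exact hR0 (by rwa [subgroupOf_eq_bot, disjoint_iff, inf_assoc, inf_idem] at e)
    · have h2 : IsPGroup r T := R.isPGroup'.to_le ((subgroupOf_eq_top.1 e).trans inf_le_left)
      exact not_npc_of_simple hna (dvd_card_of_isPGroup h2 fun e => hna (e ▸ isComm_bot))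
        (npc_of_pgroup (pg_top h2))
  constructor
  · rintro ⟨M, ⟨h1, h2⟩, h3⟩
    refine ⟨⟨M, h1, k3 M h2⟩, fun M₁ M₂ a1 a2 b1 b2 => ?_⟩
    obtain ⟨g, hg⟩ := k1 M₁ a2
    obtain ⟨k, hk⟩ := k1 M₂ b2
    refine ⟨k⁻¹ * g, ?_⟩
    change M₂ = cj _ M₁
    rw [cj_mul, h3 _ ⟨k2 _ g a1, hg⟩, ← h3 _ ⟨k2 _ k b1, hk⟩, H2.cj_inv_cj]
  · rintro ⟨-, h⟩
    obtain ⟨M, hM, hM'⟩ := (eq_top_or_exists_le_coatom _).resolve_left k4
    refine ⟨M, ⟨hM, (le_nrm_self _).trans hM'⟩, fun L ⟨h1, h2⟩ => ?_⟩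
    have h0 := (le_nrm_self _).trans hM'
    obtain ⟨g, e⟩ := h M L hM (k3 M h0) h1 (k3 L h2)
    change L = cj g M at e
    obtain ⟨m, hm, e'⟩ := (hR.mono h0 le_top).exists_cj_le (H2.isPGroup_cj g⁻¹ R.isPGroup')
      (H7.cj_le_iff.2 (by rwa [inv_inv, ← e]))
    rw [← cj_mul] at e'
    have h4 := (mul_mem_cancel_left hm).1 (hM' (mem_nrm_of_cj_le e'))
    rw [e, cj_of_mem (inv_mem_iff.1 h4)]

end Cfsg.Agent.S3858
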