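import Cfsg.Statements.S3859
import Cfsg.Agent.H1.V2

set_option autoImplicit false
open Cfsg

namespace Cfsg.Agent.S3859

open H7 H1B Subgroup

/-- Let G be a finite group with a normal non-abelian simple subgroup T whose centralizer is trivial (G almost simple with socle T), r a prime and R a Sylow r-subgroup of G meeting T nontrivially. If R lies in exactly one maximal subgroup of G, then G/T is an r-group. -/
theorem result {G : Type*} [Group G] [Finite G] (T : Subgroup G) [T.Normal] (hT : IsSimpleGroup T) (hna : ¬ IsMulCommutative T)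
    (hC : Subgroup.centralizer (T : Set G) = ⊥) {r : ℕ} [Fact r.Prime] (R : Sylow r G) (hR0 : (R : Subgroup G) ⊓ T ≠ ⊥)
    (huniq : ∃! M : Subgroup G, IsCoatom M ∧ (R : Subgroup G) ≤ M) : IsPGroup r (G ⧸ T) := by
  obtain ⟨M, -, h3⟩ := huniq
  have hR := syl_top R
  have k : ∀ L : Subgroup G, L ≠ ⊤ → (R : Subgroup G) ≤ L → L ≤ M := fun L h1 h2 => by
    obtain ⟨K, hK, hK'⟩ := (eq_top_or_exists_le_coatom _).resolve_left h1
    exact h3 K ⟨hK, h2.trans hK'⟩ ▸ hK'
  have h0 : (R : Subgroup G) ⊔ T = ⊤ := by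
    by_contra h
    obtain ⟨K, hK, hK'⟩ := (eq_top_or_exists_le_coatom _).resolve_left h
    have e := h3 K ⟨hK, le_sup_left.trans hK'⟩
    have h1 := syl_frattini (syl_inf hR le_top (le_nrm_of_normal _ T)) le_top (top_nrm T)
    refine hK.1 (eq_top_iff.2 (h1.ge.trans (sup_le (inf_le_right.trans (e ▸ k _ (fun h => ?_)
      (nrm_inf (le_nrm_self _) (le_nrm_of_normal _ T)))) (le_sup_right.trans hK'))))
    have h1 : T ≤ nrm ((R : Subgroup G) ⊓ T) := h ▸ le_top
    rcases (normal_subgroupOf h1).eq_bot_or_eq_top with e | e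
    · exact hR0 (by rwa [subgroupOf_eq_bot, disjoint_iff, inf_assoc, inf_idem] at e)
    · have h2 : IsPGroup r T := R.isPGroup'.to_le ((subgroupOf_eq_top.1 e).trans inf_le_left)
      exact not_npc_of_simple hna (dvd_card_of_isPGroup h2 fun e => hna (e ▸ isComm_bot))
        (npc_of_pgroup (pg_top h2))
  have h1 := R.isPGroup'.map (QuotientGroup.mk' T)
  have h2 := congrArg (Subgroup.map (QuotientGroup.mk' T)) h0
  rw [Subgroup.map_sup, QuotientGroup.map_mk'_self, sup_bot_eq,
    map_top_of_surjective _ (QuotientGroup.mk'_surjective T)] at h2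
  exact pg_top_iff.1 (h2 ▸ h1)

end Cfsg.Agent.S3859
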