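import Cfsg.Statements.S3861
import Cfsg.Agent.H1.V3

set_option autoImplicit false
open Cfsg

namespace Cfsg.Agent.S3861

open H7 H1B Subgroup

/-- A finite group G has no non-identity element of odd order that is conjugate to its inverse if and only if the Sylow 2-subgroups of G are normal. -/
theorem result {G : Type*} [Group G] [Finite G] (P : Sylow 2 G) : (∀ x : G, x ≠ 1 → Odd (orderOf x) → ¬ IsConj x x⁻¹) ↔ (P : Subgroup G).Normal := by
  refine ⟨fun h => normal_of_no_real P fun x h1 h2 s e => h x (fun c => ?_) (h1.odd_of_ne_two h2)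
    (isConj_iff.2 ⟨s, e⟩), fun hP x h1 ho c => ?_⟩
  · rw [c, orderOf_one] at h1; exact Nat.not_prime_one h1
  obtain ⟨t, e⟩ := isConj_iff.1 c
  obtain ⟨s, -, h2, e2⟩ := exists_two_inverts e
  have h3 : s ∈ (P : Subgroup G) := (syl_top P).le_of_le_normalizer h2 le_top
    (le_nrm_of_normal _ _) (mem_zpowers s)
  have h4 : x * x ∈ (P : Subgroup G) ⊓ zpowers x := ⟨by
    have := (P : Subgroup G).mul_mem (hP.conj_mem s h3 x) (inv_mem h3)
    rw [show x * s * x⁻¹ * s⁻¹ = x * (s * x * s⁻¹)⁻¹ by group, e2, inv_inv] at this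
    exact this, (zpowers x).mul_mem (mem_zpowers x) (mem_zpowers x)⟩
  rw [inf_eq_bot_of_isPGroup P.isPGroup' (by rw [card_zpowers_eq]; exact odd_iff_coprime.1 ho), mem_bot] at h4
  exact ne_inv_of_odd h1 ho (mul_eq_one_iff_eq_inv.1 h4)

end Cfsg.Agent.S3861
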