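import Cfsg.Statements.S3862
import Cfsg.Agent.H1.V3

set_option autoImplicit false
open Cfsg

namespace Cfsg.Agent.S3862

open H7 H1B Subgroup

/-- If every 2-element of the finite group G that is conjugate to its inverse lies in the centre of G, then G has a normal 2-complement. -/
theorem result {G : Type*} [Group G] [Finite G] (h : ∀ x : G, (∃ j : ℕ, orderOf x = 2 ^ j) → IsConj x x⁻¹ → x ∈ Subgroup.center G) : Cfsg.HasNormalPComplement 2 G := by
  refine npc_top_iff.2 (npc_frob fun Q _ hQ x _ hx hc => ?_)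
  refine cen_of_real_two hQ (zpowers_le.2 hx) (by rwa [card_zpowers_eq]) (fun y hy _ s _ e => ?_) (mem_zpowers x)
  exact cen_anti le_top (cen_top.ge (h y (ord_of_pg (hQ.to_le (zpowers_le.2 hy))) (isConj_iff.2 ⟨s, e⟩)))

end Cfsg.Agent.S3862
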