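import Cfsg.Statements.S3864
import Cfsg.Agent.H1.Two4

set_option autoImplicit false
open Cfsg

namespace Cfsg.Agent.S3864

open H7 H1B Subgroup

/-- Let G be a finite group whose Sylow 2-subgroups are dihedral of order 2 ^ n with n ≥ 3, and count the conjugacy classes of involutions of G. Then exactly one of the following holds: there is one class of involutions and no normal subgroup of index 2; there are two classes of involutions, a normal subgroup of index 2 and none of index 4; there are three classes of involutions and G has a normal 2-complement. -/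
theorem result {G : Type*} [Group G] [Finite G] (P : Sylow 2 G) (n : ℕ) (hn : 3 ≤ n) (hdih : Nonempty (↥(P : Subgroup G) ≃* DihedralGroup (2 ^ (n - 1)))) : (Nat.card {C : ConjClasses G // ∃ g : G, ConjClasses.mk g = C ∧ orderOf g = 2} = 1 ∧ ∀ N : Subgroup G, N.Normal → N.index ≠ 2) ∨ (Nat.card {C : ConjClasses G // ∃ g : G, ConjClasses.mk g = C ∧ orderOf g = 2} = 2 ∧ (∃ N : Subgroup G, N.Normal ∧ N.index = 2) ∧ ∀ N : Subgroup G, N.Normal → N.index ≠ 4) ∨ (Nat.card {C : ConjClasses G // ∃ g : G, ConjClasses.mk g = C ∧ orderOf g = 2} = 3 ∧ Cfsg.HasNormalPComplement 2 G) := by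
  obtain ⟨m, rfl⟩ := Nat.exists_eq_add_of_le' hn
  obtain ⟨e⟩ := hdih
  obtain ⟨a, h⟩ := mx_of_dih (n := m) e
  have s := syl_top P
  have c : Nat.card {C : ConjClasses G // ∃ g : G, ConjClasses.mk g = C ∧ orderOf g = 2} =
      Nat.card (Cls G 2) := by simp only [Cls, and_comm]
  rw [c]
  rcases Dih.cases h s with ⟨h1, h2⟩ | ⟨h1, h2, -⟩ | ⟨h1, h2, -⟩
  · exact .inl ⟨cls1 h.1.z_ord h2, fun N _ => H2.pResidual_two_eq_top_iff.1 h1 N⟩
  · refine .inr (.inl ⟨h2, ⟨_, inferInstance, h1⟩, fun N _ h4 => ?_⟩)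
    have := index_dvd_of_normal (p := 2) (k := 2) h4
    rw [h4, h1] at this; omega
  · exact .inr (.inr ⟨h2, h1⟩)

end Cfsg.Agent.S3864
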