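import Cfsg.Statements.S3866
import Cfsg.Agent.H1.V2

set_option autoImplicit false
open Cfsg

namespace Cfsg.Agent.S3866

open H7 H1B Subgroup
open scoped commutatorElement

/-- Let A be a commutative normal subgroup of the finite group G with G generated by A and an element x. Then a ↦ x a x⁻¹ a⁻¹ is a surjective homomorphism from A onto the commutator subgroup of G whose kernel is the centralizer of x in A; in particular the commutator subgroup has order equal to the index in A of that centralizer. -/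
theorem result {G : Type*} [Group G] [Finite G] (A : Subgroup G) [A.Normal] (hA : IsMulCommutative A) (x : G) (hgen : A ⊔ Subgroup.zpowers x = ⊤) : (∀ a ∈ A, x * a * x⁻¹ * a⁻¹ ∈ commutator G) ∧ (∀ c ∈ commutator G, ∃ a ∈ A, x * a * x⁻¹ * a⁻¹ = c) ∧ (∀ a ∈ A, ∀ b ∈ A, x * (a * b) * x⁻¹ * (a * b)⁻¹ = (x * a * x⁻¹ * a⁻¹) * (x * b * x⁻¹ * b⁻¹)) ∧ Nat.card (commutator G) * Nat.card ↥(A ⊓ Subgroup.centralizer ({x} : Set G)) = Nat.card A := by
  have hn : A.Normal := inferInstance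
  have h1 : ∀ a ∈ A, ∀ b ∈ A, x * (a * b) * x⁻¹ * (a * b)⁻¹ = (x * a * x⁻¹ * a⁻¹) * (x * b * x⁻¹ * b⁻¹) := by
    intro a ha b hb
    have := isComm_iff'.1 hA _ (inv_mem ha) _ (mul_mem (hn.conj_mem b hb x) (inv_mem hb))
    rw [mul_assoc (x * a * x⁻¹), this]
    group
  let φ : A →* G := MonoidHom.mk' (fun a => x * a * x⁻¹ * (a : G)⁻¹) fun a b => h1 a a.2 b b.2
  have h2 : φ.range ≤ A := by
    rintro _ ⟨a, rfl⟩
    exact mul_mem (hn.conj_mem a a.2 x) (inv_mem a.2)
  have h3 : A ≤ nrm φ.range := le_nrm_of_le_cen (le_cen_mono (isComm_iff.1 hA) le_rfl h2)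
  have h4 : x ∈ nrm φ.range := mem_nrm_of_cj_le (by
    rintro _ ⟨_, ⟨a, rfl⟩, rfl⟩
    exact ⟨⟨_, hn.conj_mem a a.2 x⟩, by simp [φ, mul_assoc]⟩)
  have e : commutator G = φ.range := by
    refine le_antisymm ?_ ?_
    · rw [← der_top_eq, ← hgen]
      exact comm_sup_zpowers_le hA h3 h4 (comm_zpowers_le h4 fun c hc => ⟨⟨c, hc⟩, rfl⟩)
    · rintro _ ⟨a, rfl⟩
      exact commutator_mem_commutator (mem_top x) (mem_top (a : G))
  refine ⟨fun a _ => commutator_mem_commutator (mem_top x) (mem_top a), fun c hc => ?_, h1, ?_⟩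
  · obtain ⟨a, rfl⟩ := e.le hc
    exact ⟨a, a.2, rfl⟩
  · have h5 : φ.ker = (A ⊓ cen1 x).subgroupOf A := by
      ext a
      rw [MonoidHom.mem_ker, mem_subgroupOf, mem_inf, mem_cen1, and_iff_right a.2]
      exact (commutatorElement_eq_one_iff_mul_comm (g₁ := x) (g₂ := a)).trans eq_comm
    rw [e, ← index_ker, ← card_subgroupOf_of_le (inf_le_left : A ⊓ cen1 x ≤ A), ← h5, index_mul_card]

end Cfsg.Agent.S3866
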