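import Cfsg.Statements.S3867
import Cfsg.Agent.H1.V2

set_option autoImplicit false
open Cfsg

namespace Cfsg.Agent.S3867

open H7 H1B Subgroup

/-- Let M and N be nontrivial normal subgroups of the finite group G with M ⊓ N trivial, and let p be a prime. Writing n(X) for the number of Sylow p-subgroups of a group X, one has n(G) · n(G/MN) = n(G/M) · n(G/N). -/
theorem result {G : Type*} [Group G] [Finite G] (p : ℕ) [Fact p.Prime] (M N : Subgroup G) [M.Normal] [N.Normal] (hM : M ≠ ⊥) (hN : N ≠ ⊥) (hMN : M ⊓ N = ⊥) : Nat.card (Sylow p G) * Nat.card (Sylow p (G ⧸ (M ⊔ N))) = Nat.card (Sylow p (G ⧸ M)) * Nat.card (Sylow p (G ⧸ N)) := by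
  obtain ⟨P⟩ := (inferInstance : Nonempty (Sylow p G))
  rw [index_nrm_map _ P, index_nrm_map _ P, index_nrm_map _ P, Sylow.card_eq_index_normalizer P, ← Sylow.coe_coe]
  set L := nrm (P : Subgroup G) with hL
  have h1 : ((P : Subgroup G) ⊔ M) ⊓ (P ⊔ N) = P := by
    rw [modular (le_nrm_of_normal _ M) le_sup_left]
    refine (syl_top P).eq_of_le (isPGroup_sup (nrm_inf (le_nrm_of_normal _ M)
      (le_sup_left.trans (le_nrm_self _))) P.isPGroup' ?_) le_sup_left le_top
    refine isPGroup_of_im (f := res (QuotientGroup.mk' N) ⊤) le_top ((isPGroup_im (res (QuotientGroup.mk' N) ⊤) P.isPGroup').to_le ?_) ?_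
    · rw [im_le_im_iff le_top le_top, ker_mk]; exact inf_le_right
    · rw [ker_mk]
      exact IsPGroup.of_bot.to_le (hMN ▸ inf_le_inf_right _ inf_le_left)
  have h2 : (L ⊔ M) ⊓ N = L ⊓ N := by
    refine le_antisymm (le_inf ?_ inf_le_right) (inf_le_inf_right _ le_sup_left)
    rw [hL]
    conv_rhs => rw [← h1]
    refine nrm_inf (inf_le_left.trans (sup_le (nrm_sup le_rfl (le_nrm_of_normal _ _))
      (le_sup_right.trans (le_nrm_self _)))) (inf_le_right.trans (le_sup_right.trans (le_nrm_self _)))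
  have h3 := H7.card_sup_mul_card_inf (le_nrm_of_normal (L ⊔ M) N)
  have h4 := H7.card_sup_mul_card_inf (le_nrm_of_normal L N)
  rw [h2, sup_assoc] at h3
  have h5 : ord L * ord (L ⊔ (M ⊔ N)) = ord (L ⊔ M) * ord (L ⊔ N) :=
    Nat.eq_of_mul_eq_mul_right (card_pos' (L ⊓ N)) (by rw [mul_assoc, h3, mul_assoc, h4]; ring)
  refine Nat.eq_of_mul_eq_mul_right (mul_pos (card_pos' L) (card_pos' (L ⊔ (M ⊔ N)))) ?_
  rw [mul_mul_mul_comm, index_mul_card, index_mul_card, h5, mul_mul_mul_comm, index_mul_card, index_mul_card]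

end Cfsg.Agent.S3867
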