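import Cfsg.Statements.S3878
import Cfsg.Agent.H8.Jordan

set_option autoImplicit false
open Cfsg

namespace Cfsg.Agent.S3878


open Subgroup MulAction Equiv Equiv.Perm
open scoped Pointwise

theorem prim_of_cycle {α : Type} [Fintype α] [DecidableEq α] (H : Subgroup (Perm α))
    [IsPretransitive H α] {p q a b : ℕ} (hp : p.Prime) (hq : q.Prime) (hpq : p ≠ q)
    (hn : Nat.card α = p ^ a) {σ : Perm α} (hσ : σ ∈ H) (hc : σ.IsCycle)
    (hs : σ.support.card = q ^ b) (h : p ^ a < p * q ^ b) : IsPreprimitive H α := by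
  classical
  refine { isTrivialBlock_of_isBlock := fun {B} hB => ?_ }
  by_contra hne
  rw [IsTrivialBlock, not_or] at hne
  obtain ⟨hn1, hn2⟩ := hne
  have hB1 : 1 < B.ncard := (Set.one_lt_ncard_iff_nontrivial).2 (Set.not_subsingleton_iff.1 hn1)
  obtain ⟨y0, hy0⟩ : B.Nonempty := (Set.not_subsingleton_iff.1 hn1).nonempty
  obtain ⟨x, hx, -⟩ := id hc
  obtain ⟨g, hg⟩ := exists_smul_eq H y0 x
  have hC : IsBlock H (g • B) := hB.translate g
  have hxC : x ∈ g • B := ⟨y0, hy0, hg⟩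
  have hcard : (g • B).ncard = B.ncard := Set.ncard_smul_set g B
  have hne2 : g • B ≠ Set.univ := by
    intro e
    apply hn2
    have : B = g⁻¹ • (g • B) := by rw [inv_smul_smul]
    rw [this, e, Set.smul_set_univ]
  set C := g • B with hCd
  have hm := hC.ncard_block_mul_ncard_orbit_eq ⟨x, hxC⟩
  rw [hn] at hm
  obtain ⟨c, -, hc1⟩ := (Nat.dvd_prime_pow hp).1 (Dvd.intro _ hm)
  obtain ⟨d, -, hd1⟩ := (Nat.dvd_prime_pow hp).1 (Dvd.intro_left _ hm)
  have hc0 : c ≠ 0 := by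
    rintro rfl
    rw [pow_zero] at hc1; omega
  have hd0 : d ≠ 0 := by
    rintro rfl
    rw [hd1, pow_zero, mul_one, ← hn] at hm
    exact hne2 (Set.eq_of_subset_of_ncard_le (Set.subset_univ _) (by rw [hm, Set.ncard_univ]))
  have hpc : p ≤ C.ncard := by rw [hc1]; exact Nat.le_self_pow hc0 p
  have hpd : p ≤ (orbit H C).ncard := by rw [hd1]; exact Nat.le_self_pow hd0 p
  have hC_lt : C.ncard < q ^ b := by
    refine Nat.lt_of_mul_lt_mul_left (a := p) (lt_of_le_of_lt ?_ h)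
    rw [← hm, mul_comm]; exact Nat.mul_le_mul_left _ hpd
  have hO_lt : (orbit H C).ncard < q ^ b := by
    refine Nat.lt_of_mul_lt_mul_left (a := p) (lt_of_le_of_lt ?_ h)
    rw [← hm]; exact Nat.mul_le_mul_right _ hpc
  have hord : orderOf σ = q ^ b := by rw [hc.orderOf, hs]
  let s : H := ⟨σ, hσ⟩
  -- pigeonhole
  obtain ⟨m, hm0, hmlt, hmC⟩ : ∃ m, 0 < m ∧ m < q ^ b ∧ s ^ m • C = C := by
    let f : Fin (q ^ b) → orbit H C := fun i => ⟨s ^ (i : ℕ) • C, mem_orbit C _⟩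
    have hlt : Nat.card (orbit H C) < Nat.card (Fin (q ^ b)) := by
      rw [Nat.card_coe_set_eq, Nat.card_eq_fintype_card, Fintype.card_fin]; exact hO_lt
    have hni : ¬ Function.Injective f := fun hi =>
      absurd (Nat.card_le_card_of_injective f hi) (not_le.2 hlt)
    have key : ∀ i j : Fin (q ^ b), i < j → f i = f j → ∃ m, 0 < m ∧ m < q ^ b ∧ s ^ m • C = C := by
      intro i j hij e
      have e' : s ^ (i : ℕ) • C = s ^ (j : ℕ) • C := congrArg Subtype.val e
      have hij' : (i : ℕ) < j := hij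
      refine ⟨j - i, by omega, by have := j.2; omega, ?_⟩
      have : s ^ (j : ℕ) = s ^ (i : ℕ) * s ^ ((j : ℕ) - i) := by rw [← pow_add]; congr 1; omega
      rw [this, mul_smul] at e'
      exact (smul_left_cancel _ e').symm
    simp only [Function.Injective, not_forall] at hni
    obtain ⟨i, j, e, hij⟩ := hni
    rcases lt_or_gt_of_ne hij with h1 | h1
    · exact key i j h1 e
    · exact key j i h1 e.symm
  have hτ1 : σ ^ m ≠ 1 := fun e => by
    have := orderOf_le_of_pow_eq_one hm0 e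
    omega
  have hinv : ∀ y, (σ ^ m) y ∈ C ↔ y ∈ C := by
    intro y
    conv_lhs => rw [← hmC]
    exact Set.smul_mem_smul_set_iff (a := s ^ m)
  haveI : Fact q.Prime := ⟨hq⟩
  obtain ⟨⟨y, hyC⟩, hy⟩ := Equiv.Perm.exists_fixed_point_of_prime (p := q) (n := b)
    (α := C) (σ := (σ ^ m).subtypePerm hinv) (by
      rw [← Nat.card_eq_fintype_card, Nat.card_coe_set_eq, hc1]
      intro hd
      exact hpq ((Nat.prime_dvd_prime_iff_eq hq hp).1 (hq.dvd_of_dvd_pow hd)).symm) (by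
      ext z
      rw [Equiv.Perm.subtypePerm_pow]
      simp only [Equiv.Perm.subtypePerm_apply, Equiv.Perm.coe_one, id]
      rw [← pow_mul, mul_comm, pow_mul, ← hord, pow_orderOf_eq_one, one_pow]; rfl)
  have hy' : (σ ^ m) y = y := congrArg Subtype.val hy
  have hσy : σ y = y := by
    by_contra hne
    exact hτ1 ((hc.pow_eq_one_iff' hne).2 hy')
  have hsC : s • C = C := by
    refine hC.smul_eq_of_mem hyC ?_
    show σ y ∈ C
    rw [hσy]; exact hyC
  have hpow : ∀ i : ℕ, (σ ^ i) x ∈ C := by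
    intro i
    induction i with
    | zero => exact hxC
    | succ i ih =>
      rw [pow_succ', Equiv.Perm.mul_apply, ← hsC]
      exact ⟨_, ih, rfl⟩
  have hsub : (σ.support : Set α) ⊆ C := by
    intro z hz
    obtain ⟨i, rfl⟩ := hc.exists_pow_eq hx (Equiv.Perm.mem_support.1 hz)
    exact hpow i
  have := Set.ncard_le_ncard hsub
  rw [Set.ncard_coe_finset, hs] at this
  omega

theorem exists_cyc_mem {α : Type} [Fintype α] [DecidableEq α] (H : Subgroup (Perm α))
    {s k : ℕ} (hs : s.Prime) (hk : k ≠ 0) (hi : ¬ s ∣ H.index) (hle : s ^ k ≤ Fintype.card α) :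
    ∃ σ ∈ H, σ.IsCycle ∧ σ.support.card = s ^ k := by
  haveI : Fact s.Prime := ⟨hs⟩
  obtain ⟨σ, hσ⟩ := (Equiv.Perm.exists_with_cycleType_iff α (m := {s ^ k})).2
    ⟨by simpa using hle, by
      intro a ha
      rw [Multiset.mem_singleton] at ha
      rw [ha]; exact hs.two_le.trans (Nat.le_self_pow hk s)⟩
  have hc : σ.IsCycle := Equiv.Perm.card_cycleType_eq_one.1 (by rw [hσ]; rfl)
  have hsup : σ.support.card = s ^ k := by rw [← Equiv.Perm.sum_cycleType, hσ]; simp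
  have hP : IsPGroup s (zpowers σ) := IsPGroup.of_card (n := k) (by
    rw [Nat.card_zpowers, hc.orderOf, hsup])
  obtain ⟨x, hx⟩ := hP.nonempty_fixed_point_of_prime_not_dvd_card (Perm α ⧸ H) hi
  induction x using QuotientGroup.induction_on with
  | H g =>
    have h1 : ((σ * g : Perm α) : Perm α ⧸ H) = g := hx ⟨σ, mem_zpowers σ⟩
    have h2 := QuotientGroup.eq.1 h1.symm
    refine ⟨g⁻¹ * σ * g⁻¹⁻¹, by rw [inv_inv, mul_assoc]; exact h2, hc.conj, ?_⟩
    rw [Equiv.Perm.card_support_conj, hsup]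

theorem not_E {π : Set ℕ} {p q r : ℕ} (hp : p.Prime) (hq : q.Prime) (hr : r.Prime) (hpq : q < p)
    (h1 : p ∈ π) (h2 : q ∈ π) (h3 : r ∉ π) :
    ¬ Cfsg.IsEPiGroup π (Perm (Fin (p ^ (2 * r + q + 3)))) := by
  classical
  obtain ⟨a, ha⟩ : ∃ a, a = 2 * r + q + 3 := ⟨_, rfl⟩
  rw [← ha]
  rintro ⟨H, hH1, hH2⟩
  have hn : a < p ^ a := Nat.lt_pow_self hp.one_lt
  have hq2 := hq.two_le
  obtain ⟨τ, hτ, hτc, hτs⟩ := exists_cyc_mem H (k := a) hp (by omega) (hH2 p hp h1) (by simp)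
  haveI : IsPretransitive H (Fin (p ^ a)) := by
    have hu : τ.support = Finset.univ := Finset.eq_univ_of_card _ (by rw [hτs]; simp)
    refine ⟨fun x y => ?_⟩
    obtain ⟨i, hi⟩ := hτc.exists_pow_eq (x := x) (y := y)
      (Equiv.Perm.mem_support.1 (hu ▸ Finset.mem_univ x))
      (Equiv.Perm.mem_support.1 (hu ▸ Finset.mem_univ y))
    exact ⟨⟨τ ^ i, H.pow_mem hτ i⟩, hi⟩
  set b := Nat.log q (p ^ a) with hb
  have hb1 : q ^ b ≤ p ^ a := Nat.pow_log_le_self q (by omega)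
  have hb2 : p ^ a < q ^ (b + 1) := Nat.lt_pow_succ_log_self hq.one_lt _
  have hb0 : b ≠ 0 := by
    intro e
    rw [e, zero_add, pow_one] at hb2; omega
  obtain ⟨σ, hσ, hσc, hσs⟩ := exists_cyc_mem H (k := b) hq hb0 (hH2 q hq h2) (by simpa using hb1)
  have hprim := prim_of_cycle H hp hq hpq.ne' (a := a) (by simp) hσ hσc hσs (by
    refine hb2.trans_le ?_
    rw [pow_succ, mul_comm]
    exact Nat.mul_le_mul_right _ hpq.le)
  obtain ⟨ρ, hρ, hρc, hρs⟩ := exists_cyc_mem H (k := 1) hq one_ne_zero (hH2 q hq h2)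
    (by simp; omega)
  rw [pow_one] at hρs
  have hA := H8.jordan_prime_cycle H hprim hq (by simp; omega) hρc hρs hρ
  apply h3
  apply hH1 r hr
  refine Dvd.dvd.trans ?_ (Subgroup.card_dvd_of_le hA)
  haveI : Nontrivial (Fin (p ^ a)) := Fin.nontrivial_iff_two_le.2 (by omega)
  have h4 := two_mul_nat_card_alternatingGroup (α := Fin (p ^ a))
  rw [Nat.card_perm, Nat.card_eq_fintype_card (α := Fin _), Fintype.card_fin] at h4
  have h5 : 2 * r ∣ (p ^ a).factorial := Nat.dvd_factorial (by have := hr.two_le; omega) (by omega)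
  rw [← h4] at h5
  exact Nat.dvd_of_mul_dvd_mul_left (by norm_num) h5

theorem E_of_D {π : Set ℕ} {G : Type} [Group G] [Finite G] (h : Cfsg.IsDPiGroup π G) :
    Cfsg.IsEPiGroup π G := by
  have h0 : Cfsg.IsPiSubgroup π (⊥ : Subgroup G) := by
    intro p hp hd
    rw [Subgroup.card_bot] at hd
    exact absurd (Nat.dvd_one.1 hd) hp.ne_one
  obtain ⟨H, -, hH⟩ := Finite.exists_le_maximal h0
  refine ⟨H, hH.1, fun s hs hsπ => ?_⟩
  haveI : Fact s.Prime := ⟨hs⟩
  obtain ⟨P⟩ : Nonempty (Sylow s G) := inferInstance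
  have hP : Cfsg.IsPiSubgroup π (P : Subgroup G) := by
    intro p hp hd
    obtain ⟨k, hk⟩ := IsPGroup.iff_card.1 P.isPGroup'
    rw [hk] at hd
    rwa [(Nat.prime_dvd_prime_iff_eq hp hs).1 (hp.dvd_of_dvd_pow hd)]
  obtain ⟨K, hPK, hK⟩ := Finite.exists_le_maximal hP
  obtain ⟨g, hg⟩ := h H K hH hK
  have hi : K.index = H.index := by
    rw [hg]
    exact Subgroup.index_map_of_bijective (MulAut.conj g).bijective H
  rw [← hi]
  exact fun hd => P.not_dvd_index (hd.trans (Subgroup.index_dvd_of_le hPK))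

theorem D_of {π : Set ℕ}
    (h : (∀ p q : ℕ, p.Prime → q.Prime → p ∈ π → q ∈ π → p = q) ∨ ∀ p : ℕ, p.Prime → p ∈ π)
    {G : Type} [Group G] [Finite G] : Cfsg.IsDPiGroup π G := by
  intro H K hH hK
  rcases h with h | h
  · by_cases hex : ∃ p, p.Prime ∧ p ∈ π
    · obtain ⟨p, hp, hpπ⟩ := hex
      haveI : Fact p.Prime := ⟨hp⟩
      have hiff : ∀ L : Subgroup G, Cfsg.IsPiSubgroup π L ↔ IsPGroup p L := by
        intro L
        constructor
        · intro hL
          rw [IsPGroup.iff_card]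
          exact ⟨_, Nat.eq_prime_pow_of_unique_prime_dvd Nat.card_pos.ne'
            (fun {d} hd hdd => h d p hd hp (hL d hd hdd) hpπ)⟩
        · intro hL d hd hdd
          obtain ⟨k, hk⟩ := IsPGroup.iff_card.1 hL
          rw [hk] at hdd
          rwa [(Nat.prime_dvd_prime_iff_eq hd hp).1 (hd.dvd_of_dvd_pow hdd)]
      let P : Sylow p G := ⟨H, (hiff H).1 hH.1, fun {Q} hQ hle =>
        le_antisymm (hH.2 ((hiff Q).2 hQ) hle) hle⟩
      let Q : Sylow p G := ⟨K, (hiff K).1 hK.1, fun {Q} hQ hle =>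
        le_antisymm (hK.2 ((hiff Q).2 hQ) hle) hle⟩
      obtain ⟨g, hg⟩ := exists_smul_eq G P Q
      exact ⟨g, (congrArg (fun S : Sylow p G => (S : Subgroup G)) hg).symm⟩
    · have hb : ∀ L : Subgroup G, Cfsg.IsPiSubgroup π L → L = ⊥ := by
        intro L hL
        rw [← Subgroup.card_eq_one]
        by_contra hne
        exact hex ⟨_, Nat.minFac_prime hne, hL _ (Nat.minFac_prime hne) (Nat.minFac_dvd _)⟩
      refine ⟨1, ?_⟩
      rw [hb H hH.1, hb K hK.1, Subgroup.map_bot]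
  · have ht : Cfsg.IsPiSubgroup π (⊤ : Subgroup G) := fun p hp _ => h p hp
    refine ⟨1, ?_⟩
    rw [top_le_iff.1 (hH.2 ht le_top), top_le_iff.1 (hK.2 ht le_top),
      Subgroup.map_top_of_surjective _ (MulAut.conj (1 : G)).surjective]

theorem of_E {π : Set ℕ} (h : ∀ (G : Type) [Group G] [Finite G], Cfsg.IsEPiGroup π G) :
    (∀ p q : ℕ, p.Prime → q.Prime → p ∈ π → q ∈ π → p = q) ∨ ∀ p : ℕ, p.Prime → p ∈ π := by
  by_contra hne
  rw [not_or] at hne
  obtain ⟨h1, h2⟩ := hne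
  simp only [not_forall] at h1 h2
  obtain ⟨p, q, hp, hq, hpπ, hqπ, hpq⟩ := h1
  obtain ⟨r, hr, hrπ⟩ := h2
  rcases lt_or_gt_of_ne hpq with hlt | hlt
  · exact not_E hq hp hr hlt hqπ hpπ hrπ (h _)
  · exact not_E hp hq hr hlt hpπ hqπ hrπ (h _)

/-- For a set of primes π the following are equivalent: every finite group has a Hall π-subgroup; in every finite group the maximal π-subgroups are pairwise conjugate; π contains at most one prime or contains every prime. -/
theorem result (π : Set ℕ) :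
    ((∀ (G : Type) [Group G] [Finite G], Cfsg.IsEPiGroup π G) ↔
      ((∀ p q : ℕ, p.Prime → q.Prime → p ∈ π → q ∈ π → p = q) ∨ ∀ p : ℕ, p.Prime → p ∈ π)) ∧
    ((∀ (G : Type) [Group G] [Finite G], Cfsg.IsDPiGroup π G) ↔
      ((∀ p q : ℕ, p.Prime → q.Prime → p ∈ π → q ∈ π → p = q) ∨ ∀ p : ℕ, p.Prime → p ∈ π)) := by
  exact ⟨⟨of_E, fun h G _ _ => E_of_D (D_of h)⟩,
    ⟨fun h => of_E fun G _ _ => E_of_D (h G), fun h G _ _ => D_of h⟩⟩

end Cfsg.Agent.S3878
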