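import Cfsg.Statements.S3881
import Cfsg.Agent.H1.MC

set_option autoImplicit false
open Cfsg

namespace Cfsg.Agent.S3881

open H7 H1B Subgroup

/-- Let p be an odd prime and G a finite metacyclic p-group (G has a cyclic normal subgroup with cyclic quotient). Suppose G is non-abelian with |G'| = p^n. Then for 1 ≤ i ≤ n the number of elements of G whose conjugacy class has exactly p^i elements is |Z(G)| · (p^(2i) − p^(2i−2)). -/
theorem result {G : Type*} [Group G] [Finite G] {p : ℕ} [Fact p.Prime] (hp : p ≠ 2) (hG : IsPGroup p G) (hmc : Cfsg.IsMetacyclic G) (n : ℕ) (hn : n ≠ 0) (hGn : Nat.card ↥(commutator G) = p ^ n) (i : ℕ) (hi : 1 ≤ i) (hin : i ≤ n) :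
    Nat.card {g : G // (Subgroup.centralizer ({g} : Set G)).index = p ^ i} =
      Nat.card ↥(Subgroup.center G) * (p ^ (2 * i) - p ^ (2 * i - 2)) := by
  have h := mp_top hp hG hmc
  have hp1 := (Fact.out : p.Prime).one_lt
  have k : ∀ j ≤ n, ord (Ag (p ^ (n - j)) (⊤ : Subgroup G)) = ord (center G) * p ^ (2 * j) := fun j hj => by
    have h1 := card_mul_index (Ag (p ^ (n - j)) (⊤ : Subgroup G))
    have h2 := card_mul_index (center G)
    rw [← relIndex_top_right, h.relIndex_ag hGn (Nat.sub_le _ _)] at h1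
    rw [← relIndex_top_right, ← cen_top, h.relIndex_cen, cen_top, show ord ⁅(⊤ : Subgroup G), ⊤⁆ = p ^ n from hGn,
      ← h1, ← pow_mul, show n * 2 = 2 * j + 2 * (n - j) by omega, pow_add, ← mul_assoc] at h2
    exact (Nat.eq_of_mul_eq_mul_right (pow_pos (by omega) _) h2).symm
  have m : ∀ j ≤ n, ∀ g : G, g ∈ Ag (p ^ (n - j)) (⊤ : Subgroup G) ↔ (cen1 g).index ≤ p ^ j := fun j hj g => by
    rw [h.mem_ag hGn (Nat.sub_le _ _) (mem_top g), relIndex_top_right, Nat.sub_sub_self hj]
  obtain ⟨i, rfl⟩ : ∃ j, i = j + 1 := ⟨i - 1, by omega⟩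
  have e : {g : G | (cen1 g).index = p ^ (i + 1)} = (Ag (p ^ (n - (i + 1))) (⊤ : Subgroup G) : Set G) \
      Ag (p ^ (n - i)) (⊤ : Subgroup G) := Set.ext fun g => by
    obtain ⟨j, hj⟩ := relIndex_pgroup h.pg (cen1 g)
    rw [relIndex_top_right] at hj
    simp only [Set.mem_diff, SetLike.mem_coe, m _ hin, m i (by omega), Set.mem_setOf_eq, hj,
      Nat.pow_le_pow_iff_right hp1, Nat.pow_right_inj hp1]
    omega
  show {g : G | (cen1 g).index = p ^ (i + 1)}.ncard = _
  rw [e, Set.ncard_diff (fun g hg => (m _ hin g).2 (((m i (by omega) g).1 hg).trans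
    (Nat.pow_le_pow_right hp1.le i.le_succ))), Nat.mul_sub]
  exact congrArg₂ _ (k _ hin) (k i (by omega))

end Cfsg.Agent.S3881
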