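import Cfsg.Statements.S3883
import Cfsg.Agent.H1.MC

set_option autoImplicit false
open Cfsg

namespace Cfsg.Agent.S3883

open H7 H1B Subgroup
open scoped commutatorElement

/-- Let p be an odd prime and G a finite metacyclic p-group (G has a cyclic normal subgroup with cyclic quotient). Suppose G is non-abelian. Then an element g of G lies outside the Frattini subgroup if and only if its centralizer C_G(g) is abelian. -/
theorem result {G : Type*} [Group G] [Finite G] {p : ℕ} [Fact p.Prime] (hp : p ≠ 2) (hG : IsPGroup p G) (hmc : Cfsg.IsMetacyclic G) (hna : ¬ IsMulCommutative G) (g : G) :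
    g ∉ frattini G ↔ IsMulCommutative ↥(Subgroup.centralizer ({g} : Set G)) := by
  have h := mp_top hp hG hmc
  have hp1 := (Fact.out : p.Prime).one_lt
  obtain ⟨n, hn⟩ := card_pgroup (hG.to_subgroup ⁅(⊤ : Subgroup G), ⊤⁆)
  rcases n with _ | n
  · exact (hna ⟨⟨fun a b => comm_of_le_cen (comm_eq_bot.1 (card_eq_one.1 hn)) (mem_top a) (mem_top b)⟩⟩).elim
  have e : frattini G = Ag (p ^ 1) ⊤ := by
    rw [← Phi_top, pow_one]
    refine le_antisymm (Phi_le_of_elem Fact.out (fun c hc => ?_) fun x hx => Subgroup.subset_closure ⟨x, hx, rfl⟩)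
      ((closure_le _).2 ?_)
    · exact Subgroup.subset_closure (h.exists_pow hc)
    · rintro _ ⟨y, hy, rfl⟩; exact pow_mem_Phi h.pg hy
  obtain ⟨j, hj⟩ := relIndex_pgroup h.pg (cen1 g)
  rw [e, h.mem_ag hn (by omega) (mem_top g), h.comm_iff le_top, hn, hj, Nat.pow_le_pow_iff_right hp1,
    Nat.pow_le_pow_iff_right hp1]
  omega

end Cfsg.Agent.S3883
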