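import Cfsg.Statements.S3886
import Cfsg.Agent.H1.MC

set_option autoImplicit false
open Cfsg

namespace Cfsg.Agent.S3886

open H7 H1B Subgroup

/-- Let p be an odd prime and G a finite metacyclic p-group (G has a cyclic normal subgroup with cyclic quotient). Then the largest value of |R| · |Z(R)| over subgroups R of G is |G : G'|², and the subgroups attaining it (the centrally large subgroups) are exactly the non-abelian subgroups together with the maximal abelian subgroups of G. -/
theorem result {G : Type*} [Group G] [Finite G] {p : ℕ} [Fact p.Prime] (hp : p ≠ 2) (hG : IsPGroup p G) (hmc : Cfsg.IsMetacyclic G) : Cfsg.maxCentralProduct G = (commutator G).index ^ 2 ∧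
    ∀ R : Subgroup G, Cfsg.IsCentrallyLarge R ↔ (¬ IsMulCommutative ↥R ∨ Maximal (fun K : Subgroup G => IsMulCommutative ↥K) R) := by
  have h := mp_top hp hG hmc
  have c : ∀ R : Subgroup G, ord (center R) = ord (R ⊓ cen R) := fun R => by
    rw [← center_map_subtype, H7.card_map_subtype]
  have e : Cfsg.maxCentralProduct G = relIndex ⁅(⊤ : Subgroup G), (⊤ : Subgroup G)⁆ ⊤ ^ 2 := IsGreatest.csSup_eq
    ⟨⟨⊤, by rw [c]; exact h.cprod_self⟩, by rintro _ ⟨R, rfl⟩; rw [c]; exact h.cprod_le le_top⟩
  refine ⟨by rw [e, relIndex_top_right]; rfl, fun R => ?_⟩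
  rw [Cfsg.IsCentrallyLarge, e, c, h.max_iff]
  by_cases a : IsMulCommutative R
  · rw [inf_eq_left.2 (isComm_iff.1 a), ← pow_two, Nat.pow_left_inj two_ne_zero]
    simp [a]
  simp only [h.cprod le_top a, a, not_false_eq_true, true_or]

end Cfsg.Agent.S3886
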