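import Cfsg.Statements.S3887
import Cfsg.Agent.H1.MC

set_option autoImplicit false
open Cfsg

namespace Cfsg.Agent.S3887

open H7 H1B Subgroup

/-- Let p be an odd prime and G a finite metacyclic p-group (G has a cyclic normal subgroup with cyclic quotient). Then a subgroup R of G maximizes |R| · |C_G(R)| over all subgroups of G if and only if R contains the center of G. -/
theorem result {G : Type*} [Group G] [Finite G] {p : ℕ} [Fact p.Prime] (hp : p ≠ 2) (hG : IsPGroup p G) (hmc : Cfsg.IsMetacyclic G) (R : Subgroup G) : Cfsg.IsCentralizerLarge R ↔ Subgroup.center G ≤ R := by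
  have h := mp_top hp hG hmc
  have e : Cfsg.maxCentralizerProduct G = relIndex ⁅(⊤ : Subgroup G), (⊤ : Subgroup G)⁆ ⊤ ^ 2 := IsGreatest.csSup_eq
    ⟨⟨⊤, by simpa using h.cprod_self⟩, by rintro _ ⟨R, rfl⟩; simpa using h.cprod_le' (K := R) le_top⟩
  rw [Cfsg.IsCentralizerLarge, e, ← top_inf_eq (cen R), ← cen_top]
  refine ⟨fun k => ?_, fun k => le_antisymm (h.cprod_le' le_top) (h.le_cprod le_top (inf_le_right.trans k))⟩
  by_cases a : IsMulCommutative R
  · rw [h.eq_center_cen le_top a k.ge]
    exact le_inf (le_inf le_top (cen_anti le_top)) (cen_anti le_top)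
  exact (le_inf le_top (cen_anti le_top)).trans (h.cen_le le_top a)

end Cfsg.Agent.S3887
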