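import Cfsg.Statements.S3903
import Mathlib
import Cfsg.Agent.H8.MaxNil
import Cfsg.Agent.H7.FTc

set_option autoImplicit false
open Cfsg

namespace Cfsg.Agent.S3903

open H8 H7 Subgroup

/-- Let N be a proper normal subgroup of the finite group G such that every element x of G outside N has prime power order and has centralizer C_G(x) a maximal subgroup of G. Then N is solvable. -/
theorem result {G : Type*} [Group G] [Finite G] (N : Subgroup G) [N.Normal] (hN : N ≠ ⊤)
    (h : ∀ x : G, x ∉ N → IsPrimePow (orderOf x) ∧ IsCoatom (Subgroup.centralizer ({x} : Set G))) : Group.IsSolvable ↥N := by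
  have h1 : ∀ x ∉ N, ∃ p : ℕ, p.Prime ∧ IsPGroup p (cen1 x) := fun x hx => by
    obtain ⟨p, k, hp, hk, e⟩ := (isPrimePow_nat_iff _).1 (h x hx).1
    haveI := Fact.mk hp
    refine ⟨p, hp, IsPGroup.iff_card.2 ⟨_, Nat.eq_prime_pow_of_unique_prime_dvd Nat.card_pos.ne'
      fun {r} hr hd => by_contra fun hrp => ?_⟩⟩
    obtain ⟨y, hy, hy'⟩ := exists_orderOf_eq hr hd
    have hc : Commute x y := (mem_cen1.1 hy).symm
    have hcop : (orderOf x).Coprime (orderOf y) := by
      rw [← e, hy']; exact ((Nat.coprime_primes hp hr).2 (Ne.symm hrp)).pow_left k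
    by_cases hxy : x * y ∈ N
    · refine hx (mem_of_pow_mem' (n := r) ?_ (hy' ▸ hcop.symm))
      simpa [hc.mul_pow, ← hy'] using pow_mem hxy r
    obtain ⟨q, j, hq, -, e'⟩ := (isPrimePow_nat_iff _).1 (h _ hxy).1
    rw [hc.orderOf_mul_eq_mul_orderOf_of_coprime hcop, ← e, hy'] at e'
    exact hrp (((Nat.prime_dvd_prime_iff_eq hr hq).1 (hr.dvd_of_dvd_pow (e' ▸ dvd_mul_left _ _))).trans
      ((Nat.prime_dvd_prime_iff_eq hp hq).1 (hp.dvd_of_dvd_pow
        (e' ▸ (dvd_pow_self p hk.ne').mul_right _))).symm)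
  by_contra hs
  have hG : ¬ Group.IsSolvable G := fun _ => hs inferInstance
  have hT : ¬ Group.IsSolvable (⊤ : Subgroup G) := fun e => hs (solv_of_le le_top e)
  have h2 : ∀ x ∉ N, IsSylowIn 2 (cen1 x) ⊤ := fun x hx => by
    obtain ⟨p, hp, hP⟩ := h1 x hx
    haveI := Fact.mk hp
    by_cases e : p = 2
    · subst e
      obtain ⟨S, hS, hS'⟩ := H2.exists_isSylowIn_ge hP le_top
      rcases (h x hx).2.le_iff.1 hS' with rfl | rfl
      · exact (hT (solv_of_isPGroup hS.isPGroup)).elim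
      · exact hS
    · exact (hG (solv_of_coatom (h x hx).2 (nilp_of_isPGroup hP) (syl_bot_iff.2
        (Nat.prime_two.coprime_iff_not_dvd.1 (coprime_of_isPGroup hP
          ((Nat.coprime_primes Nat.prime_two hp).2 (Ne.symm e))))) isComm_bot)).elim
  obtain ⟨x, hx⟩ : ∃ x, x ∉ N := by
    by_contra hh; push Not at hh; exact hN (eq_top_iff.2 fun x _ => hh x)
  have hP := h2 x hx
  have hm : IsCoatom (cen1 x) := (h x hx).2
  have hxP := self_mem_cen1 x
  have hxc : x ∈ cen (cen1 x) := le_cen1_iff.1 le_rfl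
  generalize cen1 x = P at *
  have h3 : nrm P = P := (hm.le_iff.1 (le_nrm_self P)).resolve_left fun e => by
    obtain ⟨g, -, hg⟩ := SetLike.exists_of_lt (lt_top_iff_ne_top.2 hm.1)
    refine hT (hm.2 (zpowers g ⊔ P) (right_lt_sup.2 (mt zpowers_le.1 hg)) ▸
      solv_sup (e ▸ le_top) (solv_of_comm inferInstance) (solv_of_isPGroup hP.isPGroup))
  have h4 : P ⊔ N = ⊤ := hm.2 _ (left_lt_sup.2 fun e => hs (solv_of_le e (solv_of_isPGroup hP.isPGroup)))
  have hn : ∀ {a b : G}, a ∈ N → b * a * b⁻¹ ∈ N := fun h => Normal.conj_mem inferInstance _ h _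
  have h5 : P ⊓ N ⊓ cen P = P ⊓ N := by
    refine eq_of_le_of_card_le inf_le_left ?_
    let φ : (N ⧸ P.subgroupOf N) × (P ⊓ N ⊓ cen P : Subgroup G) → N := fun u =>
      ⟨x⁻¹ * (u.1.out * (x * u.2) * (u.1.out : G)⁻¹), by
        simpa [mul_assoc] using mul_mem (mul_mem (hn (b := x⁻¹) u.1.out.2) u.2.2.1.2) (inv_mem u.1.out.2)⟩
    have := Nat.card_le_card_of_surjective φ fun w => by
      have hw : x * w ∉ N := fun e => hx ((mul_mem_cancel_right w.2).1 e)
      obtain ⟨g, -, hg⟩ := hP.exists_cj_eq (h2 _ hw)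
      obtain ⟨n, hn', u, hu, rfl⟩ := (H2.mem_sup_of_le_normalizer' (le_nrm_of_normal P N)).1
        ((sup_comm P N ▸ h4) ▸ mem_top g)
      obtain ⟨v, hv⟩ := QuotientGroup.mk_out_eq_mul (P.subgroupOf N) ⟨n, hn'⟩
      have e : cj (n * v) P = cen1 (x * w) := by
        rw [← hg, cj_mul, cj_of_mem (mem_subgroupOf.1 v.2)]
        exact ((cj_mul _ _ _).trans (by rw [cj_of_mem hu])).symm
      have e1 : (n * v)⁻¹ * (x * w) * (n * v) ∈ P := mem_cj.1 (e ▸ self_mem_cen1 _)
      have e2 : (n * v)⁻¹ * (x * w) * (n * v) ∈ cen P := by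
        rw [← mem_cj, cj_cen, e]; exact le_cen1_iff.1 le_rfl
      refine ⟨⟨(⟨n, hn'⟩ : N), x⁻¹ * ((n * v)⁻¹ * (x * w) * (n * v)), ⟨P.mul_mem (P.inv_mem hxP) e1, ?_⟩,
        (cen P).mul_mem ((cen P).inv_mem hxc) e2⟩, Subtype.ext ?_⟩
      · have := mul_mem hn' v.1.2
        simpa [mul_assoc] using mul_mem (mul_mem (hn (b := x⁻¹) (inv_mem this)) w.2) this
      · simp [φ, hv, mul_assoc]
    rw [Nat.card_prod, ← relIndex_mul_card_inf P N] at this
    exact Nat.le_of_mul_le_mul_left this (relIndex_pos P N)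
  have h6 : P ≤ cen (P ⊓ N) := le_cen_symm (h5.ge.trans inf_le_right)
  have h7 : NPC 2 N := npc_burnside (syl_inf hP le_top (le_nrm_of_normal _ _)) (by
    rcases hm.le_iff.1 h6 with e | e
    · exact e ▸ le_top
    · exact inf_le_right.trans ((nrm_cen le_rfl).trans (by rw [e, h3])))
  exact hs (solv_of_piN_relIndex (Opi_le _ _) (le_nrm_Opi _ _) (solv_of_coprime_two (coprime_Op' 2 N))
    h7.relIndex)

end Cfsg.Agent.S3903
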