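import Cfsg.Statements.S3904
import Cfsg.Agent.H1.CM

set_option autoImplicit false
open Cfsg

namespace Cfsg.Agent.S3904

open H7 H1B Subgroup
open H2 (IsSylowIn)

/-- Let G be a non-abelian finite group in which the centralizer of every non-central element is a maximal subgroup. Then G/Z(G) is either an elementary abelian p-group for some prime p, or a minimal non-abelian group (non-abelian with all proper subgroups abelian) of order p^a · q for distinct primes p, q with a normal Sylow p-subgroup. -/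
theorem result {G : Type*} [Group G] [Finite G] (hna : ¬ IsMulCommutative G)
    (h : ∀ x : G, x ∉ Subgroup.center G → IsCoatom (Subgroup.centralizer ({x} : Set G))) :
    (∃ p : ℕ, p.Prime ∧ Cfsg.IsElementaryAbelian p (⊤ : Subgroup (G ⧸ Subgroup.center G))) ∨
    (¬ IsMulCommutative (G ⧸ Subgroup.center G) ∧ (∀ H : Subgroup (G ⧸ Subgroup.center G), H ≠ ⊤ → IsMulCommutative ↥H) ∧
      ∃ p q a : ℕ, p.Prime ∧ q.Prime ∧ p ≠ q ∧ Nat.card (G ⧸ Subgroup.center G) = p ^ a * q ∧
        ∀ P : Subgroup (G ⧸ Subgroup.center G), Nat.card ↥P = p ^ a → P.Normal) := by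
  rcases CMx.main (N := (⊤ : Subgroup G)) (f := (QuotientGroup.mk' (center G)).comp (⊤ : Subgroup G).subtype)
    ((QuotientGroup.mk'_surjective _).comp fun x => ⟨⟨x, mem_top x⟩, rfl⟩) (by
      ext x
      rw [mem_kr, ev_eq (mem_top x), cen_top, top_inf_eq]
      exact ⟨fun a => (QuotientGroup.eq_one_iff _).1 a.2, fun a => ⟨mem_top x, (QuotientGroup.eq_one_iff _).2 a⟩⟩)
    ⟨le_nrm_self _, fun x _ hx => h x (cen_top (G := G) ▸ hx)⟩ with k | ⟨p, q, hp, hq, ne, K, Q, ea, n, K1, oQ, c, f, m⟩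
  · exact .inl k
  haveI := Fact.mk hp
  have pK : IsPGroup p K := isPGroup_iff_mem.2 fun a ha => ⟨1, by rw [pow_one, ea.2 a ha]⟩
  obtain ⟨a, ha⟩ := IsPGroup.iff_card.1 pK
  refine .inr ⟨fun cm => K1 ?_, m rfl, p, q, a, hp, hq, ne, by rw [← c.card_mul, ha, oQ], fun P hP => ?_⟩
  · obtain ⟨x, hx, x1⟩ := exists_ne_one (H := Q) fun e => hq.one_lt.ne' (by rw [← oQ, e, Subgroup.card_bot])
    rw [← f x hx x1]
    exact (inf_eq_left.2 fun g _ => mem_cen1.2 (cm.1.1 _ _)).symm
  · have s : IsSylowIn p K ⊤ := ⟨le_top, pK, by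
      rw [relIndex_top_right, c.symm.index_eq_card, oQ]; exact fun d => ne ((Nat.prime_dvd_prime_iff_eq hp hq).1 d)⟩
    rwa [H7.eq_of_le_of_card_le (s.le_of_le_normalizer (IsPGroup.of_card hP) le_top (le_nrm_of_normal _ _))
      (by rw [ha, hP])]

end Cfsg.Agent.S3904
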