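import Cfsg.Statements.S3905
import Cfsg.Agent.H1.CM
import Cfsg.Agent.H1.Frob

set_option autoImplicit false
open Cfsg

namespace Cfsg.Agent.S3905

open H7 H1B Subgroup

/-- Let N be a normal subgroup of the finite group G such that for every element x of N outside the center of N the centralizer C_G(x) is a maximal subgroup of G. Then N/Z(N) is either an elementary abelian p-group for some prime p, or a Frobenius group whose kernel is an elementary abelian normal subgroup and whose complement has prime order. -/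
theorem result {G : Type*} [Group G] [Finite G] (N : Subgroup G) [N.Normal]
    (h : ∀ x : G, x ∈ N → x ∉ Subgroup.centralizer (N : Set G) → IsCoatom (Subgroup.centralizer ({x} : Set G))) :
    (∃ p : ℕ, p.Prime ∧ Cfsg.IsElementaryAbelian p (⊤ : Subgroup (↥N ⧸ Subgroup.center ↥N))) ∨
    (∃ (Q K : Subgroup (↥N ⧸ Subgroup.center ↥N)) (p : ℕ), p.Prime ∧ Cfsg.IsFrobeniusComplement Q ∧ (Nat.card ↥Q).Prime ∧
      K.Normal ∧ (K : Set (↥N ⧸ Subgroup.center ↥N)) = Cfsg.frobeniusKernel Q ∧ Cfsg.IsElementaryAbelian p K) := by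
  rcases CMx.main (N := N) (QuotientGroup.mk'_surjective (center N)) (by rw [kr_mk', center_map_subtype])
    ⟨le_nrm_of_normal _ _, h⟩ with k | ⟨p, q, hp, hq, -, K, Q, ea, n, K1, oQ, c, f, -⟩
  · exact .inl k
  · have fr := H1.FrobC.of_fpf c K1 (fun e => hq.one_lt.ne' (by rw [← oQ, e, Subgroup.card_bot])) f
    exact .inr ⟨Q, K, p, hp, fr, oQ ▸ hq, n, (H1.FrobC.kernel_eq fr c).symm, ea⟩

end Cfsg.Agent.S3905
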