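import Cfsg.Statements.S3908
import Cfsg.Agent.H7.QC
import Cfsg.Agent.H7.GK
import Cfsg.Agent.H1.Two4

set_option autoImplicit false
open Cfsg

namespace Cfsg.Agent.S3908
open H7
open scoped commutatorElement

section
open Subgroup

theorem key {G : Type*} [Group G] [Finite G] {p : ℕ} [hp : Fact p.Prime] {P : Subgroup G} (hP : IsPGroup p P)
    (hB : ∀ A B : Subgroup G, IsMulCommutative ↥A → IsMulCommutative ↥B → Nat.card ↥A = Nat.card ↥B →
      ∃ g : G, B = A.map (MulAut.conj g).toMonoidHom) : Rk p 1 P ∨ ∀ x ∈ P, x ^ p = 1 := by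
  refine or_iff_not_imp_left.2 fun h x hx => by_contra fun n => ?_
  obtain ⟨E, -, eE, oE⟩ := not_rk_iff'.1 h
  obtain ⟨k, hk⟩ := H2.orderOf_eq_pow_of_mem hP hx
  obtain ⟨y, -, hy⟩ := exists_ord_of_dvd (n := p ^ 2) (g := x) (by
    rw [hk]; exact pow_dvd_pow p (not_lt.1 fun l => n (by
      rw [← orderOf_dvd_iff_pow_eq_one, hk]; exact (pow_dvd_pow p (Nat.le_of_lt_succ l)).trans (pow_one p).dvd)))
  obtain ⟨g, e⟩ := hB E (zpowers y) eE.1 inferInstance (by rw [oE, Nat.card_zpowers, hy])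
  have := orderOf_dvd_of_pow_eq_one ((eE.cj g).pow (e.le (mem_zpowers y)))
  rw [hy] at this
  have := Nat.le_of_dvd hp.out.pos this
  nlinarith [hp.out.two_le]

end

/-- Let G be a finite group in which any two abelian subgroups of the same order are conjugate. Then a Sylow 2-subgroup of G is cyclic, elementary abelian or generalized quaternion, and for an odd prime p a Sylow p-subgroup of G is cyclic or has exponent dividing p. -/
theorem result {G : Type*} [Group G] [Finite G] (hB : ∀ A B : Subgroup G, IsMulCommutative ↥A → IsMulCommutative ↥B → Nat.card ↥A = Nat.card ↥B → ∃ g : G, B = A.map (MulAut.conj g).toMonoidHom) :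
    (∀ P : Sylow 2 G, IsCyclic ↥(P : Subgroup G) ∨ Cfsg.IsElementaryAbelian 2 (P : Subgroup G) ∨ ∃ k : ℕ, Nonempty (↥(P : Subgroup G) ≃* QuaternionGroup (2 ^ k))) ∧
    ∀ (p : ℕ) [Fact p.Prime], p ≠ 2 → ∀ P : Sylow p G, IsCyclic ↥(P : Subgroup G) ∨ ∀ x ∈ (P : Subgroup G), x ^ p = 1 := by
  open Subgroup in
  refine ⟨fun P => ?_, fun p _ h2 P => (key P.2 hB).imp_left (H1B.cyc_iff_rk h2 P.2).2⟩
  rcases key P.2 hB with h | h
  · rcases H1B.cyc_or_quat P.2 h with h | ⟨-, a, n, h, h'⟩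
    · exact Or.inl h
    obtain ⟨b, hb, hba⟩ := h.ex
    exact Or.inr (Or.inr ⟨_, h.quat rfl hb hba (h' b hb hba)⟩)
  refine Or.inr (Or.inl (ea_iff.2 ⟨fun x hx y hy => ?_, h⟩))
  have k : ∀ z ∈ (P : Subgroup G), z⁻¹ = z := fun z hz => inv_eq_of_mul_eq_one_right (by rw [← pow_two, h z hz])
  rw [← k _ (mul_mem hy hx), mul_inv_rev, k x hx, k y hy]

end Cfsg.Agent.S3908
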