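import Cfsg.Statements.S3909
import Cfsg.Agent.H1.V2

set_option autoImplicit false
open Cfsg

namespace Cfsg.Agent.S3909

open H7 H1B Subgroup

/-- Let G be a finite group in which any two abelian subgroups of the same order are conjugate. Let M be a normal subgroup of G. If M contains an element of the same order as a ∈ G, then a ∈ M; and if M is elementary abelian of order p^t with p prime and t ≥ 2, then M is the unique Sylow p-subgroup of G. -/
theorem result {G : Type*} [Group G] [Finite G] (hB : ∀ A B : Subgroup G, IsMulCommutative ↥A → IsMulCommutative ↥B → Nat.card ↥A = Nat.card ↥B → ∃ g : G, B = A.map (MulAut.conj g).toMonoidHom) (M : Subgroup G) [M.Normal] :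
    (∀ a : G, (∃ m ∈ M, orderOf m = orderOf a) → a ∈ M) ∧
    ∀ (p t : ℕ) [Fact p.Prime], 2 ≤ t → Nat.card ↥M = p ^ t → Cfsg.IsElementaryAbelian p M → ∀ P : Sylow p G, (P : Subgroup G) = M := by
  have k : ∀ A ≤ M, IsMulCommutative A → ∀ a : G, ord A = orderOf a → a ∈ M := fun A hA hc a e => by
    obtain ⟨g, hg⟩ := hB A (zpowers a) hc (isComm_zpowers _) (by rw [e, Nat.card_zpowers])
    exact (hg.le.trans (cj_le_of_mem_nrm (top_nrm M trivial) hA)) (mem_zpowers a)
  have k1 : ∀ a : G, (∃ m ∈ M, orderOf m = orderOf a) → a ∈ M := fun a ⟨m, hm, e⟩ =>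
    k _ (zpowers_le.2 hm) (isComm_zpowers _) a (by rw [Nat.card_zpowers, e])
  refine ⟨k1, fun p t hp ht hc he P => le_antisymm (fun x hx => ?_)
    ((syl_top P).le_of_normal (EA.isPGroup he) le_top (le_nrm_of_normal _ _))⟩
  obtain ⟨j, hj⟩ := H2.orderOf_eq_pow_of_mem P.isPGroup' hx
  by_cases h : j ≤ 2
  · obtain ⟨B, h1, h2⟩ := exists_card_eq_pow' (EA.isPGroup he) (n := j)
      (hc ▸ Nat.pow_le_pow_right hp.out.pos (h.trans ht))
    exact k B h1 (isComm_of_le he.1 h1) x (h2.trans hj.symm)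
  · obtain ⟨B, h1, h2⟩ := exists_card_eq_pow' (EA.isPGroup he) (n := 2)
      (hc ▸ Nat.pow_le_pow_right hp.out.pos ht)
    obtain ⟨i, rfl⟩ := Nat.exists_eq_add_of_le (not_le.1 h).le
    have h3 : orderOf (x ^ p ^ i) = p ^ 2 := by
      rw [orderOf_pow_of_dvd (pow_pos hp.out.pos _).ne' (hj ▸ pow_dvd_pow p (by omega)), hj, pow_add,
        Nat.mul_div_cancel _ (pow_pos hp.out.pos _)]
    have h4 := orderOf_dvd_of_pow_eq_one (he.2 _ (k B h1 (isComm_of_le he.1 h1) _ (h2.trans h3.symm)))
    rw [h3] at h4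
    exact absurd (le_of_pow_le (j := 1) (by simpa using Nat.le_of_dvd hp.out.pos h4)) (by omega)

end Cfsg.Agent.S3909
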