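import Cfsg.Statements.S3910
import Cfsg.Agent.H1.V2

set_option autoImplicit false
open Cfsg

namespace Cfsg.Agent.S3910

open H7 H1B Subgroup

/-- A finite nilpotent group in which any two abelian subgroups of the same order are conjugate is cyclic. -/
theorem result {G : Type*} [Group G] [Finite G] (hB : ∀ A B : Subgroup G, IsMulCommutative ↥A → IsMulCommutative ↥B → Nat.card ↥A = Nat.card ↥B → ∃ g : G, B = A.map (MulAut.conj g).toMonoidHom) (hnil : Group.IsNilpotent G) : IsCyclic G := by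
  have hn := nilp_top.2 hnil
  obtain ⟨A, -, hA⟩ := exists_scn hn bot_le isComm_bot (le_nrm_bot (⊤ : Subgroup G))
  have ha := scn_comm hA
  have k : ∀ U V : Subgroup G, IsMulCommutative U → IsMulCommutative V → ord U = ord V →
      ∀ W, ⊤ ≤ nrm W → U ≤ W → V ≤ W := fun U V h1 h2 h3 W h4 h5 => by
    obtain ⟨g, hg⟩ := hB U V h1 h2 h3
    exact hg.le.trans (cj_le_of_mem_nrm (h4 trivial) h5)
  have h1 : ⊤ ≤ A := le_of_pgroups_le fun p hp P _ hP x hx => by
    haveI := Fact.mk hp
    obtain ⟨j, hj⟩ := H2.orderOf_eq_pow_of_mem hP hx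
    obtain ⟨i, hi⟩ := card_pgroup (isPGroup_Op p A)
    rcases le_total j i with h | h
    · obtain ⟨B, h1, h2⟩ := exists_card_eq_pow' (isPGroup_Op p A) (n := j) (hi ▸ Nat.pow_le_pow_right hp.pos h)
      exact k B _ (isComm_of_le ha (h1.trans (Opi_le _ _))) (isComm_zpowers x)
        (by rw [h2, Nat.card_zpowers, hj]) A hA.2.1 (h1.trans (Opi_le _ _)) (mem_zpowers x)
    · obtain ⟨y, hy, h2⟩ := exists_order_dvd (hj ▸ pow_dvd_pow p h)
      have h3 : ord (Op p A) = ord (zpowers y) := by rw [hi, Nat.card_zpowers, h2]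
      have h4 := H7.eq_of_le_of_card_le (k _ _ (isComm_of_le ha (Opi_le _ _)) (isComm_zpowers y) h3 _
        (nrm_Opi _ hA.2.1) le_rfl) h3.le
      refine hA.2.2.le ⟨trivial, ?_⟩
      rw [← nilp_Opi_sup (nilp_of_comm ha) {p}, cen_sup]
      refine ⟨?_, nilp_cen_of_piN hn le_top le_top (piN_iff_isPGroup.2 hP) (piN_Opi _ _) hx⟩
      rw [show Opi {p} A = zpowers y from h4.symm, cen_zpowers]
      exact mem_cen1_comm.1 (zpowers_le_cen1 x hy)
  have hc := isComm_of_le ha h1
  letI : CommGroup G := { (inferInstance : Group G) with mul_comm := comm_top.1 hc }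
  obtain ⟨x, hx⟩ := Monoid.exists_orderOf_eq_exponent (Monoid.ExponentExists.of_finite (G := G))
  refine ⟨x, fun y => ?_⟩
  obtain ⟨z, hz, e⟩ := exists_order_dvd (hx ▸ Monoid.order_dvd_exponent y)
  exact k _ _ (isComm_zpowers z) (isComm_zpowers y) (by rw [Nat.card_zpowers, Nat.card_zpowers, e]) _
    (le_nrm_of_normal _ _) (zpowers_le.2 hz) (mem_zpowers y)

end Cfsg.Agent.S3910
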