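import Cfsg.Statements.S3917
import Cfsg.Agent.H1.V2

set_option autoImplicit false
open Cfsg

namespace Cfsg.Agent.S3917

open H7 H1B Subgroup

/-- Say that a group has self-centralizing non-cyclic subgroups when every non-cyclic subgroup H satisfies C_G(H) ≤ H. A finite abelian group with self-centralizing non-cyclic subgroups is cyclic or elementary abelian of order p² for a prime p. -/
theorem result {G : Type*} [CommGroup G] [Finite G] (hX : (∀ H : Subgroup G, ¬ IsCyclic ↥H → Subgroup.centralizer (H : Set G) ≤ H)) :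
    IsCyclic G ∨ ∃ p : ℕ, p.Prime ∧ Nat.card G = p ^ 2 ∧ Monoid.exponent G = p := by
  refine or_iff_not_imp_left.2 fun h => ?_
  obtain ⟨p, hp, E, -, h1, h2⟩ := exists_ea2_of_comm (comm_top.2 mul_comm) fun h' => h (cyc_top.1 h')
  haveI := Fact.mk hp
  obtain rfl : E = ⊤ := eq_top_iff.2 fun x _ => hX E (h1.not_cyc h2.ge) fun y _ => mul_comm _ _
  refine ⟨p, hp, card_top.symm.trans h2, ?_⟩
  rw [← exponent_eq_prime (ne_bot_of_pow_le h2.ge) h1.2]
  exact (Monoid.exponent_eq_of_mulEquiv topEquiv).symm

end Cfsg.Agent.S3917
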