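import Cfsg.Statements.S3918
import Cfsg.Agent.H1.Two4

set_option autoImplicit false
open Cfsg

namespace Cfsg.Agent.S3918

open H7 H1B Subgroup

/-- Say that a group has self-centralizing non-cyclic subgroups when every non-cyclic subgroup H satisfies C_G(H) ≤ H. For an odd prime p, a finite non-abelian p-group has self-centralizing non-cyclic subgroups if and only if it has order p³. -/
theorem result {G : Type*} [Group G] [Finite G] {p : ℕ} [Fact p.Prime] (hp : p ≠ 2) (hG : IsPGroup p G) (hna : ¬ IsMulCommutative G) :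
    (∀ H : Subgroup G, ¬ IsCyclic ↥H → Subgroup.centralizer (H : Set G) ≤ H) ↔ Nat.card G = p ^ 3 := by
  have pp : p.Prime := Fact.out
  have hP := pg_top hG
  refine ⟨fun h => ?_, fun h H hH => ?_⟩
  · obtain ⟨E, -, n, e, c⟩ := exists_normal_ea2 hp hP le_rfl le_normalizer fun h =>
      hna (comm_top'.1 inferInstance)
    have i := H7.relIndex_cen_le hP e.isPGroup n c.le
    rw [le_antisymm (h E (e.not_cyc c.ge)) e.le_cen, relIndex_top_right] at i
    obtain ⟨k, hk⟩ := IsPGroup.iff_card.1 hG
    have := E.card_mul_index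
    have h3 : p ^ k ≤ p ^ 3 := by rw [← hk, ← this, c, pow_succ]; exact Nat.mul_le_mul_left _ i
    rw [Nat.pow_le_pow_iff_right pp.one_lt] at h3
    by_contra hne
    obtain ⟨Y, h1, -, h2⟩ := exists_card_eq_pow hP (le_top (a := ⊤)) (n := 2) (by
      rw [card_top, hk]; exact Nat.pow_le_pow_right pp.pos (by
        have : k ≠ 3 := fun e => hne (e ▸ hk)
        omega)) (c ▸ card_le_of_le le_top)
    exact hna (comm_top'.1 (isComm_of_le (IsPGroup.isMulCommutative_of_card_eq_prime_sq h2) h1))
  · by_contra hc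
    obtain ⟨x, hx, hxH⟩ := SetLike.not_le_iff_exists.1 hc
    have l1 : p ^ 2 ≤ ord H := pow_succ_le_of_lt (hG.to_subgroup H) (not_le.1 fun h' => hH (by
      obtain ⟨k, hk⟩ := card_pgroup (hG.to_subgroup H)
      rw [hk, Nat.pow_le_pow_iff_right pp.one_lt] at h'
      interval_cases k
      · haveI := (Nat.card_eq_one_iff_unique.1 hk).1; exact isCyclic_of_subsingleton
      · exact isCyclic_of_prime_card (hk.trans (pow_one p))))
    have lt : H < H ⊔ zpowers x := left_lt_sup.2 fun h => hxH (h (mem_zpowers x))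
    have l2 := mul_card_le_of_lt (hG.to_subgroup _) lt
    have l3 := card_le_of_le (le_top (a := H ⊔ zpowers x))
    rw [card_top, h] at l3
    have cH : ord H = p ^ 2 := le_antisymm (Nat.le_of_mul_le_mul_left (by rw [← pow_succ']; exact l2.trans l3) pp.pos) l1
    have t : H ⊔ zpowers x = ⊤ := eq_of_le_of_card_ge le_top (by rw [card_top, h, pow_succ', ← cH]; exact l2)
    refine hna (comm_top'.1 (t ▸ isComm_iff.2 ?_))
    rw [cen_sup]
    exact le_inf (sup_le (isComm_iff.1 (IsPGroup.isMulCommutative_of_card_eq_prime_sq cH))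
      (zpowers_le.2 hx)) (sup_le (le_centralizer_iff.1 (zpowers_le.2 hx)) (isComm_iff.1 inferInstance))

end Cfsg.Agent.S3918
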