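import Cfsg.Statements.S3919
import Cfsg.Agent.H1.Two4

set_option autoImplicit false
open Cfsg

namespace Cfsg.Agent.S3919

open H7 H1B Subgroup

/-- Say that a group has self-centralizing non-cyclic subgroups when every non-cyclic subgroup H satisfies C_G(H) ≤ H. A finite non-abelian 2-group G of order 2^n has self-centralizing non-cyclic subgroups if and only if G has nilpotency class n − 1 (that is, G is dihedral, semidihedral or generalized quaternion). -/
theorem result {G : Type*} [Group G] [Finite G] (hna : ¬ IsMulCommutative G) (n : ℕ) (hG : Nat.card G = 2 ^ n) :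
    (∀ H : Subgroup G, ¬ IsCyclic ↥H → Subgroup.centralizer (H : Set G) ≤ H) ↔ (⊤ : Subgroup G).lowerCentralSeries (n - 2) ≠ ⊥ := by
  have hP := pg_top (IsPGroup.of_card hG)
  have key : ∀ a w m, MX (⊤ : Subgroup G) a w m → (⊤ : Subgroup G).lowerCentralSeries (n - 2) ≠ ⊥ := by
    intro a w m h
    obtain rfl : n = m + 3 := Nat.pow_right_injective le_rfl (hG.symm.trans (card_top.symm.trans h.card))
    exact h.lcs_ne
  have n3 : 3 ≤ n := by
    by_contra h
    obtain ⟨m, hm⟩ : ∃ m, n + m = 2 := ⟨2 - n, by omega⟩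
    refine hna (comm_top'.1 (isComm_of_der (lcs_eq_bot' (j := 0) hP ?_)))
    rw [card_top, hG]; exact Nat.pow_le_pow_right two_pos (by omega)
  refine ⟨fun h => ?_, fun h H hH => ?_⟩
  · rcases mx_or_four hP with h1 | ⟨a, w, m, h1⟩ | ⟨E, -, nE, e, c⟩
    · exact (hna (comm_top'.1 inferInstance)).elim
    · exact key a w m h1
    have i := H7.relIndex_cen_le hP e.isPGroup nE c.le
    rw [le_antisymm (h E (e.not_cyc c.ge)) e.le_cen, relIndex_top_right] at i
    have := E.card_mul_index
    have h8 : 2 ^ 3 ≤ 2 ^ n := Nat.pow_le_pow_right two_pos n3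
    obtain ⟨a, h1⟩ := mx_of_eight (P := (⊤ : Subgroup G)) (by rw [card_top]; rw [c] at this; omega) (by rwa [comm_top'])
    exact key a 1 0 h1
  · obtain ⟨m, rfl⟩ := Nat.exists_eq_add_of_le' n3
    obtain ⟨a, w, h1⟩ := mx_of_lcs hG h
    have k : ∀ b ∈ H, b ∉ zpowers a → a ^ 2 ^ (m + 1) ∈ H → cen H ≤ H := fun b hb hba hz =>
      (le_inf le_top (cen_le_cen1 hb)).trans ((h1.inf_cen1 trivial hba).trans_le
        (sup_le (zpowers_le.2 hz) (zpowers_le.2 hb)))
    rcases h1.sub_cases (le_top (a := H)) with h2 | rfl | ⟨t, -, hta, -, e⟩ | ⟨b, -, hba, i, j, e, -, e'⟩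
    · exact (hH h2).elim
    · exact le_top
    · exact k t (e ▸ mem_sup_right (mem_zpowers t)) hta (e ▸ mem_sup_left (mem_zpowers _))
    · exact k b (e' ▸ mem_sup_right (mem_zpowers b)) hba (e' ▸ mem_sup_left
        (zp_pow_le_pow a (pow_dvd_pow 2 (by omega)) (mem_zpowers _)))

end Cfsg.Agent.S3919
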