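import Cfsg.Statements.S3920
import Cfsg.Agent.H1.V2

set_option autoImplicit false
open Cfsg

namespace Cfsg.Agent.S3920

open H7 H1B Subgroup DihedralGroup

/-- Say that a group has self-centralizing non-cyclic subgroups when every non-cyclic subgroup H satisfies C_G(H) ≤ H. For n ≥ 3, the dihedral group of order 2n has self-centralizing non-cyclic subgroups if and only if n is odd or a power of 2. -/
theorem result (n : ℕ) (hn : 3 ≤ n) : (∀ H : Subgroup (DihedralGroup n), ¬ IsCyclic ↥H → Subgroup.centralizer (H : Set (DihedralGroup n)) ≤ H) ↔ (Odd n ∨ ∃ k : ℕ, n = 2 ^ k) := by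
  haveI : NeZero n := ⟨by omega⟩
  constructor
  · intro h
    by_contra hc
    push Not at hc
    obtain ⟨k, m, hm, rfl⟩ := Nat.exists_eq_two_pow_mul_odd (NeZero.ne n)
    rcases k with _ | k
    · exact hc.1 (by simpa using hm)
    have hm1 : m ≠ 1 := by rintro rfl; exact hc.2 _ (mul_one _)
    let φ : ZMod (2 ^ (k + 1) * m) →+* ZMod (2 ^ (k + 1)) := ZMod.castHom (dvd_mul_right _ _) _
    let H : Subgroup (DihedralGroup (2 ^ (k + 1) * m)) :=
      { carrier := {g | match g with
          | r i => φ i = 0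
          | sr i => φ i = 0}
        mul_mem' := by rintro (i | i) (j | j) hi hj <;> simp_all
        one_mem' := map_zero φ
        inv_mem' := by rintro (i | i) hi <;> simp_all }
    have h1 := h H fun hk => by
      have := isComm_iff'.1 (isComm_of_cyc hk) (r (2 ^ (k + 1) : ℕ))
        (show φ _ = 0 by rw [map_natCast, ZMod.natCast_self]) (sr 0) (map_zero φ)
      simp only [r_mul_sr, sr_mul_r, sr.injEq, zero_sub, zero_add] at this
      have h2 : ((2 ^ (k + 1) * 2 : ℕ) : ZMod (2 ^ (k + 1) * m)) = 0 := by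
        rw [Nat.cast_mul, Nat.cast_two]; linear_combination -this
      have h3 := Nat.dvd_of_mul_dvd_mul_left (by positivity) ((ZMod.natCast_eq_zero_iff _ _).1 h2)
      exact hm1 (Nat.eq_one_of_dvd_coprimes (odd_iff_coprime.1 hm) dvd_rfl h3)
    have h3 : ((2 ^ k * m : ℕ) : ZMod (2 ^ (k + 1) * m)) + (2 ^ k * m : ℕ) = 0 := by
      rw [← Nat.cast_add, ZMod.natCast_eq_zero_iff]
      exact ⟨1, by ring⟩
    have h2 : r (2 ^ k * m : ℕ) ∈ H := h1 (mem_cen.2 (by
      rintro (i | i) -
      · simp [add_comm]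
      · simp only [r_mul_sr, sr_mul_r, sr.injEq]
        linear_combination h3))
    have h4 : φ (2 ^ k * m : ℕ) = 0 := h2
    rw [map_natCast, ZMod.natCast_eq_zero_iff, pow_succ] at h4
    exact Nat.not_even_iff_odd.2 hm (even_iff_two_dvd.2 (Nat.dvd_of_mul_dvd_mul_left (by positivity) h4))
  · intro h H hH
    have hr : ∀ j : ZMod n, r j ∈ zpowers (r 1 : DihedralGroup n) := fun j =>
      ⟨j.val, by simp [r_one_pow]⟩
    obtain ⟨i, hi⟩ : ∃ i, sr i ∈ H := by
      by_contra h
      push Not at h
      refine hH (cyc_of_le ?_ (H7.cyc_zpowers (r 1)))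
      rintro (a | a) ha
      · exact hr a
      · exact absurd ha (h a)
    obtain ⟨j, hj, hj0⟩ : ∃ j, r j ∈ H ∧ r j ≠ 1 := by
      by_contra h
      push Not at h
      refine hH (cyc_of_le ?_ (H7.cyc_zpowers (sr i)))
      rintro (a | a) ha
      · rw [h a ha]; exact one_mem _
      · have := h _ (mul_mem hi ha)
        rw [show sr a = sr i * r (a - i) by simp, this, mul_one]
        exact mem_zpowers _
    have k : ∀ k : ZMod n, (Odd n → k + k = 0 → k = 0) := fun k ho hk => by
      obtain ⟨c, hc⟩ := ho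
      have : ((2 * c + 1 : ℕ) : ZMod n) * k = 0 := by rw [← hc]; simp
      push_cast at this
      linear_combination this - c * hk
    have k2 : ∀ k : ZMod n, k + k = 0 → r k ∈ H := fun l hl => by
      by_cases e : l = 0
      · rw [e]; exact one_mem _
      obtain ⟨a, ha⟩ := h.resolve_left fun ho => e (k l ho hl)
      have h1 : orderOf (r j) ∣ 2 ^ a := orderOf_dvd_of_pow_eq_one (by rw [← ha, r_pow]; simp)
      obtain ⟨b, -, hb⟩ := (Nat.dvd_prime_pow Nat.prime_two).1 h1
      rcases b with _ | b
      · exact absurd (orderOf_eq_one_iff.1 hb) hj0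
      obtain ⟨y, hy, hy2⟩ := exists_order_dvd (hb ▸ dvd_pow_self 2 b.succ_ne_zero)
      rw [inv_unique_zpowers (hr l) (zpowers_le.2 (hr j) hy) (ord2.2 ⟨by rw [r_mul_r, hl]; rfl, fun h =>
        e (r.inj h)⟩) hy2]
      exact zpowers_le.2 hj hy
    rintro (c | c) hc
    · have := mem_cen.1 hc _ hi
      simp only [r_mul_sr, sr_mul_r, sr.injEq] at this
      exact k2 c (by linear_combination this)
    · have := mem_cen.1 hc _ hi
      simp only [sr_mul_sr, r.injEq] at this
      rw [show sr c = sr i * r (c - i) by simp]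
      exact mul_mem hi (k2 _ (by linear_combination this))

end Cfsg.Agent.S3920
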