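import Cfsg.Statements.S3937
import Cfsg.Agent.H1.V3

set_option autoImplicit false
open Cfsg

namespace Cfsg.Agent.S3937

open H7 H1B Subgroup
open scoped commutatorElement
theorem fold {G : Type*} [Group G] (g : G) (n : ℕ) : ∀ x : G,
    (List.replicate n g).foldl (fun a b => a * b * a⁻¹ * b⁻¹) x = (fun a => ⁅a, g⁆)^[n] x := by
  induction n with
  | zero => intro x; rfl
  | succ n ih => intro x; rw [List.replicate_succ, List.foldl_cons, ih]; rfl

/-- Baer's characterization of the Fitting subgroup: in a finite group G, an element g lies in the Fitting subgroup if and only if g is a left Engel element, that is, for every x there is n with [x, g, g, …, g] = 1 (n entries g, [a, b] = aba⁻¹b⁻¹). -/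
theorem result {G : Type*} [Group G] [Finite G] (g : G) :
    g ∈ Cfsg.fittingSubgroup G ↔ ∀ x : G, ∃ n : ℕ, (List.replicate n g).foldl (fun a b => a * b * a⁻¹ * b⁻¹) x = 1 := by
  simp only [fold, fitting_eq]
  refine ⟨fun h x => ?_, fun h => le_Fit_of_sn (sn_of_engel (mem_top g) fun x _ => h x)
    (nilp_of_comm (isComm_zpowers g)) (mem_zpowers g)⟩
  have k : ∀ N : Subgroup G, N ≤ Fit ⊤ → Fit ⊤ ≤ nrm N → ∀ y ∈ N, ∃ n, (fun a => ⁅a, g⁆)^[n] y = 1 := by
    intro N
    induction N using WellFoundedLT.induction with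
    | _ N ih =>
    intro h1 h2 y hy
    by_cases c : N = ⊥
    · exact ⟨0, by rwa [c, mem_bot] at hy⟩
    obtain ⟨n, hn⟩ := ih _ (nilp_comm_lt (nilp_Fit ⊤) h1 h2 c) (comm_le_of_le h1 le_rfl)
      (nrm_commutator h2 (le_nrm_self _)) _ (commutator_mem_commutator hy h)
    exact ⟨n + 1, hn⟩
  obtain ⟨n, hn⟩ := k _ le_rfl (le_nrm_self _) _ (comm_le_right (le_nrm_Fit ⊤) (commutator_mem_commutator (mem_top x) h))
  exact ⟨n + 1, hn⟩

end Cfsg.Agent.S3937
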