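import Cfsg.Statements.S3939
import Cfsg.Agent.H1.V3

set_option autoImplicit false
open Cfsg

namespace Cfsg.Agent.S3939

open H7 H1B Subgroup
open scoped commutatorElement
theorem aux {G : Type*} [Group G] [Finite G] (hZ : center G = ⊥) {g : G}
    (h : ∀ x : G, Group.IsNilpotent (closure ({x, g} : Set G))) : g = 1 := by
  by_contra c
  obtain ⟨p, hp, hd⟩ := exists_prime_dvd (zpowers_eq_bot.not.2 c)
  haveI := Fact.mk hp
  obtain ⟨y, hy, e⟩ := exists_orderOf_eq hp hd
  have h1 : y ∈ cen (pRes p (⊤ : Subgroup G)) := le_cen1_iff.1 (pRes_le_iff.2 fun x _ hx => by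
    rw [← cen_zpowers]
    exact nilp_cen_of_coprime (h x) (zpowers_le.2 (subset_closure (by simp)))
      (zpowers_le.2 (zpowers_le.2 (subset_closure (by simp)) hy)) (by rwa [card_zpowers_eq, card_zpowers_eq, e])
      (mem_zpowers x))
  obtain ⟨P, hP, h2⟩ := exists_syl_ge (isPGroup_zpowers_of_orderOf e) le_top
  obtain ⟨z, hz, h3⟩ := exists_ne_one (pgroup_inf_cen_ne_bot' hP.isPGroup
    (hP.isPGroup.to_le (inf_le_left : P ⊓ cen (pRes p ⊤) ≤ P))
    (nrm_inf (le_nrm_self P) (nrm_cen (le_nrm_pRes (le_nrm_of_normal _ _))))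
    fun c => ne_one_of_orderOf e (mem_bot.1 (c ▸ ⟨h2 (mem_zpowers y), h1⟩)))
  refine h3 (mem_bot.1 ?_)
  rw [← hZ, ← cen_top, ← hP.pRes_sup, cen_sup]
  exact ⟨hz.1.2, hz.2⟩

/-- In a finite group G the set of elements g such that the subgroup generated by g and x is nilpotent for every x ∈ G is exactly the hypercenter of G (the last term of the upper central series). -/
theorem result {G : Type*} [Group G] [Finite G] (g : G) :
    (∀ x : G, Group.IsNilpotent ↥(Subgroup.closure ({x, g} : Set G))) ↔ g ∈ ⨆ n : ℕ, Subgroup.upperCentralSeries G n := by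
  obtain ⟨n, hn⟩ := WellFoundedGT.monotone_chain_condition
    (⟨Subgroup.upperCentralSeries G, Subgroup.upperCentralSeries_mono G⟩ : ℕ →o Subgroup G)
  have e : ⨆ n : ℕ, Subgroup.upperCentralSeries G n = Subgroup.upperCentralSeries G n :=
    le_antisymm (iSup_le fun m => (le_total m n).elim (fun h => Subgroup.upperCentralSeries_mono G h)
      fun h => (hn m h).ge) (le_iSup _ n)
  rw [e]
  constructor
  · intro h
    refine (QuotientGroup.eq_one_iff g).1 (aux (eq_bot_iff.2 fun z hz => ?_) fun z => ?_)
    · obtain ⟨z, rfl⟩ := QuotientGroup.mk_surjective z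
      refine mem_bot.2 ((QuotientGroup.eq_one_iff z).2 ((hn (n + 1) n.le_succ).ge ?_))
      refine Subgroup.mem_upperCentralSeries_succ_iff.2 fun y => (QuotientGroup.eq_one_iff _).1 ?_
      have := mem_center_iff.1 hz y
      show ((z * y * z⁻¹ * y⁻¹ : G) : G ⧸ Subgroup.upperCentralSeries G n) = 1
      simp only [QuotientGroup.mk_mul, QuotientGroup.mk_inv, ← this]
      group
    · obtain ⟨z, rfl⟩ := QuotientGroup.mk_surjective z
      have := nilp_im (res (QuotientGroup.mk' (Subgroup.upperCentralSeries G n)) ⊤) (h z)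
      rwa [im_top, MonoidHom.map_closure, Set.image_pair] at this
  · intro h x
    have k : ∀ m, Group.IsNilpotent (zpowers x ⊔ Subgroup.upperCentralSeries G m : Subgroup G) := fun m => by
      refine nilp_of_comm_lt fun N h1 h2 h3 => lt_of_le_of_ne (comm_le_left h2) fun c => h3 ?_
      have : ∀ j, N ≤ Subgroup.upperCentralSeries G j → N = ⊥ := fun j => by
        induction j with
        | zero => exact fun h => eq_bot_iff.2 (h.trans (Subgroup.upperCentralSeries_zero G).le)
        | succ j ih =>
          exact fun h => ih (c.ge.trans (commutator_le.2 fun a ha b _ => Subgroup.mem_upperCentralSeries_succ_iff.1 (h ha) b))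
      refine this m (c.ge.trans ((commutator_mono h1 le_rfl).trans ?_))
      exact comm_sup_le (le_nrm_of_normal _ _) (le_nrm_of_normal _ _)
        (comm_sup_le' (le_nrm_of_normal _ _) (le_nrm_of_normal _ _)
          ((comm_eq_bot.2 (isComm_iff.1 (isComm_zpowers x))).le.trans bot_le) (commutator_le_right _ _))
        (commutator_le_left _ _)
    exact nilp_of_le ((closure_le _).2 (Set.pair_subset (mem_sup_left (mem_zpowers x)) (mem_sup_right h))) (k n)

end Cfsg.Agent.S3939
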