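import Cfsg.Statements.S3946
import Mathlib
import Cfsg.Agent.H8.Hughes

set_option autoImplicit false
open Cfsg

namespace Cfsg.Agent.S3946

open H8 H7 Subgroup

/-- Call an automorphism α of order n of a group G splitting when x · α(x) · α²(x) ⋯ α^(n−1)(x) = 1 for every x ∈ G. A finite group admitting a splitting automorphism of prime order is nilpotent (this contains the case of a fixed-point-free automorphism of prime order). -/
theorem result {G : Type*} [Group G] [Finite G] (α : MulAut G) (hp : (orderOf α).Prime)
    (hsplit : ∀ x : G, (((List.range (orderOf α)).map (fun i : ℕ => (α ^ i) x)).prod = 1)) : Group.IsNilpotent G := by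
  set p := orderOf α with hpα
  let φ := (zpowers α).subtype
  let M := G ⋊[φ] zpowers α
  haveI : Finite M := Finite.of_equiv _ SemidirectProduct.equivProd.symm
  let a : M := SemidirectProduct.inr ⟨α, mem_zpowers α⟩
  let H := (SemidirectProduct.rightHom : M →* zpowers α).ker
  have ha : ∀ i : ℕ, a ^ i = SemidirectProduct.inr ⟨α ^ i, pow_mem (mem_zpowers α) i⟩ := fun i => by
    rw [← map_pow]; rfl
  have h1 : ∀ (x : G) n, (SemidirectProduct.inl x * a) ^ n =
      SemidirectProduct.inl ((List.range n).map fun i : ℕ => (α ^ i) x).prod * a ^ n := fun x n => by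
    induction n with
    | zero => simp
    | succ n ih =>
      rw [pow_succ, ih, List.range_succ, List.map_append, List.prod_append, map_mul, pow_succ, ha]
      ext <;> simp [φ, a, M, SemidirectProduct.mul_left, SemidirectProduct.mul_right]
  have h2 : ∀ x : G, (SemidirectProduct.inl x * a) ^ p = 1 := fun x => by
    rw [h1, hsplit, ha]; simp [hpα]; rfl
  haveI := kegel (G := M) hp (H := H) (fun e => hp.one_lt.ne' (by
    have : a ∈ H := e ▸ mem_top a
    have : α = 1 := congrArg Subtype.val (MonoidHom.mem_ker.1 this)
    rw [hpα, this, orderOf_one])) fun g hg => by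
      obtain ⟨i, hi⟩ : ∃ i : ℕ, α ^ i = g.right := (mem_powers_iff_mem_zpowers.2 g.right.2)
      have hc : i.Coprime p := ((Nat.coprime_or_dvd_of_prime hp i).resolve_right fun e => hg
        (Subtype.ext (hi.symm.trans (orderOf_dvd_iff_pow_eq_one.1 e)))).symm
      obtain ⟨j, -, hj⟩ := Nat.exists_mul_mod_eq_one_of_coprime hc hp.one_lt
      let e : G → G := fun x => ((SemidirectProduct.inl x * a) ^ i).left
      have he : ∀ x, (SemidirectProduct.inl x * a) ^ i = ⟨e x, g.right⟩ := fun x => by
        refine SemidirectProduct.ext rfl (Subtype.ext ?_)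
        rw [← hi, h1, ha]; simp [M, SemidirectProduct.mul_right]
      have hinj : Function.Injective e := fun x y hxy => by
        have h4 : ∀ x, ((SemidirectProduct.inl x * a) ^ i) ^ j = SemidirectProduct.inl x * a := fun x => by
          rw [← pow_mul, ← Nat.div_add_mod (i * j) p, pow_add, pow_mul, h2, hj]; simp
        exact SemidirectProduct.inl_injective (mul_right_cancel ((h4 x).symm.trans
          (by rw [he, hxy, ← he, h4])))
      obtain ⟨x, hx⟩ := Finite.injective_iff_surjective.1 hinj g.left
      rw [show g = (SemidirectProduct.inl x * a) ^ i by rw [he, hx], ← pow_mul, mul_comm, pow_mul, h2,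
        one_pow]
  exact Group.nilpotent_of_mulEquiv ((MulEquiv.subgroupCongr SemidirectProduct.range_inl_eq_ker_rightHom.symm).trans
    (MonoidHom.ofInjective SemidirectProduct.inl_injective).symm : H ≃* G)

end Cfsg.Agent.S3946
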