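import Cfsg.Statements.S3949
import Cfsg.Agent.H1.V2

set_option autoImplicit false
open Cfsg

namespace Cfsg.Agent.S3949

open H7 H1B Subgroup

/-- Let G be a finite group and α an automorphism of G of order 2 such that the elements g·α(g)⁻¹ generate G. Let j be a positive integer such that 2^j divides the order of no element inverted by α. Then the set of values of the j-th iterate of the map c ↦ c·α(c)⁻¹ is exactly the set of elements of odd order inverted by α. -/
theorem result {G : Type*} [Group G] [Finite G] (α : MulAut G) (hα : orderOf α = 2) (hG : Subgroup.closure (Set.range (fun c : G => c * (α c)⁻¹)) = ⊤)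
    (j : ℕ) (hj : ∀ g : G, α g = g⁻¹ → ¬ 2 ^ j ∣ orderOf g) :
    Set.range ((fun c : G => c * (α c)⁻¹)^[j]) = {g : G | Odd (orderOf g) ∧ α g = g⁻¹} := by
  have h2 : ∀ c, α (α c) = c := fun c => by
    rw [← MulAut.mul_apply, (ord2.1 hα).1, MulAut.one_apply]
  have k : ∀ n g, α g = g⁻¹ → (fun c : G => c * (α c)⁻¹)^[n] g = g ^ 2 ^ n := fun n => by
    induction n with
    | zero => simp
    | succ n ih =>
      intro g hg
      rw [Function.iterate_succ_apply, hg, inv_inv, ← pow_two, ih _ (by rw [map_pow, hg, inv_pow]), ← pow_mul,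
        pow_succ']
  rcases j with _ | j
  · exact absurd (by simp) (hj 1 (by simp))
  ext g
  constructor
  · rintro ⟨c, rfl⟩
    have h3 : α (c * (α c)⁻¹) = (c * (α c)⁻¹)⁻¹ := by simp [h2]
    rw [Function.iterate_succ_apply, k _ _ h3]
    refine ⟨?_, by rw [map_pow, h3, inv_pow]⟩
    have h4 := hj _ h3
    generalize c * (α c)⁻¹ = d at *
    obtain ⟨i, m, hm, e⟩ := Nat.exists_eq_two_pow_mul_odd (orderOf_pos d).ne'
    have hi : i ≤ j := by
      by_contra h
      exact h4 (e ▸ (pow_dvd_pow 2 (by omega)).mul_right m)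
    refine hm.of_dvd_nat (orderOf_dvd_of_pow_eq_one ?_)
    rw [← pow_mul, ← orderOf_dvd_iff_pow_eq_one, e]
    exact mul_dvd_mul_right (pow_dvd_pow 2 hi) m
  · rintro ⟨h3, h4⟩
    obtain ⟨m, hm⟩ := exists_pow_eq_self_of_coprime (x := g) (n := 2 ^ (j + 1))
      (Nat.Coprime.pow_left _ (odd_iff_coprime.1 h3).symm)
    exact ⟨g ^ m, by rw [k _ _ (by rw [map_pow, h4, inv_pow]), ← pow_mul, mul_comm, pow_mul, hm]⟩

end Cfsg.Agent.S3949
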