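import Cfsg.Statements.S3982
import Cfsg.Agent.H1.V2

set_option autoImplicit false
open Cfsg

namespace Cfsg.Agent.S3982

open H7 H1B Subgroup
open scoped commutatorElement

/-- Let p be an odd prime and G a finite group of even order divisible by p in which the centralizer of every non-identity p-element has odd order. If some nontrivial p-subgroup of G has a normalizer of even order, then the normalizer of every Sylow p-subgroup of G has even order. -/
theorem result {G : Type*} [Group G] [Finite G] (p : ℕ) [Fact p.Prime] (hp2 : p ≠ 2) (hpG : p ∣ Nat.card G) (h2G : 2 ∣ Nat.card G) (hC : ∀ g : G, g ≠ 1 → (∃ k : ℕ, orderOf g = p ^ k) → Odd (Nat.card ↥(Subgroup.centralizer ({g} : Set G)))) (Q : Subgroup G) (hQ : IsPGroup p ↥Q) (hQ1 : Q ≠ ⊥) (hev : Even (Nat.card ↥(Subgroup.normalizer (Q : Set G)))) (P : Sylow p G) : Even (Nat.card ↥(Subgroup.normalizer ((P : Subgroup G) : Set G))) := by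
  obtain ⟨y, hy, hy1⟩ := exists_inv hev
  have hy2 := (ord2.1 hy1).1
  obtain ⟨R, ⟨h1, h2, h3⟩, hm⟩ := exists_maximal_of_wellFoundedGT
    (fun R : Subgroup G => IsPGroup p R ∧ Q ≤ R ∧ y ∈ nrm R) ⟨Q, hQ, le_rfl, hy⟩
  have k : ∀ S : Subgroup G, IsPGroup p S → S ⊓ cen1 y = ⊥ := fun S hS => eq_bot_iff.2 fun g hg => by
    by_contra h
    exact odd_iff_no_inv.1 (hC g h (H2.orderOf_eq_pow_of_mem hS hg.1)) y (mem_cen1_comm.1 hg.2) hy1
  have h4 : ∀ r ∈ R, y * r * y⁻¹ = r⁻¹ := fun r hr => H1.inverts_of_fpf_involution (hy2 ▸ one_mem _) h3 (k R h1) hr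
  have h5 := isComm_iff.1 (H1.isMulCommutative_of_inverts h4)
  obtain ⟨z, hz, hz1⟩ := exists_ne_one hQ1
  have h6 : Odd (ord (cen R)) := (hC z hz1 (H2.orderOf_eq_pow_of_mem hQ hz)).of_dvd_nat
    (card_dvd_of_le (cen_le_cen1 (h2 hz)))
  have hc : Cop (zpowers y) (cen R) := cop_of_pgroup (isPGroup_zpowers_of_orderOf hy1) (odd_iff_coprime.1 h6)
    (nrm_cen (zpowers_le.2 h3))
  obtain ⟨S, hS, h7, h8⟩ := hc.exists_syl_ge h5 h1 (zpowers_le.2 h3)
  obtain rfl : S = R := le_antisymm (hm ⟨hS.isPGroup, h2.trans h7, h8 (mem_zpowers y)⟩ h7) h7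
  have h9 := hc.sup_cen_of_comm_le (cen_le_nrm S) (by
    rw [commutator_comm]
    refine comm_zpowers_le (nrm_cen (zpowers_le.2 h3) (mem_zpowers y)) fun c hc => mem_cen.2 fun r hr => ?_
    refine (mul_inv_eq_iff_eq_mul.1 ?_).symm
    have e1 := h4 _ (nconj_mem' hc hr)
    have e2 := h4 _ (nconj_mem hc (inv_mem (nconj_mem' hc hr)))
    rw [commutatorElement_def, inv_eq_of_mul_self hy2] at *
    calc _ = y * (c * (y * (c⁻¹ * r * c) * y) * c⁻¹) * y := by simp [mul_assoc, inv_eq_of_mul_self hy2]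
      _ = r := by rw [e1, e2]; group)
  suffices h10 : ¬ p ∣ (cen S).relIndex (nrm S) by
    obtain ⟨g, -, e⟩ := (syl_of_nrm le_top ((top_inf_eq (nrm S)).symm ▸ hS.trans (cen_le_nrm S) h10)).exists_cj_eq
      (syl_top P)
    rw [← e, ← cj_nrm, H2.card_cj]
    exact even_of_inv h3 hy1
  · intro hd
    rw [← h9, sup_comm, relIndex_sup_nrm (inf_le_left.trans (nrm_cen le_rfl))] at hd
    obtain ⟨x, hx, hx1⟩ := exists_orderOf_eq Fact.out (hd.trans (relIndex_dvd_card' _ _))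
    exact ne_one_of_orderOf hx1 (mem_bot.1 (k _ (isPGroup_zpowers_of_orderOf hx1) ▸
      ⟨mem_zpowers x, cen_zpowers y ▸ hx.2⟩))

end Cfsg.Agent.S3982
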