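import Cfsg.Statements.S3983
import Cfsg.Agent.H1.V2

set_option autoImplicit false
open scoped Pointwise
open Cfsg

namespace Cfsg.Agent.S3983

open H7 H1B Subgroup

/-- Let P be a Sylow p-subgroup of the finite group G that meets each conjugate g P g⁻¹ with g outside N_G(P) trivially, and let U be a subgroup of G of order divisible by p. Then a Sylow p-subgroup Q of U has the same property inside U: Q meets each conjugate u Q u⁻¹ with u ∈ U outside N_U(Q) trivially. -/
theorem result {G : Type*} [Group G] [Finite G] (p : ℕ) [Fact p.Prime] (P : Sylow p G) (hTI : ∀ g : G, g ∉ Subgroup.normalizer ((P : Subgroup G) : Set G) → (P : Subgroup G) ⊓ (MulAut.conj g • (P : Subgroup G)) = ⊥) (U : Subgroup G) (hU : p ∣ Nat.card ↥U) (Q : Sylow p ↥U) : ∀ u : ↥U, u ∉ Subgroup.normalizer ((Q : Subgroup ↥U) : Set ↥U) → (Q : Subgroup ↥U) ⊓ (MulAut.conj u • (Q : Subgroup ↥U)) = ⊥ := by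
  intro u hu
  by_contra h
  apply hu
  have hQ := syl_sub Q
  obtain ⟨R, hR, h1⟩ := exists_syl_ge hQ.isPGroup le_top
  have h2 : R = cj (u : G) R := ti_syl (syl_top P) hTI hR (syl_cj_of_mem hR (nrm_top_le ⊤ trivial)) fun e => h (by
    rw [eq_iff_map, Subgroup.map_bot, eq_bot_iff, ← e]
    refine (map_inf_le _ _ _).trans (inf_le_inf h1 ?_)
    rw [← H7.cj_eq_smul, cj_map]
    exact H7.cj_mono _ h1)
  have h3 := hQ.eq_of_le (hR.isPGroup.to_le (inf_le_left : R ⊓ U ≤ R)) (le_inf h1 hQ.le) inf_le_right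
  have h4 : zpowers (u : G) ≤ nrm (R ⊓ U) := nrm_inf (zpowers_le.2 (cj_eq_self_iff.1 h2.symm))
    ((zpowers_le.2 u.2).trans (le_nrm_self _))
  rw [h3, show zpowers (u : G) = (zpowers u).map U.subtype by simp,
    map_le_nrm_map_iff U.subtype_injective] at h4
  exact h4 (mem_zpowers u)

end Cfsg.Agent.S3983
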