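import Cfsg.Statements.S3984
import Cfsg.Agent.H1.V2

set_option autoImplicit false
open scoped Pointwise
open Cfsg

namespace Cfsg.Agent.S3984

open H7 H1B Subgroup

/-- Let P be a Sylow p-subgroup of the finite group G that meets each conjugate g P g⁻¹ with g outside N_G(P) trivially, and let N be a normal subgroup of G of order prime to p. Then every Sylow p-subgroup Q of G ⧸ N meets each conjugate x Q x⁻¹ with x outside its normalizer trivially. -/
theorem result {G : Type*} [Group G] [Finite G] (p : ℕ) [Fact p.Prime] (P : Sylow p G) (hTI : ∀ g : G, g ∉ Subgroup.normalizer ((P : Subgroup G) : Set G) → (P : Subgroup G) ⊓ (MulAut.conj g • (P : Subgroup G)) = ⊥) (N : Subgroup G) [N.Normal] (hN : (Nat.card ↥N).Coprime p) (Q : Sylow p (G ⧸ N)) : ∀ x : G ⧸ N, x ∉ Subgroup.normalizer ((Q : Subgroup (G ⧸ N)) : Set (G ⧸ N)) → (Q : Subgroup (G ⧸ N)) ⊓ (MulAut.conj x • (Q : Subgroup (G ⧸ N))) = ⊥ := by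
  intro x hx
  by_contra h
  apply hx
  obtain ⟨g, rfl⟩ := QuotientGroup.mk'_surjective N x
  obtain ⟨R, rfl⟩ := Sylow.mapSurjective_surjective (QuotientGroup.mk'_surjective N) p Q
  rw [Sylow.coe_mapSurjective] at h ⊢
  rw [← H7.cj_eq_smul, ← cj_map] at h
  obtain ⟨_, ⟨⟨a, ha, rfl⟩, h1⟩, h2⟩ := exists_ne_one h
  have h3 : a ∈ cj g R ⊔ N := by
    have : a ∈ (map (QuotientGroup.mk' N) (cj g R)).comap (QuotientGroup.mk' N) := h1
    rwa [comap_map_eq, QuotientGroup.ker_mk'] at this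
  have hR := syl_cj_of_mem (syl_top R) (nrm_top_le ⊤ (mem_top g))
  obtain ⟨k, hk, h4⟩ := (hR.mono le_sup_left le_top).exists_cj_le (R.isPGroup'.to_le (zpowers_le.2 ha))
    (zpowers_le.2 h3)
  have h5 := ti_syl (syl_top P) hTI (syl_top R) (syl_cj_of_mem hR (nrm_top_le ⊤ (mem_top k⁻¹))) fun e =>
    h2 (by rw [mem_bot.1 (e ▸ ⟨ha, H7.cj_le_iff.1 h4 (mem_zpowers a)⟩ : a ∈ (⊥ : Subgroup G)), map_one])
  have h6 : QuotientGroup.mk' N k⁻¹ ∈ (cj g R).map (QuotientGroup.mk' N) := by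
    have := mem_map_of_mem (QuotientGroup.mk' N) (inv_mem hk)
    rwa [Subgroup.map_sup, QuotientGroup.map_mk'_self, sup_bot_eq] at this
  refine cj_eq_self_iff.1 ?_
  rw [← cj_map, ← cj_of_mem h6, ← cj_map, ← h5]

end Cfsg.Agent.S3984
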