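import Cfsg.Statements.S3985
import Cfsg.Agent.H1.V2

set_option autoImplicit false
open scoped Pointwise
open Cfsg

namespace Cfsg.Agent.S3985

open H7 H1B Subgroup

/-- Let P be a cyclic Sylow p-subgroup of the finite group G. Then P meets each conjugate g P g⁻¹ with g outside N_G(P) trivially if and only if P is weakly self-centralizing: C_G(x) = C_G(P) for every non-identity x ∈ P. -/
theorem result {G : Type*} [Group G] [Finite G] (p : ℕ) [Fact p.Prime] (P : Sylow p G) (hcyc : IsCyclic ↥(P : Subgroup G)) : (∀ g : G, g ∉ Subgroup.normalizer ((P : Subgroup G) : Set G) → (P : Subgroup G) ⊓ (MulAut.conj g • (P : Subgroup G)) = ⊥) ↔ ∀ x : G, x ∈ (P : Subgroup G) → x ≠ 1 → Subgroup.centralizer ({x} : Set G) = Subgroup.centralizer ((P : Subgroup G) : Set G) := by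
  have hP := syl_top P
  have ha := isComm_iff.1 (isComm_of_cyc hcyc)
  constructor
  · intro h x hx h1
    have h2 : cen1 x ≤ nrm (P : Subgroup G) := fun c hc => by
      by_contra h3
      refine h1 (mem_bot.1 (h c h3 ▸ ⟨hx, ?_⟩))
      rw [← H7.cj_eq_smul]
      exact mem_cj'.2 ⟨x, hx, mul_inv_eq_iff_eq_mul.2 (mem_cen1.1 hc)⟩
    refine le_antisymm (le_of_pgroups_le fun q hq Q hQ hQ' => ?_) (cen_le_cen1 hx)
    haveI := Fact.mk hq
    by_cases e : q = p
    · subst e
      exact (hP.le_of_le_normalizer hQ' le_top (hQ.trans h2)).trans ha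
    · exact cen_of_cyc P.isPGroup' hcyc (hQ.trans h2) (cop_of_ne hQ' e) hx h1 hQ
  · intro h g hg
    by_contra h1
    obtain ⟨x, ⟨h2, h3⟩, h4⟩ := exists_ne_one h1
    rw [← H7.cj_eq_smul] at h3
    obtain ⟨y, hy, rfl⟩ := mem_cj'.1 h3
    refine hg (mem_nrm_of_cj_le (hP.le_of_le_normalizer (H2.isPGroup_cj g P.isPGroup') le_top
      (le_nrm_of_le_cen ?_)))
    rw [← h _ h2 h4, ← cj_cen1, h y hy (by rintro rfl; simp at h4)]
    exact H7.cj_mono g ha

end Cfsg.Agent.S3985
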