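import Cfsg.Statements.S3986
import Cfsg.Agent.H1.V2

set_option autoImplicit false
open Cfsg

namespace Cfsg.Agent.S3986

open H7 H1B Subgroup

/-- Let p be a prime and G a finite group. Then some Sylow p-subgroup of G is a direct factor of G (it is normal and has a normal complement) if and only if every element of p-power order commutes with every element whose order is a power of a prime other than p. -/
theorem result {G : Type*} [Group G] [Finite G] (p : ℕ) [Fact p.Prime] : (∃ (P : Sylow p G) (K : Subgroup G), (P : Subgroup G).Normal ∧ K.Normal ∧ (P : Subgroup G) ⊓ K = ⊥ ∧ (P : Subgroup G) ⊔ K = ⊤) ↔ ∀ x y : G, (∃ a : ℕ, orderOf x = p ^ a) → (∃ q b : ℕ, q.Prime ∧ q ≠ p ∧ orderOf y = q ^ b) → x * y = y * x := by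
  constructor
  · rintro ⟨P, K, h1, h2, h3, h4⟩ x y ⟨a, ha⟩ ⟨q, b, hq, hqp, hb⟩
    haveI := Fact.mk hq
    have h5 : y ∈ K := H1.le_of_coprime_index (K := zpowers y) (by
      rw [← relIndex_top_right, ← h4, relIndex_sup_right]
      obtain ⟨k, hk⟩ := relIndex_pgroup P.isPGroup' K
      exact hk ▸ (cop_of_ne (pg_zpowers hb) hqp).pow_right k) (mem_zpowers y)
    exact comm_of_le_cen (le_cen_of_inf_eq_bot (le_nrm_of_normal _ _) (le_nrm_of_normal _ _) h3)
      ((syl_top P).le_of_le_normalizer (pg_zpowers ha) le_top (le_nrm_of_normal _ _) (mem_zpowers x)) h5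
  · intro h
    obtain ⟨P⟩ := (inferInstance : Nonempty (Sylow p G))
    have h1 : H2.pRes p ⊤ ≤ cen (P : Subgroup G) := pRes_le_iff.2 fun y _ hy =>
      zpowers_le_of_ppow fun q hq z hz hz' => mem_cen.2 fun x hx => by
        haveI := Fact.mk hq
        by_cases e : q = p
        · subst e
          rw [zpowers_eq_bot.1 (eq_bot_of_isPGroup_of_coprime hz' (coprime_of_le (zpowers_le.2 hz)
            (by rwa [Nat.card_zpowers]))), mul_one, one_mul]
        · obtain ⟨b, hb⟩ := ord_of_pg hz'
          exact h x z (H2.orderOf_eq_pow_of_mem P.isPGroup' hx) ⟨q, b, hq, e, hb⟩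
    have h2 : ⊤ ≤ nrm (P : Subgroup G) := by
      rw [← (syl_top P).pRes_sup]
      exact sup_le (le_nrm_of_le_cen h1) (le_nrm_self _)
    obtain ⟨L, h3, h4, h5⟩ := exists_compl le_top h2 (syl_coprime (syl_top P))
    have h6 : L ≤ cen (P : Subgroup G) := (le_pRes le_top (h5 ▸ coprime_iff_not_dvd.2 (syl_top P).not_dvd)).trans h1
    refine ⟨P, L, normal_of h2, normal_of ?_, by rw [inf_comm, h4], by rw [sup_comm, h3]⟩
    rw [← h3]
    exact sup_le (le_nrm_self _) (le_nrm_of_le_cen (le_cen_symm h6))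

end Cfsg.Agent.S3986
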