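import Cfsg.Statements.S3987
import Cfsg.Agent.H1.V2
import Cfsg.Agent.S3986

set_option autoImplicit false
open Cfsg

namespace Cfsg.Agent.S3987

open H7 H1B Subgroup

/-- Let p be a prime and G a finite group. Then some Sylow p-subgroup of G is a direct factor of G (normal with a normal complement) if and only if for every element x of p-power order and every element y whose order is a power of a prime other than p, the conjugacy class of x y has as many elements as the product of the sizes of the classes of x and of y. -/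
theorem result {G : Type*} [Group G] [Finite G] (p : ℕ) [Fact p.Prime] : (∃ (P : Sylow p G) (K : Subgroup G), (P : Subgroup G).Normal ∧ K.Normal ∧ (P : Subgroup G) ⊓ K = ⊥ ∧ (P : Subgroup G) ⊔ K = ⊤) ↔ ∀ x y : G, (∃ a : ℕ, orderOf x = p ^ a) → (∃ q b : ℕ, q.Prime ∧ q ≠ p ∧ orderOf y = q ^ b) → (Subgroup.centralizer ({x * y} : Set G)).index = (Subgroup.centralizer ({x} : Set G)).index * (Subgroup.centralizer ({y} : Set G)).index := by
  constructor
  · intro h x y ⟨a, ha⟩ ⟨q, b, hq, hqp, hb⟩
    haveI := Fact.mk hq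
    have h0 := (Cfsg.Agent.S3986.result p).1 h
    have hc : Commute x y := h0 x y ⟨a, ha⟩ ⟨q, b, hq, hqp, hb⟩
    have h1 : (orderOf y).Coprime p := Nat.card_zpowers y ▸ cop_of_ne (pg_zpowers hb) hqp
    have e : cen1 (x * y) = cen1 x ⊓ cen1 y := by
      refine le_antisymm (fun c hc' => ?_) fun c hc' => ((show Commute c x from mem_cen1.1 hc'.1).mul_right
        (show Commute c y from mem_cen1.1 hc'.2) |> mem_cen1.2)
      have h2 := mem_cen1_comm.1 hc'
      have h3 : y ∈ cen1 c := mem_of_pow_mem (k := a) (by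
        have := pow_mem h2 (p ^ a)
        rwa [hc.mul_pow, ← ha, pow_orderOf_eq_one, one_mul, ha] at this) h1
      exact ⟨mem_cen1_comm.1 ((mul_mem_cancel_right h3).1 h2), mem_cen1_comm.1 h3⟩
    rw [e]
    obtain ⟨P, K, h2, h3, h4, h5⟩ := h
    have h6 := le_cen_of_inf_eq_bot (le_nrm_of_normal _ _) (le_nrm_of_normal _ _) h4
    have h7 : x ∈ P := (syl_top P).le_of_le_normalizer (pg_zpowers ha) le_top (le_nrm_of_normal _ _) (mem_zpowers x)
    obtain ⟨k, hk⟩ := relIndex_pgroup P.isPGroup' K
    rw [← relIndex_sup_right, h5, relIndex_top_right] at hk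
    have h8 : (P : Subgroup G) ≤ cen1 y := fun u hu => mem_cen1.2
      (h0 u y (H2.orderOf_eq_pow_of_mem P.isPGroup' hu) ⟨q, b, hq, hqp, hb⟩)
    refine H1.index_inf_of_coprime (Nat.Coprime.coprime_dvd_left (hk ▸ index_dvd_of_le (le_cen1_iff.2 (h6 h7)))
      (Nat.Coprime.pow_left k (coprime_iff_not_dvd.2 fun h => P.not_dvd_index (h.trans (index_dvd_of_le h8))).symm))
  · refine fun h => (Cfsg.Agent.S3986.result p).2 fun x y hx hy => ?_
    have h1 : cen1 x ⊓ cen1 y ≤ cen1 (x * y) := fun c hc' => ((show Commute c x from mem_cen1.1 hc'.1).mul_right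
        (show Commute c y from mem_cen1.1 hc'.2) |> mem_cen1.2)
    have h2 : cen1 x ⊓ cen1 y = cen1 (x * y) := by
      refine H7.eq_of_le_of_card_le h1 (Nat.le_of_mul_le_mul_right ?_ (Nat.pos_of_ne_zero
        (cen1 (x * y)).index_ne_zero_of_finite))
      rw [card_mul_index, ← (cen1 x ⊓ cen1 y).card_mul_index, h x y hx hy]
      exact Nat.mul_le_mul_left _ index_inf_le
    have h3 := mem_cen1.1 (h2.ge (self_mem_cen1 _)).1
    exact (mul_left_cancel (by rw [← mul_assoc, h3] : x * (y * x) = x * (x * y))).symm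

end Cfsg.Agent.S3987
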