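import Cfsg.Statements.S4013
import Cfsg.Agent.H1.V2

set_option autoImplicit false
open Cfsg

namespace Cfsg.Agent.S4013

open H7 H1B Subgroup

/-- Let G be a finite p-group (p prime) and N < M normal subgroups of G such that for some g ∈ M ∖ N the conjugacy class of g is exactly M ∖ N. Then p = 2 and N has index 2 in M. -/
theorem result {G : Type*} [Group G] [Finite G] (p : ℕ) [Fact p.Prime] (hG : IsPGroup p G) (N M : Subgroup G) [N.Normal] [M.Normal] (hNM : N < M) (g : G) (hgM : g ∈ M) (hgN : g ∉ N) (hcl : {h : G | IsConj g h} = (M : Set G) \ (N : Set G)) : p = 2 ∧ N.relIndex M = 2 := by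
  have h1 : (cen1 g).index = ord M - ord N := by
    rw [← card_class]
    change Set.ncard {h | IsConj g h} = _
    rw [hcl, Set.ncard_diff hNM.le]
    rfl
  obtain ⟨a, ha⟩ := hG.index (cen1 g)
  obtain ⟨k, hk⟩ := relIndex_pgroup (hG.to_subgroup M) N
  have h2 := relIndex_mul_card' hNM.le
  have h3 : p ^ k - 1 ∣ p ^ a := ⟨ord N, by rw [← ha, h1, ← h2, hk, Nat.sub_one_mul]⟩
  rcases k with _ | k
  · exact absurd (relIndex_eq_one.1 hk) hNM.not_ge
  have hp : p.Prime := Fact.out
  have h4 : p ^ (k + 1) - 1 = 1 := Nat.Coprime.eq_one_of_dvd (Nat.Coprime.pow_right a (coprime_iff_not_dvd.2 fun h =>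
    hp.one_lt.ne' (Nat.dvd_one.1 ((Nat.dvd_sub_iff_right (Nat.one_le_pow _ _ hp.pos)
      (dvd_pow_self p k.succ_ne_zero)).1 h)))) h3
  have h5 : p ^ (k + 1) = 2 := by omega
  exact ⟨((Nat.prime_two.pow_eq_iff).1 h5).1, hk.trans h5⟩

end Cfsg.Agent.S4013
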