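import Cfsg.Statements.S4022
import Cfsg.Agent.H1.CG

set_option autoImplicit false
open Cfsg

namespace Cfsg.Agent.S4022

open H7 H1B Subgroup
open H2 (cj IsSylowIn)
universe u
theorem key (r n : ℕ) : ∀ {G : Type u} [Group G] [Finite G], Nat.card G = n → Group.IsSolvable G →
    (∀ p : ℕ, p.Prime → ∀ H K : Subgroup G, IsPGroup p H → IsPGroup p K → ord H = ord K → ∃ g, K = cj g H) →
    (∀ p : ℕ, p.Prime → p ≠ r → ∀ P : Subgroup G, IsPGroup p P → IsCyclic P) →
    ∀ H K : Subgroup G, ord H = ord K → ∃ g, K = cj g H := by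
  induction n using Nat.strong_induction_on with | _ n ih => ?_
  intro G _ _ hn hs hD hc A B e
  by_cases b : (⊤ : Subgroup G) = ⊥
  · exact ⟨1, by rw [le_bot_iff.1 (b ▸ le_top : A ≤ ⊥), le_bot_iff.1 (b ▸ le_top : B ≤ ⊥), H2.cj_one]⟩
  obtain ⟨N, -, h1, nn, -, p, hp, ea⟩ := exists_min_normal_ea (N := (⊤ : Subgroup G)) inferInstance b (le_nrm_of_normal ⊤ _)
  haveI := normal_iff_top_le_nrm.2 nn
  haveI := Fact.mk hp
  have bp : BP p G := fun A B a b _ _ => hD p hp A B a b
  have pN : p ∣ ord N := by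
    obtain ⟨x, hx, ox⟩ := exists_orderOf_of_pgroup ea.isPGroup h1
    exact ox ▸ orderOf_dvd_natCard N hx
  obtain ⟨S, hS, l⟩ := H2.exists_isSylowIn_ge ea.isPGroup (le_top (a := N))
  by_cases u : U1 p S
  · have sj := QuotientGroup.mk'_surjective N
    have kr := QuotientGroup.ker_mk' N
    have o : ∀ A : Subgroup (G ⧸ N), ord (A.comap (QuotientGroup.mk' N)) = ord A * ord N := fun A => by
      rw [← relIndex_mul_card' (ker_le_comap _ A), relIndex_ker, map_comap_eq_self_of_surjective sj, kr]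
    have sy : ∀ q, q.Prime → ∀ A : Subgroup (G ⧸ N), IsPGroup q A → ∃ T, IsSylowIn q T (A.comap (QuotientGroup.mk' N)) ∧
        T.map (QuotientGroup.mk' N) = A := fun q hq A a => by
      haveI := Fact.mk hq
      obtain ⟨T, hT⟩ := H2.exists_isSylowIn q (A.comap (QuotientGroup.mk' N))
      have := hT.map (QuotientGroup.mk' N)
      rw [map_comap_eq_self_of_surjective sj] at this
      exact ⟨T, hT, (this.eq_of_le a this.1 le_rfl).symm⟩
    have Q := ih _ (by
      rw [← hn, card_eq_card_quotient_mul_card_subgroup N]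
      exact lt_mul_of_one_lt_right Nat.card_pos (N.one_lt_card_iff_ne_bot.2 h1)) (G := G ⧸ N) rfl inferInstance
      (fun q hq A B a b e => by
        haveI := Fact.mk hq
        obtain ⟨T, hT, rfl⟩ := sy q hq A a
        obtain ⟨T', hT', rfl⟩ := sy q hq B b
        obtain ⟨g, hg⟩ := hD q hq T T' hT.2 hT'.2 (by rw [(syl_to_H1 hT).card_eq, (syl_to_H1 hT').card_eq, o, o, e])
        exact ⟨_, by rw [hg, cj_map]⟩)
      (fun q hq ne A a => by
        obtain ⟨T, hT, rfl⟩ := sy q hq A a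
        haveI := hc q hq ne T hT.2
        exact H1.isCyclic_map _ T)
    have Q' : ∀ X Y : Subgroup G, N ≤ X → N ≤ Y → ord X = ord Y → ∃ g, Y = cj g X := fun X Y x y e => by
      have c : ∀ X : Subgroup G, N ≤ X → (X.map (QuotientGroup.mk' N)).comap (QuotientGroup.mk' N) = X :=
        fun X x => comap_map_eq_self (kr.le.trans x)
      obtain ⟨g, hg⟩ := Q (X.map (QuotientGroup.mk' N)) (Y.map (QuotientGroup.mk' N))
        (Nat.eq_of_mul_eq_mul_right (Nat.card_pos (α := N)) (by rw [← o, ← o, c X x, c Y y, e]))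
      obtain ⟨g, rfl⟩ := sj g
      exact ⟨g, by rw [← c Y y, hg, ← cj_map, c _ (by simpa [cj_normal g N] using H7.cj_mono g x)]⟩
    have k : ∀ A : Subgroup G, p ∣ ord A → N ≤ A := fun A d y hy => by
      obtain ⟨x, hx, ox⟩ := exists_orderOf_eq hp d
      by_cases y1 : y = 1
      · exact y1 ▸ one_mem _
      exact zpowers_le.2 hx (u x (l (bp.mem_p pN (ox ▸ pow_orderOf_eq_one x))) y (l hy) ox (ea.orderOf hy y1))
    by_cases d : p ∣ ord A
    · exact Q' A B (k A d) (k B (e ▸ d)) e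
    have cp : ∀ A : Subgroup G, ¬ p ∣ ord A → (ord A).Coprime (ord N) := fun A d => by
      obtain ⟨j, hj⟩ := card_pgroup ea.isPGroup
      exact hj ▸ ((hp.coprime_iff_not_dvd.2 d).symm.pow_right j)
    obtain ⟨g, hg⟩ := Q' (A ⊔ N) (B ⊔ N) le_sup_right le_sup_right (by
      rw [H1.card_sup_of_coprime (le_nrm_of_normal A N) (cp A d), H1.card_sup_of_coprime (le_nrm_of_normal B N) (cp B (e ▸ d)), e])
    rw [H7.cj_sup, cj_normal g N] at hg
    obtain ⟨c, -, hc⟩ := sz_conj_le (K := cj g A) (N := N) (H := B) ⟨le_nrm_of_normal _ N, cp _ (by rwa [H2.card_cj]),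
      .inr inferInstance⟩ (le_nrm_of_normal B N) (hg ▸ le_sup_left) (cp B (e ▸ d))
    exact ⟨c * g, by rw [H7.cj_mul]; exact (H7.eq_of_le_of_card_le hc (by rw [H2.card_cj, H2.card_cj, e])).symm⟩
  have pr : p = r := by
    by_contra ne
    exact u fun x hx y hy ox oy => by
      rw [eq_of_cyc (hc p hp ne S hS.2) (zpowers_le.2 hx) (zpowers_le.2 hy) (by rw [card_zpowers_eq, card_zpowers_eq, ox, oy])]
      exact mem_zpowers y
  subst pr
  obtain rfl : N = S := le_antisymm l fun x hx => bp.mem_p pN ((bp.dich hS.2).resolve_right u x hx)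
  have st : ∀ A : Subgroup G, IsSylowIn p (A ⊓ N) A ∧ ∃ Q, Q ⊔ A ⊓ N = A ∧ ord Q = (A ⊓ N).relIndex A := fun A => by
    have s : IsSylowIn p (A ⊓ N) A := by
      obtain ⟨T, hT⟩ := H2.exists_isSylowIn p A
      have := hS.le_of_le_normalizer hT.2 le_top (le_nrm_of_normal T N)
      exact (hT.eq_of_le (ea.isPGroup.to_le inf_le_right) (le_inf hT.1 this) inf_le_left) ▸ hT
    obtain ⟨Q, a, -, b⟩ := H7.exists_compl s.1 (nrm_inf le_normalizer (le_nrm_of_normal A N)) (syl_coprime s)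
    exact ⟨s, Q, a, b⟩
  obtain ⟨sA, Q, eA, oA⟩ := st A
  obtain ⟨sB, Q', eB, oB⟩ := st B
  have o : ord (A ⊓ N : Subgroup G) = ord (B ⊓ N : Subgroup G) := by rw [(syl_to_H1 sA).card_eq, (syl_to_H1 sB).card_eq, e]
  have o' : ord Q = ord Q' := by
    have a := relIndex_mul_card' sA.1
    have b := relIndex_mul_card' sB.1
    rw [oA, oB]
    exact Nat.eq_of_mul_eq_mul_right (Nat.card_pos (α := (A ⊓ N : Subgroup G))) (by rw [a, o, b, e])
  obtain ⟨g, hg⟩ := hD p hp _ _ sA.2 sB.2 o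
  have pQ : PiN {p}ᶜ (ord Q') := piN_compl_iff.2 (oB ▸ (hp.coprime_iff_not_dvd.2 sB.3).symm)
  have nQ : ∀ A Q : Subgroup G, Q ⊔ A ⊓ N = A → Q ≤ nrm (A ⊓ N : Subgroup G) := fun A Q e =>
    (le_sup_left.trans e.le).trans (nrm_inf le_normalizer (le_nrm_of_normal A N))
  obtain ⟨H, hH, l'⟩ := exists_hall_ge (π := {p}ᶜ) (M := nrm (B ⊓ N : Subgroup G)) inferInstance (nQ B Q' eB) pQ
  obtain ⟨c, hc1, hc2⟩ := hH.conj_le (K := cj g Q) inferInstance (by
    rw [hg, ← cj_nrm]; exact H7.cj_mono g (nQ A Q eA)) (by rwa [H2.card_cj, o'])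
  have pH : ¬ p ∣ ord H := hH.2.not_dvd hp (by simp)
  obtain ⟨h, hh⟩ := ih (ord H) (by
    rw [← hn]
    refine lt_of_le_of_ne (card_le_card_group H) fun k => pH (k ▸ pN.trans (card_subgroup_dvd_card N)))
    (G := H) rfl inferInstance (fun q hq X Y x y e => by
      haveI := Fact.mk hq
      by_cases ne : q = p
      · subst ne
        have z : ∀ X : Subgroup H, IsPGroup q X → X = ⊥ := fun X x => by
          by_contra k
          obtain ⟨w, -, ow⟩ := exists_orderOf_of_pgroup x k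
          exact pH (ow ▸ orderOf_dvd_natCard w)
        exact ⟨1, by rw [z X x, z Y y, H2.cj_one]⟩
      obtain ⟨T, hT, lT⟩ := H2.exists_isSylowIn_ge y (le_top (a := Y))
      obtain ⟨t, -, ht⟩ := hT.exists_cj_le x le_top
      have cy : IsCyclic T := (MulEquiv.isCyclic (T.equivMapOfInjective _ H.subtype_injective)).2
        (hc q hq ne _ (hT.2.map _))
      exact ⟨t, eq_of_cyc cy lT ht (by rw [H2.card_cj, e])⟩)
    (fun q hq ne T hT => (MulEquiv.isCyclic (T.equivMapOfInjective _ H.subtype_injective)).2 (hc q hq ne _ (hT.map _)))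
    ((cj c (cj g Q)).subgroupOf H) (Q'.subgroupOf H) (by
      rw [card_subgroupOf_of_le hc2, card_subgroupOf_of_le l', H2.card_cj, H2.card_cj, o'])
  have := congrArg (map H.subtype) hh
  rw [cj_map, subgroupOf_map l', subgroupOf_map hc2] at this
  refine ⟨h * (c * g), ?_⟩
  rw [← eA, ← eB, H7.cj_mul, H7.cj_mul, H7.cj_sup, H7.cj_sup, H7.cj_sup, ← hg, cj_of_mem_nrm hc1, cj_of_mem_nrm (hH.1 h.2)]
  exact congrArg (· ⊔ B ⊓ N) this

/-- Let G be a finite solvable group in which, for every prime p, any two p-subgroups of the same order are conjugate, and suppose the Sylow p-subgroups of G are cyclic for all primes p with at most one exception. Then any two subgroups of G of the same order are conjugate. -/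
theorem result {G : Type*} [Group G] [Finite G]
    [Group.IsSolvable G] (hD : ∀ p : ℕ, p.Prime → ∀ H K : Subgroup G, IsPGroup p H → IsPGroup p K → Nat.card H = Nat.card K →
      ∃ g : G, K = H.map (MulAut.conj g).toMonoidHom)
    (r : ℕ) (hcyc : ∀ p : ℕ, p.Prime → p ≠ r → ∀ P : Sylow p G, IsCyclic P) :
    ∀ H K : Subgroup G, Nat.card H = Nat.card K → ∃ g : G, K = H.map (MulAut.conj g).toMonoidHom := by
  refine key r _ rfl inferInstance hD fun p hp ne P hP => ?_
  haveI := Fact.mk hp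
  obtain ⟨S, hS⟩ := hP.exists_le_sylow
  exact cyc_of_le hS (hcyc p hp ne S)

end Cfsg.Agent.S4022
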