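import Cfsg.Statements.S4023
import Cfsg.Agent.H7.QC
import Cfsg.Agent.H7.GK
import Cfsg.Agent.H1.Two4

set_option autoImplicit false
open Cfsg

namespace Cfsg.Agent.S4023
open H7
open scoped commutatorElement

section
open Subgroup

theorem exists_z2 {G : Type*} [Group G] [Finite G] {p : ℕ} [hp : Fact p.Prime] (hG : IsPGroup p G) (na : ¬ IsMulCommutative G) :
    ∃ x y : G, ⁅x, y⁆ ≠ 1 ∧ ⁅x, y⁆ ∈ center G := by
  haveI : Nontrivial (G ⧸ center G) := QuotientGroup.nontrivial_iff.2 fun e => na ⟨⟨fun a b =>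
    mem_center_iff.1 (e.ge (mem_top b)) a⟩⟩
  haveI := (hG.to_quotient (center G)).center_nontrivial
  obtain ⟨⟨z, hz⟩, z1⟩ := exists_ne (1 : center (G ⧸ center G))
  obtain ⟨x, rfl⟩ := QuotientGroup.mk_surjective z
  obtain ⟨y, hy⟩ : ∃ y, ¬ y * x = x * y := not_forall.1 fun k => z1 (Subtype.ext ((QuotientGroup.eq_one_iff x).2
    (mem_center_iff.2 k)))
  refine ⟨x, y, fun e => hy (commutatorElement_eq_one_iff_mul_comm.1 e).symm, (QuotientGroup.eq_one_iff _).1 ?_⟩
  exact (map_commutatorElement (QuotientGroup.mk' (center G)) x y).trans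
    (commutatorElement_eq_one_iff_mul_comm.2 (mem_center_iff.1 hz y).symm)
theorem key {G : Type*} [Group G] [Finite G] {p : ℕ} [hp : Fact p.Prime] {P : Subgroup G} (hP : IsPGroup p P)
    (hB : ∀ A B : Subgroup G, IsPGroup p ↥A → IsPGroup p ↥B → Nat.card ↥A = Nat.card ↥B →
      ∃ g : G, B = A.map (MulAut.conj g).toMonoidHom) : Rk p 1 P ∨ ∀ x ∈ P, x ^ p = 1 := by
  refine or_iff_not_imp_left.2 fun h x hx => by_contra fun n => ?_
  obtain ⟨E, -, eE, oE⟩ := not_rk_iff'.1 h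
  obtain ⟨k, hk⟩ := H2.orderOf_eq_pow_of_mem hP hx
  obtain ⟨y, -, hy⟩ := exists_ord_of_dvd (n := p ^ 2) (g := x) (by
    rw [hk]; exact pow_dvd_pow p (not_lt.1 fun l => n (by
      rw [← orderOf_dvd_iff_pow_eq_one, hk]; exact (pow_dvd_pow p (Nat.le_of_lt_succ l)).trans (pow_one p).dvd)))
  obtain ⟨g, e⟩ := hB E (zpowers y) eE.isPGroup (H2.isPGroup_zpowers (k := 2) (by rw [← hy, pow_orderOf_eq_one]))
    (by rw [oE, Nat.card_zpowers, hy])
  have := orderOf_dvd_of_pow_eq_one ((eE.cj g).pow (e.le (mem_zpowers y)))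
  rw [hy] at this
  have := Nat.le_of_dvd hp.out.pos this
  nlinarith [hp.out.two_le]
theorem card_sup_le {G : Type*} [Group G] [Finite G] {H N : Subgroup G} (h : H ≤ nrm N) :
    Nat.card (H ⊔ N : Subgroup G) ≤ Nat.card H * Nat.card N :=
  H2.card_sup_mul_card_inf h ▸ Nat.le_mul_of_pos_right _ Nat.card_pos

end

/-- Let p be a prime and G a finite group in which any two p-subgroups of the same order are conjugate, with Sylow p-subgroup P. Then P is cyclic, or elementary abelian, or p = 2 and P is a quaternion group of order 8, or p is odd and P is non-abelian of order p³ and exponent p. -/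
theorem result {G : Type*} [Group G] [Finite G]
    {p : ℕ} [Fact p.Prime] (hC : ∀ H K : Subgroup G, IsPGroup p H → IsPGroup p K → Nat.card H = Nat.card K →
      ∃ g : G, K = H.map (MulAut.conj g).toMonoidHom) (P : Sylow p G) :
    IsCyclic P ∨ Cfsg.IsElementaryAbelian p (P : Subgroup G) ∨
      (p = 2 ∧ Nonempty ((P : Subgroup G) ≃* QuaternionGroup 2)) ∨
      (p ≠ 2 ∧ ¬ IsMulCommutative P ∧ Nat.card P = p ^ 3 ∧ Monoid.exponent P = p) := by
  open Subgroup in
  have hp : p.Prime := Fact.out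
  rcases key P.2 hC with h | h
  · rcases H1B.cyc_or_quat P.2 h with h | ⟨rfl, a, n, h, h'⟩
    · exact Or.inl h
    obtain ⟨b, hb, hba⟩ := h.ex
    rcases n with _ | n
    · exact Or.inr (Or.inr (Or.inl ⟨rfl, h.quat rfl hb hba (h' b hb hba)⟩))
    have m := h.sub (m := 0) (j := n + 1) (by omega) (by omega) hb hba
    have o : orderOf (a ^ 2 ^ n) = 2 ^ 3 := H1B.ord_pow_two (by rw [h.orda]; congr 1; omega)
    obtain ⟨g, e⟩ := hC (zpowers (a ^ 2 ^ n)) _ (H2.isPGroup_zpowers (k := 3) (by rw [← o, pow_orderOf_eq_one])) m.pgroup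
      (by rw [Nat.card_zpowers, o, m.card])
    exact absurd (e ▸ inferInstance) m.not_comm
  by_cases c : IsMulCommutative (P : Subgroup G)
  · exact Or.inr (Or.inl ⟨c, h⟩)
  have p2 : p ≠ 2 := by
    rintro rfl
    have k : ∀ z ∈ (P : Subgroup G), z⁻¹ = z := fun z hz => inv_eq_of_mul_eq_one_right (by rw [← pow_two, h z hz])
    exact c (isComm_iff.2 fun x hx y hy => by rw [← k _ (mul_mem hy hx), mul_inv_rev, k x hx, k y hy])
  have o3 : p ^ 2 < Nat.card (P : Subgroup G) := not_le.1 fun l => c (H1B.comm_of_card_le P.2 l)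
  have hr : Rk p 2 (P : Subgroup G) := by_contra fun k => by
    obtain ⟨E, lE, eE, oE⟩ := not_rk_iff'.1 k
    obtain ⟨x, y, h1, h2⟩ := exists_z2 P.2 c
    have cz : ∀ u : (P : Subgroup G), (u : G) ∈ cen (zpowers ((⁅x, y⁆ : (P : Subgroup G)) : G)) := fun u =>
      le_cen_symm (zpowers_le.2 fun g hg => congrArg Subtype.val (mem_center_iff.1 h2 ⟨g, hg⟩)) u.2
    have oz : ∀ u : (P : Subgroup G), Nat.card (zpowers (u : G)) ≤ p := fun u => by
      rw [Nat.card_zpowers]; exact Nat.le_of_dvd hp.pos (orderOf_dvd_of_pow_eq_one (h u u.2))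
    have n1 : zpowers (y : G) ≤ nrm (zpowers ((⁅x, y⁆ : (P : Subgroup G)) : G)) := zpowers_le.2 (cen_le_nrm _ (cz y))
    have n2 : zpowers (x : G) ≤ nrm (zpowers (y : G) ⊔ zpowers ((⁅x, y⁆ : (P : Subgroup G)) : G) : Subgroup G) :=
      le_nrm_of_comm_le (comm_sup_le (zpowers_le.2 (le_nrm_self _ (mem_sup_left (mem_zpowers _))))
        (le_sup_right.trans (le_nrm_self _)) (by
          rw [commutator_comm]
          exact (H1B.comm_zpowers_zpowers_le (cen_le_nrm _ (cz x)) (cen_le_nrm _ (cz y)) (mem_zpowers _)).trans le_sup_right)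
        ((comm_eq_bot.2 (le_cen_symm (zpowers_le.2 (cz x)))).le.trans bot_le))
    obtain ⟨B, b1, b2, b3⟩ := exists_card_eq_pow P.2 (sup_le (zpowers_le.2 x.2) (sup_le (zpowers_le.2 y.2)
      (zpowers_le.2 (⁅x, y⁆ : (P : Subgroup G)).2))) (n := 3) ((card_sup_le n2).trans (by
        rw [pow_succ', pow_two]; exact Nat.mul_le_mul (oz x) ((card_sup_le n1).trans (Nat.mul_le_mul (oz y) (oz _)))))
      (oE ▸ H2.card_le_of_le' lE)
    obtain ⟨g, e⟩ := hC E B eE.isPGroup (P.2.to_le b2) (oE.trans b3.symm)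
    have := (e ▸ eE.cj g : EA p B).mul_comm (b1 (mem_sup_left (mem_zpowers _))) (b1 (mem_sup_right (mem_sup_left (mem_zpowers _))))
    exact h1 (commutatorElement_eq_one_iff_mul_comm.2 (Subtype.ext this))
  refine Or.inr (Or.inr (Or.inr ⟨p2, c, H1B.card_eq_of_lt_of_le P.2 o3 (H1B.card_le_of_exp P.2 hr h), ?_⟩))
  haveI : Nontrivial (P : Subgroup G) := Finite.one_lt_card_iff_nontrivial.1 ((Nat.one_le_pow _ _ hp.pos).trans_lt o3)
  exact (hp.eq_one_or_self_of_dvd _ (Monoid.exponent_dvd_of_forall_pow_eq_one fun x => Subtype.ext (h x x.2))).resolve_left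
    (Monoid.one_lt_exponent (G := (P : Subgroup G))).ne'

end Cfsg.Agent.S4023
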