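import Cfsg.Statements.S4024
import Cfsg.Agent.H7.QC
import Cfsg.Agent.H1.Two4
import Cfsg.Agent.S4023

set_option autoImplicit false
open Cfsg

namespace Cfsg.Agent.S4024
open H7
open scoped commutatorElement

/-- Let p be an odd prime and G a finite group in which any two p-subgroups of the same order are conjugate, with Sylow p-subgroup P. If H is a normal p-solvable subgroup of G whose order is divisible by p, then P is abelian, and either P ≤ H or P is cyclic. -/
theorem result {G : Type*} [Group G] [Finite G]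
    {p : ℕ} [Fact p.Prime] (hp : p ≠ 2) (hC : ∀ H K : Subgroup G, IsPGroup p H → IsPGroup p K → Nat.card H = Nat.card K →
      ∃ g : G, K = H.map (MulAut.conj g).toMonoidHom) (P : Sylow p G)
    (H : Subgroup G) [H.Normal] (hsolv : Cfsg.IsPSolvable p H) (hdiv : p ∣ Nat.card H) :
    IsMulCommutative P ∧ ((P : Subgroup G) ≤ H ∨ IsCyclic P) := by
  open Subgroup in
  rcases S4023.key P.2 hC with h | h
  · have := (H1B.cyc_iff_rk hp P.2).2 h
    exact ⟨isComm_of_cyc this, Or.inr this⟩
  have nH : ⊤ ≤ nrm H := normal_iff_top_le_nrm.1 inferInstance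
  have hP := H2.sylow_isSylowIn_top P
  have nK : ⊤ ≤ nrm (Opp p H) := nrm_Opp nH
  have nN : ⊤ ≤ nrm (Op' p H) := nrm_Opi _ nH
  have lK : Opp p H ≤ H := Omod_le _ _ _
  have s := syl_inf hP le_top (le_top.trans nK)
  set T := (P : Subgroup G) ⊓ Opp p H
  have t0 : T ≠ ⊥ := fun e => by
    have e1 := im_syl_Opp s
    rw [e, im_bot] at e1
    have c := ps_chP (ps_im (f := qm (Op' p H)) hsolv (le_nrm_Opi _ _)) (Opi_im_eq_bot (le_nrm_Opi _ _) (by rw [kr_qm]; exact inf_eq_right.2 (Opi_le _ _)))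
    rw [← e1] at c
    have : H ≤ Op' p H := (im_qm_eq_bot (le_nrm_Opi _ _)).1 (eq_bot_of_le (le_inf le_rfl (le_cen_bot _)) (le_bot_iff.1 c))
    exact coprime_iff_not_dvd.1 (coprime_Op' p H) (hdiv.trans (card_dvd_of_le this))
  have nZ : ⊤ ≤ nrm (T ⊓ cen T ⊔ Op' p H : Subgroup G) := by
    have e := syl_frattini s le_top nK
    have e2 : Opp p H = Op' p H ⊔ T := le_antisymm ((le_sup_inf_kr (f := qm (Op' p H)) s.le (lK.trans (le_nrm_Opi _ _))
      ((im_syl_Opp s).symm ▸ (le_Opp_iff lK).1 le_rfl)).trans (by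
        rw [kr_qm, sup_comm]; exact sup_le_sup_right inf_le_right _)) (sup_le (Op'_le_Opp p H) s.le)
    rw [← e, e2]
    exact sup_le (nrm_sup (nrm_center inf_le_right) (le_top.trans nN)) (sup_le (le_sup_right.trans (le_nrm_self _))
      (nrm_sup (nrm_center (le_nrm_self _)) (le_top.trans nN)))
  obtain ⟨z, hz, oz⟩ := exists_orderOf_of_pgroup (s.isPGroup.to_inf_left (K := cen T))
    (pgroup_inf_cen_ne_bot' s.isPGroup s.isPGroup (le_nrm_self _) t0)
  have l : (P : Subgroup G) ≤ T ⊓ cen T ⊔ Op' p H := fun x hx => by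
    by_cases x1 : x = 1
    · exact x1 ▸ one_mem _
    obtain ⟨g, e⟩ := hC (zpowers z) (zpowers x) (H2.isPGroup_zpowers (k := 1) (by rw [pow_one, ← oz, pow_orderOf_eq_one]))
      (P.2.to_le (zpowers_le.2 hx)) (by rw [Nat.card_zpowers, Nat.card_zpowers, oz, orderOf_eq_prime (h x hx) x1])
    exact cj_le_of_mem_nrm (nZ (mem_top g)) (zpowers_le.2 (mem_sup_left hz)) (e.le (mem_zpowers x))
  have l2 : (P : Subgroup G) ≤ T ⊓ cen T := by
    have := modular (A := T ⊓ cen T) (B := Op' p H) (C := P) (le_top.trans nN) (inf_le_left.trans inf_le_left)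
    rw [inf_eq_right.2 l, inf_comm (Op' p H), inf_eq_bot_of_isPGroup P.2 (coprime_Op' p H), sup_bot_eq] at this
    exact this.le
  exact ⟨isComm_iff.2 (l2.trans (inf_le_right.trans (cen_anti (l2.trans inf_le_left)))),
    Or.inl (l2.trans (inf_le_left.trans (inf_le_right.trans lK)))⟩

end Cfsg.Agent.S4024
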