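import Cfsg.Statements.S4027
import Cfsg.Agent.H1.V3

set_option autoImplicit false
open Cfsg

namespace Cfsg.Agent.S4027

open H7 H1B Subgroup

/-- Let G be a finite group in which every element x of odd order satisfies N_G(⟨x⟩) = C_G(x). Then the Sylow 2-subgroups of G are normal. -/
theorem result {G : Type*} [Group G] [Finite G]
    (hirr : ∀ x : G, (∀ r : ℕ, r.Prime → r ∣ orderOf x → r ≠ 2) →
      Subgroup.normalizer ((Subgroup.zpowers x : Subgroup G) : Set G) ≤ Subgroup.centralizer {x}) (P : Sylow 2 G) :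
    (P : Subgroup G).Normal := by
  refine normal_of_no_real P fun x h1 h2 s e => ?_
  have h3 := hirr x (fun r hr hd => ((Nat.prime_dvd_prime_iff_eq hr h1).1 hd).trans_ne h2)
    (cj_eq_self_iff.1 (by rw [H7.cj_zpowers, e, zpowers_inv]) : s ∈ nrm (zpowers x))
  rw [mem_cen1.1 h3, mul_inv_cancel_right] at e
  exact ne_inv_of_odd (fun c => by rw [c, orderOf_one] at h1; exact Nat.not_prime_one h1) (h1.odd_of_ne_two h2) e

end Cfsg.Agent.S4027
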