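import Cfsg.Statements.S4028
import Cfsg.Agent.H1.V2

set_option autoImplicit false
open Cfsg

namespace Cfsg.Agent.S4028

open H7 H1B Subgroup

/-- Let G be a finite group with Sylow 2-subgroup P. Then N_G(⟨x⟩) = C_G(x) holds for every 2-element x of G if and only if N_P(⟨y⟩) = C_P(y) holds for every y ∈ P (computed inside P). -/
theorem result {G : Type*} [Group G] [Finite G] (P : Sylow 2 G) :
    (∀ x : G, (∀ r : ℕ, r.Prime → r ∣ orderOf x → r = 2) →
      Subgroup.normalizer ((Subgroup.zpowers x : Subgroup G) : Set G) ≤ Subgroup.centralizer {x}) ↔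
    (∀ y : ↥(P : Subgroup G), Subgroup.normalizer ((Subgroup.zpowers y : Subgroup ↥(P : Subgroup G)) : Set ↥(P : Subgroup G)) ≤
        Subgroup.centralizer {y}) := by
  constructor
  · intro h y n hn
    have h1 := h y (fun r hr hd => by
      obtain ⟨k, hk⟩ := H2.orderOf_eq_pow_of_mem P.isPGroup' y.2
      exact (Nat.prime_dvd_prime_iff_eq hr Nat.prime_two).1 (hr.dvd_of_dvd_pow (hk ▸ hd)))
      (show (n : G) ∈ nrm (zpowers (y : G)) by
        have := map_le_nrm_map (P : Subgroup G).subtype (zpowers_le.2 hn) (mem_map_of_mem _ (mem_zpowers n))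
        simpa using this)
    exact mem_cen1.2 (Subtype.ext (mem_cen1.1 h1))
  · intro h x hx
    have h1 : IsPGroup 2 (zpowers x) := pgroup_of_forall (by rwa [Nat.card_zpowers])
    refine le_of_pgroups_le fun q hq Q hQ hQ' => ?_
    haveI := Fact.mk hq
    by_cases e : q = 2
    · subst e
      obtain ⟨g, hg⟩ := H2.sylow_exists_cj_le P (isPGroup_sup hQ hQ' h1)
      intro u hu
      have h2 := hg (H2.conj_mem_cj (mem_sup_left hu))
      have h3 := hg (H2.conj_mem_cj (mem_sup_right (mem_zpowers x)))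
      have h4 := h ⟨_, h3⟩ (x := ⟨_, h2⟩) (by
        have : zpowers (g * u * g⁻¹) ≤ nrm (zpowers (g * x * g⁻¹)) := by
          rw [← H7.cj_zpowers, ← H7.cj_zpowers, ← cj_nrm]
          exact H7.cj_mono g (zpowers_le.2 (hQ hu))
        refine zpowers_le.1 ((map_le_nrm_map_iff (P : Subgroup G).subtype_injective).1 ?_)
        simpa using this)
      have h5 : g * u * g⁻¹ ∈ cen1 (g * x * g⁻¹) := mem_cen1.2 (congrArg Subtype.val (mem_cen1.1 h4))
      rwa [← cj_cen1, conj_mem_cj] at h5
    · exact cen_zpowers x ▸ cen_of_cyc_two h1 (H7.cyc_zpowers x) hQ (cop_of_ne hQ' e)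

end Cfsg.Agent.S4028
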