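import Cfsg.Statements.S4029
import Cfsg.Agent.H3.Cls
import Cfsg.Agent.H2.Abel
import Cfsg.Agent.H2.Basic

set_option autoImplicit false
open Cfsg

namespace Cfsg.Agent.S4029

open H7 Subgroup

/-- Let P be a finite 2-group in which N_P(⟨y⟩) = C_P(y) for every y ∈ P. If s is the number of conjugacy classes of involutions of P, then #(P/Φ(P)) ≤ s + 1; in particular the subgroup generated by the involutions of P has order at least #(P/Φ(P)). -/
theorem result {P : Type*} [Group P] [Finite P] (hP : IsPGroup 2 P)
    (hirr : ∀ y : P, Subgroup.normalizer ((Subgroup.zpowers y : Subgroup P) : Set P) ≤ Subgroup.centralizer {y}) :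
    Nat.card (P ⧸ frattini P) ≤ Nat.card {c : ConjClasses P // ∃ y : P, ConjClasses.mk y = c ∧ orderOf y = 2} + 1 ∧
    Nat.card (P ⧸ frattini P) ≤ Nat.card (Subgroup.closure {y : P | orderOf y = 2}) := by
  have sq1 : ∀ c : {C : ConjClasses P // H3.RealC C}, ∀ y, ConjClasses.mk y = c.1 → y = 1 ∨ orderOf y = 2 := fun c y hy => by
    obtain ⟨g, hg⟩ := isConj_iff.1 (c.2 y hy)
    have := mem_centralizer_singleton_iff.1 (hirr y (show g ∈ nrm (zpowers y) from H2.mem_normalizer_iff_cj.2 (by
      rw [H2.cj_zpowers, hg, zpowers_inv])))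
    rw [this, mul_inv_cancel_right, eq_inv_iff_mul_eq_one, ← sq] at hg
    exact or_iff_not_imp_left.2 (orderOf_eq_prime hg)
  have a : Nat.card (P ⧸ frattini P) ≤ Nat.card {C : ConjClasses P // H3.RealC C} := by
    rw [← H3.card_real, ← index_eq_card, ← H3.card_triv _ (H2.commutator_le_frattini hP)]
    refine Nat.card_le_card_of_injective (fun ω => ⟨⟨H3.lf ω.1, H3.lf_irr _⟩, fun g => ?_⟩) fun a b e =>
      Subtype.ext (H3.lf_injective (congrArg (·.1.1) e))
    have := congrArg (Units.val) (H3.mem_triv.1 ω.2 _ (H2.pow_mem_frattini hP g))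
    rw [map_pow, Units.val_pow_eq_pow_val, Units.val_one, sq, mul_self_eq_one_iff] at this
    rcases this with e | e <;> simp [e]
  have rp := fun c : {C : ConjClasses P // H3.RealC C} => ConjClasses.exists_rep c.1
  choose r hr using rp
  refine ⟨a.trans ?_, a.trans (Nat.card_le_card_of_injective (fun c => ⟨r c, (sq1 c _ (hr c)).elim (fun e => e ▸ one_mem _)
    fun e => subset_closure e⟩) fun c d e => Subtype.ext (by rw [← hr, ← hr d, show r c = r d from congrArg Subtype.val e]))⟩
  classical
  rw [← Finite.card_option]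
  refine Nat.card_le_card_of_injective (fun c => if h : r c = 1 then none else some ⟨c.1, _, hr c, (sq1 c _ (hr c)).resolve_left h⟩)
    fun c d e => Subtype.ext ?_
  by_cases h : r c = 1 <;> by_cases k : r d = 1
  · rw [← hr, ← hr d, h, k]
  all_goals simpa [h, k] using e

end Cfsg.Agent.S4029
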