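import Cfsg.Statements.S4032
import Cfsg.Agent.H1.V2
import Cfsg.Agent.H7.FTc

set_option autoImplicit false
open Cfsg

namespace Cfsg.Agent.S4032

open H7 H1B Subgroup

/-- Let π be a set of primes and G a finite group in which N_G(⟨x⟩) = C_G(x) for every π-element x. If N is a normal subgroup of G whose order is divisible by no prime of π, then G/N has the same property: N_{G/N}(⟨y⟩) = C_{G/N}(y) for every π-element y of G/N. -/
theorem result {G : Type*} [Group G] [Finite G] (π : Set ℕ)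
    (hirr : ∀ x : G, (∀ r : ℕ, r.Prime → r ∣ orderOf x → r ∈ π) →
      Subgroup.normalizer ((Subgroup.zpowers x : Subgroup G) : Set G) ≤ Subgroup.centralizer {x})
    (N : Subgroup G) [N.Normal] (hN : ∀ r : ℕ, r.Prime → r ∣ Nat.card N → r ∉ π) :
    ∀ y : G ⧸ N, (∀ r : ℕ, r.Prime → r ∣ orderOf y → r ∈ π) →
      Subgroup.normalizer ((Subgroup.zpowers y : Subgroup (G ⧸ N)) : Set (G ⧸ N)) ≤ Subgroup.centralizer {y} := by
  intro y hy
  have h1 : N ≤ (zpowers y).comap (QuotientGroup.mk' N) := fun n hn => by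
    rw [mem_comap, (QuotientGroup.eq_one_iff n).2 hn |> fun e => (e : QuotientGroup.mk' N n = 1)]
    exact one_mem _
  have h2 : N.relIndex ((zpowers y).comap (QuotientGroup.mk' N)) = orderOf y := by
    have := card_im (f := res (QuotientGroup.mk' N) ⊤) (le_top : (zpowers y).comap (QuotientGroup.mk' N) ≤ ⊤)
    rw [ker_mk, im_top, map_comap_eq_self_of_surjective (QuotientGroup.mk'_surjective N), Nat.card_zpowers] at this
    exact this.symm
  have hc : (orderOf y).Coprime (ord N) := PiN.coprime (π := π) hy hN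
  obtain ⟨L, h3, -, h5⟩ := exists_compl h1 (le_nrm_of_normal _ _) (h2 ▸ hc.symm)
  obtain ⟨x, rfl⟩ := QuotientGroup.mk'_surjective N y
  obtain ⟨l, hl, n, hn, rfl⟩ := (mem_sup_nrm (le_nrm_of_normal L N)).1 (h3.ge (mem_zpowers (QuotientGroup.mk' N x)))
  have e : QuotientGroup.mk' N (l * n) = QuotientGroup.mk' N l := by
    rw [map_mul, (QuotientGroup.eq_one_iff n).2 hn |> fun e => (e : QuotientGroup.mk' N n = 1), mul_one]
  rw [e] at h2 h5 hc hy ⊢
  have h6 : orderOf l ∣ orderOf (QuotientGroup.mk' N l) := h2 ▸ h5 ▸ orderOf_dvd_card' hl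
  have h7 := Cop.im_nrm (f := res (QuotientGroup.mk' N) ⊤) (H := ⊤) (A := zpowers l) le_rfl le_top
    (by
      rw [ker_mk, top_inf_eq]
      exact ⟨le_nrm_of_normal _ _, Nat.card_zpowers l ▸ hc.coprime_dvd_left h6,
        Or.inl (solv_of_comm (isComm_zpowers l))⟩)
  rw [im_mk_top, top_inf_eq, top_inf_eq, im_zpowers (mem_top l), ev_top] at h7
  rw [h7, ← ev_top]
  exact im_le_cen1 _ (mem_top l) (hirr l fun r hr hd => hy r hr (hd.trans h6))

end Cfsg.Agent.S4032
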