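import Cfsg.Statements.S4034
import Cfsg.Agent.H1.Kaz

set_option autoImplicit false
open Cfsg

namespace Cfsg.Agent.S4034

open H7 H1B Subgroup
open scoped commutatorElement

/-- Let G be a finite group and p a prime. Every conjugacy class of p-regular elements of G (elements of order prime to p) has p-power size if and only if G has an abelian p-complement, i.e. an abelian subgroup of order prime to p and p-power index. -/
theorem result {G : Type*} [Group G] [Finite G] {p : ℕ} (hp : p.Prime) :
    (∀ x : G, (orderOf x).Coprime p → ∃ k : ℕ, (ConjClasses.mk x).carrier.ncard = p ^ k) ↔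
    (∃ H : Subgroup G, IsMulCommutative H ∧ ¬ p ∣ Nat.card H ∧ ∃ k : ℕ, H.index = p ^ k) := by
  haveI := Fact.mk hp
  simp only [ncard_class]
  constructor
  · intro h
    have hs : Group.IsSolvable G := by
      refine H3.isSolvable_of_simple (fun H _ _ => ∀ x : H, (orderOf x).Coprime p →
        ∃ k, (cen1 x).index = p ^ k) (fun H _ _ N _ h x hx => ?_) (fun H _ _ N _ h x hx => ?_)
        (fun H _ _ _ h => ?_) G h
      · obtain ⟨k, hk⟩ := h x (by rwa [orderOf_coe])
        exact pow_of_dvd hp (index_cen1_coe x) hk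
      · obtain ⟨y, rfl⟩ := QuotientGroup.mk'_surjective N x
        obtain ⟨k, hk⟩ := h (H9.pq p y) (H9.isPRegular_iff_coprime.1 (H9.isPRegular_pq y))
        refine pow_of_dvd hp ?_ hk
        rw [← H9.pq_of_isPRegular (H9.isPRegular_iff_coprime.2 hx), H9.pq_map]
        exact index_cen1_map _ (QuotientGroup.mk'_surjective N) _
      · by_cases hH : IsPGroup p (⊤ : Subgroup H)
        · exact solv_top.1 (solv_of_isPGroup hH)
        · have : ¬ ∀ q, q.Prime → q ∣ ord (⊤ : Subgroup H) → q = p := fun h => hH (pgroup_of_forall h)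
          push Not at this
          obtain ⟨q, hq, hd, hne⟩ := this
          obtain ⟨x, -, hx⟩ := exists_orderOf_eq hq hd
          haveI := Fact.mk hq
          obtain ⟨k, hk⟩ := h x (by rw [hx]; exact (Nat.coprime_primes hq hp).2 hne)
          haveI := Fact.mk (H3.prime_card_of_simple_of_prime_power_class hp (ne_one_of_orderOf hx) hk)
          haveI := isCyclic_of_prime_card (α := H) rfl
          exact isSolvable_of_comm fun a b => mul_comm' a b
    obtain ⟨H, hH⟩ := exists_hall {p}ᶜ (solv_top.2 hs)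
    refine ⟨H, ?_, piN_compl_iff'.1 hH.pi, ?_⟩
    · set O := Op p (⊤ : Subgroup G)
      have hn : (⊤ : Subgroup G) ≤ nrm O := le_nrm_Opi _ _
      have hF : PiN {p}ᶜ (ord (Fit (im (qm O) ⊤))) :=
        (piN_Opi _ _).of_le (Fit_le_Opi (by rw [compl_compl]; exact Opi_im_qm _ _))
      have h1 : im (qm O) H ≤ cen (Fit (im (qm O) ⊤)) := by
        intro z hz
        obtain ⟨y, hy, rfl⟩ := (mem_im_of_le (le_top.trans hn)).1 hz
        obtain ⟨k, hk⟩ := h y (piN_compl_iff.1 (piN_card_iff.1 hH.pi y hy))
        obtain ⟨L, hL⟩ := exists_hall {p}ᶜ (solv_sub (cen1 y))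
        have h2 := (hL.trans le_top (by rw [compl_compl, relIndex_top_right, hk]; exact piN_pow k)).im
          hn (qm O)
        have h3 := h2.le_of_normal (Fit_le _) ((im_mono _ le_top).trans (le_nrm_Fit _)) hF
        exact le_cen1_iff.1 (h3.trans (im_le_cen1 _ (hn (mem_top y)) hL.le))
      have h2 : im (qm O) H ≤ Fit (im (qm O) ⊤) :=
        (le_inf (im_mono _ le_top) h1).trans (cen_Fit_le (solv_im _ (solv_top.2 hs)))
      have h3 := (im_le_cen_iff (le_top.trans hn) (le_top.trans hn)).1 (h1.trans (cen_anti h2))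
      rw [kr_qm] at h3
      rw [isComm_iff, ← comm_eq_bot, eq_bot_iff, ← (piN_Opi {p} (⊤ : Subgroup G)).inf_eq_bot hH.pi]
      exact le_inf h3 (comm_le_of_le le_rfl le_rfl)
    · have := hH.idx
      rwa [compl_compl, relIndex_top_right, piN_single_iff H.index_ne_zero_of_finite] at this
  · rintro ⟨H, hc, hd, k, hk⟩ x hx
    have hH : Hall {p}ᶜ H ⊤ := ⟨le_top, piN_compl_iff'.2 hd, by
      rw [compl_compl, relIndex_top_right, hk]; exact piN_pow k⟩
    obtain ⟨u, -, hu⟩ := wielandt_hall hH (nilp_of_comm hc) (le_top (a := zpowers x))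
      (by rw [card_zpowers_eq]; exact piN_compl_iff.2 hx)
    rw [H7.cj_zpowers] at hu
    refine pow_of_dvd hp ?_ hk
    rw [← H7.index_cj u, cj_cen1]
    exact index_dvd_of_le (le_cen1_iff.2 (isComm_iff.1 hc (hu (mem_zpowers _))))

end Cfsg.Agent.S4034
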