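import Cfsg.Statements.S4035
import Cfsg.Agent.H1.V3

set_option autoImplicit false
open Cfsg

namespace Cfsg.Agent.S4035

open H7 H1B Subgroup

/-- Let G be a finite group and p a prime such that p divides the size of no conjugacy class of p-regular elements (elements of order prime to p). Then G is the internal direct product of a Sylow p-subgroup P and a normal subgroup H of order prime to p: P is normal, P ⊓ H = 1 and PH = G. -/
theorem result {G : Type*} [Group G] [Finite G] {p : ℕ} [Fact p.Prime]
    (h : ∀ x : G, (orderOf x).Coprime p → ¬ p ∣ (ConjClasses.mk x).carrier.ncard) (P : Sylow p G) :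
    (P : Subgroup G).Normal ∧ ∃ H : Subgroup G, H.Normal ∧ ¬ p ∣ Nat.card H ∧
      (P : Subgroup G) ⊓ H = ⊥ ∧ (P : Subgroup G) ⊔ H = ⊤ := by
  obtain ⟨h1, -, h2⟩ := H8.npc_of_index (fun y hy => by
    have := h y hy
    rwa [← H8.ncard_isConj, show {z | IsConj y z} = (ConjClasses.mk y).carrier from Set.ext fun z => by
      rw [ConjClasses.mem_carrier_iff_mk_eq, ConjClasses.mk_eq_mk_iff_isConj, isConj_comm]; rfl]) (syl_top P)
  have h3 := npc_top_iff.1 h2
  exact ⟨h1, Op' p ⊤, normal_of (le_nrm_Opi _ _), not_dvd_Op' p ⊤,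
    inf_eq_bot_of_isPGroup P.isPGroup' (coprime_Op' p ⊤), by rw [sup_comm]; exact h3.sup (syl_top P)⟩

end Cfsg.Agent.S4035
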