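import Cfsg.Statements.S4036
import Cfsg.Agent.H1.V2

set_option autoImplicit false
open Cfsg

namespace Cfsg.Agent.S4036

open H7 H1B Subgroup

/-- Let P be a finite abelian p-group and K a group of automorphisms of P (a subgroup of Aut P) whose order is divisible by p. If all non-identity elements of K have the same fixed-point subgroup on P, then K has no non-trivial normal subgroup of order prime to p. -/
theorem result {P : Type*} [CommGroup P] [Finite P] {p : ℕ}
    [Fact p.Prime] (hP : IsPGroup p P) (K : Subgroup (MulAut P)) (hK : p ∣ Nat.card K)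
    (hfix : ∀ x y : MulAut P, x ∈ K → y ∈ K → x ≠ 1 → y ≠ 1 → ∀ v : P, x v = v ↔ y v = v) :
    ∀ N : Subgroup ↥K, N.Normal → ¬ p ∣ Nat.card N → N = ⊥ := by
  intro N hN hd
  by_contra hne
  obtain ⟨u, hu, hu1⟩ := exists_orderOf_eq Fact.out hK
  have hc : (ord (hR (N.map K.subtype))).Coprime p := by
    rw [H1.card_sdR, H7.card_map_subtype]; exact coprime_iff_not_dvd.2 hd
  have hV := pg_hL (pg_top hP)
  have h1 := comm_inf_cen_of_comm (isComm_iff.2 (hL_le_cen.2 (isComm_iff.1 (comm_top.2 mul_comm))))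
    (hR_le_nrm (N.map K.subtype) ⊤) (coprime_of_isPGroup hV hc)
  have h2 := comm_le_left (hR_le_nrm (N.map K.subtype) (⊤ : Subgroup P))
  refine pgroup_inf_cen_ne_bot' (P := hR (zpowers u)) ((isPGroup_zpowers_of_orderOf hu1).map _) (hV.to_le h2)
    (nrm_commutator (hR_le_nrm _ _) (map_le_nrm_map _ ((zpowers_le.2 hu).trans (le_nrm_map_subtype N))))
    (fun h => hne ?_) (eq_bot_iff.2 (h1 ▸ ?_))
  · exact (Subgroup.map_eq_bot_iff_of_injective _ K.subtype_injective).1 (hR_le_cen_top.1 (comm_eq_bot'.1 h))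
  · rintro _ ⟨h3, h4⟩
    obtain ⟨v, -, rfl⟩ := h2 h3
    refine ⟨h3, H1.inl_mem_centralizer_sdR.2 fun a ha => ?_⟩
    by_cases e : a = 1
    · rw [e]; rfl
    · exact (hfix u a hu (map_subtype_le N ha) (ne_one_of_orderOf hu1) e v).1
        (H1.inl_mem_centralizer_sdR.1 h4 u (mem_zpowers u))

end Cfsg.Agent.S4036
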