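import Cfsg.Statements.S4040
import Cfsg.Agent.H7.NilMax

set_option autoImplicit false
open Cfsg

namespace Cfsg.Agent.S4040
open H7
open scoped commutatorElement

/-- A finite group possessing a maximal subgroup that is nilpotent of odd order is solvable. -/
theorem result {G : Type*} [Group G] [Finite G]
    (M : Subgroup G) (hmax : IsCoatom M) (hnil : Group.IsNilpotent M) (hodd : Odd (Nat.card M)) :
    Group.IsSolvable G := by
  open Subgroup in
    refine isSolvable_of_nilp_coatom hmax hnil ?_
    haveI := Fact.mk Nat.prime_two
    rw [eq_bot_of_isPGroup_of_coprime (isPGroup_Op 2 M) (coprime_of_le (Opi_le _ _) (odd_iff_coprime.1 hodd))]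
    simp

end Cfsg.Agent.S4040
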