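import Cfsg.Statements.S4043
import Cfsg.Agent.H7.Tk7

set_option autoImplicit false
open Cfsg

namespace Cfsg.Agent.S4043
open H7
open scoped commutatorElement

/-- Let G be a finite group that is the semidirect product of a normal p-subgroup N by a subgroup A, and also of N by a subgroup A₁, where p is a prime and A and A₁ both have normal p-complements. If C_N(A) = C_N(A₁) = 1, then A₁ is conjugate to A by an element of N. -/
theorem result {G : Type*} [Group G] [Finite G] {p : ℕ}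
    [Fact p.Prime] (N : Subgroup G) [N.Normal] (hN : IsPGroup p N) (A A₁ : Subgroup G)
    (hA : A.IsComplement' N) (hA₁ : A₁.IsComplement' N)
    (hAp : Cfsg.HasNormalPComplement p A) (hA₁p : Cfsg.HasNormalPComplement p A₁)
    (hC : ∀ n : G, n ∈ N → (∀ a : G, a ∈ A → a * n * a⁻¹ = n) → n = 1)
    (hC₁ : ∀ n : G, n ∈ N → (∀ a : G, a ∈ A₁ → a * n * a⁻¹ = n) → n = 1) :
    ∃ n : G, n ∈ N ∧ A₁ = A.map (MulAut.conj n).toMonoidHom := by
  open Subgroup in
  have nN : ∀ X : Subgroup G, X ≤ normalizer (N : Set G) := fun X => le_nrm_of_normal _ _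
  have key : ∀ B : Subgroup G, B.IsComplement' N → HasNormalPComplement p B →
      (∀ n : G, n ∈ N → (∀ a : G, a ∈ B → a * n * a⁻¹ = n) → n = 1) →
      normalizer ((Op' p B : Subgroup G) : Set G) = B ∧ Op' p B ⊔ N = H2.pRes p ⊤ ⊔ N := fun B h1 h2 h3 => by
    have e : B ⊔ N = ⊤ := h1.sup_eq_top
    have h2 := npc_iff.1 h2
    obtain ⟨P, sP⟩ := H2.exists_isSylowIn p B
    have c := cop_of_pgroup' (coprime_Op' p B) hN (nN _)
    have z : N ⊓ centralizer ((Op' p B : Subgroup G) : Set G) = ⊥ := by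
      by_contra ne
      refine pgroup_inf_cen_ne_bot' sP.isPGroup hN.to_inf_left (nrm_inf (nN _) (nrm_cen (sP.le.trans (le_nrm_Opi _ _)))) ne
        (eq_bot_iff.2 fun n hn => h3 n hn.1.1 fun a ha => ?_)
      have : n ∈ centralizer (B : Set G) := by
        rw [← h2.sup sP, cen_sup]; exact ⟨hn.1.2, hn.2⟩
      exact conj_eq_of_mem_cen (le_cen_symm (zpowers_le.2 this) ha) (mem_zpowers n)
    refine ⟨le_antisymm ?_ (le_nrm_Opi _ _), ?_⟩
    · rw [← top_inf_eq (normalizer _), ← e, modular (nN _) (le_nrm_Opi _ _)]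
      exact sup_le le_rfl ((le_inf inf_le_left c.inf_nrm_le_cen).trans (z.le.trans bot_le))
    · have : im (qm N) (Op' p B) = im (qm N) (H2.pRes p ⊤) := by
        rw [← h2.eq, im_pRes (nN _), im_pRes (nN _), ← e, im_sup (nN _) (nN _), (im_qm_eq_bot (nN _)).2 le_rfl, sup_bot_eq]
      exact le_antisymm (sup_le ((im_qm_le (nN _) (nN _)).1 this.le) le_sup_right)
        (sup_le ((im_qm_le (nN _) (nN _)).1 this.ge) le_sup_right)
  obtain ⟨a1, a2⟩ := key A hA hAp hC
  obtain ⟨b1, b2⟩ := key A₁ hA₁ hA₁p hC₁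
  have co : ∀ B : Subgroup G, (Nat.card (Op' p B)).Coprime (Nat.card N) := fun B => coprime_of_isPGroup hN (coprime_Op' p B)
  obtain ⟨n, hn, l⟩ := sz_conj_le (cop_of_pgroup' (coprime_Op' p A) hN (nN _)) (nN _)
    (le_sup_left.trans (a2.trans b2.symm).le) (co A₁)
  obtain ⟨m, hm, l'⟩ := sz_conj_le (cop_of_pgroup' (coprime_Op' p A₁) hN (nN _)) (nN _)
    (le_sup_left.trans (b2.trans a2.symm).le) (co A)
  have := H2.eq_of_le_of_card_le l (by rw [H2.card_cj, ← H2.card_cj m]; exact card_le_of_le l')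
  refine ⟨n, hn, ?_⟩
  rw [← b1, ← this, ← cj_nrm, a1]; rfl

end Cfsg.Agent.S4043
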