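import Cfsg.Statements.S4049
import Cfsg.Agent.H1.V3

set_option autoImplicit false
open Cfsg

namespace Cfsg.Agent.S4049

open H7 H1B Subgroup

/-- Let G be a finite group such that N_G(H)/C_G(H) has odd order for every nontrivial subgroup H of odd order. Then the Sylow 2-subgroups of G are normal. -/
theorem result {G : Type*} [Group G] [Finite G]
    (hhom : ∀ H : Subgroup G, H ≠ ⊥ → ¬ 2 ∣ Nat.card ↥H →
        ¬ 2 ∣ (Subgroup.centralizer (H : Set G)).relIndex (Subgroup.normalizer (H : Set G))) (P : Sylow 2 G) :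
    (P : Subgroup G).Normal := by
  refine normal_of_no_real P fun x h1 h2 t e => ?_
  have h0 : x ≠ 1 := fun c => by rw [c, orderOf_one] at h1; exact Nat.not_prime_one h1
  obtain ⟨s, -, h3, e2⟩ := exists_two_inverts e
  have hn : zpowers s ≤ nrm (zpowers x) := zpowers_le.2 (cj_eq_self_iff.1 (by rw [H7.cj_zpowers, e2, zpowers_inv]))
  have h4 := le_of_coprime_relIndex (nrm_cen hn) hn (cen_le_nrm _)
    (coprime_of_isPGroup h3 (coprime_iff_not_dvd.2 (hhom (zpowers x) (by simpa using h0) (by
      rw [card_zpowers_eq]; exact fun c => h2 ((Nat.prime_dvd_prime_iff_eq Nat.prime_two h1).1 c).symm)))).symm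
    (mem_zpowers s)
  rw [cen_zpowers] at h4
  rw [mem_cen1.1 h4, mul_inv_cancel_right] at e2
  exact ne_inv_of_odd h0 (h1.odd_of_ne_two h2) e2

end Cfsg.Agent.S4049
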