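import Cfsg.Statements.S4050
import Cfsg.Agent.H1.V3

set_option autoImplicit false
open Cfsg

namespace Cfsg.Agent.S4050

open H7 H1B Subgroup

/-- Let π be a set of primes and G a finite group. The π-elements of G (elements whose order is divisible only by primes of π) form a subgroup if and only if G is π-separable (it has a chain of normal subgroups from 1 to G with each successive index divisible only by primes in π or only by primes outside π) and N_G(H)/C_G(H) is a π'-group for every nontrivial π'-subgroup H of G. -/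
theorem result {G : Type*} [Group G] [Finite G] (π : Set ℕ)
    (hπ : ∀ p ∈ π, p.Prime) :
    (∃ K : Subgroup G, ∀ x : G, x ∈ K ↔ ∀ p : ℕ, p.Prime → p ∣ orderOf x → p ∈ π) ↔
    ((∃ (n : ℕ) (H : Fin (n + 1) → Subgroup G), H 0 = ⊥ ∧ H (Fin.last n) = ⊤ ∧ Monotone H ∧ (∀ i, (H i).Normal) ∧
      ∀ i : Fin n, (∀ q : ℕ, q.Prime → q ∣ (H i.castSucc).relIndex (H i.succ) → q ∈ π) ∨
        (∀ q : ℕ, q.Prime → q ∣ (H i.castSucc).relIndex (H i.succ) → q ∉ π)) ∧
     (∀ H : Subgroup G, H ≠ ⊥ → (∀ p : ℕ, p.Prime → p ∣ Nat.card ↥H → p ∉ π) →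
        ∀ p : ℕ, p.Prime → p ∣ (Subgroup.centralizer (H : Set G)).relIndex (Subgroup.normalizer (H : Set G)) → p ∉ π)) := by
  constructor
  · rintro ⟨K, hK⟩
    obtain ⟨h1, h2, h3⟩ := closed_facts hK
    refine ⟨H1.PiSepTo.exists_chain (piSep_of_closed hK), fun H _ hH p hp hd c => ?_⟩
    haveI := Fact.mk hp
    obtain ⟨P, hP⟩ := exists_syl p (nrm H)
    have h4 : P ≤ K := fun x hx => (hK x).2 (piN_card_iff.1 (piN_of_isPGroup c hP.isPGroup) x hx)
    have h5 : K ⊓ nrm H ≤ cen H := comm_eq_bot.1 (eq_bot_iff.2 ((le_inf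
      ((commutator_mono inf_le_left le_rfl).trans (commutator_le_left K H))
      (comm_le_right inf_le_right)).trans (h2.inf_eq_bot hH).le))
    exact hP.not_dvd (hd.trans (relIndex_dvd_of_le_left _ ((le_inf h4 hP.le).trans h5)))
  · rintro ⟨⟨n, H, h0, h1, h2, h3, h4⟩, h⟩
    exact (homog_of h).closed (H1.piSep_of_chain H h0 h1 h2 h3 h4)

end Cfsg.Agent.S4050
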