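import Cfsg.Statements.S4056
import Cfsg.Agent.H1.V1

set_option autoImplicit false
open Cfsg

namespace Cfsg.Agent.S4056

open H7 H1B Subgroup
open scoped commutatorElement

/-- In a finite 2-group of nilpotency class at most 2 and exponent dividing 4, the Frattini subgroup lies in the centre and is elementary abelian. -/
theorem result {P : Type*} [Group P] [Finite P] (hP : IsPGroup 2 P)
    (hcl : Group.nilpotencyClass P ≤ 2) (hexp : Monoid.exponent P ∣ 4) :
    frattini P ≤ Subgroup.center P ∧ Cfsg.IsElementaryAbelian 2 (frattini P) := by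
  haveI := hP.isNilpotent
  have h1 : ⁅(⊤ : Subgroup P), (⊤ : Subgroup P)⁆ ≤ cen (⊤ : Subgroup P) :=
    comm_eq_bot.1 (Subgroup.lowerCentralSeries_eq_bot_iff_nilpotencyClass_le.2 hcl)
  have cm : ∀ x y z : P, Commute ⁅x, y⁆ z := fun x y z =>
    commute_of_mem_cen (h1 (commutator_mem_commutator trivial trivial)) trivial
  have h4 : ∀ x : P, x ^ 4 = 1 := fun x => Monoid.exponent_dvd_iff_forall_pow_eq_one.1 hexp x
  have h2 : ∀ x y : P, ⁅x, y⁆ ^ 2 = 1 := fun x y => by
    have e := mul_pow_of_comm (cm x y y) (cm x y x) 4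
    rw [h4, h4, h4, show Nat.choose 4 2 = 4 + 2 by decide, pow_add, h4] at e
    simpa using e.symm
  have h3 : frattini P ≤ Om 2 (center P) := by
    rw [← Phi_top]
    refine Phi_le_of_elem Nat.prime_two (commutator_le.2 fun x _ y _ =>
      mem_Om (cen_top (G := P) ▸ h1 (commutator_mem_commutator trivial trivial)) (h2 x y)) fun x _ =>
      mem_Om (mem_center_iff.2 fun y => commutatorElement_eq_one_iff_mul_comm.1 ?_) (by rw [← pow_mul, h4])
    rw [comm_pow_right (cm _ _ _), h2]
  exact ⟨h3.trans (H7.Om_le _ _), (ea_Om inferInstance).of_le h3⟩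

end Cfsg.Agent.S4056
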