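import Cfsg.Statements.S4058
import Cfsg.Agent.H1.Kaz

set_option autoImplicit false
open Cfsg

namespace Cfsg.Agent.S4058

open H3 MulAction
open scoped ComplexConjugate

theorem sum_mem_of_orbit {A X : Type*} [Group A] [Fintype X] [MulAction A X] (F : X → ℂ)
    (T : AddSubgroup ℂ) (hF : ∀ (a : A) x, F (a • x) = F x)
    (h : ∀ x, (Nat.card (orbit A x) : ℂ) * F x ∈ T) : ∑ x, F x ∈ T := by
  classical
  letI : Fintype (orbitRel.Quotient A X) := Fintype.ofFinite _
  rw [← Finset.sum_fiberwise Finset.univ (fun x : X => (Quotient.mk'' x : orbitRel.Quotient A X))]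
  refine sum_mem fun ω _ => ?_
  induction ω using Quotient.inductionOn' with
  | h x =>
  have e : ∀ y, (Quotient.mk'' y : orbitRel.Quotient A X) = Quotient.mk'' x ↔ y ∈ orbit A x :=
    fun y => Quotient.eq''
  rw [Finset.sum_congr rfl (g := fun _ => F x), Finset.sum_const, nsmul_eq_mul]
  · have : (Finset.univ.filter fun y => (Quotient.mk'' y : orbitRel.Quotient A X) = Quotient.mk'' x).card
        = Nat.card (orbit A x) := by
      rw [Nat.card_eq_fintype_card, Fintype.card_subtype]
      congr 1; ext y; simp [e]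
    rw [this]; exact h x
  · intro y hy
    obtain ⟨a, rfl⟩ := (e y).1 (Finset.mem_filter.1 hy).2
    exact hF a x

/-- linear characters of a quotient act on the irreducible characters -/
@[reducible] def act {G : Type*} [Group G] [Finite G] (N : Subgroup G) [N.Normal] :
    MulAction (G ⧸ N →* ℂˣ) (IrrCharacter G) where
  smul l χ := ⟨fun g => χ.1 g * (l.comp (QuotientGroup.mk' N)) g,
    (show IsIrrCharacter G χ.1 from χ.2).mul_lin _⟩
  one_smul χ := Subtype.ext (funext fun g => by
    show χ.1 g * _ = _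
    simp)
  mul_smul a b χ := Subtype.ext (funext fun g => by
    show χ.1 g * _ = χ.1 g * _ * _
    simp [mul_assoc, mul_comm, mul_left_comm])

theorem stab_le {G : Type*} [Group G] [Finite G] (N : Subgroup G) [N.Normal] (χ : IrrCharacter G)
    {d : ℕ} (hd : χ.1 1 = d) :
    Nat.card (letI := act N; stabilizer (G ⧸ N →* ℂˣ) χ) ≤ d ^ 2 := by
  classical
  letI := act N
  letI := Fintype.ofFinite G
  have hi : IsIrrCharacter G χ.1 := χ.2
  obtain ⟨n, hn, e⟩ := (hi.isCharacter.conj.mul hi.isCharacter).exists_coeff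
  choose deg hd0 hdeg using fun θ : IrrCharacter G => (show IsIrrCharacter G θ.1 from θ.2).exists_deg
  have e1 : d ^ 2 = ∑ θ, n θ * deg θ := by
    have := congrFun e 1
    rw [Pi.mul_apply, hd] at this
    simp only [Finset.sum_apply, Pi.smul_apply, hdeg, smul_eq_mul, map_natCast] at this
    exact_mod_cast (pow_two (d : ℂ)).trans this
  let ι : stabilizer (G ⧸ N →* ℂˣ) χ → {θ : IrrCharacter G // n θ ≠ 0} := fun l =>
    ⟨⟨fun g => (l.1.comp (QuotientGroup.mk' N)) g, isIrrCharacter_lin _⟩, by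
      intro h0
      have h1 := hn ⟨fun g => (l.1.comp (QuotientGroup.mk' N)) g, isIrrCharacter_lin _⟩
      rw [h0, mul_comm, inner_mul_left] at h1
      have h2 : (fun g => χ.1 g * (l.1.comp (QuotientGroup.mk' N)) g) = χ.1 := congrArg Subtype.val l.2
      simp only [RCLike.conj_conj, h2, hi.inner_self] at h1
      simp at h1⟩
  have hι : Function.Injective ι := fun a b h => by
    have := lin_injective (congrArg (fun x => x.1.1) h)
    exact Subtype.ext ((MonoidHom.cancel_right (QuotientGroup.mk'_surjective N)).1 this)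
  refine (Nat.card_le_card_of_injective ι hι).trans ?_
  rw [Nat.card_eq_fintype_card, Fintype.card_subtype, e1, Finset.card_filter]
  refine Finset.sum_le_sum fun θ _ => ?_
  split_ifs with h
  · exact Nat.mul_pos (Nat.pos_of_ne_zero h) (hd0 θ)
  · exact Nat.zero_le _

/-- Let G be a finite 2-group with #(G/Φ(G)) ≥ 2^(2k+1). Then the number of elements x of G with x² = 1 is divisible by 2^(k+1). -/
theorem result {G : Type*} [Group G] [Finite G] (hG : IsPGroup 2 G) (k : ℕ)
    (hgen : 2 ^ (2 * k + 1) ≤ Nat.card (G ⧸ frattini G)) :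
    2 ^ (k + 1) ∣ Nat.card {x : G // x ^ 2 = 1} := by
  classical
  letI := Fintype.ofFinite G
  letI := act (frattini G)
  haveI : Fact (Nat.Prime 2) := ⟨Nat.prime_two⟩
  have h1 := card_sq_eq_sum (1 : G)
  simp only [← pow_two] at h1
  have h2 : ∑ χ : IrrCharacter G, fsInd χ.1 * conj (χ.1 1) ∈
      AddSubgroup.zmultiples ((2 ^ (k + 1) : ℕ) : ℂ) := by
    refine sum_mem_of_orbit (A := G ⧸ frattini G →* ℂˣ) _ _ (fun l χ => ?_) fun χ => ?_
    · have e : ∀ g, (l • χ).1 g = χ.1 g * l g := fun g => rfl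
      have e2 : ∀ s : G, l ((s * s : G) : G ⧸ frattini G) = 1 := fun s => by
        rw [(QuotientGroup.eq_one_iff _).2 (pow_two s ▸ H1.pow_mem_frattini_of_isPGroup hG s), map_one]
      simp only [fsInd, e, e2, QuotientGroup.mk_one, map_one, Units.val_one, mul_one]
    · have hi : IsIrrCharacter G χ.1 := χ.2
      obtain ⟨d, -, hd⟩ := hi.exists_deg
      obtain ⟨n, hn⟩ := hG.exists_card_eq
      obtain ⟨a, -, rfl⟩ := (Nat.dvd_prime_pow Nat.prime_two).1 (hn ▸ hi.deg_dvd_card hd)
      obtain ⟨D, hD⟩ := (hG.to_quotient (frattini G)).exists_card_eq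
      haveI := H7.nilp_of_isPGroup (H1B.pg_top_iff.2 hG)
      haveI := H1B.nilp_top.1 this
      have hA : Nat.card (G ⧸ frattini G →* ℂˣ) = 2 ^ D := by
        rw [card_lin, ← hD, commutator_def, ← Subgroup.map_top_of_surjective _
          (QuotientGroup.mk'_surjective (frattini G)), ← Subgroup.map_commutator,
          (Subgroup.map_eq_bot_iff _).2, Subgroup.index_bot]
        rw [QuotientGroup.ker_mk']
        exact H1.commutator_le_frattini_of_isNilpotent
      have ho := (stabilizer (G ⧸ frattini G →* ℂˣ) χ).index_mul_card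
      rw [index_stabilizer, hA, ← Nat.card_coe_set_eq] at ho
      obtain ⟨s, -, hs⟩ := (Nat.dvd_prime_pow Nat.prime_two).1 (Dvd.intro_left _ ho)
      obtain ⟨t, -, ht⟩ := (Nat.dvd_prime_pow Nat.prime_two).1 (Dvd.intro _ ho)
      have h3 := stab_le (frattini G) χ hd
      rw [hs, ← pow_mul, Nat.pow_le_pow_iff_right one_lt_two] at h3
      rw [hs, ht, ← pow_add, Nat.pow_right_inj one_lt_two] at ho
      rw [hD, Nat.pow_le_pow_iff_right one_lt_two] at hgen
      obtain ⟨u, hu⟩ : ∃ u, t + a = k + 1 + u := ⟨t + a - (k + 1), by omega⟩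
      obtain ⟨ν, hν⟩ : ∃ ν : ℤ, fsInd χ.1 = ν := by
        rcases hi.fsInd_spec with ⟨-, h⟩ | ⟨-, h | h⟩
        exacts [⟨0, by simp [h]⟩, ⟨1, by simp [h]⟩, ⟨-1, by simp [h]⟩]
      refine ⟨ν * 2 ^ u, ?_⟩
      simp only [ht, hν, hd, map_natCast, zsmul_eq_mul]
      push_cast
      rw [mul_assoc, ← pow_add, add_comm u, ← hu]; ring
  rw [← h1] at h2
  obtain ⟨m, hm⟩ := h2
  simp only [zsmul_eq_mul] at hm
  exact Int.natCast_dvd_natCast.1 ⟨m, by exact_mod_cast (hm.symm.trans (mul_comm _ _))⟩

end Cfsg.Agent.S4058
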