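import Cfsg.Statements.S4065
import Cfsg.Agent.H4.Cls2

set_option autoImplicit false
open Cfsg

namespace Cfsg.Agent.S4065


/-- Let F be a finite field with 2ⁿ elements, n ≥ 2. In PSL₂(F) the centralizer of every element meets each of its conjugates by elements outside its normalizer trivially. -/
theorem result (n : ℕ) (hn : 2 ≤ n)
    (x : Matrix.ProjectiveSpecialLinearGroup (Fin 2) (GaloisField 2 n)) :
    Cfsg.IsTISubset (Subgroup.centralizer ({x} : Set (Matrix.ProjectiveSpecialLinearGroup (Fin 2) (GaloisField 2 n))) :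
      Set (Matrix.ProjectiveSpecialLinearGroup (Fin 2) (GaloisField 2 n))) := by
  classical
  intro g hg a ha hga
  by_contra h1
  apply hg
  set F := GaloisField 2 n
  have hq : Even (Nat.card F) := even_iff_two_dvd.2 (H4.char_dvd_card 2)
  have h1' := (map_ne_one_iff _ H4.jL_injective).2 h1
  have hC := H4.centralizer_comap H4.jL_injective x
  rw [H4.jL_range, H4.Lsub_eq_top hq, inf_top_eq] at hC
  suffices H2.cj (H4.jL g) (Subgroup.centralizer {H4.jL x}) = Subgroup.centralizer {H4.jL x} by
    rw [H2.mem_normalizer_iff_cj]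
    ext k
    rw [H2.mem_cj, hC, Subgroup.mem_comap, Subgroup.mem_comap, map_mul, map_mul, map_inv,
      ← H2.mem_cj, this]
  rw [SetLike.mem_coe, hC, Subgroup.mem_comap] at ha hga
  rw [map_mul, map_mul, map_inv, ← inv_inv (H4.jL g), inv_inv (H4.jL g)⁻¹, ← H2.mem_cj] at hga
  by_cases h2 : H4.jL x = 1
  · have : Subgroup.centralizer {H4.jL x} = ⊤ := by
      rw [h2, eq_top_iff]; intro y _; simp [Subgroup.mem_centralizer_iff]
    rw [this, H2.cj_top]
  suffices H2.cj (H4.jL g)⁻¹ (Subgroup.centralizer {H4.jL x}) = Subgroup.centralizer {H4.jL x} by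
    conv_lhs => rw [← this, H2.cj_cj_inv]
  rcases H4.elt_cases h2 with ⟨z, hz⟩ | ⟨u, v, m, h, hT⟩
  · rw [H4.centralizer_U hz h2] at *
    rw [H4.cj_Usub] at hga ⊢
    rw [ha.eq_of_fix h1' hga.1]
  · have h3 : H4.jL x * H4.jL x ≠ 1 := fun h3 => by
      have h4 := Subgroup.orderOf_dvd_natCard _ hT
      rw [h.card_T, orderOf_eq_prime (p := 2) (by rwa [sq]) h2] at h4
      have h5 := h.cases
      have h6 := Nat.even_iff.1 hq
      have h7 : 1 < Nat.card F := Finite.one_lt_card
      generalize Nat.card F = q at h5 h6 h7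
      omega
    rw [H4.centralizer_T h.1 h3 hT] at *
    rw [H4.cj_Tsub] at hga ⊢
    exact (H4.D_eq_of_mem h.1 (by simpa using h.1) h1' ha hga).2

end Cfsg.Agent.S4065
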