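import Cfsg.Statements.S4066
import Cfsg.Agent.H1.V2

set_option autoImplicit false
open Cfsg

namespace Cfsg.Agent.S4066

open H7 H1B Subgroup

/-- Let G be a finite group in which the centralizer of every element meets each of its conjugates by elements outside its normalizer trivially. Then any two distinct Sylow p-subgroups of G, for any prime p, intersect trivially. -/
theorem result {G : Type*} [Group G] [Finite G] (hTI : ∀ x : G, Cfsg.IsTISubset (Subgroup.centralizer ({x} : Set G) : Set G))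
    {p : ℕ} [Fact p.Prime] (P Q : Sylow p G) (hPQ : P ≠ Q) : (P : Subgroup G) ⊓ (Q : Subgroup G) = ⊥ := by
  by_contra h
  obtain ⟨x, ⟨h1, h2⟩, h3⟩ := exists_ne_one h
  obtain ⟨z, ⟨h4, h5⟩, h6⟩ := exists_ne_one (pgroup_inf_cen_ne_bot' P.isPGroup' P.isPGroup' (le_nrm_self _)
    fun e => h3 (mem_bot.1 (e ▸ h1)))
  have hP : (P : Subgroup G) ≤ cen1 z := le_cen1_iff.2 h5
  obtain ⟨g, hg⟩ := H2.sylow_exists_cj_eq P Q
  have h7 : g ∈ nrm (cen1 z) := by
    by_contra h8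
    rw [← hg] at h2
    obtain ⟨y, hy, rfl⟩ := mem_cj'.1 h2
    exact h3 (by rw [hTI z g h8 y (hP hy) (hP h1)]; simp)
  have hQ : (Q : Subgroup G) ≤ cen1 z := hg ▸ cj_le_of_mem_nrm h7 hP
  have h8 : cen1 z ≤ Fit (cen1 z) := fun y hy => by
    have k : cen1 z ≤ nrm (cen1 y) := fun c hc => by
      by_contra h9
      exact h6 (hTI y c h9 z (mem_cen1_comm.1 hy)
        (by rw [mul_inv_eq_iff_eq_mul.2 (mem_cen1.1 hc)]; exact mem_cen1_comm.1 hy))
    have k1 : H1.ncl (zpowers y) (cen1 z) ≤ cen1 y := H1.ncl_le (zpowers_le_cen1 y) k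
    have k2 : H1.ncl (zpowers y) (cen1 z) ≤ cen (H1.ncl (zpowers y) (cen1 z)) :=
      H1.ncl_le (zpowers_le.2 (le_cen1_iff.1 k1)) (nrm_cen H1.le_nrm_ncl)
    exact le_Fit (H1.ncl_le_of_le (zpowers_le.2 hy) le_rfl) H1.le_nrm_ncl (nilp_of_comm (isComm_iff.2 k2))
      (H1.le_ncl (mem_zpowers y))
  have h9 := nilp_sylow_Op (p := p) (nilp_of_le h8 (nilp_Fit _))
  exact hPQ (Sylow.ext ((syl_eq_of_normal ((syl_top P).mono hP le_top) h9 (le_nrm_Opi _ _)).trans
    (syl_eq_of_normal ((syl_top Q).mono hQ le_top) h9 (le_nrm_Opi _ _)).symm))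

end Cfsg.Agent.S4066
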