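import Cfsg.Statements.S4071
import Cfsg.Agent.H1.V3

set_option autoImplicit false
open Cfsg

namespace Cfsg.Agent.S4071

open H7 H1B Subgroup
open scoped commutatorElement

/-- Let G be a finite solvable non-nilpotent group. Every non-abelian subgroup of G is self-normalizing if and only if G is a semidirect product ⟨x⟩ ⋉ A in which ⟨x⟩ is a p-group for some prime p, A is a normal abelian subgroup of order prime to p, x^p is central in G, and x acts fixed-point-freely on A (no non-identity element of A commutes with x). -/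
theorem result {G : Type*} [Group G] [Finite G]
    [Group.IsSolvable G] (hnn : ¬ Group.IsNilpotent G) :
    (∀ H : Subgroup G, ¬ IsMulCommutative H → Subgroup.normalizer (H : Set G) = H) ↔
    ∃ (x : G) (A : Subgroup G) (p : ℕ), p.Prime ∧ A.Normal ∧ IsMulCommutative A ∧ (∃ k : ℕ, orderOf x = p ^ k) ∧
      ¬ p ∣ Nat.card A ∧ (Subgroup.zpowers x).IsComplement' A ∧ x ^ p ∈ Subgroup.center G ∧
      ∀ a : G, a ∈ A → a ≠ 1 → x * a * x⁻¹ ≠ a := by
  constructor
  · intro hS
    have t : (⊥ : Subgroup G) < ⊤ := bot_lt_iff_ne_bot.2 fun c => hnn (nilp_top.1 (c ▸ nilp_bot))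
    obtain ⟨M, h1, h2, h3⟩ := exists_max_lt (solv_comm_lt (solv_sub ⊤) t.ne')
    have nM : ⊤ ≤ nrm M := le_nrm_of_comm_le' le_top h1
    have aM : IsMulCommutative M := by_contra fun c => h2.not_ge (by rw [← hS M c]; exact nM)
    obtain ⟨p, hp, x, px, hx, hxp⟩ : ∃ p, p.Prime ∧ ∃ x, IsPGroup p (zpowers x) ∧ x ∉ M ∧ x ^ p ∈ M := by
      by_contra! c
      refine h2.not_ge fun g _ => zpowers_le_of_ppow fun q hq y _ hy => by_contra fun d => ?_
      haveI := Fact.mk hq
      obtain ⟨k, hk⟩ := H7.isPGroup_iff_mem.1 hy y (mem_zpowers y)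
      obtain ⟨i, h4, h5⟩ := exists_pow_not_mem d (hk ▸ one_mem M)
      exact c q hq _ (hy.to_le (zpowers_le.2 (pow_mem (mem_zpowers y) _))) h4 h5
    haveI := Fact.mk hp
    have e : zpowers x ⊔ M = ⊤ := (h3 _ le_sup_right le_top).resolve_left fun c => hx (c ▸ mem_sup_left (mem_zpowers x))
    have nA : ⊤ ≤ nrm (Op' p M) := nrm_Opi _ nM
    have aA := isComm_of_le aM (Opi_le {p}ᶜ M)
    have cA := coprime_Op' p M
    have e2 := nilp_Opi_sup (nilp_of_comm aM) {p}
    have pP := isPGroup_sup (le_top.trans (nrm_Opi {p} nM)) px (isPGroup_Op p M)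
    have e3 : zpowers x ⊔ Op p M ⊔ Op' p M = ⊤ := by rw [sup_assoc, e2, e]
    have lA := Opi_le {p}ᶜ M
    have cP := Opi_le_cen {p} M
    generalize Op' p M = A at *
    have c1 : (ord (zpowers x)).Coprime (ord A) := (coprime_of_isPGroup px cA).symm
    have n1 : zpowers x ≤ nrm A := le_top.trans nA
    have h4 : ¬ zpowers x ≤ cen A := fun c => hnn (nilp_top.1 (e3 ▸ nilp_sup_of_cen (sup_le c cP)
      (nilp_of_isPGroup pP) (nilp_of_comm aA)))
    have h5 : zpowers x ⊔ A = ⊤ := by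
      have := hS (zpowers x ⊔ A) fun a => h4 (le_cen_mono (isComm_iff.1 a) le_sup_left le_sup_right)
      refine by_contra fun c => ?_
      have k : im (qm A) (zpowers x ⊔ A) < im (qm A) ⊤ := im_lt_im (le_top.trans nA) nA ((kr_qm A).le.trans le_sup_right)
        (lt_top_iff_ne_top.2 c)
      have k2 := pgroup_lt_nrm (p := p) (by
        rw [← e3, im_sup (le_top.trans nA) (le_nrm_self A), (im_eq_bot_iff (le_nrm_self A)).2 (kr_qm A).ge, sup_bot_eq]
        exact isPGroup_im _ pP) k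
      rw [← im_nrm_inf nA (le_top.trans nA) ((kr_qm A).le.trans le_sup_right), this, top_inf_eq] at k2
      exact k2.false
    refine ⟨x, A, p, hp, normal_of nA, aA, ord_of_pg px, coprime_iff_not_dvd.1 cA, ?_, ?_, fun a ha h1 c => ?_⟩
    · haveI := normal_of nA
      exact (compl_iff.2 ⟨h5, eq_bot_of_coprime c1⟩).symm
    · rw [← cen_top, ← h5, cen_sup, cen_zpowers]
      exact ⟨zpowers_le_cen1 x (pow_mem (mem_zpowers x) p), cen_anti lA (isComm_iff.1 aM hxp)⟩
    · have n2 : zpowers x ≤ nrm ⁅A, zpowers x⁆ := nrm_commutator n1 (le_nrm_self _)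
      have := hS (zpowers x ⊔ ⁅A, zpowers x⁆) fun a => h4 (cen_of_comm_comm n1 c1
        (le_cen_mono (isComm_iff.1 a) le_sup_right le_sup_left))
      have ca : a ∈ cen (zpowers x) := by rw [cen_zpowers]; exact mem_cen1.2 (mul_inv_eq_iff_eq_mul.1 c).symm
      have k : a ∈ (⁅A, zpowers x⁆ ⊔ zpowers x) ⊓ A := ⟨by
        rw [sup_comm, ← this]
        exact cen_le_nrm _ (by rw [cen_sup]; exact ⟨ca, cen_anti (comm_le_left n1) (isComm_iff.1 aA ha)⟩), ha⟩
      rw [modular' n2 (comm_le_left n1), eq_bot_of_coprime c1, sup_bot_eq] at k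
      exact h1 (mem_bot.1 ((comm_inf_cen_of_comm aA n1 c1).le ⟨k, ca⟩))
  · rintro ⟨x, A, p, hp, nA, aA, ⟨k, hk⟩, hd, hc, hz, hf⟩ H hH
    haveI := Fact.mk hp
    obtain ⟨e1, e2⟩ := compl_iff.1 hc.symm
    have px := pg_zpowers hk
    have cA := coprime_iff_not_dvd.2 hd
    have sy : IsSylowIn p (zpowers x) ⊤ := syl_of_relIndex px le_top (by
      rw [relIndex_top_right, hc.symm.index_eq_card]; exact cA)
    obtain ⟨P, hP⟩ := exists_syl p H
    obtain ⟨g, -, hg⟩ := sy.exists_cj_le hP.isPGroup le_top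
    suffices nrm (cj g H) ≤ cj g H by
      refine le_antisymm ?_ (le_nrm_self H)
      rwa [← cj_nrm, H7.cj_le_iff, ← cj_mul, inv_mul_cancel, cj_one] at this
    replace hP := hP.cj g
    rw [← isComm_cj (g := g)] at hH
    generalize cj g H = H at *
    generalize cj g P = P at *
    have e3 : H ⊓ A ⊔ P = H := syl_sup_normal hP inf_le_left (by
      rw [inf_relIndex_left]
      refine PiN.dvd ?_ (relIndex_dvd_index_of_normal A H)
      rw [hc.index_eq_card]; exact piN_iff_isPGroup.2 px)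
    have hx : x ∈ H := by_contra fun c => hH (by
      have : P ≤ center G := fun y hy => by
        obtain ⟨j, rfl⟩ := mem_powers_iff_mem_zpowers.2 (hg hy)
        by_cases d : p ∣ j
        · obtain ⟨i, rfl⟩ := d
          show x ^ (p * i) ∈ _
          rw [pow_mul]; exact pow_mem hz i
        · exact (c (mem_of_pow_mem' (hP.le hy) (by rw [hk]; exact (coprime_iff_not_dvd.2 d).pow_right k))).elim
      rw [← e3]
      exact isComm_sup (isComm_of_le aA inf_le_right) (isComm_iff.2 (this.trans (cen_top.ge.trans (cen_anti le_top))))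
        (le_cen_symm (this.trans (cen_top.ge.trans (cen_anti le_top)))))
    have f0 : A ⊓ cen1 x = ⊥ := eq_bot_iff.2 fun a ha => by_contra fun c =>
      hf a ha.1 c (mul_inv_eq_iff_eq_mul.2 (mem_cen1.1 ha.2).symm)
    intro n hn
    obtain ⟨y, hy, a, ha, rfl⟩ := (mem_sup_nrm (le_nrm_of_normal _ A)).1 (e1.ge (mem_top n))
    have hy' := zpowers_le.2 hx hy
    refine mul_mem hy' ?_
    have na : a ∈ nrm H := by simpa using mul_mem (inv_mem (le_nrm_self H hy')) hn
    obtain ⟨b, hb, e⟩ := H1.exists_eq_mul_conj_inv (K := H ⊓ A) (nrm_inf (le_nrm_self H) (le_nrm_of_normal _ A) hx)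
      (eq_bot_iff.2 ((inf_le_inf_right _ inf_le_right).trans f0.le))
      (k := a * (x * a⁻¹ * x⁻¹)) ⟨by simpa [mul_assoc] using mul_mem (nconj_mem na hx) (inv_mem hx),
        A.mul_mem ha (nA.conj_mem _ (inv_mem ha) x)⟩
    have : b⁻¹ * a ∈ A ⊓ cen1 x := ⟨A.mul_mem (inv_mem hb.2) ha, mem_cen1.2 (by
      calc b⁻¹ * a * x = b⁻¹ * (a * (x * a⁻¹ * x⁻¹)) * x * a := by group
        _ = _ := by rw [← e]; group)⟩
    rw [f0, mem_bot, inv_mul_eq_one] at this
    exact this ▸ hb.1

end Cfsg.Agent.S4071
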