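import Cfsg.Statements.S4072
import Cfsg.Agent.H1.V3

set_option autoImplicit false
open Cfsg

namespace Cfsg.Agent.S4072

open H7 H1B Subgroup
open scoped commutatorElement

/-- A finite group in which every non-abelian subgroup is self-normalizing is solvable or simple. -/
theorem result {G : Type*} [Group G] [Finite G] (hS : ∀ H : Subgroup G, ¬ IsMulCommutative H → Subgroup.normalizer (H : Set G) = H) :
    Group.IsSolvable G ∨ IsSimpleGroup G := by
  by_contra! c
  obtain ⟨c1, c2⟩ := c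
  have h1 : ∀ N : Subgroup G, ⊤ ≤ nrm N → N ≠ ⊤ → N ≤ Osol ⊤ ∧ IsMulCommutative N := fun N hN h => by
    have : IsMulCommutative N := by_contra fun c => h (by rw [← hS N c]; exact eq_top_iff.2 hN)
    exact ⟨le_Osol le_top hN (solv_of_comm this), this⟩
  have h2 : Osol (⊤ : Subgroup G) ≠ ⊤ := fun e => c1 (solv_top.1 (e ▸ solv_Osol ⊤))
  have h3 : ∀ p, [Fact p.Prime] → ∀ N : Subgroup G, ⊤ ≤ nrm N → N ≠ ⊤ → ¬ PiN {p} (N.relIndex ⊤) :=
    fun p _ N hN h c => c1 (solv_top.1 (solv_of_piN_relIndex le_top hN (solv_of_comm (h1 N hN h).2) c))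
  have hZ : center G = ⊥ := by_contra fun c => by
    obtain ⟨p, hp, hd⟩ := exists_prime_dvd c
    haveI := Fact.mk hp
    obtain ⟨z, hz, e⟩ := exists_orderOf_eq hp hd
    have zc : ∀ B : Subgroup G, zpowers z ≤ cen B := fun B => zpowers_le.2 (cen_anti le_top (cen_top.ge hz))
    have hn : NPC p (⊤ : Subgroup G) := npc_frob fun Q _ hQ y _ hy hc => by
      have n1 : zpowers y ≤ nrm (zpowers z ⊔ Q) := nrm_sup (le_nrm_of_le_cen (le_cen_symm (zc _))) (zpowers_le.2 hy)
      have p1 := isPGroup_sup (le_nrm_of_le_cen (zc Q)) (isPGroup_zpowers_of_orderOf e) hQ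
      have c1 : (ord (zpowers y)).Coprime p := by rwa [card_zpowers_eq]
      refine cen_anti le_sup_right (zpowers_le.1 (?_ : zpowers y ≤ cen (zpowers z ⊔ Q)))
      generalize hR : zpowers z ⊔ Q = R at *
      have zR : z ∈ R := hR ▸ mem_sup_left (mem_zpowers z)
      by_cases a : IsMulCommutative R
      · have n2 : zpowers y ≤ nrm ⁅R, zpowers y⁆ := nrm_commutator n1 (le_nrm_self _)
        have p2 := p1.to_le (comm_le_left n1)
        refine cen_of_comm_comm n1 (coprime_of_isPGroup p1 c1) (by_contra fun c => ?_)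
        have := hS (zpowers y ⊔ ⁅R, zpowers y⁆) fun a => c (le_cen_mono (isComm_iff.1 a) le_sup_right le_sup_left)
        have k : zpowers z ≤ zpowers y ⊔ ⁅R, zpowers y⁆ := this ▸ le_nrm_of_le_cen (zc _)
        have k2 : zpowers z ≤ ⁅R, zpowers y⁆ := le_of_coprime_relIndex (le_nrm_of_le_cen (zc _)) k le_sup_right (by
          rw [card_zpowers_eq, e, relIndex_sup_nrm n2]
          exact (Nat.Coprime.coprime_dvd_left (relIndex_dvd_card' _ _) c1).symm)
        have := (comm_inf_cen_of_comm a n1 (coprime_of_isPGroup p1 c1)).le ⟨k2 (mem_zpowers z), zc _ (mem_zpowers z)⟩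
        exact ne_one_of_orderOf e (mem_bot.1 this)
      · rw [hS R a] at n1
        rw [eq_bot_of_isPGroup_of_coprime (p1.to_le n1) c1]; exact bot_le
    exact h3 p _ (le_nrm_Opi _ _) (fun c => not_dvd_Op' p (⊤ : Subgroup G) (hd.trans (card_dvd_of_le (le_top.trans c.ge)))) hn.relIndex
  have h4 : Osol (⊤ : Subgroup G) ≠ ⊥ := fun e => c2 (by
    haveI : Nontrivial G := (Subgroup.nontrivial_iff).1 ⟨_, _, h2⟩
    exact ⟨fun N hN => (em (N = ⊤)).symm.imp_left fun h => eq_bot_iff.2 (e ▸ (h1 N (top_nrm N) h).1)⟩)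
  have nM := le_nrm_Osol (⊤ : Subgroup G)
  generalize Osol (⊤ : Subgroup G) = M at *
  have h5 : cen M ≤ M := (h1 _ (nrm_cen nM) fun c => h4 (eq_bot_iff.2 (by
    rw [← hZ, ← cen_top]; exact le_cen_symm c.ge))).1
  have h6 : ∀ X ≤ im (qm M) ⊤, X ≠ ⊥ → im (qm M) ⊤ ⊓ nrm X ≤ X := fun X hX h => by
    have k : kr (qm M) ≤ pre (qm M) X := kr_le_pre _ _
    have := hS (pre (qm M) X) fun a => h (by
      rw [← im_pre_of_le hX, im_eq_bot_iff (pre_le _ _), kr_qm]
      exact ((isComm_iff.1 a).trans (cen_anti ((kr_qm M).ge.trans k))).trans h5)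
    rw [← im_pre_of_le hX, ← im_nrm_inf nM (pre_le _ _) k, this, top_inf_eq]
  have h7 : im (qm M) ⊤ ≠ ⊥ := fun c => h2 (eq_top_iff.2 (by rwa [im_eq_bot_iff nM, kr_qm] at c))
  obtain ⟨p, hp, hd⟩ := exists_prime_dvd h7
  haveI := Fact.mk hp
  obtain ⟨P, hP⟩ := exists_syl p (im (qm M) ⊤)
  obtain ⟨x, hx, h8⟩ := exists_ne_one (pgroup_inf_cen_ne_bot' hP.isPGroup hP.isPGroup (le_nrm_self P) (syl_ne_bot hP hd))
  have h9 : P ≤ zpowers x := (le_inf hP.le (le_nrm_of_le_cen (le_cen_symm (zpowers_le.2 hx.2)))).trans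
    (h6 _ (zpowers_le.2 (hP.le hx.1)) (zpowers_eq_bot.not.2 h8))
  have hn := npc_burnside hP ((h6 P hP.le (syl_ne_bot hP hd)).trans (isComm_iff.1 (isComm_of_le (isComm_zpowers x) h9)))
  exact h3 p (pre (qm M) (Op' p (im (qm M) ⊤))) (le_nrm_pre nM (le_nrm_Opi _ _)) (fun c => not_dvd_Op' p (im (qm M) ⊤)
    (hd.trans (card_dvd_of_le ((im_le_iff nM).2 c.ge)))) (by rw [relIndex_pre nM]; exact hn.relIndex)

end Cfsg.Agent.S4072
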