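import Cfsg.Statements.S4073
import Cfsg.Agent.H9.SNz

set_option autoImplicit false
open Cfsg

namespace Cfsg.Agent.S4073
open H9 H3 MonoidAlgebra
open scoped Pointwise
set_option linter.style.haveILetI false
set_option linter.unusedVariables false
open Subgroup

/-- Let G be a finite non-abelian simple group. Every non-abelian subgroup of G is self-normalizing if and only if G is isomorphic to PSL₂(2ⁿ) for some n ≥ 2 with 2ⁿ − 1 prime (this includes the alternating group of degree 5 as PSL₂(4)). -/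
theorem result {G : Type*} [Group G] [Finite G] [IsSimpleGroup G]
    (hna : ¬ IsMulCommutative G) :
    (∀ H : Subgroup G, ¬ IsMulCommutative H → Subgroup.normalizer (H : Set G) = H) ↔
    ∃ n : ℕ, 2 ≤ n ∧ (2 ^ n - 1).Prime ∧ Nonempty (G ≃* Matrix.ProjectiveSpecialLinearGroup (Fin 2) (GaloisField 2 n)) := by
  have k : ∀ n, 2 ≤ n → Nat.card (GaloisField 2 n) = 2 ^ n ∧ 4 ≤ 2 ^ n ∧ Function.Bijective (H4.jL (K := GaloisField 2 n)) := fun n hn => by
    have c := GaloisField.card 2 n (by omega)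
    refine ⟨c, Nat.pow_le_pow_right (n := 2) (by norm_num) hn, H4.jL_injective, MonoidHom.range_eq_top.1 ?_⟩
    rw [H4.jL_range, H4.Lsub_eq_top (by rw [c]; exact (Nat.even_pow' (by omega)).2 even_two)]
  refine ⟨fun h => ?_, fun ⟨n, hn, hp, ⟨e⟩⟩ => ?_⟩
  · obtain ⟨n, hn, ⟨e⟩⟩ := H9.SNA.psl h hna
    obtain ⟨c, l, b⟩ := k n hn
    let f := (e.trans (MulEquiv.ofBijective _ b)).symm
    exact ⟨n, hn, c ▸ H9.prime_of_sna (H9.SNA.of_inj h f.toMonoidHom f.injective) (by omega), ⟨e⟩⟩
  · obtain ⟨c, l, b⟩ := k n hn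
    let f := e.trans (MulEquiv.ofBijective _ b)
    haveI := f.symm.isSimpleGroup
    exact (H9.sna_pgl (c ▸ hp)).of_inj f.toMonoidHom f.injective

end Cfsg.Agent.S4073
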