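import Cfsg.Statements.S4074
import Cfsg.Agent.H1.V2

set_option autoImplicit false
open Cfsg

namespace Cfsg.Agent.S4074

open H7 H1B Subgroup DihedralGroup

/-- For n > 2, every non-abelian subgroup of the dihedral group of order 2n is self-normalizing if and only if n = 4 or n is odd. -/
theorem result (n : ℕ) (hn : 2 < n) :
    (∀ H : Subgroup (DihedralGroup n), ¬ IsMulCommutative H → Subgroup.normalizer (H : Set (DihedralGroup n)) = H) ↔
    (n = 4 ∨ Odd n) := by
  haveI : NeZero n := ⟨by omega⟩
  constructor
  · intro h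
    by_contra hc
    push Not at hc
    obtain ⟨m, rfl⟩ := Nat.not_odd_iff_even.1 hc.2
    let φ : ZMod (m + m) →+* ZMod 2 := ZMod.castHom ⟨m, by ring⟩ _
    let ψ : DihedralGroup (m + m) →* Multiplicative (ZMod 2) := MonoidHom.mk'
      (fun g => match g with
        | r i => Multiplicative.ofAdd (φ i)
        | sr i => Multiplicative.ofAdd (φ i)) (by
        rintro (i | i) (j | j) <;> simp [← ofAdd_add, sub_eq_add_neg, add_comm])
    have h1 := h ψ.ker fun hk => by
      have := isComm_iff'.1 hk (r 2) (by simp [ψ, MonoidHom.mem_ker, map_ofNat]; rfl) (sr 0)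
        (by simp [ψ, MonoidHom.mem_ker])
      simp only [r_mul_sr, sr_mul_r, sr.injEq, zero_sub, zero_add] at this
      have h2 : ((4 : ℕ) : ZMod (m + m)) = 0 := by push_cast; linear_combination -this
      have h3 := Nat.le_of_dvd (by norm_num) ((ZMod.natCast_eq_zero_iff _ _).1 h2)
      have := hc.1
      omega
    have h2 : r 1 ∈ ψ.ker := h1 ▸ top_nrm _ trivial
    simp [ψ, MonoidHom.mem_ker] at h2
  · rintro (rfl | ho) H hH
    · obtain rfl : H = ⊤ := by
        by_contra e
        have h1 : IsPGroup 2 (⊤ : Subgroup (DihedralGroup 4)) :=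
          pgroup_of_card (n := 3) (by rw [card_top, nat_card]; rfl)
        exact hH (comm_of_card_le (h1.to_le le_top) (H7.card_le_of_lt h1
          (by rw [card_top, nat_card]; rfl) (lt_top_iff_ne_top.2 e)))
      exact eq_top_iff.2 (le_nrm_self _)
    obtain ⟨i, hi⟩ : ∃ i, sr i ∈ H := by
      by_contra h
      push Not at h
      refine hH (isComm_iff'.2 ?_)
      rintro (a | a) ha (b | b) hb
      · simp [add_comm]
      all_goals first | exact absurd ha (h _) | exact absurd hb (h _)
    have k : ∀ j, r j ∈ nrm H → r j ∈ H := fun j hj => by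
      have h1 := mul_mem hi (nconj_mem' hj hi)
      have h2 : sr i * ((r j)⁻¹ * sr i * r j) = r j ^ 2 := by simp [pow_two, add_assoc]
      rw [h2] at h1
      exact mem_of_pow_mem' h1 (odd_iff_coprime.1 (ho.of_dvd_nat (orderOf_dvd_of_pow_eq_one
        (by rw [r_pow]; simp)))).symm
    refine le_antisymm ?_ (le_nrm_self H)
    rintro (j | j) hj
    · exact k j hj
    · have := mul_mem hi (k _ (mul_mem (le_nrm_self H hi) hj))
      simpa using this

end Cfsg.Agent.S4074
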