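import Cfsg.Statements.S4075
import Cfsg.Agent.H1.V2

set_option autoImplicit false
open Cfsg

namespace Cfsg.Agent.S4075

open H7 H1B Subgroup

/-- Let G be a finite nilpotent group. Every non-abelian subgroup of G is self-normalizing if and only if G is abelian or G is a minimal non-abelian p-group for some prime p (non-abelian of prime-power order with every proper subgroup abelian). -/
theorem result {G : Type*} [Group G] [Finite G]
    [Group.IsNilpotent G] :
    (∀ H : Subgroup G, ¬ IsMulCommutative H → Subgroup.normalizer (H : Set G) = H) ↔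
    (IsMulCommutative G ∨ (IsPrimePow (Nat.card G) ∧ ¬ IsMulCommutative G ∧ ∀ H : Subgroup G, H ≠ ⊤ → IsMulCommutative H)) := by
  have hn : Group.IsNilpotent (⊤ : Subgroup G) := nilp_top.2 inferInstance
  constructor
  · intro h
    refine or_iff_not_imp_left.2 fun hc => ?_
    have k : ∀ H : Subgroup G, H ≠ ⊤ → IsMulCommutative H := fun H hH => by
      by_contra h1
      have := nilp_lt_nrm hn (lt_top_iff_ne_top.2 hH)
      rw [h H h1, top_inf_eq] at this
      exact this.false
    refine ⟨?_, hc, k⟩
    have hb : (⊤ : Subgroup G) ≠ ⊥ := fun e => hc (comm_top'.1 (e ▸ isComm_bot))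
    obtain ⟨p, hp, hd⟩ := exists_prime_dvd hb
    haveI := Fact.mk hp
    by_cases e : Op p (⊤ : Subgroup G) = ⊤
    · obtain ⟨n, hn⟩ := card_pgroup (isPGroup_Op p (⊤ : Subgroup G))
      rw [e, card_top] at hn
      rcases n with _ | n
      · exact absurd (card_eq_one.1 (card_top.trans hn)) hb
      · exact hn ▸ hp.isPrimePow.pow n.succ_ne_zero
    · refine absurd (comm_top'.1 ?_) hc
      rw [← nilp_Opi_sup hn {p}]
      refine isComm_sup (k _ e) (k _ fun e' => not_dvd_Op' p (⊤ : Subgroup G) ?_) (Opi_le_cen _ _)
      rwa [show Op' p (⊤ : Subgroup G) = ⊤ from e']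
  · rintro (h | ⟨-, -, h⟩) H hH
    · exact absurd (isComm_of_le (comm_top'.2 h) le_top) hH
    · obtain rfl : H = ⊤ := by
        by_contra e
        exact hH (h H e)
      exact eq_top_iff.2 (le_nrm_self _)

end Cfsg.Agent.S4075
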