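import Cfsg.Statements.S4080
import Cfsg.Agent.H1.V2
import Cfsg.Agent.H2.FS20
import Cfsg.Agent.H2.TrF

set_option autoImplicit false
open Cfsg

namespace Cfsg.Agent.S4080

open H7 H1B Subgroup

/-- Let p > 3 be a prime and L the direct product of two cyclic groups of order p². Every automorphism of L of order p fixes every element of order p of L. -/
theorem result {p : ℕ} [Fact p.Prime] (hp : 3 < p)
    (a : MulAut (Multiplicative (ZMod (p ^ 2) × ZMod (p ^ 2)))) (ha : orderOf a = p)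
    (x : Multiplicative (ZMod (p ^ 2) × ZMod (p ^ 2))) (hx : orderOf x = p) : a x = x := by
  have hp' : p.Prime := Fact.out
  haveI : NeZero (p ^ 2) := ⟨(pow_pos hp'.pos 2).ne'⟩
  let L := Multiplicative (ZMod (p ^ 2) × ZMod (p ^ 2))
  have hc : ord (hL (⊤ : Subgroup L)) = p ^ 4 := by
    rw [H1.card_sdL_top]
    simp [L, ← pow_add]
  have hV := pgroup_of_card hc
  have ha' : IsPGroup p (zpowers (SemidirectProduct.inr a : Hol L)) :=
    isPGroup_zpowers_of_orderOf (by rw [orderOf_injective _ SemidirectProduct.inr_injective, ha])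
  have hn : zpowers (SemidirectProduct.inr a : Hol L) ≤ nrm (hL ⊤) := le_nrm_of_normal _ _
  have h1 := H2.mem_cen_mho (p := p) (n := 1)
    (isComm_iff.2 (hL_le_cen.2 (isComm_iff.1 (comm_top.2 mul_comm)))) (hn (mem_zpowers _))
    (by rw [← map_pow, orderOf_dvd_iff_pow_eq_one.1 ha.dvd, map_one]; exact one_mem _) (by
      by_contra h
      have := H2.pow_dvd_card_of_iter ha' _ _ hV hn h
      rw [hc, Nat.pow_dvd_pow_iff_le_right hp'.one_lt] at this
      omega)
  have k : ∀ u : ZMod (p ^ 2), p • u = 0 → ∃ v : ZMod (p ^ 2), u = p • v := fun u hu => by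
    obtain ⟨m, rfl⟩ := ZMod.natCast_zmod_surjective u
    rw [nsmul_eq_mul, ← Nat.cast_mul, ZMod.natCast_eq_zero_iff, pow_two] at hu
    obtain ⟨c, rfl⟩ := Nat.dvd_of_mul_dvd_mul_left hp'.pos hu
    exact ⟨c, by simp⟩
  have h2 : p • x.toAdd = 0 := congrArg Multiplicative.toAdd (orderOf_dvd_iff_pow_eq_one.1 hx.dvd)
  obtain ⟨u, hu⟩ := k _ (congrArg Prod.fst h2)
  obtain ⟨v, hv⟩ := k _ (congrArg Prod.snd h2)
  have h3 : x = (Multiplicative.ofAdd (u, v) : L) ^ p ^ 1 := by
    rw [pow_one]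
    exact Multiplicative.toAdd.injective (Prod.ext hu hv)
  have h4 : zpowers (SemidirectProduct.inl x : Hol L) ≤ H2.mho (p ^ 1) (hL ⊤) := by
    rw [zpowers_le, h3, map_pow]
    exact H2.pow_mem_mho (mem_map_of_mem _ trivial)
  have h5 := cen_anti h4 h1
  rw [← MonoidHom.map_zpowers] at h5
  exact H1.inr_mem_centralizer_sdL.1 h5 x (mem_zpowers x)

end Cfsg.Agent.S4080
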