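import Cfsg.Statements.S4081
import Mathlib
import Cfsg.Agent.H8.Orb3

set_option autoImplicit false
open Cfsg

namespace Cfsg.Agent.S4081

open Subgroup H7 H8

/-- Let G be a finite group whose order is not a prime power. Then the automorphism group of G has exactly three orbits on G if and only if there are distinct primes p, q with #G = pⁿ·q (n ≥ 1) such that G has a normal elementary abelian Sylow p-subgroup P, p is a primitive root modulo q (the multiplicative order of p mod q is q − 1), and every element of order q of G acts on P without non-identity fixed points. -/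
theorem result {G : Type*} [Group G] [Finite G] (hnpp : ¬ IsPrimePow (Nat.card G)) (hnt : Nat.card G ≠ 1) :
    Nat.card (MulAction.orbitRel.Quotient (MulAut G) G) = 3 ↔
    ∃ (p q n : ℕ) (_ : Fact p.Prime) (_ : Fact q.Prime), p ≠ q ∧ 1 ≤ n ∧ Nat.card G = p ^ n * q ∧
      (∀ P : Sylow p G, (P : Subgroup G).Normal ∧ Cfsg.IsElementaryAbelian p (P : Subgroup G)) ∧
      orderOf (p : ZMod q) = q - 1 ∧
      ∀ x y : G, orderOf x = q → orderOf y = p → x * y * x⁻¹ ≠ y := by
  classical
  constructor
  swap
  · rintro ⟨p, q, n, hp, hq, hne, hn, hc, hP, ho, hf⟩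
    let P : Sylow p G := default
    haveI := (hP P).1
    have hi : (P : Subgroup G).index = q := by
      have h1 := P.card_eq_multiplicity
      rw [hc, Nat.factorization_mul (pow_ne_zero _ hp.out.ne_zero) hq.out.ne_zero] at h1
      simp [hp.out.factorization, hq.out.factorization, hne] at h1
      have h2 := (P : Subgroup G).card_mul_index
      rw [hc] at h2
      exact Nat.eq_of_mul_eq_mul_left (pow_pos hp.out.pos n) ((congrArg (· * _) h1.symm).trans h2)
    exact orb3_bwd hne (hP P).2 (P.ne_bot_of_dvd_card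
      (hc ▸ (dvd_pow_self p (by omega)).mul_right q)) hi ho hf
  intro h3
  obtain ⟨p, hp, hpd⟩ := Nat.exists_prime_and_dvd hnt
  obtain ⟨q, hq, hqd, hne⟩ : ∃ q, q.Prime ∧ q ∣ Nat.card G ∧ q ≠ p := by
    by_contra hc
    push Not at hc
    exact hnpp (isPrimePow_iff_unique_prime_dvd.2 ⟨p, ⟨hp, hpd⟩, fun r hr => hc r hr.1 hr.2⟩)
  haveI := Fact.mk hp
  haveI := Fact.mk hq
  obtain ⟨y, oy⟩ := exists_prime_orderOf_dvd_card' p hpd
  obtain ⟨x, ox⟩ := exists_prime_orderOf_dvd_card' q hqd
  have key : ∀ a b : G, (Quotient.mk (MulAction.orbitRel (MulAut G) G) a = Quotient.mk _ b) →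
      orderOf a = orderOf b := fun a b h => by
    obtain ⟨α, rfl⟩ := Quotient.exact h
    exact α.orderOf_eq b
  have tri : ∀ g, g = 1 ∨ (∃ α : MulAut G, α y = g) ∨ ∃ α : MulAut G, α x = g := fun g => by
    haveI : Finite (MulAction.orbitRel.Quotient (MulAut G) G) := Nat.finite_of_card_ne_zero (by omega)
    have h4 : ({Quotient.mk _ 1, Quotient.mk _ y, Quotient.mk _ x} :
        Set (MulAction.orbitRel.Quotient (MulAut G) G)).ncard = 3 :=
      Set.ncard_eq_three.2 ⟨_, _, _, fun e => by
        have := key _ _ e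
        rw [orderOf_one, oy] at this; exact hp.one_lt.ne this, fun e => by
        have := key _ _ e
        rw [orderOf_one, ox] at this; exact hq.one_lt.ne this, fun e => by
        have := key _ _ e
        rw [oy, ox] at this; exact hne this.symm, rfl⟩
    have h5 := Set.eq_of_subset_of_ncard_le (Set.subset_univ _)
      (((Set.ncard_univ _).trans h3).le.trans h4.ge)
    rcases h5.ge (Set.mem_univ (Quotient.mk _ g)) with h | h | h
    · exact Or.inl (orderOf_eq_one_iff.1 ((key _ _ h).trans orderOf_one))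
    · exact Or.inr (Or.inl (Quotient.exact h))
    · exact Or.inr (Or.inr (Quotient.exact h))
  have hs : Group.IsSolvable G := by
    refine H3.burnside_pq (a := Nat.card G) (b := Nat.card G) hp hq
      ((Nat.dvd_prod_primeFactors_pow_self Nat.card_pos.ne').trans ?_)
    rw [← mul_pow, ← Finset.prod_pair (f := fun r => r) hne.symm]
    refine pow_dvd_pow_of_dvd (Finset.prod_dvd_prod_of_subset _ _ _ fun r hr => ?_) _
    haveI := Fact.mk (Nat.prime_of_mem_primeFactors hr)
    obtain ⟨g, hg⟩ := exists_prime_orderOf_dvd_card' (G := G) r (Nat.dvd_of_mem_primeFactors hr)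
    rcases tri g with rfl | ⟨α, rfl⟩ | ⟨α, rfl⟩
    · rw [orderOf_one] at hg; exact absurd hg (Nat.prime_of_mem_primeFactors hr).one_lt.ne
    · rw [α.orderOf_eq, oy] at hg; simp [hg]
    · rw [α.orderOf_eq, ox] at hg; simp [hg]
  have hex : ∃ n, derivedSeries G n = ⊥ := hs.1
  have h0 : Nat.find hex ≠ 0 := fun e => by
    have := Nat.find_spec hex
    rw [e, derivedSeries_zero] at this
    exact hnt (by rw [← card_top, this, card_bot])
  obtain ⟨k, hk⟩ := Nat.exists_eq_succ_of_ne_zero h0
  have h1 := Nat.find_spec hex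
  rw [hk, derivedSeries_succ] at h1
  have cV : IsMulCommutative (derivedSeries G k) := isComm_iff.2 (comm_eq_bot.1 h1)
  obtain ⟨g, hg, hg1⟩ := exists_ne_one (Nat.find_min hex (show k < _ by omega))
  have ch : ∀ (α : MulAut G) g, α g ∈ derivedSeries G k → g ∈ derivedSeries G k := fun α g hg =>
    α.symm_apply_apply g ▸ characteristic_iff_le_comap.1 (derivedSeries_characteristic G k) α.symm hg
  rcases tri g with rfl | ⟨α, rfl⟩ | ⟨α, rfl⟩
  · exact absurd rfl hg1
  · obtain ⟨n, h⟩ := orb3_fwd hne.symm ox oy tri cV (ch α _ hg)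
    exact ⟨p, q, n, ‹_›, ‹_›, hne.symm, h⟩
  · obtain ⟨n, h⟩ := orb3_fwd hne oy ox (fun g => (tri g).imp_right Or.symm) cV (ch α _ hg)
    exact ⟨q, p, n, ‹_›, ‹_›, hne, h⟩

end Cfsg.Agent.S4081
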