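import Cfsg.Statements.S4082
import Cfsg.Agent.H1.PC
import Cfsg.Agent.H2.NPC

set_option autoImplicit false
open Cfsg

namespace Cfsg.Agent.S4082

open H7 H1B Subgroup
open H2 (cj IsSylowIn)

/-- Let p be an odd prime and G a finite group with Sylow p-subgroup P. Say that G has restricted p-by-cyclic subgroups when every subgroup H of G whose Sylow p-subgroup is normal in H with cyclic quotient is itself cyclic or dihedral of order 2pⁿ for some n. Then G has restricted p-by-cyclic subgroups if and only if P is cyclic and one of the following holds: (1) N_G(P) = C_G(P); or (2) N_G(P)/C_G(P) has order 2 and, for the subgroup Q of order p of P, the centralizer C_G(Q) is abelian and every element of N_G(Q) outside C_G(Q) is an involution inverting every element of C_G(Q). -/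
theorem result {G : Type*} [Group G] [Finite G] {p : ℕ}
    [Fact p.Prime] (hp : p ≠ 2) (P : Sylow p G) :
    (∀ H : Subgroup G, (∀ S : Sylow p ↥H, (S : Subgroup ↥H).Normal) →
        (∀ (S : Sylow p ↥H) [(S : Subgroup ↥H).Normal], IsCyclic (↥H ⧸ (S : Subgroup ↥H))) →
        IsCyclic H ∨ (∃ n : ℕ, Nonempty (H ≃* DihedralGroup (p ^ n)))) ↔
    (IsCyclic P ∧
      (Subgroup.normalizer ((P : Subgroup G) : Set G) = Subgroup.centralizer ((P : Subgroup G) : Set G) ∨
       ((Subgroup.centralizer ((P : Subgroup G) : Set G)).relIndex (Subgroup.normalizer ((P : Subgroup G) : Set G)) = 2 ∧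
        ∀ Q : Subgroup G, Q ≤ P → Nat.card Q = p →
          IsMulCommutative ↥(Subgroup.centralizer (Q : Set G)) ∧
          ∀ x : G, x ∈ Subgroup.normalizer (Q : Set G) → x ∉ Subgroup.centralizer (Q : Set G) →
            orderOf x = 2 ∧ ∀ c : G, c ∈ Subgroup.centralizer (Q : Set G) → x * c * x⁻¹ = c⁻¹))) := by
  have hp' : p.Prime := Fact.out
  have odd : ∀ {S : Subgroup G}, IsPGroup p S → ∀ s ∈ S, s * s = 1 → s = 1 := fun hS s hs h => by
    obtain ⟨k, hk⟩ := H2.orderOf_eq_pow_of_mem hS hs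
    have d := orderOf_dvd_of_pow_eq_one (show s ^ 2 = 1 by rw [sq, h])
    exact orderOf_eq_one_iff.1 (Nat.Coprime.eq_one_of_dvd (by
      rw [hk]; exact ((Nat.coprime_primes hp' Nat.prime_two).2 hp).pow_left k) d)
  show PBC p (fun H => IsCyclic H ∨ (∃ n : ℕ, Nonempty (H ≃* DihedralGroup (p ^ n)))) ↔ _
  refine ⟨fun h => ?_, fun ⟨c, h⟩ => pbc_of P (fun g H k => k.imp (fun k => (H2.cjEquiv g H).isCyclic.2 k)
    fun ⟨n, ⟨e⟩⟩ => ⟨n, ⟨(H2.cjEquiv g H).trans e⟩⟩) fun T hT y hy co => ?_⟩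
  · have D : ∀ S : Subgroup G, IsPGroup p S → ∀ x ∈ nrm S, x ∉ cen S → orderOf x = 2 ∧ ∀ s ∈ S, x * s * x⁻¹ = s⁻¹ := by
      intro S hS x hx nc
      rcases h.sup hS hx with k | ⟨n, ⟨e⟩⟩
      · exact (nc (cen_anti le_sup_left (H7.isComm_iff.1 k.isMulCommutative (mem_sup_right (mem_zpowers x))))).elim
      have r : ∀ s (hs : s ∈ S), ∃ i, e ⟨s, mem_sup_left hs⟩ = .r i := fun s hs => by
        rcases hi : e ⟨s, mem_sup_left hs⟩ with i | i
        · exact ⟨i, rfl⟩
        have := odd hS s hs (congrArg Subtype.val (e.injective (a₁ := ⟨s, mem_sup_left hs⟩ * ⟨s, mem_sup_left hs⟩) (a₂ := 1)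
          (by rw [map_mul, hi, map_one, DihedralGroup.sr_mul_self])))
        subst this
        exact ⟨0, (map_one e).symm.trans hi ▸ rfl⟩
      rcases hi : e ⟨x, mem_sup_right (mem_zpowers x)⟩ with i | i
      · refine (nc (mem_cen.2 fun s hs => congrArg Subtype.val (e.injective (a₁ := ⟨s, mem_sup_left hs⟩ * ⟨x, mem_sup_right (mem_zpowers x)⟩)
          (a₂ := ⟨x, mem_sup_right (mem_zpowers x)⟩ * ⟨s, mem_sup_left hs⟩) ?_))).elim
        obtain ⟨j, hj⟩ := r s hs
        rw [map_mul, map_mul, hi, hj]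
        simp [add_comm]
      refine ⟨by rw [← DihedralGroup.orderOf_sr i, ← hi, e.orderOf_eq, Subgroup.orderOf_mk], fun s hs => congrArg Subtype.val
        (e.injective (a₁ := ⟨x, mem_sup_right (mem_zpowers x)⟩ * ⟨s, mem_sup_left hs⟩ * ⟨x, mem_sup_right (mem_zpowers x)⟩⁻¹)
          (a₂ := ⟨s, mem_sup_left hs⟩⁻¹) ?_)⟩
      obtain ⟨j, hj⟩ := r s hs
      rw [map_mul, map_mul, map_inv, map_inv, hi, hj]
      simp
    refine ⟨?_, or_iff_not_imp_left.2 fun ne => ?_⟩
    · have := h.sup P.2 (one_mem _)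
      rw [zpowers_one_eq_bot, sup_bot_eq] at this
      refine this.resolve_right fun ⟨n, ⟨e⟩⟩ => ?_
      have := odd P.2 _ (e.symm (.sr 0)).2 (by rw [← coe_mul, ← map_mul, DihedralGroup.sr_mul_self, map_one, coe_one])
      rw [OneMemClass.coe_eq_one, EmbeddingLike.map_eq_one_iff] at this
      cases this
    obtain ⟨x, hx, nc⟩ := SetLike.exists_of_lt (lt_of_le_of_ne (cen_le_nrm (P : Subgroup G)) (Ne.symm ne))
    have ix := (D _ P.2 x hx nc).2
    refine ⟨relIndex_eq_two_iff_exists_notMem_and.2 ⟨x, hx, nc, fun y hy => or_iff_not_imp_right.2 fun k => mem_cen.2 fun s hs => ?_⟩,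
      fun Q hQ cQ => ?_⟩
    · rw [eq_comm, ← mul_inv_eq_iff_eq_mul]
      calc _ = y * (x * s * x⁻¹) * y⁻¹ := by group
        _ = s := by rw [ix s hs, (D _ P.2 y hy k).2 _ (inv_mem hs), inv_inv]
    have E : ∀ x ∈ nrm Q, x ∉ cen Q → orderOf x = 2 ∧ ∀ c ∈ cen Q, x * c * x⁻¹ = c⁻¹ := fun x hx nc => by
      have o := (D _ (P.2.to_le hQ) x hx nc).1
      refine ⟨o, fun c hc => ?_⟩
      have o' := (D _ (P.2.to_le hQ) (x * c) (mul_mem hx (cen_le_nrm _ hc)) fun k => nc ((mul_mem_cancel_right hc).1 k)).1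
      have a : x⁻¹ = x := inv_eq_of_mul_eq_one_left (by rw [← sq, ← o, pow_orderOf_eq_one])
      rw [a, eq_inv_iff_mul_eq_one, mul_assoc, ← sq, ← o', pow_orderOf_eq_one]
    refine ⟨H7.isComm_iff'.2 fun a ha b hb => ?_, E⟩
    have e := (E x (H2.mem_normalizer_of_conj_mem fun s hs => ix s (hQ hs) ▸ inv_mem hs) fun k => ?_).2
    · rw [← inv_inj, ← e _ (mul_mem ha hb), mul_inv_rev, ← e a ha, ← e b hb]
      group
    obtain ⟨s, hs, s1⟩ := exists_ne_one (H := Q) fun k => hp'.ne_one (by rw [← cQ, k, card_bot])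
    refine s1 (odd P.2 s (hQ hs) ?_)
    rw [← eq_inv_iff_mul_eq_one, ← ix s (hQ hs), ← mem_cen.1 k s hs, mul_inv_cancel_right]
  have pT := P.2.to_le hT
  have cT := cyc_of_le hT c
  by_cases k : y ∈ cen T
  · exact .inl (cyc_sup_cop pT cT k co)
  rcases h with h | ⟨-, h⟩
  · exact (k (H2.NPC.pRes_le_cen ((H2.npc_top.2 (H2.hasNPC_of_normalizer_le_centralizer P h.le)).of_le (le_top (a := nrm T)))
      pT (le_nrm_self T) le_rfl (H2.mem_pRes hy co))).elim
  obtain ⟨Q, hQ, cQ⟩ := exists_card_p hp' (H2.dvd_card_of_ne_bot pT fun e => k (by rw [e]; exact le_cen_bot ⊤ trivial))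
  obtain ⟨a, b⟩ := h Q (hQ.trans hT) cQ
  have tQ : T ≤ cen Q := (H7.isComm_iff.1 cT.isMulCommutative).trans (cen_anti hQ)
  obtain ⟨o, iv⟩ := b y (nrm_le_of_cyc cT hQ hy) fun l => k (cen_anti tQ (H7.isComm_iff.1 a l))
  obtain ⟨t, rfl⟩ := H7.cyc_iff.1 cT
  obtain ⟨n, hn⟩ := H2.orderOf_eq_pow_of_mem pT (mem_zpowers t)
  refine .inr ⟨n, hn ▸ H8.nonempty_equiv_dihedral (by rw [← sq, ← o, pow_orderOf_eq_one]) (iv t (tQ (mem_zpowers t)))
    (fun l => k (H7.isComm_iff.1 cT.isMulCommutative l)) _ ?_⟩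
  rw [zpowers_eq_closure, zpowers_eq_closure, ← Subgroup.closure_union, Set.singleton_union]

end Cfsg.Agent.S4082
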