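import Cfsg.Statements.S4083
import Cfsg.Agent.H1.PC
import Cfsg.Agent.H4.Tri

set_option autoImplicit false
open Cfsg

namespace Cfsg.Agent.S4083

open H7 H1B Subgroup
open H2 (cj IsSylowIn)

theorem kc {G : Type*} [Group G] {T : Subgroup G} (hk : IsKleinFour T) {a b t : G} (ha : a ∈ T) (hb : b ∈ T) (ht : t ∈ T)
    (a1 : a ≠ 1) (b1 : b ≠ 1) (ab : a ≠ b) : t = 1 ∨ t = a ∨ t = b ∨ t = a * b := by
  by_contra! h
  exact h.2.2.2 (congrArg Subtype.val (IsKleinFour.eq_mul_of_ne_all (x := (⟨a, ha⟩ : T)) (y := ⟨b, hb⟩) (z := ⟨t, ht⟩)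
    (by simpa using a1) (by simpa using b1) (by simpa using ab) (by simpa using h.1) (by simpa using h.2.1) (by simpa using h.2.2.1)))

theorem ea_two_of_sq {G : Type*} [Group G] {K : Subgroup G} (h : ∀ k ∈ K, k ^ 2 = 1) : EA 2 K :=
  ⟨H7.isComm_iff'.2 fun a ha b hb => by
    have k := h _ (mul_mem ha hb)
    have x := h a ha
    have y := h b hb
    rw [sq] at k x y
    rw [eq_inv_of_mul_eq_one_left k, mul_inv_rev, ← eq_inv_of_mul_eq_one_left x, ← eq_inv_of_mul_eq_one_left y], h⟩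

theorem cm_of {G H : Type*} [Group G] [Group H] (f : G ≃* H) (h : IsMulCommutative G) : ∀ a b : H, a * b = b * a := fun a b => by
  obtain ⟨a, rfl⟩ := f.surjective a
  obtain ⟨b, rfl⟩ := f.surjective b
  rw [← map_mul, h.is_comm.comm, map_mul]

theorem a4 {G : Type*} [Group G] [Finite G] {T : Subgroup G} (hk : IsKleinFour T) {y : G} (hy : y ∈ nrm T) (nc : y ∉ cen T)
    (co : (orderOf y).Coprime 2) (hc : cen T = T) : Nonempty ((T ⊔ zpowers y : Subgroup G) ≃* alternatingGroup (Fin 4)) := by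
  obtain ⟨a, ha, ne⟩ : ∃ a ∈ T, a ≠ y * a * y⁻¹ := by
    by_contra! h
    exact nc (mem_cen.2 fun s hs => by rw [eq_comm, ← mul_inv_eq_iff_eq_mul, ← h s hs])
  have a1 : a ≠ 1 := fun e => ne (by simp [e])
  have hb := nconj_mem hy ha
  have b1 : y * a * y⁻¹ ≠ 1 := by simpa using a1
  have e : y * (y * a * y⁻¹) * y⁻¹ = a * (y * a * y⁻¹) := by
    rcases kc hk ha hb (nconj_mem hy hb) a1 b1 ne with e | e | e | e
    · exact (a1 (by simpa using e)).elim
    · refine (ne ?_).elim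
      have : y ∈ cen1 a := mem_of_pow_mem' (n := 2) (mem_cen1.2 (by
        rw [← mul_inv_eq_iff_eq_mul]; exact Eq.trans (by rw [sq]; group) e)) co.symm
      rw [mem_cen1.1 this, mul_inv_cancel_right]
    · exact (ne (by simpa using e.symm)).elim
    · exact e
  have cm := H7.isComm_iff'.1 (ea_of_klein hk).1
  have sa := klein_sq hk ha
  have sb := klein_sq hk hb
  have e3 : y ^ 3 * a * (y ^ 3)⁻¹ = a := by
    calc _ = y * (y * (y * a * y⁻¹) * y⁻¹) * y⁻¹ := by rw [pow_three]; group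
      _ = y * (a * (y * a * y⁻¹)) * y⁻¹ := by rw [e]
      _ = y * a * y⁻¹ * (y * (y * a * y⁻¹) * y⁻¹) := by group
      _ = a := by rw [e, cm a ha _ hb, ← mul_assoc, sb, one_mul]
  have T4 : ∀ K : Subgroup G, a ∈ K → y * a * y⁻¹ ∈ K → T ≤ K := fun K h1 h2 t ht => by
    rcases kc hk ha hb ht a1 b1 ne with rfl | rfl | rfl | rfl
    exacts [one_mem _, h1, h2, mul_mem h1 h2]
  have y3 : y ^ 3 = 1 := eq_one_of_coprime (EA.isPGroup (ea_of_klein hk)) (hc.le (le_cen_symm (show T ≤ cen (zpowers (y ^ 3)) from (by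
    rw [cen_zpowers]
    refine T4 _ (mem_cen1.2 (mul_inv_eq_iff_eq_mul.1 e3).symm) (mem_cen1.2 ?_)
    calc _ = y * (y ^ 3 * a * (y ^ 3)⁻¹) * y⁻¹ * y ^ 3 := by rw [e3]
      _ = _ := by group)) (mem_zpowers _))) (co.coprime_dvd_left (orderOf_pow_dvd 3))
  obtain ⟨φ, i, fa, fb⟩ := H4.exists_hom_a4 sa y3 (by
    calc _ = a * (y * a * y⁻¹) * (y * (y * a * y⁻¹) * y⁻¹) * y ^ 3 := by rw [pow_three, pow_three]; group
      _ = 1 := by rw [e, y3, mul_one, klein_sq hk (mul_mem ha hb)]) a1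
  have ya : a ∈ φ.range := ⟨_, fa⟩
  have yr : y ∈ φ.range := ⟨_, fb⟩
  have c : ord φ.range = 12 := by rw [← Nat.card_congr (MonoidHom.ofInjective i).toEquiv, nat_card_alternatingGroup]; simp; rfl
  rw [H7.eq_of_le_of_card_le (sup_le (T4 _ ya (mul_mem (mul_mem yr ya) (inv_mem yr))) (zpowers_le.2 yr)) (Nat.le_of_dvd Nat.card_pos (by
    rw [c]
    refine Nat.Coprime.mul_dvd_of_dvd_of_dvd (m := 4) (n := 3) (by norm_num) (hk.card_four ▸ card_dvd_of_le le_sup_left) ?_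
    rw [← orderOf_eq_prime y3 fun k => nc (k ▸ one_mem _)]
    exact orderOf_dvd_card' (mem_sup_right (mem_zpowers y))))]
  exact ⟨(MonoidHom.ofInjective i).symm⟩

/-- Let G be a finite group with Sylow 2-subgroup P. Every subgroup H of G whose Sylow 2-subgroup is normal in H with cyclic quotient is cyclic, dihedral of 2-power order, or isomorphic to the alternating group of degree 4, if and only if either P is cyclic, or P is dihedral (of order at least 4) and every elementary abelian subgroup K of order 4 of P satisfies C_G(K) = K. -/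
theorem result {G : Type*} [Group G] [Finite G] (P : Sylow 2 G) :
    (∀ H : Subgroup G, (∀ S : Sylow 2 ↥H, (S : Subgroup ↥H).Normal) →
        (∀ (S : Sylow 2 ↥H) [(S : Subgroup ↥H).Normal], IsCyclic (↥H ⧸ (S : Subgroup ↥H))) →
        IsCyclic H ∨ (∃ n : ℕ, Nonempty (H ≃* DihedralGroup (2 ^ n))) ∨ Nonempty (H ≃* alternatingGroup (Fin 4))) ↔
    (IsCyclic P ∨
      ((∃ n : ℕ, 1 ≤ n ∧ Nonempty ((P : Subgroup G) ≃* DihedralGroup (2 ^ n))) ∧
        ∀ K : Subgroup G, K ≤ P → Nat.card K = 4 → (∀ k ∈ K, k ^ 2 = 1) → Subgroup.centralizer (K : Set G) = K)) := by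
  show PBC 2 (fun H => IsCyclic H ∨ (∃ n : ℕ, Nonempty (H ≃* DihedralGroup (2 ^ n))) ∨
    Nonempty (H ≃* alternatingGroup (Fin 4))) ↔ _
  have c12 : Nat.card (alternatingGroup (Fin 4)) = 12 := by rw [nat_card_alternatingGroup]; simp; rfl
  refine ⟨fun h => or_iff_not_imp_left.2 fun nc => ⟨?_, fun K hK c4 e => le_antisymm (fun x hx => ?_) ?_⟩,
    fun h => pbc_of P (fun g H k => k.imp (fun k => (H2.cjEquiv g H).isCyclic.2 k) (.imp
    (fun ⟨n, ⟨e⟩⟩ => ⟨n, ⟨(H2.cjEquiv g H).trans e⟩⟩) fun ⟨e⟩ => ⟨(H2.cjEquiv g H).trans e⟩)) fun T hT y hy co => ?_⟩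
  · have := h.sup P.2 (one_mem _)
    rw [zpowers_one_eq_bot, sup_bot_eq] at this
    rcases this.resolve_left nc with ⟨n, ⟨e⟩⟩ | ⟨⟨e⟩⟩
    · exact ⟨n, Nat.pos_of_ne_zero fun k => nc (e.isCyclic.2 (DihedralGroup.isCyclic_iff.2 (by rw [k, pow_zero]))), ⟨e⟩⟩
    obtain ⟨k, hk⟩ := card_pgroup P.2
    have : 3 ∣ 2 ^ k := by rw [← hk, Nat.card_congr e.toEquiv, c12]; norm_num
    have := Nat.prime_three.dvd_of_dvd_pow this
    omega
  · have a : K ≤ cen K := H7.isComm_iff.1 (ea_two_of_sq e).1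
    have b := zpowers_le.2 hx
    have cm : IsMulCommutative (K ⊔ zpowers x : Subgroup G) :=
      H7.isComm_iff.2 (sup_le (le_cen_sup a (le_cen_symm b)) (le_cen_sup b (H7.isComm_iff.1 inferInstance)))
    rcases h.sup (P.2.to_le hK) (cen_le_nrm _ hx) with k | ⟨n, ⟨f⟩⟩ | ⟨⟨f⟩⟩
    · exact (klein_not_cyc (klein_of_ea (ea_two_of_sq e) c4) (cyc_of_le le_sup_left k)).elim
    · have := DihedralGroup.commutative_iff.1 ⟨⟨cm_of f cm⟩⟩
      exact (H7.eq_of_le_of_card_le (le_sup_left : K ≤ K ⊔ zpowers x) (by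
        rw [c4, Nat.card_congr f.toEquiv, DihedralGroup.nat_card]; omega)).ge (mem_sup_right (mem_zpowers x))
    · exact absurd (cm_of f cm) (by decide)
  · exact H7.isComm_iff.1 (ea_two_of_sq e).1
  have pT := P.2.to_le hT
  by_cases cT : IsCyclic T
  · exact .inl (cyc_sup_cop pT cT (cen_of_cyc_two pT cT (zpowers_le.2 hy) (by rwa [card_zpowers_eq]) (mem_zpowers y)) co)
  obtain ⟨⟨n, n1, ⟨e⟩⟩, h⟩ := h.resolve_left fun k => cT (cyc_of_le hT k)
  have y1 : ∀ K ≤ T, IsKleinFour K → y ∈ cen T → T ⊔ zpowers y = T := fun K hK k c => sup_eq_left.2 (zpowers_le.2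
    (hK ((h K (hK.trans hT) k.card_four (ea_of_klein k).2).le (cen_anti hK c))))
  have : IsKleinFour T ∨ ∃ a n, Dih T a n := by
    rcases dih_cases P.2 (Nat.le_self_pow (by omega) 2) e with k | ⟨a, m, k⟩
    · rcases eq_or_lt_of_le hT with rfl | l
      · exact .inl k
      obtain ⟨j, hj⟩ := card_pgroup pT
      have := H7.card_lt_of_lt l
      rw [k.card_four, hj] at this
      have j2 : j < 2 := (Nat.pow_lt_pow_iff_right (by norm_num)).1 this
      interval_cases j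
      · exact (cT (by rw [card_eq_one.1 hj]; infer_instance)).elim
      · exact (cT (isCyclic_of_prime_card (p := 2) hj)).elim
    · exact (k.sub_cases hT).resolve_left cT
  rcases this with k | ⟨a, m, k⟩
  · by_cases c : y ∈ cen T
    · rw [y1 T le_rfl k c]
      exact .inr (.inl ⟨1, IsKleinFour.nonempty_mulEquiv (G₂ := DihedralGroup 2)⟩)
    · exact .inr (.inr (a4 k hy c co (h T hT k.card_four (ea_of_klein k).2)))
  obtain ⟨b, hb, ba⟩ := k.1.ex
  have c : y ∈ cen T := by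
    by_contra c
    exact k.1.z_ne (((k.1.odd_aut hy (Nat.coprime_two_right.1 co) c).2.2.2 b hb ba).symm.trans (k.2 b hb ba))
  rw [y1 _ (sup_le (zpowers_le.2 k.1.z_memP) (zpowers_le.2 hb)) (k.1.klein hb ba (k.2 b hb ba)) c]
  exact .inr (.inl ⟨_, k.1.dih rfl hb ba (k.2 b hb ba)⟩)

end Cfsg.Agent.S4083
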