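import Cfsg.Statements.S4084
import Mathlib
import Cfsg.Agent.H8.Misc1

set_option autoImplicit false
open Cfsg

namespace Cfsg.Agent.S4084

lemma key {G H : Type*} [Group G] [Finite G] [Group H] [Finite H] (e : G ≃ H)
    (he : ∀ x y : G, Commute x y ↔ Commute (e x) (e y))
    {p q : ℕ} (hp : p.Prime) (hq : q.Prime) (hpq : p ≠ q) (g : G) (hg : orderOf g = p * q) :
    ∃ h : H, orderOf h = p * q := by
  let A := Subgroup.centralizer (Subgroup.centralizer ({g} : Set G) : Set G)
  let B := Subgroup.centralizer (Subgroup.centralizer ({e g} : Set H) : Set H)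
  have hAB : ∀ x, x ∈ A ↔ e x ∈ B := by
    intro x
    simp only [A, B, Subgroup.mem_centralizer_iff, SetLike.mem_coe, Set.mem_singleton_iff,
      forall_eq]
    rw [e.surjective.forall]
    exact forall_congr' fun y => imp_congr (he g y) (he y x)
  have hcard : Nat.card A = Nat.card B := Nat.card_congr (e.subtypeEquiv hAB)
  have hgA : g ∈ A := fun y hy => (hy g rfl).symm
  have hd : p * q ∣ Nat.card B := by rw [← hcard, ← hg]; exact A.orderOf_dvd_natCard hgA
  obtain ⟨x, hx, hxo⟩ := H1.exists_mem_orderOf_eq_prime hp ((Dvd.intro _ rfl).trans hd)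
  obtain ⟨y, hy, hyo⟩ := H1.exists_mem_orderOf_eq_prime hq ((Dvd.intro_left _ rfl).trans hd)
  have hxC : x ∈ Subgroup.centralizer ({e g} : Set H) := by
    rintro z rfl
    exact hx (e g) (by rintro z rfl; rfl)
  have hc : Commute x y := hy x hxC
  refine ⟨x * y, ?_⟩
  rw [hc.orderOf_mul_eq_mul_orderOf_of_coprime (by
    rw [hxo, hyo]; exact (Nat.coprime_primes hp hq).2 hpq), hxo, hyo]

/-- Let G and H be finite groups whose commuting graphs are isomorphic: there is a bijection e : G → H with x, y commuting exactly when e(x), e(y) commute. Then G and H have the same prime graph: for distinct primes p, q, G has an element of order pq if and only if H does (and #G = #H, so the prime divisors agree). -/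
theorem result {G H : Type*} [Group G] [Finite G] [Group H] [Finite H] (e : G ≃ H)
    (he : ∀ x y : G, Commute x y ↔ Commute (e x) (e y))
    {p q : ℕ} (hp : p.Prime) (hq : q.Prime) (hpq : p ≠ q) :
    (∃ g : G, orderOf g = p * q) ↔ (∃ h : H, orderOf h = p * q) := by
  constructor
  · rintro ⟨g, hg⟩; exact key e he hp hq hpq g hg
  · rintro ⟨g, hg⟩
    exact key e.symm (fun x y => by rw [he]; simp) hp hq hpq g hg

end Cfsg.Agent.S4084
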