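import Cfsg.Statements.S4086
import Mathlib
import Cfsg.Agent.H8.FrobSol

set_option autoImplicit false
open Cfsg

namespace Cfsg.Agent.S4086

/-- For a finite group G the following are equivalent: every non-identity element has prime-power order; whenever two elements generate a cyclic subgroup, one of them is a power of the other (the enhanced power graph of G coincides with its power graph). -/
theorem result {G : Type*} [Group G] [Finite G] :
    (∀ g : G, g ≠ 1 → IsPrimePow (orderOf g)) ↔
    (∀ x y : G, IsCyclic ↥(Subgroup.closure ({x, y} : Set G)) → (x ∈ Subgroup.zpowers y ∨ y ∈ Subgroup.zpowers x)) := by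
  constructor
  · intro h x y hc
    obtain ⟨g, hg⟩ := (Subgroup.isCyclic_iff_exists_zpowers_eq_top _).1 hc
    have hx : x ∈ Subgroup.closure ({x, y} : Set G) := Subgroup.subset_closure (by simp)
    have hy : y ∈ Subgroup.closure ({x, y} : Set G) := Subgroup.subset_closure (by simp)
    by_cases h1 : g = 1
    · rw [← hg, h1] at hx
      left
      have : x = 1 := by simpa using hx
      rw [this]; exact Subgroup.one_mem _
    obtain ⟨p, k, hp, hk, hpk⟩ := (isPrimePow_nat_iff _).1 (h g h1)
    have hd : ∀ z ∈ Subgroup.closure ({x, y} : Set G), ∃ j, orderOf z = p ^ j := by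
      intro z hz
      rw [← hg] at hz
      obtain ⟨j, -, hj⟩ := (Nat.dvd_prime_pow hp).1 (hpk ▸ orderOf_dvd_of_mem_zpowers hz)
      exact ⟨j, hj⟩
    obtain ⟨i, hi⟩ := hd x hx
    obtain ⟨j, hj⟩ := hd y hy
    rcases le_total i j with hij | hij
    · exact Or.inl (H8.mem_zpowers_of_orderOf_dvd hx hy (by rw [hi, hj]; exact pow_dvd_pow _ hij))
    · exact Or.inr (H8.mem_zpowers_of_orderOf_dvd hy hx (by rw [hi, hj]; exact pow_dvd_pow _ hij))
  · intro h g hg
    rw [isPrimePow_iff_unique_prime_dvd]
    obtain ⟨p, hp, hpd⟩ := Nat.exists_prime_and_dvd (mt orderOf_eq_one_iff.1 hg)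
    refine ⟨p, ⟨hp, hpd⟩, ?_⟩
    rintro q ⟨hq, hqd⟩
    have h1 := orderOf_pow_orderOf_div (orderOf_pos g).ne' hpd
    have h2 := orderOf_pow_orderOf_div (orderOf_pos g).ne' hqd
    rcases h (g ^ (orderOf g / p)) (g ^ (orderOf g / q)) (by
      refine Subgroup.isCyclic_of_le (H' := Subgroup.zpowers g) ?_
      rw [Subgroup.closure_le]
      rintro _ (rfl | rfl) <;> exact Subgroup.npow_mem_zpowers _ _) with h3 | h3
    · have := orderOf_dvd_of_mem_zpowers h3
      rw [h1, h2] at this
      exact ((Nat.prime_dvd_prime_iff_eq hp hq).1 this).symm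
    · have := orderOf_dvd_of_mem_zpowers h3
      rw [h1, h2] at this
      exact (Nat.prime_dvd_prime_iff_eq hq hp).1 this

end Cfsg.Agent.S4086
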