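import Cfsg.Statements.S4089
import Mathlib
import Cfsg.Agent.H8.ClassCount

set_option autoImplicit false
open Cfsg

namespace Cfsg.Agent.S4089

open Subgroup in
lemma sn_iff {G : Type*} [Group G] [Finite G] {p : ℕ} [Fact p.Prime] {H : Subgroup G}
    (hH : IsPGroup p H) (g : G) : (H.subgroupOf (H ⊔ zpowers g)).IsSubnormal ↔
      ∃ R : Subgroup G, H ≤ R ∧ IsPGroup p R ∧ g ∈ normalizer (R : Set G) := by
  constructor
  · intro h
    have h1 := (H1.radicalClass_isPGroup p).le_of_isSubnormal h hH.comap_subtype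
    refine ⟨(Cfsg.pCore p ↥(H ⊔ zpowers g)).map (H ⊔ zpowers g).subtype, fun x hx =>
      ⟨⟨x, mem_sup_left hx⟩, h1 hx, rfl⟩, H1.isPGroup_pCore.map _, ?_⟩
    exact H1.normalizer_le_normalizer_map_of_characteristic _
      (le_normalizer (mem_sup_right (mem_zpowers g)))
  · rintro ⟨R, h1, h2, h3⟩
    haveI : (R.subgroupOf (H ⊔ zpowers g)).Normal :=
      normal_subgroupOf_of_le_normalizer (sup_le (h1.trans le_normalizer) (zpowers_le.2 h3))
    haveI : Group.IsNilpotent (R.subgroupOf (H ⊔ zpowers g)) :=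
      (h2.comap_subtype (K := H ⊔ zpowers g)).isNilpotent
    exact H8.isSubnormal_of_le_nilpotent (F := R.subgroupOf (H ⊔ zpowers g)) (subgroupOf_mono _ h1)

open Subgroup in
lemma exists_radical {G : Type*} [Group G] [Finite G] {p : ℕ} [Fact p.Prime] (g : G)
    (R : Subgroup G) (h2 : IsPGroup p R) (h3 : g ∈ normalizer (R : Set G)) :
    ∃ S : Subgroup G, R ≤ S ∧ (Cfsg.pCore p (normalizer (S : Set G))).map
      (normalizer (S : Set G)).subtype = S ∧ g ∈ normalizer (S : Set G) := by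
  induction R using WellFoundedGT.induction with
  | ind R ih =>
    have hle : R ≤ (Cfsg.pCore p (normalizer (R : Set G))).map (normalizer (R : Set G)).subtype :=
      (H1.radicalClass_isPGroup p).le_map_subtype le_normalizer le_rfl h2
    rcases hle.eq_or_lt with h | h
    · exact ⟨R, le_rfl, h.symm, h3⟩
    · obtain ⟨S, h4, h5⟩ := ih _ h (H1.isPGroup_pCore.map _)
        (H1.normalizer_le_normalizer_map_of_characteristic _ (le_normalizer h3))
      exact ⟨S, hle.trans h4, h5⟩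

/-- Let G be a finite group, p a prime and H a p-subgroup of G. Then the set of elements g of G such that H is subnormal in the subgroup generated by H and g is the union of the normalizers N_G(R) over the subgroups R of G containing H with R = O_p(N_G(R)); and this set does not change when H is replaced by the intersection of all Sylow p-subgroups of G containing H. -/
theorem result {G : Type*} [Group G] [Finite G] (p : ℕ) [Fact p.Prime]
    (H : Subgroup G) (hH : IsPGroup p H) :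
    {g : G | ((H).subgroupOf (H ⊔ Subgroup.zpowers g)).IsSubnormal} =
      {g : G | ∃ R : Subgroup G, H ≤ R ∧ (Cfsg.pCore p (Subgroup.normalizer (R : Set G))).map (Subgroup.normalizer (R : Set G)).subtype = R ∧ g ∈ Subgroup.normalizer (R : Set G)} ∧
    ∀ g : G, (((H).subgroupOf (H ⊔ Subgroup.zpowers g)).IsSubnormal ↔
      (((sInf {K : Subgroup G | ∃ Q : Sylow p G, H ≤ (Q : Subgroup G) ∧ K = (Q : Subgroup G)})).subgroupOf ((sInf {K : Subgroup G | ∃ Q : Sylow p G, H ≤ (Q : Subgroup G) ∧ K = (Q : Subgroup G)}) ⊔ Subgroup.zpowers g)).IsSubnormal) := by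
  have key : ∀ K : Subgroup G, IsPGroup p K → ∀ g : G,
      (K.subgroupOf (K ⊔ Subgroup.zpowers g)).IsSubnormal ↔
      ∃ R : Subgroup G, K ≤ R ∧ (Cfsg.pCore p (Subgroup.normalizer (R : Set G))).map (Subgroup.normalizer (R : Set G)).subtype = R ∧ g ∈ Subgroup.normalizer (R : Set G) := by
    intro K hK g
    rw [sn_iff hK]
    constructor
    · rintro ⟨R, h1, h2, h3⟩
      obtain ⟨S, h4, h5⟩ := exists_radical g R h2 h3
      exact ⟨S, h1.trans h4, h5⟩
    · rintro ⟨R, h1, h2, h3⟩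
      exact ⟨R, h1, h2 ▸ H1.isPGroup_pCore.map _, h3⟩
  refine ⟨Set.ext fun g => key H hH g, fun g => ?_⟩
  set I := sInf {K : Subgroup G | ∃ Q : Sylow p G, H ≤ (Q : Subgroup G) ∧ K = (Q : Subgroup G)}
  obtain ⟨Q0, hQ0⟩ := hH.exists_le_sylow
  have hI : IsPGroup p I := Q0.isPGroup'.to_le (sInf_le ⟨Q0, hQ0, rfl⟩)
  have hHI : H ≤ I := le_sInf (by rintro _ ⟨Q, hQ, rfl⟩; exact hQ)
  rw [sn_iff hH, sn_iff hI]
  constructor
  · rintro ⟨R, h1, h2, h3⟩
    obtain ⟨Q1, hQ1⟩ := h2.exists_le_sylow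
    refine ⟨⨅ Q : {Q : Sylow p G // R ≤ Q}, Q.1, le_iInf fun Q => sInf_le ⟨Q.1, h1.trans Q.2, rfl⟩,
      Q1.isPGroup'.to_le (iInf_le_of_le ⟨Q1, hQ1⟩ le_rfl), ?_⟩
    apply H1.mem_normalizer_of_conj_mem
    intro x hx
    rw [Subgroup.mem_iInf] at hx ⊢
    intro Q
    have := hx ⟨g⁻¹ • Q.1, fun y hy => by
      rw [Sylow.coe_subgroup_smul, H1.mem_conj_smul, inv_inv]
      exact Q.2 (H1.conj_mem_of_mem_normalizer h3 hy)⟩
    simp only at this
    rwa [Sylow.coe_subgroup_smul, H1.mem_conj_smul, inv_inv] at this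
  · rintro ⟨R, h1, h2, h3⟩
    exact ⟨R, hHI.trans h1, h2, h3⟩

end Cfsg.Agent.S4089
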