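import Cfsg.Statements.S4092
import Mathlib
import Cfsg.Agent.H8.ClassCount

set_option autoImplicit false
open Cfsg

namespace Cfsg.Agent.S4092

/-- Let G be a finite group, p a prime and P a Sylow p-subgroup of G that is not normal in G. Then G has at least p·#P elements of p-power order (the identity included). -/
theorem result {G : Type*} [Group G] [Finite G] (p : ℕ) [Fact p.Prime]
    (P : Sylow p G) (hP : ¬ (P : Subgroup G).Normal) :
    p * Nat.card (P : Subgroup G) ≤ Nat.card {g : G // ∃ k : ℕ, orderOf g = p ^ k} := by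
  classical
  have hp : p.Prime := Fact.out
  obtain ⟨a, ha⟩ := P.isPGroup'.exists_card_eq
  have hS : {g : G | ∃ k : ℕ, orderOf g = p ^ k} = {g : G | g ^ Nat.card (P : Subgroup G) = 1} := by
    ext g
    constructor
    · intro hg
      obtain ⟨x, hx⟩ := H8.exists_conj_mem_sylow P hg
      have := (P : Subgroup G).orderOf_dvd_natCard hx
      rw [show x⁻¹ * g * x = x⁻¹ * g * x⁻¹⁻¹ by simp, H8.orderOf_conj] at this
      exact orderOf_dvd_iff_pow_eq_one.1 this
    · intro hg
      have := orderOf_dvd_of_pow_eq_one hg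
      rw [ha] at this
      obtain ⟨k, -, hk⟩ := (Nat.dvd_prime_pow hp).1 this
      exact ⟨k, hk⟩
  show _ ≤ {g : G | ∃ k : ℕ, orderOf g = p ^ k}.ncard
  set S := {g : G | ∃ k : ℕ, orderOf g = p ^ k}
  obtain ⟨m, hm⟩ : Nat.card (P : Subgroup G) ∣ S.ncard := by
    rw [hS]; exact H8.dvd_card_pow_eq_one (P : Subgroup G).card_subgroup_dvd_card
  have h1 : p - 1 ∣ (S \ {1}).ncard := by
    refine H8.dvd_ncard_of_fibers (Set.toFinite _) (fun x => Subgroup.zpowers x) fun x hx => ?_
    obtain ⟨⟨k, hk⟩, hx1⟩ := hx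
    have hk0 : 0 < k := by
      rcases k with _ | k
      · exact absurd (orderOf_eq_one_iff.1 (by simpa using hk)) hx1
      · omega
    have := Fintype.ofFinite (Subgroup.zpowers x)
    have h2 := IsCyclic.card_orderOf_eq_totient (α := Subgroup.zpowers x) (d := p ^ k) (by
      rw [← Nat.card_eq_fintype_card, Nat.card_zpowers, hk])
    have h3 : {y | y ∈ S \ {1} ∧ Subgroup.zpowers y = Subgroup.zpowers x}.ncard = (p ^ k).totient := by
      rw [← h2, ← Set.ncard_coe_finset]
      symm
      refine Set.ncard_congr (fun y _ => (y : G)) ?_ (fun a b _ _ h => Subtype.ext h) ?_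
      · intro y hy
        have hy : orderOf (y : G) = p ^ k := by simpa using hy
        refine ⟨⟨⟨k, hy⟩, fun h => ?_⟩, Subgroup.eq_of_le_of_card_ge (Subgroup.zpowers_le.2 y.2) ?_⟩
        · have h : (y : G) = 1 := h
          rw [h, orderOf_one] at hy
          exact (Nat.one_lt_pow hk0.ne' hp.one_lt).ne hy
        · rw [Nat.card_zpowers, Nat.card_zpowers, hy, hk]
      · rintro y ⟨-, hy⟩
        refine ⟨⟨y, hy ▸ Subgroup.mem_zpowers y⟩, ?_, rfl⟩
        have := congrArg (fun H : Subgroup G => Nat.card H) hy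
        simp only [Nat.card_zpowers] at this
        simp [this, hk]
    rw [h3, Nat.totient_prime_pow hp hk0]
    exact Dvd.intro_left _ rfl
  rw [Set.ncard_sdiff_singleton_of_mem (show (1 : G) ∈ S from ⟨0, by simp⟩)] at h1
  have hlt : Nat.card (P : Subgroup G) < S.ncard := by
    rw [← Nat.card_coe_set_eq]
    show Nat.card ((P : Subgroup G) : Set G) < _
    rw [Nat.card_coe_set_eq, Nat.card_coe_set_eq]
    refine Set.ncard_lt_ncard ⟨fun x hx => H8.exists_orderOf_eq_of_mem P.isPGroup' hx, fun h => hP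
      ⟨fun x hx g => h ?_⟩⟩
    show ∃ k, _
    rw [H8.orderOf_conj]; exact H8.exists_orderOf_eq_of_mem P.isPGroup' hx
  have hm1 : 1 < m := by
    by_contra h
    have : Nat.card (P : Subgroup G) * m ≤ Nat.card (P : Subgroup G) * 1 :=
      Nat.mul_le_mul_left _ (by omega)
    omega
  have h4 : p ≡ 1 [MOD p - 1] := ((Nat.modEq_iff_dvd' hp.one_lt.le).2 dvd_rfl).symm
  have h5 : S.ncard ≡ 1 [MOD p - 1] := ((Nat.modEq_iff_dvd' (by omega)).2 h1).symm
  have h6 : m ≡ 1 [MOD p - 1] := by
    have : p ^ a * m ≡ 1 ^ a * m [MOD p - 1] := (h4.pow a).mul_right m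
    rw [one_pow, one_mul, ← ha, ← hm] at this
    exact this.symm.trans h5
  have h7 := Nat.le_of_dvd (by omega) ((Nat.modEq_iff_dvd' hm1.le).1 h6.symm)
  rw [hm, mul_comm]
  exact Nat.mul_le_mul_left _ (by omega)

end Cfsg.Agent.S4092
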