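import Cfsg.Statements.S4093
import Mathlib
import Cfsg.Agent.H8.ClassCount

set_option autoImplicit false
open scoped BigOperators
open Cfsg

namespace Cfsg.Agent.S4093

/-- Let G be a finite group with a normal subgroup N complementing a Sylow p-subgroup P (a normal p-complement). Then the number of elements of G of p-power order equals the sum over x ∈ P of the index of C_N(x) in N. -/
theorem result {G : Type*} [Group G] [Finite G] (p : ℕ) [Fact p.Prime]
    (P : Sylow p G) (N : Subgroup G) [N.Normal] (hNP : N.IsComplement' (P : Subgroup G)) :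
    Nat.card {g : G // ∃ k : ℕ, orderOf g = p ^ k} =
      ∑ᶠ x : (P : Subgroup G), Nat.card N / Nat.card ↥(N ⊓ Subgroup.centralizer ({(x : G)} : Set G)) := by
  classical
  have := Fintype.ofFinite G
  have hn : N.Normal := inferInstance
  rw [finsum_eq_sum_of_fintype]
  have hdec : ∀ g : G, ∃ x : (P : Subgroup G), (x : G)⁻¹ * g ∈ N := by
    intro g
    obtain ⟨⟨n, x⟩, h, -⟩ := hNP.existsUnique g
    refine ⟨x, ?_⟩
    rw [← h]
    simpa [mul_assoc] using hn.conj_mem _ n.2 (x : G)⁻¹
  choose f hf using hdec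
  have huniq : ∀ g (x : (P : Subgroup G)), (x : G)⁻¹ * g ∈ N → f g = x := by
    intro g x hx
    have h1 : (x : G)⁻¹ * f g ∈ N := by
      have := N.mul_mem hx (N.inv_mem (hf g))
      simpa [mul_assoc] using this
    have h2 := hNP.disjoint.le_bot ⟨h1, Subgroup.mul_mem _ (Subgroup.inv_mem _ x.2) (f g).2⟩
    exact Subtype.ext (inv_mul_eq_one.1 h2).symm
  rw [Nat.card_eq_fintype_card, Fintype.card_subtype,
    Finset.card_eq_sum_card_fiberwise (f := f) (t := Finset.univ) (by simp)]
  refine Finset.sum_congr rfl fun x _ => ?_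
  have h1 : Nat.card N / Nat.card ↥(N ⊓ Subgroup.centralizer ({(x : G)} : Set G)) =
      (Subgroup.centralizer ({(x : G)} : Set G)).relIndex N := by
    rw [← H1.card_inf_mul_relIndex (Subgroup.centralizer ({(x : G)} : Set G)) N, inf_comm,
      Nat.mul_div_cancel_left _ Nat.card_pos]
  rw [h1, ← H8.ncard_conj_by, ← Set.ncard_coe_finset]
  congr 1
  ext y
  simp only [Finset.coe_filter, Finset.mem_filter, Finset.mem_univ, true_and, Set.mem_ofPred_eq]
  constructor
  · rintro ⟨hy, rfl⟩
    obtain ⟨g, hg⟩ := H8.exists_conj_mem_sylow P hy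
    obtain ⟨⟨n, u⟩, rfl, -⟩ := hNP.existsUnique g
    have h2 : (n : G)⁻¹ * y * n ∈ (P : Subgroup G) := by
      have := Subgroup.mul_mem _ (Subgroup.mul_mem _ u.2 hg) (Subgroup.inv_mem _ u.2)
      simpa [mul_assoc] using this
    refine ⟨n, n.2, ?_⟩
    rw [huniq y ⟨_, h2⟩ (by
      simpa [mul_assoc] using N.mul_mem (N.inv_mem n.2) (hn.conj_mem _ n.2 y⁻¹))]
    simp [mul_assoc]
  · rintro ⟨n, hn', rfl⟩
    refine ⟨by rw [H8.orderOf_conj]; exact H8.exists_orderOf_eq_of_mem P.isPGroup' x.2, ?_⟩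
    exact huniq _ x (by
      simpa [mul_assoc] using N.mul_mem (hn.conj_mem _ hn' (x : G)⁻¹) (N.inv_mem hn'))

end Cfsg.Agent.S4093
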