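import Cfsg.Statements.S4106
import Mathlib
import Cfsg.Agent.H8.ClassCount

set_option autoImplicit false
open Cfsg

namespace Cfsg.Agent.S4106

open H8 Subgroup in
lemma kPi_single {G : Type*} [Group G] [Finite G] {p : ℕ} (hp : p.Prime) :
    kPi {p} G ≤ p ^ (Nat.card G).factorization p := by
  haveI := Fact.mk hp
  obtain ⟨P⟩ : Nonempty (Sylow p G) := inferInstance
  rw [← P.card_eq_multiplicity]
  have : ConjClasses.mk '' {x : G | PiElt {p} x} ⊆ ConjClasses.mk '' ((P : Subgroup G) : Set G) := by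
    rintro _ ⟨x, hx, rfl⟩
    obtain ⟨g, hg⟩ := exists_conj_mem_sylow P
      ((H1.PiNum.singleton_iff hp (orderOf_pos x).ne').1 hx)
    exact ⟨_, hg, ConjClasses.mk_eq_mk_iff_isConj.2 (isConj_iff.2 ⟨g, by group⟩)⟩
  exact (Set.ncard_le_ncard this).trans (Set.ncard_image_le (Set.toFinite _))

universe u in
open H8 Subgroup in
lemma kPi_le (s : Finset ℕ) (hs : ∀ p ∈ s, p.Prime) : ∀ (G : Type u) [Group G] [Finite G],
    kPi s G ≤ ∏ p ∈ s, p ^ (Nat.card G).factorization p := by
  classical
  induction s using Finset.induction_on with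
  | empty =>
    intro G _ _
    have : {x : G | PiElt ((∅ : Finset ℕ) : Set ℕ) x} ⊆ {1} := fun x hx =>
      PiElt.eq_one hx (by simp [PiElt, H1.PiNum])
    simpa [kPi] using Set.ncard_le_ncard (Set.image_mono (f := ConjClasses.mk) this)
  | insert p t hpt ih =>
    intro G _ _
    have hp := hs p (by simp)
    rw [Finset.prod_insert hpt]
    refine le_trans ?_ (Nat.mul_le_mul_right _ (kPi_single hp))
    refine ncard_le_mul_of_fibers (Set.toFinite _)
      (fun C => ConjClasses.mk (piP {p} (Quotient.out C)))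
      (T := ConjClasses.mk '' {x : G | PiElt {p} x}) (Set.toFinite _)
      (fun C _ => ⟨_, piElt_piP _ _, rfl⟩) ?_
    rintro _ ⟨y, hy, rfl⟩
    have h1 := ih (fun q hq => hs q (by simp [hq])) (centralizer ({y} : Set G))
    have h2 : ∏ p ∈ t, p ^ (Nat.card (centralizer ({y} : Set G))).factorization p ≤
        ∏ p ∈ t, p ^ (Nat.card G).factorization p :=
      Finset.prod_le_prod' fun q hq => Nat.pow_le_pow_right (hs q (by simp [hq])).pos
        ((Nat.factorization_le_iff_dvd Nat.card_pos.ne' Nat.card_pos.ne').2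
          (card_subgroup_dvd_card _) q)
    refine le_trans ?_ (h1.trans h2)
    refine le_trans (Set.ncard_le_ncard (t := (fun E : ConjClasses (centralizer ({y} : Set G)) =>
      ConjClasses.mk (y * (Quotient.out E : centralizer ({y} : Set G)))) ''
        (ConjClasses.mk '' {x | PiElt t x})) ?_) (Set.ncard_image_le (Set.toFinite _))
    rintro C ⟨⟨x0, hx0, hC⟩, hy2⟩
    set x := Quotient.out C
    have hxC : ConjClasses.mk x = C := Quotient.out_eq C
    have hx : PiElt (insert p t : Finset ℕ) x :=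
      PiElt.of_isConj hx0 (ConjClasses.mk_eq_mk_iff_isConj.1 (hC.trans hxC.symm))
    obtain ⟨g, hg⟩ := isConj_iff.1 (ConjClasses.mk_eq_mk_iff_isConj.1 hy2)
    have hz : g * piQ {p} x * g⁻¹ ∈ centralizer ({y} : Set G) := by
      rw [mem_centralizer_singleton_iff, ← hg]
      exact ((commute_piP_piQ (π := {p}) (x := x)).map (MulAut.conj g)).symm
    have hzt : PiElt t (⟨_, hz⟩ : centralizer ({y} : Set G)) := by
      rw [← PiElt.coe_iff]
      refine PiElt.conj (fun q hq hd => ?_) g
      have h3 := piElt_piQ {p} x q hq hd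
      have h4 := hx.of_mem_zpowers (piQ_mem {p} x) q hq hd
      simp at h3 h4
      exact h4.resolve_left h3
    refine ⟨ConjClasses.mk ⟨_, hz⟩, ⟨_, hzt, rfl⟩, ?_⟩
    obtain ⟨c, hc⟩ := isConj_iff.1 (ConjClasses.mk_eq_mk_iff_isConj.1
      (Quotient.out_eq (ConjClasses.mk (⟨_, hz⟩ : centralizer ({y} : Set G)))))
    have hc' := congrArg Subtype.val hc
    simp only [coe_mul, coe_inv] at hc'
    have hcy := mem_centralizer_singleton_iff.1 c.2
    rw [← hxC, ConjClasses.mk_eq_mk_iff_isConj]
    refine isConj_iff.2 ⟨g⁻¹ * c, ?_⟩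
    set w : G := ((Quotient.out (ConjClasses.mk (⟨_, hz⟩ : centralizer ({y} : Set G))) :
      centralizer ({y} : Set G)) : G)
    calc g⁻¹ * c * (y * w) * (g⁻¹ * c)⁻¹ = g⁻¹ * (c * y) * (c : G)⁻¹ * (c * w * (c : G)⁻¹) * g := by
          group
      _ = g⁻¹ * y * (g * piQ {p} x * g⁻¹) * g := by rw [hcy, hc']; group
      _ = piP {p} x * piQ {p} x := by rw [← hg]; group
      _ = x := piP_mul_piQ _ _

/-- Let G be a finite group, π a set of primes and m the π-part of the order of G. Then the number of conjugacy classes of G consisting of π-elements (elements whose order is divisible only by primes in π) is at most m. -/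
theorem result {G : Type*} [Group G] [Finite G]
    (π : Set ℕ) (hπ : ∀ q ∈ π, q.Prime)
    (m : ℕ) (hm : m ∣ Nat.card G) (hmπ : ∀ q : ℕ, q.Prime → q ∣ m → q ∈ π)
    (hm' : ∀ q ∈ π, ¬ q ∣ Nat.card G / m) :
    Nat.card {C : ConjClasses G // ∀ q : ℕ, q.Prime → (∃ g : G, ConjClasses.mk g = C ∧ q ∣ orderOf g) → q ∈ π} ≤ m := by
  rw [H8.kPi_eq]
  have hG : Nat.card G ≠ 0 := Nat.card_pos.ne'
  have hm0 : m ≠ 0 := by rintro rfl; simp at hm; exact absurd hm (by simpa using hG)
  obtain ⟨k, hk⟩ := hm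
  have hk' : Nat.card G / m = k := by rw [hk, Nat.mul_div_cancel_left _ (Nat.pos_of_ne_zero hm0)]
  rw [hk'] at hm'
  have hk0 : k ≠ 0 := by rintro rfl; simp [hk] at hG
  have h1 := kPi_le m.primeFactors (fun p hp => Nat.prime_of_mem_primeFactors hp) G
  have h2 : ∏ p ∈ m.primeFactors, p ^ (Nat.card G).factorization p = m := by
    conv_rhs => rw [← Nat.prod_factorization_pow_eq_self hm0]
    refine Finset.prod_congr rfl fun p hp => ?_
    have hpp := Nat.prime_of_mem_primeFactors hp
    rw [hk, Nat.factorization_mul hm0 hk0, Finsupp.add_apply,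
      Nat.factorization_eq_zero_of_not_dvd (hm' p (hmπ p hpp (Nat.dvd_of_mem_primeFactors hp))),
      add_zero]
  rw [h2] at h1
  refine le_trans (Set.ncard_le_ncard (Set.image_mono (t := {x : G | H8.PiElt m.primeFactors x})
    fun x hx q hq hd => ?_)) h1
  have h3 : q ∣ m * k := hk ▸ hd.trans (orderOf_dvd_natCard x)
  exact Nat.mem_primeFactors.2 ⟨hq, ((Nat.Prime.dvd_mul hq).1 h3).resolve_right
    (hm' q (hx q hq hd)), hm0⟩

end Cfsg.Agent.S4106
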