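import Cfsg.Statements.S4107
import Mathlib
import Cfsg.Agent.H8.ClassCount

set_option autoImplicit false
open Cfsg

namespace Cfsg.Agent.S4107

lemma key {G : Type*} [Group G] [Finite G] (N : Subgroup G) [N.Normal]
    (heq : ∀ x : G, x ∉ N → ∀ n ∈ N, orderOf (x * n) = orderOf x) (p : ℕ) [Fact p.Prime]
    (h : ¬ Cfsg.pCore p G ≤ N) : IsPGroup p N := by
  obtain ⟨x, hx, hxN⟩ := SetLike.not_le_iff_exists.1 h
  obtain ⟨k, hk⟩ := H8.exists_orderOf_eq_of_mem H1.isPGroup_pCore hx
  intro n
  have h1 : (x * n) ^ p ^ k = 1 := by rw [← hk, ← heq x hxN n n.2, pow_orderOf_eq_one]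
  have h2 : (n : G) ^ p ^ k ∈ Cfsg.pCore p G := by
    rw [← QuotientGroup.eq_one_iff] at hx ⊢
    have := congrArg (QuotientGroup.mk' (Cfsg.pCore p G)) h1
    simpa [hx] using this
  obtain ⟨j, hj⟩ := H1.isPGroup_pCore ⟨_, h2⟩
  refine ⟨k + j, Subtype.ext ?_⟩
  simpa [pow_add, pow_mul] using congrArg Subtype.val hj

lemma key2 {G : Type*} [Group G] [Finite G] (N : Subgroup G) [N.Normal]
    (heq : ∀ x : G, x ∉ N → ∀ n ∈ N, orderOf (x * n) = orderOf x)
    (h : ¬ Cfsg.fittingSubgroup G ≤ N) : ∃ p : ℕ, p.Prime ∧ IsPGroup p N := by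
  by_contra hc
  push Not at hc
  exact h (H1.fitting_le_of_pCore_le fun p hp => by
    by_contra h2; exact hc p hp.out (key N heq p h2))

/-- Let G be a finite group and N a proper non-trivial normal subgroup such that for every x outside N all elements of the coset xN have the same order as x. Then N ≤ F(G) or F(G) ≤ N, where F(G) is the Fitting subgroup; and if N is properly contained in F(G) then F(G) has prime-power order. -/
theorem result {G : Type*} [Group G] [Finite G] (N : Subgroup G) [N.Normal] (hN1 : N ≠ ⊥) (hN2 : N ≠ ⊤)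
    (heq : ∀ x : G, x ∉ N → ∀ n ∈ N, orderOf (x * n) = orderOf x) :
    (N ≤ Cfsg.fittingSubgroup G ∨ Cfsg.fittingSubgroup G ≤ N) ∧
    (N < Cfsg.fittingSubgroup G → IsPrimePow (Nat.card (Cfsg.fittingSubgroup G))) := by
  constructor
  · by_cases h : Cfsg.fittingSubgroup G ≤ N
    · exact Or.inr h
    · obtain ⟨p, hp, hN⟩ := key2 N heq h
      haveI := Fact.mk hp
      exact Or.inl ((H1.le_pCore hN).trans H1.pCore_le_fitting)
  · intro hlt
    obtain ⟨p, hp, hN⟩ := key2 N heq (not_le_of_gt hlt)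
    haveI := Fact.mk hp
    have h1 : Cfsg.fittingSubgroup G ≤ Cfsg.pCore p G := by
      refine H1.fitting_le_of_pCore_le fun q hq => ?_
      by_cases hqp : q = p
      · subst hqp; exact le_rfl
      by_cases h2 : Cfsg.pCore q G ≤ N
      · exact h2.trans (H1.le_pCore hN)
      · exact absurd (IsPGroup.disjoint_of_ne q p hqp N N (key N heq q h2) hN).eq_bot_of_self hN1
    obtain ⟨k, hk⟩ := (H1.isPGroup_pCore.to_le h1).exists_card_eq
    refine ⟨p, k, hp.prime, ?_, hk.symm⟩
    rcases k with _ | k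
    · rw [pow_zero, Subgroup.card_eq_one] at hk
      exact absurd (hk ▸ hlt) not_lt_bot
    · omega

end Cfsg.Agent.S4107
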