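import Cfsg.Statements.S4108
import Mathlib
import Cfsg.Agent.H8.Frob

set_option autoImplicit false
open Cfsg

namespace Cfsg.Agent.S4108

/-- Let G be a finite group, p a prime and N a proper non-trivial normal p-subgroup such that for every x outside N all elements of the coset xN have the same order as x. Then every non-trivial subgroup H of G of order prime to p acts fixed-point-freely on N: NH is a Frobenius group with complement H and kernel N. -/
theorem result {G : Type*} [Group G] [Finite G] (N : Subgroup G) [N.Normal] (hN1 : N ≠ ⊥) (hN2 : N ≠ ⊤)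
    (heq : ∀ x : G, x ∉ N → ∀ n ∈ N, orderOf (x * n) = orderOf x)
    (p : ℕ) [Fact p.Prime] (hNp : IsPGroup p N) :
    ∀ H : Subgroup G, H ≠ ⊥ → (Nat.card H).Coprime p →
      Cfsg.IsFrobeniusComplement (H.subgroupOf (N ⊔ H)) ∧ Cfsg.frobeniusKernel (H.subgroupOf (N ⊔ H)) = (N.subgroupOf (N ⊔ H) : Set ↥(N ⊔ H)) := by
  intro H hH hc
  have hcop : (Nat.card H).Coprime (Nat.card N) :=
    (H1.IsPGroup.coprime_card_of_coprime hNp hc).symm
  have hinf : H ⊓ N = ⊥ := Subgroup.inf_eq_bot_of_coprime hcop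
  have hsup : H.subgroupOf (N ⊔ H) ⊔ N.subgroupOf (N ⊔ H) = ⊤ := by
    rw [← Subgroup.subgroupOf_sup le_sup_right le_sup_left, sup_comm, Subgroup.subgroupOf_self]
  have hinf' : H.subgroupOf (N ⊔ H) ⊓ N.subgroupOf (N ⊔ H) = ⊥ := by
    rw [eq_bot_iff]
    rintro x ⟨h1, h2⟩
    have : (x : G) ∈ H ⊓ N := ⟨h1, h2⟩
    rw [hinf] at this
    exact Subtype.ext this
  have hf : ∀ h ∈ H.subgroupOf (N ⊔ H), ∀ n ∈ N.subgroupOf (N ⊔ H), h * n = n * h →
      h = 1 ∨ n = 1 := by
    intro h hh n hn e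
    by_cases h1 : h = 1
    · exact Or.inl h1
    right
    have hhN : (h : G) ∉ N := by
      intro h2
      have : (h : G) ∈ H ⊓ N := ⟨hh, h2⟩
      rw [hinf] at this
      exact h1 (Subtype.ext this)
    have e' : Commute (h : G) n := congrArg Subtype.val e
    have hco : (orderOf (h : G)).Coprime (orderOf (n : G)) :=
      Nat.Coprime.coprime_dvd_right (N.orderOf_dvd_natCard hn)
        (Nat.Coprime.coprime_dvd_left (H.orderOf_dvd_natCard hh) hcop)
    have h3 := heq h hhN n hn
    rw [e'.orderOf_mul_eq_mul_orderOf_of_coprime hco] at h3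
    have h4 : orderOf (n : G) = 1 :=
      Nat.eq_of_mul_eq_mul_left (orderOf_pos (h : G)) (by simpa using h3)
    exact Subtype.ext (orderOf_eq_one_iff.1 h4)
  refine ⟨H8.isFrobeniusComplement_of_fpf hsup hinf' ?_ ?_ hf,
    H8.frobeniusKernel_eq_of_fpf hsup hinf' hf⟩
  · rwa [Ne, Subgroup.subgroupOf_eq_bot, (disjoint_iff.trans (by rw [inf_eq_left.2 le_sup_left]))]
  · rwa [Ne, Subgroup.subgroupOf_eq_bot, (disjoint_iff.trans (by rw [inf_eq_left.2 le_sup_right]))]

end Cfsg.Agent.S4108
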