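import Cfsg.Statements.S4112
import Mathlib
import Cfsg.Agent.H8.ClassCount

set_option autoImplicit false
open Cfsg

namespace Cfsg.Agent.S4112

/-- Let G be a finite group and M ≤ N non-trivial proper normal subgroups such that for every g outside N the conjugacy class of g is a union of cosets of M (equivalently gm is conjugate to g for every m ∈ M). Then (1) and (2) below are equivalent, and they imply (3): (1) every g outside N acts fixed-point-freely on M, that is C_G(x) ≤ N for every x ∈ M, x ≠ 1; (2) the index of N in G is coprime to the order of M; (3) there is a subgroup H of G with HN = G and H ∩ M = 1. -/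
theorem result {G : Type*} [Group G] [Finite G] (N M : Subgroup G) [N.Normal] [M.Normal] (hMN : M ≤ N) (hM1 : M ≠ ⊥) (hN2 : N ≠ ⊤)
    (hcam : ∀ g : G, g ∉ N → ∀ m ∈ M, ∃ x : G, x * g * x⁻¹ = g * m) :
    ((∀ x ∈ M, x ≠ 1 → Subgroup.centralizer ({x} : Set G) ≤ N) ↔ N.index.Coprime (Nat.card M)) ∧
    ((∀ x ∈ M, x ≠ 1 → Subgroup.centralizer ({x} : Set G) ≤ N) → ∃ H : Subgroup G, H ⊔ N = ⊤ ∧ H ⊓ M = ⊥) := by
  have hiff : (∀ x ∈ M, x ≠ 1 → Subgroup.centralizer ({x} : Set G) ≤ N) ↔
      N.index.Coprime (Nat.card M) := by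
    constructor
    · intro h
      apply Nat.coprime_of_dvd
      intro p hp h1 h2
      haveI := Fact.mk hp
      obtain ⟨P⟩ : Nonempty (Sylow p G) := inferInstance
      have hT : H1.IsSylowIn p ((P : Subgroup G) ⊓ M) M := (H1.isSylowIn_top P).inf le_top
        (by rw [Subgroup.normalizer_eq_top]; exact le_top)
      have hne := H1.inf_centralizer_ne_bot_of_isPGroup hT.isPGroup P.isPGroup'
        (H1.le_normalizer_inf Subgroup.le_normalizer
          (by rw [Subgroup.normalizer_eq_top]; exact le_top)) (hT.ne_bot h2)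
      obtain ⟨⟨x, hx1, hx2⟩, hx⟩ := Subgroup.ne_bot_iff_exists_ne_one.1 hne
      have hPN : (P : Subgroup G) ≤ N := fun y hy => h x hx1.2 (fun e => hx (Subtype.ext e)) (by
        rw [Subgroup.mem_centralizer_singleton_iff]
        exact hx2 y (Subgroup.mem_sup_left hy))
      exact P.not_dvd_index (h1.trans (Subgroup.index_dvd_of_le hPN))
    · intro h x hx hx1 g hg
      by_contra hgN
      rw [Subgroup.mem_centralizer_singleton_iff] at hg
      let π : Set ℕ := {p | p ∣ Nat.card M}
      have h1 : H8.piP π g ∈ N := by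
        refine H8.mem_of_pow_mem_of_coprime (N.pow_index_mem _) ?_
        exact (H1.PiNum.coprime (H8.piElt_piP π g) (H1.PiNum.compl_of_coprime h)).symm
      have h2 : H8.piQ π g ∉ N := fun h2 => hgN (H8.piP_mul_piQ π g ▸ N.mul_mem h1 h2)
      obtain ⟨y, hy⟩ := hcam _ h2 x hx
      have h3 : H8.PiElt πᶜ (H8.piQ π g * x) := hy ▸ (H8.piElt_piQ π g).conj y
      have h4 : H8.PiElt πᶜ x := by
        have := (H8.piElt_piQ π g).inv.mul h3
          ((Commute.refl _).mul_right (H8.commute_piQ hg)).inv_left
        simpa using this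
      exact hx1 (H8.PiElt.eq_one (H8.PiElt.of_mem (H1.PiNum.primeFactors_self _) hx) h4)
  refine ⟨hiff, fun h => ?_⟩
  have hco := hiff.1 h
  -- take a minimal supplement
  obtain ⟨H, hH, hmin⟩ := (wellFounded_lt (α := Subgroup G)).has_min {H | H ⊔ N = ⊤} ⟨⊤, by simp⟩
  refine ⟨H, hH, ?_⟩
  by_contra hne
  obtain ⟨p, hp, hpd⟩ := H1.exists_prime_dvd_card hne
  haveI := Fact.mk hp
  have hfr : (H ⊓ N).subgroupOf H ≤ frattini H := by
    rw [H1.le_frattini_iff]
    intro K hK
    by_contra hc
    haveI : ((H ⊓ N).subgroupOf H).Normal := by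
      rw [Subgroup.inf_subgroupOf_left]; infer_instance
    have h1 := congrArg (Subgroup.map H.subtype) (H1.coatom_sup_eq_top hK hc)
    rw [Subgroup.map_sup, Subgroup.subgroupOf_map_subtype, ← MonoidHom.range_eq_map,
      Subgroup.range_subtype] at h1
    refine hmin (K.map H.subtype) ?_ ?_
    · show _ = _
      rw [eq_top_iff, ← hH]
      refine sup_le ?_ le_sup_right
      exact h1.ge.trans (sup_le_sup_left (inf_le_left.trans inf_le_right) _)
    · have := Subgroup.map_subtype_lt_map_subtype.2 hK.lt_top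
      rwa [← MonoidHom.range_eq_map, Subgroup.range_subtype] at this
  have h1 : p ∣ (frattini H).index := H1.prime_dvd_index_frattini hp
    (hpd.trans (Subgroup.card_dvd_of_le inf_le_left))
  have h2 : p ∣ N.index := by
    refine (h1.trans (Subgroup.index_dvd_of_le hfr)).trans ?_
    rw [Subgroup.inf_subgroupOf_left]
    exact Subgroup.relIndex_dvd_index_of_normal N H
  exact hp.one_lt.ne' (Nat.eq_one_of_dvd_coprimes hco h2
    (hpd.trans (Subgroup.card_dvd_of_le inf_le_right)))

end Cfsg.Agent.S4112
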