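import Cfsg.Statements.S4115
import Cfsg.Agent.H2.Ms1
import Cfsg.Agent.H1.FrobK
import Cfsg.Agent.H7.GK
import Cfsg.Agent.H1.BG3d

set_option autoImplicit false
universe u
open Cfsg

namespace Cfsg.Agent.S4115

open Subgroup hiding upperCentralSeries
open H2 Cfsg.FusionSystem

open Subgroup H2 H7 H1B

/-- Let G be a finite group and H a subgroup that meets each of its conjugates by elements outside N_G(H) trivially and whose order is coprime to its index in N_G(H). Then H has a normal complement in N_G(H) if and only if H has a normal complement in G. Moreover, if H is not normal in G and has a normal complement in N_G(H), then H is isomorphic to a Frobenius complement of some finite Frobenius group. -/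
theorem result {G : Type u} [Group G] [Finite G] (H : Subgroup G)
    (hTI : Cfsg.IsTISubset (H : Set G)) (hHall : (Nat.card H).Coprime (H.subgroupOf (Subgroup.normalizer (H : Set G))).index) :
    ((∃ K : Subgroup (Subgroup.normalizer (H : Set G)), K.Normal ∧ K.IsComplement' (H.subgroupOf (Subgroup.normalizer (H : Set G)))) ↔
      (∃ N : Subgroup G, N.Normal ∧ N.IsComplement' H)) ∧
    (¬ H.Normal → (∃ K : Subgroup (Subgroup.normalizer (H : Set G)), K.Normal ∧ K.IsComplement' (H.subgroupOf (Subgroup.normalizer (H : Set G)))) →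
      ∃ (F : Type u) (_ : Group F) (_ : Finite F) (C : Subgroup F), Cfsg.IsFrobeniusComplement C ∧ Nonempty (H ≃* C)) := by
  have main : ∀ K : Subgroup (nrm H), K.Normal → K.IsComplement' (H.subgroupOf (nrm H)) →
      ∃ N : Subgroup G, N.Normal ∧ H ⊔ N = ⊤ ∧ H ⊓ N = ⊥ ∧ N ⊓ nrm H ≤ cen H := fun K hK c => by
    obtain ⟨a, b⟩ := H1.isComplement'_iff_sup_inf.1 c
    have a' : H ⊔ K.map (nrm H).subtype = nrm H := by
      have := congrArg (Subgroup.map (nrm H).subtype) a
      rwa [Subgroup.map_sup, subgroupOf_map (le_nrm_self H), ← MonoidHom.range_eq_map, range_subtype] at this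
    have b' : H ⊓ K.map (nrm H).subtype = ⊥ := eq_bot_iff.2 (by
      rintro _ ⟨i, x, j, rfl⟩
      exact congrArg Subtype.val (mem_bot.1 (b.le ⟨i, j⟩)))
    haveI := normal_subgroupOf (le_refl (nrm H))
    obtain ⟨N, h1, h2, h3, -⟩ := H1.frobenius_wielandt (map_subtype_le K) (le_nrm_map_subtype K)
      fun x hx xK g hg => by
        by_contra n
        have e := hTI g n ((g⁻¹ * x * g) ^ (H.subgroupOf (nrm H)).index)
          (pow_index_mem (H.subgroupOf (nrm H)) ⟨_, hg⟩) (by
          have := pow_index_mem (H.subgroupOf (nrm H)) ⟨_, hx⟩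
          rw [mem_subgroupOf] at this
          rw [← conj_pow]
          simpa [mul_assoc] using this)
        refine xK ⟨⟨x, hx⟩, ?_, rfl⟩
        have e' : (⟨x, hx⟩ : nrm H) ^ (H.subgroupOf (nrm H)).index = 1 := Subtype.ext (by
          have : (g⁻¹ * x * g⁻¹⁻¹) ^ (H.subgroupOf (nrm H)).index = 1 := by simpa using e
          rw [conj_pow, conj_eq_one_iff] at this
          simpa using this)
        have m := pow_index_mem K ⟨x, hx⟩
        rw [c.symm.index_eq_card, Nat.card_congr (subgroupOfEquivOfLe (le_nrm_self H)).toEquiv] at m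
        refine (zpowers_le.2 m) (mem_zpowers_pow_iff.2 ?_)
        exact Nat.Coprime.coprime_dvd_right (orderOf_dvd_of_pow_eq_one e') hHall
    refine ⟨N, h1, ?_, ?_, ?_⟩
    · rw [eq_top_iff, ← h3, ← a']
      exact sup_le (sup_le_sup_left (h2.ge.trans inf_le_right) _) le_sup_right
    · rw [eq_bot_iff, ← b', ← h2]
      exact le_inf inf_le_left (inf_le_inf_right _ (le_nrm_self H))
    · rw [inf_comm, h2]
      exact le_cen_of_inf_eq_bot (map_subtype_le K) ((le_nrm_self H).trans (le_nrm_map_subtype K))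
        (inf_comm H _ ▸ b')
  refine ⟨⟨fun ⟨K, hK, c⟩ => ?_, fun ⟨N, hN, c⟩ => ?_⟩, fun nn ⟨K, hK, c⟩ => ?_⟩
  · obtain ⟨N, h1, h2, h3, -⟩ := main K hK c
    exact ⟨N, h1, H1.isComplement'_iff_sup_inf.2 ⟨h2, h3⟩⟩
  · obtain ⟨a, b⟩ := H1.isComplement'_iff_sup_inf.1 c
    refine ⟨N.subgroupOf _, inferInstance, H1.isComplement'_iff_sup_inf.2 ⟨?_, ?_⟩⟩
    · rw [← inf_subgroupOf_right N, ← subgroupOf_sup (le_nrm_self H) inf_le_right, subgroupOf_eq_top]
      intro x hx
      obtain ⟨n, hn, y, hy, rfl⟩ := (H1.mem_sup_of_le_normalizer' (N := N) (H := H)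
        le_normalizer_of_normal).1 ((sup_comm _ _).trans a ▸ mem_top x)
      exact mul_mem (mem_sup_right ⟨hn, (mul_mem_cancel_right (le_nrm_self H hy)).1 hx⟩) (mem_sup_left hy)
    · exact eq_bot_iff.2 fun x hx => Subtype.ext (mem_bot.1 (b.le ⟨hx.1, hx.2⟩))
  obtain ⟨N, h1, h2, h3, h4⟩ := main K hK c
  have ti : ∀ x ∈ H, x ≠ 1 → cen1 x ≤ nrm H := fun x hx x1 g hg => by
    by_contra n
    exact x1 (hTI g n x hx (by rwa [mem_cen1.1 hg, mul_inv_cancel_right]))
  have co : Cop H N := cop_ft (le_nrm_of_normal _ _) (Nat.coprime_of_dvd fun p hp d => by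
    haveI := Fact.mk hp
    obtain ⟨S, hS⟩ := H2.exists_isSylowIn p H
    obtain ⟨x, hx, x1⟩ := exists_ne_one (syl_ne_bot hS d)
    have t := syl_top_of_nrm_le (hS.trans (le_nrm_self H) fun d' =>
      hp.ne_one (Nat.eq_one_of_dvd_coprimes hHall d d')) fun g hg => by
        by_contra n
        exact x1 (hTI g n x (hS.le hx) (hS.le (nconj_mem hg hx)))
    have := syl_inf t le_top (le_nrm_of_normal S N)
    rw [eq_bot_of_le (inf_le_inf_right N hS.le) h3] at this
    exact syl_bot_iff.1 this)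
  obtain ⟨P, ⟨p1, p2, p3⟩, pm⟩ := exists_minimal_of_wellFoundedLT
    (fun P => P ≤ N ∧ H ≤ nrm P ∧ ¬ H ≤ cen P) ⟨N, le_rfl, le_nrm_of_normal _ _, fun e =>
      nn (normal_iff_top_le_nrm.2 (h2.ge.trans (sup_le (le_nrm_self H) (le_nrm_of_le_cen (le_cen_symm e)))))⟩
  have cP := co.right p1 p2
  obtain ⟨-, -, -, m⟩ := min_action cP le_rfl (le_nrm_self H) (fun L l n => by
    by_contra e
    exact l.not_ge (pm ⟨l.le.trans p1, n, e⟩ l.le)) p3
  have lt : P ⊓ cen H < P := inf_lt_left.2 fun e => p3 (le_cen_symm e)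
  have nH : H ≤ nrm (P ⊓ cen H) := nrm_inf p2 (nrm_cen (le_nrm_self H))
  have nP : P ≤ nrm (P ⊓ cen H) := le_nrm_of_le_cen (le_cen_symm (m _ lt nH))
  have b : H ⊓ kr (qm (P ⊓ cen H)) = ⊥ := by
    rw [kr_qm]; exact eq_bot_of_le (inf_le_inf_left _ (inf_le_left.trans p1)) h3
  have e := imEquiv (qm (P ⊓ cen H)) nH b
  refine ⟨_, _, inferInstance, _, (frob_sub (K := im (qm (P ⊓ cen H)) P) (E := im (qm (P ⊓ cen H)) H)
    (fun y hy y1 => ?_) (im_le_nrm _ p2) rfl (im_qm_ne_bot lt nP) fun e' => ?_).1,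
      ⟨e.trans (subgroupOfEquivOfLe le_sup_left).symm⟩⟩
  · obtain ⟨x, hx, rfl⟩ := (mem_im_of_le nH).1 hy
    rw [Cop.im_cen1 (nH hx) nP (p2 hx) (H1B.Cop.inf_kr (cP.left (zpowers_le.2 hx)) (zpowers_le.2 (nH hx)) _),
      im_qm_eq_bot (inf_le_left.trans nP)]
    exact le_inf inf_le_left ((inf_le_inf p1 (ti x hx (by rintro rfl; exact y1 ev_one))).trans h4)
  · refine nn ?_
    rw [← inf_eq_left.2 ((im_eq_bot_iff nH).1 e'), b]
    infer_instance

end Cfsg.Agent.S4115
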