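import Cfsg.Statements.S4116
import Cfsg.Agent.H2.Ms1
import Cfsg.Agent.H1.FrobK

set_option autoImplicit false
open Cfsg

namespace Cfsg.Agent.S4116

open Subgroup hiding upperCentralSeries
open H2 Cfsg.FusionSystem

open Subgroup H2 H7 H1B

/-- Let G be a finite group with a subgroup H whose order is coprime to its index (a Hall subgroup) and which meets each of its conjugates by elements outside N_G(H) trivially. Then every subgroup of G whose order is divisible only by primes dividing the order of H lies in a conjugate of H. -/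
theorem result {G : Type*} [Group G] [Finite G] (H : Subgroup G)
    (hHall : (Nat.card H).Coprime H.index) (hTI : Cfsg.IsTISubset (H : Set G))
    (K : Subgroup G) (hK : ∀ q : ℕ, q.Prime → q ∣ Nat.card K → q ∣ Nat.card H) :
    ∃ g : G, K ≤ H.map (MulAut.conj g).toMonoidHom := by
  have hl := hall_of_coprime (le_top (a := H)) (by rwa [relIndex_top_right])
  have ti : ∀ x ∈ K, x ≠ 1 → ∀ u ∈ K, ∀ g : G, g⁻¹ * x * g ∈ H → g⁻¹ * (u⁻¹ * x * u) * g ∈ H →
      g⁻¹ * u * g ∈ H := fun x hx x1 u hu g a b => by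
    have n : g⁻¹ * u * g ∈ nrm H := inv_mem_iff.1 (by
      by_contra c
      exact x1 (by simpa using conj_eq_one_iff.1 (show g⁻¹ * x * g⁻¹⁻¹ = 1 by
        simpa using hTI _ c _ a (by simpa [mul_assoc] using b))))
    refine (hl.mono (le_nrm_self H) le_top).mem_of_piN le_rfl n fun q hq d => ⟨hq, hK q hq (d.trans ?_)⟩
    rw [show g⁻¹ * u * g = MulAut.conj g⁻¹ u by simp, MulEquiv.orderOf_eq]
    exact K.orderOf_dvd_natCard hu
  have ex : ∀ x ∈ K, x ≠ 1 → ∃ g : G, g⁻¹ * x * g ∈ H := fun x hx x1 => by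
    obtain ⟨y, hy, py⟩ := H1.exists_mem_orderOf_prime (zpowers_ne_bot.2 x1)
    haveI := Fact.mk py
    have yK := zpowers_le.2 hx hy
    obtain ⟨P, hP, l⟩ := hl.syl_le (p := orderOf y) ⟨py, hK _ py (K.orderOf_dvd_natCard yK)⟩
    obtain ⟨g, -, e⟩ := hP.exists_cj_le (isPGroup_zpowers_of_orderOf rfl) le_top
    have m : g⁻¹⁻¹ * y * g⁻¹ ∈ H := by simpa using l (e (H7.conj_mem_cj.2 (mem_zpowers y)))
    refine ⟨g⁻¹, ti y yK (by rintro rfl; simp at py; exact Nat.not_prime_one py) x hx _ m ?_⟩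
    obtain ⟨k, rfl⟩ := hy
    convert m using 2; group
  by_contra hn
  push Not at hn
  have key : ∀ g : G, ∀ x ∈ K, x ≠ 1 → g⁻¹ * x * g ∈ H →
      IsFrobeniusComplement ((cj g H).subgroupOf K) := fun g x hx x1 m =>
    H1.FrobC.of_forall (ne_bot_iff_exists_ne_one.2 ⟨⟨⟨x, hx⟩, H7.mem_cj.2 m⟩,
      fun e => x1 (congrArg (fun z => (z.1.1 : G)) e)⟩) (fun e => hn g (subgroupOf_eq_top.1 e))
      fun y hy y1 u hu => H7.mem_cj.2 (ti y y.2 (fun e => y1 (Subtype.ext e)) u u.2 g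
        (H7.mem_cj.1 hy) (H7.mem_cj.1 hu))
  obtain ⟨⟨x, hx⟩, h1⟩ := ne_bot_iff_exists_ne_one.1 fun e : K = ⊥ => hn 1 (e ▸ bot_le)
  obtain ⟨g, hg⟩ := ex x hx fun e => h1 (Subtype.ext e)
  replace hg := key g x hx (fun e => h1 (Subtype.ext e)) hg
  have h2 : 1 < (frobeniusKernel ((cj g H).subgroupOf K)).ncard := by
    rw [← Nat.card_coe_set_eq, H1.FrobC.card_kernel hg]
    exact one_lt_index_of_ne_top hg.2.1
  obtain ⟨y, hy, hy1⟩ := Set.exists_ne_of_one_lt_ncard h2 1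
  obtain ⟨k, hyk⟩ := ex y y.2 fun e => hy1 (Subtype.ext e)
  obtain ⟨z, hz1, hz2⟩ := H1.FrobC.exists_not_mem_kernel hg
    (key k y y.2 (fun e => hy1 (Subtype.ext e)) hyk)
  obtain ⟨h3, u, hu⟩ := H1.not_mem_frobeniusKernel_iff.1 hz1
  obtain ⟨-, v, hv⟩ := H1.not_mem_frobeniusKernel_iff.1 hz2
  rw [mem_subgroupOf, H7.mem_cj] at hu hv
  have h4 : (u * g : G)⁻¹ * (v * k) ∈ nrm H := by
    by_contra c
    refine h3 (Subtype.ext (conj_eq_one_iff.1 (show (v * k : G)⁻¹ * z * (v * k : G)⁻¹⁻¹ = 1 from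
      hTI _ c _ (by simpa [mul_assoc] using hv) (by simpa [mul_assoc] using hu))))
  refine (H1.mem_frobeniusKernel_iff.1 hy).elim hy1 fun h5 => h5 (v⁻¹ * u) ?_
  rw [mem_subgroupOf, H7.mem_cj]
  simpa [mul_assoc] using nconj_mem h4 hyk

end Cfsg.Agent.S4116
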