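import Cfsg.Statements.S4117
import Cfsg.Agent.H2.Ms2
import Cfsg.Agent.H1.BG3d

set_option autoImplicit false
open Cfsg

namespace Cfsg.Agent.S4117

open Subgroup hiding upperCentralSeries
open H2 Cfsg.FusionSystem

open Subgroup H2 H7 H1B
open scoped commutatorElement
theorem aux {G : Type*} [Group G] [Finite G] {A K : Subgroup G} (h : Cop A K) (z : IsZGroup K) :
    IsCyclic (⁅K, A⁆ : Subgroup G) ∧ ⁅K, A⁆ ⊓ cen A = ⊥ ∧ (ord (K ⊓ cen A)).Coprime (ord ⁅K, A⁆) := by
  have l : ⁅K, A⁆ ≤ K := comm_le_left h.norm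
  have cy : ∀ {G' : Type _} [Group G'] [Finite G'] {B : Subgroup G'}, IsZGroup B → ⁅B, B⁆ = ⊥ → IsCyclic B :=
    fun z e => by
      haveI := nilp_of_comm_le_cen (e.le.trans bot_le)
      infer_instance
  have n := nrm_commutator (le_nrm_self K) (le_nrm_self K)
  have d : IsCyclic (⁅K, K⁆ : Subgroup G) := by
    haveI := IsZGroup.isCyclic_commutator K
    rw [← map_subtype_commutator]
    exact isCyclic_of_surjective _ (K.subtype.subgroupMap_surjective _)
  have c := H7.der_le_cen_of_cyc d n (nrm_commutator h.norm h.norm)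
  have a := comm_of_cycMod (cycMod_of_im (f := qm ⁅K, K⁆) (l.trans n) (cy (zg_im (zg_of_le z l) (l.trans n) _) (by
    rw [← im_commutator (l.trans n) (l.trans n), im_qm_eq_bot ((der_le _).trans (l.trans n))]
    exact commutator_mono l l))) inf_le_left (inf_le_right.trans ((kr_qm _).le.trans (le_cen_symm c)))
  have y := cy (zg_of_le z l) (comm_eq_bot.2 (isComm_iff.1 a))
  have i := H1.coprime_centralizer_inf_commutator (V := ⁅K, A⁆) (nrm_commutator h.norm (le_nrm_self A))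
    (h.cop.coprime_dvd_right (card_dvd_of_le l))
  rw [h.comm_comm, inf_eq_left.2 inf_le_left] at i
  refine ⟨y, i, Nat.coprime_of_dvd fun p hp d1 d2 => ?_⟩
  haveI := Fact.mk hp
  obtain ⟨x, hx, ox⟩ := exists_orderOf_eq hp d1
  obtain ⟨w, hw, ow⟩ := exists_orderOf_eq hp d2
  have m : zpowers x ≤ nrm (zpowers w) := (zpowers_le.2 hx.1).trans ((normalizer_commutator_ge_left K A).trans
    (nrm_le_of_cyc y (zpowers_le.2 hw)))
  have q := zg_cyc z (sup_le (zpowers_le.2 hx.1) (zpowers_le.2 (l hw))) (IsPGroup.to_sup_of_normal_right'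
    (isPGroup_zpowers_of_orderOf ox) (isPGroup_zpowers_of_orderOf ow) m)
  have e := eq_of_cyc q le_sup_left le_sup_right (by rw [Nat.card_zpowers, Nat.card_zpowers, ox, ow])
  exact ne_one_of_orderOf ox (mem_bot.1 (i.le ⟨zpowers_le.2 hw (e.le (mem_zpowers x)), hx.2⟩))

/-- Let A be a finite group acting on the finite group G by automorphisms with the orders of A and G coprime, and suppose every Sylow subgroup of G is cyclic. Then the fixed-point subgroup C_G(A) is a Hall subgroup of G (its order is coprime to its index), the subgroup [G, A] generated by the elements g⁻¹·a(g) is cyclic and normal with [G, A] ∩ C_G(A) = 1 and [G, A]·C_G(A) = G. -/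
theorem result {G A : Type*} [Group G] [Finite G] [Group A] [Finite A]
    [MulDistribMulAction A G] (hcop : (Nat.card A).Coprime (Nat.card G))
    (hcyc : ∀ (p : ℕ) [Fact p.Prime] (P : Sylow p G), IsCyclic (P : Subgroup G)) :
    (Nat.card (MulAction.fixedPoints A G : Set G)).Coprime (Nat.card G / Nat.card (MulAction.fixedPoints A G : Set G)) ∧
    IsCyclic (Subgroup.closure {y : G | ∃ (a : A) (g : G), y = g⁻¹ * a • g}) ∧
    (Subgroup.closure {y : G | ∃ (a : A) (g : G), y = g⁻¹ * a • g}).Normal ∧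
    (Subgroup.closure {y : G | ∃ (a : A) (g : G), y = g⁻¹ * a • g} : Set G) ∩ MulAction.fixedPoints A G = {1} ∧
    Subgroup.closure {y : G | ∃ (a : A) (g : G), y = g⁻¹ * a • g} ⊔ Subgroup.closure (MulAction.fixedPoints A G) = ⊤ := by
  haveI : IsZGroup G := ⟨fun p hp P => by haveI := Fact.mk hp; exact hcyc p P⟩
  let φ := MulDistribMulAction.toMulAut A G
  have c := xcop hcop
  obtain ⟨h1, h2, h3⟩ := aux c (IsZGroup.of_injective (f := (H1.sdLTopEquiv φ).symm.toMonoidHom)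
    (H1.sdLTopEquiv φ).symm.injective)
  have h4 := c.comm_sup_cen
  have h5 := normalizer_commutator_ge_left (H1.sdL φ ⊤) (H1.sdR φ ⊤)
  have e1 : ⁅H1.sdL φ ⊤, H1.sdR φ ⊤⁆ = H1.sdL φ (closure {y : G | ∃ (a : A) (g : G), y = g⁻¹ * a • g}) := by
    rw [H1.commutator_sdL_sdR]
    congr 2
    ext x
    exact ⟨fun ⟨g, _, a, _, e⟩ => ⟨a, g⁻¹, by simpa [φ] using e⟩,
      fun ⟨a, g, e⟩ => ⟨g⁻¹, trivial, a, trivial, by simpa [φ] using e⟩⟩
  have e2 : H1.sdL φ ⊤ ⊓ cen (H1.sdR φ ⊤) = H1.sdL φ (FixedPoints.subgroup A G) := by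
    ext x
    refine ⟨?_, ?_⟩
    · rintro ⟨⟨g, -, rfl⟩, h⟩
      exact ⟨g, fun a => H1.inl_mem_centralizer_sdR.1 h a trivial, rfl⟩
    · rintro ⟨g, h, rfl⟩
      exact ⟨⟨g, trivial, rfl⟩, H1.inl_mem_centralizer_sdR.2 fun a _ => h a⟩
  have h6 : ⁅H1.sdL φ ⊤, H1.sdR φ ⊤⁆ ⊓ (H1.sdL φ ⊤ ⊓ cen (H1.sdR φ ⊤)) = ⊥ :=
    eq_bot_mono (inf_le_inf_left _ inf_le_right) h2
  have h7 := card_sup_of_inf_eq_bot (inf_le_left.trans h5) ((inf_comm _ _).trans h6)
  rw [sup_comm, h4] at h7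
  rw [e1] at h1 h5
  rw [e1, e2] at h3 h4 h6 h7
  rw [H1.card_sdL, H1.card_sdL] at h3
  rw [H1.card_sdL_top, H1.card_sdL, H1.card_sdL] at h7
  generalize closure {y : G | ∃ (a : A) (g : G), y = g⁻¹ * a • g} = N at *
  refine ⟨?_, isCyclic_of_surjective _ (H1.sdLEquiv φ N).symm.surjective, ⟨fun x hx g => ?_⟩, ?_, ?_⟩
  · change (ord (FixedPoints.subgroup A G)).Coprime (_ / ord (FixedPoints.subgroup A G))
    rwa [h7, Nat.mul_div_cancel_left _ Nat.card_pos]
  · have := conj_mem h5 (H1.inl_mem_sdL.2 (mem_top g)) (H1.inl_mem_sdL.2 hx)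
    rwa [← map_inv, ← map_mul, ← map_mul, H1.inl_mem_sdL] at this
  · refine Set.eq_singleton_iff_unique_mem.2 ⟨⟨one_mem N, fun a => smul_one a⟩, fun x hx => ?_⟩
    exact SemidirectProduct.inl_injective ((mem_bot.1 (h6.le
      ⟨H1.inl_mem_sdL.2 hx.1, H1.inl_mem_sdL.2 hx.2⟩)).trans (map_one _).symm)
  · rw [← Subgroup.map_sup] at h4
    rw [← H1.sdL_injective h4, ← closure_eq (FixedPoints.subgroup A G)]
    rfl

end Cfsg.Agent.S4117
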