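import Cfsg.Statements.S4126
import Mathlib
import Cfsg.Agent.H8.Cls1

set_option autoImplicit false
open Cfsg

namespace Cfsg.Agent.S4126

open H8 H7 Subgroup
open scoped commutatorElement

/-- Let G be a finite group and p a prime. Suppose every element of order p, and when p = 2 also every element of order 4, has a conjugacy class of p-power size. Then G has a normal p-complement. -/
theorem result {G : Type*} [Group G] [Finite G] (p : ℕ) [Fact p.Prime]
    (h : ∀ x : G, (orderOf x = p ∨ (p = 2 ∧ orderOf x = 4)) → ∃ a : ℕ, (Subgroup.centralizer ({x} : Set G)).index = p ^ a) :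
    Cfsg.HasNormalPComplement p G := by
  have hp : Fact p.Prime := inferInstance
  have h1 : ∀ x : G, (x ^ p = 1 ∨ p = 2 ∧ x ^ 4 = 1) → ∃ a, (cen1 x).index = p ^ a := by
    intro x hx
    by_cases h0 : x = 1
    · exact ⟨0, by rw [h0, index_cen1_eq_one.2 (one_mem _), pow_zero]⟩
    rcases hx with hx | ⟨rfl, hx⟩
    · exact h x (Or.inl (orderOf_eq_prime hx h0))
    · by_cases h2 : x ^ 2 = 1
      · exact h x (Or.inl (orderOf_eq_prime h2 h0))
      · exact h x (Or.inr ⟨rfl, orderOf_eq_prime_pow (p := 2) (n := 1) (by simpa using h2) hx⟩)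
  have h2 := pRes_le_cen (isPGroup_Op p (⊤ : Subgroup G)) le_top (le_nrm_Opi _ _) fun x _ hx => by
    obtain ⟨a, ha⟩ := h1 x hx
    rw [relIndex_top_right, ha]; exact piN_pow a
  refine npc_of_small fun x hx => h2.trans (cen_le_cen1 ?_)
  obtain ⟨a, ha⟩ := h1 x hx
  rcases hx with hx | ⟨rfl, hx⟩
  · exact mem_Op_of_index ha (j := 1) (by rwa [pow_one])
  · exact mem_Op_of_index ha (j := 2) hx

end Cfsg.Agent.S4126
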