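import Cfsg.Statements.S4130
import Mathlib
import Cfsg.Agent.H8.Cls4

set_option autoImplicit false
open Cfsg

namespace Cfsg.Agent.S4130

open Subgroup H7 H8
open scoped commutatorElement

/-- Let G be a finite group all of whose conjugacy class sizes are square-free. Then G is supersolvable, G/F(G) and the derived subgroup G′ are cyclic of square-free order (F(G) the Fitting subgroup, which is normal), F(G) has nilpotency class at most 2, and G is metabelian. -/
theorem result {G : Type*} [Group G] [Finite G]
    (h : ∀ x : G, Squarefree (Subgroup.centralizer ({x} : Set G)).index) :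
    Cfsg.IsSupersolvable G ∧ (Cfsg.fittingSubgroup G).Normal ∧
    (∀ _h : (Cfsg.fittingSubgroup G).Normal, IsCyclic (G ⧸ Cfsg.fittingSubgroup G) ∧ Squarefree (Cfsg.fittingSubgroup G).index) ∧
    IsCyclic (commutator G) ∧ Squarefree (Nat.card (commutator G)) ∧
    Subgroup.upperCentralSeries ↥(Cfsg.fittingSubgroup G) 2 = ⊤ ∧ commutator ↥(commutator G) = ⊥ := by
  have hs := ss_of_sqfree G h
  have hq : Squarefree (Nat.card (_root_.commutator G)) := sqfree_der h
  haveI hn := hs.isNilpotent_commutator
  haveI := IsZGroup.of_squarefree hq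
  have hc : IsCyclic (_root_.commutator G) := inferInstance
  have h1 : _root_.commutator G ≤ cen (Cfsg.fittingSubgroup G) := nilp_le_of_Op_le hn fun p hp hd => by
    haveI := Fact.mk hp
    obtain ⟨k, hk⟩ := (isPGroup_Op p (_root_.commutator G)).exists_card_eq
    have h2 := hq.squarefree_of_dvd (hk ▸ card_dvd_of_le (Opi_le {p} (_root_.commutator G)))
    rcases k with _ | k
    · rw [card_eq_one.1 hk]; exact bot_le
    rw [((Nat.squarefree_pow_iff hp.one_lt.ne' (k := k + 1) (Nat.succ_ne_zero k)).1 h2).2,
      pow_one] at hk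
    refine le_cen_symm (H1.IsMinNormal.fitting_le_centralizer
      ⟨normal_iff_top_le_nrm.2 (nrm_Opi _ (le_nrm_of_normal _ _)), fun e => ?_, fun M _ hM => ?_⟩)
    · rw [e, card_bot] at hk; exact hp.one_lt.ne hk
    · rcases (Nat.dvd_prime hp).1 (hk ▸ card_dvd_of_le hM) with e | e
      · exact Or.inl (card_eq_one.1 e)
      · exact Or.inr (eq_of_le_of_card_le hM (hk.trans e.symm).le)
  have h2 : cen (_root_.commutator G) = Cfsg.fittingSubgroup G := by
    refine le_antisymm ?_ (le_cen_symm h1)
    haveI := nilp_of_comm_le_cen (A := cen (_root_.commutator G))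
      ((commutator_mono le_top le_top).trans (le_cen_symm le_rfl))
    exact H1.le_fitting
  obtain ⟨z, hz⟩ := isCyclic_iff_exists_zpowers_eq_top.1 hc
  have h3 : zpowers (z : G) = _root_.commutator G := by
    rw [← map_subtype_inj, MonoidHom.map_zpowers, ← MonoidHom.range_eq_map, range_subtype] at hz
    exact hz
  have h4 : Squarefree (Cfsg.fittingSubgroup G).index := by
    rw [← h2, ← h3, cen_zpowers]; exact h z
  refine ⟨H1.isSupersolvable_iff.2 hs, inferInstance, fun _ => ⟨?_, h4⟩, hc, hq, ?_, ?_⟩
  · haveI := IsZGroup.of_squarefree (G := G ⧸ Cfsg.fittingSubgroup G) h4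
    haveI : IsMulCommutative (G ⧸ Cfsg.fittingSubgroup G) :=
      Normal.quotient_commutative_iff_commutator_le.2 H1.le_fitting
    letI : CommGroup (G ⧸ Cfsg.fittingSubgroup G) :=
      { (inferInstance : Group _) with mul_comm := this.is_comm.comm }
    infer_instance
  · rw [eq_top_iff]
    intro x _
    rw [Subgroup.mem_upperCentralSeries_succ_iff]
    intro y
    rw [Subgroup.upperCentralSeries_one, mem_center_iff]
    intro w
    exact Subtype.ext (mem_cen.1 (h1 (commutator_mem_commutator (mem_top (x : G)) (mem_top (y : G))))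
      w w.2)
  · exact (commutator_eq_bot_iff _).2 hc.isMulCommutative

end Cfsg.Agent.S4130
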