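import Cfsg.Statements.S4135
import Cfsg.Agent.H8.Cls2
import Cfsg.Agent.H1.U1
import Cfsg.Agent.H2.WN1
import Cfsg.Agent.H7.GL2
import Cfsg.Agent.H7.Tk4

set_option autoImplicit false
open Cfsg

namespace Cfsg.Agent.S4135

open H7 H8 Subgroup
open H2 (cj IsSylowIn)
open scoped commutatorElement
set_option linter.unusedSectionVars false

section
variable {G : Type*} [Group G] [Finite G] {N S R T : Subgroup G} [N.Normal] {m r : ℕ} [hr : Fact r.Prime] {x y g t : G}
  (h : ∀ x ∈ N, x ∉ center G → (cen1 x).index = m)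
include h

omit hr in
theorem eq1 (hx : x ∈ N) (hx' : x ∉ center G) (hy : y ∈ N) (hy' : y ∉ center G) (l : cen1 x ≤ cen1 y) :
    cen1 x = cen1 y := eq_of_index_le l (by rw [h x hx hx', h y hy hy'])

omit hr in
theorem cop (hx : x ∈ N) (hx' : x ∉ center G) (hy : y ∈ N) (e : y ∈ cen1 x) (hc : (orderOf x).Coprime (orderOf y)) :
    cen1 x ≤ cen1 y := by
  have h1 := cen1_mul (mem_cen1.1 e).symm hc
  have h2 : x * y ∉ center G := fun e => hx' (index_cen1_eq_one.1 (index_eq_one.2 (top_le_iff.1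
    ((index_eq_one.1 (index_cen1_eq_one.2 e)).ge.trans (h1.le.trans inf_le_left)))))
  rw [← eq1 h (mul_mem hx hy) h2 hx hx' (h1.le.trans inf_le_left), h1]; exact inf_le_right

theorem syl_card (hx : x ∈ N) (hx' : x ∉ center G) (hy : y ∈ N) (hy' : y ∉ center G) (hS : IsSylowIn r S (cen1 x))
    (hT : IsPGroup r T) (l : T ≤ cen1 y) : ord T ≤ ord S :=
  Nat.le_of_dvd (card_pos' S) (card_dvd_syl hS hT (by
    rw [card_eq_of_index_eq ((h x hx hx').trans (h y hy hy').symm)]; exact card_dvd_of_le l))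

theorem exists_r (hx : x ∈ N) (hx' : x ∉ center G) (hy : y ∈ N) (hy' : y ∉ center G) (py : IsPGroup r (zpowers y)) :
    ∃ w ∈ cen1 x, w ∉ center G ∧ IsPGroup r (zpowers w) := by
  obtain ⟨S, hS⟩ := H1B.exists_syl r (cen1 x)
  by_contra! hc
  have h1 : S ≤ center G := fun u hu => by
    by_contra h1
    exact hc u (hS.1 hu) h1 (hS.2.to_le (zpowers_le.2 hu))
  have h3 := H7.eq_of_le_of_card_le (le_sup_right : S ≤ zpowers y ⊔ S) (syl_card h hx hx' hy hy' hS
    (isPGroup_sup (le_nrm_of_le_cen (le_cen_symm (h1.trans (center_le_centralizer _)))) py hS.2)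
    (sup_le (zpowers_le.2 (self_mem_cen1 y)) (h1.trans (center_le_cen1 y))))
  exact hy' (h1 (h3 ▸ mem_sup_left (mem_zpowers y)))

theorem type1 (hx : x ∈ N) (hx' : x ∉ center G) (px : IsPGroup r (zpowers x)) (hy : y ∈ N) (hy' : y ∉ center G)
    (c : (orderOf y).Coprime r) (e : y ∈ cen1 x) : N ⊓ cen1 x ≤ cen (cen1 x) := fun w hw => by
  have cp : ∀ {y : G}, (orderOf y).Coprime r → (orderOf x).Coprime (orderOf y) := fun c => by
    simpa using (coprime_of_isPGroup px c).symm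
  have h4 := eq1 h hx hx' hy hy' (cop h hx hx' hy e (cp c))
  obtain ⟨a, b, ha, hb, rfl, ⟨j, hj⟩, hc⟩ := H2.exists_p_part (p := r) w (orderOf_pos w).ne'
  refine mul_mem (le_cen1_iff.1 ?_) (le_cen1_iff.1 (cop h hx hx' (zpowers_le.2 hw.1 hb) (zpowers_le.2 hw.2 hb) (cp hc)))
  rw [h4]
  exact cop h hy hy' (zpowers_le.2 hw.1 ha) (h4 ▸ zpowers_le.2 hw.2 ha) (by rw [hj]; exact c.pow_right j)

omit h in
theorem mem_nrm (e : ⁅g, t⁆ ∈ center G) : t ∈ nrm (cen1 g) := by
  refine mem_nrm_of_cj_le ?_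
  rw [cj_cen1, show t * g * t⁻¹ = ⁅g, t⁆⁻¹ * g by rw [commutatorElement_def]; group]
  intro c hc
  have := (cen1 c).mul_mem (center_le_cen1 c e) (mem_cen1_comm.1 hc)
  rw [mul_inv_cancel_left] at this
  exact mem_cen1_comm.1 this

theorem dich (hN : ∀ P : Subgroup G, IsPGroup r P → P ≤ N) (hm : r ∣ m) (hx : x ∈ N) (hx' : x ∉ center G)
    (px : IsPGroup r (zpowers x)) (hy : y ∈ N) (hy' : y ∉ center G) (c : (orderOf y).Coprime r) (e : y ∈ cen1 x)
    (hS : IsSylowIn r S (cen1 x)) (hR : IsSylowIn r R ⊤) (l : S ≤ R) :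
    S.relIndex R ≤ r ∨ (center G).relIndex S ≤ r := by
  have A := type1 h hx hx' px hy hy' c e
  have E : ∀ a ∈ N ⊓ cen1 x, a ∉ center G → cen1 x = cen1 a := fun a ha ha' =>
    eq1 h hx hx' ha.1 ha' (le_cen1_iff.2 (A ha))
  have SA : S ≤ N ⊓ cen1 x := le_inf (hN S hS.2) hS.1
  have xS : x ∈ S := hS.le_of_normal px (zpowers_le.2 (self_mem_cen1 x))
    (le_nrm_of_le_cen (hS.1.trans (cen_zpowers x).ge)) (mem_zpowers x)
  have TS : R ⊓ nrm S ⊓ cen1 x ≤ S := by
    refine hS.le_of_le_normalizer (hR.2.to_le (inf_le_left.trans inf_le_left)) inf_le_right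
      (inf_le_left.trans inf_le_right)
  have ST : S ≤ R ⊓ nrm S := le_inf l (le_nrm_self S)
  generalize hT : R ⊓ nrm S = T at TS ST
  have TR : T ≤ R := hT ▸ inf_le_left
  have nS : T ≤ nrm S := hT ▸ inf_le_right
  have pT : IsPGroup r T := hR.2.to_le TR
  obtain ⟨a0, ha0, ha0', k0⟩ := nilp_exists_comm_le (U := S ⊓ center G) pT.isNilpotent ST
    (inf_lt_left.2 fun a => hx' (a xS)) nS (nrm_inf nS (le_nrm_of_normal _ _))
  obtain ⟨a, ha, ha', ar⟩ := exists_last_pow hS.2 ha0 (S := center G) fun k => ha0' ⟨ha0, k⟩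
  have aS : a ∈ S := zpowers_le.2 ha0 ha
  have k1 : ∀ g ∈ T, ⁅a, g⁆ ∈ center G := fun g hg => by
    obtain ⟨j, rfl⟩ := (mem_powers_iff_mem_zpowers.2 ha : ∃ j : ℕ, a0 ^ j = a)
    rw [comm_pow_left (mem_center_iff.1 (k0 g hg).2 a0).symm]
    exact pow_mem (k0 g hg).2 _
  have ea := E a (SA aS) ha'
  have nC : T ≤ nrm (cen1 x) := fun g hg => ea ▸ mem_nrm (k1 g hg)
  have nK : T ≤ nrm (Op' r (N ⊓ cen1 x)) := nrm_Opi _ (nrm_inf (le_nrm_of_normal _ _) nC)
  have cA : IsMulCommutative (N ⊓ cen1 x : Subgroup G) := isComm_iff.2 (A.trans (cen_anti inf_le_right))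
  have cK := isComm_of_le cA (Opi_le {r}ᶜ _)
  have co := (coprime_of_isPGroup pT (coprime_Op' r (N ⊓ cen1 x))).symm
  have lt : S < T := hT ▸ pgroup_lt_nrm hR.2 (lt_of_le_of_ne l fun e =>
    not_dvd_index_of_syl hR (e.ge.trans hS.1) (h x hx hx' ▸ hm))
  have hW : ⁅Op' r (N ⊓ cen1 x), T⁆ ≠ ⊥ := fun k => by
    have y0 : zpowers y ≤ N ⊓ cen1 x := zpowers_le.2 ⟨hy, e⟩
    have y1 : y ∈ Op' r (N ⊓ cen1 x) := le_Op' y0 (le_nrm_of_le_cen ((isComm_iff.1 cA).trans
      (cen_anti y0))) (by rwa [Nat.card_zpowers]) (mem_zpowers y)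
    exact lt.not_ge ((le_inf le_rfl (((comm_eq_bot'.1 k).trans (cen_le_cen1 y1)).trans (E y ⟨hy, e⟩ hy').ge)).trans TS)
  obtain ⟨W, hW1, hW0, hWn, hmin⟩ := H1B.exists_min_normal hW (nrm_commutator nK (le_nrm_self T))
  have hWQ := hW1.trans (comm_le_left nK)
  have hk : T ⊓ cen W = S := by
    refine le_antisymm (le_trans (inf_le_inf_left _ ?_) TS) (le_inf ST (SA.trans ((isComm_iff.1 cA).trans
      (cen_anti (hWQ.trans (Opi_le _ _))))))
    obtain ⟨w, hw, hw1⟩ := exists_ne_one hW0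
    have : w ∉ center G := fun e => hw1 ((comm_inf_cen_of_comm cK nK co).le ⟨hW1 hw, center_le_centralizer _ e⟩)
    exact (cen_le_cen1 hw).trans (E w (Opi_le _ _ (hWQ hw)) this).ge
  have h3 : ⁅T, T⁆ ≤ cen1 x := by
    have e1 : ⁅⁅zpowers a, T⁆, T⁆ ≤ ⊥ := by
      rw [le_bot_iff, comm_eq_bot]
      exact (comm_zpowers_le (le_nrm_of_normal ⊤ _ trivial) k1).trans (center_le_centralizer _)
    have := three_subgroups (le_nrm_bot T) (le_nrm_bot T) (le_nrm_bot _)
      (by rwa [Subgroup.commutator_comm T]) e1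
    rwa [le_bot_iff, comm_eq_bot, cen_zpowers, ← ea] at this
  have cy := isCyclic_act_of_irred (isComm_of_le cK hWQ) hWn
    (((le_inf (comm_le_left (le_nrm_self T)) h3).trans TS).trans (hk.ge.trans inf_le_right)) hmin
  have i1 : S.relIndex T ≤ r := by
    have e1 := card_im (f := act W) hWn
    rw [kr_act, ← inf_relIndex_right, inf_comm, hk] at e1
    rw [← e1, ← IsCyclic.exponent_eq_card]
    refine Nat.le_of_dvd hr.1.pos (Monoid.exponent_dvd_of_forall_pow_eq_one fun ⟨b, hb⟩ => Subtype.ext ?_)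
    obtain ⟨g, hg, rfl⟩ := (mem_im_of_le hWn).1 hb
    show ev _ g ^ r = 1
    rw [← ev_pow (hWn hg), ev_eq_one_iff (pow_mem (hWn hg) r), kr_act]
    refine (hk.ge (TS (mem_inf.2 ⟨pow_mem hg r, ?_⟩))).2
    have h6 : ⁅g, a⁆ ∈ center G := by rw [← inv_mem_iff, commutatorElement_inv]; exact k1 g hg
    rw [ea, mem_cen1, ← commutatorElement_eq_one_iff_mul_comm,
      comm_pow_left (mem_center_iff.1 h6 g).symm, ← inv_eq_one, ← inv_pow, commutatorElement_inv,
      ← comm_pow_left (mem_center_iff.1 (k1 g hg) a).symm, commutatorElement_eq_one_iff_mul_comm]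
    exact (mem_center_iff.1 ar g).symm
  rcases TR.eq_or_lt with e | e
  · exact .inl (e ▸ i1)
  obtain ⟨u, hu, hu'⟩ := SetLike.exists_of_lt (pgroup_lt_nrm hR.2 e)
  have l1 : cj u S ≤ T := cj_le_of_mem_nrm hu.2 ST
  have l2 : S ⊓ cj u S ≤ center G := fun b hb => by
    by_contra b'
    have b2 : u⁻¹ * b * u ∉ center G := fun k => b' (by
      simpa [mul_assoc] using (inferInstance : (center G).Normal).conj_mem _ k u)
    have e1 := E _ (SA (mem_cj.1 hb.2)) b2
    have e2 : cj u (cen1 x) = cen1 x := by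
      rw [e1, cj_cen1, ← e1, E b (SA hb.1) b']; congr 2; group
    refine hu' (hT ▸ ⟨hu.1, mem_nrm_of_cj_le (hS.le_of_le_normalizer (isPGroup_cj.2 hS.2) ?_ (l1.trans nS))⟩)
    exact e2 ▸ H7.cj_mono u hS.1
  right
  rw [← relIndex_cj u, cj_normal]
  refine le_trans ?_ ((relIndex_le_of_le_right l1 (relIndex_pos _ _).ne').trans i1)
  rw [← inf_relIndex_right S]
  exact relIndex_le_of_le_left l2 (relIndex_pos _ _).ne'

omit h in
theorem le_of_idx {B U : Subgroup G} (hS : IsPGroup r S) (h1 : B < U) (h2 : U ≤ S) (h3 : ord S ≤ r * ord B) : S ≤ U :=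
  (H7.eq_of_le_of_card_le h2 (h3.trans (mul_card_le_of_lt (hS.to_le h2) h1))).ge

theorem allP (hN : ∀ P : Subgroup G, IsPGroup r P → P ≤ N) (hm : r ∣ m) (hx : x ∈ N) (hx' : x ∉ center G)
    (px : IsPGroup r (zpowers x)) (hy : y ∈ N) (hy' : y ∉ center G) (c : (orderOf y).Coprime r) (e : y ∈ cen1 x)
    (hg' : g ∉ center G) (pg : IsPGroup r (zpowers g)) (hT : IsSylowIn r T (cen1 g)) : T ≤ cen (cen1 g) := by
  have hg : g ∈ N := hN _ pg (mem_zpowers g)
  obtain ⟨R, hR, TR⟩ := H1B.exists_syl_ge hT.2 le_top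
  obtain ⟨S, hS⟩ := H1B.exists_syl r (cen1 x)
  obtain ⟨u, -, l⟩ := hR.exists_cj_le hS.2 le_top
  have hS' := syl_cj hS u
  rw [cj_cen1] at hS'
  have cz : ∀ {x : G}, x ∉ center G → u * x * u⁻¹ ∉ center G := fun hx k => hx (by
    simpa [mul_assoc] using (inferInstance : (center G).Normal).conj_mem _ k u⁻¹)
  have x1 := (inferInstance : N.Normal).conj_mem _ hx u
  have y1 := (inferInstance : N.Normal).conj_mem _ hy u
  have x2 := cz hx'
  have y2 := cz hy'
  have x3 : IsPGroup r (zpowers (u * x * u⁻¹)) := by rw [← cj_zpowers]; exact isPGroup_cj.2 px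
  have y3 : (orderOf (u * y * u⁻¹)).Coprime r := by rwa [← MulAut.conj_apply, MulEquiv.orderOf_eq]
  have e' : u * y * u⁻¹ ∈ cen1 (u * x * u⁻¹) := by rw [← cj_cen1, conj_mem_cj]; exact e
  have D := dich h hN hm x1 x2 x3 y1 y2 y3 e' hS' hR l
  have A := type1 h x1 x2 x3 y1 y2 y3 e'
  generalize u * x * u⁻¹ = x at *
  generalize cj u S = S at *
  have gT : g ∈ T := hT.le_of_normal pg (zpowers_le.2 (self_mem_cen1 g))
    (le_nrm_of_le_cen (hT.1.trans (cen_zpowers g).ge)) (mem_zpowers g)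
  have fin : ∀ B : Subgroup G, B ≤ T ⊓ center G → ord T ≤ r * ord B → T ≤ cen (cen1 g) := fun B b1 b2 =>
    (le_of_idx (U := T ⊓ cen (cen1 g)) hT.2 (lt_of_le_of_ne (b1.trans (inf_le_inf_left _ (center_le_centralizer _)))
      fun k => hg' (b1 (k.ge ⟨gT, le_cen1_iff.1 le_rfl⟩)).2) inf_le_left b2).trans inf_le_right
  have SA : S ≤ N ⊓ cen1 x := le_inf (hN S hS'.2) hS'.1
  have E : ∀ a ∈ S, a ∉ center G → cen1 x = cen1 a := fun a ha ha' =>
    eq1 h x1 x2 (SA ha).1 ha' (le_cen1_iff.2 (A (SA ha)))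
  rcases D with D | D
  · by_cases gS : g ∈ cen1 x
    · rw [← eq1 h x1 x2 hg hg' (le_cen1_iff.2 (A ⟨hg, gS⟩))] at hT ⊢
      exact (le_inf (hN T hT.2) hT.1).trans A
    refine fin (S ⊓ T) (le_inf inf_le_right fun b hb => ?_) ?_
    · by_contra b'
      exact gS (E b hb.1 b' ▸ mem_cen1_comm.1 (hT.1 hb.2))
    · rw [← relIndex_mul_card_inf S T]
      exact Nat.mul_le_mul_right _ ((relIndex_le_of_le_right TR (relIndex_pos _ _).ne').trans D)
  · refine fin (center G ⊓ S) (le_inf (hT.le_of_normal (hS'.2.to_le inf_le_right) (inf_le_left.trans (center_le_cen1 g))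
      (le_nrm_of_le_cen (le_cen_symm (inf_le_left.trans (center_le_centralizer _))))) inf_le_left)
      ((syl_card h x1 x2 hg hg' hS' hT.2 hT.1).trans ?_)
    rw [← relIndex_mul_card_inf (center G) S]
    exact Nat.mul_le_mul_right _ D

omit h in
theorem le_sup (hN : ∀ P : Subgroup G, IsPGroup r P → P ≤ N) (pt : IsPGroup r (zpowers t)) (e : ⁅g, t⁆ ∈ center G)
    (hT : IsSylowIn r T (cen1 g)) (k : T ≤ cen (cen1 g)) : cen1 g ≤ N ⊔ cen1 t := by
  rw [← (npc_burnside hT (inf_le_left.trans (le_cen_symm k))).sup hT]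
  refine sup_le ?_ ((hN T hT.2).trans le_sup_left)
  rw [← (cop_of_pgroup pt (coprime_Op' r (cen1 g)) (nrm_Opi _ (zpowers_le.2 (mem_nrm e)))).comm_sup_cen, cen_zpowers]
  exact sup_le_sup ((commutator_mono le_rfl (hN _ pt)).trans (comm_le_right (le_nrm_of_normal _ _))) inf_le_right

end

/-- Let G be a finite group, r a prime and R a Sylow r-subgroup of G that is not central, N a normal subgroup of G containing R, and m a natural number such that every element of N has a conjugacy class in G of size 1 or m. Then N is nilpotent. -/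
theorem result {G : Type*} [Group G] [Finite G] (r : ℕ) [Fact r.Prime]
    (R : Sylow r G) (hR : ¬ (R : Subgroup G) ≤ Subgroup.center G) (N : Subgroup G) [N.Normal] (hRN : (R : Subgroup G) ≤ N)
    (m : ℕ) (h : ∀ x ∈ N, (Subgroup.centralizer ({x} : Set G)).index = 1 ∨ (Subgroup.centralizer ({x} : Set G)).index = m) : Group.IsNilpotent N := by
  replace h : ∀ x ∈ N, x ∉ center G → (cen1 x).index = m := fun x hx hx' =>
    (h x hx).resolve_left (mt index_cen1_eq_one.1 hx')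
  have sR := H1B.syl_top R
  have hN : ∀ P : Subgroup G, IsPGroup r P → P ≤ N := fun P hP => by
    obtain ⟨u, -, l⟩ := sR.exists_cj_le hP le_top
    rw [← cj_normal u⁻¹ N, ← cj_le_iff]; exact l.trans hRN
  have sN := sR.mono hRN le_top
  by_cases a : ∀ y ∈ N, (orderOf y).Coprime r → y ∈ cen N
  · refine nilp_of_le (sN.le_of_coprime (N := N ⊓ cen N ⊔ R) le_sup_right fun y hy c => mem_sup_left ⟨hy, a y hy c⟩)
      (nilp_sup_of_cen (inf_le_right.trans (cen_anti hRN)) (nilp_of_comm (isComm_iff.2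
        (inf_le_right.trans (cen_anti inf_le_left)))) R.2.isNilpotent)
  push Not at a
  obtain ⟨y, hy, c, hy0⟩ := a
  have hy' : y ∉ center G := fun k => hy0 (center_le_centralizer _ k)
  obtain ⟨w, hw, hw'⟩ := SetLike.not_le_iff_exists.1 hR
  have pR : ∀ {w}, w ∈ (R : Subgroup G) → IsPGroup r (zpowers w) := fun hw => R.2.to_le (zpowers_le.2 hw)
  obtain ⟨x, xy, hx', px⟩ := exists_r h hy hy' (hRN hw) hw' (pR hw)
  have hx : x ∈ N := hN _ px (mem_zpowers x)
  have cp : ∀ {x y : G}, IsPGroup r (zpowers x) → (orderOf y).Coprime r → (orderOf x).Coprime (orderOf y) :=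
    fun px c => by simpa using (coprime_of_isPGroup px c).symm
  by_cases hm : r ∣ m
  swap
  · have e : (cen (R : Subgroup G)).subgroupOf N = ⊤ := H1.eq_top_of_forall_conj_mem fun g => by
      obtain ⟨P, hP, l⟩ := exists_syl_le (p := r) (H := cen1 (g : G)) fun d => by
        by_cases k : (g : G) ∈ center G
        · rw [index_cen1_eq_one.2 k] at d; exact (Fact.out : r.Prime).one_lt.ne' (Nat.dvd_one.1 d)
        · exact hm (h _ g.2 k ▸ d)
      obtain ⟨u, hu, rfl⟩ := sN.exists_cj_eq (hP.mono (hN P hP.2) le_top)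
      refine ⟨⟨u, hu⟩, ?_⟩
      show u⁻¹ * g * u ∈ cen _
      rw [← mem_cj, cj_cen]; exact le_cen1_iff.1 l
    have l := (subgroupOf_eq_top.1 e).trans (cen_le_cen1 hw)
    exact (hy0 (le_cen1_iff.1 (l.trans (cop h (hRN hw) hw' hy (l hy) (cp (pR hw) c))))).elim
  have P := fun g hg' pg T hT => allP (g := g) (T := T) h hN hm hx hx' px hy hy' c (mem_cen1_comm.1 xy) hg' pg hT
  obtain ⟨z, hz, hz', k⟩ := nilp_exists_comm_le (S := R) (U := R ⊓ center G) R.2.isNilpotent le_rfl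
    (inf_lt_left.2 hR) (le_nrm_self _) (nrm_inf (le_nrm_self _) (le_nrm_of_normal _ _))
  replace hz' : z ∉ center G := fun a => hz' ⟨hz, a⟩
  have k1 : ∀ g ∈ (R : Subgroup G), g ∉ center G → (cen1 g).relIndex N = (cen1 z).relIndex N := fun g hg hg' => by
    obtain ⟨T, hT⟩ := H1B.exists_syl r (cen1 g)
    obtain ⟨U, hU⟩ := H1B.exists_syl r (cen1 z)
    have e1 := le_sup hN (pR hz) (by rw [← inv_mem_iff, commutatorElement_inv]; exact (k g hg).2) hT
      (P g hg' (pR hg) T hT)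
    have e2 := le_sup hN (pR hg) (k g hg).2 hU (P z hz' (pR hz) U hU)
    have e3 : cen1 g ⊔ N = cen1 z ⊔ N := le_antisymm (sup_le (by rwa [sup_comm]) le_sup_right)
      (sup_le (by rwa [sup_comm]) le_sup_right)
    have e4 := card_sup_mul_card_inf (le_nrm_of_normal (cen1 g) N)
    have e5 := card_sup_mul_card_inf (le_nrm_of_normal (cen1 z) N)
    rw [e3, card_eq_of_index_eq ((h g (hRN hg) hg').trans (h z (hRN hz) hz').symm), ← e5] at e4
    have e6 := relIndex_mul_card_inf (cen1 g) N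
    rw [Nat.eq_of_mul_eq_mul_left (card_pos' _) e4, ← relIndex_mul_card_inf (cen1 z) N] at e6
    exact Nat.eq_of_mul_eq_mul_right (card_pos' _) e6
  have k2 : ∀ g, g ∉ center G → IsPGroup r (zpowers g) → (cen1 g).relIndex N = (cen1 z).relIndex N := fun g hg' pg => by
    obtain ⟨u, -, l⟩ := sR.exists_cj_le pg le_top
    rw [cj_zpowers] at l
    rw [← k1 _ (l (mem_zpowers _)) fun k => hg' (by
      simpa [mul_assoc] using (inferInstance : (center G).Normal).conj_mem _ k u⁻¹), ← cj_cen1, ← relIndex_cj u, cj_normal u N]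
  have k3 : ∀ g : N, g ∉ center N → (cen1 g).index = (cen1 z).relIndex N := fun g hg => by
    have g' : (g : G) ∉ center G := fun k => hg (mem_center_iff.2 fun b => Subtype.ext (mem_center_iff.1 k b))
    rw [show cen1 g = (cen1 (g : G)).subgroupOf N by
      ext c; simp only [mem_subgroupOf, mem_cen1, Subtype.ext_iff, coe_mul]]
    show (cen1 (g : G)).relIndex N = _
    obtain ⟨a, b, ha, hb, e, ⟨j, hj⟩, cb⟩ := H2.exists_p_part (p := r) (g : G) (orderOf_pos _).ne'
    by_cases a' : a ∈ center G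
    · have b' : b ∉ center G := fun k => g' (e ▸ mul_mem a' k)
      have bN := zpowers_le.2 g.2 hb
      obtain ⟨v, vb, v', pv⟩ := exists_r h bN b' (hRN hw) hw' (pR hw)
      have vN := hN _ pv (mem_zpowers v)
      rw [eq1 h g.2 g' bN b' (cen1_le_of_mem hb), eq1 h bN b' vN v' (cop h bN b' vN vb (cp pv cb).symm), k2 v v' pv]
    · rw [eq1 h g.2 g' (zpowers_le.2 g.2 ha) a' (cen1_le_of_mem ha),
        k2 a a' (isPGroup_zpowers (hj ▸ pow_orderOf_eq_one a))]
  obtain ⟨p, _, -, -, l⟩ := ito_pow k3 (x := ⟨y, hy⟩) fun k => hy0 (mem_cen.2 fun b hb =>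
    congrArg Subtype.val (mem_center_iff.1 k ⟨b, hb⟩))
  obtain ⟨Q, hQ⟩ := H1B.exists_syl p (⊤ : Subgroup N)
  have := nilp_of_le (hQ.pRes_sup.ge.trans (sup_le_sup_right l Q)) (nilp_sup_of_cen (center_le_centralizer _)
    (nilp_of_comm inferInstance) hQ.2.isNilpotent)
  exact Group.nilpotent_of_mulEquiv topEquiv

end Cfsg.Agent.S4135
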