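import Cfsg.Statements.S4138
import Cfsg.Agent.H8.Cls2
import Cfsg.Agent.H1.U1
import Cfsg.Agent.H1.MC
import Cfsg.Agent.H1.Frob
import Cfsg.Agent.H7.PLen

set_option autoImplicit false
open Cfsg

namespace Cfsg.Agent.S4138

open H7 H8 Subgroup
open H2 (cj IsSylowIn)
open scoped commutatorElement
set_option linter.unusedSectionVars false

variable {G : Type*} [Group G] [Finite G] {π : Set ℕ} {m n : ℕ} {L M T : Subgroup G} {x y a b d u : G}

theorem bhm (hc : (cen1 x).index.Coprime (cen1 y).index) (hm : (cen1 (x * y)).index ≤ (cen1 y).index) :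
    ord (⁅zpowers x, (⊤ : Subgroup G)⁆) ∣ (cen1 y).index := by
  have hF := H1.fac_of_coprime hc
  let Y := {b | IsConj y b}
  have hY : Y.ncard = (cen1 y).index := ncard_isConj y
  have h1 : ∀ a b, IsConj x a → IsConj y b → IsConj (x * y) (a * b) := by
    intro a b ha hb
    obtain ⟨u, rfl⟩ := isConj_iff.1 ha
    obtain ⟨v, rfl⟩ := isConj_iff.1 hb
    obtain ⟨c, hc, d, hd, e⟩ := hF (u⁻¹ * v)
    refine isConj_iff.2 ⟨u * c, ?_⟩
    have e2 : v = u * c * d := by rw [mul_assoc, ← e]; group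
    rw [e2]
    calc _ = u * (c * x) * y * c⁻¹ * u⁻¹ := by group
      _ = u * x * u⁻¹ * (u * c * (d * y) * (u * c * d)⁻¹) := by
        rw [mem_cen1.1 hc, mem_cen1.1 hd]; group
      _ = _ := by group
  have h2 : ∀ a, IsConj x a → (a * ·) '' Y = {b | IsConj (x * y) b} := fun a ha =>
    Set.eq_of_subset_of_ncard_le (by rintro _ ⟨b, hb, rfl⟩; exact h1 a b ha hb) (by
      rw [ncard_isConj, Set.ncard_image_of_injective _ (mul_right_injective a), hY]; exact hm)
  let K : Subgroup G :=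
    { carrier := {k | ∀ b, k * b ∈ Y ↔ b ∈ Y}
      one_mem' := fun b => by rw [one_mul]
      mul_mem' := fun {a c} ha hc b => by rw [mul_assoc, ha, hc]
      inv_mem' := fun {a} ha b => by rw [← ha, mul_inv_cancel_left] }
  haveI : K.Normal := ⟨fun k hk g b => by
    have h3 : ∀ b, g * b * g⁻¹ ∈ Y ↔ b ∈ Y := fun b =>
      ⟨fun h => IsConj.trans h (isConj_iff.2 ⟨g, rfl⟩).symm, fun h => IsConj.trans h (isConj_iff.2 ⟨g, rfl⟩)⟩
    rw [show g * k * g⁻¹ * b = g * (k * (g⁻¹ * b * g)) * g⁻¹ by group, h3, hk, ← h3]; simp [mul_assoc]⟩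
  have h3 : ⁅zpowers x, ⊤⁆ ≤ K := by
    rw [← zpowers_inv]
    refine comm_zpowers_le (le_nrm_of_normal ⊤ _ trivial) fun g _ b => ?_
    have h4 := (h2 _ (isConj_iff.2 ⟨g, rfl⟩)).trans (h2 x (IsConj.refl x)).symm
    have h5 := Set.ext_iff.1 h4 (g * x * g⁻¹ * b)
    rw [(mul_right_injective _).mem_set_image] at h5
    rw [h5, show g * x * g⁻¹ * b = x * (⁅x⁻¹, g⁆ * b) by rw [commutatorElement_def]; group,
      (mul_right_injective _).mem_set_image]
  refine (card_dvd_of_le h3).trans (hY ▸ dvd_ncard_of_fibers (Set.toFinite Y)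
    (fun b => (QuotientGroup.mk b : G ⧸ K)) fun a ha => ?_)
  rw [show {b ∈ Y | (b : G ⧸ K) = a} = (· * a) '' K from ?_,
    Set.ncard_image_of_injective _ (mul_left_injective a)]
  · rfl
  ext b
  constructor
  · rintro ⟨-, e⟩
    refine ⟨b * a⁻¹, ?_, by simp⟩
    simpa [mul_assoc] using (inferInstance : K.Normal).conj_mem _ (QuotientGroup.eq.1 e.symm) a
  · rintro ⟨k, hk, rfl⟩
    refine ⟨(hk a).2 ha, (QuotientGroup.eq.2 ?_).symm⟩
    simpa [mul_assoc] using (inferInstance : K.Normal).conj_mem' _ hk a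

theorem exists_part (π : Set ℕ) (g : G) : ∃ x ∈ zpowers g, ∃ y ∈ zpowers g, g = x * y ∧ x * y = y * x ∧
    PiN π (orderOf x) ∧ PiN πᶜ (orderOf y) := by
  have c : IsMulCommutative (zpowers g) := inferInstance
  obtain ⟨x, a, y, b, e⟩ := (mem_sup_nrm ((Opi_le _ _).trans (le_nrm_Opi _ _))).1
    ((nilp_Opi_sup (nilp_of_comm c) π).ge (mem_zpowers g))
  exact ⟨x, Opi_le _ _ a, y, Opi_le _ _ b, e.symm, isComm_iff'.1 c _ (Opi_le _ _ a) _ (Opi_le _ _ b),
    (piN_Opi _ _).dvd (orderOf_dvd_card' a), (piN_Opi _ _).dvd (orderOf_dvd_card' b)⟩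

theorem comm_one {g z : G} (e : g * u * g⁻¹ = z * u) (c : z * u = u * z) (h : (orderOf z).Coprime (orderOf u)) :
    z = 1 := by
  have e3 := congrArg (· ^ orderOf u) e
  simp only [conj_pow, (show Commute z u from c).mul_pow, pow_orderOf_eq_one, mul_one, mul_inv_cancel] at e3
  exact orderOf_eq_one_iff.1 (h.eq_one_of_dvd (orderOf_dvd_of_pow_eq_one e3.symm))

theorem orb_lt {S V : Subgroup G} {e : G} (hn : S ≤ nrm V) (he : e ∈ V) (e1 : e ≠ 1) : (cen1 e).relIndex S < ord V := by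
  let f : S ⧸ (cen1 e).subgroupOf S → V := fun q => ⟨q.out * e * (q.out : G)⁻¹, conj_mem hn q.out.2 he⟩
  haveI := Fintype.ofFinite (S ⧸ (cen1 e).subgroupOf S)
  haveI := Fintype.ofFinite V
  rw [relIndex, index, Nat.card_eq_fintype_card, Nat.card_eq_fintype_card]
  refine Fintype.card_lt_of_injective_of_notMem f (fun q r k => ?_) (b := 1) fun ⟨q, k⟩ => e1 ?_
  · rw [← q.out_eq', ← r.out_eq', QuotientGroup.eq, mem_subgroupOf, mem_cen1]
    have k : (q.out : G) * e * (q.out : G)⁻¹ = r.out * e * (r.out : G)⁻¹ := congrArg Subtype.val k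
    calc ((q.out : G)⁻¹ * r.out) * e = (q.out : G)⁻¹ * (r.out * e * (r.out : G)⁻¹) * r.out := by group
      _ = e * ((q.out : G)⁻¹ * r.out) := by rw [← k]; group
  · have k : (q.out : G) * e * (q.out : G)⁻¹ = 1 := congrArg Subtype.val k
    simpa using k

structure St (π : Set ℕ) (m n : ℕ) (L M : Subgroup G) (x : G) : Prop where
  hm : PiN πᶜ m
  hn : PiN π n
  n1 : 1 < n
  top : ∀ z : G, (cen1 z).index ≤ m
  two : ∀ z : G, (cen1 z).index ≠ m → (cen1 z).index ≤ n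
  ix : (cen1 x).index = n
  nL : L.Normal
  pL : PiN πᶜ (ord L)
  cL : L ≤ cen L
  xL : x ∈ L
  X : ∀ z : G, PiN π (cen1 z).index → z ∈ M
  Z : ∀ z ∈ M, PiN π (orderOf z) → z ∈ center G

namespace St
variable (h : St π m n L M x)
include h

theorem oL (hb : b ∈ L) : PiN πᶜ (orderOf b) := h.pL.dvd (orderOf_dvd_card' hb)

theorem rel (hy : (cen1 y).index = m) (l : cen1 y ≤ T) : (cen1 x).relIndex T = n :=
  h.ix ▸ ((H1.fac_of_coprime (by rw [h.ix, hy]; exact h.hn.coprime h.hm)).mono le_rfl l).relIndex_eq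

theorem bigle (hy : (cen1 y).index = m) (ha : a ∈ cen1 y) (c : (orderOf y).Coprime (orderOf a)) : cen1 y ≤ cen1 a := by
  have e := cen1_mul (mem_cen1.1 ha).symm c
  rw [← eq_of_index_le (e.le.trans inf_le_left) (hy ▸ h.top _), e]
  exact inf_le_right

theorem cenx (hy : (cen1 y).index = m) (hb : b ∈ cen1 y) (l : cen1 y ≤ cen1 b) (c : PiN πᶜ (orderOf b)) :
    b ∈ cen1 x := by
  haveI := normal_subgroupOf (H := cen1 y) (N := zpowers b) (le_nrm_of_le_cen (l.trans (cen_zpowers b).ge))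
  have := relIndex_dvd_index_of_normal_right ((cen1 x).subgroupOf (cen1 y)) ((zpowers b).subgroupOf (cen1 y))
  rw [relIndex_subgroupOf (zpowers_le.2 hb)] at this
  refine zpowers_le.1 (le_of_coprime_relIndex' ?_)
  rw [Nat.card_zpowers]
  exact ((h.hn.dvd (this.trans (h.rel hy le_rfl).dvd)).coprime c).symm

theorem c1 (ha : a ∈ cen1 x) (c : PiN π (orderOf a)) : a ∈ center G := by
  have e := cen1_mul (mem_cen1.1 ha) (c.coprime (h.oL h.xL))
  have l := e.le.trans inf_le_right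
  have k := eq_of_index_le l (h.ix ▸ h.two _ fun k => h.n1.ne' (h.hn.eq_one (h.hm.dvd
    (h.ix ▸ k ▸ index_dvd_of_le l))))
  exact h.Z a (h.X a (h.hn.dvd (h.ix ▸ index_dvd_of_le (k.ge.trans (e.le.trans inf_le_left))))) c

theorem b0 (c : PiN πᶜ (orderOf b)) : (cen1 b).index ≠ m := fun hb => by
  have k := h.cenx hb (self_mem_cen1 b) le_rfl c
  have l : Ores πᶜ (cen1 b) ≤ cen1 x := Ores_le_iff'.2 fun a ha ca =>
    mem_cen1_comm.1 (h.bigle hb ha (c.coprime ca) (mem_cen1_comm.1 k))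
  exact h.n1.ne' (h.hn.eq_one (piN_Ores.dvd (h.rel hb le_rfl ▸ relIndex_dvd_of_le_left _ l)))

theorem lemI (hd : d ∈ T) (c : PiN π (orderOf d)) (d1 : d ∉ center G) (l : T ⊓ L ≤ cen1 d)
    (r : (cen1 x).relIndex T = n) : ∃ b ∈ L ⊓ cen1 d, (cen1 (d * b)).index = m ∧ cen1 d ⊓ cen1 x ≤ cen1 (d * b) := by
  haveI := h.nL
  have nd : zpowers d ≤ nrm L := le_nrm_of_normal _ _
  have co : (ord (zpowers d)).Coprime (ord L) := by rw [Nat.card_zpowers]; exact c.coprime h.pL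
  have f1 := (show Cop (zpowers d) L from ⟨nd, co, .inl inferInstance⟩).comm_sup_cen
  have f2 := comm_inf_cen_of_comm (isComm_iff.2 h.cL) nd co
  have VL := comm_le_left nd
  have nV : cen1 d ≤ nrm ⁅L, zpowers d⁆ := nrm_commutator (le_nrm_of_normal _ _) (le_nrm_of_le_cen (cen_zpowers d).ge)
  rw [cen_zpowers] at f1 f2
  generalize ⁅L, zpowers d⁆ = V at f1 f2 VL nV
  have nV' : L ⊓ cen1 d ≤ nrm V := inf_le_right.trans nV
  obtain ⟨e, he, b, hb, eb⟩ := (mem_sup_nrm' nV').1 (f1.ge h.xL)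
  have e1 : e ≠ 1 := fun k => d1 (h.c1 (mem_cen1_comm.1 (by rw [← eb, k, one_mul]; exact hb.2)) c)
  have ec := cen1_mul (mem_cen1.1 hb.2).symm (c.coprime (h.oL hb.1))
  have oV : ord V = (cen1 d).relIndex L := by
    have e1 := card_sup_of_inf_eq_bot nV' (by rw [inf_assoc, inf_comm _ V, f2, inf_bot_eq])
    have e2 := relIndex_mul_card_inf (cen1 d) L
    rw [sup_comm, f1, ← e2, inf_comm, mul_comm] at e1
    exact (Nat.eq_of_mul_eq_mul_left (card_pos' _) e1).symm
  refine ⟨b, hb, by_contra fun k => (h.two _ k).not_gt ?_, fun g hg => ec.ge ⟨hg.1, mem_cen1.2 ?_⟩⟩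
  · set S := T ⊓ cen1 (d * b)
    have Lb : L ≤ cen1 b := le_cen1_iff.2 (h.cL hb.1)
    have i1 : n < ord V * S.relIndex T := by
      have l1 : cen1 e ⊓ S ≤ cen1 x := fun g hg => mem_cen1_comm.1 (eb ▸ mul_mem (mem_cen1_comm.1 hg.1)
        (mem_cen1_comm.1 (ec.le hg.2.2).2))
      refine (r.ge.trans (relIndex_le_of_le_left l1 (relIndex_pos _ _).ne')).trans_lt ?_
      rw [← relIndex_mul_relIndex _ S T inf_le_right inf_le_left, inf_relIndex_right]
      exact Nat.mul_lt_mul_of_pos_right (orb_lt (inf_le_right.trans (ec.le.trans (inf_le_left.trans nV))) he e1)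
        (relIndex_pos _ _)
    have l2 : cen1 (d * b) ⊓ (T ⊔ L) ≤ S ⊔ L := fun g hg => by
      obtain ⟨t, ht, w, hw, rfl⟩ := (mem_sup_nrm (le_nrm_of_normal T L)).1 hg.2
      have g1 := ec.le hg.1
      refine mul_mem (mem_sup_left ⟨ht, ec.ge ⟨?_, (mul_mem_cancel_right (Lb hw)).1 g1.2⟩⟩) (mem_sup_right hw)
      have z1 : t⁻¹ * d * t * d⁻¹ ∈ L := by
        rw [show t⁻¹ * d * t * d⁻¹ = t⁻¹ * (d * (t * w)) * w⁻¹ * d⁻¹ by group, ← mem_cen1.1 g1.1,
          show t⁻¹ * (t * w * d) * w⁻¹ * d⁻¹ = w * (d * w⁻¹ * d⁻¹) by group]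
        exact mul_mem hw (h.nL.conj_mem _ (inv_mem hw) d)
      have z2 := comm_one (g := t⁻¹) (u := d) (z := t⁻¹ * d * t * d⁻¹) (by group)
        (mem_cen1.1 (l ⟨T.mul_mem (T.mul_mem (T.mul_mem (T.inv_mem ht) hd) ht) (T.inv_mem hd), z1⟩)) (c.coprime (h.oL z1)).symm
      rw [mul_inv_eq_one] at z2
      refine mem_cen1.2 ?_
      calc t * d = t * (t⁻¹ * d * t) := by rw [z2]
        _ = d * t := by group
    have l3 : S ⊔ L ≤ T ⊔ L := sup_le_sup_right inf_le_left _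
    refine i1.trans_le (le_trans ?_ (relIndex_top_right (cen1 (d * b)) ▸
      relIndex_le_of_le_right (le_top : T ⊔ L ≤ ⊤) (relIndex_pos _ _).ne'))
    rw [← inf_relIndex_right (cen1 (d * b)), ← relIndex_mul_relIndex _ _ _ l2 l3]
    refine Nat.mul_le_mul ?_ ?_
    · refine le_trans ?_ (relIndex_le_of_le_right (le_sup_right : L ≤ S ⊔ L) (relIndex_pos _ _).ne')
      rw [oV]
      exact relIndex_le_of_le_left (inf_le_left.trans (ec.le.trans inf_le_left)) (relIndex_pos _ _).ne'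
    · refine le_trans ?_ (relIndex_le_of_le_right (le_sup_left : T ≤ T ⊔ L) (relIndex_pos _ _).ne')
      rw [← inf_relIndex_right (S ⊔ L), modular (le_nrm_of_normal _ _) inf_le_left, sup_eq_left.2
        (le_inf inf_le_right (ec.ge.trans' (le_inf ((inf_comm _ _).le.trans l) (inf_le_left.trans Lb))))]
  · have k1 : (g * e * g⁻¹)⁻¹ * e = g * b * g⁻¹ * b⁻¹ := by
      have : g * (e * b) = e * b * g := by rw [eb]; exact mem_cen1.1 hg.2
      calc (g * e * g⁻¹)⁻¹ * e = g * e⁻¹ * g⁻¹ * (e * b * g) * g⁻¹ * b⁻¹ := by group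
        _ = _ := by rw [← this]; group
    have k2 : g * b * g⁻¹ * b⁻¹ ∈ V ⊓ cen1 d := ⟨k1 ▸ V.mul_mem (V.inv_mem (conj_mem nV hg.1 he)) he,
      (cen1 d).mul_mem (conj_mem (le_nrm_self _) hg.1 hb.2) ((cen1 d).inv_mem hb.2)⟩
    rw [f2, mem_bot, mul_inv_eq_one, mul_inv_eq_iff_eq_mul] at k2
    exact k2

theorem b1 (e : a * b = b * a) (ca : PiN π (orderOf a)) (cb : PiN πᶜ (orderOf b)) (k : (cen1 (a * b)).index = m) :
    (cen1 a).index = m := by
  have ec := cen1_mul e (ca.coprime cb)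
  have a1 : a ∉ center G := fun z => h.b0 cb (by
    rwa [ec, index_eq_one.1 (index_cen1_eq_one.2 z), top_inf_eq] at k)
  have r := h.rel k (ec.le.trans inf_le_left)
  obtain ⟨c, hc, k1, k2⟩ := h.lemI (self_mem_cen1 a) ca a1 inf_le_left r
  have ec' := cen1_mul (mem_cen1.1 hc.2).symm (ca.coprime (h.oL hc.1))
  have d1 : (cen1 (a * c)).relIndex (cen1 a) ∣ n := by
    rw [← r, ← inf_relIndex_left (cen1 a) (cen1 x)]; exact relIndex_dvd_of_le_left _ k2
  have := relIndex_eq_one.1 ((h.hn.dvd d1).eq_one (h.hm.dvd (k1 ▸ relIndex_dvd_index_of_le (ec'.le.trans inf_le_left))))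
  exact le_antisymm (h.top a) (k1 ▸ index_antitone this)

variable (ha : (cen1 a).index = m) (ca : PiN π (orderOf a))
include ha ca

theorem b2 (hd : d ∈ cen1 a) (c : PiN π (orderOf d)) (d1 : d ∉ center G) : (cen1 d).index = m := by
  obtain ⟨b, hb, k, -⟩ := h.lemI hd c d1 (fun g hg => mem_cen1_comm.1 (h.bigle ha hg.1 (ca.coprime (h.oL hg.2)) hd))
    (h.rel ha le_rfl)
  exact h.b1 (mem_cen1.1 hb.2).symm c (h.oL hb.1) k

theorem b3 (hu : u ∈ cen1 a) (c : PiN πᶜ (orderOf u)) : u ∈ center G := by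
  have l := h.bigle ha hu (ca.coprime c)
  have i : PiN πᶜ (cen1 u).index := h.hm.dvd (ha ▸ index_dvd_of_le l)
  have e := mem_cen1.1 (h.cenx ha hu l c)
  have k := h.hn.dvd (h.ix ▸ bhm (x := u) (y := x) (h.ix ▸ (h.hn.coprime i).symm) (h.ix ▸ h.two _ (h.b0
    ((c.mul (h.oL h.xL)).dvd (Commute.orderOf_mul_dvd_mul_orderOf e)))))
  haveI : (⁅zpowers u, (⊤ : Subgroup G)⁆).Normal := H1B.normal_of (normalizer_commutator_ge_right _ _)
  have l2 := normal_le_of_coprime (k.coprime i)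
  refine mem_center_iff.2 fun g => ?_
  have m1 : ⁅g, u⁆ ∈ ⁅zpowers u, (⊤ : Subgroup G)⁆ := by
    rw [Subgroup.commutator_comm]; exact commutator_mem_commutator (mem_top g) (mem_zpowers u)
  exact commutatorElement_eq_one_iff_mul_comm.1 (comm_one (g := g) (u := u) (by rw [commutatorElement_def]; group)
    (mem_cen1.1 (l2 m1)) ((k.dvd (orderOf_dvd_card' m1)).coprime c))

theorem b4' {q : ℕ} [hq : Fact q.Prime] (qπ : q ∈ π) (pa : IsPGroup q (zpowers a)) (hd : d ∈ cen1 a)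
    (pd : IsPGroup q (zpowers d)) : cen1 a ≤ cen1 d := by
  haveI := h.nL
  by_cases d1 : d ∈ center G
  · exact le_cen1_iff.2 (center_le_centralizer _ d1)
  have c : zpowers d ≤ cen (zpowers a) := by rw [cen_zpowers]; exact zpowers_le.2 hd
  have pA := isPGroup_sup (le_nrm_of_le_cen c) pd pa
  have cA : IsMulCommutative (zpowers d ⊔ zpowers a : Subgroup G) := isComm_iff.2 (le_cen_sup
    (sup_le (isComm_iff.1 inferInstance) (le_cen_symm c)) (sup_le c (isComm_iff.1 inferInstance)))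
  have lA : zpowers d ⊔ zpowers a ≤ cen1 a := sup_le (zpowers_le.2 hd) (zpowers_le.2 (self_mem_cen1 a))
  have dA : d ∈ zpowers d ⊔ zpowers a := mem_sup_left (mem_zpowers d)
  have aA : a ∈ zpowers d ⊔ zpowers a := mem_sup_right (mem_zpowers a)
  generalize zpowers d ⊔ zpowers a = A at pA cA lA dA aA
  have πA := piN_of_isPGroup qπ pA
  have big : ∀ t ∈ A, t ∉ center G → (cen1 t).index = m := fun t ht =>
    h.b2 ha ca (lA ht) (πA.dvd (orderOf_dvd_card' ht))
  have nA : A ≤ nrm L := le_nrm_of_normal _ _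
  have hW : ⁅L, A⁆ ≠ ⊥ := fun k => d1 (h.c1 (cen_le_cen1 h.xL (comm_eq_bot'.1 k dA)) (πA.dvd (orderOf_dvd_card' dA)))
  obtain ⟨W, hW1, hW0, hWn, hmin⟩ := H1B.exists_min_normal hW (nrm_commutator nA (le_nrm_self A))
  have WL := hW1.trans (comm_le_left nA)
  have hk : A ⊓ cen W ≤ center G := fun t ht => by
    by_contra t1
    obtain ⟨w, hw, hw1⟩ := exists_ne_one hW0
    exact hw1 ((comm_inf_cen_of_comm (isComm_iff.2 h.cL) nA (πA.coprime h.pL)).le ⟨hW1 hw, center_le_centralizer _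
      (h.b3 (big t ht.1 t1) (πA.dvd (orderOf_dvd_card' ht.1)) (mem_cen1_comm.1 (cen_le_cen1 hw ht.2)) (h.oL (WL hw)))⟩)
  have cy := isCyclic_act_of_irred (isComm_of_le (isComm_iff.2 h.cL) WL) hWn
    ((comm_eq_bot.2 (isComm_iff.1 cA)).le.trans bot_le) hmin
  have k : ∀ s ∈ A, ∀ t ∈ A, im (act W) (zpowers s) ≤ im (act W) (zpowers t) → cen1 t ≤ cen1 s := fun s hs t ht l => by
    rw [im_le_im_iff ((zpowers_le.2 hs).trans hWn) ((zpowers_le.2 ht).trans hWn), kr_act] at l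
    have := le_inf l (zpowers_le.2 hs)
    rw [modular ((zpowers_le.2 ht).trans (H7.nrm_cen hWn)) (zpowers_le.2 ht)] at this
    refine le_cen1_iff.2 ((this.trans (sup_le (zpowers_le.2 (le_cen1_iff.1 le_rfl))
      (((inf_comm _ _).le.trans hk).trans (center_le_centralizer _)))) (mem_zpowers s))
  rcases H1B.cyc_total cy (isPGroup_im _ pA) (im_mono _ (zpowers_le.2 dA)) (im_mono _ (zpowers_le.2 aA)) with l | l
  · exact k d dA a aA l
  · exact (eq_of_index_le (k a aA d dA l) (by rw [ha, big d dA d1])).ge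

theorem b4 : cen1 a ≤ cen (cen1 a) := by
  have a1 : a ∉ center G := fun z => h.n1.not_ge (h.ix ▸ (h.top x).trans (ha ▸ (index_cen1_eq_one.2 z).le))
  obtain ⟨q, hq, b, hb, pb, b1⟩ : ∃ q, q.Prime ∧ ∃ b ∈ zpowers a, IsPGroup q (zpowers b) ∧ b ∉ center G := by
    by_contra! k
    exact a1 (H1B.zpowers_le_of_ppow k)
  haveI := Fact.mk hq
  have cb := ca.dvd (orderOf_dvd_of_mem_zpowers hb)
  have bb := h.b2 ha ca (zpowers_le.2 (self_mem_cen1 a) hb) cb b1
  have qπ : q ∈ π := cb q hq (Nat.card_zpowers b ▸ dvd_card_of_isPGroup pb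
    (zpowers_ne_bot.2 fun e => b1 (e ▸ one_mem _)))
  rw [eq_of_index_le (cen1_le_of_mem hb) (by rw [ha, bb])]
  intro g hg
  obtain ⟨s, t, hs, ht, rfl, ⟨j, hj⟩, ct⟩ := H2.exists_p_part (p := q) g (orderOf_pos g).ne'
  exact mul_mem (le_cen1_iff.1 (h.b4' bb cb qπ pb (zpowers_le.2 hg hs) (isPGroup_zpowers (hj ▸ pow_orderOf_eq_one s))))
    (le_cen1_iff.1 (h.bigle bb (zpowers_le.2 hg ht) (by simpa using (coprime_of_isPGroup pb ct).symm)))

theorem b5 {g : G} (hg : g ∈ cen1 a) (g1 : g ∉ center G) : cen1 g = cen1 a := by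
  obtain ⟨s, hs, t, ht, e, -, cs, ct⟩ := exists_part π g
  have t1 := h.b3 ha ca (zpowers_le.2 hg ht) ct
  have s1 : s ∉ center G := fun k => g1 (e ▸ mul_mem k t1)
  have l := le_cen1_iff.2 (h.b4 ha ca (zpowers_le.2 hg hs))
  refine le_antisymm ?_ (le_cen1_iff.2 (h.b4 ha ca hg))
  rw [eq_of_index_le l (by rw [ha, h.b2 ha ca (zpowers_le.2 hg hs) cs s1])]
  exact cen1_le_of_mem hs

theorem b6 (hZ : center G ≤ M) : cen1 x ≤ M := fun g hg => by
  obtain ⟨s, hs, t, ht, e, -, cs, ct⟩ := exists_part π g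
  refine e ▸ mul_mem (hZ (h.c1 (zpowers_le.2 hg hs) cs)) ?_
  by_cases t1 : t ∈ center G
  · exact hZ t1
  refine h.X t (le_antisymm (h.two t (h.b0 ct)) ?_ ▸ h.hn)
  have l : cen1 t ⊓ cen1 a ≤ cen1 x := fun k hk => center_le_cen1 x (by
    by_contra k1
    exact t1 (h.b3 ha ca (h.b5 ha ca hk.2 k1 ▸ mem_cen1_comm.1 hk.1) ct))
  rw [← h.rel ha le_rfl, ← relIndex_top_right]
  refine (relIndex_le_of_le_left l (relIndex_pos _ _).ne').trans ?_
  rw [inf_relIndex_right]
  exact relIndex_le_of_le_right le_top (relIndex_pos _ _).ne'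

end St

/-- Let G be a finite group whose two largest conjugacy class sizes m > n > 1 are coprime, and let x, y ∈ G have classes of sizes n and m respectively. Then C_G(x) and C_G(y) are abelian, and G/Z(G) is a Frobenius group with kernel C_G(x)/Z(G) and complement C_G(y)/Z(G). -/
theorem result {G : Type*} [Group G] [Finite G] (m n : ℕ) (hmn : n < m) (hn : 1 < n)
    (hcop : m.Coprime n) (htop : ∀ z : G, (Subgroup.centralizer ({z} : Set G)).index ≤ m) (hsecond : ∀ z : G, (Subgroup.centralizer ({z} : Set G)).index < m → (Subgroup.centralizer ({z} : Set G)).index ≤ n)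
    (x y : G) (hx : (Subgroup.centralizer ({x} : Set G)).index = n) (hy : (Subgroup.centralizer ({y} : Set G)).index = m) :
    IsMulCommutative (Subgroup.centralizer ({x} : Set G)) ∧ IsMulCommutative (Subgroup.centralizer ({y} : Set G)) ∧
    Cfsg.IsFrobeniusComplement ((Subgroup.centralizer ({y} : Set G)).map (QuotientGroup.mk' (Subgroup.center G))) ∧
    Cfsg.frobeniusKernel ((Subgroup.centralizer ({y} : Set G)).map (QuotientGroup.mk' (Subgroup.center G))) =
      ((Subgroup.centralizer ({x} : Set G)).map (QuotientGroup.mk' (Subgroup.center G)) : Set (G ⧸ Subgroup.center G)) := by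
  obtain ⟨π, hπ⟩ : ∃ π : Set ℕ, π = {r | r.Prime ∧ r ∣ m}ᶜ := ⟨_, rfl⟩
  have hm : PiN πᶜ m := by rw [hπ, compl_compl]; exact piN_primes _
  have hn' : PiN π n := by rw [hπ]; exact piN_compl_primes_iff.2 hcop.symm
  have hy' : PiN πᶜ (cen1 y).index := hy ▸ hm
  have hm' : ∀ g : G, (cen1 g).index ≤ (cen1 y).index := fun g => hy ▸ htop g
  set K := piCore πᶜ G
  have hKe : K = Opi πᶜ ⊤ := piCore_eq πᶜ
  haveI hKn : K.Normal := inferInstance
  have hK : ⊤ ≤ nrm K := le_nrm_of_normal _ _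
  have hKπ : PiN πᶜ (ord K) := hKe ▸ piN_Opi _ _
  set X := {x : G | PiN π (cen1 x).index}
  set M := closure X
  have hM : ⊤ ≤ nrm M := nrm_closure fun g _ x hx => by
    show PiN _ _; rw [← cj_cen1, index_cj]; exact hx
  haveI : M.Normal := normal_iff_top_le_nrm.2 hM
  have h1 : ⁅M, ⊤⁆ ≤ K := comm_closure_le (fun _ _ => hK trivial) fun x hx g _ =>
    hKe.ge (le_Opi le_top (normalizer_commutator_ge_right _ _)
      (hy'.dvd (card_comm_dvd (PiN.coprime hx hy') hm'))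
      (commutator_mem_commutator (mem_zpowers x) (mem_top g)))
  have h2 : M ≤ cen K := (closure_le _).2 fun x hx =>
    le_cen1_iff.1 (normal_le_of_coprime (PiN.coprime hx hKπ).symm)
  have h3 : M ≤ cen M := (closure_le _).2 fun x hx => le_cen1_iff.1 fun m hm => by
    have hxM : x ∈ M := subset_closure hx
    have e1 : ⁅m, x⁆ ∈ K := h1 (commutator_mem_commutator hm trivial)
    haveI : ((cen1 x ⊓ M).subgroupOf M).Normal := normal_subgroupOf (le_nrm_of_comm_le'
      inf_le_right (le_inf (((commutator_mono le_rfl le_top).trans h1).trans (le_cen1_iff.2 (h2 hxM)))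
        (comm_le_left (le_nrm_self M))))
    have e2 : m ^ (cen1 x ⊓ M).relIndex M ∈ cen1 x ⊓ M :=
      ((cen1 x ⊓ M).subgroupOf M).pow_index_mem ⟨m, hm⟩
    rw [inf_relIndex_right] at e2
    have e3 := commutatorElement_eq_one_iff_mul_comm.2 (mem_cen1.1 e2.1)
    rw [comm_pow_left (comm_of_le_cen h2 hm e1).symm] at e3
    have e4 : PiN π (orderOf ⁅m, x⁆) := (PiN.dvd hx (relIndex_dvd_index_of_normal_right _ _)).dvd
      (orderOf_dvd_of_pow_eq_one e3)
    exact mem_cen1.2 (commutatorElement_eq_one_iff_mul_comm.1 (orderOf_eq_one_iff.1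
      (e4.eq_one (hKπ.dvd (orderOf_dvd_card' e1)))))
  have nM := nilp_of_comm (isComm_iff.2 h3)
  have h4 : Opi π M ≤ center G := by
    rw [← cen_top, ← comm_eq_bot, eq_bot_iff, ← (piN_Opi π M).inf_eq_bot hKπ]
    exact le_inf (comm_le_left (nrm_Opi _ hM)) ((commutator_mono (Opi_le _ _) le_rfl).trans h1)
  have xM : x ∈ M := subset_closure (show PiN π (cen1 x).index from hx ▸ hn')
  obtain ⟨z, hz, x', hx', e⟩ := (mem_sup_nrm ((Opi_le _ _).trans (le_nrm_Opi _ _))).1 ((nilp_Opi_sup nM π).ge xM)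
  have ex : cen1 x' = cen1 x := by
    ext g
    rw [mem_cen1_comm, mem_cen1_comm (a := g), ← e, mul_mem_cancel_left (center_le_cen1 g (h4 hz))]
  have h : St π m n (Opi πᶜ M) M x' := ⟨hm, hn', hn, htop, fun z k => hsecond z (lt_of_le_of_ne (htop z) k), ex ▸ hx,
    H1B.normal_of (nrm_Opi _ hM), piN_Opi _ _, le_cen_mono h3 (Opi_le _ _) (Opi_le _ _), hx',
    fun z k => subset_closure k, fun z hz k => h4 (nilp_le_Opi nM (zpowers_le.2 hz) (by rwa [Nat.card_zpowers])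
      (mem_zpowers z))⟩
  obtain ⟨a, ha, b, -, e, ab, ca, cb⟩ := exists_part π y
  have ba := h.b1 ab ca cb (e ▸ hy)
  have ey : cen1 y = cen1 a := eq_of_index_le (cen1_le_of_mem ha) (by rw [ba]; exact htop y)
  have ZM : center G ≤ M := fun z hz => subset_closure (show PiN π (cen1 z).index from
    index_cen1_eq_one.2 hz ▸ piN_one π)
  have eM : cen1 x = M := le_antisymm (ex ▸ h.b6 ba ca ZM) (le_cen1_iff.2 (h3 xM))
  have hF : H1.Fac (cen1 x) (cen1 y) := H1.fac_of_coprime (by rw [hx, hy]; exact hcop.symm)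
  have x1 : ¬ cen1 y ≤ cen1 x := fun l => hn.ne' (by rw [← hx, ← hF.relIndex_eq, relIndex_eq_one.2 l])
  have iZ : cen1 x ⊓ cen1 y ≤ center G := fun g hg => by
    by_contra g1
    have := h.b5 ba ca (ey ▸ hg.2) g1
    exact x1 (ey ▸ le_cen1_iff.2 (h.b4 ba ca (this ▸ mem_cen1_comm.1 hg.1)))
  refine ⟨isComm_iff.2 (eM ▸ h3), isComm_iff.2 (ey ▸ h.b4 ba ca), ?_⟩
  have sj := QuotientGroup.mk'_surjective (center G)
  haveI : (cen1 x).Normal := eM ▸ inferInstance
  haveI := (inferInstance : (cen1 x).Normal).map _ sj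
  have mm : ∀ (g t : G), QuotientGroup.mk' (center G) g ∈ (cen1 t).map (QuotientGroup.mk' (center G)) → g ∈ cen1 t :=
    fun g t k => by rwa [← mem_comap, comap_map_eq, QuotientGroup.ker_mk', sup_eq_left.2 (center_le_cen1 t)] at k
  have c : IsComplement' ((cen1 x).map (QuotientGroup.mk' (center G))) ((cen1 y).map (QuotientGroup.mk' (center G))) := by
    refine isComplement'_of_disjoint_and_mul_eq_univ (disjoint_iff.2 (eq_bot_iff.2 ?_))
      (by rw [← normal_mul, ← Subgroup.map_sup, hF.sup_eq_top, map_top_of_surjective _ sj, coe_top])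
    rintro _ ⟨⟨g, hg, rfl⟩, k⟩
    exact (QuotientGroup.eq_one_iff _).2 (iZ ⟨hg, mm g y k⟩)
  have nb : ∀ s t : G, ¬ cen1 s ≤ cen1 t → (cen1 s).map (QuotientGroup.mk' (center G)) ≠ ⊥ := fun s t l k =>
    l (((Subgroup.map_eq_bot_iff _).1 k).trans ((QuotientGroup.ker_mk' _).le.trans (center_le_cen1 t)))
  have fr := H1.FrobC.of_fpf c (nb x y fun l => by
      have := hF.symm.relIndex_eq; rw [relIndex_eq_one.2 l, hy] at this; omega) (nb y x x1) (by
    rintro _ ⟨g, hg, rfl⟩ g1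
    refine eq_bot_iff.2 ?_
    rintro _ ⟨⟨c, hc, rfl⟩, k⟩
    refine (QuotientGroup.eq_one_iff _).2 (iZ ⟨hc, ?_⟩)
    have g2 : g ∉ center G := fun k => g1 ((QuotientGroup.eq_one_iff _).2 k)
    have z : ⁅c, g⁆ ∈ center G := (QuotientGroup.eq_one_iff _).1 ((map_commutatorElement (QuotientGroup.mk' _) c g).trans
      (commutatorElement_eq_one_iff_mul_comm.2 (mem_cen1.1 k)))
    obtain ⟨s, hs, t, ht, e1, -, cs, ct⟩ := exists_part π c
    obtain ⟨u, hu, v, hv, e2, -, cu, cv⟩ := exists_part π g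
    have s1 := mem_center_iff.1 (h.c1 (ex ▸ zpowers_le.2 hc hs) cs)
    have v1 := mem_center_iff.1 (h.b3 ba ca (ey ▸ zpowers_le.2 hg hv) cv)
    have e3 : ⁅c, g⁆ = ⁅t, u⁆ := by
      rw [e1, e2, commutatorElement_def, commutatorElement_def]
      calc s * t * (u * v) * (s * t)⁻¹ * (u * v)⁻¹ = s * (t * u * (v * t⁻¹) * s⁻¹) * v⁻¹ * u⁻¹ := by group
        _ = _ := by rw [← v1, ← s1]; group
    have k1 : ⁅t, u⁆ ^ orderOf t = 1 := by
      rw [← comm_pow_left (mem_center_iff.1 (e3 ▸ z) t).symm, pow_orderOf_eq_one, commutatorElement_one_left]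
    have k2 := comm_one (g := t) (u := u) (z := ⁅t, u⁆) (by rw [commutatorElement_def]; group)
      (mem_center_iff.1 (e3 ▸ z) u).symm (cu.coprime (ct.dvd (orderOf_dvd_of_pow_eq_one k1))).symm
    rw [ey, ← h.b5 ba ca (ey ▸ hg) g2]
    exact mem_cen1.2 (commutatorElement_eq_one_iff_mul_comm.1 (e3.trans k2)))
  exact ⟨fr, H1.FrobC.kernel_eq fr c⟩

end Cfsg.Agent.S4138
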