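import Cfsg.Statements.S4139
import Mathlib
import Cfsg.Agent.H8.Cls1

set_option autoImplicit false
open Cfsg

namespace Cfsg.Agent.S4139

open H8 H7 Subgroup
open scoped commutatorElement

/-- Let G and H be finite groups such that for every natural number k, G and H have the same number of conjugacy classes of size k. If H is nilpotent then G is nilpotent. -/
theorem result {G H : Type*} [Group G] [Finite G] [Group H] [Finite H]
    (hH : Group.IsNilpotent H)
    (h : ∀ k : ℕ, Nat.card {C : ConjClasses G // Nat.card C.carrier = k} = Nat.card {C : ConjClasses H // Nat.card C.carrier = k}) :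
    Group.IsNilpotent G := by
  obtain ⟨e, he⟩ := exists_equiv_index h
  refine ((Group.isNilpotent_of_finite_tfae (G := G)).out 3 0).1
    (show ∀ (p : ℕ) (_hp : Fact p.Prime) (P : Sylow p G), (P : Subgroup G).Normal from ?_)
  intro p hp P
  obtain ⟨s, hs, h1⟩ := card_pindex (G := G) (p := p)
  obtain ⟨t, ht, h2⟩ := card_pindex (G := H) (p := p)
  have h3 : Nat.card {x : G | PiN {p} (cen1 x).index} = Nat.card {x : H | PiN {p} (cen1 x).index} :=
    Nat.card_congr (e.subtypeEquiv fun x => by simp only [Set.mem_setOf_eq, he])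
  obtain ⟨Q, hQ⟩ := H2.exists_isSylowIn p (⊤ : Subgroup H)
  have h4 : ¬ p ∣ (cen (pRes p (⊤ : Subgroup H))).index := not_dvd_index_of_syl hQ (le_cen_symm
    (pRes_le_iff.2 fun y _ hy => zpowers_le.1 (nilp_cen_of_coprime (H := ⊤) inferInstance le_top le_top
      (coprime_of_isPGroup hQ.isPGroup (by rwa [Nat.card_zpowers])))))
  have h5 : ¬ p ∣ (cen (pRes p (⊤ : Subgroup G))).index := fun hd => by
    have e1 := (cen (pRes p (⊤ : Subgroup G))).card_mul_index
    have e2 := (cen (pRes p (⊤ : Subgroup H))).card_mul_index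
    rw [Nat.card_congr e, ← e2] at e1
    rw [h1, h2] at h3
    have e3 : t * (cen (pRes p (⊤ : Subgroup G))).index = (cen (pRes p (⊤ : Subgroup H))).index * s := by
      refine Nat.eq_of_mul_eq_mul_left (card_pos' (cen (pRes p (⊤ : Subgroup H)))) ?_
      rw [← mul_assoc, ← h3, ← mul_assoc, ← e1]; ring
    rcases (Nat.Prime.dvd_mul hp.out).1 (e3 ▸ hd.mul_left t) with h6 | h6
    · exact h4 h6
    · exact hp.out.one_lt.ne' (Nat.dvd_one.1 ((hs.dvd_iff dvd_rfl).1 h6))
  obtain ⟨R, hR, hR'⟩ := exists_syl_le h5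
  have h6 : ⊤ ≤ nrm R := hR.pRes_sup ▸ sup_le (le_nrm_of_le_cen (le_cen_symm hR')) (le_nrm_self R)
  obtain ⟨u, -, e⟩ := hR.exists_cj_eq (H2.sylow_isSylowIn_top P)
  rw [← e, cj_of_mem_nrm (h6 (mem_top u))]
  exact normal_iff_top_le_nrm.2 h6

end Cfsg.Agent.S4139
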