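import Cfsg.Statements.S4140
import Cfsg.Agent.H1.Cam

set_option autoImplicit false
open Cfsg

namespace Cfsg.Agent.S4140

open H7 H1B Subgroup

/-- Let G be a finite group and N a proper non-trivial normal subgroup such that for every g outside N the conjugacy class of g is a union of cosets of N (equivalently gn is conjugate to g for every n ∈ N). Then either every element of G outside N acts fixed-point-freely on N (C_G(x) ≤ N for all x ∈ N, x ≠ 1, so G is a Frobenius group with kernel N), or N has prime-power order, or G/N has prime-power order. -/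
theorem result {G : Type*} [Group G] [Finite G] (N : Subgroup G) [N.Normal] (hN1 : N ≠ ⊥) (hN2 : N ≠ ⊤)
    (hcam : ∀ g : G, g ∉ N → ∀ n ∈ N, ∃ x : G, x * g * x⁻¹ = g * n) :
    (∀ x ∈ N, x ≠ 1 → Subgroup.centralizer ({x} : Set G) ≤ N) ∨ IsPrimePow (Nat.card N) ∨ IsPrimePow N.index := by
  have k := QuotientGroup.ker_mk' N
  have h : Cam (QuotientGroup.mk' N) := ⟨QuotientGroup.mk'_surjective N, by rwa [k], by rwa [k]⟩
  by_cases a : IsPrimePow N.index
  · exact .inr (.inr a)
  by_cases b : ∃ p, p.Prime ∧ p ∣ Nat.card (G ⧸ N) ∧ p ∣ ord N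
  · obtain ⟨p, hp, d, d'⟩ := b
    haveI := Fact.mk hp
    have := Cam.main (fun p => by
      by_contra! c
      obtain ⟨q, hq, e⟩ := Nat.exists_prime_and_dvd (mt index_eq_one.1 hN2)
      have u : ∀ s, s.Prime → s ∣ N.index → s = p := fun s hs ds => by_contra fun n => c s hs n ds
      exact a (isPrimePow_iff_unique_prime_dvd.2 ⟨q, ⟨hq, e⟩, fun s hs => (u s hs.1 hs.2).trans (u q hq e).symm⟩))
      _ _ rfl h p hp d (by rwa [k])
    rw [k] at this
    obtain ⟨j, hj⟩ := IsPGroup.iff_card.1 this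
    refine .inr (.inl ⟨p, j, hp.prime, Nat.pos_of_ne_zero fun e => hN1 ?_, hj.symm⟩)
    rwa [e, pow_zero, card_eq_one] at hj
  refine .inl fun x hx x1 g hg => zpowers_le_of_ppow fun q hq y hy py => by_contra fun y1 => x1 ?_
  haveI := Fact.mk hq
  have d : q ∣ Nat.card (G ⧸ N) := by
    have := dvd_card_of_isPGroup (py.map (QuotientGroup.mk' N)) fun e =>
      y1 (k ▸ (Subgroup.map_eq_bot_iff _).1 e (mem_zpowers y))
    exact this.trans (card_subgroup_dvd_card _)
  have := h.fpf (g := y) (by rwa [k]) (by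
    rw [k, ← Nat.card_zpowers]; exact (coprime_of_isPGroup py (coprime_iff_not_dvd.2 fun e => b ⟨q, hq, d, e⟩)).symm)
  exact mem_bot.1 (this.le ⟨k.symm ▸ hx, mem_cen1_comm.1 (zpowers_le.2 hg hy)⟩)

end Cfsg.Agent.S4140
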