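import Cfsg.Statements.S4142
import Mathlib
import Cfsg.Agent.H8.ClassCount

set_option autoImplicit false
open Cfsg

namespace Cfsg.Agent.S4142

open Subgroup in
lemma key {G : Type*} [Group G] [Finite G] (N : Subgroup G) [N.Normal] (g : G) :
    {y : G | IsConj (g : G ⧸ N) (y : G ⧸ N)}.ncard =
      (centralizer ({(g : G ⧸ N)} : Set (G ⧸ N))).index * Nat.card N := by
  rw [← H8.ncard_isConj, H8.ncard_eq_mul_of_fibers (Set.toFinite _) (fun y : G => (y : G ⧸ N))
    (d := Nat.card N)]
  · congr 2
    ext z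
    obtain ⟨z, rfl⟩ := QuotientGroup.mk_surjective z
    exact ⟨fun ⟨y, hy, h⟩ => h ▸ hy, fun h => ⟨z, h, rfl⟩⟩
  · rintro _ ⟨y, hy, rfl⟩
    symm
    rw [← Nat.card_coe_set_eq (s := {x | _ ∧ _})]
    refine Nat.card_congr ⟨fun n => ⟨y * n, ?_⟩, fun x => ⟨y⁻¹ * x, QuotientGroup.eq.1 x.2.2.symm⟩,
      fun n => by simp, fun x => by simp⟩
    have := QuotientGroup.mk_mul_of_mem y n.2
    exact ⟨by show IsConj _ _; rw [this]; exact hy, this⟩

/-- Let G be a finite group and N a normal subgroup. Then the conjugacy class of every element g outside N is a union of cosets of N (gn is conjugate to g for all n ∈ N) if and only if for every g outside N the centralizer of g in G has the same order as the centralizer of gN in G/N. -/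
theorem result {G : Type*} [Group G] [Finite G] (N : Subgroup G) [N.Normal] :
    (∀ g : G, g ∉ N → ∀ n ∈ N, ∃ x : G, x * g * x⁻¹ = g * n) ↔
      ∀ g : G, g ∉ N → Nat.card (Subgroup.centralizer ({g} : Set G)) =
        Nat.card (Subgroup.centralizer ({(QuotientGroup.mk g : G ⧸ N)} : Set (G ⧸ N))) := by
  refine forall_congr' fun g => imp_congr_right fun _ => ?_
  have h1 := key N g
  have h2 := H8.ncard_isConj g
  have hsub : {y | IsConj g y} ⊆ {y : G | IsConj (g : G ⧸ N) (y : G ⧸ N)} :=
    fun y hy => (QuotientGroup.mk' N).map_isConj hy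
  have e1 := (Subgroup.centralizer ({g} : Set G)).card_mul_index
  have e2 := (Subgroup.centralizer ({(g : G ⧸ N)} : Set (G ⧸ N))).card_mul_index
  have e3 := Subgroup.card_eq_card_quotient_mul_card_subgroup N
  have hiff : (∀ n ∈ N, ∃ x : G, x * g * x⁻¹ = g * n) ↔
      {y | IsConj g y} = {y : G | IsConj (g : G ⧸ N) (y : G ⧸ N)} := by
    constructor
    · intro h
      refine hsub.antisymm fun y hy => ?_
      obtain ⟨a, ha⟩ := isConj_iff.1 hy
      obtain ⟨a, rfl⟩ := QuotientGroup.mk_surjective a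
      have : g⁻¹ * (a⁻¹ * y * a) ∈ N := by
        rw [← QuotientGroup.eq]
        simp only [QuotientGroup.mk_mul, QuotientGroup.mk_inv, ← ha]; group
      obtain ⟨x, hx⟩ := h _ this
      refine isConj_iff.2 ⟨a * x, ?_⟩
      calc a * x * g * (a * x)⁻¹ = a * (x * g * x⁻¹) * a⁻¹ := by group
        _ = y := by rw [hx]; group
    · intro h n hn
      have : g * n ∈ {y : G | IsConj (g : G ⧸ N) (y : G ⧸ N)} := by
        show IsConj _ _
        rw [QuotientGroup.mk_mul_of_mem g hn]
      rw [← h] at this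
      exact isConj_iff.1 this
  rw [hiff]
  have hpos : 0 < (Subgroup.centralizer ({g} : Set G)).index :=
    Nat.pos_of_ne_zero Subgroup.index_ne_zero_of_finite
  constructor
  · intro h
    rw [h, h1] at h2
    refine Nat.eq_of_mul_eq_mul_right hpos ?_
    rw [e1, e3, ← e2, ← h2, mul_assoc]
  · intro h
    refine Set.eq_of_subset_of_ncard_le hsub (le_of_eq ?_) (Set.toFinite _)
    rw [h1, h2]
    refine Nat.eq_of_mul_eq_mul_left (Nat.card_pos (α := Subgroup.centralizer ({g} : Set G))) ?_
    rw [e1, e3, ← e2, h, mul_assoc]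

end Cfsg.Agent.S4142
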