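import Cfsg.Statements.S4145
import Mathlib
import Cfsg.Agent.H8.ClassCount
import Cfsg.Agent.H2.Abel

set_option autoImplicit false
open Cfsg

namespace Cfsg.Agent.S4145

open Subgroup in
lemma npc {G : Type*} [Group G] [Finite G] {p : ℕ} [Fact p.Prime] (P : Sylow p G)
    (hP : IsCyclic (P : Subgroup G))
    (h : ⁅(P : Subgroup G), normalizer (P : Set G)⁆ ≠ P) : Cfsg.HasNormalPComplement p G := by
  apply H2.hasNPC_of_normalizer_le_centralizer P
  have h1 := H2.abelian_sylow_decomp P inferInstance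
  -- subgroups of a cyclic p-group form a chain
  have hle : ⁅(P : Subgroup G), normalizer (P : Set G)⁆ ≤ P :=
    (le_sup_left.trans h1.le)
  obtain ⟨a, ha⟩ := (P.isPGroup'.to_le hle).exists_card_eq
  obtain ⟨b, hb⟩ := (P.isPGroup'.to_le (inf_le_left (b := centralizer (normalizer (P : Set G) : Set G)))).exists_card_eq
  rcases le_total a b with hab | hab
  · have := H8.le_of_card_dvd_of_isCyclic hle inf_le_left (by rw [ha, hb]; exact pow_dvd_pow _ hab)
    rw [sup_eq_right.2 this] at h1
    exact le_centralizer_iff.1 (h1.ge.trans inf_le_right)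
  · have := H8.le_of_card_dvd_of_isCyclic inf_le_left hle (by rw [ha, hb]; exact pow_dvd_pow _ hab)
    rw [sup_eq_left.2 this] at h1
    exact absurd h1 h

open Subgroup in
lemma npc2 {G : Type*} [Group G] [Finite G] {p : ℕ} [Fact p.Prime] (P : Sylow p G)
    (hP : IsCyclic (P : Subgroup G))
    (h : ¬ (P : Subgroup G) ≤ _root_.commutator G) : Cfsg.HasNormalPComplement p G :=
  npc P hP fun e => h (e.ge.trans (commutator_mono le_top le_top))

open Subgroup in
lemma psol {G : Type*} [Group G] [Finite G] {p : ℕ} [Fact p.Prime] (P : Sylow p G)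
    (hP : IsCyclic (P : Subgroup G)) (H : Subgroup G) [H.Normal] (hH : IsPGroup p H)
    (h : H ≠ ⊥) : H1.PiSep {p} G := by
  have hp : p.Prime := Fact.out
  have hHP : H ≤ P := hH.le_sylow_of_normal P
  let C := centralizer (H : Set G)
  have hPC : (P : Subgroup G) ≤ C := fun x hx y hy => H1.comm_of_mem (hHP hy) hx
  have hcyc : IsCyclic (P.subtype hPC : Subgroup C) :=
    isCyclic_of_surjective _ (subgroupOfEquivOfLe hPC).symm.surjective
  have hC : Cfsg.HasNormalPComplement p C := by
    refine npc2 (P.subtype hPC) hcyc fun hle => h ?_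
    have h1 := H2.hall_inf_commutator_inf_center (H := (P.subtype hPC : Subgroup C))
      inferInstance (H2.sylow_coprime_index _)
    rw [eq_bot_iff]
    intro x hx
    have hxP : (⟨x, hPC (hHP hx)⟩ : C) ∈ (P.subtype hPC : Subgroup C) := hHP hx
    have : (⟨x, hPC (hHP hx)⟩ : C) ∈ (⊥ : Subgroup C) := h1 ▸ ⟨⟨hxP, hle hxP⟩,
      mem_center_iff.2 fun g => Subtype.ext (g.2 x hx).symm⟩
    exact congrArg Subtype.val this
  rw [H2.hasNPC_iff_coprime] at hC
  obtain ⟨k, hk⟩ := H2.index_pResidual (p := p) (G := C)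
  refine H1.PiSepTo.step C ⊤ (H1.PiSepTo.step ((Cfsg.pResidual p C).map C.subtype) C
    (H1.PiSepTo.of_piNum (Or.inr ?_)) inferInstance (map_subtype_le _) (Or.inl ?_))
    inferInstance le_top (Or.inr ?_)
  · rw [card_subtype, H1.PiNum.compl_singleton_iff hp]; exact hC
  · rw [H1.relIndex_map_subtype, hk]; exact H1.PiNum.singleton_pow hp k
  · rw [relIndex_top_right, H1.PiNum.compl_singleton_iff hp, Nat.coprime_comm,
      hp.coprime_iff_not_dvd]
    exact fun hd => P.not_dvd_index (hd.trans (index_dvd_of_le hPC))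

/-- Let G be a finite group with a cyclic Sylow p-subgroup and H a normal subgroup such that p divides both the order of H and the index of H. Then H has a normal p-complement and G is p-solvable. -/
theorem result {G : Type*} [Group G] [Finite G] (p : ℕ) [Fact p.Prime]
    (P : Sylow p G) (hP : IsCyclic (P : Subgroup G)) (H : Subgroup G) [H.Normal] (h1 : p ∣ Nat.card H) (h2 : p ∣ H.index) :
    Cfsg.HasNormalPComplement p H ∧ Cfsg.IsPSolvable p G := by
  have hp : p.Prime := Fact.out
  have hH : Cfsg.HasNormalPComplement p H := by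
    have hPK : (P : Subgroup G) ≤ H ⊔ P := le_sup_right
    have hcyc : IsCyclic (P.subtype hPK : Subgroup ↥(H ⊔ P)) :=
      isCyclic_of_surjective _ (Subgroup.subgroupOfEquivOfLe hPK).symm.surjective
    refine H2.hasNPC_of_le (npc2 (P.subtype hPK) hcyc fun hle => ?_) le_sup_left
    apply P.not_dvd_index
    refine h2.trans (Subgroup.index_dvd_of_le fun x hx => ?_)
    have h3 : (⟨x, hPK hx⟩ : ↥(H ⊔ P)) ∈ commutator ↥(H ⊔ P) := hle hx
    have h4 : x ∈ ⁅H ⊔ P, H ⊔ P⁆ := by
      rw [← Subgroup.map_subtype_commutator]; exact ⟨_, h3, rfl⟩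
    have h5 : ⁅H ⊔ P, H ⊔ P⁆ ≤ H := by
      rw [← QuotientGroup.ker_mk' H, ← Subgroup.map_eq_bot_iff, Subgroup.map_commutator,
        QuotientGroup.ker_mk', Subgroup.map_sup, QuotientGroup.map_mk'_self, bot_sup_eq,
        ← Subgroup.map_commutator, H2.commutator_eq_bot_of_comm inferInstance, Subgroup.map_bot]
    exact h5 h4
  refine ⟨hH, ?_⟩
  rw [H1.isPSolvable_iff_piSep hp]
  rw [H2.hasNPC_iff_coprime] at hH
  obtain ⟨k, hk⟩ := H2.index_pResidual (p := p) (G := H)
  let O := (Cfsg.pResidual p H).map H.subtype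
  have hO : (Nat.card O).Coprime p := by rw [Subgroup.card_subtype]; exact hH
  have hc : Nat.card (H.map (QuotientGroup.mk' O)) = p ^ k := by
    rw [H1.card_map_mk', H1.relIndex_map_subtype, hk]
  refine H1.PiSep.of_quotient (N := O) (H1.PiSepTo.of_piNum (Or.inr ?_)) ?_
  · rwa [H1.PiNum.compl_singleton_iff hp]
  · haveI : (H.map (QuotientGroup.mk' O)).Normal :=
      Subgroup.Normal.map inferInstance _ (QuotientGroup.mk'_surjective O)
    refine psol (P.mapSurjective (QuotientGroup.mk'_surjective O)) ?_ (H.map (QuotientGroup.mk' O))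
      (IsPGroup.of_card hc) fun h => ?_
    · exact isCyclic_of_surjective _ (MonoidHom.subgroupMap_surjective _ _)
    · rw [Subgroup.map_eq_bot_iff, QuotientGroup.ker_mk'] at h
      exact hp.one_lt.ne' (Nat.eq_one_of_dvd_coprimes hO (h1.trans (Subgroup.card_dvd_of_le h))
        dvd_rfl)

end Cfsg.Agent.S4145
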