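import Cfsg.Statements.S4153
import Mathlib
import Cfsg.Agent.H8.ClassCount

set_option autoImplicit false
open Cfsg

namespace Cfsg.Agent.S4153

/-- Let G be a finite group, p a prime, N a normal subgroup, P a Sylow p-subgroup of G and P̄ a Sylow p-subgroup of G/N. Count the elements of p-power order, the identity included. Then (number of such elements of G/N)/#P̄ ≤ (number of such elements of G)/#P, stated as a cross-multiplied inequality, with equality when N is central. -/
theorem result {G : Type*} [Group G] [Finite G] (p : ℕ) [Fact p.Prime] (N : Subgroup G) [N.Normal]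
    (P : Sylow p G) (Pbar : Sylow p (G ⧸ N)) :
    Nat.card {g : (G ⧸ N) // ∃ k : ℕ, orderOf g = p ^ k} * Nat.card (P : Subgroup G) ≤ Nat.card {g : G // ∃ k : ℕ, orderOf g = p ^ k} * Nat.card (Pbar : Subgroup (G ⧸ N)) ∧
    (N ≤ Subgroup.center G → Nat.card {g : (G ⧸ N) // ∃ k : ℕ, orderOf g = p ^ k} * Nat.card (P : Subgroup G) = Nat.card {g : G // ∃ k : ℕ, orderOf g = p ^ k} * Nat.card (Pbar : Subgroup (G ⧸ N))) := by
  have hp : p.Prime := Fact.out
  obtain ⟨T, hT⟩ := H1.exists_isSylowIn p N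
  have hcard : Nat.card (P : Subgroup G) = Nat.card (Pbar : Subgroup (G ⧸ N)) * Nat.card T := by
    rw [P.card_eq_multiplicity, Pbar.card_eq_multiplicity, hT.card_eq, ← pow_add,
      Subgroup.card_eq_card_quotient_mul_card_subgroup N,
      Nat.factorization_mul Nat.card_pos.ne' Nat.card_pos.ne']
    rfl
  let S : Set G := {g | ∃ k : ℕ, orderOf g = p ^ k}
  let S' : Set (G ⧸ N) := {g | ∃ k : ℕ, orderOf g = p ^ k}
  have hmap : ∀ g ∈ S, (g : G ⧸ N) ∈ S' := by
    rintro g ⟨k, hk⟩
    obtain ⟨j, -, hj⟩ := (Nat.dvd_prime_pow hp).1 (hk ▸ orderOf_map_dvd (QuotientGroup.mk' N) g)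
    exact ⟨j, hj⟩
  -- every p-element of the quotient lifts with many lifts
  have hlift : ∀ b ∈ S', ∃ x : G, (x : G ⧸ N) = b ∧ ∃ T' : Subgroup G, T' ≤ N ∧
      Nat.card T' = Nat.card T ∧ x ∈ S ∧ ∀ t ∈ T', x * t ∈ S := by
    intro b hb
    obtain ⟨Q, hQ⟩ := H8.exists_sylow_mem hb
    obtain ⟨R, rfl⟩ := Sylow.mapSurjective_surjective (QuotientGroup.mk'_surjective N) p Q
    obtain ⟨x, hx, rfl⟩ := hQ
    have h1 : H1.IsSylowIn p ((R : Subgroup G) ⊓ N) N := (H1.isSylowIn_top R).inf le_top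
      (by rw [Subgroup.normalizer_eq_top]; exact le_top)
    exact ⟨x, rfl, R ⊓ N, inf_le_right, by rw [h1.card_eq, hT.card_eq],
      H8.exists_orderOf_eq_of_mem R.isPGroup' hx,
      fun t ht => H8.exists_orderOf_eq_of_mem R.isPGroup' (Subgroup.mul_mem _ hx ht.1)⟩
  have hfib : ∀ b ∈ S', Nat.card T ≤ {x ∈ S | (x : G ⧸ N) = b}.ncard ∧
      (N ≤ Subgroup.center G → {x ∈ S | (x : G ⧸ N) = b}.ncard = Nat.card T) := by
    intro b hb
    obtain ⟨x, rfl, T', h1, h2, h3, h4⟩ := hlift b hb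
    have e : ((fun t => x * t) '' (T' : Set G)).ncard = Nat.card T := by
      rw [Set.ncard_image_of_injective _ (mul_right_injective x), ← h2]; rfl
    have hsub : (fun t => x * t) '' (T' : Set G) ⊆ {y ∈ S | (y : G ⧸ N) = x} := by
      rintro _ ⟨t, ht, rfl⟩
      exact ⟨h4 t ht, QuotientGroup.mk_mul_of_mem x (h1 ht)⟩
    refine ⟨e ▸ Set.ncard_le_ncard hsub, fun hc => le_antisymm ?_ (e ▸ Set.ncard_le_ncard hsub)⟩
    refine Set.ncard_le_ncard_of_injOn (t := (T : Set G)) (fun y => x⁻¹ * y) ?_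
      (mul_right_injective _).injOn (Set.toFinite _)
    rintro y ⟨⟨k, hk⟩, hy⟩
    have hn : x⁻¹ * y ∈ N := QuotientGroup.eq.1 hy.symm
    obtain ⟨j, hj⟩ := h3
    have hxy : Commute x y := by
      have := Subgroup.mem_center_iff.1 (hc hn) x
      calc x * y = x * (x * (x⁻¹ * y)) := by group
        _ = y * x := by rw [this]; group
    have hpw : (x⁻¹ * y) ^ p ^ (j + k) = 1 := by
      rw [hxy.inv_left.mul_pow, inv_pow, pow_add, pow_mul, ← hj, pow_orderOf_eq_one, mul_comm,
        pow_mul, ← hk, pow_orderOf_eq_one]; simp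
    refine hT.le_of_le_normalizer (Q := Subgroup.zpowers (x⁻¹ * y)) ?_ (Subgroup.zpowers_le.2 hn)
      ((Subgroup.zpowers_le.2 (hc hn)).trans (Subgroup.center_le_normalizer _))
      (Subgroup.mem_zpowers _)
    obtain ⟨i, -, hi⟩ := (Nat.dvd_prime_pow hp).1 (orderOf_dvd_of_pow_eq_one hpw)
    exact IsPGroup.of_card (by rw [Nat.card_zpowers, hi])
  have himg : (fun g : G => (g : G ⧸ N)) '' S = S' := by
    ext b
    constructor
    · rintro ⟨g, hg, rfl⟩; exact hmap g hg
    · intro hb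
      obtain ⟨x, h, -, -, -, hx, -⟩ := hlift b hb
      exact ⟨x, hx, h⟩
  show S'.ncard * _ ≤ S.ncard * _ ∧ (_ → S'.ncard * _ = S.ncard * _)
  rw [hcard]
  constructor
  · classical
    have : S'.ncard * Nat.card T ≤ S.ncard := by
      have := Fintype.ofFinite G
      rw [← himg, Set.ncard_eq_toFinset_card' S, Set.ncard_eq_toFinset_card', mul_comm,
        Set.toFinset_image]
      refine Finset.mul_card_image_le_card _ _ fun b hb => ?_
      have := (hfib b (by rw [← himg]; simpa using hb)).1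
      rw [Set.ncard_eq_toFinset_card'] at this
      convert this using 2
      ext; simp
    calc _ = S'.ncard * Nat.card T * Nat.card (Pbar : Subgroup (G ⧸ N)) := by ring
      _ ≤ _ := Nat.mul_le_mul_right _ this
  · intro hc
    rw [H8.ncard_eq_mul_of_fibers (Set.toFinite S) (fun g : G => (g : G ⧸ N)) (d := Nat.card T)
      (fun b hb => (hfib b (himg ▸ hb)).2 hc), himg]
    ring

end Cfsg.Agent.S4153
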