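import Cfsg.Statements.S4154
import Mathlib
import Cfsg.Agent.H8.Misc1

set_option autoImplicit false
open Cfsg

namespace Cfsg.Agent.S4154

/-- Let G be a finite group and α an automorphism of G such that every element of G is the product of an element fixed by α and an element of the form g⁻¹α(g). If N is a normal α-invariant subgroup, then the automorphism ᾱ induced on G/N has the same property, and every coset fixed by ᾱ contains an element fixed by α (so the fixed points of ᾱ are the images of the fixed points of α). -/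
theorem result {G : Type*} [Group G] [Finite G] (α : MulAut G)
    (hccp : ∀ x : G, ∃ c g : G, α c = c ∧ x = c * (g⁻¹ * α g))
    (N : Subgroup G) [N.Normal] (hN : ∀ n ∈ N, α n ∈ N) :
    (∀ x : G, ∃ c g : G, c⁻¹ * α c ∈ N ∧ x⁻¹ * (c * (g⁻¹ * α g)) ∈ N) ∧
    (∀ x : G, x⁻¹ * α x ∈ N → ∃ c : G, α c = c ∧ c⁻¹ * x ∈ N) := by
  refine ⟨fun x => ?_, fun x hx => ?_⟩
  · obtain ⟨c, g, hc, rfl⟩ := hccp x
    exact ⟨c, g, by simp [hc], by rw [inv_mul_cancel]; exact N.one_mem⟩
  · have hn : N.Normal := inferInstance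
    let C : Subgroup G := α.toMonoidHom.eqLocus (MonoidHom.id G)
    let C' : Subgroup G :=
      ((QuotientGroup.mk' N).comp α.toMonoidHom).eqLocus (QuotientGroup.mk' N)
    have hC' : ∀ y, y ∈ C' ↔ y⁻¹ * α y ∈ N := by
      intro y
      rw [← QuotientGroup.eq, eq_comm]; rfl
    have hle : C ⊔ N ≤ C' := by
      refine sup_le (fun y hy => ?_) (fun y hy => ?_)
      · have : α y = y := hy
        rw [hC', this]; simp
      · rw [hC']; exact N.mul_mem (N.inv_mem hy) (hN y hy)
    let f : G ⧸ C' → G ⧸ (C ⊔ N) := fun q => Quotient.liftOn' q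
      (fun h => ((α h * h⁻¹ : G) : G ⧸ (C ⊔ N))) (by
        intro a b hab
        rw [QuotientGroup.leftRel_apply, hC'] at hab
        rw [QuotientGroup.eq]
        apply Subgroup.mem_sup_right
        have := hn.conj_mem _ hab b
        convert this using 1
        simp only [map_mul, map_inv]; group)
    have hf : Function.Surjective f := by
      intro y
      obtain ⟨y, rfl⟩ := QuotientGroup.mk_surjective y
      obtain ⟨c, g, hc, hy⟩ := hccp y⁻¹
      refine ⟨(g⁻¹ : G), ?_⟩
      show ((α g⁻¹ * g⁻¹⁻¹ : G) : G ⧸ (C ⊔ N)) = y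
      rw [eq_comm, QuotientGroup.eq, hy]
      apply Subgroup.mem_sup_left
      have : c * (g⁻¹ * α g) * (α g⁻¹ * g⁻¹⁻¹) = c := by rw [map_inv]; group
      rw [this]; exact hc
    have h1 : (C ⊔ N).index ≤ C'.index := Nat.card_le_card_of_surjective f hf
    have h2 : C ⊔ N = C' := by
      refine Subgroup.eq_of_le_of_card_ge hle ?_
      have e1 := (C ⊔ N).card_mul_index
      have e2 := C'.card_mul_index
      by_contra hlt
      push Not at hlt
      have := Nat.mul_lt_mul_of_lt_of_le hlt h1 (Nat.pos_of_ne_zero C'.index_ne_zero_of_finite)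
      omega
    have hxC : x ∈ C ⊔ N := h2 ▸ (hC' x).2 hx
    obtain ⟨c, hc, n, hn, rfl⟩ := (H1.mem_sup_of_le_normalizer
      (by rw [Subgroup.normalizer_eq_top]; exact le_top)).1 hxC
    exact ⟨c, hc, by simpa using hn⟩

end Cfsg.Agent.S4154
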