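import Cfsg.Statements.S4156
import Cfsg.Agent.H3.SylB

set_option autoImplicit false
open Cfsg

namespace Cfsg.Agent.S4156

open Module

/-- Let n ≥ 5 and F a finite field. Then the projective special linear group PSL_n(F) contains a subgroup isomorphic to the alternating group of degree n + 1. -/
theorem result (n : ℕ) (hn : 5 ≤ n) (F : Type*) [Field F] [Finite F] :
    ∃ f : alternatingGroup (Fin (n + 1)) →* Matrix.ProjectiveSpecialLinearGroup (Fin n) F, Function.Injective f := by
  set_option maxSynthPendingDepth 3 in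
  classical
  haveI : IsSimpleGroup (alternatingGroup (Fin (n + 1))) := alternatingGroup.isSimpleGroup (by simp; omega)
  have pf : commutator (alternatingGroup (Fin (n + 1))) = ⊤ := commutator_alternatingGroup_eq_top (by simp; omega)
  let W := permSumZero F (alternatingGroup (Fin (n + 1))) (Fin (n + 1))
  have d : finrank F W.toSubmodule = finrank F (Fin n → F) := by
    have := (Fintype.linearCombination F fun _ : Fin (n + 1) => (1 : F)).finrank_range_add_finrank_ker
    rw [LinearMap.range_eq_top.2 fun c => ⟨Pi.single 0 c, by simp⟩, show LinearMap.ker _ = W.toSubmodule by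
      ext f; simp [Fintype.linearCombination_apply]; rfl] at this
    simp at this ⊢; omega
  let ρ := (H4.linConj (LinearEquiv.ofFinrankEq _ _ d)).toMonoidHom.comp
    ((LinearMap.GeneralLinearGroup.generalLinearEquiv F _).toMonoidHom.comp W.toRepresentation.asGroupHom)
  have m : ∀ g, ρ g ∈ (Matrix.SpecialLinearGroup.toLin' : Matrix.SpecialLinearGroup (Fin n) F →* _).range := fun g =>
    H3.range_toLin'.ge (Abelianization.commutator_subset_ker (LinearEquiv.det.comp ρ) (pf.ge (Subgroup.mem_top g)))
  let s := (MonoidHom.ofInjective Matrix.SpecialLinearGroup.toLin'_injective).symm.toMonoidHom.comp (ρ.codRestrict _ m)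
  refine ⟨(QuotientGroup.mk' _).comp s, (MonoidHom.ker_eq_bot_iff _).1
    ((IsSimpleGroup.eq_bot_or_eq_top_of_normal _ inferInstance).resolve_right fun z => ?_)⟩
  have t : s.ker = ⊤ := eq_top_iff.2 (pf.ge.trans (Subgroup.commutator_le.2 fun x _ y _ => by
    rw [MonoidHom.mem_ker, map_commutatorElement, commutatorElement_eq_one_iff_mul_comm]
    exact (Subgroup.mem_center_iff.1 ((QuotientGroup.eq_one_iff _).1 (z.ge (Subgroup.mem_top y))) _)))
  let a : Fin (n + 1) := ⟨0, by omega⟩
  let b : Fin (n + 1) := ⟨1, by omega⟩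
  let c : Fin (n + 1) := ⟨2, by omega⟩
  let g : alternatingGroup (Fin (n + 1)) := ⟨Equiv.swap a b * Equiv.swap a c, by simp [a, b, c]⟩
  have u0 : ρ g⁻¹ = 1 := congrArg Subtype.val ((map_eq_one_iff _
    (MonoidHom.ofInjective Matrix.SpecialLinearGroup.toLin'_injective).symm.injective).1 (t.ge (Subgroup.mem_top g⁻¹)))
  have u : W.toRepresentation g⁻¹ = 1 := congrArg Units.val ((map_eq_one_iff _
    (LinearMap.GeneralLinearGroup.generalLinearEquiv F _).injective).1 ((map_eq_one_iff _ (H4.linConj _).injective).1 u0))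
  have := congrFun (congrArg Subtype.val (DFunLike.congr_fun u ⟨Pi.single a 1 - Pi.single b 1, by
    show ∑ x, _ = 0
    simp⟩)) a
  change (Pi.single a 1 - Pi.single b 1 : Fin (n + 1) → F) (g⁻¹⁻¹ • a) = (Pi.single a 1 - Pi.single b 1 : Fin (n + 1) → F) a at this
  rw [inv_inv, show g • a = c by simp [g, Subgroup.smul_def, Equiv.swap_apply_of_ne_of_ne, a, b, c]] at this
  simp [a, b, c] at this

end Cfsg.Agent.S4156
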