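import Cfsg.Statements.S4168
import Mathlib
import Cfsg.Agent.H8.Misc1

set_option autoImplicit false
open Cfsg

namespace Cfsg.Agent.S4168

/-- Let L be a finite quasisimple group (perfect with L/Z(L) simple). Then every prime dividing the order of the centre Z(L) also divides the order of L/Z(L). -/
theorem result {L : Type*} [Group L] [Finite L] (hL : Cfsg.IsQuasisimple L)
    (p : ℕ) (hp : p.Prime) (hdiv : p ∣ Nat.card (Subgroup.center L)) : p ∣ (Subgroup.center L).index := by
  by_contra hnd
  haveI := Fact.mk hp
  obtain ⟨z, hz, hzo⟩ := H1.exists_mem_orderOf_eq_prime hp hdiv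
  have hperf := hL.1
  have h1 : ∀ g : L, MonoidHom.transferCenterPow L g = 1 := by
    intro g
    have hg : g ∈ commutator L := by
      rw [hperf.commutator_eq_top]; trivial
    open scoped IsMulCommutative in
    exact Abelianization.commutator_subset_ker (MonoidHom.transferCenterPow L) hg
  have := congrArg Subtype.val (h1 z)
  rw [MonoidHom.transferCenterPow_apply] at this
  apply hnd
  rw [← hzo]
  exact orderOf_dvd_of_pow_eq_one this

end Cfsg.Agent.S4168
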