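import Cfsg.Statements.S4169
import Mathlib
import Cfsg.Agent.H8.Cls1

set_option autoImplicit false
open Cfsg

namespace Cfsg.Agent.S4169

open H8 H7
open scoped commutatorElement

/-- Let P be a finite p-group whose conjugacy classes have exactly two sizes (1 and one other value). Then P has nilpotency class at most 3. -/
theorem result {P : Type*} [Group P] [Finite P] {p : ℕ} [Fact p.Prime] (hP : IsPGroup p P)
    (m : ℕ) (hm : 1 < m) (h : ∀ x : P, (Subgroup.centralizer ({x} : Set P)).index = 1 ∨ (Subgroup.centralizer ({x} : Set P)).index = m) :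
    upperCentralSeries P 3 = ⊤ := by
  obtain ⟨A, -, hA⟩ := exists_scn (S := (⊤ : Subgroup P)) (by haveI := hP.isNilpotent; infer_instance)
    bot_le isComm_bot (le_nrm_bot _)
  haveI : A.Normal := normal_iff_top_le_nrm.2 hA.2.1
  obtain ⟨h1, h2⟩ := mann (scn_comm hA) (by simpa using hA.2.2.le) (m := m)
    (fun x hx => ((h x).resolve_left hx.ne').ge) (M := ⊤) fun x _ => Subgroup.subset_closure (h x)
  refine ucs_three fun a b c d => ?_
  exact commutatorElement_eq_one_iff_mul_comm.2 (Subgroup.mem_center_iff.1 (h1 (Subgroup.commutator_mem_commutator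
    (h2 (Subgroup.commutator_mem_commutator (Subgroup.mem_top a) (Subgroup.mem_top b))) (Subgroup.mem_top c))) d).symm

end Cfsg.Agent.S4169
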