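import Cfsg.Statements.S4172
import Cfsg.Agent.H1.V3
import Cfsg.Agent.H1.BG4b
import Cfsg.Agent.H1.Gaschutz
import Cfsg.Agent.H2.Abel
import Cfsg.Agent.H7.Ut
import Cfsg.Agent.H7.PG4

set_option autoImplicit false
open Cfsg

namespace Cfsg.Agent.S4172

open H7 H1B Subgroup
open H2 (cj IsSylowIn)
open scoped commutatorElement

/-- Let p be a prime and G a finite group with a non-commutative Sylow p-subgroup P whose Frattini subgroup has index p² in P (P is generated by two elements). Suppose G has no nontrivial normal subgroup of order prime to p and the Frattini subgroup of P contains no nontrivial normal subgroup of G. Then the generalized Fitting subgroup F*(G) is the unique minimal normal subgroup of G, the image of P in G/F*(G) is cyclic, and if F*(G) is not commutative then P permutes the components of G transitively by conjugation. -/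
theorem result {G : Type*} [Group G] [Finite G] (p : ℕ) [Fact p.Prime] (P : Sylow p G) (hna : ¬ IsMulCommutative (P : Subgroup G)) (hgen : (frattini ↥(P : Subgroup G)).index = p ^ 2) (hcore : Cfsg.pPrimeCore p G = ⊥) (hfrat : ((frattini ↥(P : Subgroup G)).map (P : Subgroup G).subtype).normalCore = ⊥) [hFn : (Cfsg.generalizedFittingSubgroup G).Normal] :
    (Cfsg.generalizedFittingSubgroup G ≠ ⊥ ∧ ∀ K : Subgroup G, K.Normal → K ≠ ⊥ → Cfsg.generalizedFittingSubgroup G ≤ K) ∧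
      IsCyclic ↥((P : Subgroup G).map (QuotientGroup.mk' (Cfsg.generalizedFittingSubgroup G))) ∧
      (¬ IsMulCommutative (Cfsg.generalizedFittingSubgroup G) → ∀ K L : Subgroup G, Cfsg.IsComponent K → Cfsg.IsComponent L → ∃ x ∈ (P : Subgroup G), L = K.map (MulAut.conj x).toMonoidHom) := by
  have hp : p.Prime := Fact.out
  have hS := syl_top P
  rw [pPrimeCore_eq] at hcore
  replace hgen : (Phi (P : Subgroup G)).relIndex P = p ^ 2 := by
    rw [Phi_def, relIndex, subgroupOf, comap_map_eq_self_of_injective (subtype_injective _), hgen]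
  rw [← Phi_def] at hfrat
  have pP := P.2
  generalize (P : Subgroup G) = P at *
  have k1 : ∀ H, P ≤ nrm H → P ⊓ H ≤ Phi P → H7.NPC p H := fun H hn h => by
    obtain ⟨k, hk⟩ := H2.relIndex_eq_pow (Q := H) pP
    exact (npc_tate (hS.mono le_sup_left le_top) ((inf_le_inf_left _ (H2.pRes_le_of_relIndex (sup_le hn (le_nrm_self H))
      ((H2.relIndex_sup_of_le_normalizer hn).trans hk))).trans h)).of_le le_sup_right
  have k2 : ∀ H, P ≤ nrm H → ¬ P ⊓ H ≤ Phi P → CycMod (P ⊓ H) P := fun H hn h => by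
    have l : P ⊓ H ⊔ Phi P ≤ P := sup_le inf_le_left (Phi_le P)
    have e := relIndex_mul_relIndex _ _ _ (le_sup_right : Phi P ≤ P ⊓ H ⊔ Phi P) l
    obtain ⟨c, hc⟩ := H2.dvd_relIndex_of_not_le (Q := Phi P) (pP.to_le l) fun k => h (le_sup_left.trans k)
    obtain ⟨a, ha, k⟩ := cycMod_of_index pP (nrm_sup (nrm_inf (le_nrm_self P) hn) (le_nrm_Phi P)) (by
      rw [hc, hgen, sq, mul_assoc, Nat.mul_right_inj hp.ne_zero] at e
      exact Nat.le_of_dvd hp.pos (e ▸ dvd_mul_left _ _))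
    exact ⟨a, ha, (eq_of_sup_Phi (sup_le inf_le_left (zpowers_le.2 ha)) (by rwa [sup_right_comm] at k)).ge⟩
  have k3 : ∀ H, P ≤ nrm H → ¬ P ⊓ H ≤ Phi P → ⁅P, P⁆ ≤ H := fun H hn h =>
    (der_le_comm_of_cycMod inf_le_left (nrm_inf (le_nrm_self P) hn) (k2 H hn h)).trans
      ((comm_le_left (nrm_inf (le_nrm_self P) hn)).trans inf_le_right)
  have k4 : ∀ K : Subgroup G, ⊤ ≤ nrm K → K ≠ ⊥ → ¬ P ⊓ K ≤ Phi P := fun K hn ne h => by
    have b := le_Op' (p := p) le_top (le_nrm_pRes hn) (npc_iff_coprime.1 (k1 K (le_top.trans hn) h))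
    rw [hcore, le_bot_iff] at b
    have l := (le_Op le_top hn (H2.pgroup_of_pRes (b ▸ IsPGroup.of_bot))).trans (Op_le_of_sylow hS)
    haveI := normal_iff_top_le_nrm.2 hn
    exact ne (le_bot_iff.1 (hfrat ▸ normal_le_normalCore.2 ((le_inf l le_rfl).trans h)))
  have d1 : ⁅P, P⁆ ≠ ⊥ := fun k => hna (H7.isComm_iff.2 (commutator_eq_bot_iff_le_centralizer.1 k))
  have t1 : (⊤ : Subgroup G) ≠ ⊥ := fun k => d1 (le_bot_iff.1 (k ▸ le_top))
  obtain ⟨N, -, n1, nN, mN⟩ := exists_min_normal t1 (le_nrm_self ⊤)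
  have uN : ∀ K : Subgroup G, ⊤ ≤ nrm K → K ≠ ⊥ → N ≤ K := fun K hn ne =>
    inf_eq_left.1 ((mN _ inf_le_left (nrm_inf nN hn)).resolve_left fun k => d1 (le_bot_iff.1 (k ▸ le_inf
      (k3 N (le_top.trans nN) (k4 N nN n1)) (k3 K (le_top.trans hn) (k4 K hn ne)))))
  have cN := k2 N (le_top.trans nN) (k4 N nN n1)
  have L1 : Lay (⊤ : Subgroup G) ≠ ⊥ → Fit (⊤ : Subgroup G) = ⊥ ∧ cen N = ⊥ := fun h => by
    have F1 : Fit (⊤ : Subgroup G) = ⊥ := by
      by_contra F1
      have a := uN _ (le_nrm_Lay ⊤) h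
      have b := uN _ (le_nrm_Fit ⊤) F1
      have c := b.trans (Fit_le_cen_Lay ⊤)
      have d : N ≤ P := (b.trans (Fit_eq_Op hcore).le).trans (Op_le_of_sylow hS)
      have s := syl_inf hS le_top (le_top.trans (le_nrm_Lay ⊤))
      rw [inf_eq_right.2 d] at cN
      have cy : CycMod N (P ⊓ Lay ⊤) := (cycMod_iff (le_top.trans nN)).2
        (cyc_of_le (im_mono _ inf_le_left) ((cycMod_iff (le_top.trans nN)).1 cN))
      have e := H2.hall_inf_commutator_inf_centralizer (isComm_of_cycMod cy (le_inf d a) (c.trans (cen_anti inf_le_right)))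
        s.1 (H2.sylow_coprime_relIndex s)
      exact n1 (le_bot_iff.1 (e ▸ le_inf (le_inf (le_inf d a) (a.trans (Lay_perfect ⊤).ge)) c))
    refine ⟨F1, by_contra fun k => n1 (le_bot_iff.1 (F1 ▸ le_Fit le_top nN ?_))⟩
    haveI := H7.isComm_iff.2 (uN _ (nrm_cen nN) k)
    exact nilp_of_comm inferInstance
  have e : Fst (⊤ : Subgroup G) ≤ N := by
    by_cases h : Lay (⊤ : Subgroup G) = ⊥
    swap
    · obtain ⟨a, b⟩ := L1 h
      exact sup_le (Lay_le_iff.2 fun K hK => (hK.le_or_cen (SN.of_normal le_top nN)).resolve_right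
        fun k => hK.qs.ne_bot (le_bot_iff.1 (b ▸ k))) (a ▸ bot_le)
    have NV := uN _ (le_nrm_Fst ⊤) (Fst_ne_bot t1)
    have nV := le_nrm_Fst (⊤ : Subgroup G)
    rw [Fst_eq_Op_of h hcore] at NV nV ⊢
    have VP := Op_le_of_sylow hS
    have pV := isPGroup_Op p (⊤ : Subgroup G)
    generalize Op p (⊤ : Subgroup G) = V at *
    have f : Phi V = ⊥ := by_contra fun k => k4 _ (nrm_Phi nV) k (inf_le_right.trans (Phi_mono pP VP))
    have eV : EA p V := ⟨H7.isComm_iff.2 (commutator_eq_bot_iff_le_centralizer.1 (le_bot_iff.1 (f ▸ comm_le_Phi pV.isNilpotent))),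
      fun a ha => (f.le (pow_mem_Phi pV ha) :)⟩
    rw [inf_eq_right.2 (NV.trans VP)] at cN
    obtain ⟨x, hx, k⟩ := cN
    by_contra ne
    have m := modular' (C := V) (B := zpowers x) (le_top.trans nN) NV
    rw [inf_eq_right.2 (VP.trans k)] at m
    obtain ⟨w, hw, wN⟩ := SetLike.not_le_iff_exists.1 fun l : zpowers x ⊓ V ≤ N => ne (m.le.trans (sup_le le_rfl l))
    haveI := normal_iff_top_le_nrm.2 nN
    haveI : IsMulCommutative N := H7.isComm_iff.2 (le_cen_mono eV.le_cen NV NV)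
    obtain ⟨j, hj⟩ := card_pgroup (pV.to_le NV)
    obtain ⟨H, hH⟩ := H1.gaschutz_exists (NV.trans VP) (by
      rw [hj]; exact ((Nat.Prime.coprime_iff_not_dvd hp).2 (relIndex_top_right P ▸ hS.3)).pow_left j) (A := zpowers x)
      (by_contra fun l => by
        obtain ⟨u, hu, u1⟩ := exists_ne_one l
        exact wN (zpowers_le.2 hu.2 ((eq_of_cyc (H7.cyc_zpowers x) (zpowers_le.2 hu.1) (zpowers_le.2 hw.1) (by
          rw [card_zpowers_eq, card_zpowers_eq, eV.orderOf (NV hu.2) u1, eV.orderOf hw.2 fun l => wN (l ▸ one_mem _)])).ge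
          (mem_zpowers w))))
      (le_antisymm (sup_le (NV.trans VP) (zpowers_le.2 hx)) k)
    have m := modular' (C := V) (B := H) (le_top.trans nN) NV
    rw [hH.sup_eq_top, top_inf_eq] at m
    exact n1 (le_bot_iff.1 (hH.disjoint.eq_bot ▸ le_inf le_rfl ((uN (H ⊓ V) (hH.sup_eq_top ▸ sup_le
      (le_nrm_of_le_cen (le_cen_mono eV.le_cen NV inf_le_right)) (nrm_inf (le_nrm_self H) (le_top.trans nV)))
      fun l => ne (by rw [m, l, sup_bot_eq])).trans inf_le_left)))
  have F1 : generalizedFittingSubgroup G ≠ ⊥ := gfit_eq (G := G) ▸ Fst_ne_bot t1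
  refine ⟨⟨F1, fun K hK ne => gfit_eq.le.trans (e.trans (uN K (normal_iff_top_le_nrm.1 hK) ne))⟩, ?_, fun _ K L hK hL => ?_⟩
  · obtain ⟨x, hx, k⟩ := k2 _ (le_nrm_of_normal _ _) (k4 _ (le_nrm_of_normal _ _) F1)
    refine cyc_of_le ((map_mono k).trans ?_) (H7.cyc_zpowers (QuotientGroup.mk' _ x))
    rw [Subgroup.map_sup, MonoidHom.map_zpowers, (Subgroup.map_eq_bot_iff _).2 (inf_le_right.trans (QuotientGroup.ker_mk' _).ge),
      bot_sup_eq]
  rw [isComponent_iff] at hK hL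
  have c := (L1 fun k => Lay_eq_bot_iff.1 k K hK).2
  have o : ∀ K J, IsComp K ⊤ → IsComp J ⊤ → (∀ x ∈ P, J ≠ cj x K) → J ≤ cen ⁅P, P⁆ := fun K J hK hJ h => by
    have n : P ≤ nrm (⨆ x : P, cj (x : G) K) := le_nrm_of_cj_le fun a ha => by
      rw [cj_iSup]
      exact iSup_le fun x => le_iSup_of_le (⟨a, ha⟩ * x) (H7.cj_mul _ _ _).ge
    refine le_cen_symm ((k3 _ n fun l => hK.qs.ne_bot (le_bot_iff.1 (hcore ▸ le_Op'_of_sn hK.sn ?_))).trans
      (iSup_le fun x => le_cen_symm (hJ.cen_of_ne (hK.cj_of_mem_nrm (le_nrm_self ⊤ trivial)) (h x x.2))))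
    rw [← pRes_of_perfect (p := p) hK.qs.perfect]
    exact npc_iff_coprime.1 ((k1 _ n l).of_le (le_iSup_of_le 1 (H2.cj_one K).ge))
  by_contra! h
  refine d1 (le_bot_iff.1 (c ▸ le_cen_symm ((uN _ (le_nrm_Lay ⊤) fun k => Lay_eq_bot_iff.1 k K hK).trans
    (Lay_le_iff.2 fun J hJ => ?_))))
  by_cases j : ∀ x ∈ P, J ≠ cj x K
  · exact o K J hK hJ j
  push Not at j
  obtain ⟨x, hx, rfl⟩ := j
  refine o L _ hL hJ fun y hy k => h (y⁻¹ * x) (mul_mem (inv_mem hy) hx) ?_
  rw [← H7.cj_def, H7.cj_mul, k, H2.cj_inv_cj]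

end Cfsg.Agent.S4172
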