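import Cfsg.Statements.S4177
import Mathlib
import Cfsg.Agent.H8.ClassCount

set_option autoImplicit false
open Cfsg

namespace Cfsg.Agent.S4177

lemma card_orbit {k V H : Type*} [Field k] [AddCommGroup V] [Module k V] [Group H]
    (ρ : Representation k H V) (a : V) : ∃ A : Subgroup H, (∀ h, h ∈ A ↔ ρ h a = a) ∧
      Nat.card {u : V | ∃ h : H, ρ h a = u} = A.index := by
  letI : MulAction H V :=
    { smul := fun h v => ρ h v
      one_smul := fun v => by show ρ 1 v = v; simp
      mul_smul := fun g h v => by show ρ (g * h) v = ρ g (ρ h v); simp }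
  exact ⟨MulAction.stabilizer H a, fun h => Iff.rfl, (MulAction.index_stabilizer H a).symm⟩

/-- Let k be a field whose characteristic does not divide the order of the finite group H (for instance a field of characteristic zero), and ρ a k-linear representation of H on V. Let a be a vector whose H-orbit spans V. Then the space of H-fixed vectors has dimension at most 1, and every vector b whose H-orbit has size coprime to the size of the orbit of a is fixed by H. -/
theorem result {k V H : Type*} [Field k] [AddCommGroup V] [Module k V] [Group H] [Finite H]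
    (hchar : ¬ ringChar k ∣ Nat.card H) (ρ : Representation k H V) (a : V)
    (hspan : Submodule.span k {u : V | ∃ h : H, ρ h a = u} = ⊤) :
    Module.finrank k ρ.invariants ≤ 1 ∧
    ∀ b : V, (Nat.card {u : V | ∃ h : H, ρ h a = u}).Coprime (Nat.card {u : V | ∃ h : H, ρ h b = u}) → ∀ h : H, ρ h b = b := by
  classical
  have := Fintype.ofFinite H
  have hne : ∀ n, n ∣ Nat.card H → (n : k) ≠ 0 := fun n hn h =>
    hchar (((ringChar.spec k n).1 h).trans hn)
  have hspan' : ∀ (f : V →ₗ[k] V) (W : Submodule k V), (∀ h, f (ρ h a) ∈ W) → ∀ v, f v ∈ W := by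
    intro f W hW v
    have : Submodule.span k {u : V | ∃ h : H, ρ h a = u} ≤ W.comap f := by
      rw [Submodule.span_le]; rintro _ ⟨h, rfl⟩; exact hW h
    exact this (hspan ▸ Submodule.mem_top)
  -- sums over a subgroup
  have hsum : ∀ (B : Subgroup H) (b : B) (v : V), ρ b (∑ x : B, ρ x v) = ∑ x : B, ρ x v := by
    intro B b v
    rw [map_sum]
    refine Fintype.sum_equiv (Equiv.mulLeft b) _ _ fun x => ?_
    simp
  constructor
  · have hle : ρ.invariants ≤ Submodule.span k {∑ x : (⊤ : Subgroup H), ρ x a} := by
      intro v hv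
      have h1 := hspan' (∑ x : (⊤ : Subgroup H), ρ x) (Submodule.span k {∑ x : (⊤ : Subgroup H), ρ x a})
        (fun h => by
          apply Submodule.subset_span
          rw [LinearMap.sum_apply]
          refine Fintype.sum_equiv (Equiv.mulRight ⟨h, trivial⟩) _ _ fun x => ?_
          simp) v
      rw [LinearMap.sum_apply, Finset.sum_congr rfl (fun (x : (⊤ : Subgroup H)) _ => hv (x : H)), Finset.sum_const,
        ← Nat.cast_smul_eq_nsmul k] at h1
      rwa [Submodule.smul_mem_iff _ (hne _ (by
        rw [Finset.card_univ, ← Nat.card_eq_fintype_card, Subgroup.card_top]))] at h1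
    exact (Submodule.finrank_mono hle).trans (by
      simpa using finrank_span_le_card (R := k) ({∑ x : (⊤ : Subgroup H), ρ x a} : Set V))
  · intro b hb h
    obtain ⟨A, hA, hAc⟩ := card_orbit ρ a
    obtain ⟨B, hB, hBc⟩ := card_orbit ρ b
    rw [hAc, hBc] at hb
    have hBA := H1.mul_eq_univ_of_coprime_index hb.symm
    have h0 : ∀ g : H, ∑ x : B, ρ x (ρ g a) = ∑ x : B, ρ x a := by
      intro g
      obtain ⟨y, hy, z, hz, rfl⟩ := hBA g
      rw [map_mul, Module.End.mul_apply, (hA z).1 hz]
      refine Fintype.sum_equiv (Equiv.mulRight ⟨y, hy⟩) _ _ fun x => ?_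
      simp
    have h1 : ∑ x : B, ρ x a ∈ ρ.invariants := by
      -- the total sum over H is a multiple
      have h2 : ∑ g : H, ∑ x : B, ρ x (ρ g a) = Fintype.card B • ∑ g : H, ρ g a := by
        rw [Finset.sum_comm, ← Finset.card_univ, ← Finset.sum_const]
        refine Finset.sum_congr rfl fun x _ => ?_
        refine Fintype.sum_equiv (Equiv.mulLeft (x : H)) _ _ fun g => ?_
        simp
      rw [Finset.sum_congr rfl (fun g _ => h0 g), Finset.sum_const, ← Nat.cast_smul_eq_nsmul k] at h2
      rw [← Submodule.smul_mem_iff _ (hne (Finset.univ : Finset H).card (by simp)), h2]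
      refine nsmul_mem (fun g => ?_) _
      rw [map_sum]
      refine Fintype.sum_equiv (Equiv.mulLeft g) _ _ fun x => ?_
      simp
    have h3 := hspan' (∑ x : B, ρ x) ρ.invariants (fun g => by
      rw [LinearMap.sum_apply, h0]; exact h1) b
    rw [LinearMap.sum_apply, Finset.sum_congr rfl (fun (x : B) _ => (hB (x : H)).1 x.2), Finset.sum_const,
      ← Nat.cast_smul_eq_nsmul k, Submodule.smul_mem_iff _ (hne _ (by
        rw [Finset.card_univ, ← Nat.card_eq_fintype_card]; exact B.card_subgroup_dvd_card))] at h3
    exact h3 h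

end Cfsg.Agent.S4177
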