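import Cfsg.Statements.S4176
import Mathlib
import Cfsg.Agent.H8.ClassCount
import Cfsg.Agent.S4177

set_option autoImplicit false
open Cfsg

namespace Cfsg.Agent.S4176

/-- Let k be a field of prime characteristic p, H a finite p-soluble group and ρ a k-linear representation of H on V. Let a be a vector that is fixed by some Sylow p-subgroup of H and whose H-orbit spans V. Then the space of H-fixed vectors has dimension at most 1, and every vector b whose H-orbit has size coprime to the size of the orbit of a is fixed by H. -/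
theorem result {k V H : Type*} [Field k] (p : ℕ) [Fact p.Prime] [CharP k p] [AddCommGroup V] [Module k V]
    [Group H] [Finite H] (hsol : Cfsg.IsPSolvable p H) (ρ : Representation k H V) (a : V)
    (hfix : ∃ P : Sylow p H, ∀ x : H, x ∈ (P : Subgroup H) → ρ x a = a)
    (hspan : Submodule.span k {u : V | ∃ h : H, ρ h a = u} = ⊤) :
    Module.finrank k ρ.invariants ≤ 1 ∧
    ∀ b : V, (Nat.card {u : V | ∃ h : H, ρ h a = u}).Coprime (Nat.card {u : V | ∃ h : H, ρ h b = u}) → ∀ h : H, ρ h b = b := by
  classical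
  have hp : p.Prime := Fact.out
  obtain ⟨P, hP⟩ := hfix
  rw [H1.isPSolvable_iff_piSep hp] at hsol
  have key : ∀ L : Subgroup H, Cfsg.IsPiHall {p}ᶜ L →
      {u : V | ∃ h : L, (ρ.comp L.subtype) h a = u} = {u : V | ∃ h : H, ρ h a = u} ∧
      ¬ ringChar k ∣ Nat.card L := by
    intro L hL
    rw [H1.isPiHall_iff, H1.PiNum.compl_compl_iff] at hL
    constructor
    · ext u
      refine ⟨fun ⟨h, e⟩ => ⟨h, e⟩, ?_⟩
      rintro ⟨h, rfl⟩
      obtain ⟨x, hx, y, hy, rfl⟩ := H1.mul_eq_univ_of_coprime_index (H := L) (K := P)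
        (hL.2.coprime ((H1.PiNum.compl_singleton_iff hp).2
          ((Nat.coprime_comm.1 (hp.coprime_iff_not_dvd.2 P.not_dvd_index))))) h
      exact ⟨⟨x, hx⟩, by simp [hP y hy]⟩
    · rw [ringChar.eq k p, ← hp.coprime_iff_not_dvd, Nat.coprime_comm,
        ← H1.PiNum.compl_singleton_iff hp]
      exact hL.1
  have hinv : ∀ L : Subgroup H, Cfsg.IsPiHall {p}ᶜ L →
      Representation.invariants (ρ.comp L.subtype) = ρ.invariants := by
    intro L hL
    obtain ⟨horb, hch⟩ := key L hL
    have := Fintype.ofFinite L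
    refine le_antisymm (fun v hv => ?_) (fun v hv g => hv g)
    have hLP : L ⊓ P = ⊥ := by
      rw [H1.isPiHall_iff] at hL
      exact (Subgroup.disjoint_of_coprime_natCard
        (hL.1.coprime' (H1.isPGroup_iff_piNum.1 P.isPGroup'))).eq_bot
    have hdec : ∀ g : H, ∃ l : L, (l : H)⁻¹ * g ∈ (P : Subgroup H) := by
      intro g
      rw [H1.isPiHall_iff, H1.PiNum.compl_compl_iff] at hL
      obtain ⟨x, hx, y, hy, rfl⟩ := H1.mul_eq_univ_of_coprime_index (H := L) (K := P)
        (hL.2.coprime ((H1.PiNum.compl_singleton_iff hp).2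
          ((Nat.coprime_comm.1 (hp.coprime_iff_not_dvd.2 P.not_dvd_index))))) g
      exact ⟨⟨x, hx⟩, by simpa using hy⟩
    choose π hπ using hdec
    have hπa : ∀ g, ρ g a = ρ (π g) a := by
      intro g
      conv_lhs => rw [← mul_inv_cancel_left (π g : H) g, map_mul, Module.End.mul_apply, hP _ (hπ g)]
    have h1 : ∑ l : L, ρ l a ∈ ρ.invariants := by
      intro h
      have hinj : Function.Injective fun l : L => π (h * l) := by
        intro l1 l2 e
        have e : π (h * l1) = π (h * l2) := e
        have h2 := Subgroup.mul_mem _ (Subgroup.inv_mem _ (hπ (h * l1))) (hπ (h * l2))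
        rw [e] at h2
        have h3 : (l1 : H)⁻¹ * l2 ∈ L ⊓ P := ⟨L.mul_mem (L.inv_mem l1.2) l2.2, by
          show _ ∈ (P : Subgroup H)
          simpa [mul_assoc] using h2⟩
        rw [hLP] at h3
        exact Subtype.ext (inv_mul_eq_one.1 h3)
      rw [map_sum]
      refine Fintype.sum_bijective _ (Finite.injective_iff_bijective.1 hinj) _ _ fun l => ?_
      rw [← hπa, map_mul, Module.End.mul_apply]
    have h2 : Submodule.span k {u : V | ∃ h : H, ρ h a = u} ≤
        ρ.invariants.comap (∑ l : L, ρ l) := by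
      rw [Submodule.span_le]
      rintro _ ⟨h, rfl⟩
      show (∑ l : L, ρ l) (ρ h a) ∈ ρ.invariants
      rw [LinearMap.sum_apply, hπa]
      convert h1 using 1
      refine Fintype.sum_equiv (Equiv.mulRight (π h)) _ _ fun x => ?_
      simp
    have h3 : (∑ l : L, ρ l) v ∈ ρ.invariants := h2 (hspan ▸ Submodule.mem_top)
    rw [LinearMap.sum_apply, Finset.sum_congr rfl (fun (x : L) _ => show ρ x v = v from hv x),
      Finset.sum_const, ← Nat.cast_smul_eq_nsmul k, Submodule.smul_mem_iff _ (fun h => hch (by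
        rw [Finset.card_univ, ← Nat.card_eq_fintype_card] at h
        exact (ringChar.spec k _).1 h))] at h3
    exact h3
  constructor
  · obtain ⟨L, hL⟩ := hsol.compl.exists_hall
    rw [← hinv L hL]
    exact (Cfsg.Agent.S4177.result (key L hL).2 (ρ.comp L.subtype) a
      (by rw [(key L hL).1]; exact hspan)).1
  · intro b hb
    obtain ⟨B, hB, hBc⟩ := Cfsg.Agent.S4177.card_orbit ρ b
    obtain ⟨K, hK⟩ := (hsol.compl.subgroup B).exists_hallOf
    obtain ⟨L, hL, hKL⟩ := hsol.compl.exists_hall_ge (H1.isPiHallOf_iff.1 hK).2.1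
      (Or.inl H1.piPrimeSolv_compl_singleton)
    have hKB : K = B ⊓ L := (H1.isPiHallOf_eq_of_le hK (le_inf hK.1 hKL) inf_le_left
      ((H1.isPiHall_iff.1 hL).1.of_dvd (Subgroup.card_dvd_of_le inf_le_right))).symm
    obtain ⟨B', hB', hBc'⟩ := Cfsg.Agent.S4177.card_orbit (ρ.comp L.subtype) b
    have hBB : B' = B.subgroupOf L := by
      ext x; rw [hB', Subgroup.mem_subgroupOf, hB]; rfl
    have hdvd : B'.index ∣ B.index := by
      have e1 : B'.index = K.relIndex L := by rw [hBB, hKB, Subgroup.inf_relIndex_right]; rfl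
      have e2 := Subgroup.relIndex_mul_index hKL
      have e3 := Subgroup.relIndex_mul_index hK.1
      rw [e1]
      refine Nat.Coprime.dvd_of_dvd_mul_left (m := K.relIndex B) ?_ ⟨L.index, e3.trans e2.symm⟩
      exact ((H1.isPiHall_iff.1 hL).1.of_dvd (Subgroup.relIndex_dvd_card _ _)).coprime
        (H1.isPiHallOf_iff.1 hK).2.2
    have := (Cfsg.Agent.S4177.result (key L hL).2 (ρ.comp L.subtype) a
      (by rw [(key L hL).1]; exact hspan)).2 b (by
        rw [(key L hL).1, hBc']
        exact Nat.Coprime.coprime_dvd_right hdvd (hBc ▸ hb))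
    have h4 : b ∈ ρ.invariants := hinv L hL ▸ this
    exact h4

end Cfsg.Agent.S4176
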