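import Cfsg.Statements.S4178
import Mathlib
import Cfsg.Agent.H8.ClassCount

set_option autoImplicit false
open Cfsg

namespace Cfsg.Agent.S4178

lemma idx {H X : Type*} [Group H] [MulAction H X] [Finite X] (R : Subgroup H) (S : Set X) (x : X)
    (hS : ∀ h : H, h • x ∈ S) (hR : ∀ h : H, h • x = x → h ∈ R) : R.index ≤ S.ncard := by
  have h1 : R.index ∣ (MulAction.stabilizer H x).index := Subgroup.index_dvd_of_le hR
  rw [MulAction.index_stabilizer] at h1
  refine (Nat.le_of_dvd ((Set.ncard_pos).2 ⟨x, MulAction.mem_orbit_self x⟩) h1).trans ?_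
  exact Set.ncard_le_ncard (by rintro _ ⟨h, rfl⟩; exact hS h)

/-- Let F be a finite field with q elements, V a non-zero finite-dimensional F-space of dimension d, H a group of invertible linear maps of V, and R the subgroup of H generated by the elements of H that fix some non-zero vector (have eigenvalue 1). Then the index of R in H is at most q^d − 1; and if H leaves invariant some proper non-zero subspace, the index is at most q^(d/2) − 1. -/
theorem result {F V : Type*} [Field F] [Fintype F] [AddCommGroup V] [Module F V] [FiniteDimensional F V] [Nontrivial V]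
    (H : Subgroup (V ≃ₗ[F] V)) :
    (Subgroup.closure {h : ↥H | ∃ v : V, v ≠ 0 ∧ (h : V ≃ₗ[F] V) v = v}).index ≤ Fintype.card F ^ Module.finrank F V - 1 ∧
    ((∃ W : Submodule F V, W ≠ ⊥ ∧ W ≠ ⊤ ∧ ∀ h ∈ H, ∀ w ∈ W, h w ∈ W) →
      ((Subgroup.closure {h : ↥H | ∃ v : V, v ≠ 0 ∧ (h : V ≃ₗ[F] V) v = v}).index : ℝ) ≤ Real.sqrt ((Fintype.card F : ℝ) ^ Module.finrank F V) - 1) := by
  classical
  haveI : Finite V := Module.finite_of_finite F
  set R := Subgroup.closure {h : ↥H | ∃ v : V, v ≠ 0 ∧ (h : V ≃ₗ[F] V) v = v}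
  have hsub : ∀ W : Submodule F V, W ≠ ⊥ → (∀ h ∈ H, ∀ w ∈ W, h w ∈ W) →
      R.index ≤ Fintype.card F ^ Module.finrank F W - 1 := by
    intro W hW hinv
    obtain ⟨w, hw, hw0⟩ := (Submodule.ne_bot_iff W).1 hW
    have := idx R ((W : Set V) \ {0}) w (fun h => ⟨hinv h h.2 w hw, by
      show (h : V ≃ₗ[F] V) w ≠ 0
      simpa using hw0⟩) (fun h e => Subgroup.subset_closure ⟨w, hw0, e⟩)
    rwa [Set.ncard_sdiff_singleton_of_mem W.zero_mem, ← Nat.card_coe_set_eq,
      show Nat.card (W : Set V) = Nat.card W from rfl, Module.natCard_eq_pow_finrank (K := F),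
      Nat.card_eq_fintype_card] at this
  refine ⟨by simpa using hsub ⊤ top_ne_bot (fun _ _ _ _ => trivial), ?_⟩
  rintro ⟨W, hW1, hW2, hinv⟩
  have h1 := hsub W hW1 hinv
  have h2 : R.index ≤ Fintype.card F ^ Module.finrank F (V ⧸ W) - 1 := by
    letI : MulAction H (V ⧸ W) :=
      { smul := fun h q => W.mapQ W (h : V ≃ₗ[F] V).toLinearMap (fun w hw => hinv h h.2 w hw) q
        one_smul := fun q => by
          obtain ⟨v, rfl⟩ := W.mkQ_surjective q; rfl
        mul_smul := fun a b q => by
          obtain ⟨v, rfl⟩ := W.mkQ_surjective q; rfl }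
    have hsm : ∀ (h : H) (v : V), h • W.mkQ v = W.mkQ ((h : V ≃ₗ[F] V) v) := fun _ _ => rfl
    obtain ⟨v, -, hv⟩ := SetLike.exists_of_lt (lt_top_iff_ne_top.2 hW2)
    haveI : Finite (V ⧸ W) := Finite.of_surjective _ W.mkQ_surjective
    have := idx R (Set.univ \ {0}) (W.mkQ v) (fun h => ⟨trivial, fun e => hv (by
        have e : h • W.mkQ v = 0 := e
        rw [hsm, Submodule.mkQ_apply, Submodule.Quotient.mk_eq_zero] at e
        simpa using hinv _ (H.inv_mem h.2) _ e)⟩) (fun h e => Subgroup.subset_closure (by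
        by_contra hc
        simp only [Set.mem_ofPred_eq, not_exists, not_and] at hc
        let f : V →ₗ[F] V := (h : V ≃ₗ[F] V).toLinearMap - LinearMap.id
        have hfW : ∀ w ∈ W, f w ∈ W := fun w hw => W.sub_mem (hinv h h.2 w hw) hw
        have hinj : Function.Injective f := by
          rw [← LinearMap.ker_eq_bot, eq_bot_iff]
          intro x hx
          by_contra hx0
          exact hc x hx0 (sub_eq_zero.1 hx)
        have hsurj : Function.Surjective (f.restrict hfW) := by
          rw [← LinearMap.injective_iff_surjective]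
          intro a b hab
          exact Subtype.ext (hinj (congrArg Subtype.val hab))
        have hfv : f v ∈ W := by
          rw [hsm, Submodule.mkQ_apply, Submodule.mkQ_apply, Submodule.Quotient.eq] at e
          exact e
        obtain ⟨w, hw⟩ := hsurj ⟨_, hfv⟩
        exact hv (hinj (congrArg Subtype.val hw) ▸ w.2)))
    rwa [Set.ncard_sdiff_singleton_of_mem (Set.mem_univ _), Set.ncard_univ,
      Module.natCard_eq_pow_finrank (K := F), Nat.card_eq_fintype_card] at this
  have h3 := W.finrank_quotient_add_finrank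
  have hq : 1 ≤ Fintype.card F := Fintype.card_pos
  have key : ∀ e, 2 * e ≤ Module.finrank F V → R.index ≤ Fintype.card F ^ e - 1 →
      (R.index : ℝ) ≤ Real.sqrt ((Fintype.card F : ℝ) ^ Module.finrank F V) - 1 := by
    intro e he h
    have h4 : R.index + 1 ≤ Fintype.card F ^ e := by
      have := Nat.one_le_pow e _ hq
      omega
    have h5 : ((R.index : ℝ) + 1) ≤ (Fintype.card F : ℝ) ^ e := by exact_mod_cast h4
    rw [le_sub_iff_add_le]
    refine h5.trans (Real.le_sqrt_of_sq_le ?_)
    rw [← pow_mul, mul_comm]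
    exact pow_le_pow_right₀ (by exact_mod_cast hq) he
  rcases le_total (Module.finrank F W) (Module.finrank F (V ⧸ W)) with h | h
  · exact key _ (by omega) h1
  · exact key _ (by omega) h2

end Cfsg.Agent.S4178
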