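import Cfsg.Statements.S4186
import Mathlib
import Cfsg.Agent.H8.Misc1

set_option autoImplicit false
open Cfsg

namespace Cfsg.Agent.S4186

/-- Let T and X be subgroups of a group with T a finite 2-group normalizing X but not centralizing it. Then some element of T inverts some non-identity element of X under conjugation. -/
theorem result {G : Type*} [Group G] (T X : Subgroup G) [Finite ↥T] (hT : IsPGroup 2 ↥T) (hTN : T ≤ Subgroup.normalizer (X : Set G)) (hTC : ¬ T ≤ Subgroup.centralizer (X : Set G)) : ∃ t ∈ T, ∃ x ∈ X, x ≠ 1 ∧ t * x * t⁻¹ = x⁻¹ := by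
  have key : ∀ k : ℕ, ∀ t ∈ T, t ^ 2 ^ k ∈ Subgroup.centralizer (X : Set G) →
      t ∉ Subgroup.centralizer (X : Set G) →
      ∃ t ∈ T, ∃ x ∈ X, x ≠ 1 ∧ t * x * t⁻¹ = x⁻¹ := by
    intro k
    induction k with
    | zero => intro t _ h1 h2; exact absurd (by simpa using h1) h2
    | succ k ih =>
      intro t ht h1 h2
      by_cases h3 : t ^ 2 ∈ Subgroup.centralizer (X : Set G)
      · rw [Subgroup.mem_centralizer_iff] at h2
        push Not at h2
        obtain ⟨x, hx, hxt⟩ := h2
        refine ⟨t, ht, x⁻¹ * (t * x * t⁻¹), X.mul_mem (X.inv_mem hx)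
          (H1.conj_mem_of_mem_normalizer (hTN ht) hx), ?_, ?_⟩
        · intro h
          apply hxt
          calc x * t = x * (x⁻¹ * (t * x * t⁻¹)) * t := by rw [h]; group
            _ = t * x := by group
        · have := h3 x hx
          calc t * (x⁻¹ * (t * x * t⁻¹)) * t⁻¹ = t * x⁻¹ * t⁻¹ * (t ^ 2 * x) * (t ^ 2)⁻¹ := by
                simp only [sq]; group
            _ = _ := by rw [← this]; group
      · exact ih (t ^ 2) (T.pow_mem ht 2) (by rw [← pow_mul, ← pow_succ']; exact h1) h3
  obtain ⟨t, ht, htc⟩ := SetLike.not_le_iff_exists.1 hTC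
  obtain ⟨k, hk⟩ := hT ⟨t, ht⟩
  refine key k t ht ?_ htc
  have : t ^ 2 ^ k = 1 := by simpa using congrArg Subtype.val hk
  rw [this]; exact Subgroup.one_mem _

end Cfsg.Agent.S4186
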