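import Cfsg.Statements.S4195
import Mathlib
import Cfsg.Agent.H8.Misc1

set_option autoImplicit false
open Cfsg

namespace Cfsg.Agent.S4195

/-- Let x be a non-identity element of a finite group G whose centralizer contains a Sylow 2-subgroup of G. If x is conjugate to its inverse, then x has order 2. -/
theorem result {G : Type*} [Group G] [Finite G] (x : G) (hx : x ≠ 1) (P : Sylow 2 G) (hP : (P : Subgroup G) ≤ Subgroup.centralizer ({x} : Set G)) (hreal : IsConj x x⁻¹) : orderOf x = 2 := by
  obtain ⟨c, hc⟩ := isConj_iff.1 hreal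
  by_contra hne
  have hxx : x⁻¹ ≠ x := by
    intro h
    apply hne
    refine orderOf_eq_prime ?_ hx
    rw [sq]; nth_rewrite 1 [← h]; simp
  -- the extended centralizer
  let C := Subgroup.centralizer ({x} : Set G)
  let E : Subgroup G :=
    { carrier := {g | g * x * g⁻¹ = x ∨ g * x * g⁻¹ = x⁻¹}
      one_mem' := by simp
      mul_mem' := by
        rintro a b ha hb
        simp only [Set.mem_ofPred_eq] at *
        have e : a * b * x * (a * b)⁻¹ = a * (b * x * b⁻¹) * a⁻¹ := by group
        have e2 : a * x⁻¹ * a⁻¹ = (a * x * a⁻¹)⁻¹ := by group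
        rw [e]
        rcases ha with ha | ha <;> rcases hb with hb | hb <;> simp only [hb, e2, ha] <;> simp
      inv_mem' := by
        rintro a ha
        simp only [Set.mem_ofPred_eq] at *
        rcases ha with ha | ha
        · left; nth_rewrite 1 [← ha]; group
        · right
          have : x = a * x⁻¹ * a⁻¹ := by
            rw [← inv_inv x]; nth_rewrite 1 [← ha]; group
          nth_rewrite 1 [this]; group }
  have hmemC : ∀ g, g ∈ C ↔ g * x * g⁻¹ = x := by
    intro g
    rw [Subgroup.mem_centralizer_singleton_iff, mul_inv_eq_iff_eq_mul]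
  have hCE : C ≤ E := fun g hg => Or.inl ((hmemC g).1 hg)
  have hidx : C.relIndex E = 2 := by
    rw [Subgroup.relIndex, Subgroup.index_eq_two_iff]
    refine ⟨⟨c, Or.inr hc⟩, fun b => ?_⟩
    simp only [Subgroup.mem_subgroupOf, hmemC, Subgroup.coe_mul]
    have e : (b : G) * c * x * ((b : G) * c)⁻¹ = ((b : G) * x * (b : G)⁻¹)⁻¹ := by
      rw [show (b : G) * c * x * ((b : G) * c)⁻¹ = b * (c * x * c⁻¹) * (b : G)⁻¹ by group, hc]
      group
    rw [e]
    rcases b.2 with hb | hb
    · right; rw [hb]; exact ⟨rfl, hxx⟩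
    · left; rw [hb]; exact ⟨by simp, hxx⟩
  apply P.not_dvd_index
  have h1 : C.index ∣ (P : Subgroup G).index := Subgroup.index_dvd_of_le hP
  exact (hidx ▸ Subgroup.relIndex_dvd_index_of_le hCE).trans h1

end Cfsg.Agent.S4195
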