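import Cfsg.Statements.S4196
import Mathlib
import Cfsg.Agent.H8.Misc1
import Cfsg.Agent.S4195

set_option autoImplicit false
open Cfsg

namespace Cfsg.Agent.S4196

/-- A finite group G has elementary abelian Sylow 2-subgroups (commutative with every element squaring to the identity) if and only if every 2-element of G has a Sylow 2-subgroup in its centralizer and is conjugate to its inverse. -/
theorem result {G : Type*} [Group G] [Finite G] (P : Sylow 2 G) :
    (IsMulCommutative (P : Subgroup G) ∧ ∀ x ∈ (P : Subgroup G), x ^ 2 = 1) ↔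
      ∀ x : G, (∃ k : ℕ, orderOf x = 2 ^ k) → (∃ Q : Sylow 2 G, (Q : Subgroup G) ≤ Subgroup.centralizer ({x} : Set G)) ∧ IsConj x x⁻¹ := by
  constructor
  · rintro ⟨hc, h2⟩ x ⟨k, hk⟩
    have hx : IsPGroup 2 (Subgroup.zpowers x) :=
      IsPGroup.of_card (by rw [Nat.card_zpowers, hk])
    obtain ⟨Q, hQ⟩ := hx.exists_le_sylow
    obtain ⟨g, rfl⟩ := MulAction.exists_smul_eq G P Q
    have hxQ : g⁻¹ * x * g ∈ (P : Subgroup G) := by
      have := hQ (Subgroup.mem_zpowers x)
      rwa [Sylow.coe_subgroup_smul, H1.mem_conj_smul] at this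
    refine ⟨⟨g • P, ?_⟩, ?_⟩
    · intro y hy
      rw [Sylow.coe_subgroup_smul, H1.mem_conj_smul] at hy
      rw [Subgroup.mem_centralizer_singleton_iff]
      have := H1.comm_of_mem hy hxQ
      calc y * x = g * (g⁻¹ * y * g * (g⁻¹ * x * g)) * g⁻¹ := by group
        _ = x * y := by rw [this]; group
    · have := h2 _ hxQ
      have h3 : x⁻¹ = x := by
        rw [inv_eq_iff_mul_eq_one]
        calc x * x = g * (g⁻¹ * x * g) ^ 2 * g⁻¹ := by rw [sq]; group
          _ = 1 := by rw [this]; group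
      rw [h3]
  · intro h
    have h2 : ∀ x ∈ (P : Subgroup G), x ^ 2 = 1 := by
      intro x hx
      by_cases h1 : x = 1
      · simp [h1]
      obtain ⟨k, hk⟩ := IsPGroup.iff_orderOf.1 P.isPGroup' ⟨x, hx⟩
      rw [Subgroup.orderOf_mk] at hk
      obtain ⟨⟨Q, hQ⟩, hr⟩ := h x ⟨k, hk⟩
      rw [← Cfsg.Agent.S4195.result x h1 Q hQ hr, pow_orderOf_eq_one]
    refine ⟨H1.isMulCommutative_iff'.2 fun x hx y hy => ?_, h2⟩
    have hx2 := h2 x hx
    have hy2 := h2 y hy
    have hxy := h2 _ (Subgroup.mul_mem _ hx hy)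
    rw [sq] at hx2 hy2 hxy
    calc x * y = x * (x * y * (x * y)) * y := by rw [hxy]; group
      _ = (x * x) * y * x * (y * y) := by simp only [mul_assoc]
      _ = y * x := by rw [hx2, hy2]; group

end Cfsg.Agent.S4196
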