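import Cfsg.Statements.S4238
import Cfsg.Agent.H2.Ms1
import Cfsg.Agent.H1.U1
import Cfsg.Agent.H7.FTc

set_option autoImplicit false
open Cfsg

namespace Cfsg.Agent.S4238

open Subgroup hiding upperCentralSeries
open H2 Cfsg.FusionSystem

open Subgroup H2 H7 H1B
open scoped commutatorElement
theorem aux {K : Type*} [Group K] [Finite K] {p : ℕ} [hp : Fact p.Prime] {V : Subgroup K} {a : K}
    (hV : IsPGroup p V) (V1 : V ≠ ⊥) (n : V.Normal) (ha : (orderOf a).Coprime p)
    (hs : zpowers a ⊔ V = ⊤) (hc : ⁅V, zpowers a⁆ = V) (hm : ∀ M : Subgroup K, M.Normal → M ≠ ⊥ → V ≤ M) :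
    pPrimeCore p K = ⊥ ∧ ∀ k : K, orderOf k ≠ Monoid.exponent K := by
  refine ⟨by_contra fun e => V1 (eq_bot_of_isPGroup_of_coprime hV ?_), fun k e => ?_⟩
  · have := hm _ inferInstance e
    rw [H7.pPrimeCore_eq] at this
    exact (coprime_Op' p ⊤).coprime_dvd_left (card_dvd_of_le this)
  have c : V ≤ cen V := comm_eq_bot.1 (by_contra fun e =>
    (H2.commutator_lt_of_normalizes hV hV (le_nrm_self V) V1).not_ge (hm _ inferInstance e))
  have z : k ^ orderOf a ∈ V := by
    have d : V.index ∣ orderOf a := by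
      rw [← relIndex_top_right, ← hs, relIndex_sup_nrm (le_nrm_of_normal _ V), ← Nat.card_zpowers]
      exact relIndex_dvd_card _ _
    obtain ⟨m, hm⟩ := d
    rw [hm, pow_mul]
    exact pow_mem (pow_index_mem V k) m
  have z1 : k ^ orderOf a ≠ 1 := fun e' => by
    obtain ⟨v, -, ov⟩ := exists_orderOf_eq hp.out (dvd_card_of_ne_bot hV V1)
    exact coprime_iff_not_dvd.1 ha (ov ▸ (Monoid.order_dvd_exponent v).trans
      (e ▸ orderOf_dvd_of_pow_eq_one e'))
  have s : zpowers k ⊔ V = ⊤ := H7.eq_of_le_of_card_le le_top (by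
    have := H7.card_sup_dvd (le_nrm_of_normal (zpowers a) V)
    rw [hs, Nat.card_zpowers] at this
    refine Nat.le_of_dvd Nat.card_pos (this.trans ((coprime_of_isPGroup hV ha).mul_dvd_of_dvd_of_dvd
      (.trans ?_ (card_dvd_of_le le_sup_left)) (card_dvd_of_le le_sup_right)))
    rw [Nat.card_zpowers, e]
    exact Monoid.order_dvd_exponent a)
  have t : ⊤ ≤ cen (zpowers (k ^ orderOf a)) := s.ge.trans (sup_le (by
    rw [cen_zpowers, zpowers_le]; exact mem_cen1.2 (Commute.self_pow k _))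
      (c.trans (cen_anti (zpowers_le.2 z))))
  exact V1 (hc.symm.trans (comm_eq_bot.2 ((hm _ (normal_iff_top_le_nrm.2 (le_nrm_of_le_cen t))
    (zpowers_ne_bot.2 z1)).trans ((le_cen_symm t).trans (cen_anti le_top)))))

/-- Let G be a finite group and p a prime. Then G has a normal p-complement if and only if every section K = H/N of G (N a normal subgroup of a subgroup H) whose largest normal subgroup of order prime to p is trivial contains an element whose order equals the exponent of K. -/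
theorem result {G : Type*} [Group G] [Finite G] (p : ℕ) [Fact p.Prime] :
    Cfsg.HasNormalPComplement p G ↔
      ∀ (H : Subgroup G) (N : Subgroup H) [N.Normal], Cfsg.pPrimeCore p (H ⧸ N) = ⊥ →
        ∃ k : H ⧸ N, orderOf k = Monoid.exponent (H ⧸ N) := by
  rw [H7.npc_top_iff]
  refine ⟨fun h H N _ e => ?_, fun h => H1B.npc_frob fun Q _ hQ x _ hx c => by_contra fun n => ?_⟩
  · have l : Op' p H ≤ kr (QuotientGroup.mk' N) := (im_eq_bot_iff (Opi_le _ H)).1 (eq_bot_mono
      (le_Opi le_top ((im_mk'_dom N).ge.trans (im_le_nrm _ (le_nrm_Opi _ H)))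
        ((piN_Opi _ H).dvd (card_im_dvd _ _))) ((H7.pPrimeCore_eq p).symm.trans e))
    have d := ((h.of_le le_top).relIndex (H := H)).dvd (relIndex_dvd_of_le_left H l)
    rw [← card_im le_rfl, im_mk'_dom, card_top] at d
    obtain ⟨k, hk⟩ := Nat.Prime.exists_orderOf_eq_pow_factorization_exponent (H ⧸ N) (Fact.out : p.Prime)
    obtain ⟨m, hm⟩ := (piN_single_iff Monoid.exponent_ne_zero_of_finite).1 (d.dvd Group.exponent_dvd_nat_card)
    exact ⟨k, by rw [hk, hm, Nat.Prime.factorization_pow Fact.out]; simp⟩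
  have co := cop_of_pgroup' (A := zpowers x) (by rwa [Nat.card_zpowers]) hQ (zpowers_le.2 hx)
  have e := co.comm_comm
  have pP : IsPGroup p (⁅Q, zpowers x⁆ : Subgroup G) := hQ.to_le (comm_le_left co.norm)
  have P1 : ⁅Q, zpowers x⁆ ≠ ⊥ := fun e => n (zpowers_le.1 (comm_eq_bot'.1 e))
  have nP : zpowers x ⊔ ⁅Q, zpowers x⁆ ≤ nrm ⁅Q, zpowers x⁆ :=
    sup_le (nrm_commutator co.norm (le_nrm_self _)) (le_nrm_self _)
  generalize ⁅Q, zpowers x⁆ = P at e pP P1 nP
  obtain ⟨N, ⟨n1, n2, n3⟩, nm⟩ := exists_maximal_of_wellFoundedGT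
    (fun N => N ≤ zpowers x ⊔ P ∧ zpowers x ⊔ P ≤ nrm N ∧ ¬ P ≤ N)
    ⟨⊥, bot_le, le_nrm_bot _, fun e => P1 (le_bot_iff.1 e)⟩
  haveI := normal_subgroupOf n2
  have k := (kr_mk'_subgroupOf N (zpowers x ⊔ P)).trans (inf_eq_left.2 n1)
  have t := im_mk'_dom (N.subgroupOf (zpowers x ⊔ P))
  have m : x ∈ zpowers x ⊔ P := mem_sup_left (mem_zpowers x)
  obtain ⟨a, b⟩ := aux (V := im (QuotientGroup.mk' (N.subgroupOf (zpowers x ⊔ P))) P)
    (a := ev (QuotientGroup.mk' _) x) (isPGroup_im _ pP)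
    (fun e => n3 (((im_eq_bot_iff le_sup_right).1 e).trans k.le))
    (normal_iff_top_le_nrm.2 (t.ge.trans (im_le_nrm _ nP)))
    (by rw [← Nat.card_zpowers, ← im_zpowers m]; exact coprime_im _ (by rwa [Nat.card_zpowers]))
    (by rw [← im_zpowers m, ← im_sup le_sup_left le_sup_right, t])
    (by rw [← im_zpowers m, ← im_commutator le_sup_right le_sup_left, e]) fun M hM M1 =>
      (im_le_iff le_sup_right).2 (by_contra fun c => M1 (by
        rw [← im_pre_of_le (t.ge.trans' le_top : M ≤ _), im_eq_bot_iff (pre_le _ _), k]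
        exact nm ⟨pre_le _ _, le_nrm_pre le_rfl (le_nrm_of_normal _ _), c⟩ (k.ge.trans (kr_le_pre _ _))))
  obtain ⟨y, hy⟩ := h _ _ a
  exact b y hy

end Cfsg.Agent.S4238
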