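import Cfsg.Statements.S4240
import Mathlib
import Cfsg.Agent.H8.InvSch

set_option autoImplicit false
open Cfsg

namespace Cfsg.Agent.S4240

open Subgroup H7 H8 H1

/-- Let a finite group A act by automorphisms on a finite group G of order coprime to that of A. Suppose every maximal A-invariant proper subgroup of G is nilpotent while G is not. Then G is solvable, the order of G has the form p^a·q^b for two distinct primes p and q, and G has a normal A-invariant Sylow subgroup for some prime dividing its order. -/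
theorem result {A G : Type*} [Group A] [Group G] [Finite A] [Finite G] [MulDistribMulAction A G]
    (hcop : (Nat.card A).Coprime (Nat.card G))
    (hmax : ∀ H : Subgroup G, H ≠ ⊤ → (∀ a : A, ∀ x ∈ H, a • x ∈ H) →
      (∀ K : Subgroup G, H < K → (∀ a : A, ∀ x ∈ K, a • x ∈ K) → K = ⊤) → Group.IsNilpotent H)
    (hG : ¬ Group.IsNilpotent G) :
    Group.IsSolvable G ∧
      (∃ p q a b : ℕ, p.Prime ∧ q.Prime ∧ p ≠ q ∧ Nat.card G = p ^ a * q ^ b) ∧
      ∃ (p : ℕ) (P : Sylow p G), p.Prime ∧ p ∣ Nat.card G ∧ (P : Subgroup G).Normal ∧ (∀ a : A, ∀ x ∈ (P : Subgroup G), a • x ∈ (P : Subgroup G)) := by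
  let φ := MulDistribMulAction.toMulAut A G
  obtain ⟨h1, ⟨p, q, a, b, h2⟩, r, P, hr, hd, hP, hn⟩ := inv_schmidt (A := sdR φ ⊤) (K := sdL φ ⊤)
    (sdR_le_normalizer_top _) (by rwa [card_sdL_top, card_sdR_top]) (fun L hL hAL => by
      obtain ⟨M, a, b, c, d⟩ := exists_max_inv_ge hL hAL
      obtain ⟨M', rfl⟩ : ∃ M', sdL φ M' = M := ⟨_, sdL_comap b.le⟩
      haveI := hmax M' (fun e => b.ne (by rw [e])) (fun x y hy => by
        rw [← sdR_le_normalizer_sdL.1 c x trivial]; exact ⟨y, hy, rfl⟩) fun K hK hAK =>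
          sdL_injective ((d _ (sdL_le_sdL.2 hK.le) (sdL_le_sdL.2 le_top)
            (sdR_le_normalizer_sdL_of_mem fun x _ => hAK x)).resolve_left
              fun e => hK.ne' (sdL_injective e))
      exact nilp_of_le a (Group.nilpotent_of_mulEquiv (sdLEquiv φ M')))
    fun h => hG (Group.nilpotent_of_mulEquiv (sdLTopEquiv φ).symm)
  rw [card_sdL_top] at h2 hd
  refine ⟨Group.isSolvable_of_surjective (f := (sdLTopEquiv φ).symm.toMonoidHom)
    (sdLTopEquiv φ).symm.surjective, ⟨p, q, a, b, h2⟩, ?_⟩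
  haveI := Fact.mk hr
  have h3 := (syl_to_H1 hP).card_eq
  rw [← sdL_comap hP.le, card_sdL, card_sdL_top] at h3
  let Q := Sylow.ofCard _ h3
  haveI hQ : (Q : Subgroup G).Normal := ⟨fun x hx g => by
    have := conj_mem hn (inl_mem_sdL.2 (mem_top g)) (x := SemidirectProduct.inl x) hx
    rwa [← map_inv, ← map_mul, ← map_mul] at this⟩
  haveI := Q.characteristic_of_normal hQ
  exact ⟨r, Q, hr, hd, hQ, fun a x hx =>
    characteristic_iff_le_comap.1 ‹(Q : Subgroup G).Characteristic› (φ a) hx⟩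

end Cfsg.Agent.S4240
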