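import Cfsg.Statements.S4242
import Cfsg.Agent.H2.Ms1
import Cfsg.Agent.H1.U1
import Cfsg.Agent.H7.FTc

set_option autoImplicit false
open Cfsg

namespace Cfsg.Agent.S4242

open Subgroup hiding upperCentralSeries
open H2 Cfsg.FusionSystem

open Subgroup H2 H7 H1B

/-- Let G be a finite group and p a prime dividing its order. Every maximal subgroup of G of order divisible by p is nilpotent if and only if G is nilpotent, or G is a minimal non-nilpotent group, or G is the internal direct product of a normal subgroup of order p and a normal minimal non-nilpotent subgroup of order prime to p. -/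
theorem result {G : Type*} [Group G] [Finite G] (p : ℕ) (hp : p.Prime) (hpG : p ∣ Nat.card G) :
    (∀ M : Subgroup G, IsCoatom M → p ∣ Nat.card M → Group.IsNilpotent M) ↔
      (Group.IsNilpotent G ∨ Cfsg.IsMinimalNonNilpotent G ∨
        ∃ Z K : Subgroup G, Z.Normal ∧ K.Normal ∧ Z ⊓ K = ⊥ ∧ Z ⊔ K = ⊤ ∧ Nat.card Z = p ∧
          Cfsg.IsMinimalNonNilpotent K ∧ ¬ p ∣ Nat.card K) := by
  haveI := Fact.mk hp
  have sub : ∀ K : Subgroup G, (∀ H : Subgroup K, H ≠ ⊤ → Group.IsNilpotent H) ↔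
      ∀ L < K, Group.IsNilpotent L := fun K =>
    ⟨fun h L l => by
      haveI := h (L.subgroupOf K) fun e => l.not_ge (subgroupOf_eq_top.1 e)
      exact Group.nilpotent_of_mulEquiv (subgroupOfEquivOfLe l.le), fun h H n => by
      haveI := h (H.map K.subtype) (lt_of_le_of_ne (map_subtype_le H) fun e => n
        (map_injective K.subtype_injective (by rw [e, ← MonoidHom.range_eq_map, range_subtype])))
      exact Group.nilpotent_of_mulEquiv (H.equivMapOfInjective _ K.subtype_injective).symm⟩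
  refine ⟨fun h => ?_, ?_⟩
  swap
  · rintro (h | h | ⟨Z, K, h1, h2, h3, h4, h5, h6, h7⟩) M hM d
    · infer_instance
    · exact h.2 M hM.1
    obtain ⟨x, hx, ox⟩ := exists_orderOf_eq hp d
    have t : IsSylowIn p Z ⊤ := ⟨le_top, IsPGroup.of_card (h5.trans (pow_one p).symm), by
      rw [← h4, sup_comm, relIndex_sup_nrm (le_nrm_of_normal K Z)]
      exact fun d => h7 (d.trans (relIndex_dvd_card _ _))⟩
    have e := eq_zpowers_of_card h5 (zpowers_le.1 (t.le_of_le_normalizer (isPGroup_zpowers_of_orderOf ox)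
      le_top (le_nrm_of_normal _ _))) (ne_one_of_orderOf ox)
    have l : Z ≤ M := e ▸ zpowers_le.2 hx
    have := modular (le_nrm_of_normal Z K) l
    rw [h4, top_inf_eq] at this
    rw [this]
    exact nilp_sup_of_cen ((le_cen_of_inf_eq_bot (le_nrm_of_normal _ _) (le_nrm_of_normal _ _) h3).trans
      (cen_anti inf_le_left)) (nilp_of_isPGroup t.isPGroup) ((sub K).1 h6.2 _ (inf_lt_left.2 fun e =>
        hM.1 (top_le_iff.1 (h4.ge.trans (sup_le l e)))))
  have h' : ∀ L : Subgroup G, L ≠ ⊤ → p ∣ ord L → Group.IsNilpotent L := fun L n d => by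
    obtain ⟨M, hM, l⟩ := (eq_top_or_exists_le_coatom L).resolve_left n
    exact nilp_of_le l (h M hM (d.trans (card_dvd_of_le l)))
  refine or_iff_not_imp_left.2 fun n1 => or_iff_not_imp_left.2 fun n2 => ?_
  obtain ⟨L, l1, l2⟩ : ∃ L : Subgroup G, L ≠ ⊤ ∧ ¬ Group.IsNilpotent L := by
    by_contra c
    push Not at c
    exact n2 ⟨n1, c⟩
  obtain ⟨K, hK, l⟩ := (eq_top_or_exists_le_coatom L).resolve_left l1
  have nK : ¬ Group.IsNilpotent K := fun e => l2 (nilp_of_le l e)
  have d : ¬ p ∣ ord K := fun d => nK (h K hK d)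
  have cK := coprime_iff_not_dvd.2 d
  have i : ∀ P : Subgroup G, IsPGroup p P → P ⊓ K = ⊥ := fun P hP =>
    H7.inf_eq_bot_of_isPGroup hP cK
  have key : ∀ P : Subgroup G, IsPGroup p P → P ≠ ⊥ → ∀ L < K, P ≤ nrm L ∨ L ≤ nrm P →
      Group.IsNilpotent (L ⊔ P : Subgroup G) := fun P hP P1 L l n =>
    h' _ (fun e => l.ne (by
      have := n.elim (fun n => modular' n l.le) fun n => modular n l.le
      rwa [e, top_inf_eq, i P hP, sup_bot_eq, eq_comm] at this))
      ((dvd_card_of_ne_bot hP P1).trans (card_dvd_of_le le_sup_right))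
  obtain ⟨P, hP, P1, hs⟩ : ∃ P : Subgroup G, IsPGroup p P ∧ P ≠ ⊥ ∧
      ∀ q, q.Prime → ∃ Q, IsSylowIn q Q K ∧ (P ≤ nrm Q ∨ Q ≤ nrm P) := by
    by_cases o : Op p (⊤ : Subgroup G) = ⊥
    swap
    · refine ⟨_, isPGroup_Op p ⊤, o, fun q hq => ?_⟩
      haveI := Fact.mk hq
      exact (H2.exists_isSylowIn q K).imp fun Q hQ => ⟨hQ, .inr (le_top.trans (le_nrm_Opi _ _))⟩
    have np : H7.NPC p (⊤ : Subgroup G) := H1B.npc_frob fun Q _ hQ x _ hx c => by
      by_cases q : Q = ⊥
      · rw [q, cen_bot]; trivial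
      exact zpowers_le.1 ((npc_of_nilp (h' (nrm Q) (fun e => q (eq_bot_mono (H7.le_Op le_top e.ge hQ) o))
        ((dvd_card_of_ne_bot hQ q).trans (card_dvd_of_le (le_nrm_self Q))))).le_cen hQ (le_nrm_self Q)
          (zpowers_le.2 hx) (by rwa [Nat.card_zpowers]) (zpowers_le.2 hx))
    have e : Op' p ⊤ = K := (hK.le_iff.1 (np.le_Op' le_top cK)).resolve_left fun e =>
      coprime_iff_not_dvd.1 (coprime_Op' p (⊤ : Subgroup G)) (by rwa [e, card_top])
    obtain ⟨P, hP⟩ := H2.exists_isSylowIn p (⊤ : Subgroup G)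
    refine ⟨P, hP.isPGroup, syl_ne_bot hP (by rwa [card_top]), fun q hq => ?_⟩
    haveI := Fact.mk hq
    exact ((cop_of_pgroup hP.isPGroup cK (e ▸ le_top.trans (le_nrm_Opi _ _))).exists_syl q).imp
      fun Q hQ => ⟨hQ.1, .inl hQ.2⟩
  have c : K ≤ cen P := le_of_sylows_le fun q hq _ => by
    haveI := Fact.mk hq
    obtain ⟨Q, hQ, n⟩ := hs q hq
    exact ⟨Q, hQ, nilp_cen_of_coprime (key P hP P1 Q (lt_of_le_of_ne hQ.le fun e =>
      nK (e ▸ nilp_of_isPGroup hQ.isPGroup)) n) le_sup_left le_sup_right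
        ((coprime_of_isPGroup hP cK).coprime_dvd_left (card_dvd_of_le hQ.le))⟩
  obtain ⟨x, hx, ox⟩ := exists_orderOf_eq hp (dvd_card_of_ne_bot hP P1)
  have pZ := isPGroup_zpowers_of_orderOf ox
  have Z1 := zpowers_ne_bot.2 (ne_one_of_orderOf ox)
  have cZ := c.trans (cen_anti (zpowers_le.2 hx))
  have s : zpowers x ⊔ K = ⊤ := hK.2 _ (right_lt_sup.2 fun e => Z1 (by rw [← i _ pZ, inf_eq_left.2 e]))
  exact ⟨zpowers x, K, normal_iff_top_le_nrm.2 (s.ge.trans (sup_le (le_nrm_self _) (le_nrm_of_le_cen cZ))),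
    normal_iff_top_le_nrm.2 (s.ge.trans (sup_le (le_nrm_of_le_cen (le_cen_symm cZ)) (le_nrm_self _))),
    i _ pZ, s, (Nat.card_zpowers x).trans ox, ⟨nK, (sub K).2 fun L l => nilp_of_le le_sup_left
      (key _ pZ Z1 L l (.inr (l.le.trans (le_nrm_of_le_cen cZ))))⟩, d⟩

end Cfsg.Agent.S4242
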