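import Cfsg.Statements.S4250
import Cfsg.Agent.H7.Tk7

set_option autoImplicit false
open Cfsg

namespace Cfsg.Agent.S4250
open H7
open scoped commutatorElement

/-- Let P be a Sylow p-subgroup of a finite group G. Call an intersection H = P ∩ Q with a Sylow p-subgroup Q tame when N_P(H) and N_Q(H) are Sylow p-subgroups of N_G(H). Then P ∩ G′ is generated by [P, N_G(P)] together with the commutator subgroups [P ∩ Q, ⟨x⟩] for all tame intersections P ∩ Q and all p-elements x of N_G(P ∩ Q). -/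
theorem result {G : Type*} [Group G] [Finite G] (p : ℕ) [Fact p.Prime] (P : Sylow p G) :
    (P : Subgroup G) ⊓ commutator G =
      ⁅(P : Subgroup G), Subgroup.normalizer ((P : Subgroup G) : Set G)⁆ ⊔
        ⨆ (Q : Sylow p G) (_ : (¬ p ∣ ((P : Subgroup G) ⊓ Subgroup.normalizer (((P : Subgroup G) ⊓ (Q : Subgroup G) : Subgroup G) : Set G)).relIndex (Subgroup.normalizer (((P : Subgroup G) ⊓ (Q : Subgroup G) : Subgroup G) : Set G)) ∧ ¬ p ∣ ((Q : Subgroup G) ⊓ Subgroup.normalizer (((P : Subgroup G) ⊓ (Q : Subgroup G) : Subgroup G) : Set G)).relIndex (Subgroup.normalizer (((P : Subgroup G) ⊓ (Q : Subgroup G) : Subgroup G) : Set G))))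
          (x : G) (_ : x ∈ Subgroup.normalizer (((P : Subgroup G) ⊓ (Q : Subgroup G) : Subgroup G) : Set G) ∧ ∃ k : ℕ, orderOf x = p ^ k),
          ⁅(P : Subgroup G) ⊓ (Q : Subgroup G), Subgroup.zpowers x⁆ := by
  open Subgroup in
  have hP := H2.sylow_isSylowIn_top P
  refine le_antisymm ?_ (le_inf (sup_le (comm_le_left le_rfl) (iSup_le fun Q => iSup_le fun _ => iSup_le fun x => iSup_le fun h =>
    (comm_le_left (zpowers_le.2 h.1)).trans inf_le_left)) (sup_le (commutator_mono le_top le_top)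
      (iSup_le fun Q => iSup_le fun _ => iSup_le fun x => iSup_le fun h => commutator_mono le_top le_top)))
  rw [inf_comm, H2.sylow_commutator_inf_eq_foc]
  refine foc_le_of_tame hP le_sup_left fun D ⟨Q, q1, q2, q3, q4⟩ x hx px => le_sup_of_le_right ?_
  subst q2
  obtain ⟨k, hk⟩ := IsPGroup.iff_card.1 px
  exact le_iSup_of_le q1.toSylowTop (le_iSup_of_le ⟨q3.not_dvd, q4.not_dvd⟩ (le_iSup_of_le x (le_iSup_of_le
    ⟨hx, k, by rw [← hk, card_zpowers_eq]⟩ le_rfl)))

end Cfsg.Agent.S4250
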