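import Cfsg.Statements.S4251
import Cfsg.Agent.H7.Tk7

set_option autoImplicit false
open Cfsg

namespace Cfsg.Agent.S4251
open H7
open scoped commutatorElement

/-- Let P be a Sylow p-subgroup of a finite group G. Call an intersection H = P ∩ Q with a Sylow p-subgroup Q tame when N_P(H) and N_Q(H) are Sylow p-subgroups of N_G(H). If N_G(H)/C_G(H) is a p-group for every nontrivial tame intersection H = P ∩ Q, then G has a normal p-complement. -/
theorem result {G : Type*} [Group G] [Finite G] (p : ℕ) [Fact p.Prime] (P : Sylow p G)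
    (h : ∀ Q : Sylow p G, (P : Subgroup G) ⊓ (Q : Subgroup G) ≠ ⊥ → (¬ p ∣ ((P : Subgroup G) ⊓ Subgroup.normalizer (((P : Subgroup G) ⊓ (Q : Subgroup G) : Subgroup G) : Set G)).relIndex (Subgroup.normalizer (((P : Subgroup G) ⊓ (Q : Subgroup G) : Subgroup G) : Set G)) ∧ ¬ p ∣ ((Q : Subgroup G) ⊓ Subgroup.normalizer (((P : Subgroup G) ⊓ (Q : Subgroup G) : Subgroup G) : Set G)).relIndex (Subgroup.normalizer (((P : Subgroup G) ⊓ (Q : Subgroup G) : Subgroup G) : Set G))) →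
      IsPGroup p (Subgroup.normalizer (((P : Subgroup G) ⊓ (Q : Subgroup G) : Subgroup G) : Set G) ⧸
        (Subgroup.centralizer (((P : Subgroup G) ⊓ (Q : Subgroup G) : Subgroup G) : Set G)).subgroupOf
          (Subgroup.normalizer (((P : Subgroup G) ⊓ (Q : Subgroup G) : Subgroup G) : Set G)))) :
    Cfsg.HasNormalPComplement p G := by
  open Subgroup in
  have hP := H2.sylow_isSylowIn_top P
  have b : ∀ D, Tame p P D → ∀ x ∈ normalizer (D : Set G), ∃ u ∈ P, ∀ a ∈ D, x⁻¹ * a * x = u⁻¹ * a * u := by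
    rintro _ ⟨Q, q1, rfl, q3, q4⟩ x hx
    by_cases e : (P : Subgroup G) ⊓ Q = ⊥
    · exact ⟨1, one_mem _, fun a ha => by simp [mem_bot.1 (e.le ha)]⟩
    have := h q1.toSylowTop e ⟨q3.not_dvd, q4.not_dvd⟩
    obtain ⟨c, hc, s, hs, rfl⟩ := H2.AutIsP.decomp (fun g hg hc => by
      obtain ⟨k, hk⟩ := this (QuotientGroup.mk ⟨g, hg⟩)
      have := H2.eq_one_of_coprime_of_pow hk (hc.coprime_dvd_left
        ((orderOf_map_dvd (QuotientGroup.mk' _) _).trans (Subgroup.orderOf_mk g hg).dvd))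
      rw [QuotientGroup.eq_one_iff] at this
      exact this) q3 hx
    exact ⟨s, hs.1, fun a ha => by rw [mul_inv_rev, mul_assoc, mul_assoc, ← mul_assoc a, hc a ha]; group⟩
  refine H2.hasNPC_of_controls_fusion P fun x hx g hg => ?_
  obtain ⟨u, hu, e⟩ := alperin_tame hP (Ψ := fun D g => ∃ u ∈ P, ∀ a ∈ D, g⁻¹ * a * g = u⁻¹ * a * u)
    (fun ⟨u, a, b⟩ l => ⟨u, a, fun x c => b x (l c)⟩)
    (fun {D g w} ⟨u, a, b⟩ ⟨v, c, d⟩ => ⟨u * v, mul_mem a c, fun x k => by
      have := d (g⁻¹ * x * g) (mem_cj_inv.2 (by simpa [mul_assoc] using k))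
      rw [mul_inv_rev, mul_inv_rev, mul_assoc, mul_assoc, mul_assoc, mul_assoc v⁻¹, ← mul_assoc x, ← mul_assoc x,
        ← mul_assoc g⁻¹, ← mul_assoc u⁻¹, ← mul_assoc g⁻¹, ← mul_assoc u⁻¹, ← b x k, ← mul_assoc, this, mul_assoc]⟩)
    (fun {D g} ⟨u, a, b⟩ => ⟨u⁻¹, inv_mem a, fun x k => by
      have := b _ (mem_cj_inv.1 k)
      rw [show g⁻¹ * (g * x * g⁻¹) * g = x by group] at this
      rw [inv_inv, inv_inv]; nth_rw 2 [this]; group⟩)
    (b P (tame_self hP)) (fun D a x c _ => b D a x c) (Q := zpowers x) (g := g⁻¹) (zpowers_le.2 hx)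
    (by rw [inv_inv, cj_zpowers]; exact zpowers_le.2 hg)
  exact ⟨u⁻¹, inv_mem hu, by simpa using (e x (mem_zpowers x)).symm⟩

end Cfsg.Agent.S4251
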