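import Cfsg.Statements.S4261
import Mathlib
import Cfsg.Agent.H8.Misc1

set_option autoImplicit false
open Cfsg

namespace Cfsg.Agent.S4261

/-- Let M be a maximal subgroup of a finite solvable group G such that x^[G : M] lies in M for every x in G. Then M is normal in G. -/
theorem result {G : Type*} [Group G] [Finite G] (hG : Group.IsSolvable G) (M : Subgroup G) (hM : IsCoatom M)
    (hexp : ∀ x : G, x ^ M.index ∈ M) : M.Normal := by
  obtain ⟨p, k, hp, hk, hpk⟩ := (isPrimePow_nat_iff _).1 (H8.isPrimePow_index_of_isCoatom hM)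
  haveI := Fact.mk hp
  -- G / core(M) is a p-group
  have hP : IsPGroup p (G ⧸ M.normalCore) := by
    intro y
    obtain ⟨x, rfl⟩ := QuotientGroup.mk_surjective y
    refine ⟨k, ?_⟩
    rw [← QuotientGroup.mk_pow, QuotientGroup.eq_one_iff, hpk]
    intro g
    have := hexp (g * x * g⁻¹)
    rwa [conj_pow] at this
  have hc := H8.isCoatom_map_of_surjective (QuotientGroup.mk'_surjective M.normalCore) hM
    (by simpa using M.normalCore_le)
  haveI := hP.isNilpotent
  have hn := H1.normal_of_isCoatom_of_isNilpotent hc
  have := hn.comap (QuotientGroup.mk' M.normalCore)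
  rwa [Subgroup.comap_map_eq, QuotientGroup.ker_mk', sup_eq_left.2 M.normalCore_le] at this

end Cfsg.Agent.S4261
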