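import Cfsg.Statements.S4262
import Mathlib
import Cfsg.Agent.H8.MaxNil
import Cfsg.Agent.H8.Cls2

set_option autoImplicit false
open Cfsg

namespace Cfsg.Agent.S4262

open H8 H7 Subgroup

/-- Let G be a finite group in which the centralizer of every non-central element is a maximal subgroup of G. Then G is solvable. -/
theorem result {G : Type*} [Group G] [Finite G]
    (h : ∀ g : G, g ∉ Subgroup.center G → IsCoatom (Subgroup.centralizer ({g} : Set G))) :
    Group.IsSolvable G := by
  by_cases hh : ∀ p : ℕ, p.Prime → p ≠ 2 → ∀ x : G, IsPGroup p (zpowers x) → x ∈ center G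
  · obtain ⟨S, hS⟩ := H2.exists_isSylowIn 2 (⊤ : Subgroup G)
    have h1 : ⊤ ≤ S ⊔ center G := le_of_sylows_le fun p hp _ => by
      by_cases e : p = 2
      · exact ⟨S, e ▸ hS, le_sup_left⟩
      haveI := Fact.mk hp
      obtain ⟨P, hP⟩ := H2.exists_isSylowIn p (⊤ : Subgroup G)
      exact ⟨P, hP, fun x hx => mem_sup_right (hh p hp e x (hP.isPGroup.to_le (zpowers_le.2 hx)))⟩
    have := solv_of_le h1 (solv_sup (le_nrm_of_normal _ _) (solv_of_isPGroup hS.isPGroup)
      (solv_of_comm inferInstance))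
    exact Group.isSolvable_of_surjective (f := (⊤ : Subgroup G).subtype) fun g => ⟨⟨g, trivial⟩, rfl⟩
  push Not at hh
  obtain ⟨p, hp, hp2, x, hx, hxc⟩ := hh
  haveI := Fact.mk hp
  have h1 : ∀ (r : ℕ) (R : Subgroup G), r.Prime → r ≠ p → IsSylowIn r R (cen1 x) → R ≤ cen (cen1 x) :=
    fun r R hr hrp hR w hw => by
      haveI := Fact.mk hr
      rw [← le_cen1_iff]
      by_cases hwc : w ∈ center G
      · rw [index_eq_one.1 (index_cen1_eq_one.2 hwc)]; exact le_top
      obtain ⟨k, hk⟩ := H2.orderOf_eq_pow_of_mem hR.isPGroup hw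
      have e := cen1_mul (mem_cen1.1 (hR.le hw)).symm (by
        obtain ⟨j, hj⟩ := H2.orderOf_eq_pow_of_mem hx (mem_zpowers x)
        rw [hk, hj]; exact Nat.coprime_pow_primes _ _ hp hr hrp.symm)
      have e1 := h (x * w) fun e' => (h x hxc).1 (eq_top_iff.2
        ((index_eq_one.1 (index_cen1_eq_one.2 e')).ge.trans (e.le.trans inf_le_left)))
      change IsCoatom (cen1 (x * w)) at e1
      rw [e] at e1
      exact ((e1.le_iff.1 inf_le_left).resolve_left (h x hxc).1).le.trans inf_le_right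
  obtain ⟨S, hS⟩ := H2.exists_isSylowIn 2 (cen1 x)
  refine solv_of_coatom (h x hxc) (nilp_of_sylow_normal fun r hr R hR => ?_) hS
    (isComm_iff.2 ((h1 2 S Nat.prime_two hp2.symm hS).trans (cen_anti hS.le)))
  by_cases e : r = p
  · subst e
    refine le_of_sylows_le fun q hq _ => ?_
    by_cases e : q = r
    · exact ⟨R, e ▸ hR, le_nrm_self R⟩
    haveI := Fact.mk hq
    obtain ⟨Q, hQ⟩ := H2.exists_isSylowIn q (cen1 x)
    exact ⟨Q, hQ, (h1 q Q hq e hQ).trans ((cen_anti hR.le).trans (cen_le_nrm R))⟩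
  · exact (le_cen_symm (h1 r R hr e hR)).trans (cen_le_nrm R)

end Cfsg.Agent.S4262
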