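import Cfsg.Statements.S4263
import Mathlib
import Cfsg.Agent.H8.Misc1

set_option autoImplicit false
open Cfsg

namespace Cfsg.Agent.S4263

/-- Let G be a finite group. An element x lies in the Fitting subgroup F(G) if and only if, for every subgroup H of G, the power x^[G : H] lies in H. -/
theorem result {G : Type*} [Group G] [Finite G] (x : G) :
    x ∈ Cfsg.fittingSubgroup G ↔ ∀ H : Subgroup G, x ^ H.index ∈ H := by
  constructor
  · intro hx H
    have h1 := H8.pow_index_mem_of_isSubnormal
      (H8.isSubnormal_of_isNilpotent (H.subgroupOf (Cfsg.fittingSubgroup G))) ⟨x, hx⟩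
    rw [Subgroup.mem_subgroupOf] at h1
    obtain ⟨k, hk⟩ := H8.relIndex_dvd_index_of_normal_right H (Cfsg.fittingSubgroup G)
    rw [hk, pow_mul]
    exact H.pow_mem h1 k
  · intro h
    apply H8.mem_of_forall_prime_pow_mem
    intro p hp
    haveI := Fact.mk hp
    obtain ⟨P⟩ : Nonempty (Sylow p G) := inferInstance
    refine ⟨(P : Subgroup G).index, P.not_dvd_index, H1.pCore_le_fitting (p := p) ?_⟩
    rw [H1.pCore_eq_iInf_sylow, Subgroup.mem_iInf]
    intro Q
    have : (P : Subgroup G).index = (Q : Subgroup G).index := by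
      have h1 := (P : Subgroup G).card_mul_index
      have h2 := (Q : Subgroup G).card_mul_index
      rw [P.card_eq_multiplicity] at h1
      rw [Q.card_eq_multiplicity] at h2
      exact Nat.eq_of_mul_eq_mul_left (pow_pos hp.pos _) (h1.trans h2.symm)
    rw [this]; exact h Q

end Cfsg.Agent.S4263
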