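import Cfsg.Statements.S4269
import Cfsg.Agent.H7.Tk7

set_option autoImplicit false
open Cfsg

namespace Cfsg.Agent.S4269
open H7
open scoped commutatorElement

/-- Let G be a finite group, V an abelian normal subgroup and H a subgroup with HV = G. Then H is pronormal in G (H and gHg⁻¹ are conjugate inside the subgroup they generate, for every g) if and only if every H-invariant subgroup U of V satisfies U = N_U(H)·[H, U], that is, U is the join of U ∩ N_G(H) and the commutator subgroup [H, U]. -/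
theorem result {G : Type*} [Group G] [Finite G]
    (V : Subgroup G) [V.Normal] (hV : IsMulCommutative ↥V) (H : Subgroup G) (hHV : H ⊔ V = ⊤) :
    Cfsg.IsPronormal H ↔
      ∀ U : Subgroup G, U ≤ V → (∀ h ∈ H, U.map (MulAut.conj h).toMonoidHom = U) →
        U = (U ⊓ Subgroup.normalizer (H : Set G)) ⊔ ⁅H, U⁆ := by
  open Subgroup in
  have nV : ∀ X : Subgroup G, X ≤ normalizer (V : Set G) := fun X => le_nrm_of_normal _ _
  have cV := isComm_iff.1 hV
  have key : ∀ v ∈ V, H ⊔ H2.cj v H = H ⊔ ⁅H, zpowers v⁆ := fun v hv => by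
    refine le_antisymm (sup_le le_sup_left fun x hx => ?_) (sup_le le_sup_left ?_)
    · obtain ⟨h, hh, rfl⟩ := hx
      have : (MulAut.conj v).toMonoidHom h = ⁅h, v⁆⁻¹ * h := by simp [commutatorElement_def, mul_assoc]
      rw [this]
      exact mul_mem (inv_mem (mem_sup_right (commutator_mem_commutator hh (mem_zpowers v)))) (mem_sup_left hh)
    · have e : H ⊔ V ⊓ (H ⊔ H2.cj v H) = H ⊔ H2.cj v H := by
        rw [← modular (nV _) le_sup_left, hHV, top_inf_eq]
      rw [commutator_comm]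
      refine comm_le_of_le_nrm le_sup_left (zpowers_le.2 (mem_nrm_of_cj_le ?_))
      conv_lhs => rw [← e, H2.cj_sup]
      exact sup_le le_sup_right ((cj_of_mem_nrm (le_nrm_of_le_cen (cV.trans (cen_anti inf_le_left)) hv)).le.trans inf_le_right)
  have dv : ∀ U ≤ V, H ≤ normalizer (U : Set G) → ⁅H, U⁆ ≤ U := fun U _ h => comm_le_of_le_nrm le_rfl h
  constructor
  · intro h U l hn
    have hn' : H ≤ normalizer (U : Set G) := fun x hx => mem_nrm_of_cj_le (hn x hx).le
    refine le_antisymm (fun u hu => ?_) (sup_le inf_le_left (dv U l hn'))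
    obtain ⟨x, hx, e⟩ := h u
    change H2.cj u H = H2.cj x H at e
    have hx' := sup_le_sup_left (commutator_mono le_rfl (zpowers_le.2 hu)) H ((key u (l hu)).le hx)
    obtain ⟨c, hc, y, hy, rfl⟩ := (mem_sup_nrm' (nrm_commutator (le_nrm_self H) hn')).1 (sup_comm H _ ▸ hx')
    rw [cj_mul, cj_of_mem_nrm (le_nrm_self H hy)] at e
    have : c⁻¹ * u ∈ normalizer (H : Set G) := mem_nrm_of_cj_le (by rw [cj_mul, e, cj_inv_cj])
    rw [← mul_inv_cancel_left c u]
    exact mul_mem (mem_sup_right hc) (mem_sup_left ⟨U.mul_mem (U.inv_mem (dv U l hn' hc)) hu, this⟩)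
  · intro h g
    obtain ⟨v, hv, y, hy, rfl⟩ := (mem_sup_nrm' (nV H)).1 (sup_comm H V ▸ hHV.ge (mem_top g))
    change ∃ x ∈ H ⊔ H2.cj (v * y) H, H2.cj (v * y) H = H2.cj x H
    rw [cj_mul, cj_of_mem_nrm (le_nrm_self H hy), key v hv]
    have lv := zpowers_le.2 hv
    have lC : ⁅H, zpowers v⁆ ≤ V := comm_le_of_le_nrm lv (nV _)
    have nC : H ≤ normalizer ((⁅H, zpowers v⁆ : Subgroup G) : Set G) := le_nrm_comm_left _ _
    have cU : ⁅H, zpowers v ⊔ ⁅H, zpowers v⁆⁆ ≤ ⁅H, zpowers v⁆ :=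
      comm_sup_le' (le_nrm_comm_right _ _) (le_nrm_self _) le_rfl (comm_le_of_le_nrm le_rfl nC)
    have nU : H ≤ normalizer ((zpowers v ⊔ ⁅H, zpowers v⁆ : Subgroup G) : Set G) :=
      le_nrm_of_comm_le ((commutator_comm _ _).le.trans (cU.trans le_sup_right))
    have := (h _ (sup_le lv lC) fun x hx => cj_of_mem_nrm (nU hx)).le (mem_sup_left (mem_zpowers v))
    have lU := sup_le lv lC
    generalize zpowers v ⊔ ⁅H, zpowers v⁆ = U at *
    obtain ⟨c, hc, n, hn, e⟩ := (mem_sup_nrm' (le_nrm_of_le_cen (((inf_le_left (b := normalizer (H : Set G))).trans lU).trans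
      (cV.trans (cen_anti (cU.trans lC)))))).1 (sup_comm _ ⁅H, U⁆ ▸ this)
    exact ⟨c, mem_sup_right (cU hc), by rw [← e, cj_mul, cj_of_mem_nrm hn.2]⟩

end Cfsg.Agent.S4269
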