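import Cfsg.Statements.S4270
import Cfsg.Agent.H7.Tk7

set_option autoImplicit false
open Cfsg

namespace Cfsg.Agent.S4270
open H7
open scoped commutatorElement

section
open Subgroup

def PN {G : Type*} [Group G] (H K : Subgroup G) : Prop := ∀ g ∈ K, ∃ x ∈ H ⊔ H2.cj g H, H2.cj g H = H2.cj x H
def XP (p : ℕ) {G : Type*} [Group G] (K : Subgroup G) : Prop :=
  ∀ H ≤ K, (∃ P, H2.IsSylowIn p P K ∧ P ≤ H) → PN H K
variable {G G' : Type*} [Group G] [Group G'] [Finite G] {p : ℕ} [Fact p.Prime] {H K L D T : Subgroup G}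

theorem xp_top : (∀ K : Subgroup G, (∃ P : Sylow p G, (P : Subgroup G) ≤ K) → Cfsg.IsPronormal K) ↔
    XP p (⊤ : Subgroup G) :=
  ⟨fun h K _ ⟨_, a, b⟩ g _ => h K ⟨a.toSylowTop, b⟩ g,
    fun h K ⟨P, b⟩ g => h K le_top ⟨P, H2.sylow_isSylowIn_top P, b⟩ g (mem_top g)⟩

omit [Finite G] in
theorem PN.im {f : D →* G'} (h : PN H K) (l : H ≤ K) (hK : K ≤ D) : PN (im f H) (im f K) := fun y hy => by
  obtain ⟨g, hg, rfl⟩ := (mem_im_of_le hK).1 hy
  obtain ⟨x, hx, e⟩ := h g hg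
  have l2 := (cj_le_of_mem hg l).trans hK
  refine ⟨ev f x, ?_, ?_⟩
  · rw [← im_cj (hK hg), ← im_sup (l.trans hK) l2]; exact ev_mem_im hx
  · rw [← im_cj (hK hg), e, im_cj (sup_le (l.trans hK) l2 hx)]

omit [Finite G] in
theorem PN.of_im {f : D →* G'} (h : PN (H7.im f H) (H7.im f K)) (l : H ≤ K) (hK : K ≤ D) (g : G) (hg : g ∈ K) :
    ∃ x ∈ H ⊔ H2.cj g H, H2.cj g H ⊔ kr f = H2.cj x H ⊔ kr f := by
  obtain ⟨y, hy, e⟩ := h _ (ev_mem_im hg)
  have l2 := (cj_le_of_mem hg l).trans hK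
  rw [← im_cj (hK hg), ← im_sup (l.trans hK) l2] at hy
  have l3 := sup_le (l.trans hK) l2
  obtain ⟨x, hx, rfl⟩ := (mem_im_of_le l3).1 hy
  refine ⟨x, hx, ?_⟩
  rw [← im_cj (hK hg), ← im_cj (l3 hx)] at e
  rw [← pre_im l2, e, pre_im (cj_le_of_mem (l3 hx) (l.trans hK))]

theorem XP.im [Finite G'] {f : D →* G'} (h : XP p K) (hK : K ≤ D) : XP p (im f K) := fun H l ⟨P, a, b⟩ => by
  obtain ⟨Q, c, rfl⟩ := exists_syl_im hK a
  have e : H7.im f (K ⊓ pre f H) = H := le_antisymm ((im_mono _ inf_le_right).trans (im_pre_le _ _)) fun y hy => by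
    obtain ⟨x, hx, rfl⟩ := (mem_im_of_le hK).1 (l hy)
    exact ev_mem_im ⟨hx, mem_pre.2 ⟨hK hx, hy⟩⟩
  rw [← e]
  exact (h _ inf_le_left ⟨Q, c, le_inf c.le ((im_le_iff (c.le.trans hK)).1 b)⟩).im inf_le_left hK

theorem XP.of_im [Finite G'] {f : D →* G'} (h : XP p (H7.im f K)) (hK : K ≤ D) (hk : IsPGroup p (kr f)) (l : kr f ≤ K) :
    XP p K := fun H a ⟨P, b, c⟩ g hg => by
  obtain ⟨x, hx, e⟩ := (h _ (im_mono _ a) ⟨_, syl_im b hK f, im_mono _ c⟩).of_im a hK g hg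
  have n : D ≤ normalizer (kr f : Set G) := le_nrm_kr f
  have k : kr f ≤ H := (b.le_of_normal hk l ((b.le.trans hK).trans n)).trans c
  have k2 : ∀ y ∈ K, kr f ≤ H2.cj y H := fun y hy => (cj_of_mem_nrm (n (hK hy))).ge.trans (cj_mono y k)
  have hx' := sup_le a (cj_le_of_mem hg a) hx
  exact ⟨x, hx, by rwa [sup_eq_left.2 (k2 g hg), sup_eq_left.2 (k2 x hx')] at e⟩

theorem xp_sub : (∀ L : Subgroup K, (∃ P : Sylow p K, (P : Subgroup K) ≤ L) → Cfsg.IsPronormal L) ↔ XP p K := by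
  have e : H7.im (MonoidHom.id K) K = ⊤ := by rw [im_id, subgroupOf_self]
  have k : kr (MonoidHom.id K) = ⊥ := by rw [kr, MonoidHom.ker_id, Subgroup.map_bot]
  rw [xp_top, ← e]
  exact ⟨fun h => h.of_im le_rfl (k ▸ IsPGroup.of_bot) (k ▸ bot_le), fun h => h.im le_rfl⟩

theorem main (A : Subgroup G) [A.Normal] (hA : XP p A) (hT : H2.IsSylowIn p T A) (hN : XP p (normalizer (T : Set G)))
    (h : ∀ K : Subgroup G, (∃ P, H2.IsSylowIn p P ⊤ ∧ P ≤ K) → ∀ g, ∃ x ∈ K ⊔ H2.cj g K, ∃ a ∈ A,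
      H2.cj g K = H2.cj (x * a) K) : XP p (⊤ : Subgroup G) := by
  have nA : ∀ X : Subgroup G, X ≤ normalizer (A : Set G) := fun X => le_nrm_of_normal _ _
  have red : ∀ (H : Subgroup G) g x y, x ∈ H ⊔ H2.cj g H → H2.cj g H = H2.cj (x * y) H →
      (∃ z ∈ H ⊔ H2.cj y H, H2.cj y H = H2.cj z H) → ∃ z ∈ H ⊔ H2.cj g H, H2.cj g H = H2.cj z H := by
    rintro H g x y hx e ⟨z, hz, e2⟩
    have : H2.cj y H = H2.cj x⁻¹ (H2.cj g H) := by rw [e, cj_mul, cj_inv_cj]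
    have l : H ⊔ H2.cj y H ≤ H ⊔ H2.cj g H := sup_le le_sup_left (this ▸ cj_le_of_mem (inv_mem hx) le_sup_right)
    exact ⟨x * z, mul_mem hx (l hz), by rw [e, cj_mul, cj_mul, e2]⟩
  have key : ∀ H P : Subgroup G, H2.IsSylowIn p P ⊤ → P ≤ H → P ⊓ A = T → PN H ⊤ := fun H P sP l e g _ => by
    obtain ⟨x, hx, a, ha, e1⟩ := h H ⟨P, sP, l⟩ g
    refine red H g x a hx e1 ?_
    have lT : T ≤ H ⊓ A := e ▸ inf_le_inf_right _ l
    obtain ⟨y, hy, e2⟩ := hA _ inf_le_right ⟨T, hT, lT⟩ a ha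
    have sT := hT.mono lT inf_le_right
    have n1 : y⁻¹ * a ∈ normalizer ((H ⊓ A : Subgroup G) : Set G) := mem_nrm_of_cj_le (by rw [cj_mul, e2, cj_inv_cj])
    obtain ⟨d, hd, n2⟩ := sT.frattini n1
    have n3 := mul_mem (le_nrm_self _ hd) n1
    refine red H a (y * d⁻¹) (d * (y⁻¹ * a)) (mul_mem (sup_le_sup inf_le_left (cj_mono a inf_le_left) hy)
      (mem_sup_left (inv_mem hd.1))) (by congr 1; group) ?_
    generalize d * (y⁻¹ * a) = w at *
    have lP : P ≤ normalizer (T : Set G) := e ▸ nrm_inf (le_nrm_self P) (nA P)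
    obtain ⟨z, hz, e3⟩ := hN (H ⊓ normalizer (T : Set G)) inf_le_right ⟨P, sP.mono lP le_top, le_inf l lP⟩ w n2
    have nH : H ≤ normalizer ((H ⊓ A : Subgroup G) : Set G) := nrm_inf (le_nrm_self H) (nA H)
    have n4 := sup_le (inf_le_left.trans nH) (cj_le_of_mem n3 (inf_le_left.trans nH)) hz
    have eH : H = H ⊓ A ⊔ H ⊓ normalizer (T : Set G) := le_antisymm (fun u hu => by
      obtain ⟨v, hv, n5⟩ := sT.frattini (nH hu)
      rw [← inv_mul_cancel_left v u]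
      exact mul_mem (mem_sup_left (inv_mem hv)) (mem_sup_right ⟨mul_mem hv.1 hu, n5⟩)) (sup_le inf_le_left inf_le_left)
    refine ⟨z, sup_le_sup inf_le_left (cj_mono w inf_le_left) hz, ?_⟩
    rw [eH, H2.cj_sup, H2.cj_sup, e3, cj_of_mem_nrm n3, cj_of_mem_nrm n4]
  intro H _ ⟨P, sP, l⟩ g _
  obtain ⟨a, -, e⟩ := (syl_inf sP le_top (nA _)).exists_cj_eq hT
  obtain ⟨x, hx, e2⟩ := key (H2.cj a H) (H2.cj a P) (syl_cj_of_mem sP (le_nrm_self _ (mem_top a))) (cj_mono a l)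
    (by rw [← e, cj_inf, cj_normal a A]) (a * g * a⁻¹) (mem_top _)
  rw [← cj_mul, inv_mul_cancel_right, cj_mul] at hx e2
  rw [← H2.cj_sup] at hx
  refine ⟨a⁻¹ * x * a, by simpa using H2.mem_cj.1 hx, ?_⟩
  rw [cj_mul, cj_mul, ← e2, cj_inv_cj]
theorem xp_quo (hT : IsPGroup p T) : (∀ K : Subgroup (Quo T), (∃ P : Sylow p (Quo T), (P : Subgroup (Quo T)) ≤ K) →
    Cfsg.IsPronormal K) ↔ XP p (normalizer (T : Set G)) := by
  rw [xp_top, ← im_qm_dom T]
  exact ⟨fun h => h.of_im le_rfl ((kr_qm T).symm ▸ hT) ((kr_qm T).symm ▸ le_nrm_self T), fun h => h.im le_rfl⟩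

theorem xp_nrm (A : Subgroup G) [A.Normal] (hT : H2.IsSylowIn p T A) (h : XP p (⊤ : Subgroup G)) :
    XP p (normalizer (T : Set G)) := fun H _ ⟨P, a, b⟩ g _ => by
  refine h H le_top ⟨P, a.trans le_top fun d => ?_, b⟩ g (mem_top g)
  obtain ⟨S, sS, l⟩ := H2.exists_isSylowIn_ge hT.isPGroup (le_top (a := T))
  have e := hT.eq_of_le sS.isPGroup.to_inf_left (le_inf l hT.le) inf_le_right
  exact sS.not_dvd (d.trans (relIndex_dvd_of_le_left _ (e ▸ nrm_inf (le_nrm_self S) (le_nrm_of_normal S A))))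

end

/-- Let p be a prime and G a finite group with a normal subgroup A such that, both in A and in G/A, every subgroup containing a Sylow p-subgroup of that group is pronormal in that group. Let T be a Sylow p-subgroup of A. Then every subgroup of G containing a Sylow p-subgroup of G is pronormal in G if and only if (i) every subgroup of N_G(T)/T containing a Sylow p-subgroup of N_G(T)/T is pronormal there, and (ii) for every subgroup H of G containing a Sylow p-subgroup of G, the image of N_G(H) in G/A is the full normalizer of the image of H. (Pronormal: H and gHg⁻¹ are conjugate inside the subgroup they generate, for every g.) -/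
theorem result {G : Type*} [Group G] [Finite G] {p : ℕ} [Fact p.Prime]
    (A : Subgroup G) [A.Normal] (hA : (∀ K : Subgroup ↥A, (∃ P : Sylow p ↥A, (P : Subgroup ↥A) ≤ K) → Cfsg.IsPronormal K)) (hQ : (∀ K : Subgroup (G ⧸ A), (∃ P : Sylow p (G ⧸ A), (P : Subgroup (G ⧸ A)) ≤ K) → Cfsg.IsPronormal K))
    (T : Subgroup G) (hT : ∃ P : Sylow p ↥A, (P : Subgroup ↥A).map A.subtype = T) [(T.subgroupOf (Subgroup.normalizer (T : Set G))).Normal] :
    (∀ K : Subgroup G, (∃ P : Sylow p G, (P : Subgroup G) ≤ K) → Cfsg.IsPronormal K) ↔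
      ((∀ K : Subgroup (↥(Subgroup.normalizer (T : Set G)) ⧸ T.subgroupOf (Subgroup.normalizer (T : Set G))), (∃ P : Sylow p (↥(Subgroup.normalizer (T : Set G)) ⧸ T.subgroupOf (Subgroup.normalizer (T : Set G))), (P : Subgroup (↥(Subgroup.normalizer (T : Set G)) ⧸ T.subgroupOf (Subgroup.normalizer (T : Set G)))) ≤ K) → Cfsg.IsPronormal K) ∧
        ∀ K : Subgroup G, (∃ P : Sylow p G, (P : Subgroup G) ≤ K) →
          (Subgroup.normalizer (K : Set G)).map (QuotientGroup.mk' A) = Subgroup.normalizer ((K.map (QuotientGroup.mk' A) : Subgroup (G ⧸ A)) : Set (G ⧸ A))) := by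
  open Subgroup in
  obtain ⟨P₀, rfl⟩ := hT
  have hT := H2.isSylowIn_map_subtype P₀
  generalize (P₀ : Subgroup A).map A.subtype = T at *
  rw [xp_top]
  refine ⟨fun h => ⟨(xp_quo hT.isPGroup).2 (xp_nrm A hT h), fun K ⟨P, l⟩ => le_antisymm ?_ fun y hy => ?_⟩,
    fun ⟨h1, h2⟩ => main A (xp_sub.1 hA) hT ((xp_quo hT.isPGroup).1 h1) fun K ⟨P, sP, l⟩ g => ?_⟩
  · exact Subgroup.le_normalizer_map _
  · obtain ⟨g, rfl⟩ := QuotientGroup.mk'_surjective A y
    obtain ⟨x, hx, e⟩ := h K le_top ⟨P, H2.sylow_isSylowIn_top P, l⟩ g (mem_top g)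
    have m := mem_map_of_mem (QuotientGroup.mk' A) hx
    rw [Subgroup.map_sup, cj_map, cj_of_mem_nrm hy, sup_idem] at m
    have n : x⁻¹ * g ∈ normalizer (K : Set G) := mem_nrm_of_cj_le (by rw [cj_mul, e, cj_inv_cj])
    rw [← mul_inv_cancel_left x g, map_mul]
    exact mul_mem (map_mono (le_nrm_self K) m) (mem_map_of_mem _ n)
  · obtain ⟨y, hy, e⟩ := hQ (K.map (QuotientGroup.mk' A)) ⟨sP.toSylowTop.mapSurjective (QuotientGroup.mk'_surjective A),
      map_mono l⟩ (QuotientGroup.mk' A g)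
    change _ ∈ _ ⊔ H2.cj _ _ at hy
    change H2.cj _ _ = H2.cj _ _ at e
    rw [← cj_map, ← Subgroup.map_sup] at hy
    obtain ⟨x, hx, rfl⟩ := hy
    have n : (QuotientGroup.mk' A x)⁻¹ * QuotientGroup.mk' A g ∈ normalizer ((K.map (QuotientGroup.mk' A) : Subgroup _) : Set _) :=
      mem_nrm_of_cj_le (by rw [cj_mul, e, cj_inv_cj])
    rw [← h2 K ⟨sP.toSylowTop, l⟩] at n
    obtain ⟨u, hu, e2⟩ := n
    refine ⟨x, hx, x⁻¹ * g * u⁻¹, ?_, ?_⟩
    · rw [← QuotientGroup.eq_one_iff, ← QuotientGroup.mk'_apply, map_mul, map_mul, map_inv, map_inv, ← e2, mul_inv_cancel]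
    · rw [mul_assoc, mul_inv_cancel_left, cj_mul, cj_of_mem_nrm (inv_mem hu)]

end Cfsg.Agent.S4270
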