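import Cfsg.Statements.S4271
import Cfsg.Agent.S4270

set_option autoImplicit false
open Cfsg

namespace Cfsg.Agent.S4271
open H7
open scoped commutatorElement

/-- Let p be a prime and G a finite group with a normal subgroup A such that every subgroup of A containing a Sylow p-subgroup of A is pronormal in A, and the Sylow p-subgroups of G/A are self-normalizing. Let T be a Sylow p-subgroup of A. Then every subgroup of G containing a Sylow p-subgroup of G is pronormal in G if and only if every subgroup of N_G(T)/T containing a Sylow p-subgroup of N_G(T)/T is pronormal in N_G(T)/T. (Pronormal: H and gHg⁻¹ are conjugate inside the subgroup they generate, for every g.) -/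
theorem result {G : Type*} [Group G] [Finite G] {p : ℕ} [Fact p.Prime]
    (A : Subgroup G) [A.Normal] (hA : (∀ K : Subgroup ↥A, (∃ P : Sylow p ↥A, (P : Subgroup ↥A) ≤ K) → Cfsg.IsPronormal K))
    (hQ : ∀ P : Sylow p (G ⧸ A), Subgroup.normalizer ((P : Subgroup (G ⧸ A)) : Set (G ⧸ A)) = P)
    (T : Subgroup G) (hT : ∃ P : Sylow p ↥A, (P : Subgroup ↥A).map A.subtype = T) [(T.subgroupOf (Subgroup.normalizer (T : Set G))).Normal] :
    (∀ K : Subgroup G, (∃ P : Sylow p G, (P : Subgroup G) ≤ K) → Cfsg.IsPronormal K) ↔ (∀ K : Subgroup (↥(Subgroup.normalizer (T : Set G)) ⧸ T.subgroupOf (Subgroup.normalizer (T : Set G))), (∃ P : Sylow p (↥(Subgroup.normalizer (T : Set G)) ⧸ T.subgroupOf (Subgroup.normalizer (T : Set G))), (P : Subgroup (↥(Subgroup.normalizer (T : Set G)) ⧸ T.subgroupOf (Subgroup.normalizer (T : Set G)))) ≤ K) → Cfsg.IsPronormal K) := by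
  open Subgroup in
  have sn : ∀ K : Subgroup (G ⧸ A), (∃ P : Sylow p (G ⧸ A), (P : Subgroup (G ⧸ A)) ≤ K) → ∀ g, ∃ x ∈ K ⊔ H2.cj g K,
      x⁻¹ * g ∈ K := fun K ⟨P, l⟩ g => by
    have s := (H2.sylow_isSylowIn_top P).mono (l.trans (le_sup_left (b := H2.cj g K))) le_top
    obtain ⟨y, hy, e⟩ := s.exists_cj_le (isPGroup_cj.2 P.2) ((cj_mono g l).trans le_sup_right)
    rw [← cj_mul] at e
    exact ⟨y⁻¹, inv_mem hy, by rw [inv_inv]; exact l ((hQ P).le (mem_nrm_of_cj_le e))⟩
  rw [S4270.result A hA (fun K h g => ?_) T hT]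
  · refine and_iff_left fun K ⟨P, l⟩ => le_antisymm (Subgroup.le_normalizer_map _) fun y hy => ?_
    obtain ⟨x, hx, e⟩ := sn (K.map (QuotientGroup.mk' A)) ⟨P.mapSurjective (QuotientGroup.mk'_surjective A), map_mono l⟩ y
    rw [cj_of_mem_nrm hy, sup_idem] at hx
    exact map_mono (le_nrm_self K) ((Subgroup.mul_mem_cancel_left _ (inv_mem hx)).1 e)
  · obtain ⟨x, hx, e⟩ := sn K h g
    refine ⟨x, hx, ?_⟩
    change H2.cj g K = H2.cj x K
    rw [← mul_inv_cancel_left x g, cj_mul, cj_of_mem_nrm (le_nrm_self K e)]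

end Cfsg.Agent.S4271
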