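import Cfsg.Statements.S4291
import Mathlib
import Cfsg.Agent.H8.FC6

set_option autoImplicit false
open Cfsg

namespace Cfsg.Agent.S4291

open Subgroup H8 H7 H1B

theorem zg_inv {Q : Type*} [Group Q] [Finite Q] {K : Subgroup Q} (hK : IsZGroup K) {s t : Q}
    (hs : s ∈ K) (ht : t ∈ K) (s2 : s * s = 1) (t2 : t * t = 1) (s1 : s ≠ 1) (t1 : t ≠ 1)
    (e : s * t = t * s) : s = t := by
  let A := H4.four s t s2 t2 e
  have le : A ≤ K := by
    rintro x (rfl | rfl | rfl | rfl)
    exacts [one_mem _, hs, ht, mul_mem hs ht]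
  haveI := IsZGroup.of_injective (inclusion_injective le)
  have pA : IsPGroup 2 A := fun x => ⟨1, Subtype.ext (by
    obtain ⟨x, rfl | rfl | rfl | rfl⟩ := x
    · simp
    · simpa [sq] using s2
    · simpa [sq] using t2
    · show (s * t) ^ 2 = 1
      rw [Commute.mul_pow e, sq, sq, s2, t2, one_mul])⟩
  haveI : IsCyclic A := isCyclic_of_surjective _ topEquiv.surjective
    (hH := (pA.to_subgroup ⊤).isCyclic_of_isZGroup)
  obtain ⟨x, -, hx⟩ := H1.exists_zpowers_eq (K := A)
  exact inv_unique_zpowers (hx.ge (.inr (.inl rfl))) (hx.ge (.inr (.inr (.inl rfl))))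
    (ord2.2 ⟨s2, s1⟩) (ord2.2 ⟨t2, t1⟩)

/-- No non-trivial normal subgroup is a Z-group. -/
def NZ (Q : Type*) [Group Q] : Prop :=
  ∀ K : Subgroup Q, K.Normal → IsZGroup K → K = ⊥

theorem nz_of {Q : Type*} [Group Q] [Finite Q] {s g : Q} (s2 : s * s = 1) (s1 : s ≠ 1)
    (hg : s ≠ g * s * g⁻¹) (e : s * (g * s * g⁻¹) = g * s * g⁻¹ * s)
    (h : ∀ K : Subgroup Q, K.Normal → K ≠ ⊥ → s ∈ K) : NZ Q := fun K hn hK => by_contra fun h1 =>
  hg (zg_inv hK (h K hn h1) (hn.conj_mem _ (h K hn h1) g) s2 (by rw [conj_mul, s2]; simp) s1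
    (by simpa using s1) e)

theorem nz_a4 : NZ (alternatingGroup (Fin 4)) :=
  nz_of (s := H4.a4a) (g := H4.a4b) (by decide) (by decide) (by decide) (by decide) fun K hn h => by
    obtain ⟨⟨g, hg⟩, g1⟩ := ne_bot_iff_exists_ne_one.1 h
    obtain ⟨a, b, e | e⟩ := H4.a4_normal g fun e => g1 (Subtype.ext e) <;> rw [e]
    exacts [hn.conj_mem _ hg _, mul_mem (hn.conj_mem _ hg _) (hn.conj_mem _ (inv_mem hg) _)]

theorem nz_s4 : NZ (Equiv.Perm (Fin 4)) :=
  nz_of (s := (H4.s4a * H4.s4b) ^ 2) (g := H4.s4b) (by decide) (by decide) (by decide) (by decide)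
    fun K hn h => by
    obtain ⟨⟨g, hg⟩, g1⟩ := ne_bot_iff_exists_ne_one.1 h
    obtain ⟨a, b, e | e⟩ := H4.s4_normal g fun e => g1 (Subtype.ext e) <;> rw [e]
    exacts [hn.conj_mem _ hg _, mul_mem (hn.conj_mem _ hg _) (hn.conj_mem _ (inv_mem hg) _)]

theorem nz_s5 : NZ (Equiv.Perm (Fin 5)) :=
  nz_of (s := Equiv.swap 0 1 * Equiv.swap 2 3) (g := Equiv.swap 1 2) (by decide) (by decide)
    (by decide) (by decide) fun K hn h => Equiv.Perm.alternatingGroup_le_of_normal (by simp)
      ((nontrivial_iff_ne_bot _).2 h) (Equiv.Perm.mem_alternatingGroup.2 (by decide))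

theorem nz_a5 : NZ (alternatingGroup (Fin 5)) := fun K hn hK => by
  haveI := alternatingGroup.isSimpleGroup (α := Fin 5) (by simp)
  refine hn.eq_bot_or_eq_top.resolve_right fun e => ?_
  subst e
  have := zg_inv hK (s := ⟨Equiv.swap 0 1 * Equiv.swap 2 3,
      Equiv.Perm.mem_alternatingGroup.2 (by decide)⟩)
    (t := ⟨Equiv.swap 0 2 * Equiv.swap 1 3, Equiv.Perm.mem_alternatingGroup.2 (by decide)⟩)
    trivial trivial (by decide) (by decide) (by decide) (by decide) (by decide)
  exact absurd this (by decide)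

theorem big {G Q : Type*} [Group G] [Finite G] [Group Q] {f : G →* Q} (hf : Function.Surjective f)
    (h : NZ Q) (hc : 12 ≤ Nat.card Q) : 12 ≤ f.ker.index ∧
      ∀ K : Subgroup G, K.Normal → IsZGroup K → K ≤ f.ker :=
  ⟨by rwa [index_ker, MonoidHom.range_eq_top.2 hf, card_top], fun K hn hK =>
    (Subgroup.map_eq_bot_iff _).1 (h _ (hn.map f hf)
      (IsZGroup.of_surjective (f.subgroupMap_surjective K)))⟩

theorem four_le {G Q : Type*} [Group G] [Finite G] [Group Q] (h : FC G) (f : G →* Q)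
    (hQ : ∀ x : Q, x * x = 1) : f.ker.index ≤ 4 := by
  have hs := f.rangeRestrict_surjective
  haveI := Finite.of_surjective _ hs
  obtain ⟨P, hP'⟩ := H1.exists_isSylowIn 2 (⊤ : Subgroup G)
  have pP := hP'.isPGroup
  have hP : P.map f.rangeRestrict = ⊤ := by
    have := hP'.map f.rangeRestrict
    rw [map_top_of_surjective _ hs] at this
    exact (this.eq_of_le (fun x => ⟨1, Subtype.ext (Subtype.ext (by simpa [sq] using hQ _))⟩)
      le_rfl le_top).symm
  have o : ∀ a : G, Nat.card ((zpowers a).map f.rangeRestrict) ≤ 2 := fun a => by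
    rw [MonoidHom.map_zpowers, Nat.card_zpowers]
    exact Nat.le_of_dvd two_pos (orderOf_dvd_of_pow_eq_one (Subtype.ext (by simpa [sq] using hQ _)))
  rw [index_ker, ← card_top, ← hP]
  rcases (h.ui'.mono le_top).cyclic_or_quat pP with hc | ⟨a, n, hq⟩
  · obtain ⟨x, -, hx⟩ := H1.exists_zpowers_eq (K := P)
    exact (hx ▸ o x).trans (by norm_num)
  · have m := mx_of_Quat hq
    have e1 := relIndex_mul_card' (map_mono (f := f.rangeRestrict) m.le)
    have e2 := Nat.le_of_dvd two_pos (m.relIndex ▸ H1.relIndex_map_dvd f.rangeRestrict m.le)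
    have := o a
    rw [← e1]; nlinarith

/-- Let G be a finite group that occurs as a Frobenius complement. Then G has exactly one normal subgroup N such that every Sylow subgroup of N is cyclic and the quotient of G by N is trivial or isomorphic to one of the following five groups: the Klein four-group, the alternating group of degree 4, the symmetric group of degree 4, the alternating group of degree 5, the symmetric group of degree 5. (The quotient is described by a surjective homomorphism with kernel N; the Klein four-group is written as the dihedral group of order 4.) -/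
theorem result {G : Type*} [Group G] [Finite G]
    (hFC : (∃ (L : Type) (_ : Group L) (_ : Finite L) (H : Subgroup L), Cfsg.IsFrobeniusComplement H ∧ Nonempty (G ≃* H))) :
    ∃! N : Subgroup G, N.Normal ∧ (∀ (p : ℕ) [Fact p.Prime] (P : Sylow p N), IsCyclic P) ∧
      (N = ⊤ ∨
        (∃ f : G →* DihedralGroup 2, Function.Surjective f ∧ f.ker = N) ∨
        (∃ f : G →* alternatingGroup (Fin 4), Function.Surjective f ∧ f.ker = N) ∨
        (∃ f : G →* Equiv.Perm (Fin 4), Function.Surjective f ∧ f.ker = N) ∨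
        (∃ f : G →* alternatingGroup (Fin 5), Function.Surjective f ∧ f.ker = N) ∨
        (∃ f : G →* Equiv.Perm (Fin 5), Function.Surjective f ∧ f.ker = N)) := by
  have h := fc_of_frob hFC
  have zi : ∀ N : Subgroup G, (∀ (p : ℕ) [Fact p.Prime] (P : Sylow p N), IsCyclic P) ↔ IsZGroup N :=
    fun N => ⟨fun H => ⟨fun p hp P => haveI := Fact.mk hp; H p P⟩, fun _ _ _ _ => inferInstance⟩
  simp only [zi]
  refine existsUnique_of_exists_of_unique ?_ ?_
  · by_cases hs : Group.IsSolvable G
    · obtain ⟨N, hN, h1, h2⟩ := h.solv_cases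
      refine ⟨N, hN, h1, ?_⟩
      rcases h2 with h2 | h2 | ⟨f, h2, h3⟩
      · exact .inl h2
      · obtain ⟨e⟩ := IsKleinFour.nonempty_mulEquiv (G₁ := G ⧸ N) (G₂ := DihedralGroup 2)
        exact .inr (.inl ⟨e.toMonoidHom.comp (QuotientGroup.mk' N),
          e.surjective.comp (QuotientGroup.mk'_surjective N), by
            rw [MonoidHom.ker_comp_of_injective _ _ e.injective, QuotientGroup.ker_mk']⟩)
      · have e := f.range.card_mul_index
        rw [H4.card_sym4] at e
        obtain ⟨k, hk⟩ := h3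
        have : k * f.range.index = 2 := by rw [hk, mul_assoc] at e; omega
        rcases (Nat.dvd_prime Nat.prime_two).1 (Dvd.intro_left _ this) with e | e
        · exact .inr (.inr (.inr (.inl ⟨f, MonoidHom.range_eq_top.1 (index_eq_one.1 e), h2⟩)))
        · have e' := Equiv.Perm.eq_alternatingGroup_of_index_eq_two e
          exact .inr (.inr (.inl ⟨f.codRestrict _ fun x => e'.le ⟨x, rfl⟩, fun y =>
            let ⟨x, hx⟩ := e'.ge y.2; ⟨x, Subtype.ext hx⟩, by rwa [MonoidHom.ker_codRestrict]⟩))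
    · have hg := h.gold_of_not_solvable hs
      obtain ⟨f, h1, h2, -⟩ := h.exists_s5 hg
      refine ⟨_, inferInstance, h.isZ_cen hg, .inr (.inr (.inr (.inr ?_)))⟩
      have le : alternatingGroup (Fin 5) ≤ f.range := h2 ▸ map_le_range _ _
      have := index_dvd_of_le le
      rw [alternatingGroup.index_eq_two] at this
      rcases (Nat.dvd_prime Nat.prime_two).1 this with e | e
      · exact .inr ⟨f, MonoidHom.range_eq_top.1 (index_eq_one.1 e), h1⟩
      · have e' := Equiv.Perm.eq_alternatingGroup_of_index_eq_two e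
        exact .inl ⟨f.codRestrict _ fun x => e'.le ⟨x, rfl⟩, fun y =>
            let ⟨x, hx⟩ := e'.ge y.2; ⟨x, Subtype.ext hx⟩, by rwa [MonoidHom.ker_codRestrict]⟩
  have d2 : ∀ x : DihedralGroup 2, x * x = 1 := by decide
  have key : ∀ N : Subgroup G, (N = ⊤ ∨
        (∃ f : G →* DihedralGroup 2, Function.Surjective f ∧ f.ker = N) ∨
        (∃ f : G →* alternatingGroup (Fin 4), Function.Surjective f ∧ f.ker = N) ∨
        (∃ f : G →* Equiv.Perm (Fin 4), Function.Surjective f ∧ f.ker = N) ∨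
        (∃ f : G →* alternatingGroup (Fin 5), Function.Surjective f ∧ f.ker = N) ∨
        (∃ f : G →* Equiv.Perm (Fin 5), Function.Surjective f ∧ f.ker = N)) →
      N = ⊤ ∨ (N.index = 4 ∧ ¬ IsZGroup (⊤ : Subgroup G) ∧ ∃ f : G →* DihedralGroup 2, f.ker = N) ∨
        (12 ≤ N.index ∧ ∀ K : Subgroup G, K.Normal → IsZGroup K → K ≤ N) := by
    rintro N (e | ⟨f, hf, rfl⟩ | ⟨f, hf, rfl⟩ | ⟨f, hf, rfl⟩ | ⟨f, hf, rfl⟩ | ⟨f, hf, rfl⟩)
    · exact .inl e
    · refine .inr (.inl ⟨by rw [index_ker, MonoidHom.range_eq_top.2 hf, card_top,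
        IsKleinFour.card_four], fun _ => ?_, f, rfl⟩)
      have := zg_inv (IsZGroup.of_surjective (f.subgroupMap_surjective ⊤)) (s := .r 1) (t := .sr 0)
        ((map_top_of_surjective f hf).ge trivial) ((map_top_of_surjective f hf).ge trivial)
        (d2 _) (d2 _) (by decide) (by decide) (by decide)
      exact absurd this (by decide)
    · exact .inr (.inr (big hf nz_a4 H4.card_alt4.ge))
    · exact .inr (.inr (big hf nz_s4 (by rw [H4.card_sym4]; norm_num)))
    · exact .inr (.inr (big hf nz_a5 (by rw [H4.card_alt5]; norm_num)))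
    · exact .inr (.inr (big hf nz_s5 (by rw [Nat.card_perm]; simp [Nat.factorial])))
  have i0 : ∀ N : Subgroup G, 0 < N.index := fun N => Nat.pos_of_ne_zero N.index_ne_zero_of_finite
  rintro N M ⟨n1, n2, n3⟩ ⟨m1, m2, m3⟩
  rcases key N n3 with rfl | ⟨a1, a2, f, rfl⟩ | ⟨a1, a2⟩ <;>
    rcases key M m3 with rfl | ⟨b1, b2, g, rfl⟩ | ⟨b1, b2⟩
  · rfl
  · exact absurd n2 b2
  · exact (eq_top_iff.2 (b2 _ n1 n2)).symm
  · exact absurd m2 a2
  · have := four_le h (f.prod g) fun x => Prod.ext (d2 _) (d2 _)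
    rw [MonoidHom.ker_prod] at this
    have eq : ∀ A B : Subgroup G, A ≤ B → A.index ≤ 4 → B.index = 4 → A = B := fun A B h1 h2 h3 =>
      le_antisymm h1 (relIndex_eq_one.1 (by
        have := relIndex_mul_index h1
        have := i0 A
        rw [h3] at *; omega))
    exact (eq _ _ inf_le_left this a1).symm.trans (eq _ _ inf_le_right this b1)
  · have := Nat.le_of_dvd (i0 _) (index_dvd_of_le (b2 _ n1 n2)); omega
  · exact eq_top_iff.2 (a2 _ m1 m2)
  · have := Nat.le_of_dvd (i0 _) (index_dvd_of_le (a2 _ m1 m2)); omega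
  · exact le_antisymm (b2 _ n1 n2) (a2 _ m1 m2)

end Cfsg.Agent.S4291
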