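import Cfsg.Statements.S4292
import Mathlib
import Cfsg.Agent.H8.FC7

set_option autoImplicit false
open Cfsg

namespace Cfsg.Agent.S4292

open H8 Subgroup
open scoped TensorProduct

theorem aux {A B R S T : Type*} [Group A] [Finite A] [Nontrivial A] [Group B] [Finite B] [Ring R]
    [Ring S] [Ring T] [Algebra ℂ R] [Algebra ℂ S] [Algebra ℂ T] [Nontrivial R] {ρ : A →* S}
    {σ : B →* T} (h1 : FR ρ) (h2 : FR σ) (hc : (Nat.card A).Coprime (Nat.card B))
    (l : S →ₐ[ℂ] R) (r : T →ₐ[ℂ] R) (hh : ∀ a b, Commute (l a) (r b)) :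
    ∃ (L : Type) (_ : Group L) (_ : Finite L) (H : Subgroup L), Cfsg.IsFrobeniusComplement H ∧
      Nonempty ((A × B) ≃* H) := by
  haveI : CharZero R := charZero_of_injective_algebraMap (algebraMap ℂ R).injective
  let τ : A × B →* R := (l.toMonoidHom.comp ρ).noncommCoprod (r.toMonoidHom.comp σ) fun a b => hh _ _
  refine frob_of_charZero τ fun ⟨a, b⟩ g1 x e => ?_
  have pw : ∀ k : ℕ, τ (a ^ k, b ^ k) * x = x := fun k => by
    rw [← Prod.pow_mk, map_pow]
    induction k with
    | zero => simp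
    | succ k ih => rw [pow_succ, mul_assoc, e, ih]
  by_cases a1 : a = 1
  · subst a1
    have := (h2.unit b fun e => g1 (by rw [e]; rfl)).map r
    rw [← this.mul_right_eq_zero, map_sub, map_one, sub_mul, one_mul, sub_eq_zero]
    simpa [τ] using e
  · have := (h1.unit (a ^ Nat.card B) fun e => a1 (orderOf_eq_one_iff.1
      (Nat.eq_one_of_dvd_coprimes hc (orderOf_dvd_natCard a) (orderOf_dvd_of_pow_eq_one e)))).map l
    rw [← this.mul_right_eq_zero, map_sub, map_one, sub_mul, one_mul, sub_eq_zero]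
    simpa [τ] using pw (Nat.card B)

/-- Let A and B be nontrivial finite groups. Then the direct product A × B occurs as a Frobenius complement if and only if A and B both occur as Frobenius complements and the orders of A and B are coprime. -/
theorem result {A B : Type*} [Group A] [Finite A] [Nontrivial A] [Group B] [Finite B] [Nontrivial B] :
    (∃ (L : Type) (_ : Group L) (_ : Finite L) (H : Subgroup L), Cfsg.IsFrobeniusComplement H ∧ Nonempty ((A × B) ≃* H)) ↔
    ((∃ (L : Type) (_ : Group L) (_ : Finite L) (H : Subgroup L), Cfsg.IsFrobeniusComplement H ∧ Nonempty (A ≃* H)) ∧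
     (∃ (L : Type) (_ : Group L) (_ : Finite L) (H : Subgroup L), Cfsg.IsFrobeniusComplement H ∧ Nonempty (B ≃* H)) ∧
     (Nat.card A).Coprime (Nat.card B)) := by
  refine ⟨fun h => ⟨frob_sub h (MonoidHom.inl A B) (Prod.mk_left_injective 1),
    frob_sub h (MonoidHom.inr A B) (Prod.mk_right_injective 1),
    Nat.coprime_of_dvd fun p hp ha hb => ?_⟩, fun ⟨ha, hb, hc⟩ => ?_⟩
  · haveI := Fact.mk hp
    obtain ⟨a, ha⟩ := exists_prime_orderOf_dvd_card' p ha
    obtain ⟨b, hb⟩ := exists_prime_orderOf_dvd_card' p hb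
    obtain ⟨k, hk⟩ := (fc_of_frob h).mem_zpowers_of_comm (u := (a, 1)) (v := (1, b)) (by simp)
      (by simp [Prod.orderOf, ha, hb])
    have : a = 1 := by simpa using (congrArg Prod.fst hk).symm
    exact hp.one_lt.ne (by rw [← ha, this, orderOf_one])
  · obtain ⟨n, ρ, h1⟩ := (fc_of_frob ha).rep
    obtain ⟨m, σ, h2⟩ := (fc_of_frob hb).rep
    haveI := h1.nt
    haveI := h2.nt
    exact aux h1 h2 hc (R := Module.End ℂ (Fin n → ℂ) ⊗[ℂ] Module.End ℂ (Fin m → ℂ))
      Algebra.TensorProduct.includeLeft Algebra.TensorProduct.includeRight fun a b => by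
        simp [Commute, SemiconjBy]

end Cfsg.Agent.S4292
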