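import Cfsg.Statements.S4293
import Mathlib
import Cfsg.Agent.H8.FC7

set_option autoImplicit false
open Cfsg

namespace Cfsg.Agent.S4293

open H8 Subgroup

/-- A nontrivial finite subgroup of the multiplicative group of a division ring occurs as a Frobenius complement of some finite Frobenius group. -/
theorem result {D : Type*} [DivisionRing D] (H : Subgroup Dˣ) [Finite H] (hH : H ≠ ⊥) :
    ∃ (L : Type) (_ : Group L) (_ : Finite L) (C : Subgroup L), Cfsg.IsFrobeniusComplement C ∧ Nonempty (H ≃* C) := by
  haveI := (nontrivial_iff_ne_bot H).2 hH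
  let ρ : H →* D := (Units.coeHom D).comp H.subtype
  have hf : ∀ g : H, g ≠ 1 → ∀ x, ρ g * x = x → x = 0 := fun g g1 x e => by_contra fun x0 =>
    g1 (Subtype.ext (Units.ext (mul_right_cancel₀ x0 (e.trans (one_mul x).symm))))
  obtain ⟨p, _⟩ := CharP.exists D
  rcases CharP.char_is_prime_or_zero D p with hp | rfl
  · haveI := Fact.mk hp
    refine frob_of_ring ρ hf (q := p) (hp.coprime_iff_not_dvd.2 fun hd => ?_) fun r hr e => ?_
    · obtain ⟨g, hg⟩ := exists_prime_orderOf_dvd_card' p hd
      have := sub_pow_char_of_commute (p := p) (Commute.one_right (ρ g))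
      rw [← map_pow, ← hg, pow_orderOf_eq_one, map_one, one_pow, sub_self] at this
      have := hf g (fun e => hp.one_lt.ne (by rw [← hg, e, orderOf_one])) 1
        (by rw [mul_one, ← sub_eq_zero]; exact pow_eq_zero_iff (hg ▸ hp.ne_zero) |>.1 this)
      exact one_ne_zero this
    · have := (CharP.intCast_eq_zero_iff D p _).2 hr
      rw [Int.cast_sub, e, Int.cast_one, zero_sub, neg_eq_zero] at this
      exact one_ne_zero this
  · haveI := CharP.charP_to_charZero D
    exact frob_of_charZero ρ hf

end Cfsg.Agent.S4293
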