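import Cfsg.Statements.S4296
import Mathlib
import Cfsg.Agent.H8.FC7

set_option autoImplicit false
open Cfsg

namespace Cfsg.Agent.S4296

open H8 H7 H1B Subgroup

/-- Let H be a Frobenius complement in a finite group, and suppose some Sylow subgroup of H is not cyclic. Then the number of elements of the Frobenius kernel (the identity together with the elements lying in no conjugate of H) is an odd perfect square. -/
theorem result {L : Type*} [Group L] [Finite L] (H : Subgroup L) (hF : Cfsg.IsFrobeniusComplement H)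
    (hZ : ∃ (p : ℕ) (_ : Fact p.Prime) (P : Sylow p H), ¬ IsCyclic P) :
    Odd (Nat.card (Cfsg.frobeniusKernel H)) ∧ IsSquare (Nat.card (Cfsg.frobeniusKernel H)) := by
  obtain ⟨N, hN, hn, hc⟩ := H1.FrobC.exists_kernel hF
  have fp : ∀ h ∈ H, ∀ k ∈ N, h * k = k * h → h = 1 ∨ k = 1 := fun h hh k hk e =>
    fpf_of_frob hF hh (hN ▸ hk) e
  have h : FC H := fc_of_reg (K := N) (fun x hx x1 => eq_bot_iff.2 fun k hk => mem_bot.2
    ((fp x hx k hk.1 (mem_cen1.1 hk.2).symm).resolve_left x1))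
    (le_nrm_of_normal _ _) fun e => hF.2.1 (by rw [← hc.sup_eq_top, e, bot_sup_eq])
  obtain ⟨p, _, P, hP⟩ := hZ
  obtain rfl : p = 2 := by_contra fun e => hP (h.cyc p Fact.out e _ P.isPGroup')
  obtain ⟨a, n, hq⟩ := ((h.ui'.mono le_top).cyclic_or_quat P.isPGroup').resolve_left hP
  obtain ⟨b, hb, hba⟩ := hq.ex
  have b2 := hq.sq b hb hba
  have r2 := hq.r_sq
  have br := hq.inv_of_mem hb hba (pow_mem (mem_zpowers a) (2 ^ n))
  have z1 := hq.z_ne
  have z2 := hq.z_sq
  generalize a ^ 2 ^ (n + 1) = z at *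
  generalize a ^ 2 ^ n = r at *
  rw [← hN, SetLike.coe_sort_coe]
  have ho : Odd (Nat.card N) := Nat.coprime_two_left.1 ((coprime_card_of_fpf
    (le_nrm_of_normal _ _) fp).of_dvd_left ((ord2'.2 ⟨z2, z1⟩) ▸ orderOf_dvd_natCard z))
  have inv : ∀ k ∈ N, (z : L) * k * (z : L)⁻¹ = k⁻¹ := fun k hk => by
    obtain ⟨m, hm, e⟩ := exists_conj_eq_of_fpf (N := N) (h := z) (le_nrm_of_normal ⊤ N trivial)
      (fun k hk e => (fp z z.2 k hk e).resolve_left fun e => z1 (Subtype.ext e)) hk
    have zz : (z : L) * z = 1 := by rw [← sq]; exact congrArg Subtype.val z2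
    have : k * z * (k * z) = 1 := by rw [← e, conj_mul, zz]; simp
    rw [inv_eq_of_mul_eq_one_right zz, eq_inv_iff_mul_eq_one, ← mul_right_inj k, mul_one,
      ← mul_assoc, ← mul_assoc, ← mul_assoc, mul_assoc (k * z), this, one_mul]
  letI : CommGroup N := { (inferInstance : Group N) with
    mul_comm := fun x y => Subtype.ext (inv_injective (by
      rw [coe_mul, coe_mul, ← inv _ (mul_mem x.2 y.2), mul_inv_rev, ← inv _ x.2, ← inv _ y.2]
      group)) }
  let φ : H →* MulAut N := (MulAut.conjNormal (H := N)).comp H.subtype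
  have hz : ∀ x : N, φ z x = x⁻¹ := fun x => Subtype.ext (inv x x.2)
  refine ⟨ho, isSquare_card_of_quat _ (Additive N) rfl ho (MonoidHom.toAdditive (φ r).toMonoidHom)
    (MonoidHom.toAdditive (φ b).toMonoidHom) (fun x => ?_) (fun x => ?_) fun x => ?_⟩
  · show φ r (φ r x.toMul) = x.toMul⁻¹
    rw [← MulAut.mul_apply, ← map_mul, ← sq, r2, hz]
  · show φ b (φ b x.toMul) = x.toMul⁻¹
    rw [← MulAut.mul_apply, ← map_mul, ← sq, b2, hz]
  · show φ r (φ b x.toMul) = (φ b (φ r x.toMul))⁻¹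
    rw [← hz, ← MulAut.mul_apply, ← MulAut.mul_apply, ← MulAut.mul_apply, ← map_mul, ← map_mul,
      ← map_mul, mul_assoc, mul_inv_eq_iff_eq_mul.1 br, ← r2, sq]
    simp [mul_assoc]

end Cfsg.Agent.S4296
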