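import Cfsg.Statements.S4295
import Mathlib
import Cfsg.Agent.S4296
import Cfsg.Agent.H8.Dihedral

set_option autoImplicit false
open Cfsg

namespace Cfsg.Agent.S4295

open H8 H7 H1B Subgroup
open scoped MatrixGroups

theorem exists_ring (n : ℕ) : Odd n → ∃ (R : Type) (_ : CommRing R) (_ : Finite R),
    Nat.card R = n ∧ IsUnit (2 : R) ∧ ∃ a b : R, a ^ 2 + b ^ 2 = -1 := by
  induction n using induction_on_primes with
  | zero => intro h; exact absurd h (by decide)
  | one => exact fun _ => ⟨PUnit, inferInstance, inferInstance, by simp, isUnit_of_subsingleton _,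
      0, 0, rfl⟩
  | prime_mul p m hp ih =>
    intro h
    haveI := Fact.mk hp
    obtain ⟨R, _, _, h1, h2, a, b, h3⟩ := ih (Nat.odd_mul.1 h).2
    obtain ⟨c, d, h4⟩ := ZMod.sq_add_sq p (-1)
    refine ⟨ZMod p × R, inferInstance, inferInstance, by simp [h1], Prod.isUnit_iff.2 ⟨?_, h2⟩,
      (c, a), (d, b), Prod.ext h4 h3⟩
    exact (ZMod.isUnit_iff_coprime 2 p).2 (Nat.coprime_two_left.2 (Nat.odd_mul.1 h).1)

/-- For a natural number m the following are equivalent: (a) some finite group has a Frobenius complement isomorphic to the quaternion group of order 8 whose Frobenius kernel (the identity together with the elements lying in no conjugate of the complement) has exactly m elements; (b) m is an odd perfect square greater than 1. -/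
theorem result (m : ℕ) :
    (∃ (L : Type) (_ : Group L) (_ : Finite L) (H : Subgroup L), Cfsg.IsFrobeniusComplement H ∧
        Nonempty (H ≃* QuaternionGroup 2) ∧ Nat.card (Cfsg.frobeniusKernel H) = m) ↔
    (Odd m ∧ IsSquare m ∧ 1 < m) := by
  refine ⟨fun ⟨L, _, _, H, hF, ⟨e⟩, hm⟩ => ?_, fun ⟨ho, ⟨n, hn⟩, h1⟩ => ?_⟩
  · obtain ⟨P⟩ : Nonempty (Sylow 2 H) := inferInstance
    have hP : (P : Subgroup H) = ⊤ := (P.is_maximal' (IsPGroup.of_card (n := 3) (by
      rw [card_top, Nat.card_congr e.toEquiv, Nat.card_eq_fintype_card, QuaternionGroup.card]; rfl))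
      le_top).symm
    obtain ⟨h1, h2⟩ := Cfsg.Agent.S4296.result H hF ⟨2, inferInstance, P, fun hc => by
      rw [hP] at hc
      haveI : IsCyclic (QuaternionGroup 2) := isCyclic_of_surjective (topEquiv.trans e)
        (topEquiv.trans e).surjective
      exact absurd (IsCyclic.isMulCommutative.is_comm.comm (QuaternionGroup.a 1 : QuaternionGroup 2)
        (.xa 0)) (by decide)⟩
    refine ⟨hm ▸ h1, hm ▸ h2, ?_⟩
    obtain ⟨N, hN, hn, hc⟩ := H1.FrobC.exists_kernel hF
    rw [← hm, ← hN, SetLike.coe_sort_coe, one_lt_card_iff_ne_bot]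
    exact fun e => hF.2.1 (by rw [← hc.sup_eq_top, e, bot_sup_eq])
  subst hn
  obtain ⟨R, _, _, c, h2, a, b, e⟩ := exists_ring n (Nat.odd_mul.1 ho).1
  haveI : Nontrivial R := Finite.one_lt_card_iff_nontrivial.1 (by
    rw [c]; by_contra! hh; nlinarith)
  let r : SL(2, R) := ⟨!![0, 1; -1, 0], by simp [Matrix.det_fin_two_of]⟩
  let s : SL(2, R) := ⟨!![a, b; b, -a], by
    rw [Matrix.det_fin_two_of]; linear_combination -e⟩
  have r2 : r ^ 2 = -1 := by
    rw [sq]; refine Subtype.ext (show r.1 * r.1 = -1 from ?_)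
    ext i j; fin_cases i <;> fin_cases j <;> simp [r, Matrix.mul_apply]
  let φ := quaternionHom (n := 2) (r := r) (s := s) (by rw [pow_mul, r2]; simp) (by
      rw [r2]; refine Subtype.ext (show s.1 * s.1 = -1 from ?_)
      ext i j
      fin_cases i <;> fin_cases j <;> simp [s, Matrix.mul_apply] <;>
        first | linear_combination e | ring) (by
      rw [mul_inv_eq_iff_eq_mul, eq_inv_mul_iff_mul_eq]
      refine Subtype.ext (show r.1 * (s.1 * r.1) = s.1 from ?_)
      ext i j
      fin_cases i <;> fin_cases j <;> simp [r, s, Matrix.mul_apply, Matrix.vecMul, dotProduct])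
  have hz : φ (.a 2) = -1 := (zpow_natCast r 2).trans r2
  obtain ⟨L, i1, i2, C, k1, ⟨k2⟩, k3⟩ := exists_frob_of_matrix
    ((Matrix.SpecialLinearGroup.coeMonoidHom).comp φ) fun g v hv => by
      refine or_iff_not_imp_left.2 fun g1 => ?_
      have : g = .a 2 ∨ g * g = .a 2 := by revert g1; clear hv; revert g; decide
      have e : ((-1 : SL(2, R)) : Matrix _ _ R).mulVec v = v := by
        rw [← hz]
        rcases this with e | e <;> rw [← e]
        · exact hv
        · rw [map_mul, Matrix.SpecialLinearGroup.coe_mul, ← Matrix.mulVec_mulVec]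
          exact (congrArg _ hv).trans hv
      rw [← h2.smul_eq_zero, two_smul, ← eq_neg_iff_add_eq_zero]
      simpa [Matrix.neg_mulVec] using e.symm
  exact ⟨L, i1, i2, C, k1, ⟨k2.symm⟩, by simpa [c, sq] using k3⟩

end Cfsg.Agent.S4295
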