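import Cfsg.Statements.S4331
import Mathlib
import Cfsg.Agent.H8.Misc1
import Cfsg.Agent.H7.Hall
import Cfsg.Agent.H3.Integral

set_option autoImplicit false
open Cfsg

namespace Cfsg.Agent.S4331

open Subgroup H7

/-- The group of semilinear affine maps of the field with nine elements. -/
def E : Type := {p : ZMod 3 × ZMod 3 × ZMod 3 × ZMod 3 × ZMod 3 //
  (p.1 * p.1 + p.2.1 * p.2.1) ≠ 0 ∧ p.2.2.1 * p.2.2.1 = 1}

instance : Fintype E := Subtype.fintype _
instance : DecidableEq E := fun a b => decidable_of_iff (a.1 = b.1) Subtype.ext_iff.symm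

theorem cl1 : ∀ a b e c d : ZMod 3, a * a + b * b ≠ 0 → e * e = 1 → c * c + d * d ≠ 0 →
    (a * c - b * e * d) * (a * c - b * e * d) + (b * c + a * e * d) * (b * c + a * e * d) ≠ 0 := by
  decide +kernel

theorem cl2 : ∀ a b e : ZMod 3, a * a + b * b ≠ 0 → e * e = 1 →
    (a * (a * a + b * b)) * (a * (a * a + b * b)) +
      (-e * b * (a * a + b * b)) * (-e * b * (a * a + b * b)) ≠ 0 := by
  decide +kernel

instance : Mul E := ⟨fun ⟨(a, b, e, x, y), h⟩ ⟨(c, d, f, u, v), k⟩ =>
  ⟨(a * c - b * e * d, b * c + a * e * d, e * f, a * u - b * e * v + x, b * u + a * e * v + y),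
    cl1 a b e c d h.1 h.2 k.1, by
      have h2 : e * e = 1 := h.2
      have k2 : f * f = 1 := k.2
      linear_combination (f * f) * h2 + k2⟩⟩

instance : One E := ⟨⟨(1, 0, 1, 0, 0), by decide⟩⟩

instance : Inv E := ⟨fun ⟨(a, b, e, x, y), h⟩ =>
  ⟨(a * (a * a + b * b), -e * b * (a * a + b * b), e, -(a * x + b * y) * (a * a + b * b),
    -e * (a * y - b * x) * (a * a + b * b)), cl2 a b e h.1 h.2, h.2⟩⟩

instance : Group E := Group.ofLeftAxioms
  (fun ⟨(a, b, e, x, y), h⟩ ⟨(c, d, f, u, v), k⟩ ⟨(a', b', e', x', y'), h'⟩ => by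
    have h2 : e * e = 1 := h.2
    refine Subtype.ext (Prod.ext ?_ (Prod.ext ?_ (Prod.ext ?_ (Prod.ext ?_ ?_))))
    · change (a * c - b * e * d) * a' - (b * c + a * e * d) * (e * f) * b' =
        a * (c * a' - d * f * b') - b * e * (d * a' + c * f * b')
      linear_combination (-a * d * f * b') * h2
    · change (b * c + a * e * d) * a' + (a * c - b * e * d) * (e * f) * b' =
        b * (c * a' - d * f * b') + a * e * (d * a' + c * f * b')
      linear_combination (-b * d * f * b') * h2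
    · exact mul_assoc e f e'
    · change (a * c - b * e * d) * x' - (b * c + a * e * d) * (e * f) * y' + (a * u - b * e * v + x) =
        a * (c * x' - d * f * y' + u) - b * e * (d * x' + c * f * y' + v) + x
      linear_combination (-a * d * f * y') * h2
    · change (b * c + a * e * d) * x' + (a * c - b * e * d) * (e * f) * y' + (b * u + a * e * v + y) =
        b * (c * x' - d * f * y' + u) + a * e * (d * x' + c * f * y' + v) + y
      linear_combination (-b * d * f * y') * h2)
  (by decide +kernel) (by decide +kernel)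

def a0 : E := ⟨(1, 0, -1, 0, 0), by decide⟩
def v0 : E := ⟨(1, 0, 1, 0, 1), by decide⟩

def S : Subgroup E where
  carrier := {g | g.1.2.2.2 = 0}
  mul_mem' := by
    rintro ⟨⟨a, b, e, x, y⟩, h⟩ ⟨⟨c, d, f, u, v⟩, k⟩ h1 h2
    obtain ⟨rfl, rfl⟩ := Prod.ext_iff.1 h1
    obtain ⟨rfl, rfl⟩ := Prod.ext_iff.1 h2
    refine Prod.ext ?_ ?_
    · change a * 0 - b * e * 0 + 0 = 0; ring
    · change b * 0 + a * e * 0 + 0 = 0; ring
  one_mem' := rfl
  inv_mem' := by
    rintro ⟨⟨a, b, e, x, y⟩, h⟩ h1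
    obtain ⟨rfl, rfl⟩ := Prod.ext_iff.1 h1
    refine Prod.ext ?_ ?_
    · change -(a * 0 + b * 0) * (a * a + b * b) = 0; ring
    · change -e * (a * 0 - b * 0) * (a * a + b * b) = 0; ring

theorem key : ∀ c : E, ∃ h : E, (h * c * h⁻¹).1.2.2.2 = 0 ∨ h * c * h⁻¹ * a0 = a0 * (h * c * h⁻¹) := by
  decide +kernel

theorem key2 : ∀ c : E, c.1.2.2.2 = 0 → c * c * (c * c) * (c * c * (c * c)) = 1 := by
  decide +kernel

theorem cardE : Fintype.card E = 144 := by decide +kernel

/-- There is a finite solvable group G with a subgroup A of order 2 such that every conjugacy class of G contains an element g for which A is subnormal in the subgroup generated by A and g, and yet A is not contained in O_2(G). (So the corresponding criteria for odd primes fail at the prime 2, even for solvable groups.) -/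
theorem result :
    ∃ (G : Type) (_ : Group G) (_ : Finite G) (A : Subgroup G), Group.IsSolvable G ∧ Nat.card A = 2 ∧
      (∀ c : G, ∃ g : G, IsConj c g ∧ (A.subgroupOf (A ⊔ Subgroup.zpowers g)).IsSubnormal) ∧
      ¬ A ≤ Cfsg.pCore 2 G := by
  haveI : Fact (Nat.Prime 2) := ⟨Nat.prime_two⟩
  have hS : IsPGroup 2 S := isPGroup_iff_mem.2 fun c hc => ⟨3, by
    rw [← key2 c hc]; simp only [show 2 ^ 3 = 8 from rfl, pow_succ, pow_zero, one_mul, mul_assoc]⟩
  refine ⟨E, inferInstance, inferInstance, zpowers a0, H3.burnside_pq (a := 4) (b := 2)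
    Nat.prime_two Nat.prime_three (by rw [Nat.card_eq_fintype_card, cardE]; norm_num), ?_,
    fun c => ?_, fun h => ?_⟩
  · rw [Nat.card_zpowers]
    exact orderOf_eq_prime (by rw [pow_two]; decide +kernel) (by decide +kernel)
  · obtain ⟨h, hh⟩ := key c
    refine ⟨_, isConj_iff.2 ⟨h, rfl⟩, ?_⟩
    rcases hh with hh | hh
    · haveI := (hS.to_le (sup_le (zpowers_le.2 (rfl : a0.1.2.2.2 = 0)) (zpowers_le.2 hh))).isNilpotent
      exact H8.isSubnormal_of_isNilpotent _
    · exact Normal.isSubnormal (normal_subgroupOf (le_nrm_of_le_cen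
        (sup_le (isComm_iff.1 (isComm_zpowers _)) (by rw [cen_zpowers, zpowers_le, mem_cen1, hh]))))
  · rw [pCore_eq] at h
    have h1 : a0 ∈ Op 2 (⊤ : Subgroup E) := h (mem_zpowers _)
    have h2 := mul_mem h1 (conj_mem (le_nrm_Opi _ _) (mem_top v0) h1)
    rw [show a0 * (v0 * a0 * v0⁻¹) = v0 by decide +kernel] at h2
    obtain ⟨k, hk⟩ := isPGroup_iff_mem.1 (isPGroup_Op 2 ⊤) _ h2
    haveI : Fact (Nat.Prime 3) := ⟨Nat.prime_three⟩
    have h3 : orderOf v0 = 3 := orderOf_eq_prime
      (by rw [pow_succ, pow_two]; decide +kernel) (by decide +kernel)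
    have := Nat.prime_three.dvd_of_dvd_pow (h3 ▸ orderOf_dvd_of_pow_eq_one hk)
    norm_num at this

end Cfsg.Agent.S4331
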