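import Cfsg.Statements.S4332
import Mathlib
import Cfsg.Agent.H8.TwoTrans
import Cfsg.Agent.H7.Hall

set_option autoImplicit false
open Pointwise
open Cfsg

namespace Cfsg.Agent.S4332

open Equiv Equiv.Perm Subgroup H7

theorem exists_triple (c : Perm (Fin 8)) : ∃ x y z : Fin 8, x ≠ y ∧ y ≠ z ∧ x ≠ z ∧
    Commute (swap x y * swap y z) (swap (c x) (c y) * swap (c y) (c z)) := by
  by_cases h1 : c.support.card ≤ 5
  · have h2 : 2 < c.supportᶜ.card := by rw [Finset.card_compl, Fintype.card_fin]; omega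
    obtain ⟨x, y, z, hx, hy, hz, a, b, d⟩ := Finset.two_lt_card_iff.1 h2
    simp only [Finset.mem_compl, mem_support, not_not] at hx hy hz
    exact ⟨x, y, z, a, d, b, by rw [hx, hy, hz]⟩
  by_cases h3 : ∃ x, c x ≠ x ∧ c (c (c x)) = x
  · obtain ⟨x, hx, h⟩ := h3
    have a : x ≠ c x := hx.symm
    have b : c x ≠ c (c x) := c.injective.ne a
    have d : x ≠ c (c x) := fun e => hx (by rw [← e] at h; exact h)
    refine ⟨x, c x, c (c x), a, b, d, ?_⟩
    rw [h, swap_mul_eq_mul_swap, swap_inv, swap_apply_left, swap_apply_of_ne_of_ne a d,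
      swap_comm x]
  push Not at h3
  have dis : ∀ x y z : Fin 8, c x ∉ ({x, y, z} : Finset _) → c y ∉ ({x, y, z} : Finset _) →
      c z ∉ ({x, y, z} : Finset _) →
      Commute (swap x y * swap y z) (swap (c x) (c y) * swap (c y) (c z)) := by
    intro x y z a b d
    simp only [Finset.mem_insert, Finset.mem_singleton, not_or] at a b d
    refine Disjoint.commute fun w => ?_
    by_cases hw : w = x ∨ w = y ∨ w = z
    · right
      have k : w ≠ c x ∧ w ≠ c y ∧ w ≠ c z := by
        rcases hw with rfl | rfl | rfl <;> tauto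
      rw [Perm.mul_apply, swap_apply_of_ne_of_ne k.2.1 k.2.2, swap_apply_of_ne_of_ne k.1 k.2.1]
    · left
      push Not at hw
      rw [Perm.mul_apply, swap_apply_of_ne_of_ne hw.2.1 hw.2.2, swap_apply_of_ne_of_ne hw.1 hw.2.1]
  have ex : ∀ s : Finset (Fin 8), s.card ≤ 5 → ∃ z, c z ≠ z ∧ z ∉ s := fun s hs => by
    obtain ⟨z, a, b⟩ := Finset.exists_mem_notMem_of_card_lt_card (s := s) (t := c.support)
      (by omega)
    exact ⟨z, mem_support.1 a, b⟩
  by_cases h4 : ∃ x, c x ≠ x ∧ c (c x) ≠ x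
  · obtain ⟨x, a, b⟩ := h4
    obtain ⟨z, d, e⟩ := ex {x, c x, c (c x), c (c (c x)), c⁻¹ x} Finset.card_le_five
    simp only [Finset.mem_insert, Finset.mem_singleton, not_or] at e
    have f := h3 x a
    have g : c z ≠ x := fun h => e.2.2.2.2 (by rw [← h]; simp)
    refine ⟨x, c (c x), z, b.symm, Ne.symm e.2.2.1, Ne.symm e.1, dis _ _ _ ?_ ?_ ?_⟩ <;>
      simp only [Finset.mem_insert, Finset.mem_singleton, not_or, EmbeddingLike.apply_eq_iff_eq] <;>
      tauto
  · push Not at h4
    obtain ⟨x, a, -⟩ := ex ∅ (by simp)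
    obtain ⟨y, b, e⟩ := ex {x, c x} (Finset.card_le_two.trans (by norm_num))
    obtain ⟨z, d, f⟩ := ex {x, c x, y, c y} (Finset.card_le_four.trans (by norm_num))
    simp only [Finset.mem_insert, Finset.mem_singleton, not_or] at e f
    have g1 : c y ≠ x := fun h => e.2 (by rw [← h, h4 y b])
    have g2 : c z ≠ x := fun h => f.2.1 (by rw [← h, h4 z d])
    have g3 : c z ≠ y := fun h => f.2.2.2 (by rw [← h, h4 z d])
    refine ⟨x, y, z, Ne.symm e.1, Ne.symm f.2.2.1, Ne.symm f.1, dis _ _ _ ?_ ?_ ?_⟩ <;>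
      simp only [Finset.mem_insert, Finset.mem_singleton, not_or] <;> tauto

/-- In the symmetric group of degree 8, let A be the subgroup generated by a 3-cycle. Then every conjugacy class contains an element g for which A is subnormal in the subgroup generated by A and its conjugate by g, although O_3 of the symmetric group of degree 8 is trivial. -/
theorem result
    (σ : Equiv.Perm (Fin 8)) (hσ : σ.IsThreeCycle) :
    (∀ c : Equiv.Perm (Fin 8), ∃ g : Equiv.Perm (Fin 8), IsConj c g ∧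
      ((Subgroup.zpowers σ).subgroupOf (Subgroup.zpowers σ ⊔ MulAut.conj g • Subgroup.zpowers σ)).IsSubnormal) ∧
    Cfsg.pCore 3 (Equiv.Perm (Fin 8)) = ⊥ := by
  refine ⟨fun c => ?_, ?_⟩
  · obtain ⟨x, y, z, a, b, d, h⟩ := exists_triple c
    have h3 : (swap x y * swap y z).IsThreeCycle := by
      rw [swap_comm x y]; exact isThreeCycle_swap_mul_swap_same a.symm b d
    obtain ⟨k, hk⟩ := isConj_iff.1 (isConj_iff_cycleType_eq.2 (h3.cycleType.trans hσ.cycleType.symm))
    refine ⟨k * c * k⁻¹, isConj_iff.2 ⟨k, rfl⟩, Normal.isSubnormal (normal_subgroupOf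
      (le_nrm_of_le_cen (sup_le (isComm_iff.1 (isComm_zpowers σ)) ?_)))⟩
    rw [← cj_eq_smul, cj_zpowers, cen_zpowers, zpowers_le, mem_cen1]
    rw [swap_apply_apply c, swap_apply_apply c] at h
    rw [← hk]
    set τ := swap x y * swap y z
    have h' : τ * (c * τ * c⁻¹) = (c * τ * c⁻¹) * τ := by
      have := h.eq
      simpa [τ, mul_assoc] using this
    calc _ = k * ((c * τ * c⁻¹) * τ) * k⁻¹ := by group
      _ = _ := by rw [← h']; group
  · by_contra hne
    haveI : Fact (Nat.Prime 3) := ⟨Nat.prime_three⟩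
    haveI : (Cfsg.pCore 3 (Perm (Fin 8))).Normal := by
      rw [pCore_eq]; exact normal_iff_top_le_nrm.2 (le_nrm_Opi _ _)
    haveI := H8.isPretransitive_of_normal_of_ne_bot (α := Fin 8) inferInstance _ hne
    have h2 := index_dvd_card (MulAction.stabilizer (Cfsg.pCore 3 (Perm (Fin 8))) (0 : Fin 8))
    rw [MulAction.index_stabilizer_of_transitive, Nat.card_fin, pCore_eq] at h2
    obtain ⟨k, hk⟩ := (isPGroup_Op 3 (⊤ : Subgroup (Perm (Fin 8)))).exists_card_eq
    rw [hk] at h2
    have := Nat.prime_two.dvd_of_dvd_pow ((by norm_num : 2 ∣ 8).trans h2)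
    norm_num at this

end Cfsg.Agent.S4332
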