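import Cfsg.Statements.S4333
import Cfsg.Agent.H2.Ms1
import Cfsg.Agent.H1.Subnormal

set_option autoImplicit false
open Pointwise
open Cfsg

namespace Cfsg.Agent.S4333

open Subgroup hiding upperCentralSeries
open H2 Cfsg.FusionSystem

open Subgroup H2 H7 H1B
theorem aux {G : Type*} [Group G] [Finite G] {A H : Subgroup G} (hA : A ≤ H)
    (h : ∀ a ∈ A, ∀ g ∈ H, SN (A ⊔ cj (g⁻¹ * a * g) A) A) : SN H A := by
  induction H using WellFoundedLT.induction with | ind H ih
  rcases hA.eq_or_lt with rfl | hlt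
  · exact SN.refl
  have h1 : ∀ U, A ≤ U → U < H → SN U A := fun U h1 h2 =>
    ih U h2 h1 fun a ha g hg => h a ha g (h2.le hg)
  by_contra hn
  obtain ⟨M, h2, h3, h4⟩ := H1.zipper hlt h1 hn
  have m : ∀ a ∈ A, ∀ g ∈ H, g⁻¹ * a * g ∈ H := fun a ha g hg =>
    mul_mem (mul_mem (inv_mem hg) (hA ha)) hg
  have k : ∀ a ∈ A, ∀ g ∈ H, g⁻¹ * a * g ∈ nrm M := fun a ha g hg => by
    have l : cj (g⁻¹ * a * g) A ≤ M := le_sup_right.trans (h4 _ le_sup_left (lt_of_le_of_ne
      (sup_le hA (H7.cj_le_of_mem (m a ha g hg) hA)) fun e => hn (e ▸ h a ha g hg)))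
    refine inv_mem_iff.1 (mem_nrm_of_cj_le (h4 _ (H7.cj_le_iff.1 l) ?_))
    rw [← H7.cj_of_mem (inv_mem (m a ha g hg))]
    exact lt_of_le_of_ne (H7.cj_mono _ h3.le) fun e => h3.ne (H2.cj_injective _ e)
  by_cases e : H ≤ nrm M
  · exact hn ((h1 M h2 h3).trans (SN.of_normal h3.le e))
  have l : H ⊓ nrm M ≤ M := h4 _ (le_inf hA (h2.trans (le_nrm_self M))) (inf_lt_left.2 e)
  have h5 : H1.ncl A H ≤ M := H1.ncl_le_iff.2 fun g hg x hx => by
    have := l ⟨m _ (H7.mem_cj.1 hx) _ (inv_mem hg), k _ (H7.mem_cj.1 hx) _ (inv_mem hg)⟩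
    simpa [mul_assoc] using this
  exact hn ((h1 _ H1.le_ncl (h5.trans_lt h3)).trans (SN.of_normal (h5.trans h3.le) H1.le_nrm_ncl))

/-- Let A be a subgroup of a finite group G. If A is subnormal in the subgroup generated by A and its conjugate by g⁻¹ a g, for every a ∈ A and every g ∈ G, then A is subnormal in G. (A sharpening of Wielandt's subnormality criterion: only conjugates of A by conjugates of elements of A are needed.) -/
theorem result {G : Type*} [Group G] [Finite G]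
    (A : Subgroup G)
    (h : ∀ a ∈ A, ∀ g : G, (A.subgroupOf (A ⊔ MulAut.conj (g⁻¹ * a * g) • A)).IsSubnormal) :
    A.IsSubnormal := by
  exact H7.sn_top_iff.1 (aux le_top fun a ha g _ => H7.sn_iff.2 ⟨le_sup_left, h a ha g⟩)

end Cfsg.Agent.S4333
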