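import Cfsg.Statements.S4337
import Mathlib
import Cfsg.Agent.H8.Swaps
import Cfsg.Agent.H3.Integral

set_option autoImplicit false
open Cfsg

namespace Cfsg.Agent.S4337

/-- In a finite symmetric group, any three transpositions generate a solvable subgroup. -/
theorem result (n : ℕ) (a b c : Equiv.Perm (Fin n))
    (ha : a.IsSwap) (hb : b.IsSwap) (hc : c.IsSwap) :
    Group.IsSolvable (Subgroup.closure ({a, b, c} : Set (Equiv.Perm (Fin n)))) := by
  have e : ({a, b, c} : Set (Equiv.Perm (Fin n))) = Set.range ![a, b, c] := by
    ext x; simp; tauto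
  rw [e]
  have h := fun q => H8.prime_le_of_orbit_le (q := q) (H8.card_orbit_swaps_le ![a, b, c]
    (fun i => by fin_cases i <;> assumption))
  set N := Nat.card (Subgroup.closure (Set.range ![a, b, c])) with hN
  refine H3.burnside_pq (a := N.factorization 2) (b := N.factorization 3) Nat.prime_two
    Nat.prime_three ?_
  have hN0 : N ≠ 0 := Nat.card_pos.ne'
  rw [← hN]
  clear_value N
  rw [← Nat.factorization_prime_le_iff_dvd hN0 (by positivity)]
  intro q hq
  rw [Nat.factorization_mul (by positivity) (by positivity), Nat.prime_two.factorization_pow,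
    Nat.prime_three.factorization_pow]
  by_cases hd : q ∣ N
  · have h1 := h q hq hd
    have h2 := hq.two_le
    interval_cases q
    · simp
    · simp
    · norm_num at hq
  · simp [Nat.factorization_eq_zero_of_not_dvd hd]

end Cfsg.Agent.S4337
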