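import Cfsg.Statements.S4343
import Mathlib
import Cfsg.Agent.H8.SylNum
import Cfsg.Agent.S0060
import Cfsg.Agent.H7.Cores

set_option autoImplicit false
open Cfsg

namespace Cfsg.Agent.S4343

open Subgroup H7
open scoped commutatorElement

/-- Let S be a finite non-abelian simple group and p a prime dividing its order. If S has fewer than p² Sylow p-subgroups, then its Sylow p-subgroups have order p. -/
theorem result {S : Type*} [Group S] [Finite S]
    [IsSimpleGroup S] (hS : ¬ IsMulCommutative S) (p : ℕ) [Fact p.Prime] (hp : p ∣ Nat.card S)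
    (hn : Nat.card (Sylow p S) < p ^ 2) (P : Sylow p S) : Nat.card P = p := by
  have hpp : p.Prime := Fact.out
  have hO : Cfsg.pCore p S = ⊥ := by
    rw [pCore_eq]
    haveI : (Op p (⊤ : Subgroup S)).Normal := normal_iff_top_le_nrm.2 (le_nrm_Opi _ _)
    rcases this.eq_bot_or_eq_top with h | h
    · exact h
    · have h1 : IsPGroup p S := (h ▸ isPGroup_Op p ⊤ : IsPGroup p (⊤ : Subgroup S)).of_equiv topEquiv
      haveI := h1.isNilpotent
      exact absurd ⟨⟨IsSimpleGroup.comm_iff_isSolvable.2 inferInstance⟩⟩ hS
  have key : ∀ Q : Sylow p S, (Q : Subgroup S).relIndex P ∣ p := by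
    intro Q
    obtain ⟨k, hk⟩ := H2.relIndex_eq_pow (Q := (Q : Subgroup S)) P.isPGroup'
    have h1 : (Q : Subgroup S).relIndex P ≤ Nat.card (Sylow p S) := by
      have h2 : (Q : Subgroup S).relIndex P = (nrm (Q : Subgroup S)).relIndex P := by
        rw [← inf_relIndex_left, ← inf_relIndex_left (P : Subgroup S) (nrm (Q : Subgroup S)),
          Sylow.coe_coe, P.isPGroup'.inf_normalizer_sylow Q]
      have h3 := MulAction.index_stabilizer (P : Subgroup S) Q
      rw [h2]
      refine le_trans (le_of_eq ?_) (h3.le.trans ?_)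
      · unfold relIndex
        congr 1
        ext x
        rw [mem_subgroupOf, MulAction.mem_stabilizer_iff]
        exact Sylow.smul_eq_iff_mem_normalizer.symm
      · rw [← Set.ncard_univ]; exact Set.ncard_le_ncard (Set.subset_univ _)
    rw [hk] at h1 ⊢
    have h4 := (Nat.pow_lt_pow_iff_right hpp.one_lt).1 (h1.trans_lt hn)
    interval_cases k <;> simp
  have hc : IsMulCommutative P := by
    have h1 : ∀ Q : Sylow p S, ⁅(P : Subgroup S), (P : Subgroup S)⁆ ≤ Q := by
      intro Q
      rcases (Nat.dvd_prime hpp).1 (key Q) with h | h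
      · exact (comm_le_of_le le_rfl le_rfl).trans (relIndex_eq_one.1 h)
      · haveI := P.isPGroup'.isNilpotent
        have hm : IsCoatom ((Q : Subgroup S).subgroupOf P) :=
          H1.isCoatom_of_index_prime (by rw [← h] at hpp; exact hpp)
        haveI := Subgroup.NormalizerCondition.normal_of_coatom _
          Group.normalizerCondition_of_isNilpotent hm
        haveI : IsCyclic ((P : Subgroup S) ⧸ (Q : Subgroup S).subgroupOf P) :=
          isCyclic_of_prime_card (p := p) h
        rw [commutator_le]
        intro a ha b hb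
        have := (QuotientGroup.eq_one_iff (N := (Q : Subgroup S).subgroupOf P)
          ⁅(⟨a, ha⟩ : (P : Subgroup S)), ⟨b, hb⟩⁆).1 (by
            change QuotientGroup.mk' _ _ = 1
            rw [map_commutatorElement, commutatorElement_eq_one_iff_mul_comm]
            exact IsCyclic.isMulCommutative.is_comm.comm _ _)
        exact this
    have h2 : ⁅(P : Subgroup S), (P : Subgroup S)⁆ = ⊥ := by
      rw [eq_bot_iff, ← hO, H1.pCore_eq_iInf_sylow]; exact le_iInf h1
    exact isComm_iff.2 (comm_eq_bot.1 h2)
  obtain ⟨g, hg⟩ := Cfsg.Agent.S0060.result p P hc hO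
  have h5 := relIndex_mul_card_inf ((g • P : Sylow p S) : Subgroup S) P
  rw [inf_comm, show (P : Subgroup S) ⊓ (g • P : Sylow p S) = ⊥ from hg, card_bot, mul_one] at h5
  have h6 := key (g • P)
  rw [h5] at h6
  exact Nat.dvd_antisymm h6 (P.dvd_card_of_dvd_card hp)

end Cfsg.Agent.S4343
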