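import Cfsg.Statements.S4344
import Mathlib
import Cfsg.Agent.H8.Misc1

set_option autoImplicit false
open Cfsg

namespace Cfsg.Agent.S4344

/-- Let S be a finite non-abelian simple group, M a maximal subgroup of S and C a cyclic normal subgroup of M. If a Sylow p-subgroup P of S (for a prime p dividing the order of S) is contained in C, then the number of Sylow p-subgroups of S equals the index of M. -/
theorem result {S : Type*} [Group S] [Finite S]
    [IsSimpleGroup S] (hS : ¬ IsMulCommutative S) (p : ℕ) [Fact p.Prime] (hp : p ∣ Nat.card S)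
    (M : Subgroup S) (hM : IsCoatom M) (C : Subgroup S) (hCM : C ≤ M) (hCn : (C.subgroupOf M).Normal)
    (hC : IsCyclic C) (P : Sylow p S) (hP : (P : Subgroup S) ≤ C) :
    Nat.card (Sylow p S) = M.index := by
  rw [P.card_eq_index_normalizer]
  have hPne : (P : Subgroup S) ≠ ⊥ := P.ne_bot_of_dvd_card hp
  have hMC : M ≤ Subgroup.normalizer (C : Set S) :=
    (Subgroup.normal_subgroupOf_iff_le_normalizer hCM).1 hCn
  haveI : Group.IsNilpotent C := by
    haveI := hC
    exact H1.isNilpotent_of_isMulCommutative C
  have h1 : M ≤ Subgroup.normalizer ((P : Subgroup S) : Set S) :=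
    hMC.trans (H1.isSylowIn_of_le P hP).normalizer_le_of_isNilpotent
  rcases (hM.le_iff).1 h1 with h | h
  · exfalso
    have hn : (P : Subgroup S).Normal := Subgroup.normalizer_eq_top_iff.1 h
    rcases hn.eq_bot_or_eq_top with h2 | h2
    · exact hPne h2
    · apply hM.1
      rw [eq_top_iff, ← h2]; exact hP.trans hCM
  · exact congrArg Subgroup.index h

end Cfsg.Agent.S4344
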