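import Cfsg.Statements.S4345
import Mathlib
import Cfsg.Agent.H8.SylNum

set_option autoImplicit false
open Cfsg

namespace Cfsg.Agent.S4345

/-- Let G be a finite solvable group and p, ℓ primes. Then the largest power of ℓ dividing the number of Sylow p-subgroups of G is congruent to 1 modulo p. -/
theorem result {G : Type*} [Group G] [Finite G]
    (hG : Group.IsSolvable G) (p ℓ : ℕ) [Fact p.Prime] (hℓ : ℓ.Prime) :
    ℓ ^ (Nat.card (Sylow p G)).factorization ℓ ≡ 1 [MOD p] := by
  obtain ⟨l, h1, h2⟩ := H8.hall_sylnum (p := p) _ G rfl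
  have hp : p.Prime := Fact.out
  rw [← h1]
  have h3 : ∀ m ∈ l, m ≠ 0 ∧ ℓ ^ m.factorization ℓ ≡ 1 [MOD p] := by
    intro m hm
    rcases h2 m hm with ⟨h, h'⟩ | ⟨S, _, _, a, b, c⟩
    · refine ⟨h.ne_zero, ?_⟩
      obtain ⟨q, k, hq, hk, rfl⟩ := (isPrimePow_nat_iff _).1 h
      by_cases e : q = ℓ
      · subst e
        rw [Nat.factorization_pow_self hq, Nat.ModEq, h', Nat.mod_eq_of_lt hp.one_lt]
      · rw [hq.factorization_pow, Finsupp.single_eq_of_ne (Ne.symm e), pow_zero]
    · haveI := b hG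
      have hc : IsMulCommutative S := ⟨⟨IsSimpleGroup.comm_iff_isSolvable.2 inferInstance⟩⟩
      obtain ⟨P⟩ : Nonempty (Sylow p S) := inferInstance
      have : m = 1 := by
        rw [c, Sylow.card_eq_index_normalizer P, Subgroup.index_eq_one, ← Sylow.coe_coe,
          Subgroup.normalizer_eq_top]
      subst this
      simp [Nat.ModEq]
  clear h1 h2
  induction l with
  | nil => simp [Nat.ModEq]
  | cons a l ih =>
    have h0 : l.prod ≠ 0 := List.prod_ne_zero fun h => (h3 0 (by simp [h])).1 rfl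
    rw [List.prod_cons, Nat.factorization_mul (h3 a (by simp)).1 h0, Finsupp.add_apply, pow_add]
    simpa using (h3 a (by simp)).2.mul (ih fun m hm => h3 m (by simp [hm]))

end Cfsg.Agent.S4345
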