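import Cfsg.Statements.S4370
import Cfsg.Agent.H1.Two5

set_option autoImplicit false
open Cfsg

namespace Cfsg.Agent.S4370

open H7 H1B Subgroup

/-- Let G be a finite non-abelian nilpotent group. Then the centralizer of every non-central element of G is cyclic if and only if G is isomorphic to the direct product of a generalized quaternion group and a cyclic group of odd order. -/
theorem result {G : Type*} [Group G] [Finite G] (hG : Group.IsNilpotent G)
    (hna : ¬ IsMulCommutative G) :
    (∀ x : G, x ∉ Subgroup.center G → IsCyclic (Subgroup.centralizer ({x} : Set G))) ↔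
      ∃ (k m : ℕ), 1 ≤ k ∧ Odd m ∧ Nonempty (G ≃* QuaternionGroup (2 ^ k) × Multiplicative (ZMod m)) := by
  refine ⟨fun h => ?_, fun ⟨k, m, hk, hm, ⟨e⟩⟩ x hx => ?_⟩
  · obtain ⟨x, hx⟩ : ∃ x : G, x ∉ center G := by
      by_contra! h'; exact hna ⟨⟨fun a b => mem_center_iff.1 (h' b) a⟩⟩
    have ab : ∀ A : Subgroup G, IsMulCommutative A → IsCyclic A := fun A hA => by
      by_cases hZ : A ≤ center G
      · exact cyc_of_le (hZ.trans (center_le_centralizer _)) (h x hx)
      · obtain ⟨y, hy, hyZ⟩ := SetLike.not_le_iff_exists.1 hZ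
        exact cyc_of_le ((isComm_iff.1 hA).trans (cen_le_cen1 hy)) (h y hyZ)
    obtain ⟨S⟩ : Nonempty (Sylow 2 G) := inferInstance
    haveI : (S : Subgroup G).Normal := Sylow.normal_of_normalizerCondition normalizerCondition_of_isNilpotent S
    obtain ⟨K, hK, c⟩ := (H2.hasNPC_iff_sylow S).1 (npc_top_iff.2 (npc_of_nilp inferInstance))
    have oK : Odd (ord K) := by
      rw [← c.index_eq_card, ← Nat.not_even_iff_odd, even_iff_two_dvd]; exact S.not_dvd_index
    haveI : IsZGroup K := ⟨fun p pp P => by
      haveI := Fact.mk pp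
      rcases cyc_or_quat (syl_sub P).isPGroup (rk1_of_cyc fun A _ => ab A) with h | ⟨rfl, a, n, h, -⟩
      · exact isCyclic_of_surjective _ (equivMapOfInjective _ _ K.subtype_injective).symm.surjective
      · exact (oK.not_two_dvd_nat ((h.card ▸ dvd_pow_self 2 (by omega)).trans
          (card_dvd_of_le (map_subtype_le _)))).elim⟩
    have cK : IsCyclic K := inferInstance
    have cm : K ≤ cen S := commutator_eq_bot_iff_le_centralizer.1 (eq_bot_iff.2
      ((commutator_le_inf _ _).trans c.disjoint.eq_bot.le))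
    rcases cyc_or_quat (syl_top S).isPGroup (rk1_of_cyc fun A _ => ab A) with h | ⟨-, a, n, h, h'⟩
    · refine (hna (comm_top'.1 (c.sup_eq_top ▸ isComm_iff.2 ?_))).elim
      rw [cen_sup]
      exact le_inf (sup_le (isComm_iff.1 inferInstance) (le_centralizer_iff.1 cm))
        (sup_le cm (isComm_iff.1 inferInstance))
    obtain ⟨b, hb, hba⟩ := h.ex
    obtain ⟨e⟩ := h.quat rfl hb hba (h' b hb hba)
    have cc : ∀ (s : (S : Subgroup G)) (k : K), Commute ((S : Subgroup G).subtype s) (K.subtype k) :=
      fun s k => mem_cen.1 (cm k.2) s s.2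
    exact ⟨n + 1, ord K, by omega, oK, ⟨(MulEquiv.ofBijective (MonoidHom.noncommCoprod _ _ cc)
      c.symm).symm.trans (e.prodCongr (zmodCyclicMulEquiv cK).symm)⟩⟩
  · obtain ⟨n, rfl⟩ := Nat.exists_eq_add_of_le' hk
    obtain ⟨h, h'⟩ := mx_quat n
    haveI : NeZero m := ⟨hm.pos.ne'⟩
    have nc : (e x).1 ∉ center _ := fun hc => hx (mem_center_iff.2 fun y => e.injective (by
      rw [map_mul, map_mul]; exact Prod.ext (mem_center_iff.1 hc _) (mul_comm _ _)))
    have cy : IsCyclic (cen1 (e x).1) := by
      generalize (e x).1 = q at nc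
      by_cases hq : q ∈ zpowers (QuaternionGroup.a 1)
      · refine cyc_of_le (B := zpowers (.a 1)) (fun y hy => ?_) inferInstance
        by_contra hya
        exact nc (mem_center_iff.2 fun g => mem_cen.1
          (h.mem_ctr.2 (h.cen_out trivial hya hq (mem_cen1.1 hy).symm)).2 g trivial)
      · refine cyc_of_le (B := zpowers q) ((le_inf le_top le_rfl).trans ((h.inf_cen1 trivial hq).le.trans
          (sup_le (zpowers_le.2 (h' q hq ▸ mul_mem (mem_zpowers q) (mem_zpowers q))) le_rfl))) inferInstance
    haveI : IsCyclic (cen1 (e x).1 × Multiplicative (ZMod m)) := by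
      obtain ⟨j, hj⟩ := card_pgroup (h.pgroup.to_le (le_top (a := cen1 (e x).1)))
      exact Group.isCyclic_prod_iff.2 ⟨cy, inferInstance, by
        rw [hj, Nat.card_congr Multiplicative.toAdd, Nat.card_zmod]; exact (Nat.coprime_two_left.2 hm).pow_left j⟩
    let f : cen1 x →* cen1 (e x).1 × Multiplicative (ZMod m) :=
      MonoidHom.prod ((((MonoidHom.fst _ _).comp e.toMonoidHom).comp (cen1 x).subtype).codRestrict _
        fun y => mem_cen1.2 (by
          have := congrArg (fun g => (e g).1) (mem_cen1.1 y.2)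
          simpa using this)) (((MonoidHom.snd _ _).comp e.toMonoidHom).comp (cen1 x).subtype)
    exact isCyclic_of_injective f fun y z hyz => Subtype.ext (e.injective (Prod.ext
      (congrArg (fun g => g.1.1) hyz) (congrArg (fun g => g.2) hyz :)))

end Cfsg.Agent.S4370
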