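import Cfsg.Statements.S4377
import Mathlib

set_option autoImplicit false
open Cfsg

namespace Cfsg.Agent.S4377

lemma card_pow_eq_sum {G : Type*} [Group G] [Finite G] {n : ℕ} (hn : n ≠ 0) :
    Nat.card {g : G // g ^ n = 1} = ∑ d ∈ n.divisors, Nat.card {g : G // orderOf g = d} := by
  classical
  have := Fintype.ofFinite G
  simp only [Nat.card_eq_fintype_card, Fintype.card_subtype]
  exact (sum_card_orderOf_eq_card_pow_eq_one hn).symm

lemma card_eq_finsum {G : Type*} [Group G] [Finite G] (N : ℕ) (hN : Nat.card G ≤ N) :
    Nat.card G = ∑ d ∈ Finset.range (N + 1), Nat.card {g : G // orderOf g = d} := by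
  classical
  have := Fintype.ofFinite G
  simp only [Nat.card_eq_fintype_card, Fintype.card_subtype]
  rw [← Finset.card_univ]
  apply Finset.card_eq_sum_card_fiberwise
  intro g _
  have := orderOf_le_card (x := g)
  simp only [Finset.coe_range, Set.mem_Iio]
  omega

/-- Two finite groups have the same number of elements of each order if and only if, for every n, they have the same number of elements g with gⁿ = 1. -/
theorem result {G H : Type*} [Group G] [Finite G] [Group H] [Finite H] :
    (∀ n : ℕ, Nat.card {g : G // orderOf g = n} = Nat.card {h : H // orderOf h = n}) ↔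
      ∀ n : ℕ, Nat.card {g : G // g ^ n = 1} = Nat.card {h : H // h ^ n = 1} := by
  constructor
  · intro h n
    rcases eq_or_ne n 0 with rfl | hn
    · simp only [pow_zero, Nat.card_congr (Equiv.subtypeUnivEquiv (fun _ => trivial))]
      exact (card_eq_finsum (G := G) (max (Nat.card G) (Nat.card H)) (le_max_left _ _)).trans
        ((Finset.sum_congr rfl fun d _ => h d).trans
        (card_eq_finsum (G := H) (max (Nat.card G) (Nat.card H)) (le_max_right _ _)).symm)
    · rw [card_pow_eq_sum hn, card_pow_eq_sum hn]
      exact Finset.sum_congr rfl fun d _ => h d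
  · intro h n
    induction n using Nat.strong_induction_on with
    | _ n ih =>
      rcases eq_or_ne n 0 with rfl | hn
      · haveI : IsEmpty {g : G // orderOf g = 0} := ⟨fun g => (orderOf_pos g.1).ne' g.2⟩
        haveI : IsEmpty {g : H // orderOf g = 0} := ⟨fun g => (orderOf_pos g.1).ne' g.2⟩
        rw [Nat.card_of_isEmpty, Nat.card_of_isEmpty]
      · have := h n
        rw [card_pow_eq_sum hn, card_pow_eq_sum hn, ← Nat.cons_self_properDivisors hn,
          Finset.sum_cons, Finset.sum_cons,
          Finset.sum_congr rfl fun d hd => ih d (Nat.mem_properDivisors.1 hd).2] at this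
        omega

end Cfsg.Agent.S4377
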