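import Cfsg.Statements.S4378
import Cfsg.Agent.H7.PLen

set_option autoImplicit false
open Cfsg

namespace Cfsg.Agent.S4378
open H7
open scoped commutatorElement

section
open Subgroup

theorem main {p : ℕ} [hp : Fact p.Prime] (n : ℕ) : ∀ {G : Type*} [Group G] [Finite G] (H : Subgroup G), Nat.card H < n →
    Cfsg.IsPSolvable p H → (∀ M, M < H → (∀ L, M ≤ L → L ≤ H → L = M ∨ L = H) → NPC p M ∨ (M.relIndex H).Prime) →
    Lp p 1 (Ores {p} H) = ⊥ := by
  induction n with
  | zero => intro _ _ _ _ h; exact absurd h (Nat.not_lt_zero _)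
  | succ n ih =>
    intro G _ _ H hn s hm
    by_contra ne
    have key : ∀ N ≤ H, H ≤ normalizer (N : Set G) → N ≠ ⊥ → Lp p 1 (Ores {p} H) ≤ N := fun N lN nN N0 => by
      rw [Lp_le_iff ((Ores_le _ _).trans nN), im_Ores nN]
      refine ih _ (lt_of_lt_of_le (card_im_lt nN (by rwa [kr_qm, inf_eq_right.2 lN])) (by omega)) (ps_im s nN)
        fun M a b => ?_
      have l : pre (qm N) M ≤ H := by
        rw [← pre_im_of_le (f := qm N) nN ((kr_qm N).le.trans lN)]; exact pre_mono _ a.le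
      have e := im_pre_of_le a.le
      refine (hm (pre (qm N) M) (lt_of_le_of_ne l fun k => a.ne (by rw [← e, k])) fun L c d => ?_).imp
        (fun k => e ▸ k.im (l.trans nN)) fun k => by rwa [relIndex_pre nN] at k
      have k : ∀ X, L ≤ X → X ≤ H → im (qm N) L = im (qm N) X → L = X := fun X u v w => by
        have kL := (kr_le_pre _ _).trans c
        rw [← pre_im_of_le (d.trans nN) kL, w, pre_im_of_le (v.trans nN) (kL.trans u)]
      rcases b (im (qm N) L) (e ▸ im_mono _ c) (im_mono _ d) with u | u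
      · left; rw [← u, pre_im_of_le (d.trans nN) ((kr_le_pre _ _).trans c)]
      · exact Or.inr (k H d le_rfl u)
    have nX := nrm_Ores (π := {p}) (le_nrm_self H)
    have lX := Ores_le {p} H
    generalize dX : Ores {p} H = X at *
    have nY := nrm_Dp (p := p) nX
    have eY : Ores {p} (Dp p X) = Dp p X := Ores_Ores
    have lY := (Dp_le (p := p)).trans lX
    have eR : Lp p 1 X = Ores {p}ᶜ (Dp p X) := rfl
    generalize Dp p X = Y at *
    have nR : H ≤ normalizer ((Lp p 1 X : Subgroup G) : Set G) := nrm_Lp nX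
    have lR : Lp p 1 X ≤ Y := eR ▸ Ores_le _ _
    generalize dR : Lp p 1 X = R at *
    have hO : Op' p H = ⊥ := by_contra fun h => ne (by
      rw [eR, ← Ores_Ores, ← eR, Ores_eq_bot]
      exact piN_compl_iff.2 (coprime_of_le (key _ (Opi_le _ _) (le_nrm_Opi _ _) h) (coprime_Op' p H)))
    have h1 : Op p H ≠ ⊥ := fun e => ne (eq_bot_of_le (lR.trans lY) (by simpa [e] using ps_chP s hO))
    have pP := isPGroup_Op p H
    have lZ := key _ (inf_le_left.trans (Opi_le _ _)) (nrm_center (le_nrm_Opi _ _))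
      (pgroup_inf_cen_ne_bot' pP pP (le_nrm_self _) h1)
    have pR := pP.to_le (lZ.trans inf_le_left)
    have cR : R ≤ centralizer (R : Set G) := (lZ.trans inf_le_right).trans (cen_anti (lZ.trans inf_le_left))
    have iR : (R.relIndex Y).Coprime p := piN_compl_iff.1 (eR ▸ piN_Ores)
    obtain ⟨K, k1, -, k3⟩ := exists_compl lR (lY.trans nR) ((piN_iff_isPGroup.2 pR).coprime (piN_compl_iff.2 iR))
    have cK : (Nat.card K).Coprime p := k3 ▸ iR
    have lK := le_sup_left.trans k1.le
    have fr : R ⊔ H ⊓ normalizer (K : Set G) = H := le_antisymm (sup_le (lR.trans lY) inf_le_left) fun g hg => by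
      have l := (cj_mono g lK).trans (cj_of_mem_nrm (nY hg)).le
      obtain ⟨r, hr, e⟩ := sz_conj_le (cop_of_pgroup' (by rwa [H2.card_cj]) pR ((l.trans lY).trans nR)) ((lK.trans lY).trans nR)
        (l.trans k1.ge) (coprime_of_isPGroup pR cK)
      rw [← cj_mul] at e
      rw [← inv_mul_cancel_left r g]
      exact mul_mem (mem_sup_left (inv_mem hr)) (mem_sup_right ⟨mul_mem (lY (lR hr)) hg, mem_nrm_of_cj_le e⟩)
    have lt : H ⊓ normalizer (K : Set G) < H := lt_of_le_of_ne inf_le_left fun e => ne (by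
      have : K = ⊥ := eq_bot_of_le (le_Op' (lK.trans lY) (inf_eq_left.1 e) cK) hO
      rw [this, bot_sup_eq] at k1
      rw [k1, ← eY, Ores_eq_bot]; exact piN_iff_isPGroup.2 (k1 ▸ pR))
    obtain ⟨M, m1, m2, m3⟩ := exists_max_lt lt
    have eH : R ⊔ M = H := le_antisymm (sup_le (lR.trans lY) m2.le) (fr.ge.trans (sup_le_sup_left m1 _))
    have tr : ∀ N ≤ M, M ≤ normalizer (N : Set G) → N ≤ centralizer (R : Set G) → N = ⊥ := fun N a b c => by_contra fun h =>
      m2.not_ge (eH.ge.trans (sup_le ((key N (a.trans m2.le) (eH ▸ sup_le (le_nrm_of_le_cen (le_cen_symm c)) b) h).trans a) le_rfl))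
    suffices Ores {p}ᶜ X ≤ R from ne (dR ▸ eq_bot_of_le (Lp_Ores.ge.trans (Lp_mono this)) (Lp_one_of_pgroup pR))
    have nM := m2.le.trans nR
    rcases hm M m2 m3 with h | h
    · refine (Lp_le_iff (k := 0) (lX.trans nR)).2 (Lp_of_coprime ?_)
      rw [← dX, im_Ores nR, ← eH, im_sup (le_nrm_self _) nM, (im_qm_eq_bot (le_nrm_self _)).2 le_rfl, bot_sup_eq,
        ← im_Ores nM]
      exact coprime_im _ (coprime_of_le ((Ores_le_iff (le_nrm_Opi _ _)).2 h.relIndex) (coprime_Op' p M))
    · have i := tr (R ⊓ M) inf_le_right (nrm_inf nM (le_nrm_self M)) (inf_le_left.trans cR)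
      have oR : (Nat.card R).Prime := by
        have a := H2.card_sup_mul_card_inf nM
        have b := H2.card_mul_relIndex m2.le
        rw [sup_comm, eH, inf_comm, i, card_bot, mul_one, ← b] at a
        rwa [Nat.eq_of_mul_eq_mul_left Nat.card_pos a] at h
      obtain ⟨S, sS⟩ := H2.exists_isSylowIn p H
      haveI := Fact.mk oR
      have c : R ≤ centralizer (S : Set G) := inf_eq_left.1 (((R ⊓ centralizer (S : Set G)).subgroupOf R).eq_bot_or_eq_top_of_prime_card.elim
        (fun e => absurd (by rwa [subgroupOf_eq_bot, disjoint_iff, inf_eq_left.2 inf_le_left] at e)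
          (pgroup_inf_cen_ne_bot' sS.isPGroup pR (sS.le.trans nR) ne)) fun e => le_antisymm inf_le_left (subgroupOf_eq_top.1 e))
      have l : S ≤ R := by
        have := modular' (C := H ⊓ centralizer (R : Set G)) nM (le_inf (lR.trans lY) cR)
        rw [eH, tr _ inf_le_left (nrm_inf (le_nrm_self M) (nrm_inf (m2.le.trans (le_nrm_self H)) (nrm_cen nM)))
          (inf_le_right.trans inf_le_right), sup_bot_eq] at this
        exact (le_inf sS.le (le_inf sS.le (le_cen_symm c))).trans this.le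
      exact (Ores_mono lX).trans ((Ores_le_iff nR).2 (piN_compl_iff'.2 fun d =>
        sS.not_dvd (d.trans (relIndex_dvd_of_le_left _ l))))

theorem chain {p : ℕ} [hp : Fact p.Prime] {G : Type*} [Group G] [Finite G] (hG : Cfsg.IsPSolvable p G)
    (hmax : ∀ M : Subgroup G, IsCoatom M → (∃ K : Subgroup M, K.Normal ∧ ¬ p ∣ Nat.card K ∧ ∃ k : ℕ, K.index = p ^ k) ∨
      (M.index).Prime) : ∃ A B C : Subgroup G, A.Normal ∧ B.Normal ∧ C.Normal ∧ A ≤ B ∧ B ≤ C ∧ ¬ p ∣ Nat.card A ∧
      (∃ k : ℕ, A.relIndex B = p ^ k) ∧ ¬ p ∣ B.relIndex C ∧ ∃ k : ℕ, C.index = p ^ k := by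
  have := main _ (⊤ : Subgroup G) (Nat.lt_succ_self _) (ps_top.2 hG) fun M a b => by
    rw [relIndex_top_right]
    refine (hmax M ⟨a.ne, fun L c => (b L c.le le_top).resolve_left c.ne'⟩).imp_left fun ⟨K, k1, k2, k, k3⟩ => ?_
    refine npc_of_relIndex (le_nrm_map_subtype K) (by rw [card_map_subtype]; exact coprime_iff_not_dvd.2 k2) ?_
    rw [relIndex, ← comap_subtype, comap_map_eq_self_of_injective M.subtype_injective, k3]
    exact piN_pow k
  have nC := nrm_Ores (π := {p}) (le_nrm_self (⊤ : Subgroup G))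
  have nB := nrm_Ores (π := {p}ᶜ) nC
  refine ⟨_, _, _, normal_iff_top_le_nrm.2 (nrm_Ores (π := {p}) nB), normal_iff_top_le_nrm.2 nB,
    normal_iff_top_le_nrm.2 nC, Ores_le _ _, Ores_le _ _, piN_compl_iff'.1 (Ores_eq_bot.1 this),
    (piN_single_iff H2.relIndex_pos.ne').1 piN_Ores, piN_compl_iff'.1 piN_Ores, ?_⟩
  rw [← relIndex_top_right]
  exact (piN_single_iff H2.relIndex_pos.ne').1 piN_Ores

end

/-- Let G be a finite solvable group in which every maximal subgroup either has a normal 2-complement or has prime index. Then G has a chain of normal subgroups 1 ≤ A ≤ B ≤ C ≤ G in which A and C/B have odd order and B/A and G/C are 2-groups (so the 2-length of G is at most 2). -/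
theorem result {G : Type*} [Group G] [Finite G]
    (hG : Group.IsSolvable G)
    (hmax : ∀ M : Subgroup G, IsCoatom M → (∃ K : Subgroup ↥M, K.Normal ∧ ¬ 2 ∣ Nat.card K ∧ ∃ k : ℕ, K.index = 2 ^ k) ∨ (M.index).Prime) :
    ∃ A B C : Subgroup G, A.Normal ∧ B.Normal ∧ C.Normal ∧ A ≤ B ∧ B ≤ C ∧ Odd (Nat.card A) ∧
      (∃ k : ℕ, A.relIndex B = 2 ^ k) ∧ Odd (B.relIndex C) ∧ ∃ k : ℕ, C.index = 2 ^ k := by
  open Subgroup in
  obtain ⟨A, B, C, h1, h2, h3, h4, h5, h6, h7, h8, h9⟩ := chain (p := 2) (ps_top.1 (ps_of_solv inferInstance)) hmax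
  exact ⟨A, B, C, h1, h2, h3, h4, h5, Nat.odd_iff.2 (by omega), h7, Nat.odd_iff.2 (by omega), h9⟩

end Cfsg.Agent.S4378
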