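import Cfsg.Statements.S4381
import Cfsg.Agent.H2.Ms2

set_option autoImplicit false
open Pointwise
open Cfsg

namespace Cfsg.Agent.S4381

open Subgroup hiding upperCentralSeries
open H2 Cfsg.FusionSystem

open Subgroup H2 H7 H1B

/-- Let the finite group A act by automorphisms on the finite group G with the orders of A and G coprime, and assume that A or G is solvable. Call a proper A-invariant subgroup of G maximal A-invariant when no A-invariant subgroup lies strictly between it and G. Then all maximal A-invariant subgroups of G are conjugate under elements of the fixed-point subgroup C_G(A) if and only if G is a p-group for some prime p and A leaves invariant no subgroup strictly between the Frattini subgroup of G and G. In that case, if G is nontrivial, the Frattini subgroup is the only maximal A-invariant subgroup (a trivial G has none). -/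
theorem result {A G : Type*} [Group A] [Finite A]
    [Group G] [Finite G] [MulDistribMulAction A G] (hcop : (Nat.card A).Coprime (Nat.card G)) (hsol : Group.IsSolvable A ∨ Group.IsSolvable G) :
    ((∀ M N : Subgroup G, (M ≠ ⊤ ∧ (∀ a : A, ∀ x ∈ M, a • x ∈ M) ∧ ∀ L : Subgroup G, M < L → (∀ a : A, ∀ x ∈ L, a • x ∈ L) → L = ⊤) → (N ≠ ⊤ ∧ (∀ a : A, ∀ x ∈ N, a • x ∈ N) ∧ ∀ L : Subgroup G, N < L → (∀ a : A, ∀ x ∈ L, a • x ∈ L) → L = ⊤) →
        ∃ c : G, (∀ a : A, a • c = c) ∧ N = MulAut.conj c • M) ↔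
      ((∃ p : ℕ, p.Prime ∧ IsPGroup p G) ∧ ∀ L : Subgroup G, frattini G < L → (∀ a : A, ∀ x ∈ L, a • x ∈ L) → L = ⊤)) ∧
    (((∃ p : ℕ, p.Prime ∧ IsPGroup p G) ∧ ∀ L : Subgroup G, frattini G < L → (∀ a : A, ∀ x ∈ L, a • x ∈ L) → L = ⊤) →
      ∀ M : Subgroup G, (M ≠ ⊤ ∧ (∀ a : A, ∀ x ∈ M, a • x ∈ M) ∧ ∀ L : Subgroup G, M < L → (∀ a : A, ∀ x ∈ L, a • x ∈ L) → L = ⊤) ↔ (M = frattini G ∧ M ≠ ⊤)) := by
  have two : ((∃ p : ℕ, p.Prime ∧ IsPGroup p G) ∧ ∀ L : Subgroup G, frattini G < L → XInv A L → L = ⊤) →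
      ∀ M : Subgroup G, (M ≠ ⊤ ∧ XInv A M ∧ ∀ L : Subgroup G, M < L → XInv A L → L = ⊤) ↔
        (M = frattini G ∧ M ≠ ⊤) := fun h M => ⟨fun ⟨a, b, c⟩ => ⟨by
      have l : frattini G ≤ M := by_contra fun n =>
        a (frattini_nongenerating (c _ (left_lt_sup.2 n) (b.sup (xinv_char _))))
      exact (l.eq_or_lt.resolve_right fun l => a (h.2 M l b)).symm, a⟩, by
      rintro ⟨rfl, a⟩; exact ⟨a, xinv_char _, h.2⟩⟩
  refine ⟨⟨fun h => ?_, fun h M N a b => ⟨1, fun _ => smul_one _, ?_⟩⟩, two⟩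
  swap
  · rw [map_one, one_smul, ((two h M).1 a).1, ((two h N).1 b).1]
  have pG : ∃ p : ℕ, p.Prime ∧ IsPGroup p G := by
    by_contra c
    obtain ⟨M, -, hM⟩ := exists_max_xinv (A := A) (L := (⊥ : Subgroup G)) (fun e => c ⟨2, Nat.prime_two,
      (IsPGroup.of_bot.to_le e.ge).of_equiv topEquiv⟩) (xinv_char _)
    refine hM.1 (top_le_iff.1 (le_of_sylows_le fun q hq _ => ?_))
    haveI := Fact.mk hq
    obtain ⟨P, hP, i⟩ := exists_xinv_syl hcop q
    obtain ⟨N, l, hN⟩ := exists_max_xinv (fun e => c ⟨q, hq, (e ▸ hP.isPGroup).of_equiv topEquiv⟩) i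
    obtain ⟨g, -, e⟩ := h N M hN hM
    exact ⟨_, syl_cj_of_mem hP (g := g) (by simp), (H7.cj_mono g l).trans e.ge⟩
  refine ⟨pG, fun L l i => by_contra fun n => ?_⟩
  obtain ⟨p, hp, pG⟩ := pG
  haveI := Fact.mk hp
  obtain ⟨K, a, b, c⟩ := xmaschke hcop pG l.le i
  obtain ⟨M, l1, hM⟩ := exists_max_xinv n i
  obtain ⟨N, l2, hN⟩ := exists_max_xinv (fun e => l.ne' (by rwa [e, top_inf_eq] at b)) a
  obtain ⟨g, -, e⟩ := h M N hM hN
  have : cj g M = M := cj_of_mem_nrm (le_nrm_of_comm_le' le_top ((comm_le_Phi (nilp_of_isPGroup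
    (pG.to_subgroup ⊤))).trans (Phi_top.le.trans (l.le.trans l1))) (mem_top g))
  exact hM.1 (top_le_iff.1 (c.ge.trans (sup_le (l2.trans (e.trans this).le) l1)))

end Cfsg.Agent.S4381
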