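import Cfsg.Statements.S4387
import Mathlib
import Cfsg.Agent.H8.Misc1

set_option autoImplicit false
open Pointwise
open Cfsg

namespace Cfsg.Agent.S4387

/-- Let G be a non-trivial finite group in which any two maximal subgroups are conjugate. Then G is cyclic of prime-power order. -/
theorem result {G : Type*} [Group G] [Finite G] [Nontrivial G]
    (h : ∀ M N : Subgroup G, IsCoatom M → IsCoatom N → ∃ g : G, N = MulAut.conj g • M) :
    IsCyclic G ∧ IsPrimePow (Nat.card G) := by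
  obtain ⟨M, hM, -⟩ := H1.exists_coatom_ge (H := (⊥ : Subgroup G)) bot_ne_top
  obtain ⟨x, hx⟩ := H8.exists_not_mem_conj hM.1
  have hz : Subgroup.zpowers x = ⊤ := by
    by_contra hne
    obtain ⟨N, hN, hle⟩ := H1.exists_coatom_ge hne
    obtain ⟨g, rfl⟩ := h M N hM hN
    exact hx g (H1.mem_conj_smul.1 (hle (Subgroup.mem_zpowers x)))
  haveI hc : IsCyclic G := ⟨x, fun y => by
    show y ∈ Subgroup.zpowers x
    rw [hz]; trivial⟩
  refine ⟨hc, ?_⟩
  haveI : Group.IsSolvable G := H1.isSolvable_of_isMulCommutative G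
  obtain ⟨p, k, hp, hk, hpk⟩ := (isPrimePow_nat_iff _).1 (H8.isPrimePow_index_of_isCoatom hM)
  rw [isPrimePow_iff_unique_prime_dvd]
  refine ⟨p, ⟨hp, (dvd_pow_self p hk.ne').trans (hpk ▸ M.index_dvd_card)⟩, ?_⟩
  rintro q ⟨hq, hqd⟩
  haveI := Fact.mk hq
  by_contra hne
  obtain ⟨P⟩ : Nonempty (Sylow p G) := inferInstance
  haveI := Fact.mk hp
  -- a Sylow p-subgroup is proper, so lies in a maximal subgroup of index a power of p
  have hP : (P : Subgroup G) ≠ ⊤ := by
    intro ht
    have h1 := P.card_eq_multiplicity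
    rw [ht, Subgroup.card_top] at h1
    rw [h1] at hqd
    exact hne ((Nat.prime_dvd_prime_iff_eq hq hp).1 (hq.dvd_of_dvd_pow hqd))
  obtain ⟨N, hN, hle⟩ := H1.exists_coatom_ge hP
  obtain ⟨g, rfl⟩ := h M N hM hN
  apply P.not_dvd_index
  refine Dvd.dvd.trans ?_ (Subgroup.index_dvd_of_le hle)
  rw [H1.index_conj_smul, ← hpk]
  exact dvd_pow_self p hk.ne'

end Cfsg.Agent.S4387
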