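import Cfsg.Statements.S4397
import Cfsg.Agent.H1.MC
import Cfsg.Agent.H1.U2
import Cfsg.Agent.H7.Tk3

set_option autoImplicit false
open Cfsg

namespace Cfsg.Agent.S4397

open H7 H1B Subgroup
open scoped commutatorElement

theorem mem_z2 {G : Type*} [Group G] [Finite G] {z x : G} (h : z ^ 2 = 1) (hx : x ∈ zpowers z) : x = 1 ∨ x = z := by
  obtain ⟨k, rfl⟩ := exists_npow hx
  rcases Nat.even_or_odd' k with ⟨j, rfl | rfl⟩
  · left; rw [pow_mul, h, one_pow]
  · right; rw [pow_succ, pow_mul, h, one_pow, one_mul]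

theorem two_le {G : Type*} [Group G] [Finite G] {A B : Subgroup G} (h : A < B) : 2 * ord A ≤ ord B := by
  obtain ⟨k, hk⟩ := card_dvd_of_le h.le
  have := H7.card_lt_of_lt h
  have h0 := card_pos' A
  rw [hk] at this ⊢
  rcases k with _ | _ | k
  · omega
  · omega
  · nlinarith

theorem e8 {G : Type*} [Group G] [Finite G] (h : ∀ L : Subgroup G, ∃ a b, zpowers a ⊔ zpowers b = L) {u v z : G}
    (hu : u ^ 2 = 1) (hv : v ^ 2 = 1) (hz : z ^ 2 = 1) (z1 : z ≠ 1) (c : ∀ g, z * g = g * z) (uv : ∀ g, u * g = g * u)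
    (h1 : v ∉ zpowers z) : u ∈ zpowers v ⊔ zpowers z := by
  by_contra h2
  have l1 := two_le (A := ⊥) (B := zpowers z) (bot_lt_iff_ne_bot.2 (zpowers_ne_bot.2 z1))
  have l2 := two_le (A := zpowers z) (B := zpowers v ⊔ zpowers z) (right_lt_sup.2 (mt zpowers_le.1 h1))
  have l3 := two_le (A := zpowers v ⊔ zpowers z) (B := zpowers u ⊔ (zpowers v ⊔ zpowers z))
    (right_lt_sup.2 (mt zpowers_le.1 h2))
  have cz : ∀ A : Subgroup G, A ≤ cen (zpowers z) := fun A g _ => by rw [cen_zpowers]; exact mem_cen1.2 (c g).symm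
  have cu : ∀ A : Subgroup G, A ≤ cen (zpowers u) := fun A g _ => by rw [cen_zpowers]; exact mem_cen1.2 (uv g).symm
  have sq : ∀ g ∈ zpowers u ⊔ (zpowers v ⊔ zpowers z), g ^ 2 = 1 := fun g hg => by
    obtain ⟨x, hx, y, hy, rfl⟩ := (mem_sup_nrm' (le_nrm_of_le_cen (cu _))).1 hg
    obtain ⟨s, hs, t, ht, rfl⟩ := (mem_sup_nrm (le_nrm_of_le_cen (cz _))).1 hy
    have e1 : Commute x (s * t) := (comm_of_le_cen (cu ⊤) (mem_top _) hx).symm
    have e2 : Commute s t := comm_of_le_cen (cz ⊤) (mem_top _) ht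
    rw [e1.mul_pow, e2.mul_pow]
    rcases mem_z2 hu hx with rfl | rfl <;> rcases mem_z2 hv hs with rfl | rfl <;> rcases mem_z2 hz ht with rfl | rfl <;>
      simp [*]
  obtain ⟨a, b, e⟩ := h (zpowers u ⊔ (zpowers v ⊔ zpowers z))
  have ha := e.le (mem_sup_left (mem_zpowers a))
  have hb := e.le (mem_sup_right (mem_zpowers b))
  have ab : a * b = b * a := by
    have h1 := sq a ha; have h2 := sq b hb; have h3 := sq _ (mul_mem ha hb)
    rw [pow_two] at h1 h2 h3
    calc a * b = a * (a * b * (a * b)) * b := by rw [h3, mul_one]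
      _ = a * a * (b * a) * (b * b) := by group
      _ = b * a := by rw [h1, h2, one_mul, mul_one]
  have d := card_sup_dvd (A := zpowers a) (B := zpowers b)
    (le_nrm_of_le_cen (zpowers_le.2 (by rw [cen_zpowers]; exact mem_cen1.2 ab)))
  have oa := Nat.le_of_dvd two_pos (orderOf_dvd_of_pow_eq_one (sq a ha))
  have ob := Nat.le_of_dvd two_pos (orderOf_dvd_of_pow_eq_one (sq b hb))
  rw [e, Nat.card_zpowers, Nat.card_zpowers] at d
  have := Nat.le_of_dvd (Nat.mul_pos (orderOf_pos a) (orderOf_pos b)) d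
  rw [Subgroup.card_bot] at l1
  nlinarith

theorem fin2 {G : Type*} [Group G] [Finite G] (hG : IsPGroup 2 G)
    (h : ∀ L : Subgroup G, ∃ a b, zpowers a ⊔ zpowers b = L) {z : G} (hz : z ^ 2 = 1) (z1 : z ≠ 1)
    (c : ∀ g, z * g = g * z) (hd : ∀ x y : G, ⁅x, y⁆ ∈ zpowers z) (na : ¬ (⊤ : Subgroup G) ≤ cen ⊤) (n : ℕ) :
    ∀ a b : G, orderOf a + orderOf b = n → zpowers a ⊔ zpowers b = ⊤ →
      ∃ x y : G, zpowers x ⊔ zpowers y = ⊤ ∧ z ∈ zpowers x := by
  induction n using Nat.strong_induction_on with | _ n ih =>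
  intro a b hn e
  wlog w : orderOf b ≤ orderOf a generalizing a b
  · exact this b a (by omega) (by rwa [sup_comm]) (by omega)
  by_cases za : z ∈ zpowers a
  · exact ⟨a, b, e, za⟩
  by_cases zb : z ∈ zpowers b
  · exact ⟨b, a, by rwa [sup_comm], zb⟩
  have ab : ⁅a, b⁆ = z := (mem_z2 hz (hd a b)).resolve_left fun k => na (by
    have k' := commutatorElement_eq_one_iff_mul_comm.1 k
    rw [← e, cen_sup, cen_zpowers, cen_zpowers]
    exact sup_le (zpowers_le.2 ⟨self_mem_cen1 a, mem_cen1.2 k'⟩) (zpowers_le.2 ⟨mem_cen1.2 k'.symm, self_mem_cen1 b⟩))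
  obtain ⟨m, hm⟩ := IsPGroup.iff_orderOf.1 hG a
  obtain ⟨k, hk⟩ := IsPGroup.iff_orderOf.1 hG b
  have km : k ≤ m := by rwa [hm, hk, Nat.pow_le_pow_iff_right one_lt_two] at w
  rcases k with _ | k
  · rw [pow_zero, orderOf_eq_one_iff] at hk
    rw [hk, commutatorElement_one_right] at ab
    exact (z1 ab.symm).elim
  rcases m with _ | _ | m
  · omega
  · obtain rfl : k = 0 := by omega
    have a2 : a * a = 1 := by rw [← pow_two]; exact (show 2 = orderOf a from hm.symm) ▸ pow_orderOf_eq_one a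
    have b2 : b * b = 1 := by rw [← pow_two]; exact (show 2 = orderOf b from hk.symm) ▸ pow_orderOf_eq_one b
    refine ⟨a * b, b, top_le_iff.1 (e.ge.trans (sup_le (zpowers_le.2 ?_) le_sup_right)), 2, ?_⟩
    · exact (mul_mem_cancel_right (mem_sup_right (mem_zpowers b))).1 (mem_sup_left (mem_zpowers _))
    · rw [← ab, commutatorElement_def, inv_eq_of_mul_eq_one_left a2, inv_eq_of_mul_eq_one_left b2]
      simp only [zpow_two, mul_assoc]
  haveI : (zpowers z).Normal := normal_of (le_nrm_of_le_cen fun g _ => by rw [cen_zpowers]; exact mem_cen1.2 (c g).symm)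
  have sq : ∀ x g : G, x ^ 2 * g = g * x ^ 2 := fun x g => by
    rcases mem_z2 hz (hd x g) with k | k
    · exact ((show Commute x g from commutatorElement_eq_one_iff_mul_comm.1 k).pow_left 2).eq
    · have k' : x * g = z * (g * x) := by rw [← k, commutatorElement_def]; group
      calc x ^ 2 * g = x * (x * g) := by rw [pow_two, mul_assoc]
        _ = x * (z * (g * x)) := by rw [k']
        _ = z * (x * g) * x := by rw [← mul_assoc x, ← c x]; simp only [mul_assoc]
        _ = z ^ 2 * (g * x ^ 2) := by rw [k', pow_two, pow_two]; simp only [mul_assoc]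
        _ = _ := by rw [hz, one_mul]
  have nz : ∀ (x : G) j, orderOf x = 2 ^ (j + 1) → z ∉ zpowers x → x ^ 2 ^ j ∉ zpowers z := fun x j o zx k => by
    rcases mem_z2 hz k with k | k
    · have := Nat.le_of_dvd (by positivity) (orderOf_dvd_of_pow_eq_one k)
      rw [o, pow_succ] at this
      have : 0 < 2 ^ j := by positivity
      omega
    · exact zx (k ▸ npow_mem_zpowers x _)
  have p2 : ∀ (x : G) j, orderOf x = 2 ^ (j + 1) → (x ^ 2 ^ j) ^ 2 = 1 := fun x j o => by
    rw [← pow_mul, ← pow_succ, ← o, pow_orderOf_eq_one]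
  have k1 := e8 h (p2 a _ hm) (p2 b _ hk) hz z1 c (fun g => by rw [pow_succ, pow_mul]; exact sq _ g) (nz b _ hk zb)
  obtain ⟨s, hs, t, ht, st⟩ := (mem_sup_nrm (le_nrm_of_normal _ _)).1 k1
  obtain rfl := (mem_z2 (p2 b _ hk) hs).resolve_left fun s1 => nz a _ hm za (by rwa [← st, s1, one_mul])
  have cm : ∀ x y : G, Commute (QuotientGroup.mk' (zpowers z) x) (QuotientGroup.mk' (zpowers z) y) := fun x y =>
    commutatorElement_eq_one_iff_commute.1 (by rw [← map_commutatorElement]; exact (QuotientGroup.eq_one_iff _).2 (hd x y))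
  have k2 : (b * (a ^ 2 ^ (m + 1 - k))⁻¹) ^ 2 ^ k ∈ zpowers z := by
    refine (QuotientGroup.eq_one_iff _).1 (?_ : QuotientGroup.mk' (zpowers z) _ = 1)
    rw [map_pow, map_mul, (cm _ _).mul_pow, ← map_pow, ← map_pow, inv_pow, ← pow_mul, ← pow_add,
      show m + 1 - k + k = m + 1 by omega, ← st, ← map_mul, mul_inv_rev, ← mul_assoc, map_mul, map_mul, (cm _ t⁻¹).eq,
      ← map_mul, ← map_mul, mul_inv_cancel_right]
    exact (QuotientGroup.eq_one_iff _).2 (inv_mem ht)
  have e' : zpowers a ⊔ zpowers (b * (a ^ 2 ^ (m + 1 - k))⁻¹) = ⊤ :=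
    top_le_iff.1 (e.ge.trans (sup_le le_sup_left (zpowers_le.2 ((mul_mem_cancel_right
      (inv_mem (mem_sup_left (npow_mem_zpowers a _)))).1 (mem_sup_right (mem_zpowers _))))))
  rcases mem_z2 hz k2 with k3 | k3
  · refine ih _ ?_ a _ rfl e'
    have := Nat.le_of_dvd (by positivity) (orderOf_dvd_of_pow_eq_one k3)
    have : 0 < 2 ^ k := by positivity
    rw [pow_succ] at hk
    omega
  · exact ⟨_, a, by rwa [sup_comm], k3 ▸ npow_mem_zpowers _ _⟩

theorem mc_of {G : Type*} [Group G] {a b : G} (e : zpowers a ⊔ zpowers b = ⊤) (n : ⊤ ≤ nrm (zpowers a)) :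
    MC (⊤ : Subgroup G) := ⟨_, le_top, n, H1B.cyc_zpowers a, b, mem_top b, e.ge⟩

universe u in
theorem key (n : ℕ) : ∀ {G : Type u} [Group G] [Finite G], Nat.card G = n → IsPGroup 2 G →
    (∀ L : Subgroup G, ∃ a b, zpowers a ⊔ zpowers b = L) → MC (⊤ : Subgroup G) := by
  induction n using Nat.strong_induction_on with | _ n ih =>
  intro G _ _ hn hG h
  by_cases na : (⊤ : Subgroup G) ≤ cen ⊤
  · obtain ⟨a, b, e⟩ := h ⊤
    exact mc_of e (le_nrm_of_le_cen (na.trans (cen_anti le_top)))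
  have pT : IsPGroup 2 (⊤ : Subgroup G) := hG.to_subgroup _
  obtain ⟨Z, hZ, oZ⟩ := exists_center_p (P := ⊤) (U := ⁅(⊤ : Subgroup G), ⊤⁆) pT (hG.to_subgroup _)
    (le_nrm_of_normal _ _) (mt comm_eq_bot.1 na)
  obtain ⟨z, hz, oz⟩ := exists_orderOf_eq Nat.prime_two oZ.symm.dvd
  have z2 : z ^ 2 = 1 := oz ▸ pow_orderOf_eq_one z
  have z1 : z ≠ 1 := fun e => by simp [e] at oz
  have c : ∀ g, z * g = g * z := fun g => (mem_cen.1 (hZ hz).2 g (mem_top g)).symm
  haveI : (zpowers z).Normal := normal_of (le_nrm_of_le_cen fun g _ => by rw [cen_zpowers]; exact mem_cen1.2 (c g).symm)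
  have sj := QuotientGroup.mk'_surjective (zpowers z)
  obtain ⟨a', b', e', n'⟩ := (ih (Nat.card (G ⧸ zpowers z)) (by
      rw [← hn, card_eq_card_quotient_mul_card_subgroup (zpowers z), Nat.card_zpowers, oz]
      have : 0 < Nat.card (G ⧸ zpowers z) := Nat.card_pos
      omega) rfl (hG.to_quotient _) fun L => by
    obtain ⟨a, b, e⟩ := h (L.comap (QuotientGroup.mk' _))
    refine ⟨QuotientGroup.mk' _ a, QuotientGroup.mk' _ b, ?_⟩
    rw [← MonoidHom.map_zpowers, ← MonoidHom.map_zpowers, ← Subgroup.map_sup, e, map_comap_eq_self_of_surjective sj]).gen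
  obtain ⟨a, rfl⟩ := sj a'
  obtain ⟨b, rfl⟩ := sj b'
  have e : zpowers a ⊔ zpowers b = ⊤ := by
    refine eq_of_sup_Phi le_top (le_trans ?_ (sup_le_sup_left ((zpowers_le.2 (hZ hz).1).trans
      (comm_le_Phi pT.isNilpotent)) _))
    rw [← MonoidHom.map_zpowers, ← MonoidHom.map_zpowers, ← Subgroup.map_sup] at e'
    have := congrArg (comap (QuotientGroup.mk' (zpowers z))) e'
    rwa [comap_map_eq, QuotientGroup.ker_mk', comap_top, eq_top_iff] at this
  have m : b * a * b⁻¹ ∈ zpowers a ⊔ zpowers z := by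
    have := conj_mem n' (mem_top (QuotientGroup.mk' _ b)) (mem_zpowers _)
    rwa [← map_inv, ← map_mul, ← map_mul, ← MonoidHom.map_zpowers, ← mem_comap, comap_map_eq,
      QuotientGroup.ker_mk'] at this
  have nr : ∀ {x y : G}, y * x * y⁻¹ ∈ zpowers x → y ∈ nrm (zpowers x) := fun k =>
    mem_nrm_of_cj_le (by rw [cj_zpowers]; exact zpowers_le.2 k)
  by_cases m' : b * a * b⁻¹ ∈ zpowers a
  · exact mc_of e (e ▸ sup_le (le_nrm_self _) (zpowers_le.2 (nr m')))
  obtain ⟨s, hs, t, ht, st⟩ := (mem_sup_nrm (le_nrm_of_normal _ _)).1 m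
  obtain rfl := (mem_z2 z2 ht).resolve_left fun t1 => m' (by rwa [← st, t1, mul_one])
  have za : t ∉ zpowers a := fun k => m' (st ▸ mul_mem hs k)
  obtain ⟨k, rfl⟩ : ∃ k : ℤ, a ^ k = s := hs
  have ct : ∀ g, Commute t g := c
  have ec : ⁅b, a⁆ = a ^ (k - 1) * t := by
    rw [commutatorElement_def, ← st, mul_assoc, c, zpow_sub_one, mul_assoc]
  have nW : ⊤ ≤ nrm (zpowers ⁅b, a⁆) := by
    refine e ▸ sup_le (zpowers_le.2 (nr ?_)) (zpowers_le.2 (nr ⟨k, ?_⟩))
    · rw [show a * ⁅b, a⁆ * a⁻¹ = ⁅b, a⁆ by rw [ec, mul_assoc, mul_assoc, c]; group]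
      exact mem_zpowers _
    · rw [ec]
      show (a ^ (k - 1) * t) ^ k = _
      rw [show b * (a ^ (k - 1) * t) * b⁻¹ = (b * a * b⁻¹) ^ (k - 1) * t by
        rw [conj_zpow, mul_assoc, mul_assoc, c]; simp only [mul_assoc], ← st, (ct _).symm.mul_zpow, (ct _).symm.mul_zpow]
      group
  have dW : ⁅(⊤ : Subgroup G), ⊤⁆ ≤ zpowers ⁅b, a⁆ := by
    have nn : ∀ g, g ∈ nrm (zpowers ⁅b, a⁆) := fun g => nW (mem_top g)
    have := H2.comm_closure_closure_le (N := zpowers ⁅b, a⁆) (s := {a, b}) (t := {a, b}) (fun x _ => nn x) (fun x _ => nn x)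
      (by
        rintro x (rfl | rfl) y (rfl | rfl)
        · simp
        · exact (inv_mem_iff.1 (by rw [commutatorElement_inv]; exact mem_zpowers _))
        · exact mem_zpowers _
        · simp)
    rwa [show closure {a, b} = ⊤ by rw [← e, zpowers_eq_closure, zpowers_eq_closure, ← Subgroup.closure_union]; rfl] at this
  obtain ⟨j, hj⟩ := exists_npow (dW (hZ hz).1)
  have oj : ¬ 2 ∣ j := by
    rintro ⟨i, rfl⟩
    rw [ec, (ct _).symm.mul_pow, pow_mul t, z2, one_pow, mul_one] at hj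
    exact za (hj ▸ pow_mem (zpow_mem (mem_zpowers a) _) _)
  rw [← zpowers_pow_of_not_dvd (x := ⁅b, a⁆) (hG.to_subgroup _) oj, hj] at dW
  obtain ⟨x, y, e2, zx⟩ := fin2 hG h z2 z1 c (fun x y => dW (commutator_mem_commutator (mem_top x) (mem_top y))) na _ a b rfl e
  exact mc_of e2 (le_nrm_of_comm_le' le_top (dW.trans (zpowers_le.2 zx)))

/-- A finite 2-group of sectional 2-rank at most 2 (every section has no elementary abelian subgroup of order 8) is metacyclic: it has a cyclic normal subgroup with cyclic quotient. -/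
theorem result {S : Type*} [Group S] [Finite S] (h2 : IsPGroup 2 S) (hr : Cfsg.SectionalPRankLE 2 2 S) : Cfsg.IsMetacyclic S := by
  refine isMetacyclic_top.2 (key _ rfl h2 fun L => ?_)
  have pL : IsPGroup 2 L := h2.to_subgroup L
  by_cases b : L = ⊥
  · exact ⟨1, 1, by simp [b]⟩
  haveI := normal_subgroupOf (le_nrm_Phi L)
  have i4 : (Phi L).relIndex L ≤ 2 ^ 2 := by
    have := hr L ((Phi L).subgroupOf L) ⊤ ?_ ?_
    · rwa [card_top] at this
    · refine H7.isComm_iff'.2 fun a _ b _ => ?_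
      obtain ⟨a, rfl⟩ := QuotientGroup.mk'_surjective _ a
      obtain ⟨b, rfl⟩ := QuotientGroup.mk'_surjective _ b
      refine commutatorElement_eq_one_iff_mul_comm.1 ?_
      rw [← map_commutatorElement]
      exact (QuotientGroup.eq_one_iff _).2 (comm_le_Phi pL.isNilpotent (commutator_mem_commutator a.2 b.2))
    · intro a _
      obtain ⟨a, rfl⟩ := QuotientGroup.mk'_surjective _ a
      rw [← map_pow]
      exact (QuotientGroup.eq_one_iff _).2 (pow_mem_Phi pL a.2)
  obtain ⟨a, ha, ha'⟩ := SetLike.exists_of_lt (Phi_lt b)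
  have l : Phi L ⊔ zpowers a ≤ L := sup_le (H7.Phi_le L) (zpowers_le.2 ha)
  have i2 : (Phi L ⊔ zpowers a).relIndex L ≤ 2 := by
    have e1 := relIndex_mul_card' l
    have e2 := relIndex_mul_card' (H7.Phi_le L)
    have e3 := two_le (A := Phi L) (B := Phi L ⊔ zpowers a) (left_lt_sup.2 (mt zpowers_le.1 ha'))
    have e4 := card_pos' (Phi L)
    by_contra! k
    nlinarith
  obtain ⟨c, hc, e⟩ := cycMod_of_index pL (le_nrm_of_comm_le' l ((comm_le_Phi pL.isNilpotent).trans le_sup_left)) i2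
  exact ⟨a, c, eq_of_sup_Phi (sup_le (zpowers_le.2 ha) (zpowers_le.2 hc)) (e.trans (by rw [sup_assoc, sup_comm]))⟩

end Cfsg.Agent.S4397
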