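import Cfsg.Statements.S4398
import Cfsg.Agent.H1.Two4

set_option autoImplicit false
open Cfsg

namespace Cfsg.Agent.S4398

open H7 H1B Subgroup

/-- Let S be a finite 2-group of sectional 2-rank at most 2 that contains a subgroup isomorphic to the dihedral group of order 8 or to the quaternion group of order 8. Then S is dihedral of order at least 8, semidihedral of order at least 16 (order 2^(k+4) with an element a of order 2^(k+3) and an involution b with b a b⁻¹ = a^(2^(k+2)−1)), or generalized quaternion of order at least 8. -/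
theorem result {S : Type*} [Group S] [Finite S] (h2 : IsPGroup 2 S) (hr : Cfsg.SectionalPRankLE 2 2 S)
    (hsub : ∃ H : Subgroup S, Nonempty (↥H ≃* DihedralGroup 4) ∨ Nonempty (↥H ≃* QuaternionGroup 2)) :
    ((∃ k : ℕ, Nonempty (S ≃* DihedralGroup (2 ^ (k + 2)))) ∨
      (∃ k : ℕ, Nat.card S = 2 ^ (k + 4) ∧ ∃ a b : S, orderOf a = 2 ^ (k + 3) ∧ orderOf b = 2 ∧ b * a * b⁻¹ = a ^ (2 ^ (k + 2) - 1)) ∨
      (∃ k : ℕ, Nonempty (S ≃* QuaternionGroup (2 ^ (k + 1))))) := by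
  obtain ⟨H, hH⟩ := hsub
  obtain ⟨a, h⟩ : ∃ a, MX H a 1 0 := by
    rcases hH with ⟨⟨e⟩⟩ | ⟨⟨e⟩⟩
    exacts [let ⟨a, h, _⟩ := mx_of_dih (n := 0) e; ⟨a, h⟩, let ⟨a, h, _⟩ := mx_of_quat (n := 0) e; ⟨a, h⟩]
  have hC : cen H ≤ H := by
    by_contra hc
    obtain ⟨c, hc, hcH, c2⟩ := exists_descent (U := H) (h2.to_subgroup _) hc
    have n : c ∈ nrm H := cen_le_nrm H hc
    have zc : H ⊔ zpowers c ≤ cen (zpowers (a ^ 2)) := sup_le (le_centralizer_iff.1 (zpowers_le.2 h.z_cen))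
      (zpowers_le.2 (cen_anti ((zp_pow_le a 2).trans h.le) hc))
    haveI := normal_subgroupOf (zc.trans (cen_le_nrm _))
    have sq : ∀ x ∈ H ⊔ zpowers c, x * x ∈ zpowers (a ^ 2) := fun x hx => by
      have c2' : c * c ∈ zpowers (a ^ 2) := h.ctr.le ⟨pow_two c ▸ c2, mul_mem hc hc⟩
      rcases (mem_sup_zp n (pow_two c ▸ c2)).1 hx with h1 | h1
      · exact pow_two x ▸ h.sq_mem h1
      · rw [show x * x = x * c⁻¹ * (c * (x * c⁻¹)) * c by group, ← mem_cen.1 hc _ h1,
          show x * c⁻¹ * (x * c⁻¹ * c) * c = (x * c⁻¹) ^ 2 * (c * c) by rw [pow_two]; group]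
        exact mul_mem (h.sq_mem h1) c2'
    have := pRankLE_top.1 (hr (H ⊔ zpowers c) ((zpowers (a ^ 2)).subgroupOf _)) ⊤ le_rfl
      (ea_iff.2 ⟨isComm_iff.1 (comm_of_sq fun x _ => ?_), fun x _ => ?_⟩)
    · have c1 := relIndex_mul_card' ((zp_pow_le a 2).trans (h.le.trans (le_sup_left (b := zpowers c))))
      rw [card_sup_zp n (pow_two c ▸ c2) hcH, h.card, Nat.card_zpowers, h.sq_ord] at c1
      rw [card_top, ← index_eq_card, ← relIndex] at this
      omega
    · obtain ⟨x, rfl⟩ := QuotientGroup.mk_surjective x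
      exact (QuotientGroup.eq_one_iff (x * x)).2 (mem_subgroupOf.2 (sq x x.2))
    · obtain ⟨x, rfl⟩ := QuotientGroup.mk_surjective x
      exact (pow_two _).trans ((QuotientGroup.eq_one_iff (x * x)).2 (mem_subgroupOf.2 (sq x x.2)))
  obtain ⟨x, hx⟩ := exists_cen1_of_p3 h2 h.card h.not_comm hC
  obtain ⟨a, w, n, h⟩ := mx_of_der h2 ((index_der_le x).trans hx) fun hc =>
    h.not_comm (isComm_of_le (comm_top'.2 hc) le_top)
  exact h.types'

end Cfsg.Agent.S4398
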