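import Cfsg.Statements.S4400
import Cfsg.Agent.H7.QD

set_option autoImplicit false
open Cfsg

namespace Cfsg.Agent.S4400
open H7
open scoped commutatorElement

/-- Let S be a finite 2-group of sectional 2-rank at most 4, and let P and Q be normal non-abelian subgroups of S whose centres have order 2 and are different. Then P and Q commute elementwise and intersect trivially, and PQ contains its own centralizer in S. -/
theorem result {S : Type*} [Group S] [Finite S] (h2 : IsPGroup 2 S) (hr : Cfsg.SectionalPRankLE 2 4 S)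
    (P Q : Subgroup S) [P.Normal] [Q.Normal] (hP : ¬ IsMulCommutative ↥P) (hQ : ¬ IsMulCommutative ↥Q)
    (hZP : Nat.card ↥(Subgroup.center ↥P) = 2) (hZQ : Nat.card ↥(Subgroup.center ↥Q) = 2)
    (hne : (Subgroup.center ↥P).map P.subtype ≠ (Subgroup.center ↥Q).map Q.subtype) :
    ⁅P, Q⁆ = ⊥ ∧ P ⊓ Q = ⊥ ∧ Subgroup.centralizer ((P ⊔ Q : Subgroup S) : Set S) ≤ P ⊔ Q := by
  open Subgroup in
  have o : ∀ X : Subgroup S, Nat.card (center X) = Nat.card (X ⊓ cen X : Subgroup S) := fun X => by
    rw [← center_map_subtype, card_map_of_injective (subtype_injective _)]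
  rw [center_map_subtype, center_map_subtype] at hne
  obtain ⟨a, b, c⟩ := srk4_pair (h2.to_subgroup ⊤) (srk_of hr) le_top le_top (normal_iff_top_le_nrm.1 inferInstance)
    (normal_iff_top_le_nrm.1 inferInstance) hP hQ (o P ▸ hZP) (o Q ▸ hZQ) hne
  exact ⟨comm_eq_bot.2 a, b, (le_inf le_top le_rfl).trans c⟩

end Cfsg.Agent.S4400
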