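import Cfsg.Statements.S4401
import Cfsg.Agent.H7.QD

set_option autoImplicit false
open Cfsg

namespace Cfsg.Agent.S4401
open H7
open scoped commutatorElement

/-- Let S be a finite 2-group of sectional 2-rank at most 4 and P a proper non-abelian subgroup whose centre has order 2. Let S₀ be the centralizer in S of Z(P) and suppose P is normal in S₀. Then either S₀ = S, or P has sectional 2-rank at most 2 and S₀ has index 2 in S. -/
theorem result {S : Type*} [Group S] [Finite S] (h2 : IsPGroup 2 S) (hr : Cfsg.SectionalPRankLE 2 4 S)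
    (P : Subgroup S) (hPlt : P ≠ ⊤) (hP : ¬ IsMulCommutative ↥P) (hZP : Nat.card ↥(Subgroup.center ↥P) = 2)
    (S₀ : Subgroup S) (hS₀ : S₀ = Subgroup.centralizer (((Subgroup.center ↥P).map P.subtype : Subgroup S) : Set S))
    (hPn : ∀ s ∈ S₀, ∀ x ∈ P, s * x * s⁻¹ ∈ P) :
    S₀ = ⊤ ∨ (Cfsg.SectionalPRankLE 2 2 ↥P ∧ S₀.index = 2) := by
  open Subgroup in
  rw [center_map_subtype] at hS₀
  have o : Nat.card (P ⊓ cen P : Subgroup S) = 2 := by
    rw [← center_map_subtype, card_map_of_injective (subtype_injective _), hZP]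
  set Z := P ⊓ cen P with hZ
  refine or_iff_not_imp_left.2 fun ne => ?_
  have r : Srk 2 4 S₀ := srk_of hr
  have pS : ∀ X : Subgroup S, IsPGroup 2 X := h2.to_subgroup
  have l : P ≤ S₀ := hS₀ ▸ le_cen_symm inf_le_right
  have n : S₀ ≤ nrm P := fun s hs => H2.mem_normalizer_of_conj_mem (hPn s hs)
  have zc : ∀ g : S, H2.cj g P ⊓ cen (H2.cj g P) = H2.cj g Z := fun g => by rw [hZ, cj_inf, cj_cen]
  have ze : ∀ g x : S, H2.cj g Z = H2.cj x Z → x⁻¹ * g ∈ S₀ := fun g x e => hS₀ ▸ cen_of_two o.le le_rfl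
    (H2.mem_normalizer_iff_cj.2 (by rw [cj_mul, e, cj_inv_cj]))
  have lc : ∀ g ∈ nrm S₀, H2.cj g P ≤ S₀ := fun g hg => cj_le_of_mem_nrm hg l
  have nc : ∀ g ∈ nrm S₀, S₀ ≤ nrm (H2.cj g P) := fun g hg => by
    rw [← cj_nrm, ← cj_of_mem_nrm hg]; exact cj_mono g n
  have ac : ∀ g : S, ¬ IsMulCommutative (H2.cj g P) := fun g h => hP (isComm_cj.1 h)
  have oc : ∀ g : S, Nat.card (H2.cj g P ⊓ cen (H2.cj g P) : Subgroup S) = 2 := fun g => by rw [zc, card_cj, o]
  have pair : ∀ g ∈ nrm S₀, ∀ x ∈ nrm S₀, x⁻¹ * g ∉ S₀ → _ := fun g hg x hx h => srk4_pair (pS S₀) r (lc g hg) (lc x hx)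
    (nc g hg) (nc x hx) (ac g) (ac x) (oc g) (oc x) fun e => h (ze g x (by rwa [zc, zc] at e))
  obtain ⟨g, -, hg, g0⟩ := H2.exists_mem_normalizer_notMem (pS ⊤) (lt_top_iff_ne_top.2 ne)
  obtain ⟨c, i, d⟩ := pair 1 (one_mem _) g hg (by simpa using g0)
  rw [cj_one] at c i d
  set Q := H2.cj g P
  have two : ∀ x ∈ nrm S₀, x ∉ S₀ → g⁻¹ * x ∈ S₀ := fun x hx x0 => by_contra fun k => by
    have c1 := (pair x hx 1 (one_mem _) (by simpa using x0)).1
    rw [cj_one] at c1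
    have c2 := le_cen_sup c1 (pair x hx g hg k).1
    exact ac x (isComm_iff.2 (c2.trans (cen_anti ((le_inf (lc x hx) c2).trans d))))
  have i2 : S₀.relIndex (nrm S₀) = 2 := relIndex_eq_two_iff.2 ⟨g, hg, fun b hb => by
    by_cases e : b ∈ S₀
    · exact Or.inr ⟨e, fun k => g0 ((mul_mem_cancel_left e).1 k)⟩
    · exact Or.inl ⟨by simpa using inv_mem (two _ (inv_mem hb) (mt inv_mem_iff.1 e)), e⟩⟩
  refine ⟨Srk.sec fun A B a b e f => ?_, ?_⟩
  · have k := r (A ⊔ Phi Q) (B ⊔ Q) (sup_le_sup a (Phi_le Q)) (sup_le (b.trans l) (lc g hg))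
      (comm_prod_le e (comm_le_Phi (nilp_of_isPGroup (pS Q))) a (Phi_le Q) (b.trans c))
      (pow_prod_mem f (fun x => pow_mem_Phi (pS Q)) (b.trans c))
    rw [relIndex_sup_prod a (Phi_le Q) (b.trans c) (eq_bot_of_le (inf_le_inf_right _ b) i)] at k
    have := sq_le_relIndex_Phi (pS Q) fun h => ac g (isComm_of_cyc h)
    nlinarith
  rw [← relIndex_top_right, ← i2]
  congr 1
  by_contra ne2
  obtain ⟨x, -, hx, x0⟩ := H2.exists_mem_normalizer_notMem (pS ⊤) (lt_top_iff_ne_top.2 (Ne.symm ne2))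
  set N := nrm S₀
  have sN : S₀ ≤ N := le_nrm_self _
  have zS : Z ≤ cen S₀ := hS₀ ▸ le_cen_symm le_rfl
  have zg : H2.cj g Z ≤ cen S₀ := by rw [← cj_of_mem_nrm hg, ← cj_cen]; exact cj_mono g zS
  have W : S₀ ⊓ cen (P ⊔ Q : Subgroup S) ≤ Z ⊔ H2.cj g Z := zc g ▸ (le_inf d inf_le_right).trans (center_prod c)
  have oW : Nat.card (Z ⊔ H2.cj g Z : Subgroup S) ≤ 2 ^ 2 := by
    have := H2.card_sup_mul_card_inf (H := Z) (N := H2.cj g Z) ((inf_le_left.trans l).trans ((le_cen_symm zg).trans (cen_le_nrm _)))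
    rw [card_cj, o] at this
    exact (Nat.le_mul_of_pos_right _ Nat.card_pos).trans this.le
  have eW : N ⊓ cen S₀ = Z ⊔ H2.cj g Z := le_antisymm ((le_inf ((inf_le_right.trans (cen_anti (inf_le_left.trans l))).trans hS₀.ge)
    (inf_le_right.trans (cen_anti (sup_le l (lc g hg))))).trans W) (sup_le (le_inf (inf_le_left.trans (l.trans sN)) zS)
      (le_inf ((zc g).ge.trans (inf_le_left.trans ((lc g hg).trans sN))) zg))
  have nW : N ≤ nrm (N ⊓ cen S₀ : Subgroup S) := nrm_inf (le_nrm_self _) (nrm_cen le_rfl)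
  have cW : ⁅N ⊓ cen S₀, N⁆ ≤ N ⊓ cen N := by
    have := H1B.card_comm_le (n := 1) (pS N) (pS _) nW (eW ▸ oW)
    exact le_inf (comm_le_of_le inf_le_left le_rfl) (le_cen_symm (cen_of_two this (nrm_commutator nW (le_nrm_self _))))
  have cx : ⁅H2.cj x Z, N⁆ ≤ N ⊓ cen N := by
    rw [← cj_of_mem_nrm hx, ← cj_cen, ← cj_inf, ← cj_commutator]
    exact cj_mono x ((commutator_mono (eW.ge.trans' le_sup_left) le_rfl).trans cW)
  have zx : H2.cj x Z ≤ N := cj_le_of_mem_nrm hx (inf_le_left.trans (l.trans sN))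
  have t : ∀ y ∈ N, H2.cj y P ⊓ cen N = ⊥ := fun y hy => by
    by_contra e
    have e1 : H2.cj y P ⊓ cen N = H2.cj y Z := H2.eq_of_le_of_card_le ((inf_le_inf_left _ (cen_anti ((lc y hy).trans sN))).trans
      (zc y).le) (by rw [card_cj, o]; exact Nat.le_of_dvd Nat.card_pos (H2.dvd_card_of_ne_bot (pS _) e))
    have := ze (g * y) y (by rw [cj_mul, cj_of_mem_nrm (cen_le_nrm _ (le_cen_symm (e1.ge.trans inf_le_right) hg))])
    exact g0 (by simpa [mul_assoc] using conj_mem le_rfl hy this)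
  obtain ⟨z, hz, z1⟩ := (bot_or_exists_ne_one (H2.cj x Z)).resolve_left fun e => by
    have := card_cj x Z; rw [e, card_bot, o] at this; omega
  have ez : zpowers z = H2.cj x Z := H2.eq_of_le_of_card_le (zpowers_le.2 hz) (by
    rw [card_cj, o]; exact Nat.le_of_dvd Nat.card_pos (H2.dvd_card_of_ne_bot (pS _) (mt zpowers_eq_bot.1 z1)))
  by_cases zs : z ∈ S₀
  · have k : ∀ y ∈ N, H2.cj x Z ≤ cen (H2.cj y P) := fun y hy => comm_eq_bot.1 (eq_bot_of_le (le_inf
      (comm_le_right (ez ▸ zpowers_le.2 (nc y hy zs))) (((commutator_mono le_rfl ((lc y hy).trans sN)).trans cx).trans inf_le_right))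
        (t y hy))
    have k1 : H2.cj x Z ≤ N ⊓ cen S₀ := eW ▸ (le_inf (ez ▸ zpowers_le.2 zs) (le_cen_sup (cj_one P ▸ k 1 (one_mem _)) (k g hg))).trans W
    have k2 : S₀ ≤ H2.cj x S₀ := by
      conv_rhs => rw [hS₀, cj_cen]
      exact le_cen_symm (k1.trans inf_le_right)
    exact x0 (H2.mem_normalizer_iff_cj.2 (H2.eq_of_le_of_card_le k2 (card_cj x S₀).le).symm)
  refine hP (isComm_iff.2 fun a ha => ?_)
  have m : z * a⁻¹ * z⁻¹ ∈ Q := by
    have := conj_mem n (two z (zx hz) zs) (inv_mem ha)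
    exact mem_cj.2 (by simpa [mul_assoc] using this)
  have k := (cx (commutator_mem_commutator hz (sN (l (inv_mem ha))))).2
  rw [commutatorElement_def, inv_inv] at k
  exact (mul_mem_cancel_left (le_cen_symm c m)).1 (cen_anti (l.trans sN) k)

end Cfsg.Agent.S4401
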