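import Cfsg.Statements.S4403
import Cfsg.Agent.H7.Tk7

set_option autoImplicit false
open Cfsg

namespace Cfsg.Agent.S4403
open H7
open scoped commutatorElement

/-- Let K be a finite group, p a prime dividing its order with O_{p'}(K) = 1 (no nontrivial normal subgroup of order prime to p), and P a cyclic Sylow p-subgroup of K. Then either P is normal and self-centralizing in K with K/P cyclic of order dividing p − 1 (so K is the semidirect product of P by a group of automorphisms of P of order dividing p − 1), or the generalized Fitting subgroup F*(K) is a non-abelian simple group and p does not divide the index of F*(K) in K. -/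
theorem result {K : Type*} [Group K] [Finite K] (p : ℕ) [Fact p.Prime] (hp : p ∣ Nat.card K) (hO : Cfsg.pPrimeCore p K = ⊥)
    (P : Sylow p K) (hP : IsCyclic ↥(P : Subgroup K)) :
    ((P : Subgroup K).Normal ∧ Subgroup.centralizer ((P : Subgroup K) : Set K) = (P : Subgroup K) ∧
      (∀ (_ : (P : Subgroup K).Normal), IsCyclic (K ⧸ (P : Subgroup K))) ∧ (P : Subgroup K).index ∣ p - 1) ∨
    (IsSimpleGroup ↥(Cfsg.generalizedFittingSubgroup K) ∧ ¬ IsMulCommutative ↥(Cfsg.generalizedFittingSubgroup K) ∧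
      ¬ p ∣ (Cfsg.generalizedFittingSubgroup K).index) := by
  open Subgroup in
  have sP := H2.sylow_isSylowIn_top P
  have cP := isComm_of_cyc hP
  rw [pPrimeCore_eq] at hO
  have P0 : (P : Subgroup K) ≠ ⊥ := syl_ne_bot sP (by rwa [card_top])
  by_cases h : Op p (⊤ : Subgroup K) = ⊥
  · right
    have eF : Fst (⊤ : Subgroup K) = Lay ⊤ := by rw [Fst, Fit_eq_Op hO, h]; simp
    obtain ⟨L, hL⟩ := exists_isComp (eF ▸ Fst_ne_bot fun e => P0 (eq_bot_of_le le_top e))
    have dv : ∀ M, IsComp M (⊤ : Subgroup K) → ∃ X ≤ M, Nat.card X = p := fun M hM => by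
      have : p ∣ Nat.card M := by_contra fun d => hM.qs.ne_bot
        (eq_bot_of_le (le_Op'_of_sn hM.sn (coprime_iff_not_dvd.2 d)) hO)
      obtain ⟨x, a, b⟩ := H2.exists_mem_orderOf_eq_prime this
      exact ⟨_, zpowers_le.2 a, by rwa [card_zpowers_eq]⟩
    have z : L ⊓ centralizer (L : Set K) = ⊥ := eq_bot_of_le (hL.center_le_Op hO) h
    obtain ⟨X, lX, oX⟩ := dv L hL
    have eL : Lay (⊤ : Subgroup K) = L := le_antisymm (Lay_le_iff.2 fun M hM => by
      refine ((hM.eq_or_cen hL).resolve_right fun c => ?_).le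
      obtain ⟨Y, lY, oY⟩ := dv M hM
      have pX : IsPGroup p X := IsPGroup.of_card (n := 1) (by rw [oX, pow_one])
      have pY : IsPGroup p Y := IsPGroup.of_card (n := 1) (by rw [oY, pow_one])
      have pXY := isPGroup_sup (le_nrm_of_le_cen ((lY.trans c).trans (cen_anti lX))) pY pX
      obtain ⟨g, -, hg⟩ := sP.exists_cj_le pXY le_top
      have cy := cyc_cj.1 (cyc_of_le hg hP)
      have : X = Y := (eq_Om_of_cyc cy le_sup_right oX).trans (eq_Om_of_cyc cy le_sup_left oY).symm
      have : X = ⊥ := eq_bot_of_le (le_inf lX (this.le.trans (lY.trans c))) z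
      rw [this, card_bot] at oX
      exact (Fact.out : p.Prime).one_lt.ne oX) hL.le_Lay
    rw [gfit_eq, eF, eL]
    refine ⟨hL.qs.simple z, fun c => hL.qs.not_le_cen (isComm_iff.1 c), ?_⟩
    have nL : ∀ A : Subgroup K, A ≤ normalizer (L : Set K) := fun A => eL ▸ le_top.trans (le_nrm_Lay ⊤)
    have d : ⁅L ⊔ P, L ⊔ P⁆ ≤ L := by
      rw [← im_qm_eq_bot (nL _), im_commutator (nL _) (nL _), im_sup (nL _) (nL _), (im_qm_eq_bot (nL _)).2 le_rfl,
        bot_sup_eq]
      exact comm_eq_bot.2 (isComm_iff.1 (isComm_im _ cP))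
    have l := (le_der_of_cyc (sP.mono le_sup_right le_top) hP ((oX ▸ card_dvd_of_le lX).trans
      (card_dvd_of_le (hL.qs.perfect.ge.trans (commutator_mono le_sup_left le_sup_left))))).trans d
    exact fun a => P.not_dvd_index (a.trans (index_dvd_of_le l))
  · left
    have oZ := card_Om_of_cyc P.2 hP P0
    have eZ : Om p (P : Subgroup K) = Om p (Op p ⊤) :=
      eq_Om_of_cyc (cyc_of_le (Op_le_of_sylow sP) hP) (Om_le_of_cyc hP (Op_le_of_sylow sP) (isPGroup_Op p _) h) oZ
    have nZ : ⊤ ≤ normalizer ((Om p (P : Subgroup K) : Subgroup K) : Set K) := eZ ▸ nrm_Om (le_nrm_Opi _ _)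
    have lZ := Om_le p (P : Subgroup K)
    have oZ' : ∀ X ≤ (P : Subgroup K), X ≠ ⊥ → Om p (P : Subgroup K) ≤ X := fun X a b =>
      Om_le_of_cyc hP a (P.2.to_le a) b
    generalize Om p (P : Subgroup K) = Z at *
    have Z0 : Z ≠ ⊥ := fun e => by
      rw [e, card_bot] at oZ
      exact (Fact.out : p.Prime).one_lt.ne oZ
    have lC : (P : Subgroup K) ≤ centralizer (Z : Set K) := (isComm_iff.1 cP).trans (cen_anti lZ)
    have sC := sP.mono lC le_top
    have npc : NPC p (centralizer (Z : Set K)) := npc_burnside sC (le_of_sylows_le fun q qq _ => by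
      haveI := Fact.mk qq
      by_cases e : q = p
      · subst e; exact ⟨P, sP.mono (le_inf lC (le_nrm_self _)) le_top, isComm_iff.1 cP⟩
      obtain ⟨Q, sQ⟩ := H2.exists_isSylowIn q (centralizer (Z : Set K) ⊓ normalizer ((P : Subgroup K) : Set K))
      refine ⟨Q, sQ, le_cen_symm (comm_eq_bot.1 (by_contra fun ne => Z0 (eq_bot_of_le (le_inf
        (oZ' _ (comm_le_left (sQ.le.trans inf_le_right)) ne) (le_cen_symm (sQ.le.trans inf_le_left)))
        (comm_inf_cen_of_comm cP (sQ.le.trans inf_le_right)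
          (coprime_of_isPGroup P.2 (coprime_pgroup sQ.isPGroup e))))))⟩)
    have eC : centralizer (Z : Set K) = P := by
      rw [← npc.sup sC, eq_bot_of_le (Opi_le_of_sn _ (SN.of_normal le_top (nrm_cen nZ))) hO, bot_sup_eq]
    haveI : Z.Normal := normal_iff_top_le_nrm.2 nZ
    have hk : (MulAut.conjNormal (H := Z)).ker = P := by
      rw [← eC]
      ext g
      rw [MonoidHom.mem_ker, mem_centralizer_iff, MulEquiv.ext_iff]
      refine ⟨fun a z hz => ?_, fun a z => Subtype.ext ?_⟩
      · have := congrArg Subtype.val (a ⟨z, hz⟩)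
        rw [MulAut.conjNormal_apply] at this
        exact (mul_inv_eq_iff_eq_mul.1 this).symm
      · rw [MulAut.conjNormal_apply]; exact mul_inv_eq_iff_eq_mul.2 (a z z.2).symm
    haveI : IsCyclic Z := cyc_of_le lZ hP
    have cA : IsCyclic (MulAut Z) := by
      have e := IsCyclic.mulAutMulEquiv Z
      rw [oZ] at e
      exact isCyclic_of_surjective e.symm e.symm.surjective
    have oA : Nat.card (MulAut Z) = p - 1 := by rw [IsCyclic.card_mulAut, oZ, Nat.totient_prime Fact.out]
    refine ⟨hk ▸ inferInstance, le_antisymm ((cen_anti lZ).trans eC.le) (isComm_iff.1 cP), fun _ => ?_, ?_⟩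
    · have e := (QuotientGroup.quotientMulEquivOfEq hk.symm).trans (QuotientGroup.quotientKerEquivRange _)
      exact isCyclic_of_surjective e.symm e.symm.surjective
    · rw [← hk, index_ker, ← oA]; exact card_subgroup_dvd_card _

end Cfsg.Agent.S4403
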