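import Cfsg.Statements.S4405
import Cfsg.Agent.H1.XS
import Cfsg.Agent.H1.BG4
import Cfsg.Agent.H1.Subnormal
import Cfsg.Agent.H3.Integral

set_option autoImplicit false
open Cfsg

namespace Cfsg.Agent.S4405

open H7 H1B Subgroup
open H2 (cj IsSylowIn)
open scoped commutatorElement

/-- Let G be a finite group of order 320 = 64·5 whose largest normal 2-subgroup H = O₂(G) equals the Fitting subgroup F(G) and is extraspecial of order 32 containing no elementary abelian subgroup of order 8 (so H is the central product of a quaternion group and a dihedral group of order 8). If T is an involution of G outside H whose centralizer in H contains an elementary abelian subgroup of order 4, then C_H(T) itself is elementary abelian of order 4. -/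
theorem result {G : Type*} [Group G] [Finite G]
    (hG : Nat.card G = 320) (hHF : Cfsg.pCore 2 G = Cfsg.fittingSubgroup G)
    (hex : Cfsg.IsExtraspecial 2 ↥(Cfsg.pCore 2 G)) (h32 : Nat.card ↥(Cfsg.pCore 2 G) = 32)
    (hminus : ∀ A : Subgroup G, A ≤ Cfsg.pCore 2 G → Cfsg.IsElementaryAbelian 2 A → Nat.card ↥A ≤ 4)
    (T : G) (hT : orderOf T = 2) (hTH : T ∉ Cfsg.pCore 2 G)
    (V : Subgroup G) (hV : V ≤ Cfsg.pCore 2 G ⊓ Subgroup.centralizer ({T} : Set G)) (hV4 : Nat.card ↥V = 4) (hVe : Cfsg.IsElementaryAbelian 2 V) :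
    Nat.card ↥(Cfsg.pCore 2 G ⊓ Subgroup.centralizer ({T} : Set G)) = 4 ∧
      Cfsg.IsElementaryAbelian 2 (Cfsg.pCore 2 G ⊓ Subgroup.centralizer ({T} : Set G)) := by
  obtain ⟨z', h', -⟩ := xs_top hex
  have h := h'.map (pCore 2 G).subtype_injective
  rw [map_subtype_top] at h
  generalize (pCore 2 G).subtype z' = z at h
  obtain ⟨x, px, x2, ix⟩ := H1.exists_inverted_of_not_mem_pCore (by rw [← sq, ← hT, pow_orderOf_eq_one]) hTH
  have sol : Group.IsSolvable G := H3.burnside_pq (a := 6) (b := 1) Nat.prime_two Nat.prime_five (by rw [hG]; norm_num)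
  have cF := cen_Fit_le (H := (⊤ : Subgroup G)) inferInstance
  rw [← fitting_eq, ← hHF] at cF
  haveI nH : (pCore 2 G).Normal := hHF ▸ fitting_eq (G := G) ▸ normal_iff_top_le_nrm.2 (le_nrm_Fit _)
  generalize pCore 2 G = H at *
  have ox : orderOf x = 5 := by
    have d := orderOf_dvd_natCard x
    rw [hG, show 320 = 2 ^ 6 * 5 by norm_num] at d
    rcases px.dvd_mul.1 d with d | d
    · exact (x2 ((Nat.prime_dvd_prime_iff_eq px Nat.prime_two).1 (px.dvd_of_dvd_pow d))).elim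
    · exact (Nat.prime_dvd_prime_iff_eq px Nat.prime_five).1 d
  haveI : Fact (Nat.Prime 5) := ⟨Nat.prime_five⟩
  have oz : ord (zpowers z) = 2 := by rw [card_zpowers_eq, h.oz]
  haveI nZ : (zpowers z).Normal := h.ctr ▸ inferInstance
  have zc : ∀ g : G, ∀ c ∈ zpowers z, g * c * g⁻¹ = c := fun g c hc => by
    by_cases c1 : c = 1
    · simp [c1]
    have oc := (H7.ea_of_card_p oz).orderOf hc c1
    exact inv_unique_zpowers (nZ.conj_mem c hc g) hc (by rw [← oc]; simpa using (MulAut.conj g).orderOf_eq c) oc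
  have C : H ⊓ cen (zpowers x) = zpowers z := by
    have m := card_modEq_cen (isPGroup_zpowers_of_orderOf ox) (le_nrm_of_normal _ H)
    obtain ⟨j, hj, e⟩ := (Nat.dvd_prime_pow Nat.prime_two).1 (show ord (H ⊓ cen (zpowers x) : Subgroup G) ∣ 2 ^ 5 from by
      have := card_dvd_of_le (inf_le_left : H ⊓ cen (zpowers x) ≤ H)
      rwa [h32] at this)
    have j5 : j ≠ 5 := fun k => by
      have := H7.eq_of_le_of_card_le (inf_le_left : H ⊓ cen (zpowers x) ≤ H) (by rw [e, k, h32]; rfl)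
      have := Subgroup.orderOf_dvd_natCard H (cF ⟨trivial, le_centralizer_iff.1 (this.ge.trans inf_le_right) (mem_zpowers x)⟩)
      rw [ox, h32] at this
      omega
    refine (H7.eq_of_le_of_card_le (le_inf (h.zle.trans inf_le_left) fun c hc => mem_centralizer_iff.2 fun g _ => ?_) ?_).symm
    · rw [← mul_inv_eq_iff_eq_mul, zc g c hc]
    rw [e, h32] at m
    rw [e, oz]
    interval_cases j <;> simp_all [Nat.ModEq]
  have cT : ∀ a ∈ H, ⁅a, T⁆ ∈ H := fun a ha => by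
    rw [commutatorElement_def, mul_assoc, mul_assoc, ← mul_assoc T]
    exact mul_mem ha (by simpa using nH.conj_mem _ (inv_mem ha) T)
  have ab : ∀ a ∈ H, ∀ b ∈ H, QuotientGroup.mk' (zpowers z) a * QuotientGroup.mk' _ b = QuotientGroup.mk' _ b * QuotientGroup.mk' _ a :=
    fun a ha b hb => by
      rw [← commutatorElement_eq_one_iff_mul_comm, ← map_commutatorElement]
      exact (QuotientGroup.eq_one_iff _).2 (h.comm a ha b hb)
  let f : H →* G ⧸ zpowers z := MonoidHom.mk' (fun a => QuotientGroup.mk' _ ⁅(a : G), T⁆) fun a b => by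
    rw [coe_mul, comm_mul_left', map_mul, map_mul, map_mul, ab _ a.2 _ (cT _ b.2), map_inv, mul_inv_cancel_right,
      ab _ (cT _ b.2) _ (cT _ a.2)]
  have mW : ∀ a, a ∈ kr f ↔ a ∈ H ∧ ⁅a, T⁆ ∈ zpowers z := fun a => by
    rw [mem_kr]
    exact ⟨fun ⟨u, v⟩ => ⟨u, (QuotientGroup.eq_one_iff _).1 ((ev_eq u).symm.trans v)⟩,
      fun ⟨u, v⟩ => ⟨u, (ev_eq u).trans ((QuotientGroup.eq_one_iff _).2 v)⟩⟩
  have zW : zpowers z ≤ H ⊓ cen1 T := fun c hc => ⟨(h.zle hc).1, mem_centralizer_singleton_iff.2 (by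
    rw [eq_comm, ← mul_inv_eq_iff_eq_mul, zc T c hc])⟩
  have dW : H ⊓ cen1 T ≤ kr f := fun a ha => (mW a).2 ⟨ha.1, by
    rw [commutatorElement_eq_one_iff_mul_comm.2 (mem_centralizer_singleton_iff.1 ha.2)]; exact one_mem _⟩
  have iW : kr f ⊓ cj x (kr f) ≤ zpowers z := fun a ⟨h1, h2⟩ => by
    obtain ⟨ha, u⟩ := (mW a).1 h1
    obtain ⟨-, v⟩ := (mW _).1 (mem_cj.1 h2)
    have w : ⁅a, x ^ 2⁆ ∈ zpowers z := by
      have e : x ^ 2 = x * T * x⁻¹ * T⁻¹ := by
        rw [show x * T * x⁻¹ * T⁻¹ = x * (T * x * T⁻¹)⁻¹ by group, ix, inv_inv, sq]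
      have := mul_mem (nZ.conj_mem _ v x) (nZ.conj_mem _ (inv_mem u) (x ^ 2))
      rwa [show x * ⁅x⁻¹ * a * x, T⁆ * x⁻¹ * (x ^ 2 * ⁅a, T⁆⁻¹ * (x ^ 2)⁻¹) = ⁅a, x ^ 2⁆ by rw [e]; group] at this
    have e : ⁅a, x ^ 4⁆ = 1 := by
      rw [show x ^ 4 = x ^ 2 * x ^ 2 by group, comm_mul_right', zc _ _ w, ← sq]
      exact (H7.ea_of_card_p oz).pow w
    have : x ∈ cen1 a := mem_of_pow_mem' (n := 4)
      (mem_centralizer_singleton_iff.2 (commutatorElement_eq_one_iff_mul_comm.1 e).symm) (by rw [ox]; norm_num)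
    exact C.le ⟨ha, mem_centralizer_iff.2 fun g hg => mem_centralizer_singleton_iff.1 (zpowers_le.2 this hg)⟩
  have pW := h.pgroup.to_le (kr_le f)
  have w8 : ord (kr f) ≤ 2 ^ 3 := card_le_of_not_le pW fun k => by
    have e := H7.card_sup_mul_card_inf ((kr_le f).trans (h.le_nrm (cj_le_of_mem_nrm (le_nrm_of_normal ⊤ H (mem_top x)) (kr_le f))
      (((cj_normal x (zpowers z)).ge.trans (H7.cj_mono x (zW.trans dW))) (mem_zpowers z))))
    have a := card_le_of_le (sup_le (kr_le f) (cj_le_of_mem_nrm (le_nrm_of_normal ⊤ H (mem_top x)) (kr_le f)))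
    have b := card_le_of_le iW
    rw [H2.card_cj] at e
    rw [h32] at a
    rw [oz] at b
    have := Nat.mul_le_mul a b
    have := Nat.mul_le_mul k k
    omega
  have d4 : ord (H ⊓ cen1 T : Subgroup G) ≤ 2 ^ 2 := card_le_of_not_le (pW.to_le dW) fun k => by
    have eW := H7.eq_of_le_of_card_le dW (w8.trans k)
    have c8 : ord (kr f) = 8 := le_antisymm w8 (eW ▸ k)
    have iT : ∀ a : G, T * ⁅a, T⁆ * T⁻¹ = ⁅a, T⁆⁻¹ := fun a => by
      have : T⁻¹ = T := inv_eq_of_mul_eq_one_left (by rw [← sq, ← hT, pow_orderOf_eq_one])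
      rw [commutatorElement_inv, commutatorElement_def, commutatorElement_def, this]
      calc _ = T * a * T * a⁻¹ * (T * T⁻¹) := by rw [this]; group
        _ = _ := by group
    have cW : ∀ a ∈ H, ⁅a, T⁆ ∈ kr f := fun a ha => (mW _).2 ⟨cT a ha, by
      rw [show ⁅⁅a, T⁆, T⁆ = ⁅a, T⁆ * (T * ⁅a, T⁆ * T⁻¹)⁻¹ by group, iT, inv_inv, ← sq]
      exact h.pow _ (cT a ha)⟩
    have e1 := card_im_mul (f := f) le_rfl
    rw [inf_eq_right.2 (kr_le f), c8, h32] at e1
    have e2 := relIndex_mul_card' (zW.trans dW)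
    rw [c8, oz, ← H1.card_map_mk'] at e2
    have e3 : im f H = (kr f).map (QuotientGroup.mk' _) := H7.eq_of_le_of_card_le (fun y hy => by
      obtain ⟨a, ha, -, rfl⟩ := H7.mem_im.1 hy
      rw [H7.ev_eq ha]
      exact mem_map_of_mem _ (cW a ha)) (by omega)
    have sq1 : ∀ d ∈ kr f, d ^ 2 = 1 := fun d hd => by
      obtain ⟨a, ha, -, e⟩ := H7.mem_im.1 (e3.ge (mem_map_of_mem _ hd))
      rw [H7.ev_eq ha] at e
      have m : ⁅a, T⁆⁻¹ * d ∈ zpowers z := QuotientGroup.eq.1 e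
      have c := mem_centralizer_singleton_iff.1 (eW.ge (cW a ha)).2
      have c2 : ⁅a, T⁆ * ⁅a, T⁆ = 1 := by rw [← eq_inv_iff_mul_eq_one, ← iT, ← c, mul_inv_cancel_right]
      calc d ^ 2 = ⁅a, T⁆ * ⁅a, T⁆ * (⁅a, T⁆⁻¹ * (⁅a, T⁆⁻¹ * d) * ⁅a, T⁆⁻¹⁻¹) * (⁅a, T⁆⁻¹ * d) := by rw [sq]; group
        _ = 1 := by rw [zc _ _ m, c2, one_mul, ← sq, (H7.ea_of_card_p oz).pow m]
    have := hminus _ (kr_le f) ⟨isComm_iff'.2 fun a ha b hb => by
      have k := sq1 _ (mul_mem ha hb)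
      have x := sq1 a ha
      have y := sq1 b hb
      rw [sq] at k x y
      rw [eq_inv_of_mul_eq_one_left k, mul_inv_rev, ← eq_inv_of_mul_eq_one_left x, ← eq_inv_of_mul_eq_one_left y], sq1⟩
    omega
  rw [← H7.eq_of_le_of_card_le hV (by omega)]
  exact ⟨hV4, hVe⟩

end Cfsg.Agent.S4405
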