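import Cfsg.Statements.S4406
import Mathlib

set_option autoImplicit false
open Cfsg

namespace Cfsg.Agent.S4406

open Subgroup Equiv
set_option synthInstance.maxSize 1000 in
theorem f0 : ∀ q a : Perm (Fin 4), q ≠ 1 → q * q * q = 1 → a ≠ 1 → Perm.sign a = 1 → a * a * (a * a) = 1 →
    q * a * q⁻¹ ≠ a ∧ q * (q * a * q⁻¹) * q⁻¹ = a * (q * a * q⁻¹) ∧ ∀ b : Perm (Fin 4), Perm.sign b = 1 → b * b * (b * b) = 1 →
      b = 1 ∨ b = a ∨ b = q * a * q⁻¹ ∨ b = a * (q * a * q⁻¹) := by decide +kernel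

theorem f1 (q a : alternatingGroup (Fin 4)) (h : q ≠ 1) (k : q ^ 3 = 1) (n : a ≠ 1) (l : a ^ 4 = 1) :
    q * a * q⁻¹ ≠ a ∧ q * (q * a * q⁻¹) * q⁻¹ = a * (q * a * q⁻¹) ∧ ∀ b : alternatingGroup (Fin 4), b ^ 4 = 1 →
      b = 1 ∨ b = a ∨ b = q * a * q⁻¹ ∨ b = a * (q * a * q⁻¹) := by
  have t : ∀ {b : alternatingGroup (Fin 4)}, b ^ 4 = 1 → b.1 * b.1 * (b.1 * b.1) = 1 := fun e =>
    (by simp only [pow_succ, pow_zero, one_mul, mul_assoc] : _ = _ ^ 4).trans (congrArg Subtype.val e)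
  obtain ⟨x, y, z⟩ := f0 q a (fun e => h (Subtype.ext e)) ((pow_three' _).symm.trans (congrArg Subtype.val k))
    (fun e => n (Subtype.ext e)) a.2 (t l)
  exact ⟨mt (congrArg Subtype.val) x, Subtype.ext y, fun b e => by simp only [Subtype.ext_iff]; exact z b b.2 (t e)⟩

/-- In the direct product P = A₄ × A₄, let X be the Sylow 2-subgroup, X₁ and X₂ its intersections with the two direct factors, Q a Sylow 3-subgroup and Q₁, Q₂ its intersections with the two factors. Then every subgroup B of X of order 4 either meets X₁ or X₂ nontrivially, or is normalized by one of the two subgroups of Q of order 3 other than Q₁ and Q₂. -/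
theorem result
    (X : Sylow 2 (↥(alternatingGroup (Fin 4)) × ↥(alternatingGroup (Fin 4))))
    (Q : Sylow 3 (↥(alternatingGroup (Fin 4)) × ↥(alternatingGroup (Fin 4))))
    (B : Subgroup (↥(alternatingGroup (Fin 4)) × ↥(alternatingGroup (Fin 4)))) (hBX : B ≤ (X : Subgroup _)) (hB4 : Nat.card ↥B = 4) :
    B ⊓ ((X : Subgroup _) ⊓ Subgroup.prod ⊤ ⊥) ≠ ⊥ ∨ B ⊓ ((X : Subgroup _) ⊓ Subgroup.prod ⊥ ⊤) ≠ ⊥ ∨
      ∃ R : Subgroup (↥(alternatingGroup (Fin 4)) × ↥(alternatingGroup (Fin 4))), R ≤ (Q : Subgroup _) ∧ Nat.card ↥R = 3 ∧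
        R ≠ (Q : Subgroup _) ⊓ Subgroup.prod ⊤ ⊥ ∧ R ≠ (Q : Subgroup _) ⊓ Subgroup.prod ⊥ ⊤ ∧ R ≤ Subgroup.normalizer (B : Set _) := by
  set_option maxSynthPendingDepth 3 in
  classical
  haveI : Fact (Nat.Prime 3) := ⟨Nat.prime_three⟩
  have cA : Nat.card (alternatingGroup (Fin 4)) = 12 := alternatingGroup.card_of_card_eq_four (by simp)
  rw [or_iff_not_imp_left, or_iff_not_imp_left, not_not, not_not]
  intro h1 h2
  have i1 : ∀ x ∈ B, x.1 = 1 → x = 1 := fun x m e => h2.le ⟨m, hBX m, e, mem_top _⟩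
  have i2 : ∀ x ∈ B, x.2 = 1 → x = 1 := fun x m e => h1.le ⟨m, hBX m, mem_top _, e⟩
  have p4 : ∀ x ∈ B, x ^ 4 = 1 := fun x m => congrArg Subtype.val (hB4 ▸ pow_card_eq_one' (x := (⟨x, m⟩ : B)))
  obtain ⟨P⟩ : Nonempty (Sylow 3 (alternatingGroup (Fin 4))) := inferInstance
  have cP : Nat.card P = 3 := by rw [P.card_eq_multiplicity, cA]; decide +kernel
  obtain ⟨R, hR⟩ := (IsPGroup.of_card (p := 3) (n := 2) (G := P.1.prod P.1) (by
    rw [Nat.card_congr (P.1.prodEquiv P.1).toEquiv, Nat.card_prod, cP]; rfl)).exists_le_sylow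
  obtain ⟨g, rfl⟩ := MulAction.exists_smul_eq (alternatingGroup (Fin 4) × alternatingGroup (Fin 4)) R Q
  obtain ⟨u, hu⟩ := exists_prime_orderOf_dvd_card' (G := P) 3 cP.symm.dvd
  have u1 : u.1 ≠ 1 := fun e => by simp [show u = 1 from Subtype.ext e] at hu
  have u3 : u.1 ^ 3 = 1 := congrArg Subtype.val (hu ▸ pow_orderOf_eq_one u)
  have mq : ∀ a ∈ P.1, ∀ b ∈ P.1, (g.1 * a * g.1⁻¹, g.2 * b * g.2⁻¹) ∈ (g • R).1 := fun a m b n =>
    smul_mem_pointwise_smul (a, b) (MulAut.conj g) _ (hR ⟨m, n⟩)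
  have c1 : ∀ t v : alternatingGroup (Fin 4), v ≠ 1 → t * v * t⁻¹ ≠ 1 := fun t v n => by simpa using n
  have c3 : ∀ t v : alternatingGroup (Fin 4), v ^ 3 = 1 → (t * v * t⁻¹) ^ 3 = 1 := fun t v n => by simp [n]
  haveI : Nontrivial B := Finite.one_lt_card_iff_nontrivial.1 (by omega)
  obtain ⟨⟨⟨a, b⟩, m⟩, n⟩ := exists_ne (1 : B)
  have n : (a, b) ≠ 1 := fun e => n (Subtype.ext e)
  obtain ⟨q, hq⟩ : ∃ q, q = g.1 * u * g.1⁻¹ := ⟨_, rfl⟩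
  obtain ⟨a1, a2, a3⟩ := f1 q a (hq ▸ c1 _ _ u1) (hq ▸ c3 _ _ u3) (mt (i1 _ m) n) (congrArg Prod.fst (p4 _ m))
  have inj : ∀ x ∈ B, ∀ y ∈ B, x.1 = y.1 → x = y := fun x s y t e =>
    (inv_mul_eq_one.1 (i1 _ (mul_mem (inv_mem t) s) (inv_mul_eq_one.2 e.symm))).symm
  obtain ⟨⟨a', b'⟩, m', e'⟩ : ∃ x ∈ B, x.1 = q * a * q⁻¹ := by
    by_contra! z
    have : (B : Set _) ⊆ {1, (a, b)} := fun x s => by
      rcases a3 _ (congrArg Prod.fst (p4 _ s)) with e | e | e | e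
      exacts [.inl (i1 _ s e), .inr (inj _ s _ m e), (z x s e).elim,
        (z _ (mul_mem (inv_mem m) s) (inv_mul_eq_iff_eq_mul.2 e)).elim]
    have := (Set.ncard_le_ncard this).trans ((Set.ncard_insert_le _ _).trans_eq (by rw [Set.ncard_singleton]))
    exact absurd (hB4 ▸ this : 4 ≤ 2) (by omega)
  obtain rfl : a' = _ := e'
  obtain ⟨v, v0, v1, v3, v4⟩ : ∃ v ∈ P.1, v ≠ 1 ∧ v ^ 3 = 1 ∧ b' = g.2 * v * g.2⁻¹ * b * (g.2 * v * g.2⁻¹)⁻¹ := by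
    obtain ⟨b1, b2, b3⟩ := f1 (g.2 * u * g.2⁻¹) b (c1 _ _ u1) (c3 _ _ u3) (mt (i2 _ m) n) (congrArg Prod.snd (p4 _ m))
    rcases b3 _ (congrArg Prod.snd (p4 _ m')) with e | e | e | e
    · exact (c1 _ _ (mt (i1 _ m) n) (congrArg Prod.fst (i2 _ m' e))).elim
    · exact (a1 (inv_mul_eq_one.1 (congrArg Prod.fst (i2 _ (mul_mem (inv_mem m) m') (inv_mul_eq_one.2 e.symm)))).symm).elim
    · exact ⟨u, u.2, u1, u3, e⟩
    · refine ⟨u * u, mul_mem u.2 u.2, fun z => u1 (by rw [← u3, pow_three', z, one_mul]),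
        by rw [← pow_two, pow_right_comm, u3, one_pow], e.trans (b2.symm.trans (by group))⟩
  obtain ⟨r, hr⟩ : ∃ r, r = g.2 * v * g.2⁻¹ := ⟨_, rfl⟩
  rw [← hr] at v4
  subst v4
  have q1 : q ≠ 1 := hq ▸ c1 _ _ u1
  have r1 : r ≠ 1 := hr ▸ c1 _ _ v1
  obtain ⟨-, b2, -⟩ := f1 r b r1 (hr ▸ c3 _ _ v3) (mt (i2 _ m) n) (congrArg Prod.snd (p4 _ m))
  refine ⟨zpowers (q, r), zpowers_le.2 (hq ▸ hr ▸ mq _ u.2 _ v0), ?_, fun e => r1 (e.le (mem_zpowers _)).2.2,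
    fun e => q1 (e.le (mem_zpowers _)).2.1, zpowers_le.2 (mem_normalizer_fintype fun x s => ?_)⟩
  · rw [Nat.card_zpowers]
    exact orderOf_eq_prime (Prod.ext (hq ▸ c3 _ _ u3) (hr ▸ c3 _ _ v3)) fun e => q1 (congrArg Prod.fst e)
  have m2 : (q, r) * (q * a * q⁻¹, r * b * r⁻¹) * (q, r)⁻¹ ∈ B := by
    convert mul_mem m m' using 1
    exact Prod.ext a2 b2
  rcases a3 _ (congrArg Prod.fst (p4 _ s)) with e | e | e | e
  · rw [i1 _ s e, mul_one, mul_inv_cancel]; exact one_mem _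
  · rw [inj _ s _ m e]; exact m'
  · rw [inj _ s _ m' e]; exact m2
  · rw [inj _ s _ (mul_mem m m') e, ← conj_mul]; exact mul_mem m' m2

end Cfsg.Agent.S4406
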