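import Cfsg.Statements.S4413
import Cfsg.Agent.S5432
import Cfsg.Agent.S0824

set_option autoImplicit false
open Cfsg

namespace Cfsg.Agent.S4413
set_option maxRecDepth 100000

/-- Let P be an extraspecial 2-group of order 32 with no elementary abelian subgroup of order 8 (the central product of a dihedral and a quaternion group of order 8). Then the inner automorphism group of P has order 16 and the outer automorphism group Aut(P)/Inn(P) is isomorphic to the symmetric group of degree 5; in particular Aut(P) has order 1920. -/
theorem result {P : Type*} [Group P] [Finite P]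
    (hex : Cfsg.IsExtraspecial 2 P) (h32 : Nat.card P = 32)
    (hminus : ∀ A : Subgroup P, Cfsg.IsElementaryAbelian 2 A → Nat.card ↥A ≤ 4)
    [(MulAut.conj : P →* MulAut P).range.Normal] :
    Nat.card ↥(MulAut.conj : P →* MulAut P).range = 16 ∧ Nat.card (MulAut P) = 1920 ∧
      Nonempty ((MulAut P ⧸ (MulAut.conj : P →* MulAut P).range) ≃* Equiv.Perm (Fin 5)) := by
  have : Fact (Nat.Prime 2) := ⟨Nat.prime_two⟩
  obtain ⟨e1⟩ := (Cfsg.Agent.S5432.result hex 2 (by norm_num) (by rw [h32]; norm_num)).2 (by
    rintro ⟨A, hA, hc⟩
    have := hminus A hA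
    rw [hc] at this
    norm_num at this)
  obtain ⟨e2⟩ := Cfsg.Agent.S0824.result (F := ZMod 2) (by simp)
  have e : (MulAut P ⧸ (MulAut.conj : P →* MulAut P).range) ≃* Equiv.Perm (Fin 5) := e1.trans e2
  have hk : (MulAut.conj : P →* MulAut P).ker = Subgroup.center P := by
    ext x
    rw [MonoidHom.mem_ker, Subgroup.mem_center_iff]
    constructor
    · intro h g
      have h1 : x * g * x⁻¹ = g := by simpa using DFunLike.congr_fun h g
      calc g * x = (x * g * x⁻¹) * x := by rw [h1]
        _ = x * g := by group
    · intro h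
      ext g
      simp [← h g]
  have h16 : Nat.card ↥(MulAut.conj : P →* MulAut P).range = 16 := by
    have h1 := Subgroup.card_mul_index (MulAut.conj : P →* MulAut P).ker
    rw [Subgroup.index_ker, hk, hex.2, h32] at h1
    omega
  refine ⟨h16, ?_, ⟨e⟩⟩
  rw [Subgroup.card_eq_card_quotient_mul_card_subgroup (MulAut.conj : P →* MulAut P).range, h16, Nat.card_congr e.toEquiv,
    Nat.card_perm]
  simp [Nat.factorial]

end Cfsg.Agent.S4413
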