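import Cfsg.Statements.S4417
import Cfsg.Agent.H7.GK
import Cfsg.Agent.S4010

set_option autoImplicit false
open Cfsg

namespace Cfsg.Agent.S4417
open H7
open scoped commutatorElement

section
open Subgroup

theorem sum_le {K V : Type*} [Field K] [AddCommGroup V] [Module K V] [FiniteDimensional K V]
    (T : Module.End K V) {e : ℕ} (f : Fin e → K) (hf : Function.Injective f) :
    ∑ i, Module.finrank K (Module.End.eigenspace T (f i)) ≤ Module.finrank K V := by
  classical
  have h := (Module.End.eigenspaces_iSupIndep T).comp hf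
  have := LinearMap.finrank_le_finrank_of_injective h.dfinsupp_lsum_injective
  refine le_trans (le_of_eq ?_) this
  exact (Module.finrank_directSum K (fun i => Module.End.eigenspace T (f i))).symm

universe u v in
theorem main {K : Type*} [Field K] [IsAlgClosed K] {p : ℕ} [Fact p.Prime] (hp : (p : K) ≠ 0)
    (q : ℕ) (hq : Function.Surjective fun c : K => c ^ q) (k : ℕ)
    {G : Type u} [Group G] [Finite G] (hG : IsPGroup p G) :
    ∀ (n : ℕ) (V : Type v) [AddCommGroup V] [Module K V]
      [FiniteDimensional K V] (ρ : Representation K G V) (φ : V →+ V), Function.Injective φ →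
      (∀ (c : K) y, φ (c • y) = c ^ q • φ y) → (∀ g y, φ (ρ g y) = ρ g (φ y)) →
      Module.finrank K V = n → n < orderOf (q : ZMod p) * 2 ^ k → ∀ g ∈ derivedSeries G k, ρ g = 1 := by
  intro n
  induction n using Nat.strong_induction_on with
  | _ n ihn =>
  intro V _ _ _ ρ φ hφ hs hc hn hlt g hg
  by_contra hg1
  let ρu : G →* (Module.End K V)ˣ := MonoidHom.toHomUnits ρ
  have hQ : IsPGroup p ρu.range := hG.of_surjective _ ρu.rangeRestrict_surjective
  haveI : Finite ρu.range := Finite.of_surjective _ ρu.rangeRestrict_surjective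
  haveI : Nontrivial ρu.range := ⟨⟨ρu g, g, rfl⟩, 1, fun h => hg1 (congrArg Units.val (congrArg Subtype.val h))⟩
  haveI := hQ.center_nontrivial
  obtain ⟨⟨⟨_, z, rfl⟩, hz⟩, hz1⟩ := exists_ne (1 : center ρu.range)
  have hz1' : ρ z ≠ 1 := fun h => hz1 (Subtype.ext (Subtype.ext (Units.ext h)))
  have hzc : ∀ a, ρ a * ρ z = ρ z * ρ a := fun a =>
    congrArg Units.val (congrArg Subtype.val (mem_center_iff.1 hz ⟨ρu a, a, rfl⟩))
  refine hg1 (S4010.one_of_eig hG hp ρ z g (fun μ w hw => ?_))
  have hinv : ∀ a, Module.End.eigenspace (ρ z) μ ≤ (Module.End.eigenspace (ρ z) μ).comap (ρ a) := by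
    intro a y hy
    rw [Submodule.mem_comap, Module.End.mem_eigenspace_iff] at *
    rw [← Module.End.mul_apply, ← hzc a, Module.End.mul_apply, hy, map_smul]
  have hφE : ∀ ν : K, ∀ y ∈ Module.End.eigenspace (ρ z) ν, φ y ∈ Module.End.eigenspace (ρ z) (ν ^ q) := by
    intro ν y hy
    rw [Module.End.mem_eigenspace_iff] at *
    rw [← hc, hy, hs]
  let ψ : ∀ ν : K, Module.End.eigenspace (ρ z) ν →+ Module.End.eigenspace (ρ z) (ν ^ q) := fun ν =>
    { toFun := fun y => ⟨φ y, hφE ν y y.2⟩
      map_zero' := Subtype.ext (map_zero φ)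
      map_add' := fun a b => Subtype.ext (map_add φ _ _) }
  have hdim : ∀ ν : K, Module.finrank K (Module.End.eigenspace (ρ z) ν) ≤
      Module.finrank K (Module.End.eigenspace (ρ z) (ν ^ q)) := by
    intro ν
    have := rank_le_of_surjective_injective (fun c : K => c ^ q) (ψ ν) hq
      (fun a b h => Subtype.ext (hφ (congrArg Subtype.val h))) (fun c y => Subtype.ext (hs c y))
    rw [← Module.finrank_eq_rank, ← Module.finrank_eq_rank] at this
    exact_mod_cast this
  by_cases hμ : μ = 1
  · subst hμ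
    have hne : Module.End.eigenspace (ρ z) 1 ≠ ⊤ := by
      intro h
      apply hz1'
      ext y
      have : y ∈ Module.End.eigenspace (ρ z) 1 := by rw [h]; trivial
      rw [Module.End.mem_eigenspace_iff, one_smul] at this
      exact this
    have hlt' : Module.finrank K (Module.End.eigenspace (ρ z) 1) < n := by
      rw [← hn]; exact Submodule.finrank_lt hne
    let ψ1 : Module.End.eigenspace (ρ z) 1 →+ Module.End.eigenspace (ρ z) 1 :=
      { toFun := fun y => ⟨φ y, by simpa using hφE 1 y y.2⟩
        map_zero' := Subtype.ext (map_zero φ)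
        map_add' := fun a b => Subtype.ext (map_add φ _ _) }
    have := ihn _ hlt' _ (ρ.subrepresentation _ hinv) ψ1
      (fun a b h => Subtype.ext (hφ (congrArg Subtype.val h))) (fun c y => Subtype.ext (hs c y))
      (fun a y => Subtype.ext (hc a y)) rfl (by omega) g hg
    exact congrArg Subtype.val (LinearMap.congr_fun this ⟨w, hw⟩)
  by_cases hw0 : w = 0
  · rw [hw0, map_zero]
  obtain ⟨a, ha⟩ := hG z
  have hμa : μ ^ p ^ a = 1 := by
    have h1 := Module.End.HasEigenvector.pow_apply ⟨hw, hw0⟩ (p ^ a)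
    rw [← map_pow, ha, map_one, Module.End.one_apply] at h1
    refine smul_left_injective K hw0 ?_
    simpa using h1.symm
  have hfin : IsOfFinOrder μ := isOfFinOrder_iff_pow_eq_one.2 ⟨_, pow_pos (Fact.out : p.Prime).pos a, hμa⟩
  have hdvd : p ∣ orderOf μ := by
    obtain ⟨m, -, hm⟩ := (Nat.dvd_prime_pow Fact.out).1 (orderOf_dvd_of_pow_eq_one hμa)
    rw [hm]
    refine dvd_pow_self p (fun h => hμ ?_)
    rw [h, pow_zero] at hm
    exact orderOf_eq_one_iff.1 hm
  have hinj : Function.Injective fun i : Fin (orderOf (q : ZMod p)) => μ ^ q ^ (i : ℕ) := by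
    intro i j h
    have h1 := (hfin.pow_eq_pow_iff_modEq.1 h).of_dvd hdvd
    have h2 := (ZMod.natCast_eq_natCast_iff _ _ _).2 h1
    rw [Nat.cast_pow, Nat.cast_pow] at h2
    exact Fin.ext (pow_injOn_Iio_orderOf i.2 j.2 h2)
  have hle : ∀ i : ℕ, Module.finrank K (Module.End.eigenspace (ρ z) μ) ≤
      Module.finrank K (Module.End.eigenspace (ρ z) (μ ^ q ^ i)) := by
    intro i
    induction i with
    | zero => rw [pow_zero, pow_one]
    | succ i ih => rw [pow_succ, pow_mul]; exact ih.trans (hdim _)
  have h1 := sum_le (ρ z) _ hinj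
  have h2 := Finset.card_nsmul_le_sum Finset.univ _ _ (fun (i : Fin (orderOf (q : ZMod p))) _ => hle i)
  rw [Finset.card_univ, Fintype.card_fin, smul_eq_mul] at h2
  have h3 : Module.finrank K (Module.End.eigenspace (ρ z) μ) < 2 ^ k :=
    Nat.lt_of_mul_lt_mul_left (lt_of_le_of_lt (h2.trans (h1.trans hn.le)) hlt)
  have := S4010.coprime_case hp k _ G hG _ (ρ.subrepresentation _ hinv) rfl h3 g hg
  exact congrArg Subtype.val (LinearMap.congr_fun this ⟨w, hw⟩)

end

/-- Let F be a field with q elements, p a prime not dividing q, and e the multiplicative order of q modulo p; assume e ≤ n. Then every p-subgroup of GL_n(F) has derived length at most ⌊log₂(n/e)⌋ + 1: that term of its derived series is trivial (n/e is the integer quotient). -/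
theorem result {F : Type*} [Field F] [Fintype F] (q : ℕ) (hF : Fintype.card F = q) (p : ℕ) [Fact p.Prime] (hpq : ¬ p ∣ q) (n e : ℕ) (he : e = orderOf (q : ZMod p)) (hen : e ≤ n) (P : Subgroup (GL (Fin n) F)) (hP : IsPGroup p P) : derivedSeries ↥P (Nat.log 2 (n / e) + 1) = ⊥ := by
  open Subgroup in
  let K := AlgebraicClosure F
  let τ : Matrix (Fin n) (Fin n) F →* Module.End K (Fin n → K) :=
    (Matrix.toLinAlgEquiv' (R := K) (n := Fin n)).toMulEquiv.toMonoidHom.comp
      ((algebraMap F K).mapMatrix (m := Fin n)).toMonoidHom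
  have hτ : Function.Injective τ :=
    (Matrix.toLinAlgEquiv' (R := K) (n := Fin n)).injective.comp (Matrix.map_injective (algebraMap F K).injective)
  let σ : Representation K P (Fin n → K) := τ.comp ((Units.coeHom _).comp P.subtype)
  have hσ : Function.Injective σ := hτ.comp (Units.val_injective.comp P.subtype_injective)
  obtain ⟨r, hr⟩ := CharP.exists F
  obtain ⟨m, hrp, hm⟩ := FiniteField.card F r
  haveI := Fact.mk hrp
  have hqr : q = r ^ (m : ℕ) := hF ▸ hm
  haveI : CharP K r := charP_of_injective_algebraMap (algebraMap F K).injective r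
  have hp : (p : K) ≠ 0 := by
    intro h
    rw [CharP.cast_eq_zero_iff K r] at h
    rw [(Nat.prime_dvd_prime_iff_eq hrp Fact.out).1 h] at hqr
    exact hpq (hqr ▸ dvd_pow_self p m.ne_zero)
  let fr : K →+* K := iterateFrobenius K r m
  have hfr : ∀ c, fr c = c ^ q := fun c => by rw [hqr]; rfl
  have hfix : ∀ c : F, fr (algebraMap F K c) = algebraMap F K c := fun c => by
    rw [hfr, ← map_pow, ← hF, FiniteField.pow_card]
  have hq0 : 0 < q := hF ▸ Fintype.card_pos
  let φ : (Fin n → K) →+ (Fin n → K) := fr.toAddMonoidHom.compLeft (Fin n)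
  have he0 : 0 < e := by
    rw [he, orderOf_pos_iff]
    have : (q : ZMod p) ≠ 0 := fun h => hpq ((ZMod.natCast_eq_zero_iff _ _).1 h)
    exact isOfFinOrder_iff_pow_eq_one.2 ⟨p - 1, Nat.sub_pos_of_lt (Fact.out : p.Prime).one_lt, ZMod.pow_card_sub_one_eq_one this⟩
  have hlt : n < e * 2 ^ (Nat.log 2 (n / e) + 1) := by
    rw [mul_comm, ← Nat.div_lt_iff_lt_mul he0]
    exact Nat.lt_pow_succ_log_self (by norm_num) _
  rw [eq_bot_iff_forall]
  intro g hg
  apply hσ
  rw [map_one]
  refine main hp q (fun c => IsAlgClosed.exists_pow_nat_eq c hq0) _ hP n _ σ φ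
    (fun a b h => funext fun i => fr.injective (congrFun h i)) (fun c y => funext fun i => ?_)
    (fun a y => funext fun i => ?_) (by simp) (he ▸ hlt) g hg
  · change fr (c * y i) = c ^ q * fr (y i)
    rw [map_mul, hfr c]
  · change fr (∑ j, algebraMap F K (a.1.1 i j) * y j) = ∑ j, algebraMap F K (a.1.1 i j) * fr (y j)
    rw [map_sum]
    simp only [map_mul, hfix]

end Cfsg.Agent.S4417
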