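import Cfsg.Statements.S4420
import Mathlib
import Cfsg.Agent.H8.ClassCount

set_option autoImplicit false
open Cfsg

namespace Cfsg.Agent.S4420

lemma inv_of_out {H : Type*} [Group H] (A : Subgroup H) (hD : ∀ x : H, x ∉ A → x ^ 2 = 1)
    {x b : H} (hx : x ∉ A) (hb : b ∈ A) : x * b * x⁻¹ = b⁻¹ := by
  have h1 := hD x hx
  have h2 := hD (x * b) (fun h => hx (by simpa using A.mul_mem h (A.inv_mem hb)))
  rw [sq] at h1 h2
  rw [inv_eq_of_mul_eq_one_right h1]
  calc x * b * x = (x * b * (x * b)) * b⁻¹ := by group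
    _ = _ := by rw [h2, one_mul]

lemma sq_of_index {H : Type*} [Group H] (A : Subgroup H) (hA : A ≠ ⊤)
    (hD : ∀ x : H, x ∉ A → x ^ 2 = 1) (hi : A.index ≠ 2) (x : H) : x ^ 2 = 1 := by
  by_cases hx : x ∈ A
  swap
  · exact hD x hx
  obtain ⟨a, -, ha⟩ := SetLike.exists_of_lt (lt_top_iff_ne_top.2 hA)
  rw [Ne, Subgroup.index_eq_two_iff] at hi
  push Not at hi
  obtain ⟨b, hb⟩ := hi a
  have hb1 : b ∉ A := fun h => hb (Or.inr ⟨h, fun h2 => ha (by simpa using A.mul_mem (A.inv_mem h) h2)⟩)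
  have hb2 : b * a ∉ A := fun h => hb (Or.inl ⟨h, hb1⟩)
  have h1 := inv_of_out A hD hb2 hx
  have h2 := inv_of_out A hD ha hx
  have h3 := inv_of_out A hD hb1 (A.inv_mem hx)
  have : x = x⁻¹ := by
    calc x = b * x⁻¹ * b⁻¹ := by rw [h3, inv_inv]
      _ = b * (a * x * a⁻¹) * b⁻¹ := by rw [h2]
      _ = x⁻¹ := by rw [← h1]; group
  rw [sq]; nth_rewrite 1 [this]; simp

lemma comm_of_sq {H : Type*} [Group H] (h : ∀ x : H, x ^ 2 = 1) (x y : H) : x * y = y * x := by
  have hx2 := h x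
  have hy2 := h y
  have hxy := h (x * y)
  rw [sq] at hx2 hy2 hxy
  calc x * y = x * (x * y * (x * y)) * y := by rw [hxy]; group
    _ = (x * x) * y * x * (y * y) := by simp only [mul_assoc]
    _ = y * x := by rw [hx2, hy2]; group

/-- Structure of groups in which every element outside some proper subgroup has square 1. Let H be a finite group with a proper subgroup A such that every element outside A has square 1. Then H has an abelian normal subgroup B of index 2 such that every element outside B is an involution inverting every element of B; and if H is not an elementary abelian 2-group, B is the only abelian normal subgroup of index 2 with this property. -/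
theorem result {H : Type*} [Group H] [Finite H] (A : Subgroup H) (hA : A ≠ ⊤) (hD : ∀ x : H, x ∉ A → x ^ 2 = 1) :
    ∃ B : Subgroup H, B.Normal ∧ IsMulCommutative ↥B ∧ B.index = 2 ∧
      (∀ x : H, x ∉ B → x ^ 2 = 1 ∧ ∀ b ∈ B, x * b * x⁻¹ = b⁻¹) ∧
      (¬ (IsMulCommutative H ∧ ∀ x : H, x ^ 2 = 1) →
        ∀ B' : Subgroup H, B'.Normal → IsMulCommutative ↥B' → B'.index = 2 →
          (∀ x : H, x ∉ B' → x ^ 2 = 1 ∧ ∀ b ∈ B', x * b * x⁻¹ = b⁻¹) → B' = B) := by
  obtain ⟨B, hB2, hBD⟩ : ∃ B : Subgroup H, B.index = 2 ∧ ∀ x : H, x ∉ B → x ^ 2 = 1 := by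
    by_cases hi : A.index = 2
    · exact ⟨A, hi, hD⟩
    · have h := sq_of_index A hA hD hi
      obtain ⟨M, hM, -⟩ := H1.exists_coatom_ge hA
      exact ⟨M, H1.index_eq_of_isCoatom_of_isPGroup (p := 2) (fun x => ⟨1, by simpa using h x⟩) hM,
        fun x _ => h x⟩
  have hBt : B ≠ ⊤ := by rintro rfl; simp at hB2
  obtain ⟨a, -, ha⟩ := SetLike.exists_of_lt (lt_top_iff_ne_top.2 hBt)
  refine ⟨B, Subgroup.normal_of_index_eq_two hB2, H1.isMulCommutative_iff'.2 fun x hx y hy => ?_,
    hB2, fun x hx => ⟨hBD x hx, fun b hb => inv_of_out B hBD hx hb⟩, ?_⟩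
  · have h1 := inv_of_out B hBD ha hx
    have h2 := inv_of_out B hBD ha hy
    have h3 := inv_of_out B hBD ha (B.mul_mem hx hy)
    rw [← inv_inj, ← h3, mul_inv_rev, ← h1, ← h2]; group
  · intro hne B' _ _ hB' h'
    by_contra hBB
    apply hne
    have h := sq_of_index (B' ⊓ B) (fun h => hBt (eq_top_iff.2 (h.ge.trans inf_le_right)))
      (fun x hx => by
        by_cases h1 : x ∈ B
        · exact (h' x fun h2 => hx ⟨h2, h1⟩).1
        · exact hBD x h1)
      (fun h => hBB (by
        have h1 : B' ⊓ B = B' := H8.eq_of_le_of_index_le inf_le_left (by omega)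
        have h2 : B' ⊓ B = B := H8.eq_of_le_of_index_le inf_le_right (by omega)
        rw [← h1, h2]))
    exact ⟨⟨⟨comm_of_sq h⟩⟩, h⟩

end Cfsg.Agent.S4420
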