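import Cfsg.Statements.S4518
import Cfsg.Agent.H3.Real

set_option autoImplicit false
open Cfsg

namespace Cfsg.Agent.S4518
open H3
export H3 (inner_add_left inner_add_right inner_sub_left inner_sub_right inner_neg_left inner_neg_right
  inner_zero_left inner_zero_right inner_smul_left inner_smul_right inner_conj_symm inner_self_eq_zero
  inner_self_im)

/-- Let N be a normal subgroup of the finite group G whose index is not divisible by the prime p, and let k be coprime to the order of G with k ^ (p ^ e) ≡ 1 modulo the order of G for some e (so g ↦ g ^ k induces a field automorphism of p-power order on character values). If an irreducible character χ of G satisfies χ (g ^ k) = χ g for all g, then every irreducible constituent θ of the restriction of χ to N satisfies θ (n ^ k) = θ n for all n. -/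
theorem result {G : Type*} [Group G] [Fintype G] (p : ℕ) [Fact p.Prime] (N : Subgroup G) [N.Normal] [Fintype N] (hidx : ¬ p ∣ N.index) (k e : ℕ) (hk : Nat.Coprime k (Nat.card G)) (hke : k ^ (p ^ e) ≡ 1 [MOD Nat.card G]) (χ : Cfsg.IrrCharacter G) (hχ : ∀ g : G, (χ : G → ℂ) (g ^ k) = (χ : G → ℂ) g) (θ : Cfsg.IrrCharacter N) (hθ : Cfsg.classInner (fun n : N => (χ : G → ℂ) n) (θ : N → ℂ) ≠ 0) : ∀ n : N, (θ : N → ℂ) (n ^ k) = (θ : N → ℂ) n := by
  set_option maxSynthPendingDepth 3 in
  cases Subsingleton.elim ‹Fintype N› (subFin N)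
  obtain ⟨θ, a⟩ := θ
  obtain ⟨θ, rfl⟩ := exists_amb θ
  obtain ⟨σ, b⟩ := exists_ringEquiv_pow (Nat.card_pos (α := G)).ne' hk
  have c : ∀ (j : ℕ) (z : ℂ), z ^ Nat.card G = 1 → ((σ : ℂ →+* ℂ) ^ j) z = z ^ k ^ j := fun j z h => by
    induction j with
    | zero => simp
    | succ j ih => rw [pow_succ', RingHom.mul_def, RingHom.comp_apply, ih, map_pow, RingHom.coe_coe, b z h, ← pow_mul, pow_succ']
  have d : ∀ (K : Subgroup G) (α : G → ℂ), Irr K α↾K → ∀ x : K, σ (α x) = α (x ^ k) := fun K α h x =>
    h.isCharacter.gal_eq_pow σ fun z v => b z (pow_eq_one_of_dvd v (by simpa using orderOf_dvd_natCard (x : G)))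
  have := Fx.under (σ := σ) (m := p ^ e) (fun z h => by rw [c _ z h, pow_eq_pow_of_modEq hke h, pow_one]) le_top
    N.normalizer_eq_top.ge (by simpa using ((Nat.Prime.coprime_iff_not_dvd Fact.out).2 hidx).pow_left e) (irr_top.2 χ.2) a hθ
    (funext fun x => (d ⊤ _ (irr_top.2 χ.2) x).trans (hχ x))
  exact fun n => (d N θ a n).symm.trans (congrFun this n)

end Cfsg.Agent.S4518
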