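import Cfsg.Statements.S4519
import Cfsg.Agent.H3.Real

set_option autoImplicit false
open Cfsg

namespace Cfsg.Agent.S4519
open H3
export H3 (inner_add_left inner_add_right inner_sub_left inner_sub_right inner_neg_left inner_neg_right
  inner_zero_left inner_zero_right inner_smul_left inner_smul_right inner_conj_symm inner_self_eq_zero
  inner_self_im)

/-- Let N be a normal subgroup of odd index in the finite group G, and let k be coprime to the order of G with k ^ (2 ^ e) ≡ 1 modulo the order of G for some e and g ^ k = g⁻¹ for every element g of odd order (so g ↦ g ^ k induces a field automorphism of 2-power order inverting the roots of unity of odd order). If an irreducible character θ of N satisfies θ (n ^ k) = θ n for all n, then there is exactly one irreducible character χ of G with θ a constituent of its restriction to N and χ (g ^ k) = χ g for all g; moreover, if θ is invariant under conjugation by G, that χ restricts to θ. -/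
theorem result {G : Type*} [Group G] [Fintype G] (N : Subgroup G) [hN : N.Normal] [Fintype N] (hidx : Odd N.index) (k e : ℕ) (hk : Nat.Coprime k (Nat.card G)) (hke : k ^ (2 ^ e) ≡ 1 [MOD Nat.card G]) (hk₂ : ∀ g : G, Odd (orderOf g) → g ^ k = g⁻¹) (θ : Cfsg.IrrCharacter N) (hθ : ∀ n : N, (θ : N → ℂ) (n ^ k) = (θ : N → ℂ) n) : ∃ χ : Cfsg.IrrCharacter G, (Cfsg.classInner (fun n : N => (χ : G → ℂ) n) (θ : N → ℂ) ≠ 0 ∧ (∀ g : G, (χ : G → ℂ) (g ^ k) = (χ : G → ℂ) g) ∧ ((∀ g : G, ∀ n : N, (θ : N → ℂ) ⟨g * n * g⁻¹, hN.conj_mem n n.2 g⟩ = (θ : N → ℂ) n) → ∀ n : N, (χ : G → ℂ) n = (θ : N → ℂ) n)) ∧ ∀ χ' : Cfsg.IrrCharacter G, Cfsg.classInner (fun n : N => (χ' : G → ℂ) n) (θ : N → ℂ) ≠ 0 → (∀ g : G, (χ' : G → ℂ) (g ^ k) = (χ' : G → ℂ) g) → χ' = χ := by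
  set_option maxSynthPendingDepth 3 in
  obtain ⟨σ, b⟩ := exists_ringEquiv_pow (Nat.card_pos (α := G)).ne' hk
  have c : ∀ (j : ℕ) (z : ℂ), z ^ Nat.card G = 1 → ((σ : ℂ →+* ℂ) ^ j) z = z ^ k ^ j := fun j z h => by
    induction j with
    | zero => simp
    | succ j ih => rw [pow_succ', RingHom.mul_def, RingHom.comp_apply, ih, map_pow, RingHom.coe_coe, b z h, ← pow_mul, pow_succ']
  have d : ∀ (K : Subgroup G) (α : K → ℂ), Irr K α → ∀ x : K, σ (α x) = α (x ^ k) := fun K α h x =>
    h.isCharacter.gal_eq_pow σ fun z v => b z (pow_eq_one_of_dvd v (by simpa using orderOf_dvd_natCard (x : G)))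
  have d' : ∀ α : G → ℂ, Irr G α → ∀ x, σ (α x) = α (x ^ k) := fun α h x =>
    h.isCharacter.gal_eq_pow σ fun z v => b z (pow_eq_one_of_dvd v (orderOf_dvd_natCard x))
  have i : InvG G σ := ⟨⟨e, fun z h => by rw [c _ z h, pow_eq_pow_of_modEq hke h, pow_one]⟩, fun K ω o x => by
    refine (d K _ (lf_irr ω) x).trans (congrArg Units.val (eq_inv_of_mul_eq_one_left (Subgroup.mem_bot.1 (mem_of_pow_cop
      (o.coprime_two_left.pow_left ((orderOf (x : G)).factorization 2)) ?_ ?_))))
    · have := hk₂ _ (Nat.coprime_two_right.1 (coprime_orderOf_pow_factorization (x : G) Nat.prime_two))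
      rw [← map_mul, ← map_pow, ← pow_succ, ← pow_mul, mul_comm, pow_mul, pow_succ,
        show (x ^ 2 ^ (orderOf (x : G)).factorization 2) ^ k = (x ^ 2 ^ (orderOf (x : G)).factorization 2)⁻¹ from Subtype.ext this]
      simp
    · rw [← map_mul, ← MonoidHom.pow_apply, pow_orderOf_eq_one]; simp⟩
  obtain ⟨χ, u, v, w, x, y⟩ := i.over' θ.2 (funext fun n => (d N _ θ.2 n).trans (hθ n)) hidx
  exact ⟨⟨χ, u⟩, ⟨w, fun g => (d' χ u g).symm.trans (congrFun v g), fun h => congrFun (x (inertia_eq_top.2 h))⟩,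
    fun ψ p q => Subtype.ext (y ψ ψ.2 (funext fun g => (d' _ ψ.2 g).trans (q g)) p)⟩

end Cfsg.Agent.S4519
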