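import Cfsg.Statements.S4521
import Cfsg.Agent.H9.Princ

set_option autoImplicit false
open Cfsg

namespace Cfsg.Agent.S4521
open H9 H3 MonoidAlgebra
open scoped Pointwise
set_option linter.style.haveILetI false
set_option linter.unusedVariables false
open H9 H3

/-- Let the finite group G be generated by subgroups U₁ and U₂ that commute elementwise and whose intersection is a p-group, and let M be a maximal ideal of the algebraic integers containing the prime p. If the irreducible character χ of G has the irreducible constituents ψ₁ on U₁ and ψ₂ on U₂, then χ lies in the principal block of G if and only if ψ₁ and ψ₂ lie in the principal blocks of U₁ and U₂. -/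
theorem result {G : Type*} [Group G] [Fintype G] (p : ℕ) [Fact p.Prime] (M : Ideal Cfsg.AlgInt) (hM : Cfsg.IsPModular p M) (U₁ U₂ : Subgroup G) [Fintype U₁] [Fintype U₂] (hcomm : ∀ u ∈ U₁, ∀ v ∈ U₂, u * v = v * u) (hgen : U₁ ⊔ U₂ = ⊤) (hZ : IsPGroup p ↥(U₁ ⊓ U₂)) (χ : Cfsg.IrrCharacter G) (ψ₁ : Cfsg.IrrCharacter U₁) (ψ₂ : Cfsg.IrrCharacter U₂) (h₁ : Cfsg.classInner (fun u : U₁ => (χ : G → ℂ) u) (ψ₁ : U₁ → ℂ) ≠ 0) (h₂ : Cfsg.classInner (fun u : U₂ => (χ : G → ℂ) u) (ψ₂ : U₂ → ℂ) ≠ 0) : χ ∈ Cfsg.principalBlock M G ↔ (ψ₁ ∈ Cfsg.principalBlock M U₁ ∧ ψ₂ ∈ Cfsg.principalBlock M U₂) := by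
  classical
  haveI : PMod p M := ⟨hM⟩
  have hc : ∀ (u : U₁) (v : U₂), Commute (U₁.subtype u) (U₂.subtype v) := fun u v => hcomm u u.2 v v.2
  have hs : Function.Surjective (U₁.subtype.noncommCoprod U₂.subtype hc) := by
    rw [← MonoidHom.range_eq_top, MonoidHom.noncommCoprod_range, Subgroup.range_subtype, Subgroup.range_subtype, hgen]
  obtain ⟨α, β, hα, hβ, e⟩ := (χ.2.comp_surjective _ hs).exists_prod
  have e' : ∀ (u : U₁) (v : U₂), χ.1 (u * v) = α u * β v := fun u v => congrFun e (u, v)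
  obtain rfl : α = ψ₁.1 := by
    by_contra n
    refine h₁ ?_
    rw [show (fun u : U₁ => χ.1 u) = β 1 • α from funext fun u => by simpa [mul_comm] using e' u 1,
      H3.inner_smul_left, hα.inner_of_ne ψ₁.2 n, mul_zero]
  obtain rfl : β = ψ₂.1 := by
    by_contra n
    refine h₂ ?_
    rw [show (fun u : U₂ => χ.1 u) = ψ₁.1 1 • β from funext fun u => by simpa using e' 1 u,
      H3.inner_smul_left, hβ.inner_of_ne ψ₂.2 n, mul_zero]
  rw [← B0_val, ← B0_val, ← B0_val, mem_B0_iff (p := p), mem_B0_iff (p := p), mem_B0_iff (p := p), ← mul_ne_zero_iff,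
    Finset.sum_mul_sum, ← Finset.sum_product']
  refine Iff.of_eq (congrArg (· ≠ 0) (Finset.sum_nbij (fun x : U₁ × U₂ => (x.1 * x.2 : G)) (fun x hx => ?_)
    (fun x hx y hy h => ?_) (fun g hg => ?_) fun x _ => (e' _ _).symm).symm)
  · simp only [Finset.mem_product, Finset.mem_filter, Finset.mem_univ, true_and] at hx ⊢
    exact isPRegular_mul (isPRegular_coe.2 hx.1) (isPRegular_coe.2 hx.2) (hc _ _)
  · simp only [Finset.coe_product, Set.mem_prod, Finset.coe_filter, Finset.mem_univ, true_and, Set.mem_ofPred_eq] at hx hy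
    have h' : ((y.1 : G)⁻¹ * x.1) = y.2 * (x.2 : G)⁻¹ := by
      rw [inv_mul_eq_iff_eq_mul, ← mul_assoc, eq_mul_inv_iff_mul_eq]; exact h
    have m2 : ((y.1 : G)⁻¹ * x.1) ∈ U₂ := h' ▸ mul_mem y.2.2 (inv_mem x.2.2)
    have c : Commute (y.1 : G) ((y.1 : G)⁻¹ * x.1) := hcomm _ y.1.2 _ m2
    have c' : Commute (y.1 : G)⁻¹ (x.1 : G) := by
      simpa using ((Commute.refl (y.1 : G)).mul_right c).inv_left
    have := eq_one_of_isPElt_of_isPRegular (isPElt_of_mem hZ (Subgroup.mem_inf.2 ⟨mul_mem (inv_mem y.1.2) x.1.2, m2⟩))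
      (isPRegular_mul (isPRegular_inv.2 (isPRegular_coe.2 hy.1)) (isPRegular_coe.2 hx.1) c')
    exact Prod.ext (Subtype.ext (inv_mul_eq_one.1 this).symm) (Subtype.ext (mul_inv_eq_one.1 (h'.symm.trans this)).symm)
  · obtain ⟨⟨u, v⟩, rfl⟩ := hs g
    have hg : IsPRegular p (u * v : G) := by simpa using hg
    have c : ∀ {x y : G}, x ∈ U₁ → y ∈ U₂ → Commute x y := fun hx hy => hcomm _ hx _ hy
    have k : (u * v : G) = pp p (u : G) * pp p (v : G) * (pq p (u : G) * pq p (v : G)) := by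
      rw [(c (pq_mem u.2) (pq_mem v.2)).eq, mul_assoc, ← mul_assoc (pp p (v : G)), pp_mul_pq,
        ← (c (pq_mem u.2) v.2).eq, ← mul_assoc, pp_mul_pq]
    have k1 := pp_mul ((isPElt_pp (p := p) (u : G)).mul (isPElt_pp (v : G)) (c (pp_mem u.2) (pp_mem v.2)))
      (isPRegular_mul (isPRegular_pq (u : G)) (isPRegular_pq (v : G)) (c (pq_mem u.2) (pq_mem v.2)))
      (((commute_pp_pq _).mul_right (c (pp_mem u.2) (pq_mem v.2))).mul_left
        ((c (pq_mem u.2) (pp_mem v.2)).symm.mul_right (commute_pp_pq _)))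
    rw [← k, pp_of_isPRegular hg] at k1
    rw [← k1, one_mul] at k
    refine ⟨(⟨_, pq_mem (p := p) u.2⟩, ⟨_, pq_mem (p := p) v.2⟩), ?_, k.symm⟩
    simp only [Finset.coe_product, Set.mem_prod, Finset.coe_filter, Finset.mem_univ, true_and, Set.mem_ofPred_eq]
    exact ⟨isPRegular_coe.1 (isPRegular_pq _), isPRegular_coe.1 (isPRegular_pq _)⟩

end Cfsg.Agent.S4521
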