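import Cfsg.Statements.S4540
import Cfsg.Agent.H9.Avg3

set_option autoImplicit false
open Cfsg

namespace Cfsg.Agent.S4540
open H9 H3 MonoidAlgebra
open scoped Pointwise
set_option linter.style.haveILetI false
set_option linter.unusedVariables false


/-- Let B be a 2-block of the finite group G (relative to a maximal ideal M of the algebraic integers containing 2) of defect d with defect group D. Let z be an element of D commuting with every element of D, and let b be a block of the centralizer C of z with defect group D that induces B (a major subsection (z, b)). If b has 2-regular rank at most three, then 3·k(B) ≤ 3·k₀(B) + 2·Σ 2 ^ h(χ), where k(B) is the number of members of B, k₀(B) the number of members of height zero, and the sum runs over the members χ of B of positive height h(χ); this bound is at most 3·2 ^ d, so in particular B contains at most 2 ^ d irreducible characters. -/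
theorem result {G : Type*} [Group G] [Finite G] (M : Ideal Cfsg.AlgInt) (hM : Cfsg.IsPModular 2 M) (B : Set (Cfsg.IrrCharacter G)) (hB : Cfsg.IsPBlock M B) (D : Subgroup G) (hD : Cfsg.IsDefectGroup 2 M B D) (z : G) (hzD : z ∈ D) (hzc : ∀ d ∈ D, d * z = z * d) (b : Set (Cfsg.IrrCharacter ↥(Subgroup.centralizer ({z} : Set G)))) (hb : Cfsg.IsInducedBlock M (Subgroup.centralizer ({z} : Set G)) b B) (hbD : Cfsg.IsDefectGroup 2 M b (D.subgroupOf (Subgroup.centralizer ({z} : Set G)))) (hl : Cfsg.blockRank 2 b ≤ 3) : 3 * Nat.card B ≤ 3 * Nat.card {χ : Cfsg.IrrCharacter G // χ ∈ B ∧ Cfsg.blockHeight 2 B (χ : G → ℂ) = 0} + 2 * (∑ᶠ χ ∈ {χ : Cfsg.IrrCharacter G | χ ∈ B ∧ 1 ≤ Cfsg.blockHeight 2 B (χ : G → ℂ)}, 2 ^ Cfsg.blockHeight 2 B (χ : G → ℂ)) ∧ 3 * Nat.card {χ : Cfsg.IrrCharacter G // χ ∈ B ∧ Cfsg.blockHeight 2 B (χ : G → ℂ) = 0} + 2 * (∑ᶠ χ ∈ {χ : Cfsg.IrrCharacter G | χ ∈ B ∧ 1 ≤ Cfsg.blockHeight 2 B (χ : G → ℂ)}, 2 ^ Cfsg.blockHeight 2 B (χ : G → ℂ)) ≤ 3 * 2 ^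 Cfsg.blockDefect 2 B := by
  classical
  haveI : PMod 2 M := ⟨hM⟩
  lift B to Bl M G using hB
  lift b to Bl M (cen1 z) using hb.1
  have h := (isInducedBlock_iff.1 hb).sum_le_of_rank (isPElt_of_mem (Bl.IsDef.isPGroup hD) hzD) (by
    rw [← Bl.IsDef.factorization_card hD, ← Bl.IsDef.factorization_card hbD, Nat.card_congr
      (Subgroup.subgroupOfEquivOfLe fun d hd => Subgroup.mem_centralizer_singleton_iff.2 (hzc d hd)).toEquiv]) hl
  have e : 3 * Nat.card {χ : IrrCharacter G // χ ∈ B.1 ∧ blockHeight 2 B.1 χ.1 = 0} +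
      2 * (∑ᶠ χ ∈ {χ : IrrCharacter G | χ ∈ B.1 ∧ 1 ≤ blockHeight 2 B.1 χ.1}, 2 ^ blockHeight 2 B.1 χ.1) =
      ∑ χ with χ ∈ B.1, (if blockHeight 2 B.1 χ.1 = 0 then 3 else 2 * 2 ^ blockHeight 2 B.1 χ.1) := by
    rw [finsum_mem_irr, Finset.sum_ite, Finset.sum_const, Finset.mul_sum, Finset.filter_filter,
      Finset.filter_filter, Nat.card_eq_fintype_card, Fintype.card_subtype, smul_eq_mul, mul_comm]
    congr 2
    ext; simp [Nat.one_le_iff_ne_zero]
  refine ⟨?_, e.trans_le (by convert h)⟩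
  rw [e, B.card_eq_card, mul_comm, ← smul_eq_mul]
  refine Finset.card_nsmul_le_sum _ _ _ fun χ _ => ?_
  split_ifs with h0
  · rfl
  · have := Nat.one_lt_two_pow h0
    omega

end Cfsg.Agent.S4540
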