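import Cfsg.Statements.S4541
import Cfsg.Agent.H9.Avg3

set_option autoImplicit false
open Cfsg

namespace Cfsg.Agent.S4541
open H9 H3 MonoidAlgebra
open scoped Pointwise
set_option linter.style.haveILetI false
set_option linter.unusedVariables false


/-- Let B be a 2-block of the finite group G (relative to a maximal ideal M of the algebraic integers containing 2), u a 2-element, and b a block of the centralizer of u inducing B (a subsection (u, b)), of defect q and 2-regular rank l; write s for the integer square root of l and k₀(B) for the number of members of B of height zero. If s is odd then k₀(B) ≤ s·2 ^ q, and otherwise (s + 1)·k₀(B) ≤ l·2 ^ q; in particular k₀(B) ≤ 2 ^ q when l ≤ 3. -/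
theorem result {G : Type*} [Group G] [Finite G] (M : Ideal Cfsg.AlgInt) (hM : Cfsg.IsPModular 2 M) (B : Set (Cfsg.IrrCharacter G)) (hB : Cfsg.IsPBlock M B) (u : G) (hu : ∃ j : ℕ, orderOf u = 2 ^ j) (b : Set (Cfsg.IrrCharacter ↥(Subgroup.centralizer ({u} : Set G)))) (hb : Cfsg.IsInducedBlock M (Subgroup.centralizer ({u} : Set G)) b B) : (Odd (Nat.sqrt (Cfsg.blockRank 2 b)) → Nat.card {χ : Cfsg.IrrCharacter G // χ ∈ B ∧ Cfsg.blockHeight 2 B (χ : G → ℂ) = 0} ≤ Nat.sqrt (Cfsg.blockRank 2 b) * 2 ^ Cfsg.blockDefect 2 b) ∧ (¬ Odd (Nat.sqrt (Cfsg.blockRank 2 b)) → (Nat.sqrt (Cfsg.blockRank 2 b) + 1) * Nat.card {χ : Cfsg.IrrCharacter G // χ ∈ B ∧ Cfsg.blockHeight 2 B (χ : G → ℂ) = 0} ≤ Cfsg.blockRank 2 b * 2 ^ Cfsg.blockDefect 2 b) ∧ (Cfsg.blockRank 2 b ≤ 3 → Nat.card {χ : Cfsg.IrrCharacter G // χ ∈ B ∧ Cfsg.blockHeight 2 B (χ : G → ℂ) = 0} ≤ 2 ^ Cfsg.blockDefect 2 b) := by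
  haveI : PMod 2 M := ⟨hM⟩
  lift B to Bl M G using hB
  lift b to Bl M (cen1 u) using hb.1
  obtain ⟨m, h0, h1, h2⟩ := (isInducedBlock_iff.1 hb).exists_odd hu
  change Nat.card {χ : IrrCharacter G // χ ∈ B.1 ∧ blockHeight 2 B.1 χ.1 = 0} ≤ _ at h1
  change m * Nat.card {χ : IrrCharacter G // χ ∈ B.1 ∧ blockHeight 2 B.1 χ.1 = 0} ≤ _ at h2
  have l0 := b.rank_pos
  generalize Nat.card {χ : IrrCharacter G // χ ∈ B.1 ∧ blockHeight 2 B.1 χ.1 = 0} = k at *
  generalize 2 ^ blockDefect 2 b.1 = N at *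
  generalize blockRank 2 b.1 = l at *
  have s1 := Nat.sqrt_le l
  have s2 := Nat.lt_succ_sqrt l
  have H : Odd l.sqrt → k ≤ l.sqrt * N := fun h => by
    by_cases e : m ≤ l.sqrt
    · exact h1.trans (Nat.mul_le_mul_right _ e)
    have : l.sqrt + 2 ≤ m := by obtain ⟨i, hi⟩ := h; obtain ⟨j, hj⟩ := h0; omega
    refine Nat.le_of_mul_le_mul_left (((Nat.mul_le_mul_right _ this).trans h2).trans ?_) (Nat.succ_pos _)
    rw [← mul_assoc]
    exact Nat.mul_le_mul_right _ (by simp only [Nat.succ_eq_add_one] at s2; nlinarith)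
  refine ⟨H, fun h => ?_, fun h => ?_⟩
  · by_cases e : l.sqrt + 1 ≤ m
    · exact (Nat.mul_le_mul_right _ e).trans h2
    have : m + 1 ≤ l.sqrt := by
      obtain ⟨i, hi⟩ := Nat.not_odd_iff_even.1 h; obtain ⟨j, hj⟩ := h0; omega
    refine (Nat.mul_le_mul_left _ h1).trans ?_
    rw [← mul_assoc]
    exact Nat.mul_le_mul_right _ (by nlinarith)
  · have : l.sqrt = 1 := (Nat.eq_sqrt.2 (by omega)).symm
    simpa [this] using H

end Cfsg.Agent.S4541
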