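import Cfsg.Statements.S4550
import Cfsg.Agent.H9.Sig

set_option autoImplicit false
open Cfsg

namespace Cfsg.Agent.S4550
open H9 H3 MonoidAlgebra
open scoped Pointwise
set_option linter.style.haveILetI false
set_option linter.unusedVariables false


/-- Let G be a finite group of even order and M a maximal ideal of the algebraic integers containing 2. Let k be a natural number with g ^ k = g ^ 3 for every 2-element g and g ^ k = g for every element g of odd order (such k exist); an irreducible character χ is unchanged by g ↦ g ^ k exactly when it is fixed by the field automorphism that cubes the 2-power roots of unity and fixes the roots of unity of odd order. Then the number of members χ of the principal 2-block of odd degree with χ (g ^ k) = χ g for all g is even. -/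
theorem result {G : Type*} [Group G] [Finite G] (M : Ideal Cfsg.AlgInt) (hM : Cfsg.IsPModular 2 M) (hev : Even (Nat.card G)) (k : ℕ) (hk₁ : ∀ g : G, (∃ j : ℕ, orderOf g = 2 ^ j) → g ^ k = g ^ 3) (hk₂ : ∀ g : G, Odd (orderOf g) → g ^ k = g) : Even (Nat.card {χ : Cfsg.IrrCharacter G // χ ∈ Cfsg.principalBlock M G ∧ Odd (Cfsg.charDegree (χ : G → ℂ)) ∧ ∀ g : G, (χ : G → ℂ) (g ^ k) = (χ : G → ℂ) g}) := by
  classical
  haveI : PMod 2 M := ⟨hM⟩
  haveI := Fintype.ofFinite G
  have h1 : ∀ (g : G) (n : ℕ), g ^ k ^ n = pp 2 g ^ 3 ^ n * pq 2 g := fun g n => by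
    induction n with
    | zero => simp
    | succ n ih =>
      rw [pow_succ, pow_mul, ih, ((commute_pp_pq g).pow_left _).mul_pow, hk₁ _ ((isPElt_pp g).pow _), hk₂ _ (by
        rw [← Nat.not_even_iff_odd, even_iff_two_dvd]; exact isPRegular_pq g), ← pow_mul, ← pow_succ]
  obtain ⟨a, ha⟩ : ∃ a, a = (Nat.card G).factorization 2 := ⟨_, rfl⟩
  have h2 : ∀ g : G, g ^ k ^ 2 ^ a = g := fun g => by
    rw [h1]
    nth_rw 3 [← pp_mul_pq (p := 2) g]
    congr 1
    obtain ⟨j, hj⟩ := isPElt_pp (p := 2) g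
    have h3 : orderOf (pp 2 g) ∣ 2 ^ (a + 1) := by
      rw [hj]
      exact pow_dvd_pow _ (Nat.le_succ_of_le (ha ▸ (Nat.prime_two.pow_dvd_iff_le_factorization
        Nat.card_pos.ne').1 (hj ▸ orderOf_dvd_natCard _)))
    have h4 := Nat.ModEq.pow_totient (x := 3) (n := 2 ^ (a + 1)) (Nat.Coprime.pow_right _ (by norm_num))
    rw [Nat.totient_prime_pow_succ Nat.prime_two] at h4
    exact (pow_eq_pow_iff_modEq.2 ((by simpa using h4 : 3 ^ 2 ^ a ≡ 1 [MOD _]).of_dvd h3)).trans (pow_one _)
  have hk : k.Coprime (Nat.card G) := Nat.Coprime.symm ((Nat.coprime_iff_gcd_eq_one).2 (by_contra fun h => by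
    obtain ⟨r, hr, h3⟩ := Nat.exists_prime_and_dvd h
    haveI := Fact.mk hr
    obtain ⟨g, hg⟩ := exists_prime_orderOf_dvd_card' r (h3.trans (Nat.gcd_dvd_left _ _))
    have := h2 g
    rw [orderOf_dvd_iff_pow_eq_one.1 (hg ▸ (h3.trans (Nat.gcd_dvd_right _ _)).trans (dvd_pow_self _ (by positivity)))]
      at this
    rw [← this, orderOf_one] at hg
    exact hr.one_lt.ne hg))
  have h3 := card_fixed_modEq 2 (irrPow hk) (e := a) (fun χ => χ ∈ (B0 M G).1 ∧ Odd (charDegree χ.1))
    (fun χ _ => Subtype.ext (funext fun g => by rw [irrPow_iterate, h2])) fun χ h =>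
      ⟨irrPow_mem_B0 2 hk h.1, by rw [charDegree_irrPow]; exact h.2⟩
  simp only [irrPow_eq_iff, and_assoc] at h3
  rw [even_iff_two_dvd, ← Nat.modEq_zero_iff_dvd]
  refine h3.symm.trans (Nat.modEq_zero_iff_dvd.2 ?_)
  obtain ⟨u, hu⟩ := exists_prime_orderOf_dvd_card' 2 (even_iff_two_dvd.1 hev)
  have hp : IsPElt 2 u := ⟨1, by simpa using hu⟩
  have h4 := block_orth' (B0 M G) (g := u) (h := 1) (by
    rw [pp_of_isPElt hp, pp_one, isConj_one_left]; rintro rfl; simp at hu)
  have h5 : 2 ∣ ∑ χ with χ ∈ (B0 M G).1, charDegree χ.1 * charDegree χ.1 := by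
    rw [← natCast_mem_LI_iff (M := M), ← sub_zero (Nat.cast _), ← h4, Nat.cast_sum, ← Finset.sum_sub_distrib]
    refine sum_mem fun χ _ => ?_
    rw [irr_deg, map_natCast, Nat.cast_mul, ← sub_mul, ← neg_sub, ← irr_deg, ← pq_of_isPElt hp]
    exact LI_mul_right (neg_mem (char_sub_pq χ.2.isCharacter u)) (irr_mem_LR χ _)
  rw [← even_iff_two_dvd, Finset.even_sum_iff_even_card_odd, Finset.filter_filter] at h5
  simp only [Nat.odd_mul, and_self] at h5
  rwa [Nat.card_eq_fintype_card, Fintype.card_subtype, ← even_iff_two_dvd]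

end Cfsg.Agent.S4550
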