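import Cfsg.Statements.S4551
import Cfsg.Agent.H9.AD

set_option autoImplicit false
open Cfsg

namespace Cfsg.Agent.S4551
open H9 H3 MonoidAlgebra
open scoped Pointwise
set_option linter.style.haveILetI false
set_option linter.unusedVariables false


/-- Let N be a normal subgroup of the finite group G of index prime to p, P a Sylow p-subgroup of G with G = N·C_G(P), and M a maximal ideal of the algebraic integers containing p. Then restriction to N is a bijection from the principal p-block of G onto the principal p-block of N: every member of the principal block of G restricts to a member of the principal block of N, and every member of the principal block of N is the restriction of exactly one member of the principal block of G. -/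
theorem result {G : Type*} [Group G] [Finite G] (p : ℕ) [Fact p.Prime] (M : Ideal Cfsg.AlgInt) (hM : Cfsg.IsPModular p M) (N : Subgroup G) [N.Normal] (hidx : ¬ p ∣ N.index) (P : Sylow p G) (hsup : N ⊔ Subgroup.centralizer ((P : Subgroup G) : Set G) = ⊤) : (∀ χ ∈ Cfsg.principalBlock M G, ∃ θ ∈ Cfsg.principalBlock M ↥N, ∀ n : N, (χ : G → ℂ) n = (θ : N → ℂ) n) ∧ ∀ θ ∈ Cfsg.principalBlock M ↥N, ∃! χ : Cfsg.IrrCharacter G, χ ∈ Cfsg.principalBlock M G ∧ ∀ n : N, (χ : G → ℂ) n = (θ : N → ℂ) n := by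
  haveI : PMod p M := ⟨hM⟩
  haveI := Fintype.ofFinite G
  have l : (P : Subgroup G) ≤ N := fun x hx => (QuotientGroup.eq_one_iff _).1 (eq_one_of_isPElt_of_isPRegular
    ((isPElt_of_mem P.2 hx).map (QuotientGroup.mk' _)) fun e => hidx (e.trans (orderOf_dvd_natCard _)))
  have h : AD p N := ad_of_sup (fun e => P.not_dvd_index (e.trans (Subgroup.relIndex_dvd_index_of_le l))) hsup
  have h1 : ∀ θ ∈ (B0 M N).1, ∃ χ ∈ (B0 M G).1, (χ.1)↾N = θ.1 := fun θ hθ => by
    obtain ⟨α, e⟩ := exists_amb θ.1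
    exact e ▸ h.exists_ext hidx ⟨θ, hθ, e.symm⟩
  refine ⟨fun χ hχ => ?_, fun θ hθ => ?_⟩
  · obtain ⟨θ, hθ, d⟩ := Bl.exists_under (B0_cov N) hχ
    obtain ⟨ψ, hψ, e⟩ := h1 θ hθ
    exact ⟨θ, hθ, congrFun (h.eq_of_over hidx hψ hχ (e ▸ θ.2) (by rwa [e]) ▸ e)⟩
  · obtain ⟨ψ, hψ, e⟩ := h1 θ hθ
    refine ⟨ψ, ⟨hψ, congrFun e⟩, fun χ hχ => (h.eq_of_over hidx hψ hχ.1 (e ▸ θ.2) ?_).symm⟩
    rw [e, show (χ.1)↾N = θ.1 from funext hχ.2, θ.2.inner_self]; exact one_ne_zero

end Cfsg.Agent.S4551
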