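import Cfsg.Statements.S4553
import Cfsg.Agent.H9.IS2

set_option autoImplicit false
open Cfsg

namespace Cfsg.Agent.S4553
open H9 H3 MonoidAlgebra
open scoped Pointwise
set_option linter.style.haveILetI false
set_option linter.unusedVariables false
open H9 H3

/-- Let G be a finite group, p a prime, P a Sylow p-subgroup, N the p-residual of G (the subgroup generated by the elements of order prime to p, the smallest normal subgroup with G/N a p-group), and M a maximal ideal of the algebraic integers containing p; suppose G/N is cyclic and nontrivial. Let k be a natural number with g ^ k = g ^ (1 + p) for every p-element g and g ^ k = g for every element g of order prime to p (so that χ (g ^ k) is the image of χ g under the field automorphism that raises p-power roots of unity to the power 1 + p and fixes the roots of unity of order prime to p). Then the number of members χ of the principal block of G of degree prime to p with χ (g ^ k) = χ g for all g equals p times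 the number of members θ of the principal block of N of degree prime to p that are invariant under conjugation by P and satisfy θ (n ^ k) = θ n for all n. -/
theorem result {G : Type*} [Group G] [Finite G] (p : ℕ) [Fact p.Prime] (M : Ideal Cfsg.AlgInt) (hM : Cfsg.IsPModular p M) (P : Sylow p G) (N : Subgroup G) [hN : N.Normal] (hNres : N = Cfsg.pResidual p G) (hcyc : IsCyclic (G ⧸ N)) (hnt : N ≠ ⊤) (k : ℕ) (hk₁ : ∀ g : G, (∃ j : ℕ, orderOf g = p ^ j) → g ^ k = g ^ (1 + p)) (hk₂ : ∀ g : G, Nat.Coprime (orderOf g) p → g ^ k = g) : Nat.card {χ : Cfsg.IrrCharacter G // χ ∈ Cfsg.principalBlock M G ∧ ¬ p ∣ Cfsg.charDegree (χ : G → ℂ) ∧ ∀ g : G, (χ : G → ℂ) (g ^ k) = (χ : G → ℂ) g} = p * Nat.card {θ : Cfsg.IrrCharacter ↥N // θ ∈ Cfsg.principalBlock M ↥N ∧ ¬ p ∣ Cfsg.charDegree (θ : ↥N → ℂ) ∧ (∀ x ∈ (P : Subgroup G), ∀ n : ↥N, (θ : ↥N → ℂ) ⟨x * n * x⁻¹, hN.conj_mem n n.2 x⟩ = (θ : ↥N → ℂ) n) ∧ ∀ n : ↥N, (θ : ↥N → ℂ) (n ^ k) = (θ : ↥N → ℂ) n} := by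
  haveI : PMod p M := ⟨hM⟩
  subst hNres
  have hp : p.Prime := Fact.out
  obtain ⟨n, i⟩ := H2.index_pResidual (p := p) (G := G)
  have c : ∀ {n}, ¬ p ∣ n → (pResidual p G).index.Coprime n := fun h =>
    i ▸ (hp.coprime_iff_not_dvd.2 h).pow_left n
  have r := fun {χ : IrrCharacter G} {θ : IrrCharacter (pResidual p G)} =>
    mem_B0_res_iff (M := M) (fun g => mem_pResidual_of_reg) (χ := χ) (θ := θ)
  rw [mul_comm]
  refine card_eq_mul_fib (fun χ => ⟨⟨_, res_irr_of_coprime χ.1.2 (c χ.2.2.1)⟩, (r fun _ => rfl).1 χ.2.1, χ.2.2.1,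
    fun x _ n => χ.1.2.isClassFunction _ _, fun n => χ.2.2.2 n⟩) fun ⟨θ, h1, h2, h3, h4⟩ => ?_
  refine Eq.trans (Nat.card_congr ⟨fun χ => ⟨χ.1.1, χ.1.2.2.2, congrArg (·.1.1) χ.2⟩,
    fun χ => ⟨⟨χ.1, (r (congrFun χ.2.2)).2 h1, by rw [dg_congr (congrFun χ.2.2 1)]; exact h2, χ.2.1⟩,
      Subtype.ext (Subtype.ext χ.2.2)⟩, fun _ => rfl, fun _ => rfl⟩)
    (card_fib_sigma hcyc hnt hk₁ (fun g hg => hk₂ g (not_dvd_iff_coprime.1 hg)) θ.2 ?_ h2 h4)
  rw [eq_top_iff, ← H2.pResidual_sup_sylow P]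
  exact sup_le (le_inertia θ.2.isClassFunction) fun x hx => mem_inertia'.2 (h3 x hx)

end Cfsg.Agent.S4553
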