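import Cfsg.Statements.S4565
import Cfsg.Agent.H9.Misc4
import Cfsg.Agent.H3.Ext
import Cfsg.Agent.H3.Down
import Cfsg.Agent.H3.Cong

set_option autoImplicit false
open Cfsg

namespace Cfsg.Agent.S4565
open H9 H3 MonoidAlgebra
open scoped Pointwise
set_option linter.style.haveILetI false
set_option linter.unusedVariables false
theorem vanish {H : Type*} [Group H] [Finite H] {Z : Subgroup H} [Z.Normal] {χ : H → ℂ} (hχ : IsIrrCharacter H χ)
    {θ : Z → ℂ} (hθ : IsIrrCharacter Z θ) {e : ℕ} (he : e ^ 2 = Z.index) (h : (fun z : Z => χ z) = (e : ℂ) • θ)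
    {ξ : H → ℂ} (hξ : IsCharacter H ξ) {k : ℂ} (hk : (fun z : Z => ξ z) = k • θ) {g : H} (hg : g ∉ Z) : ξ g = 0 := by
  classical
  haveI := Fintype.ofFinite H
  have e0 : (e : ℂ) ≠ 0 := by
    rintro h0
    rw [Nat.cast_eq_zero.1 h0] at he
    exact Subgroup.index_ne_zero_of_finite he.symm
  have hi := inertia_eq_top_of_res hχ.isClassFunction e0 h
  have h1 : classInner (indFun Z θ) χ = e := by
    rw [inner_indFun_left Z θ hχ.isClassFunction, h, H3.inner_smul_right, hθ.inner_self]; simp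
  have h2 : indFun Z θ = (e : ℂ) • χ := by
    rw [← sub_eq_zero, ← H3.inner_self_eq_zero, H3.inner_sub_left, H3.inner_sub_right, H3.inner_sub_right,
      inner_indFun_self hθ, hi, Subgroup.relIndex_top_right, ← he, H3.inner_smul_right, H3.inner_smul_left, H3.inner_smul_left,
      H3.inner_smul_right, hχ.inner_self, h1, ← H3.inner_conj_symm, h1]
    simp; ring
  have h3 : χ g = 0 := by
    have := congrFun h2 g
    rw [indFun_eq_zero_of_not_mem Z θ hg] at this
    exact (mul_eq_zero.1 this.symm).resolve_left e0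
  have h4 : ξ = classInner ξ χ • χ := by
    refine hξ.isClassFunction.ext_inner (hχ.isClassFunction.smul _) fun β hβ => ?_
    by_cases hb : β = χ
    · rw [hb, H3.inner_smul_left, hχ.inner_self, mul_one]
    rw [H3.inner_smul_left, hχ.inner_of_ne hβ (Ne.symm hb), mul_zero]
    by_contra h0
    obtain ⟨η, hη, h5⟩ := exists_irr_under Z hβ
    have h6 := inner_res_of_constituent hξ hβ h0 hη.isCharacter h5
    obtain rfl : θ = η := by
      by_contra hne
      exact h6 (by rw [hk, H3.inner_smul_left, hθ.inner_of_ne hη hne, mul_zero])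
    rw [← inner_indFun_right Z θ hβ.isClassFunction, h2, H3.inner_smul_right, hβ.inner_of_ne hχ hb, mul_zero] at h5
    exact h5 rfl
  rw [h4, Pi.smul_apply, h3, smul_zero]

/-- Let χ be an irreducible character of the finite group H that is fully ramified over the normal subgroup Z: the restriction of χ to Z is e times an irreducible character of Z with e ^ 2 equal to the index of Z. If Z ≠ H, then H/Z has no cyclic subgroup that is its own centralizer. -/
theorem result {H : Type*} [Group H] [Finite H] (Z : Subgroup H) [Z.Normal] (χ : Cfsg.IrrCharacter H) (hfr : ∃ (θ : Cfsg.IrrCharacter ↥Z) (e : ℕ), e ^ 2 = Z.index ∧ ∀ z : ↥Z, (χ : H → ℂ) z = (e : ℂ) * (θ : ↥Z → ℂ) z) (hZ : Z ≠ ⊤) (C : Subgroup (H ⧸ Z)) (hC : IsCyclic C) : Subgroup.centralizer (C : Set (H ⧸ Z)) ≠ C := by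
  classical
  haveI := Fintype.ofFinite H
  obtain ⟨θ, e, he, h⟩ := hfr
  have h : (fun z : Z => χ.1 z) = (e : ℂ) • θ.1 := funext h
  intro hc
  obtain ⟨g, hg⟩ := hC.exists_generator
  obtain ⟨c, hcg⟩ := QuotientGroup.mk'_surjective Z g
  set π := QuotientGroup.mk' Z with hπ
  set T := C.comap π
  have hZT : Z ≤ T := fun z hz => by
    show π z ∈ C
    rw [show π z = 1 from (QuotientGroup.eq_one_iff z).2 hz]; exact one_mem _
  have hcT : c ∈ T := by show π c ∈ C; rw [hcg]; exact g.2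
  have hpow : ∀ x ∈ C, ∃ k : ℤ, x = (g : H ⧸ Z) ^ k := fun x hx => by
    obtain ⟨k, hk⟩ := hg ⟨x, hx⟩
    exact ⟨k, by rw [← Subgroup.coe_zpow]; exact (congrArg Subtype.val hk).symm⟩
  have hcen : ∀ x : H ⧸ Z, x * g = g * x → x ∈ C := fun x hx => by
    rw [← hc]
    intro y hy
    obtain ⟨k, rfl⟩ := hpow y hy
    exact ((show Commute x g from hx).zpow_right k).eq.symm
  have hg1 : (g : H ⧸ Z) ≠ 1 := fun h1 => hZ (eq_top_iff.2 fun x _ => by
    obtain ⟨k, hk⟩ := hpow (π x) (hcen _ (by simp [h1]))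
    rw [h1, one_zpow] at hk
    exact (QuotientGroup.eq_one_iff x).1 hk)
  have e0 : (e : ℂ) ≠ 0 := by
    rintro h0
    rw [Nat.cast_eq_zero.1 h0] at he
    exact Subgroup.index_ne_zero_of_finite he.symm
  have hi := inertia_eq_top_of_res χ.2.isClassFunction e0 h
  have hcyc : IsCyclic (T ⧸ Z.subgroupOf T) := ⟨⟨QuotientGroup.mk ⟨c, hcT⟩, fun y => by
    obtain ⟨t, rfl⟩ := QuotientGroup.mk_surjective y
    obtain ⟨k, hk⟩ := hpow (π t) t.2
    refine ⟨k, ?_⟩
    show (QuotientGroup.mk (⟨c, hcT⟩ : T) : T ⧸ Z.subgroupOf T) ^ k = _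
    rw [← QuotientGroup.mk_zpow, QuotientGroup.eq, Subgroup.mem_subgroupOf, ← QuotientGroup.eq_one_iff]
    show π ((c ^ k)⁻¹ * t) = 1
    rw [map_mul, map_inv, map_zpow, hk, hcg, inv_mul_cancel]⟩⟩
  obtain ⟨η, hη, hr⟩ := ext_of_cyclic hcyc (θ.2.toSub hZT) (by rw [inertia_toSub T _ hZT, hi]; simp)
  have hab : commutator T ≤ Z.subgroupOf T := by
    rw [commutator_def, Subgroup.commutator_le]
    intro a _ b _
    obtain ⟨k, hk⟩ := hpow (π a) a.2
    obtain ⟨l, hl⟩ := hpow (π b) b.2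
    rw [Subgroup.mem_subgroupOf, ← QuotientGroup.eq_one_iff]
    show π (a * b * (a : H)⁻¹ * (b : H)⁻¹) = 1
    rw [map_mul, map_mul, map_mul, map_inv, map_inv, hk, hl, ((Commute.refl _).zpow_zpow k l).eq]
    simp
  set f : T → ℂ := ∑ ω : triv (Z.subgroupOf T), ((ω.1 ⟨c, hcT⟩⁻¹ : ℂˣ) : ℂ) • (lf ω.1 * η) with hf
  have hfa : ∀ x : T, f x = (∑ ω : triv (Z.subgroupOf T), (ω.1 (⟨c, hcT⟩⁻¹ * x) : ℂ)) * η x := fun x => by
    simp [hf, Finset.sum_apply, Finset.sum_mul, lf, mul_assoc]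
  have hm : ∀ x : T, (⟨c, hcT⟩⁻¹ * x : T) ∈ Z.subgroupOf T ↔ π x = g := fun x => by
    rw [Subgroup.mem_subgroupOf, ← QuotientGroup.eq_one_iff]
    show π (c⁻¹ * x) = 1 ↔ _
    rw [map_mul, map_inv, hcg, inv_mul_eq_one, eq_comm]
  have hch : ∀ ω : triv (Z.subgroupOf T), IsCharacter T (lf ω.1 * η) := fun ω => (lf_irr _).isCharacter.mul hη.isCharacter
  have key : ∀ a : T, π a = g → η a = 0 := fun a ha => by
    have k1 := indFun_eq_of_TI_set (N := T) (A := {x | π x = g}) (fun x a ha hx => hcen _ (by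
      rw [Set.mem_ofPred_eq] at ha hx
      rw [map_mul, map_mul, map_inv, ha] at hx
      exact mul_inv_eq_iff_eq_mul.1 hx)) (θ := f) (by
        rw [hf]
        exact isClassFunction_sum _ _ fun ω _ => (hch ω).isClassFunction.smul _)
      (fun x hx => by rw [hfa, sum_triv_eq_zero hab (mt (hm x).1 hx), zero_mul]) a ha
    rw [hfa, sum_triv_of_mem hab ((hm a).2 ha), hf, indFun_sum, Finset.sum_apply, Finset.sum_eq_zero] at k1
    · exact (mul_eq_zero.1 k1.symm).resolve_left (Nat.cast_ne_zero.2 Subgroup.index_ne_zero_of_finite)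
    intro ω _
    rw [indFun_smul, Pi.smul_apply, vanish χ.2 θ.2 he h (hch ω).ind (indFun_res_of_ext hZT hi fun n => ?_)
      (fun hz => hg1 (ha ▸ (QuotientGroup.eq_one_iff _).2 hz)), smul_zero]
    have := congrFun hr ⟨⟨n, hZT n.2⟩, n.2⟩
    simp only [Pi.mul_apply, lf, mem_triv.1 ω.2 ⟨n, hZT n.2⟩ n.2, Units.val_one, one_mul]
    exact this
  have := sum_normSq_coset (N := Z.subgroupOf T) hη.isCharacter (hr ▸ θ.2.toSub hZT) ⟨c, hcT⟩
  rw [Finset.sum_eq_zero] at this
  · exact (Nat.card_pos (α := Z.subgroupOf T)).ne (by exact_mod_cast this)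
  intro n _
  rw [key, norm_zero, zero_pow two_ne_zero]
  show π (n * c) = g
  rw [map_mul, hcg, show π n = 1 from (QuotientGroup.eq_one_iff _).2 n.2, one_mul]

end Cfsg.Agent.S4565
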