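import Cfsg.Statements.S4566
import Cfsg.Agent.H3.Deg

set_option autoImplicit false
open Cfsg

namespace Cfsg.Agent.S4566
open H3
export H3 (inner_add_left inner_add_right inner_sub_left inner_sub_right inner_neg_left inner_neg_right
  inner_zero_left inner_zero_right inner_smul_left inner_smul_right inner_conj_symm inner_self_eq_zero
  inner_self_im)

/-- Let N be a central subgroup of the finite group G, ψ a faithful irreducible (hence degree-one) character of N, and χ an irreducible character of G whose restriction to N contains ψ. If g ∈ G and some x ∈ G has commutator x⁻¹ g⁻¹ x g in N but different from 1, then χ g = 0. -/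
theorem result {G : Type*} [Group G] [Fintype G] (N : Subgroup G) [Fintype N] (hN : N ≤ Subgroup.center G) (ψ : Cfsg.IrrCharacter ↥N) (hfaith : ∀ n : ↥N, (ψ : ↥N → ℂ) n = (ψ : ↥N → ℂ) 1 → n = 1) (χ : Cfsg.IrrCharacter G) (hover : Cfsg.classInner (fun n : ↥N => (χ : G → ℂ) n) (ψ : ↥N → ℂ) ≠ 0) (g x : G) (hcomm : x⁻¹ * g⁻¹ * x * g ∈ N) (hne : x⁻¹ * g⁻¹ * x * g ≠ 1) : (χ : G → ℂ) g = 0 := by
  set_option maxSynthPendingDepth 3 in
  haveI := normal_of_le_center hN
  obtain ⟨l, e⟩ := ψ.2.exists_lin_of_comm fun a b => Subtype.ext (Subgroup.mem_center_iff.1 (hN b.2) a)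
  have k := lov_of_inner (φ := l) (inertia_lf.2 fun g n => congrArg l (Subtype.ext (by
    simp [Subgroup.mem_center_iff.1 (hN n.2) g]))) χ.2 (by rwa [e] at hover)
  have := eq_zero_of_commutator_central χ.2.isClassFunction (x := g⁻¹) (y := x⁻¹) (c := l ⟨_, hcomm⟩)
    (fun f => hne (congrArg Subtype.val (hfaith ⟨_, hcomm⟩ (by simpa [e] using f)))) fun y => by simpa using k ⟨_, hcomm⟩ y
  simpa [χ.2.isCharacter.map_inv] using this

end Cfsg.Agent.S4566
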