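import Cfsg.Statements.S4567
import Cfsg.Agent.H3.Cls

set_option autoImplicit false
open Cfsg

namespace Cfsg.Agent.S4567
open H3
export H3 (inner_add_left inner_add_right inner_sub_left inner_sub_right inner_neg_left inner_neg_right
  inner_zero_left inner_zero_right inner_smul_left inner_smul_right inner_conj_symm inner_self_eq_zero
  inner_self_im)

open H7
open scoped ComplexConjugate

/-- Let N be a central subgroup of the finite group G and ψ a faithful irreducible (hence degree-one) character of N. Call a coset g N special when every x ∈ G whose commutator x⁻¹ g⁻¹ x g lies in N actually commutes with g (this depends only on the coset). Then the number of irreducible characters of G whose restriction to N contains ψ equals the number of conjugacy classes of G/N consisting of special cosets. -/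
theorem result {G : Type*} [Group G] [Fintype G] (N : Subgroup G) [N.Normal] [Fintype N] (hN : N ≤ Subgroup.center G) (ψ : Cfsg.IrrCharacter ↥N) (hfaith : ∀ n : ↥N, (ψ : ↥N → ℂ) n = (ψ : ↥N → ℂ) 1 → n = 1) : Nat.card {χ : Cfsg.IrrCharacter G // Cfsg.classInner (fun n : ↥N => (χ : G → ℂ) n) (ψ : ↥N → ℂ) ≠ 0} = Nat.card {C : ConjClasses (G ⧸ N) // ∃ g : G, ConjClasses.mk (g : G ⧸ N) = C ∧ ∀ x : G, x⁻¹ * g⁻¹ * x * g ∈ N → x * g = g * x} := by
  set_option maxSynthPendingDepth 3 in
  classical
  haveI := Fintype.ofFinite (G ⧸ N)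
  obtain ⟨μ, hμ⟩ := ψ.2.isCharacter.exists_lf (ψ.2.deg_eq_one_of_comm fun a b =>
    Subtype.ext (Subgroup.mem_center_iff.1 (hN b.2) a))
  have z : ∀ n ∈ N, ∀ x, x * n = n * x := fun n a => Subgroup.mem_center_iff.1 (hN a)
  choose l hl using fun χ : IrrCharacter G => exists_lin_of_le_charCenter χ.2.deg_ne_zero (hN.trans χ.2.center_le_charCenter)
  have I : ∀ χ : IrrCharacter G, ⟪χ.1↾N, ψ.1⟫ ≠ 0 ↔ l χ = μ := fun χ => by
    rw [Lov.res (hl χ), hμ, inner_smul_left, inner_lf]
    simp [χ.2.deg_ne_zero]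
  let Sp := fun g : G => ∀ x : G, x⁻¹ * g⁻¹ * x * g ∈ N → x * g = g * x
  let P := fun C : ConjClasses (G ⧸ N) => ∃ g : G, ConjClasses.mk (g : G ⧸ N) = C ∧ Sp g
  have hP : ∀ g : G, P (ConjClasses.mk g) ↔ Sp g := fun g => ⟨fun ⟨h, a, b⟩ x c => by
    obtain ⟨y, a⟩ := isConj_iff.1 (ConjClasses.mk_eq_mk_iff_isConj.1 a)
    obtain ⟨y, rfl⟩ := QuotientGroup.mk_surjective y
    obtain ⟨n, e⟩ : ∃ n : N, g = y * h * y⁻¹ * n := ⟨⟨_, QuotientGroup.eq.1 a⟩, (mul_inv_cancel_left _ _).symm⟩
    have := b (y⁻¹ * x * y) (by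
      have := ‹N.Normal›.conj_mem' _ c y
      rw [e, mul_inv_rev, ← z _ (inv_mem n.2), z _ n.2, ← mul_assoc _ n.1, mul_assoc _ x, z _ n.2 x] at this
      simpa [mul_assoc] using this)
    rw [e, mul_assoc _ _ x, ← z _ n.2, ← mul_assoc, ← mul_assoc _ x]
    simpa [mul_assoc] using congrArg (fun w => y * w * y⁻¹ * n) this, fun h => ⟨g, rfl, h⟩⟩
  have k : ∀ (g : G) (d : Decidable (P (ConjClasses.mk g))), (if P (ConjClasses.mk g) then (ord (cen1 (g : G ⧸ N)) : ℂ) else 0) =
      ∑ χ : IrrCharacter G with l χ = μ, χ.1 g * conj (χ.1 g) := fun g _ => by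
    rcases em (Sp g) with h | h
    · rw [if_pos ((hP g).2 h)]
      refine mul_left_cancel₀ (card_ne_zero N) ?_
      have c := card_pre (f := res (QuotientGroup.mk' N) ⊤) (B := cen1 (g : G ⧸ N)) (by
        rw [im_top, Subgroup.map_top_of_surjective _ (QuotientGroup.mk'_surjective N)]; exact le_top)
      rw [pre_top', kr_top, QuotientGroup.ker_mk', show (cen1 (g : G ⧸ N)).comap (QuotientGroup.mk' N) = cen1 g from
        Subgroup.ext fun x => ⟨fun a => mem_cen1.2 (h x ((QuotientGroup.eq_one_iff _).1 (by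
          simp [mul_assoc, show (x : G ⧸ N) * g = g * x from mem_cen1.1 a]))), fun a => mem_cen1.2
          (congrArg (QuotientGroup.mk' N) (mem_cen1.1 a))⟩] at c
      have u : ∑ n : N, conj (μ n : ℂ) * ∑ χ : IrrCharacter G, χ.1 (n * g) * conj (χ.1 g) = ord (cen1 g) := by
        rw [Finset.sum_eq_single 1 (fun n _ b => ?_) (by simp)]
        · rw [column_orthogonality, if_pos (by simpa using ⟨1, by simp⟩)]; simp
        · rw [column_orthogonality, if_neg, mul_zero]
          intro e
          obtain ⟨y, e⟩ := isConj_iff.1 e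
          have e' : y⁻¹ * g * y = n * g := by
            conv_lhs => rw [← e]
            group
          have := h y (by
            rw [show (y : G)⁻¹ * g⁻¹ * y = (y⁻¹ * g * y)⁻¹ by simp [mul_assoc], e']
            simpa using ‹N.Normal›.conj_mem' _ (inv_mem n.2) g)
          rw [mul_assoc, ← this, inv_mul_cancel_left] at e'
          exact b (Subtype.ext (right_eq_mul.1 e'))
      rw [mul_comm, ← Nat.cast_mul, ← c, ← u, Finset.sum_filter, Finset.mul_sum]
      simp only [Finset.mul_sum]
      rw [Finset.sum_comm]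
      refine Finset.sum_congr rfl fun χ _ => ?_
      have := card_mul_inner (lf (l χ)) (lf μ)
      rw [inner_lf] at this
      simp only [lf_apply] at this
      rw [Finset.sum_congr rfl fun n _ => (by rw [hl]; ring : _ = (l χ n * conj (μ n : ℂ)) * (χ.1 g * conj (χ.1 g))),
        ← Finset.sum_mul, ← this]; split_ifs <;> simp
    · rw [if_neg (mt (hP g).1 h)]
      obtain ⟨x, x1, x2⟩ := by simpa only [Sp, not_forall, exists_prop] using h
      refine (Finset.sum_eq_zero fun χ a => mul_eq_zero_of_left ?_ _).symm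
      have := hl χ ⟨_, inv_mem x1⟩ g
      rw [← z _ (inv_mem x1), show g * (x⁻¹ * g⁻¹ * x * g)⁻¹ = x⁻¹ * g * x by group, χ.2.isClassFunction.conj_inv,
        (Finset.mem_filter.1 a).2] at this
      refine (mul_left_eq_self₀.1 this.symm).resolve_left fun e => x2 ?_
      have := congrArg Subtype.val (hfaith ⟨_, inv_mem x1⟩ (by rw [hμ, lf_apply, e]; simp [lf_apply]))
      have t : x⁻¹ * g⁻¹ * x * g = 1 := inv_eq_one.1 this
      calc x * g = g * x * (x⁻¹ * g⁻¹ * x * g) := by group
        _ = g * x := by rw [t, mul_one]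
  have e := sum_comp_surjective (QuotientGroup.mk' N) (QuotientGroup.mk'_surjective N) fun x =>
    if P (ConjClasses.mk x) then (ord (cen1 x) : ℂ) else 0
  rw [sum_ite_card_centralizer, ← mul_assoc, ← Nat.cast_mul, ← card_eq_card_ker_mul _ (QuotientGroup.mk'_surjective N)] at e
  replace e := (Finset.sum_congr rfl fun g _ => (k g _).symm).trans e
  rw [Finset.sum_comm, Finset.sum_congr rfl fun χ _ => (card_mul_inner _ _).symm.trans (by rw [χ.2.inner_self, mul_one]),
    Finset.sum_const, nsmul_eq_mul, mul_comm] at e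
  rw [Nat.card_congr (Equiv.subtypeEquivRight I), Nat.card_eq_fintype_card, Fintype.card_subtype]
  exact_mod_cast mul_left_cancel₀ (card_ne_zero G) e

end Cfsg.Agent.S4567
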