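import Cfsg.Statements.S4574
import Cfsg.Agent.H3.Deg

set_option autoImplicit false
open Cfsg

namespace Cfsg.Agent.S4574
open H3
export H3 (inner_add_left inner_add_right inner_sub_left inner_sub_right inner_neg_left inner_neg_right
  inner_zero_left inner_zero_right inner_smul_left inner_smul_right inner_conj_symm inner_self_eq_zero
  inner_self_im)

/-- Let χ be an irreducible character of the finite group G, of degree d, and let Z(χ) be the set of elements g with |χ g| = d (the centre of χ). Then χ vanishes on at least (d ^ 2 - 1) · |Z(χ)| elements of G, with equality when every value |χ g| is 0, 1 or d. -/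
theorem result {G : Type*} [Group G] [Fintype G] [DecidableEq G] (χ : G → ℂ) (hχ : Cfsg.IsIrrCharacter G χ) : (Cfsg.charDegree χ ^ 2 - 1) * (Finset.univ.filter (fun g : G => ‖χ g‖ = (Cfsg.charDegree χ : ℝ))).card ≤ (Finset.univ.filter (fun g : G => χ g = 0)).card ∧ ((∀ g : G, ‖χ g‖ = 0 ∨ ‖χ g‖ = 1 ∨ ‖χ g‖ = (Cfsg.charDegree χ : ℝ)) → (Cfsg.charDegree χ ^ 2 - 1) * (Finset.univ.filter (fun g : G => ‖χ g‖ = (Cfsg.charDegree χ : ℝ))).card = (Finset.univ.filter (fun g : G => χ g = 0)).card) := by
  set_option maxSynthPendingDepth 3 in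
  classical
  let R := Finset.univ.filter fun g : G => ‖χ g‖ ≠ dg χ ∧ χ g ≠ 0
  have d := hχ.dg_pos
  have d' : (0 : ℝ) ≠ dg χ := by exact_mod_cast d.ne
  have e1 : Fintype.card G = (Finset.univ.filter fun g : G => ‖χ g‖ = dg χ).card + (Finset.univ.filter fun g => χ g = 0).card
      + R.card := by
    simp only [Finset.card_filter, ← Finset.sum_add_distrib, R]
    rw [Fintype.card_eq_sum_ones]
    refine Finset.sum_congr rfl fun g _ => ?_
    by_cases a : χ g = 0
    · simp [a, d']
    · by_cases b : ‖χ g‖ = dg χ <;> simp [a, b]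
  have e2 : (Fintype.card G : ℝ) = (dg χ : ℝ) ^ 2 * (Finset.univ.filter fun g : G => ‖χ g‖ = dg χ).card +
      ∑ g ∈ R, ‖χ g‖ ^ 2 := by
    have := card_mul_inner_self_re χ
    rw [hχ.inner_self, Complex.one_re, mul_one, Nat.card_eq_fintype_card] at this
    simp only [this, Finset.card_filter, Finset.sum_filter, R, Nat.cast_sum, Finset.mul_sum, ← Finset.sum_add_distrib]
    refine Finset.sum_congr rfl fun g _ => ?_
    by_cases a : χ g = 0
    · simp [a, d']
    · by_cases b : ‖χ g‖ = dg χ <;> simp [a, b]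
  have e3 := hχ.isGen.card_le_sum_normSq R (fun k c g a => by
    obtain ⟨σ, f⟩ := exists_gal_pow c
    simp only [R, Finset.mem_filter, Finset.mem_univ, true_and] at a ⊢
    refine ⟨fun i => a.1 ?_, by simpa [← f χ hχ.isGen] using a.2⟩
    have n : ‖χ 1‖ = dg χ := by simp [hχ.deg]
    rw [← n, ← hχ.isCharacter.mem_charCenter] at i ⊢
    exact H7.mem_of_pow_mem' i (c.coprime_dvd_right (orderOf_dvd_natCard g))) fun g a => (Finset.mem_filter.1 a).2.2
  rw [e1] at e2
  obtain ⟨m, f⟩ := Nat.exists_eq_add_of_le (Nat.one_le_pow 2 _ d)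
  rw [← Nat.cast_pow, f] at e2
  rw [f, Nat.add_sub_cancel_left]
  push_cast at e2
  refine ⟨by rw [← Nat.cast_le (α := ℝ)]; push_cast; linarith, fun h => ?_⟩
  rw [Finset.sum_congr rfl (g := fun _ => 1) fun g a => by
    obtain ⟨-, b, c⟩ := Finset.mem_filter.1 a
    rw [((h g).resolve_left (by simpa using c)).resolve_right b, one_pow], Finset.sum_const, nsmul_one] at e2
  rw [← Nat.cast_inj (R := ℝ)]; push_cast; linarith

end Cfsg.Agent.S4574
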