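import Cfsg.Statements.S4580
import Cfsg.Agent.H9.Misc2

set_option autoImplicit false
open Cfsg

namespace Cfsg.Agent.S4580
open H9 H3 MonoidAlgebra
open scoped Pointwise
set_option linter.style.haveILetI false
set_option linter.unusedVariables false


/-- Let N be a normal subgroup of the finite group G, M a maximal ideal of the algebraic integers containing 2, and θ a real-valued irreducible character of N of odd degree that extends to G (some irreducible character of G restricts to θ). Then θ has an extension to G lying in the principal 2-block of G. -/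
theorem result {G : Type*} [Group G] [Finite G] (N : Subgroup G) [N.Normal] (M : Ideal Cfsg.AlgInt) (hM : Cfsg.IsPModular 2 M) (θ : Cfsg.IrrCharacter N) (hreal : ∀ n : N, ((θ : N → ℂ) n).im = 0) (hodd : Odd (Cfsg.charDegree (θ : N → ℂ))) (hext : ∃ η : Cfsg.IrrCharacter G, ∀ n : N, (η : G → ℂ) n = (θ : N → ℂ) n) :
    ∃ η : Cfsg.IrrCharacter G, (∀ n : N, (η : G → ℂ) n = (θ : N → ℂ) n) ∧ η ∈ Cfsg.principalBlock M G := by
  classical
  haveI : PMod 2 M := ⟨hM⟩
  haveI := Fintype.ofFinite G
  obtain ⟨η, hη⟩ := hext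
  have h1 : (fun n : N => η.1 n) = θ.1 := funext hη
  obtain ⟨l, hl, e⟩ := exists_lf_of_ext (N := N) η.2.isCharacter (h1 ▸ θ.2) η.2.conj.isCharacter
    (funext fun n => by simp only [hη]; exact Complex.conj_eq_iff_im.2 (hreal n))
  obtain ⟨k, hk⟩ : Odd (ordCompl[2] (Nat.card G)) := Nat.odd_iff.2 (by
    have := Nat.not_dvd_ordCompl Nat.prime_two (Nat.card_pos (α := G)).ne'; omega)
  let χ : IrrCharacter G := ⟨_, η.2.lf_mul (l ^ (k + 1))⟩
  have h2 : ∀ n : N, χ.1 n = θ.1 n := fun n => by
    simp [χ, lf, hη, show l n = 1 from hl n n.2]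
  have h3 : ∀ g, IsPRegular 2 g → χ.1 g⁻¹ = χ.1 g := fun g hg => by
    have h4 : (l g : ℂ) ^ (2 * k + 1) = 1 := by
      rw [← hk, ← Units.val_pow_eq_pow_val, ← map_pow, orderOf_dvd_iff_pow_eq_one.1]
      · simp
      refine (Nat.Coprime.pow_right ((Nat.card G).factorization 2)
        (isPRegular_iff_coprime.1 hg)).dvd_of_dvd_mul_left ?_
      rw [Nat.ordProj_mul_ordCompl_eq_self]; exact orderOf_dvd_natCard g
    have h5 := congrFun e g
    simp only [χ, lf, Pi.mul_apply, η.2.isCharacter.map_inv, MonoidHom.pow_apply, map_inv,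
      Units.val_pow_eq_pow_val, Units.val_inv_eq_inv_val] at h5 ⊢
    rw [← h5]
    field_simp
    linear_combination (-(η.1 g) * l g) * h4
  refine ⟨χ, h2, mem_B0_iff.2 fun h0 => ?_⟩
  have hm := fun g => RCh_apply_mem (irr_mem_RCh (M := M) χ) g
  have := congrArg (red M) h0
  rw [red_sum _ _ fun g _ => hm g, ← Finset.add_sum_erase _ _ (a := 1) (by simpa using isPRegular_one),
    Finset.sum_involution (fun g _ => g⁻¹) (fun g hg => by
      rw [h3 g (by simpa using Finset.mem_of_mem_erase hg), CharTwo.add_self_eq_zero])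
      (fun g hg _ e => ?_) (fun g hg => by simpa [IsPRegular] using hg) (by simp), add_zero, red_zero,
    red_eq_zero_iff (hm 1), show χ.1 1 = θ.1 1 from h2 1, irr_deg, natCast_mem_LI_iff] at this
  · exact (Nat.not_even_iff_odd.2 hodd) (even_iff_two_dvd.2 this)
  · simp only [Finset.mem_erase, Finset.mem_filter_univ] at hg
    exact hg.2 (orderOf_eq_prime (p := 2) (by rw [sq]; nth_rw 1 [← e]; simp) hg.1).symm.dvd

end Cfsg.Agent.S4580
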