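import Cfsg.Statements.S4581
import Cfsg.Agent.H3.MK7

set_option autoImplicit false
open Cfsg

namespace Cfsg.Agent.S4581
open H3
export H3 (inner_add_left inner_add_right inner_sub_left inner_sub_right inner_neg_left inner_neg_right
  inner_zero_left inner_zero_right inner_smul_left inner_smul_right inner_conj_symm inner_self_eq_zero
  inner_self_im)

open H7
theorem e {A : Type*} (χ : A → ℂ) : (∀ g, (χ g).im = 0) ↔ (fun x => (starRingEnd ℂ) (χ x)) = χ :=
    ⟨fun h => funext fun g => Complex.conj_eq_iff_im.2 (h g), fun h g => Complex.conj_eq_iff_im.1 (congrFun h g)⟩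

/-- Let G be a finite solvable group, P a Sylow 2-subgroup and N its normalizer. Then G and N have the same number of real-valued irreducible characters of odd degree; and every odd-degree irreducible character of G is real-valued exactly when the derived subgroup of P equals the Frattini subgroup of P and P is its own normalizer in G. -/
theorem result {G : Type*} [Group G] [Finite G] [Group.IsSolvable G] (P : Sylow 2 G) :
    Nat.card {χ : Cfsg.IrrCharacter G // (∀ g : G, ((χ : G → ℂ) g).im = 0) ∧ Odd (Cfsg.charDegree (χ : G → ℂ))} =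
      Nat.card {ψ : Cfsg.IrrCharacter (Subgroup.normalizer ((P : Subgroup G) : Set G)) // (∀ g, ((ψ : Subgroup.normalizer ((P : Subgroup G) : Set G) → ℂ) g).im = 0) ∧ Odd (Cfsg.charDegree (ψ : Subgroup.normalizer ((P : Subgroup G) : Set G) → ℂ))} ∧
    ((∀ χ : Cfsg.IrrCharacter G, Odd (Cfsg.charDegree (χ : G → ℂ)) → ∀ g : G, ((χ : G → ℂ) g).im = 0) ↔
      (commutator (P : Subgroup G) = frattini (P : Subgroup G) ∧ Subgroup.normalizer ((P : Subgroup G) : Set G) = (P : Subgroup G))) := by
  set_option maxSynthPendingDepth 3 in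
  have s := H1.isPSolvable_of_isSolvable (G := G) Nat.prime_two
  have o : ∀ n : ℕ, Odd n ↔ ¬ 2 ∣ n := fun n => by rw [Nat.odd_iff, Nat.two_dvd_ne_zero]
  simp only [e, o]
  refine ⟨by simpa only [and_comm] using mckay_real s P, ?_⟩
  rw [forall_iff_card, mckay_real s P, mckay s P, ← forall_iff_card]
  refine ⟨fun h => ?_, fun ⟨h1, h2⟩ => ?_⟩
  · haveI := normal_subgroupOf (inf_le_right : ⊤ ⊓ nrm (P : Subgroup G) ≤ _)
    haveI := normal_subgroupOf (le_refl (nrm (P : Subgroup G)))
    have h2 := le_antisymm (Subgroup.subgroupOf_eq_top.1 (eq_top_of_odd_real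
      ((H2.sylow_isSylowIn_top P).mono (le_nrm_self _) le_top).not_dvd h)) (le_nrm_self _)
    rw [h2] at h
    exact ⟨(odd_real_iff P.2).1 h, h2⟩
  · rw [h2]
    exact (odd_real_iff P.2).2 h1

end Cfsg.Agent.S4581
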