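import Cfsg.Statements.S4582
import Cfsg.Agent.H3.Grp
import Cfsg.Agent.H2.Transfer

set_option autoImplicit false
open Cfsg

namespace Cfsg.Agent.S4582
open H3
export H3 (inner_add_left inner_add_right inner_sub_left inner_sub_right inner_neg_left inner_neg_right
  inner_zero_left inner_zero_right inner_smul_left inner_smul_right inner_conj_symm inner_self_eq_zero
  inner_self_im)

open H7

/-- Let N be a normal subgroup of the finite group G, P a Sylow 2-subgroup of G and Q = P ∩ N. Suppose that P/QP' and Q/Q' are elementary abelian (every square of an element of P lies in the subgroup generated by Q and the derived subgroup of P, and every square of an element of Q lies in the derived subgroup of Q), and that the commutator factor group N/N' has odd order. Then P/P' is elementary abelian. -/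
theorem result {G : Type*} [Group G] [Finite G] (N : Subgroup G) [N.Normal] (P : Sylow 2 G)
    (hP : ∀ x ∈ (P : Subgroup G), x ^ 2 ∈ ((P : Subgroup G) ⊓ N) ⊔ ⁅(P : Subgroup G), (P : Subgroup G)⁆)
    (hQ : ∀ x ∈ (P : Subgroup G) ⊓ N, x ^ 2 ∈ ⁅(P : Subgroup G) ⊓ N, (P : Subgroup G) ⊓ N⁆)
    (hodd : Odd (Nat.card (Abelianization N))) :
    ∀ x ∈ (P : Subgroup G), x ^ 2 ∈ ⁅(P : Subgroup G), (P : Subgroup G)⁆ := by
  set_option maxSynthPendingDepth 3 in
  intro x hx
  let K := N ⊔ (P : Subgroup G)
  let ϕ : (P : Subgroup G).subgroupOf K →* Abelianization P :=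
    Abelianization.of.comp (Subgroup.subgroupOfEquivOfLe le_sup_right).toMonoidHom
  let V := MonoidHom.transfer ϕ
  have hA : IsPGroup 2 (Abelianization P) := P.isPGroup'.of_surjective Abelianization.of QuotientGroup.mk_surjective
  have k : ∀ y : (P : Subgroup G), Abelianization.of y = 1 ↔ y.1 ∈ ⁅(P : Subgroup G), (P : Subgroup G)⁆ := fun y => by
    rw [← MonoidHom.mem_ker, Abelianization.ker_of, commutator_def,
      ← Subgroup.mem_map_iff_mem (f := Subgroup.subtype _) (Subgroup.subtype_injective _), Subgroup.map_commutator,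
      map_subtype_top]; rfl
  have o : ∀ {a : Abelianization P} {n : ℕ}, Odd n → a ^ n = 1 → a = 1 := fun {a n} b c => by
    obtain ⟨j, e⟩ := hA a
    exact orderOf_eq_one_iff.1 (Nat.eq_one_of_dvd_coprimes (b.coprime_two_right.pow_right j)
      (orderOf_dvd_of_pow_eq_one c) (orderOf_dvd_of_pow_eq_one e))
  have l : ((P : Subgroup G) ⊓ N) ⊔ ⁅(P : Subgroup G), (P : Subgroup G)⁆ ≤ V.ker.map K.subtype := by
    refine sup_le (fun n hn => ⟨⟨n, le_sup_left (b := (P : Subgroup G)) hn.2⟩, o hodd ?_, rfl⟩) ?_
    · have := congrArg (Abelianization.lift (V.comp (Subgroup.inclusion le_sup_left)))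
        (pow_card_eq_one' (x := Abelianization.of (⟨n, hn.2⟩ : N)))
      rwa [map_pow, map_one, Abelianization.lift_apply_of] at this
    · rw [← subgroupOf_map (comm_le_of_le le_sup_right le_sup_right : ⁅(P : Subgroup G), (P : Subgroup G)⁆ ≤ K),
        subgroupOf_commutator le_sup_right le_sup_right]
      exact Subgroup.map_mono ((Subgroup.commutator_mono le_top le_top).trans (Abelianization.commutator_subset_ker V))
  have v := H2.transfer_eq_pow_index ((powMonoidHom 2).comp ϕ) ⟨x, le_sup_right (a := N) hx⟩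
    (Abelianization.of ⟨x, hx⟩ ^ 2) fun j g hg => by
      obtain ⟨u, hu, n, hn, e⟩ := (mem_sup_nrm (le_nrm_of_normal (P : Subgroup G) N)).1 ((sup_comm N _).le g.2)
      let w : (P : Subgroup G) := (⟨u, hu⟩ : (P : Subgroup G))⁻¹ * ⟨x, hx⟩ ^ j * ⟨u, hu⟩
      let y : (P : Subgroup G) := w⁻¹ * ⟨_, hg⟩
      have hy : y.1 ∈ N := by
        have := N.mul_mem (‹N.Normal›.conj_mem' _ (N.inv_mem hn) w) hn
        simpa [y, w, ← e, mul_assoc] using this
      have : Abelianization.of y ^ 2 = 1 := by
        rw [← map_pow, k]; exact Subgroup.commutator_mono inf_le_left inf_le_left (hQ _ ⟨y.2, hy⟩)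
      change Abelianization.of (⟨_, hg⟩ : (P : Subgroup G)) ^ 2 = _
      rw [← mul_inv_cancel_left w ⟨_, hg⟩, map_mul, mul_pow, this, mul_one, ← pow_mul, mul_comm 2, pow_mul]
      simp only [w, map_mul, map_pow, map_inv, inv_mul_cancel_comm]
  have u : MonoidHom.transfer ((powMonoidHom 2).comp ϕ) ⟨x, le_sup_right (a := N) hx⟩ =
      V ⟨x, le_sup_right (a := N) hx⟩ ^ 2 := by
    rw [MonoidHom.transfer_def _ default, MonoidHom.transfer_def _ default]
    exact (map_prod (powMonoidHom 2) _ _).symm
  obtain ⟨z, z1, z2⟩ := l (hP x hx)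
  rw [u, ← map_pow, show _ ^ 2 = z from Subtype.ext z2.symm, z1] at v
  exact (k (⟨x, hx⟩ ^ 2)).1 (by
    rw [map_pow]
    exact o (odd_iff_coprime.2 (coprime_iff_not_dvd.2 ((H1B.syl_top P).mono le_sup_right le_top).not_dvd)) v.symm)

end Cfsg.Agent.S4582
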