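import Cfsg.Statements.S4583
import Cfsg.Agent.H9.Misc3

set_option autoImplicit false
open Cfsg

namespace Cfsg.Agent.S4583
open H9 H3 MonoidAlgebra
open scoped Pointwise
set_option linter.style.haveILetI false
set_option linter.unusedVariables false


/-- Let N be a normal subgroup of the finite group G, p a prime, M a maximal ideal of the algebraic integers containing p, and P a Sylow p-subgroup of G. Let θ be an irreducible character of N of degree prime to p lying in the principal p-block of N, and suppose θ extends to the subgroup NP (some irreducible character of NP restricts to θ). Then some irreducible character χ of G of degree prime to p in the principal p-block of G lies over θ (θ is a constituent of the restriction of χ to N). -/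
theorem result {G : Type*} [Group G] [Finite G] (N : Subgroup G) [N.Normal] (p : ℕ) [Fact p.Prime] (M : Ideal Cfsg.AlgInt) (hM : Cfsg.IsPModular p M) (P : Sylow p G)
    (θ : Cfsg.IrrCharacter N) (hθ : θ ∈ Cfsg.principalBlock M N) (hdeg : ¬ p ∣ Cfsg.charDegree (θ : N → ℂ))
    (hext : ∃ η : Cfsg.IrrCharacter ↥(N ⊔ (P : Subgroup G)), ∀ n : N, (η : ↥(N ⊔ (P : Subgroup G)) → ℂ) (Subgroup.inclusion le_sup_left n) = (θ : N → ℂ) n) :
    ∃ χ : Cfsg.IrrCharacter G, χ ∈ Cfsg.principalBlock M G ∧ ¬ p ∣ Cfsg.charDegree (χ : G → ℂ) ∧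
      haveI := Fintype.ofFinite N; Cfsg.classInner (fun n : N => (χ : G → ℂ) n) (θ : N → ℂ) ≠ 0 := by
  classical
  haveI : PMod p M := ⟨hM⟩
  haveI := Fintype.ofFinite G
  haveI := Fintype.ofFinite N
  obtain ⟨H, hH⟩ : ∃ H, H = N ⊔ (P : Subgroup G) := ⟨_, rfl⟩
  have l : N ≤ H := hH ▸ le_sup_left
  obtain ⟨η, hη⟩ : ∃ η : IrrCharacter H, (fun n : N => η.1 ⟨n, l n.2⟩) = θ.1 := by
    subst hH; exact hext.imp fun η h => funext h
  haveI := Fintype.ofFinite H
  have h1 : η ∈ (B0 M H).1 := by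
    refine mem_iff_blk_eq.2 (Bl.E_inj (IsBlk.eq_of_mul_eq (blk M η).isBlk (B0 M H).isBlk
      (B0 M N).isBlk.ne_zero ?_ ?_)) <;> refine (B0 M N).isBlk.mul_eq_of_cov_of_supp (Bl.isBlk _) l
        ((Bl.isBlk _).supp_of_reg fun g hg hr => ?_) ((cov_incl_iff l).1 ?_)
    any_goals
      obtain ⟨n, hn, x, hx, rfl⟩ := (Subgroup.mem_sup_of_normal_left ..).1 (hH ▸ hg)
      rw [← QuotientGroup.eq_one_iff]
      refine eq_one_of_isPElt_of_isPRegular ?_ (isPRegular_map hr (QuotientGroup.mk' N))
      rw [QuotientGroup.mk_mul, (QuotientGroup.eq_one_iff n).2 hn, one_mul]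
      exact (isPElt_of_mem P.2 hx).map (QuotientGroup.mk' N)
    · exact ⟨η, mem_blk η, θ, hθ, by rw [hη, θ.2.inner_self]; exact one_ne_zero⟩
    · exact ⟨_, trivChar_mem_B0, _, trivChar_mem_B0, (trivChar N).2.inner_self.trans_ne one_ne_zero⟩
  have h2 : charDegree η.1 = charDegree θ.1 := charDegree_eq ((congrFun hη 1).trans (irr_deg θ))
  have h3 := Bl.lam_zrF_ne_zero_iff.2 ⟨h1, Bl.height_eq_zero_of_not_dvd _ (h2 ▸ hdeg)⟩
  have hi := η.2.isCharacter.ind
  obtain ⟨χ, hχ, h4, h5⟩ := Bl.exists_height_zero_of_lam_zrF (B := B0 M G) (char_mem_RCh hi) (by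
    rw [Bl.lam_zrF trivChar_mem_B0 hi.isClassFunction (char_mem_LR hi), om_apply, chi_zr_comm,
      chi_indFun_central _ _ (zr_mem_Zc (trivChar G).2.isClassFunction), pull_zr H.subtype_injective, chi_zr_comm]
    rw [Bl.lam_zrF trivChar_mem_B0 η.2.isClassFunction (irr_mem_LR η), om_apply] at h3
    simp only [trivChar, div_one] at h3 ⊢
    rw [red_mul (natCast_mem _ _) (mem_LR_of_red_ne_zero h3), red_natCast]
    exact mul_ne_zero (natCast_RF_ne_zero fun h => P.not_dvd_index
      (h.trans (Subgroup.index_dvd_of_le (hH ▸ le_sup_right)))) h3)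
  refine ⟨χ, hχ, fun h => ?_, ?_⟩
  · rw [Bl.height_eq_zero_iff hχ, B0_minv] at h4
    exact ((Fact.out : p.Prime).factorization_pos_of_dvd (charDegree_ne_zero χ.2) h).ne' h4
  · have h6 := ne_zero_of_not_mem_LI h5
    rw [inner_indFun_left _ _ χ.2.isClassFunction, Ne, inner_eq_zero_comm] at h6
    obtain ⟨n, hn⟩ := nat_le_inner_of_constituent (Subgroup.inclusion l) (χ.2.isCharacter.res H) η.2 h6
      θ.2.isCharacter
    rw [show (fun k => η.1 (Subgroup.inclusion l k)) = θ.1 from hη, θ.2.inner_self] at hn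
    intro e
    have e1 : classInner (fun n : N => χ.1 n) θ.1 = 0 := by convert e
    have e2 : ((1 + n : ℕ) : ℂ) = 0 := by push_cast; exact hn.symm.trans e1
    rw [Nat.cast_eq_zero] at e2; omega

end Cfsg.Agent.S4583
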