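import Cfsg.Statements.S4584
import Cfsg.Agent.H3.Grp

set_option autoImplicit false
open Cfsg

namespace Cfsg.Agent.S4584
open H3
export H3 (inner_add_left inner_add_right inner_sub_left inner_sub_right inner_neg_left inner_neg_right
  inner_zero_left inner_zero_right inner_smul_left inner_smul_right inner_conj_symm inner_self_eq_zero
  inner_self_im)

open H7

/-- Let p be a prime and P a group of order p^4. Then the derived subgroup P' has order p if and only if the centre Z(P) has index p^2 in P. -/
theorem result {P : Type*} [Group P] [Finite P] (p : ℕ) [Fact p.Prime] (hP : Nat.card P = p ^ 4) :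
    Nat.card (commutator P) = p ↔ (Subgroup.center P).index = p ^ 2 := by
  set_option maxSynthPendingDepth 3 in
  have hp : p.Prime := Fact.out
  have h := IsPGroup.of_card hP
  refine ⟨fun e => ?_, card_der_of_index_center h⟩
  obtain ⟨χ, a, b⟩ := exists_nonlin (ne_bot_of_card_p e)
  have c := der_le_center h e.le
  rw [← (der_prime (e ▸ hp) c a b).2.2.2]
  obtain ⟨k, k1, k2⟩ := (Nat.dvd_prime_pow hp).1 (hP ▸ a.dg_dvd)
  have l : dg χ ^ 2 * p ∣ p ^ 4 := by
    rw [(der_prime (e ▸ hp) c a b).2.2.2, ← hP, ← (Subgroup.center P).index_mul_card]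
    exact Nat.mul_dvd_mul_left _ (e ▸ Subgroup.card_dvd_of_le c)
  rw [k2, ← pow_mul, ← pow_succ, Nat.pow_dvd_pow_iff_le_right hp.one_lt] at l
  have : k ≠ 0 := by rintro rfl; exact b (a.isCharacter.dg_eq_one.1 k2)
  rw [k2, show k = 1 by omega, pow_one]

end Cfsg.Agent.S4584
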