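import Cfsg.Statements.S4585
import Cfsg.Agent.H3.Grp

set_option autoImplicit false
open Cfsg

namespace Cfsg.Agent.S4585
open H3
export H3 (inner_add_left inner_add_right inner_sub_left inner_sub_right inner_neg_left inner_neg_right
  inner_zero_left inner_zero_right inner_smul_left inner_smul_right inner_conj_symm inner_self_eq_zero
  inner_self_im)

open H7

/-- Let p be a prime and P a group of order p^4. Then P' has index p^2 in P if and only if P has maximal nilpotency class, that is, nilpotency class exactly 3. -/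
theorem result {P : Type*} [Group P] [Finite P] (p : ℕ) [Fact p.Prime] (hP : Nat.card P = p ^ 4) :
    (commutator P).index = p ^ 2 ↔ Group.nilpotencyClass P = 3 := by
  set_option maxSynthPendingDepth 3 in
  have hp : p.Prime := Fact.out
  have h := IsPGroup.of_card hP
  have t := H1B.pg_top_iff.2 h
  haveI := h.isNilpotent
  have o : ord (⊤ : Subgroup P) = p ^ 4 := by rw [Subgroup.card_top, hP]
  have l : Group.nilpotencyClass P ≤ 3 := Subgroup.lowerCentralSeries_eq_bot_iff_nilpotencyClass_le.1
    (comm_eq_bot.2 (class3_of_card_le t o.le))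
  have i : (commutator P).index = p ^ 2 ↔ ord (commutator P) = p ^ 2 := by
    have := (commutator P).index_mul_card
    rw [hP, show p ^ 4 = p ^ 2 * p ^ 2 by ring] at this
    exact ⟨fun e => Nat.eq_of_mul_eq_mul_left (pow_pos hp.pos 2) (e ▸ this),
      fun e => Nat.eq_of_mul_eq_mul_right (pow_pos hp.pos 2) (e ▸ this)⟩
  have j : Group.nilpotencyClass P ≤ 2 ↔ commutator P ≤ Subgroup.center P := by
    rw [← Subgroup.lowerCentralSeries_eq_bot_iff_nilpotencyClass_le, ← cen_top, ← comm_eq_bot]; rfl
  rw [i, show Group.nilpotencyClass P = 3 ↔ ¬ Group.nilpotencyClass P ≤ 2 by omega, j]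
  refine ⟨fun e c => ?_, fun c => le_antisymm (card_der_le t o.le) ?_⟩
  · have ne : Subgroup.center P < ⊤ := lt_top_iff_ne_top.2 fun f => by
      rw [commutator_def, comm_eq_bot.2 (by rw [cen_top, f]), Subgroup.card_bot] at e
      exact (Nat.one_lt_pow two_ne_zero hp.one_lt).ne e
    have u : (Subgroup.center P).index * p ^ 2 ∣ p ^ 2 * p ^ 2 := by
      rw [← pow_add, ← hP, ← (Subgroup.center P).index_mul_card]
      exact Nat.mul_dvd_mul_left _ (e ▸ Subgroup.card_dvd_of_le c)
    obtain ⟨k, k1, k2⟩ := (Nat.dvd_prime_pow hp).1 (Nat.dvd_of_mul_dvd_mul_right (pow_pos hp.pos 2) u)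
    rcases k1.lt_or_eq with k1 | rfl
    · have := isComm_iff.1 (isComm_of_cycMod (cycMod_of_relIndex_le t (H1B.top_nrm (Subgroup.center P)) (by
        rw [Subgroup.relIndex_top_right, k2]
        exact (Nat.pow_le_pow_right hp.pos (by omega : k ≤ 1)).trans_eq (pow_one p))) le_top (inf_le_right.trans cen_top.ge))
      exact ne.not_ge (cen_top (G := P) ▸ this)
    · rw [card_der_of_index_center h k2] at e
      nlinarith [hp.two_le]
  · exact pow_succ_le_of_lt (h.to_subgroup _) (by simpa using not_le.1 fun e => c (der_le_center h e))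

end Cfsg.Agent.S4585
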