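import Cfsg.Statements.S4586
import Cfsg.Agent.H3.Grp

set_option autoImplicit false
open Cfsg

namespace Cfsg.Agent.S4586
open H3
export H3 (inner_add_left inner_add_right inner_sub_left inner_sub_right inner_neg_left inner_neg_right
  inner_zero_left inner_zero_right inner_smul_left inner_smul_right inner_conj_symm inner_self_eq_zero
  inner_self_im)

open H7

/-- Let p be a prime, P a finite p-group and N a normal subgroup of P of index p. For x ∈ P write c(x) for the number of elements n of N whose commutator x n x⁻¹ n⁻¹ lies in the derived subgroup N' (so c(x)/#N' is the order of the centralizer of x acting on N/N'). Then [P : P'] = p² if and only if c(x) = p·#N' for every x ∈ P outside N, and also if and only if c(x) = p·#N' for some x ∈ P outside N. -/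
theorem result {P : Type*} [Group P] [Finite P] (p : ℕ) [Fact p.Prime] (hP : IsPGroup p P) (N : Subgroup P) [N.Normal] (hN : N.index = p) :
    ((commutator P).index = p ^ 2 ↔ ∀ x : P, x ∉ N →
        Nat.card {n : N // x * n * x⁻¹ * (n : P)⁻¹ ∈ (commutator N).map N.subtype} = p * Nat.card (commutator N)) ∧
    ((commutator P).index = p ^ 2 ↔ ∃ x : P, x ∉ N ∧
        Nat.card {n : N // x * n * x⁻¹ * (n : P)⁻¹ ∈ (commutator N).map N.subtype} = p * Nat.card (commutator N)) := by
  set_option maxSynthPendingDepth 3 in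
  have hp : p.Prime := Fact.out
  have d : (commutator N).map N.subtype = ⁅N, N⁆ := by rw [commutator_def, Subgroup.map_commutator, map_subtype_top]
  have k : ∀ x : P, x ∉ N → ((commutator P).index = p ^ 2 ↔ Nat.card {n : N // x * n * x⁻¹ * (n : P)⁻¹ ∈
      (commutator N).map N.subtype} = p * Nat.card (commutator N)) := fun x hx => by
    rw [← H7.card_map_subtype N (commutator N), d]
    let f := QuotientGroup.mk' ⁅N, N⁆
    have s := QuotientGroup.mk'_surjective ⁅N, N⁆
    have kr : f.ker = ⁅N, N⁆ := QuotientGroup.ker_mk' _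
    have l : ⁅N, N⁆ ≤ N := Subgroup.commutator_le_left N N
    haveI := Subgroup.Normal.map ‹N.Normal› f s
    have e := index_der (A := N.map f) (a := f x) (comm_eq_bot.1 (by
      rw [← Subgroup.map_commutator, Subgroup.map_eq_bot_iff, kr])) (by
      rw [← MonoidHom.map_zpowers, ← Subgroup.map_sup, H1B.eq_sup_zpowers_of_prime (S := ⊤) (by simpa [hN] using hp)
        le_top trivial hx, Subgroup.map_top_of_surjective _ s])
    rw [Subgroup.index_map_eq _ s (kr.le.trans l), hN, show commutator (P ⧸ ⁅N, N⁆) = (commutator P).map f by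
      rw [commutator_def, commutator_def, Subgroup.map_commutator, Subgroup.map_top_of_surjective _ s],
      (commutator P).index_map_eq (f := f) s (kr.le.trans (Subgroup.commutator_mono le_top le_top))] at e
    have c := card_pre (f := res f ⊤) (B := N.map f ⊓ cen1 (f x)) (by
      rw [im_top, Subgroup.map_top_of_surjective _ s]; exact le_top)
    rw [pre_top', kr_top, kr, Subgroup.comap_inf, Subgroup.comap_map_eq_self (kr.le.trans l)] at c
    have u : Nat.card {n : N // x * n * x⁻¹ * (n : P)⁻¹ ∈ ⁅N, N⁆} = ord (N ⊓ (cen1 (f x)).comap f) := by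
      have v : ∀ n : P, x * n * x⁻¹ * n⁻¹ ∈ ⁅N, N⁆ ↔ n ∈ (cen1 (f x)).comap f := fun n => by
        refine (SetLike.ext_iff.1 kr _).symm.trans ?_
        rw [MonoidHom.mem_ker, Subgroup.mem_comap, mem_cen1, eq_comm (a := f n * _)]
        simp only [map_mul, map_inv, mul_inv_eq_one, mul_inv_eq_iff_eq_mul, one_mul]
      exact Nat.card_congr ⟨fun n => ⟨n.1, n.1.2, (v _).1 n.2⟩, fun n => ⟨⟨n.1, n.2.1⟩, (v _).2 n.2.2⟩,
        fun _ => rfl, fun _ => rfl⟩
    rw [u, c, e, sq, Nat.mul_right_inj hp.ne_zero, Nat.mul_left_inj (card_pos' _).ne']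
  obtain ⟨y, hy⟩ : ∃ y, y ∉ N := by
    by_contra! h
    rw [show N = ⊤ from eq_top_iff.2 fun y _ => h y, Subgroup.index_top] at hN
    exact hp.one_lt.ne hN
  exact ⟨⟨fun h x hx => (k x hx).1 h, fun h => (k y hy).2 (h y hy)⟩,
    ⟨fun h => ⟨y, hy, (k y hy).1 h⟩, fun ⟨x, a, b⟩ => (k x a).2 b⟩⟩

end Cfsg.Agent.S4586
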