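import Cfsg.Statements.S4588
import Cfsg.Agent.H9.Avg3

set_option autoImplicit false
open Cfsg

namespace Cfsg.Agent.S4588
open H9 H3 MonoidAlgebra
open scoped Pointwise
set_option linter.style.haveILetI false
set_option linter.unusedVariables false


/-- Let G be a finite group, p a prime and M a maximal ideal of the algebraic integers containing p. If some p-element x of G (possibly x = 1) has centralizer whose order has p-part at most p², then the principal p-block of G contains at most p² irreducible characters of degree prime to p. -/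
theorem result {G : Type*} [Group G] [Finite G] (p : ℕ) [Fact p.Prime] (M : Ideal Cfsg.AlgInt) (hM : Cfsg.IsPModular p M)
    (hx : ∃ x : G, (∃ k : ℕ, orderOf x = p ^ k) ∧ (Nat.card (Subgroup.centralizer ({x} : Set G))).factorization p ≤ 2) :
    Nat.card {χ : Cfsg.IrrCharacter G // χ ∈ Cfsg.principalBlock M G ∧ ¬ p ∣ Cfsg.charDegree (χ : G → ℂ)} ≤ p ^ 2 := by
  haveI : PMod p M := ⟨hM⟩
  haveI := Fintype.ofFinite G
  obtain ⟨x, h1, h2⟩ := hx
  have hp := (Fact.out : p.Prime).pos
  rw [← B0_val]
  by_cases e : x = 1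
  · have h3 : blockDefect p (B0 M G).1 ≤ 2 := by
      rwa [e, show Subgroup.centralizer {(1 : G)} = ⊤ by ext; simp [Subgroup.mem_centralizer_singleton_iff],
        Subgroup.card_top, ← B0_defect (M := M)] at h2
    exact ((Nat.card_mono (Set.toFinite _) fun _ h => h.1).trans (Bl.card_le_of_defect h3)).trans
      (Nat.pow_le_pow_right hp h3)
  rw [← B0_defect (M := M)] at h2
  exact ((ind_B0_cen1 h1).card_le_pow h1 (Bl.minF_of_defect (selfC_mem_center x) (IsPElt.selfC h1)
    (fun h => e (congrArg Subtype.val h)) h2) (S := {χ | χ ∈ (B0 M G).1 ∧ ¬ p ∣ charDegree χ.1}) fun χ h =>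
      ⟨h.1, (ind_B0_cen1 h1).TT_ne_zero h1 h.1 (.inl (Bl.height_eq_zero_of_not_dvd _ h.2))⟩).trans
    (Nat.pow_le_pow_right hp h2)

end Cfsg.Agent.S4588
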