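import Cfsg.Statements.S4601
import Cfsg.Agent.H3.Grp

set_option autoImplicit false
open Cfsg

namespace Cfsg.Agent.S4601
open H3
export H3 (inner_add_left inner_add_right inner_sub_left inner_sub_right inner_neg_left inner_neg_right
  inner_zero_left inner_zero_right inner_smul_left inner_smul_right inner_conj_symm inner_self_eq_zero
  inner_self_im)

open H7

/-- Let p and q be primes and G a finite group that is p-solvable or q-solvable, in which no q-element has conjugacy class size divisible by p. Then some Sylow p-subgroup of G normalizes some Sylow q-subgroup of G. -/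
theorem result {G : Type*} [Group G] [Finite G] (p q : ℕ) [Fact p.Prime] [Fact q.Prime] (hsolv : Cfsg.IsPSolvable p G ∨ Cfsg.IsPSolvable q G)
    (h : ∀ y : G, (∃ k : ℕ, orderOf y = q ^ k) → ¬ p ∣ (Subgroup.centralizer ({y} : Set G)).index) :
    ∃ (P : Sylow p G) (Q : Sylow q G), (P : Subgroup G) ≤ Subgroup.normalizer ((Q : Subgroup G) : Set G) := by
  set_option maxSynthPendingDepth 3 in
  rcases eq_or_ne p q with rfl | hpq
  · obtain ⟨P⟩ : Nonempty (Sylow p G) := inferInstance
    exact ⟨P, P, le_nrm_self _⟩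
  obtain ⟨Q⟩ : Nonempty (Sylow q G) := inferInstance
  obtain ⟨P, a, b⟩ := exists_syl_le (not_dvd_index_nrm hpq _ G rfl (hsolv.imp
    (H1.isPSolvable_iff_piSep Fact.out).1 (H1.isPSolvable_iff_piSep Fact.out).1) Q (H1B.syl_top Q) fun y hy =>
      exists_syl_le (h y (by
        obtain ⟨k, e⟩ := (IsPGroup.iff_orderOf.1 Q.isPGroup') ⟨y, hy⟩
        exact ⟨k, by rwa [← Subgroup.orderOf_coe] at e⟩)))
  exact ⟨a.toSylowTop, Q, b⟩

end Cfsg.Agent.S4601
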