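import Cfsg.Statements.S4602
import Cfsg.Agent.H3.Grp

set_option autoImplicit false
open Cfsg

namespace Cfsg.Agent.S4602
open H3
export H3 (inner_add_left inner_add_right inner_sub_left inner_sub_right inner_neg_left inner_neg_right
  inner_zero_left inner_zero_right inner_smul_left inner_smul_right inner_conj_symm inner_self_eq_zero
  inner_self_im)

open H7

/-- Let G be a finite p-solvable group and q a prime different from p. Some Sylow p-subgroup of G normalizes some Sylow q-subgroup of G if and only if q does not divide the order of G/O_{p'}(G), the quotient by the largest normal subgroup of order prime to p. -/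
theorem result {G : Type*} [Group G] [Finite G] (p q : ℕ) [Fact p.Prime] [Fact q.Prime] (hpq : p ≠ q) (hsolv : Cfsg.IsPSolvable p G) :
    (∃ (P : Sylow p G) (Q : Sylow q G), (P : Subgroup G) ≤ Subgroup.normalizer ((Q : Subgroup G) : Set G)) ↔ ¬ q ∣ (Cfsg.pPrimeCore p G).index := by
  set_option maxSynthPendingDepth 3 in
  rw [pPrimeCore_eq]
  have n := le_nrm_Opi {p}ᶜ (⊤ : Subgroup G)
  constructor
  · rintro ⟨P, Q, h⟩
    have hP := syl_im (H1B.syl_top P) n (qm _)
    have hQ := syl_im (H1B.syl_top Q) n (qm _)
    have l := Op_le_of_sylow hP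
    have c := le_cen_of_coprime (hQ.le.trans (le_nrm_Opi {p} _)) (l.trans (im_le_nrm _ h))
      (coprime_pgroups hQ.isPGroup (isPGroup_Op p _) hpq.symm)
    have e := (ps_chP (ps_im (ps_top.2 hsolv) n) (Opi_im_qm _ _)).trans' (le_inf hQ.le c)
    have b := eq_bot_of_isPGroup_of_coprime ((isPGroup_Op p _).to_le e) (coprime_pgroup hQ.isPGroup hpq.symm)
    rw [im_eq_bot_iff (le_top.trans n), kr_qm] at b
    exact fun d => Q.not_dvd_index (d.trans (Subgroup.index_dvd_of_le b))
  · intro h
    obtain ⟨P⟩ : Nonempty (Sylow p G) := inferInstance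
    obtain ⟨Q, a, b⟩ := (cop_of_pgroup P.isPGroup' (coprime_Op' p ⊤) (le_top.trans n)).exists_syl q
    exact ⟨P, (a.trans le_top (by rwa [Subgroup.relIndex_top_right])).toSylowTop, b⟩

end Cfsg.Agent.S4602
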