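import Cfsg.Statements.S4604
import Cfsg.Agent.H3.Cls
import Cfsg.Agent.H9.RCh

set_option autoImplicit false
open Cfsg

namespace Cfsg.Agent.S4604
open H3
export H3 (inner_add_left inner_add_right inner_sub_left inner_sub_right inner_neg_left inner_neg_right
  inner_zero_left inner_zero_right inner_smul_left inner_smul_right inner_conj_symm inner_self_eq_zero
  inner_self_im)

open H9

/-- Let G be a finite group, p a prime and p^a the p-part of the order of G. Let x, y ∈ G and let x′, y′ be their p-regular parts: x′ has order prime to p, commutes with x·x′⁻¹, and x·x′⁻¹ has p-power order (likewise for y). Then x′ and y′ are conjugate in G if and only if for every irreducible character χ of G the algebraic integer χ(x)^(p^a) − χ(y)^(p^a) is p times an algebraic integer. -/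
theorem result {G : Type*} [Group G] [Finite G] (p : ℕ) [Fact p.Prime] (x y x' y' : G)
    (hx : (∃ k : ℕ, orderOf (x * x'⁻¹) = p ^ k) ∧ Commute (x * x'⁻¹) x' ∧ ¬ p ∣ orderOf x')
    (hy : (∃ k : ℕ, orderOf (y * y'⁻¹) = p ^ k) ∧ Commute (y * y'⁻¹) y' ∧ ¬ p ∣ orderOf y') :
    IsConj x' y' ↔ ∀ χ : Cfsg.IrrCharacter G, ∃ γ : Cfsg.AlgInt,
      (χ : G → ℂ) x ^ (p ^ (Nat.card G).factorization p) - (χ : G → ℂ) y ^ (p ^ (Nat.card G).factorization p) = (p : ℂ) * (γ : ℂ) := by
  set_option maxSynthPendingDepth 3 in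
  have hp : p.Prime := Fact.out
  set a := (Nat.card G).factorization p
  have fr : ∀ {n} (z : Fin n → AlgInt), ∃ r : AlgInt, (∑ i, z i) ^ p ^ a = ∑ i, z i ^ p ^ a + p * r := fun z => by
    induction (Finset.univ : Finset (Fin _)) using Finset.cons_induction with
    | empty => exact ⟨0, by simp [hp.ne_zero]⟩
    | cons i s h ih =>
      obtain ⟨r, e⟩ := ih
      obtain ⟨t, f⟩ := exists_add_pow_prime_pow_eq hp (z i) (∑ j ∈ s, z j) a
      exact ⟨r + z i * (∑ j ∈ s, z j) * t, by rw [Finset.sum_cons, Finset.sum_cons, f, e]; ring⟩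
  have k : ∀ {x x' : G}, (∃ k : ℕ, orderOf (x * x'⁻¹) = p ^ k) ∧ Commute (x * x'⁻¹) x' ∧ ¬ p ∣ orderOf x' →
      ∀ χ : IrrCharacter G, ∃ γ : AlgInt, χ.1 x ^ p ^ a - χ.1 x' ^ p ^ a = p * γ := fun {x x'} ⟨⟨k, h⟩, c, _⟩ χ => by
    obtain ⟨n, u, v, -, h1, h2, h3, h4, -⟩ := χ.2.isCharacter.exists_sum_of_commute c
    have d : orderOf (x * x'⁻¹) ∣ p ^ a := h ▸ pow_dvd_pow p ((hp.pow_dvd_iff_le_factorization Nat.card_pos.ne').1
      (h ▸ orderOf_dvd_natCard _))
    have iu := fun i => isIntegral_of_pow_eq_one (orderOf_pos _).ne' (h1 i)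
    have iv := fun i => isIntegral_of_pow_eq_one (orderOf_pos _).ne' (h2 i)
    obtain ⟨r, e⟩ := fr fun i => (⟨_, (iu i).mul (iv i)⟩ : AlgInt)
    obtain ⟨s, f⟩ := fr fun i => (⟨_, iv i⟩ : AlgInt)
    have e := congrArg Subtype.val e
    have f := congrArg Subtype.val f
    push_cast at e f
    rw [inv_mul_cancel_right] at h3
    simp only [mul_pow, pow_eq_one_of_dvd (h1 _) d, one_mul] at e
    exact ⟨r - s, by rw [h3, h4, e, f]; push_cast; ring⟩
  refine ⟨fun h χ => ?_, fun h => ?_⟩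
  · obtain ⟨r, e⟩ := k hx χ
    obtain ⟨s, f⟩ := k hy χ
    refine ⟨r - s, ?_⟩
    push_cast
    rw [mul_sub, ← e, ← f, χ.2.isClassFunction.of_isConj h]; ring
  · obtain ⟨M, hM⟩ := exists_pmod hp
    haveI : PMod p M := ⟨hM⟩
    have q : ∀ {x x' : G}, (∃ k : ℕ, orderOf (x * x'⁻¹) = p ^ k) ∧ Commute (x * x'⁻¹) x' ∧ ¬ p ∣ orderOf x' →
        pq p x = x' := fun {x x'} ⟨⟨k, h⟩, c, d⟩ => by
      have := pq_mul (p := p) ⟨k, h⟩ d c
      rwa [inv_mul_cancel_right] at this
    rw [← q hx, ← q hy]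
    refine isConj_pq_of_forall_irr (M := M) fun χ => ?_
    obtain ⟨γ, e⟩ := h χ
    have i := fun g => mem_LR_of_isIntegral (M := M) (χ.2.isCharacter.isIntegral g)
    have := LI_mul_right (p_mem_LI (p := p) (M := M)) (algInt_mem_LR γ)
    rw [← e, ← red_eq_red_iff (pow_mem (i _) _) (pow_mem (i _) _), red_pow (i _), red_pow (i _), ← sub_eq_zero,
      ← sub_pow_char_pow] at this
    exact (red_eq_red_iff (i _) (i _)).1 (sub_eq_zero.1 (pow_eq_zero_iff (pow_pos hp.pos a).ne' |>.1 this))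

end Cfsg.Agent.S4604
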