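import Cfsg.Statements.S4607
import Cfsg.Agent.H9.Sym

set_option autoImplicit false
open Cfsg

namespace Cfsg.Agent.S4607
open H9 H3 MonoidAlgebra
open scoped Pointwise
set_option linter.style.haveILetI false
set_option linter.unusedVariables false


/-- Let G be a finite group, p a prime, M a maximal ideal of the algebraic integers containing p, and B a p-block of G with defect group D. Then B contains exactly two irreducible characters if and only if D has order 2. -/
theorem result {G : Type*} [Group G] [Finite G] (p : ℕ) [Fact p.Prime] (M : Ideal Cfsg.AlgInt) (hM : Cfsg.IsPModular p M) (B : Set (Cfsg.IrrCharacter G)) (hB : Cfsg.IsPBlock M B) (D : Subgroup G) (hD : Cfsg.IsDefectGroup p M B D) : Nat.card B = 2 ↔ Nat.card D = 2 := by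
  haveI : PMod p M := ⟨hM⟩; lift B to Bl M G using hB
  refine ⟨fun h => ?_, fun h => ?_⟩
  · have d : blockDefect p B.1 ≠ 0 := fun e => by have := Bl.card_eq_one_iff.2 e; omega
    have := Bl.rank_lt_card d
    have := B.rank_pos
    rw [Bl.IsDef.card_eq hD, ← (Bl.flat_of_card_le (by omega) (by omega)).card, h]
  · obtain ⟨b, m⟩ := exists_maxP_of_isDef hD
    haveI : Fact (Nat.Prime 2) := ⟨Nat.prime_two⟩
    haveI : IsCyclic D := isCyclic_of_prime_card h
    have e := m.fr_of_cyclic.ee_dvd
    rw [h, Nat.dvd_one] at e
    rw [m.fr_of_cyclic.card_eq, m.rank_of_cyclic, e, h]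

end Cfsg.Agent.S4607
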