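import Cfsg.Statements.S4611
import Cfsg.Agent.H9.Misc3

set_option autoImplicit false
open Cfsg

namespace Cfsg.Agent.S4611
open H9 H3 MonoidAlgebra
open scoped Pointwise
set_option linter.style.haveILetI false
set_option linter.unusedVariables false


/-- Let G be a finite solvable group and π a nonempty set of primes, each dividing the order of G; fix for each p in π a maximal ideal M p of the algebraic integers containing p. Then the only irreducible character lying in the principal p-block for every p in π is the principal character if and only if G is generated by the subgroups O_{p'}(G), p in π (the largest normal subgroups of order prime to p). -/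
theorem result {G : Type*} [Group G] [Finite G] [Group.IsSolvable G] (π : Set ℕ) (hπ : ∀ p ∈ π, p.Prime ∧ p ∣ Nat.card G) (hne : π.Nonempty) (M : ℕ → Ideal Cfsg.AlgInt) (hM : ∀ p ∈ π, Cfsg.IsPModular p (M p)) :
    (∀ χ : Cfsg.IrrCharacter G, (∀ p ∈ π, χ ∈ Cfsg.principalBlock (M p) G) → (χ : G → ℂ) = fun _ => 1) ↔
      ⨆ p ∈ π, Cfsg.pPrimeCore p G = ⊤ := by
  refine ⟨fun h => by_contra fun hn => ?_, fun h χ hχ => ?_⟩
  · set N := ⨆ p ∈ π, pPrimeCore p G
    haveI : N.Normal := ⟨fun n hn g => by
      refine Subgroup.iSup_induction _ (C := fun n => g * n * g⁻¹ ∈ N) hn (fun p n hn => ?_) (by simp)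
        fun a b ha hb => by simpa [mul_assoc] using mul_mem ha hb
      by_cases hp : p ∈ π
      · rw [iSup_pos hp] at hn
        exact le_iSup₂_of_le (f := fun p (_ : p ∈ π) => pPrimeCore p G) p hp le_rfl
          (Subgroup.Normal.conj_mem inferInstance n hn g)
      · rw [iSup_neg hp, Subgroup.mem_bot] at hn; simp [hn]⟩
    obtain ⟨g, hg⟩ : ∃ g, g ∉ N := by
      by_contra! H; exact hn (eq_top_iff.2 fun g _ => H g)
    have := sum_deg_mul_eq_zero (G := G ⧸ N) (g := g) (mt (QuotientGroup.eq_one_iff g).1 hg)
    rw [Finset.sum_eq_single (trivChar _) (fun ψ _ hψ => (hψ (infl_injective (QuotientGroup.mk'_surjective N)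
      (Subtype.ext (h _ fun p hp => ?_)))).elim) (by simp)] at this
    · simp [trivChar] at this
    haveI := Fact.mk (hπ p hp).1
    haveI : PMod p (M p) := ⟨hM p hp⟩
    exact (mem_B0_iff_of_psolv (H1.isPSolvable_of_isSolvable Fact.out)).2 fun n hn => infl_ker _ _
      (by rw [QuotientGroup.ker_mk']; exact le_iSup₂_of_le (f := fun p (_ : p ∈ π) => pPrimeCore p G) p hp le_rfl hn)
  · have h0 : ⊤ ≤ charKer χ.1 := h.ge.trans (iSup₂_le fun p hp n hn => by
      haveI := Fact.mk (hπ p hp).1
      haveI : PMod p (M p) := ⟨hM p hp⟩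
      exact χ.2.isCharacter.mem_charKer.2 (B0_ker (hχ p hp) _ not_dvd_pPrimeCore n hn))
    haveI := Fintype.ofFinite G
    by_contra hne
    have h1 := χ.2.inner_of_ne isIrrCharacter_one hne
    simp [classInner, fun g => χ.2.isCharacter.mem_charKer.1 (h0 (Subgroup.mem_top g)), χ.2.deg_ne_zero] at h1

end Cfsg.Agent.S4611
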