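import Cfsg.Statements.S4620
import Cfsg.Agent.H3.Grp

set_option autoImplicit false
open scoped Pointwise
open Cfsg

namespace Cfsg.Agent.S4620
open H3
export H3 (inner_add_left inner_add_right inner_sub_left inner_sub_right inner_neg_left inner_neg_right
  inner_zero_left inner_zero_right inner_smul_left inner_smul_right inner_conj_symm inner_self_eq_zero
  inner_self_im)

open H7

/-- Let H be a finite group with no nontrivial normal p-subgroup and no nontrivial normal subgroup of order prime to p, whose Sylow p-subgroup P is nontrivial and a trivial-intersection set (P meets its conjugates by elements outside N_H(P) trivially). Then H has a unique minimal normal subgroup N; N is non-abelian simple with trivial centralizer in H (so H embeds in Aut(N)), and a Sylow p-subgroup of N is again a nontrivial trivial-intersection set in N. -/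
theorem result {H : Type*} [Group H] [Finite H] (p : ℕ) [Fact p.Prime] (hOp : Cfsg.pCore p H = ⊥) (hOp' : Cfsg.pPrimeCore p H = ⊥) (P : Sylow p H) (hP1 : (P : Subgroup H) ≠ ⊥)
    (hTI : ∀ g : H, g ∉ Subgroup.normalizer ((P : Subgroup H) : Set H) → (P : Subgroup H) ⊓ (MulAut.conj g • (P : Subgroup H)) = ⊥) :
    ∃ N : Subgroup H, N.Normal ∧ N ≠ ⊥ ∧ (∀ K : Subgroup H, K.Normal → K ≠ ⊥ → N ≤ K) ∧
      IsSimpleGroup N ∧ ¬ IsMulCommutative N ∧ Subgroup.centralizer (N : Set H) = ⊥ ∧
      ∀ Q : Sylow p N, (Q : Subgroup N) ≠ ⊥ ∧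
        ∀ n : N, n ∉ Subgroup.normalizer ((Q : Subgroup N) : Set N) → (Q : Subgroup N) ⊓ (MulAut.conj n • (Q : Subgroup N)) = ⊥ := by
  set_option maxSynthPendingDepth 3 in
  rw [pCore_eq] at hOp
  rw [pPrimeCore_eq] at hOp'
  have hP := H1B.syl_top P
  have k := fun {S K : Subgroup H} => eq_bot_of_TI (S := S) (K := K) hOp hOp' hP hTI
  obtain ⟨N, n1, -, n2, n3⟩ := exists_min_inv_gt (A := ⊤) (bot_lt_iff_ne_bot.2 fun e : (⊤ : Subgroup H) = ⊥ =>
    hP1 (eq_bot_iff.2 (le_top.trans e.le))) (le_nrm_self _)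
  haveI := H1B.normal_of n2
  have s := SN.of_normal le_top n2
  have c : cen N = ⊥ := k s n1.ne' (SN.of_normal le_top (nrm_cen n2)) le_rfl
  haveI := (Subgroup.nontrivial_iff_ne_bot N).2 n1.ne'
  refine ⟨N, inferInstance, n1.ne', fun K a b => ?_, ⟨fun S a => or_iff_not_imp_left.2 fun b => ?_⟩,
    fun e => n1.ne' (eq_bot_iff.2 (c ▸ isComm_iff.1 e)), c, fun Q => ?_⟩
  · refine inf_eq_left.1 ((n3 _ bot_le inf_le_left (nrm_inf n2 (H1B.top_nrm K))).resolve_left fun e => b ?_)
    exact eq_bot_iff.2 (c ▸ le_cen_symm (le_cen_of_inf_eq_bot (le_nrm_of_normal _ _) (le_nrm_of_normal _ _) e))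
  · obtain ⟨T, t1, t2, t3, t4⟩ := exists_min_inv_gt (A := N) (bot_lt_iff_ne_bot.2 fun e =>
      b ((Subgroup.map_eq_bot_iff_of_injective S N.subtype_injective).1 e)) (le_nrm_map_subtype S)
    have l := t2.trans (Subgroup.map_subtype_le S)
    have u : ⊤ ≤ nrm T := fun g _ => cj_eq_self_iff.1 (of_not_not fun m => by
      have l' : cj g T ≤ N := cj_le_of_mem_nrm (n2 trivial) l
      have v : N ≤ nrm (cj g T) := by rw [← cj_nrm]; exact (cj_normal g N).ge.trans (cj_mono g t3)
      have w := (t4 _ bot_le inf_le_left (nrm_inf t3 v)).resolve_right fun e =>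
        m (eq_of_le_of_card_le (e.ge.trans inf_le_right) (card_cj g T).le).symm
      exact t1.ne' (k ((SN.of_normal l' v).trans s) (fun e => t1.ne' (cj_eq_bot.1 e)) ((SN.of_normal l t3).trans s)
        (le_cen_of_inf_eq_bot (l.trans v) (l'.trans t3) w)))
    rw [eq_iff_map, map_subtype_top]
    exact le_antisymm (Subgroup.map_subtype_le S) (((n3 T bot_le l u).resolve_left t1.ne').ge.trans t2)
  · have q := H1B.syl_sub Q
    obtain ⟨g, -, e⟩ := (syl_inf hP le_top (le_top.trans n2)).exists_cj_eq q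
    rw [cj_inf, cj_normal g N] at e
    refine ⟨fun b => ?_, fun n hn => of_not_not fun b => hn ?_⟩
    · rw [b, Subgroup.map_bot, syl_bot_iff] at q
      exact n1.ne' (eq_bot_iff.2 (hOp' ▸ le_Op' le_top n2 (coprime_iff_not_dvd.2 q)))
    · obtain ⟨y, ⟨y1, y2⟩, y3⟩ := exists_ne_one b
      have m : ∀ z : N, z ∈ (Q : Subgroup N) ↔ (z : H) ∈ cj g P := fun z => by
        rw [← Subgroup.mem_map_iff_mem (f := N.subtype) N.subtype_injective, ← e]
        exact ⟨fun h => h.1, fun h => ⟨h, z.2⟩⟩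
      have r : g⁻¹ * n * g ∈ nrm (P : Subgroup H) := of_not_not fun r => y3 (by
        have : g⁻¹ * y * g ∈ (P : Subgroup H) ⊓ cj (g⁻¹ * n * g) P := ⟨mem_cj.1 ((m y).1 y1), mem_cj.2 (by
          have := mem_cj.1 ((m _).1 (mem_cj.1 y2))
          simpa [mul_assoc] using this)⟩
        rw [show _ ⊓ cj _ _ = ⊥ from hTI _ r, Subgroup.mem_bot] at this
        simpa [mul_assoc, mul_eq_one_iff_eq_inv] using this)
      rw [← mem_cj, cj_nrm] at r
      exact mem_nrm_of_cj_le fun z hz => (m z).2 (by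
        have := nconj_mem r ((m _).1 (mem_cj.1 hz))
        simpa [mul_assoc] using this)

end Cfsg.Agent.S4620
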