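import Cfsg.Statements.S4623
import Cfsg.Agent.H3.SylA

set_option autoImplicit false
open Cfsg

namespace Cfsg.Agent.S4623
open H3
export H3 (inner_add_left inner_add_right inner_sub_left inner_sub_right inner_neg_left inner_neg_right
  inner_zero_left inner_zero_right inner_smul_left inner_smul_right inner_conj_symm inner_self_eq_zero
  inner_self_im)

open H7 Subgroup Equiv

/-- For every prime p and every n, a Sylow p-subgroup P of the symmetric group on n letters has P/P' elementary abelian (the p-th power of every element of P lies in the derived subgroup of P), and the same holds for a Sylow p-subgroup of the alternating group on n letters. -/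
theorem result (p : ℕ) [Fact p.Prime] (n : ℕ) (P : Sylow p (Equiv.Perm (Fin n))) (Q : Sylow p (alternatingGroup (Fin n))) :
    (∀ x : (P : Subgroup (Equiv.Perm (Fin n))), x ^ p ∈ commutator (P : Subgroup (Equiv.Perm (Fin n)))) ∧
    (∀ x : (Q : Subgroup (alternatingGroup (Fin n))), x ^ p ∈ commutator (Q : Subgroup (alternatingGroup (Fin n)))) := by
  set_option maxSynthPendingDepth 3 in
  classical
  have hp : p.Prime := Fact.out
  have c : padicValNat p (Nat.card (Perm (Fin n))) = padicValNat p n.factorial := by
    rw [Nat.card_eq_fintype_card, Fintype.card_perm, Fintype.card_fin]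
  obtain ⟨T, a, b⟩ := exists_gp p n
  have v : padicValNat p (Nat.card (Perm (Fin n))) ≤ padicValNat p (Nat.card T) := by
    rw [c, a, padicValNat.prime_pow]
  refine ⟨EP.sylow (N := ⊤) (.of_card a) v (by simpa using b.ep) (j := .id _) Function.injective_id (MonoidHom.range_eq_top.2 Function.surjective_id) P, ?_⟩
  by_cases h : p = 2
  swap
  · refine EP.sylow (N := alternatingGroup _) (.of_card a) v ?_ (subtype_injective _) (range_subtype _) Q
    rw [inf_eq_left.2 (b.le fun t _ e => ?_)]
    · exact b.ep
    have := congrArg Perm.sign e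
    rw [map_pow, map_one, Int.units_pow_eq_pow_mod_two, Nat.odd_iff.1 (hp.odd_of_ne_two h), pow_one] at this
    exact this
  subst h
  clear a b v T P
  obtain ⟨T, a, b⟩ := exists_gp 2 (n / 2)
  rw [val_fact] at c
  generalize n / 2 = m, (Nat.div_add_mod n 2) = e at *
  obtain ⟨w, s1, s2⟩ := exists_wrP (p := 2) m (n % 2)
  generalize n % 2 = r at *
  subst e
  obtain ⟨k1, k2⟩ := w.val_W (T := T) (b := 0) card_rot (by simp) a
  refine EP.sylow (N := Perm.sign.ker) k1 (by rw [c, k2]; simp) ?_ (subtype_injective _) (range_subtype _) Q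
  rcases m with _ | m
  · exact ep_of_le (inf_le_left.trans (w.W_le (fun i => i.elim0) (fun z => by rw [show z = 1 from rfl, map_one]; exact one_mem _)
      fun t _ => by rw [Subsingleton.elim t 1, map_one]; exact one_mem _))
  exact w.ep_one b (fun t _ _ => by rw [s1, Int.units_sq]) 0 (r := ⟨_, mem_zpowers _⟩) (Subtype.ext (by decide))
    (by rw [s2]; decide) (D₁ := ⊥) (fun x m => by rw [mem_bot.1 m, one_pow]; exact one_mem _)
    (fun x m => by rw [mem_bot.1 m, map_one, map_one]) (by
      rw [bot_sup_eq, eq_top_iff]; rintro ⟨_, k, rfl⟩ -; exact ⟨k, rfl⟩) fun _ => ⟨rfl, .inl rfl⟩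

end Cfsg.Agent.S4623
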