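import Cfsg.Statements.S4630
import Cfsg.Agent.H3.SylC

set_option autoImplicit false
open Cfsg

namespace Cfsg.Agent.S4630
open H3
export H3 (inner_add_left inner_add_right inner_sub_left inner_sub_right inner_neg_left inner_neg_right
  inner_zero_left inner_zero_right inner_smul_left inner_smul_right inner_conj_symm inner_self_eq_zero
  inner_self_im)

/-- Let F be a finite field of odd order and m ≥ 1 with m even or m ≥ 4. For the commutator subgroup Ω of the isometry group of the plus-type quadratic form Σ_{i<m} x_i y_i in dimension 2m over F, a Sylow 2-subgroup P of Ω has P/P' elementary abelian: the square of every element of P lies in the derived subgroup of P. -/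
theorem result {F : Type*} [Field F] [Fintype F] (hF : Odd (Fintype.card F)) (m : ℕ) (hm : 1 ≤ m) (hm' : Even m ∨ 4 ≤ m) (P : Sylow 2 (Cfsg.Omega F (Cfsg.quadFormPlus m F))) : ∀ x : (P : Subgroup (Cfsg.Omega F (Cfsg.quadFormPlus m F))), x ^ 2 ∈ commutator (P : Subgroup (Cfsg.Omega F (Cfsg.quadFormPlus m F))) := by
  set_option maxSynthPendingDepth 3 in
  refine H3.ep_omega hF (H4.plusForm_ND F m) ?_ (H4.isometryEquiv (H4.plusForm F m)) P
  by_cases e : m = 2
  · exact .inr ⟨by simp [e], by rw [H4.disc_plusForm, e, pow_two, Int.units_mul_self]⟩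
  · refine .inl ?_
    simp only [Module.finrank_fintype_fun_eq_card, Fintype.card_sum, Fintype.card_fin]
    rcases hm' with ⟨k, h⟩ | h <;> omega

end Cfsg.Agent.S4630
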