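import Cfsg.Statements.S4741
import Cfsg.Agent.H9.Rob2

set_option autoImplicit false
open Cfsg

namespace Cfsg.Agent.S4741
open H9 H3 MonoidAlgebra
open scoped Pointwise
set_option linter.style.haveILetI false
set_option linter.unusedVariables false


/-- Let p be a prime, M a maximal ideal of the algebraic integers containing p, and D a subgroup of the finite group G. Let x₁, …, x_r be pairwise non-conjugate elements of G such that D is a Sylow p-subgroup of the centralizer of each xᵢ, and such that for any conjugates g of some xᵢ and h of some xⱼ the element g h⁻¹ is never a non-identity p-element. Then there are r distinct p-blocks B₁, …, B_r of G, each having D as a defect group, such that for every choice of characters χᵢ ∈ Bᵢ of height zero the determinant of the r × r matrix (χᵢ(xⱼ)) does not lie in the local ideal at M. -/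
theorem result {G : Type*} [Group G] [Finite G] (p : ℕ) [Fact p.Prime] (M : Ideal Cfsg.AlgInt) (hM : Cfsg.IsPModular p M) (D : Subgroup G) {r : ℕ} (x : Fin r → G) (hx : ∀ i j : Fin r, IsConj (x i) (x j) → i = j) (hD : ∀ i : Fin r, ∃ S : Sylow p ↥(Subgroup.centralizer ({x i} : Set G)), (S : Subgroup ↥(Subgroup.centralizer ({x i} : Set G))).map (Subgroup.centralizer ({x i} : Set G)).subtype = D) (hsep : ∀ i j : Fin r, ∀ g h : G, IsConj (x i) g → IsConj (x j) h → ∀ k : ℕ, 0 < k → orderOf (g * h⁻¹) ≠ p ^ k) : ∃ B : Fin r → Set (Cfsg.IrrCharacter G), Function.Injective B ∧ (∀ i : Fin r, Cfsg.IsPBlock M (B i) ∧ Cfsg.IsDefectGroup p M (B i) D) ∧ ∀ χ : Fin r → Cfsg.IrrCharacter G, (∀ i : Fin r, χ i ∈ B i ∧ Cfsg.blockHeight p (B i) (χ i : G → ℂ) = 0) → ¬ Cfsg.MemLocalIdeal M (Matrix.det (Matrix.of fun i j : Fin r => (χ i : G → ℂ) (x j))) := by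
  classical
  haveI : PMod p M := ⟨hM⟩
  have hD' : ∀ i, H1.IsSylowIn p D (cen1 (x i)) := fun i => by
    obtain ⟨S, hS⟩ := hD i; exact hS ▸ H1.isSylowIn_map_subtype S
  obtain ⟨B, h1, h2, h3⟩ := exists_blocks_of_sep M x hx hD' fun i j g h hg hh ⟨k, hk⟩ => by
    rcases Nat.eq_zero_or_pos k with rfl | h0
    · rwa [pow_zero, orderOf_eq_one_iff, mul_inv_eq_one] at hk
    · exact (hsep i j g h hg hh k h0 hk).elim
  refine ⟨fun i => (B i).1, Subtype.val_injective.comp h1, fun i => ⟨(B i).2, h2 i⟩,
    fun χ hχ h => ?_⟩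
  have hc : ∀ i j, (Nat.card (cen1 (x j))).factorization p = blockDefect p (B i).1 := fun i j => by
    rw [← (h2 i).factorization_card, factorization_of_isSylowIn (hD' j)]
  have hm : ∀ i, (B i).minv = (Nat.card G).factorization p - (Nat.card D).factorization p :=
    fun i => by have := (B i).minv_add_defect; have := (h2 i).factorization_card; omega
  have h4 := red_eq_zero_of_mem_LI (mem_LI.2 h)
  rw [red_det (Matrix.of fun i j => (χ i).1 (x j)) fun i j => irr_mem_LR _ _] at h4
  have e : (Matrix.of fun i j => (χ i).1 (x j)).map (red M) =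
      Matrix.diagonal (fun i => red M ((χ i).1 1 / ((p ^ (B i).minv : ℕ) : ℂ))) *
      (Matrix.of fun i j => (B i).lam (classSum (RF M) (x j))) *
      Matrix.diagonal fun j => (red M (((cen1 (x j)).index : ℂ) / ((p ^
        ((Nat.card G).factorization p - (Nat.card D).factorization p) : ℕ) : ℂ)))⁻¹ := by
    ext i j
    simp only [Matrix.map_apply, Matrix.of_apply, Matrix.mul_diagonal, Matrix.diagonal_mul]
    rw [Bl.red_apply_eq (hχ i).1 (hc i j), mul_assoc, ← hm i]
  rw [e, Matrix.det_mul, Matrix.det_mul, Matrix.det_diagonal, Matrix.det_diagonal] at h4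
  refine mul_ne_zero (mul_ne_zero (Finset.prod_ne_zero_iff.2 fun i _ => ?_) h3)
    (Finset.prod_ne_zero_iff.2 fun j _ => inv_ne_zero ?_) h4
  · exact Bl.red_deg_div_ne_zero (hχ i).1 (hχ i).2
  · exact red_index_div_ne_zero (factorization_of_isSylowIn (hD' j)).symm

end Cfsg.Agent.S4741
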