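import Cfsg.Statements.S4742
import Cfsg.Agent.H9.Rob2

set_option autoImplicit false
open Cfsg

namespace Cfsg.Agent.S4742
open H9 H3 MonoidAlgebra
open scoped Pointwise
set_option linter.style.haveILetI false
set_option linter.unusedVariables false


/-- Let p ≠ q be primes dividing the order of the finite group G, and suppose the centralizer of every non-identity p-element of G has order prime to q. Then either G has an irreducible character of p-defect zero, or for every non-identity q-element z of G there are conjugates g, h of z such that g h⁻¹ is a non-identity p-element. -/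
theorem result {G : Type*} [Group G] [Finite G] (p q : ℕ) [Fact p.Prime] [Fact q.Prime] (hppq : p ≠ q) (hpG : p ∣ Nat.card G) (hqG : q ∣ Nat.card G) (hC : ∀ g : G, g ≠ 1 → (∃ k : ℕ, orderOf g = p ^ k) → ¬ q ∣ Nat.card ↥(Subgroup.centralizer ({g} : Set G))) : (∃ χ : Cfsg.IrrCharacter G, (Cfsg.charDegree (χ : G → ℂ)).factorization p = (Nat.card G).factorization p) ∨ ∀ z : G, z ≠ 1 → (∃ k : ℕ, orderOf z = q ^ k) → ∃ g h : G, IsConj z g ∧ IsConj z h ∧ g * h⁻¹ ≠ 1 ∧ ∃ k : ℕ, orderOf (g * h⁻¹) = p ^ k := by
  refine or_iff_not_imp_left.2 fun h z hz hq => ?_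
  by_contra hn
  refine h (exists_defect_zero_of_sep p (not_dvd_cen1_symm Fact.out hC hz hq)
    fun g h hg hh hp => ?_)
  by_contra hne
  exact hn ⟨g, h, hg, hh, fun e => hne (mul_inv_eq_one.1 e), hp⟩

end Cfsg.Agent.S4742
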