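import Cfsg.Statements.S4743
import Cfsg.Agent.H9.Rob2

set_option autoImplicit false
open Cfsg

namespace Cfsg.Agent.S4743
open H9 H3 MonoidAlgebra
open scoped Pointwise
set_option linter.style.haveILetI false
set_option linter.unusedVariables false
theorem aux1 {G : Type*} [Group G] [Finite G] (p q : ℕ) [Fact p.Prime] [Fact q.Prime]
    (hC : ∀ g : G, g ≠ 1 → IsPElt p g → ¬ q ∣ Nat.card (cen1 g)) (N : Subgroup G) [hN : N.Normal]
    (hp : p ∣ Nat.card N) (hq : ¬ q ∣ Nat.card N) :
    ∃ χ : IrrCharacter G, (charDegree χ.1).factorization q = (Nat.card G).factorization q := by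
  obtain ⟨z, hz⟩ := exists_prime_orderOf_dvd_card' p hp
  have h1 : orderOf (z : G) = p := by rw [Subgroup.orderOf_coe, hz]
  refine exists_defect_zero_of_sep q (z := z) (hC z (fun e => ?_) ⟨1, by rw [h1, pow_one]⟩)
    fun g h hg hh hp => ?_
  · rw [e, orderOf_one] at h1; exact (Fact.out : p.Prime).one_lt.ne h1
  · have m : ∀ {g : G}, IsConj (z : G) g → g ∈ N := fun hg => by
      obtain ⟨c, rfl⟩ := isConj_iff.1 hg; exact hN.conj_mem _ z.2 c
    exact mul_inv_eq_one.1 (eq_one_of_isPElt_of_isPRegular hp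
      (isPRegular_of_mem hq (N.mul_mem (m hg) (N.inv_mem (m hh)))))

theorem aux2 {G : Type*} [Group G] [Finite G] (p q : ℕ) [Fact p.Prime] [Fact q.Prime]
    (hpq : p ≠ q) (hp : p ∣ Nat.card G) (h : IsPSolvable p G) :
    ∃ N : Subgroup G, N.Normal ∧ ((p ∣ Nat.card N ∧ ¬ q ∣ Nat.card N) ∨
      (q ∣ Nat.card N ∧ ¬ p ∣ Nat.card N)) := by
  obtain ⟨n, H, h0, h1, h2, h3, h4⟩ := h
  by_contra hn
  have key : ∀ i, ¬ p ∣ Nat.card (H i) ∧ ¬ q ∣ Nat.card (H i) := by
    intro i
    induction i using Fin.induction with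
    | zero =>
      rw [h0, Subgroup.card_bot]
      exact ⟨(Fact.out : p.Prime).not_dvd_one, (Fact.out : q.Prime).not_dvd_one⟩
    | succ i ih =>
      have e := H1.card_mul_relIndex (h2 (Fin.castSucc_le_succ i))
      rw [mul_comm] at e
      have hn' : ¬ ((p ∣ Nat.card (H i.succ) ∧ ¬ q ∣ Nat.card (H i.succ)) ∨
        (q ∣ Nat.card (H i.succ) ∧ ¬ p ∣ Nat.card (H i.succ))) := fun h => hn ⟨_, h3 _, h⟩
      rcases h4 i with ⟨m, hm⟩ | hc
      · have : ¬ q ∣ Nat.card (H i.succ) := by
          rw [← e, hm, (Fact.out : q.Prime).dvd_mul]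
          rintro (a | a)
          · exact hpq ((Nat.prime_dvd_prime_iff_eq Fact.out Fact.out).1
              ((Fact.out : q.Prime).dvd_of_dvd_pow a)).symm
          · exact ih.2 a
        tauto
      · have : ¬ p ∣ Nat.card (H i.succ) := by
          rw [← e, (Fact.out : p.Prime).dvd_mul]
          rintro (a | a)
          · exact (Nat.Prime.coprime_iff_not_dvd Fact.out).1 hc.symm a
          · exact ih.1 a
        tauto
  have := (key (Fin.last n)).1
  rw [h1, Subgroup.card_top] at this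
  exact this hp

/-- Let p ≠ q be primes dividing the order of the finite group G, suppose the centralizer of every non-identity p-element has order prime to q, and suppose G is p-solvable or q-solvable. Then G has an irreducible character of p-defect zero or an irreducible character of q-defect zero. -/
theorem result {G : Type*} [Group G] [Finite G] (p q : ℕ) [Fact p.Prime] [Fact q.Prime] (hppq : p ≠ q) (hpG : p ∣ Nat.card G) (hqG : q ∣ Nat.card G) (hC : ∀ g : G, g ≠ 1 → (∃ k : ℕ, orderOf g = p ^ k) → ¬ q ∣ Nat.card ↥(Subgroup.centralizer ({g} : Set G))) (hsolv : Cfsg.IsPSolvable p G ∨ Cfsg.IsPSolvable q G) : (∃ χ : Cfsg.IrrCharacter G, (Cfsg.charDegree (χ : G → ℂ)).factorization p = (Nat.card G).factorization p) ∨ (∃ χ : Cfsg.IrrCharacter G, (Cfsg.charDegree (χ : G → ℂ)).factorization q = (Nat.card G).factorization q) := by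
  have hC' : ∀ g : G, g ≠ 1 → IsPElt q g → ¬ p ∣ Nat.card (cen1 g) := fun g h1 h2 =>
    not_dvd_cen1_symm Fact.out hC h1 h2
  have : ∃ N : Subgroup G, N.Normal ∧ ((p ∣ Nat.card N ∧ ¬ q ∣ Nat.card N) ∨
      (q ∣ Nat.card N ∧ ¬ p ∣ Nat.card N)) := by
    rcases hsolv with h | h
    · exact aux2 p q hppq hpG h
    · obtain ⟨N, h1, h2⟩ := aux2 q p hppq.symm hqG h
      exact ⟨N, h1, h2.symm⟩
  obtain ⟨N, h1, h2 | h2⟩ := this
  · exact Or.inr (aux1 p q hC N h2.1 h2.2)
  · exact Or.inl (aux1 q p hC' N h2.1 h2.2)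

end Cfsg.Agent.S4743
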