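import Cfsg.Statements.S4744
import Cfsg.Agent.H9.Rob2

set_option autoImplicit false
open Cfsg

namespace Cfsg.Agent.S4744
open H9 H3 MonoidAlgebra
open scoped Pointwise
set_option linter.style.haveILetI false
set_option linter.unusedVariables false


/-- Let p be an odd prime and G a finite group of even order divisible by p in which the centralizer of every non-identity p-element has odd order. Then either G has an irreducible character of p-defect zero, or the normalizer of every Sylow p-subgroup P of G has even order and P is abelian. -/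
theorem result {G : Type*} [Group G] [Finite G] (p : ℕ) [Fact p.Prime] (hp2 : p ≠ 2) (hpG : p ∣ Nat.card G) (h2G : 2 ∣ Nat.card G) (hC : ∀ g : G, g ≠ 1 → (∃ k : ℕ, orderOf g = p ^ k) → Odd (Nat.card ↥(Subgroup.centralizer ({g} : Set G)))) : (∃ χ : Cfsg.IrrCharacter G, (Cfsg.charDegree (χ : G → ℂ)).factorization p = (Nat.card G).factorization p) ∨ ∀ P : Sylow p G, Even (Nat.card ↥(Subgroup.normalizer ((P : Subgroup G) : Set G))) ∧ IsMulCommutative ↥(P : Subgroup G) := by
  refine or_iff_not_imp_left.2 fun h P => ?_
  obtain ⟨t, ht⟩ := exists_prime_orderOf_dvd_card' 2 h2G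
  obtain ⟨s, h1, h2⟩ := exists_inverted_of_no_defect_zero (fun g a b => by
    rw [← even_iff_two_dvd, Nat.not_even_iff_odd]; exact hC g a b) h ht P
  refine ⟨?_, H1.isMulCommutative_of_inverts h2⟩
  have hs : orderOf s = 2 := by
    obtain ⟨c, rfl⟩ := isConj_iff.1 h1; rw [orderOf_conj', ht]
  rw [even_iff_two_dvd, ← hs]
  exact Subgroup.orderOf_dvd_natCard _ (H1.mem_normalizer_of_conj_mem fun k hk =>
    h2 k hk ▸ inv_mem hk)

end Cfsg.Agent.S4744
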