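import Cfsg.Statements.S4746
import Cfsg.Agent.H9.Rob2
import Cfsg.Agent.H3.Galois
import Cfsg.Agent.H3.Gen

set_option autoImplicit false
open Cfsg

namespace Cfsg.Agent.S4746
set_option maxRecDepth 100000
open H9 H3 MonoidAlgebra

theorem sq_sum_int {ι : Type*} [DecidableEq ι] (s : Finset ι) (a : ι → ℂ) (ha : ∀ i, IsIntegral ℤ (a i)) :
    ∃ ω : ℂ, IsIntegral ℤ ω ∧ (∑ i ∈ s, a i) ^ 2 = ∑ i ∈ s, a i ^ 2 + 2 * ω := by
  induction s using Finset.induction_on with
  | empty => exact ⟨0, isIntegral_zero, by simp⟩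
  | insert i s hi ih =>
    obtain ⟨ω, h1, h2⟩ := ih
    refine ⟨ω + a i * ∑ j ∈ s, a j, h1.add ((ha i).mul (IsIntegral.sum _ fun j _ => ha j)), ?_⟩
    rw [Finset.sum_insert hi, Finset.sum_insert hi]
    linear_combination h2


/-- Let p be an odd prime and G a finite group of even order divisible by p in which the centralizer of every non-identity p-element has odd order. Then G has an irreducible character of p-defect zero or an irreducible character of even degree. -/
theorem result {G : Type*} [Group G] [Finite G] (p : ℕ) [Fact p.Prime] (hp2 : p ≠ 2) (hpG : p ∣ Nat.card G) (h2G : 2 ∣ Nat.card G) (hC : ∀ g : G, g ≠ 1 → (∃ k : ℕ, orderOf g = p ^ k) → Odd (Nat.card ↥(Subgroup.centralizer ({g} : Set G)))) : (∃ χ : Cfsg.IrrCharacter G, (Cfsg.charDegree (χ : G → ℂ)).factorization p = (Nat.card G).factorization p) ∨ ∃ χ : Cfsg.IrrCharacter G, Even (Cfsg.charDegree (χ : G → ℂ)) := by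
  classical
  refine or_iff_not_imp_left.2 fun h => ?_
  by_contra hodd
  push Not at hodd
  obtain ⟨t, ht⟩ := exists_prime_orderOf_dvd_card' 2 h2G
  obtain ⟨P⟩ : Nonempty (Sylow p G) := inferInstance
  obtain ⟨s, -, h2⟩ := exists_inverted_of_no_defect_zero (fun g a b => by
    rw [← even_iff_two_dvd, Nat.not_even_iff_odd]; exact hC g a b) h ht P
  obtain ⟨⟨x, hx⟩, hx1⟩ := (Subgroup.ne_bot_iff_exists_ne_one).mp (P.ne_bot_of_dvd_card hpG)
  have hx1' : x ≠ 1 := fun e => hx1 (Subtype.ext e)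
  have hxo : ∃ k : ℕ, orderOf x = p ^ k := by
    obtain ⟨k, hk⟩ := (IsPGroup.iff_orderOf.mp P.isPGroup') ⟨x, hx⟩
    exact ⟨k, by rw [← hk, Subgroup.orderOf_mk]⟩
  have hc := hC x hx1' hxo
  have hreal : ∀ χ : IrrCharacter G, (starRingEnd ℂ) (χ.1 x) = χ.1 x := by
    intro χ
    rw [← χ.2.isCharacter.map_inv, ← h2 x hx]
    exact χ.2.isClassFunction _ _
  have e1 := column_orthogonality x x
  rw [if_pos (IsConj.refl x)] at e1
  have e2 := column_orthogonality x 1
  rw [if_neg (by rw [isConj_one_left]; exact hx1')] at e2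
  have hk : ∀ χ : IrrCharacter G, ∃ k : ℕ, χ.1 1 = 2 * (k : ℂ) + 1 := by
    intro χ
    obtain ⟨k, hk⟩ := Nat.not_even_iff_odd.mp (hodd χ)
    exact ⟨k, by rw [deg_eq_charDegree χ.2.isCharacter, hk]; push_cast; ring⟩
  choose k hk using hk
  have hint : ∀ χ : IrrCharacter G, IsIntegral ℤ (χ.1 x) := fun χ => χ.2.isCharacter.isIntegral x
  obtain ⟨ω, hω, e3⟩ := sq_sum_int Finset.univ (fun χ : IrrCharacter G => χ.1 x) hint
  have e4 : ∑ χ : IrrCharacter G, χ.1 x ^ 2 = (Nat.card (Subgroup.centralizer ({x} : Set G)) : ℂ) := by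
    rw [← e1]
    exact Finset.sum_congr rfl fun χ _ => by rw [hreal χ, pow_two]
  have e5 : ∑ χ : IrrCharacter G, χ.1 x = -2 * ∑ χ : IrrCharacter G, χ.1 x * k χ := by
    have : ∑ χ : IrrCharacter G, χ.1 x + 2 * ∑ χ : IrrCharacter G, χ.1 x * k χ = 0 := by
      rw [← e2, Finset.mul_sum, ← Finset.sum_add_distrib]
      refine Finset.sum_congr rfl fun χ _ => ?_
      rw [hk χ]
      simp only [map_add, map_mul, map_natCast, map_one, map_ofNat]
      ring
    linear_combination this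
  have hS : IsIntegral ℤ (∑ χ : IrrCharacter G, χ.1 x * k χ) :=
    IsIntegral.sum _ fun χ _ => (hint χ).mul (_root_.isIntegral_natCast _)
  have e6 : IsIntegral ℤ (((Nat.card (Subgroup.centralizer ({x} : Set G)) : ℕ) : ℂ) / ((2 : ℕ) : ℂ)) := by
    have : ((Nat.card (Subgroup.centralizer ({x} : Set G)) : ℕ) : ℂ) / ((2 : ℕ) : ℂ) =
        (∑ χ : IrrCharacter G, χ.1 x * k χ) ^ 2 + (∑ χ : IrrCharacter G, χ.1 x * k χ) ^ 2 - ω := by
      rw [← e4]
      rw [e5] at e3
      push_cast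
      linear_combination (-1 / 2 : ℂ) * e3
    rw [this]
    exact ((hS.pow 2).add (hS.pow 2)).sub hω
  exact (Nat.not_even_iff_odd.mpr hc) (even_iff_two_dvd.mpr (nat_dvd_of_isIntegral_div two_ne_zero e6))

end Cfsg.Agent.S4746
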