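import Cfsg.Statements.S4754
import Cfsg.Agent.H3.Deg

set_option autoImplicit false
open Cfsg

namespace Cfsg.Agent.S4754
open H3
export H3 (inner_add_left inner_add_right inner_sub_left inner_sub_right inner_neg_left inner_neg_right
  inner_zero_left inner_zero_right inner_smul_left inner_smul_right inner_conj_symm inner_self_eq_zero
  inner_self_im)

/-- For elements x, y of a finite group G, the conjugacy class of x y equals the set of all products of a conjugate of x with a conjugate of y if and only if χ(1) χ(a x a⁻¹ b y b⁻¹) = χ(x) χ(y) for all a, b ∈ G and every irreducible character χ. -/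
theorem result {G : Type*} [Group G] [Finite G] (x y : G) : (∀ z : G, IsConj (x * y) z ↔ ∃ a b : G, z = a * x * a⁻¹ * (b * y * b⁻¹)) ↔ ∀ (a b : G) (χ : Cfsg.IrrCharacter G), (χ : G → ℂ) 1 * (χ : G → ℂ) (a * x * a⁻¹ * (b * y * b⁻¹)) = (χ : G → ℂ) x * (χ : G → ℂ) y := by
  set_option maxSynthPendingDepth 3 in
  haveI := Fintype.ofFinite G
  refine ⟨fun h a b χ => ?_, fun h z => ⟨fun c => ?_, ?_⟩⟩
  · have k : ∀ a b, χ.1 (a * x * a⁻¹ * (b * y * b⁻¹)) = χ.1 (x * y) := fun a b =>
      (χ.2.isClassFunction.of_isConj ((h _).2 ⟨a, b, rfl⟩)).symm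
    have := χ.2.sum_conj_mul x y
    rw [Finset.sum_congr rfl fun a _ => (by simpa using k a 1 : χ.1 (a * x * a⁻¹ * y) = χ.1 (x * y)), Finset.sum_const,
      Finset.card_univ, ← Nat.card_eq_fintype_card, nsmul_eq_mul, mul_left_comm, mul_assoc] at this
    rw [k, mul_left_cancel₀ (card_ne_zero G) this]
  · replace c := isConj_iff.1 c
    obtain ⟨c, rfl⟩ := c
    exact ⟨c, c, by simp [mul_assoc]⟩
  · rintro ⟨a, b, rfl⟩
    exact isConj_of_forall_irr fun χ c => mul_left_cancel₀ c.deg_ne_zero (by simpa using (h 1 1 ⟨χ, c⟩).trans (h a b ⟨χ, c⟩).symm)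

end Cfsg.Agent.S4754
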