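import Cfsg.Statements.S4755
import Cfsg.Agent.H3.Deg

set_option autoImplicit false
open Cfsg

namespace Cfsg.Agent.S4755
open H3
export H3 (inner_add_left inner_add_right inner_sub_left inner_sub_right inner_neg_left inner_neg_right
  inner_zero_left inner_zero_right inner_smul_left inner_smul_right inner_conj_symm inner_self_eq_zero
  inner_self_im)

/-- Let x, y be non-identity elements of the finite group G such that χ(x' y') = χ(x') χ(y') for all conjugates x' of x, y' of y and every irreducible character χ. Then the conjugacy class of x y is the set of all products of a conjugate of x with a conjugate of y; every irreducible character of degree greater than 1 vanishes at x y; and the conjugacy class of x y is the coset of the commutator subgroup containing x y. -/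
theorem result {G : Type*} [Group G] [Finite G] (x y : G) (hx : x ≠ 1) (hy : y ≠ 1) (h : ∀ (a b : G) (χ : Cfsg.IrrCharacter G), (χ : G → ℂ) (a * x * a⁻¹ * (b * y * b⁻¹)) = (χ : G → ℂ) (a * x * a⁻¹) * (χ : G → ℂ) (b * y * b⁻¹)) : (∀ z : G, IsConj (x * y) z ↔ ∃ a b : G, z = a * x * a⁻¹ * (b * y * b⁻¹)) ∧ (∀ χ : Cfsg.IrrCharacter G, (χ : G → ℂ) 1 ≠ 1 → (χ : G → ℂ) (x * y) = 0) ∧ (∀ z : G, IsConj (x * y) z ↔ (x * y)⁻¹ * z ∈ commutator G) := by
  set_option maxSynthPendingDepth 3 in
  classical
  haveI := Fintype.ofFinite G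
  have h' : ∀ a b (χ : IrrCharacter G), χ.1 (a * x * a⁻¹ * (b * y * b⁻¹)) = χ.1 x * χ.1 y := fun a b χ => by
    rw [h, χ.2.isClassFunction, χ.2.isClassFunction]
  have k : ∀ χ : IrrCharacter G, χ.1 1 ≠ 1 → χ.1 (x * y) = 0 := fun χ c => by
    have := χ.2.sum_conj_mul x y
    rw [Finset.sum_congr rfl fun a _ => (by simpa using h' a 1 χ : χ.1 (a * x * a⁻¹ * y) = χ.1 x * χ.1 y), Finset.sum_const,
      Finset.card_univ, ← Nat.card_eq_fintype_card, nsmul_eq_mul, mul_left_comm, mul_assoc] at this
    have := mul_left_cancel₀ (card_ne_zero G) this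
    rw [show χ.1 (x * y) = χ.1 x * χ.1 y by simpa using h' 1 1 χ]
    exact by_contra fun d => c (mul_right_cancel₀ d (by simpa using this))
  refine ⟨fun z => ⟨fun c => ?_, ?_⟩, k, fun z => ⟨fun c => ?_, fun c => by_contra fun d => ?_⟩⟩
  · replace c := isConj_iff.1 c
    obtain ⟨c, rfl⟩ := c
    exact ⟨c, c, by simp [mul_assoc]⟩
  · rintro ⟨a, b, rfl⟩
    exact isConj_of_forall_irr fun χ c => by simpa using (h' 1 1 ⟨χ, c⟩).trans (h' a b ⟨χ, c⟩).symm
  · replace c := isConj_iff.1 c
    obtain ⟨c, rfl⟩ := c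
    simpa [commutatorElement_def, mul_assoc, commutator_def] using Subgroup.commutator_mem_commutator (Subgroup.mem_top (x * y)⁻¹)
      (Subgroup.mem_top c)
  · have := congrArg Complex.re (column_orthogonality (x * y) z)
    rw [if_neg d, Complex.re_sum] at this
    refine (Finset.sum_pos' (fun χ _ => ?_) ⟨⟨_, isIrrCharacter_one⟩, Finset.mem_univ _, by simp⟩).ne' this
    by_cases e : χ.1 1 = 1
    · rw [← mul_inv_cancel_left (x * y) z, χ.2.isCharacter.mul_of_eq_deg' (χ.2.isCharacter.commutator_of_deg_one e c),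
        Complex.mul_conj]
      exact Complex.normSq_nonneg _
    · simp [k χ e]

end Cfsg.Agent.S4755
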