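import Cfsg.Statements.S4757
import Cfsg.Agent.H3.Cnt

set_option autoImplicit false
open Cfsg

namespace Cfsg.Agent.S4757
open H3
export H3 (inner_add_left inner_add_right inner_sub_left inner_sub_right inner_neg_left inner_neg_right
  inner_zero_left inner_zero_right inner_smul_left inner_smul_right inner_conj_symm inner_self_eq_zero
  inner_self_im)

/-- Let u ≠ 1 be an element of the finite group G and c a complex number such that every non-principal irreducible character χ satisfies χ(1) − χ(u) = c or χ(u) = 0. Then the following are equivalent: (a) u has order 2, G is generated by u together with O(G), the largest normal subgroup of G of odd order, and the centralizer of u is {1, u}; (b) G is not perfect; (c) c = 2. -/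
theorem result {G : Type*} [Group G] [Finite G] (u : G) (hu : u ≠ 1) (c : ℂ) (hyp : ∀ χ : Cfsg.IrrCharacter G, (χ : G → ℂ) ≠ (fun _ => (1 : ℂ)) → ((χ : G → ℂ) 1 - (χ : G → ℂ) u = c ∨ (χ : G → ℂ) u = 0)) : ((orderOf u = 2 ∧ Subgroup.zpowers u ⊔ Cfsg.oddCore G = ⊤ ∧ Subgroup.centralizer ({u} : Set G) = Subgroup.zpowers u) ↔ commutator G ≠ ⊤) ∧ (commutator G ≠ ⊤ ↔ c = 2) := by
  set_option maxSynthPendingDepth 3 in
  classical
  haveI := Fintype.ofFinite G
  have s : ¬ ∀ χ : IrrCharacter G, 0 ≤ (χ.1 1 * χ.1 u).re := fun h => by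
    have := congrArg Complex.re (sum_deg_mul_eq_zero hu)
    rw [Complex.re_sum] at this
    exact (Finset.sum_pos' (fun χ _ => h χ) ⟨⟨_, isIrrCharacter_one⟩, Finset.mem_univ _, by simp⟩).ne' this
  have c0 : c ≠ 0 := fun e => s fun χ => by
    by_cases a : χ.1 = fun _ => 1
    · simp [a]
    rcases hyp χ a with b | b
    · rw [← sub_eq_zero.1 (b.trans e), χ.2.deg]; simp [mul_self_nonneg]
    · simp [b]
  have l : ∀ l : G →* ℂˣ, l ≠ 1 → (l u : ℂ) = -1 ∧ c = 2 := fun l a => by
    have k : ∀ l : G →* ℂˣ, l ≠ 1 → 1 - (l u : ℂ) = c := fun l a => by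
      simpa using hyp ⟨_, isIrrCharacter_lin l⟩ fun e => a (lin_injective (by simpa using e))
    have b := k l a
    have d := k l⁻¹ (inv_ne_one.2 a)
    have : (l u : ℂ) = -1 := (mul_self_eq_one_iff.1 (by
      simp only [MonoidHom.inv_apply, Units.val_inv_eq_inv_val] at d
      exact (mul_eq_one_iff_eq_inv₀ (l u).ne_zero).2 (by linear_combination d - b))).resolve_left
      fun e => c0 (by simp [← b, e])
    exact ⟨this, by rw [← b, this]; norm_num⟩
  have n : commutator G ≠ ⊤ → ∃ l : G →* ℂˣ, l ≠ 1 := fun h =>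
    have ⟨g, a⟩ := SetLike.exists_of_lt h.lt_top
    have ⟨l, b⟩ := exists_lin_ne_one a.2
    ⟨l, fun e => b (by simp [e])⟩
  refine ⟨⟨fun ⟨a, b, _⟩ e => ?_, fun h => ?_⟩, fun h => (l _ (n h).choose_spec).2, fun h e => s fun χ => ?_⟩
  · have : commutator G ≤ oddCore G := Subgroup.Normal.quotient_commutative_iff_commutator_le.1 ⟨⟨fun x y => by
      have k : ∀ x : G ⧸ oddCore G, x ∈ Subgroup.zpowers (u : G ⧸ oddCore G) := fun x => by
        obtain ⟨x, rfl⟩ := QuotientGroup.mk_surjective x
        obtain ⟨y, c, z, d, rfl⟩ := Subgroup.mem_sup_of_normal_right.1 (b.ge (Subgroup.mem_top x))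
        obtain ⟨i, rfl⟩ := c
        exact ⟨i, by simp [(QuotientGroup.eq_one_iff z).2 d]⟩
      obtain ⟨i, rfl⟩ := k x
      obtain ⟨j, rfl⟩ := k y
      exact zpow_mul_comm _ _ _⟩⟩
    have := (H1.coprime_pPrimeCore (p := 2) (G := G)).coprime_dvd_left (Subgroup.orderOf_dvd_natCard _ (this (e.ge trivial) : u ∈ _))
    simp [a] at this
  · obtain ⟨μ, a⟩ := n h
    have z : ∀ χ : IrrCharacter G, χ.1 1 ≠ 1 → χ.1 u = 0 := fun χ b => by_contra fun d => by
      have f := (hyp χ fun e => b (by simp [e])).resolve_right d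
      have := (hyp ⟨_, χ.2.mul_lin μ⟩ fun e => b (by simpa using congrFun e 1)).resolve_right (by simpa using d)
      simp only [map_one, Units.val_one, mul_one, (l μ a).1] at this
      exact d (by linear_combination (this - f) / 2)
    have i : (commutator G).index = 2 := by
      rw [← card_lin, Nat.card_eq_two_iff' 1]
      exact ⟨μ, a, fun ν b => by_contra fun d => by
        have := (l (ν * μ⁻¹) (mul_inv_eq_one.not.2 d)).1
        simp [(l μ a).1, (l ν b).1] at this
        norm_num at this⟩
    have k : Nat.card (Subgroup.centralizer {u}) = 2 := by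
      apply Nat.cast_injective (R := ℝ)
      rw [← i, ← sum_normSq_irr, ← card_irr_deg_one, Nat.card_eq_fintype_card, Fintype.card_subtype, Finset.card_filter,
        Nat.cast_sum]
      refine Finset.sum_congr rfl fun χ _ => ?_
      split_ifs with b
      · obtain ⟨ν, e⟩ := χ.2.isCharacter.exists_lin b
        simp [e, norm_lin]
      · rw [z χ b]; simp
    have m : Subgroup.zpowers u ≤ Subgroup.centralizer {u} := by
      simp [Subgroup.mem_centralizer_singleton_iff]
    have o : orderOf u = 2 := ((Nat.dvd_prime Nat.prime_two).1 (k ▸ Subgroup.orderOf_dvd_natCard _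
      (m (Subgroup.mem_zpowers u)))).resolve_left (mt orderOf_eq_one_iff.1 hu)
    have e := Subgroup.eq_of_le_of_card_ge m (by rw [k, Nat.card_zpowers, o])
    have uG : u ∉ commutator G := fun b => by
      have := (l μ a).1
      rw [lin_commutator μ b] at this
      norm_num at this
    refine ⟨o, ?_, e.symm⟩
    have : commutator G ≤ oddCore G := H1.le_pPrimeCore ((Nat.Prime.coprime_iff_not_dvd Nat.prime_two).2
      (not_dvd_card_of_fpf Nat.prime_two o ((commutator G).normalizer_eq_top.ge trivial) fun x b d => by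
        have := e.ge (Subgroup.mem_centralizer_singleton_iff.2 d)
        rw [mem_zpowers_iff_mem_range_orderOf, o] at this
        obtain ⟨j, f, rfl⟩ := Finset.mem_image.1 this
        have := Finset.mem_range.1 f
        interval_cases j
        · simp
        · exact (uG (by simpa using b)).elim)).symm
    · refine eq_top_iff.2 fun x _ => ?_
      by_cases b : x ∈ commutator G
      · exact Subgroup.mem_sup_right (this b)
      · rw [← mul_inv_cancel_left u x]
        exact Subgroup.mul_mem_sup (Subgroup.mem_zpowers u) (this ((Subgroup.mul_mem_iff_of_index_two i).2 (by simp [uG, b])))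
  · by_cases a : χ.1 = fun _ => 1
    · simp [a]
    rcases hyp χ a with b | b
    · rw [show χ.1 u = χ.1 1 - 2 by linear_combination -b - h, χ.2.deg]
      have : 2 ≤ dg χ.1 := Nat.succ_le_of_lt (χ.2.dg_pos.nat_succ_le.lt_of_ne fun d => a (χ.2.eq_one_of_const fun g =>
        χ.2.isCharacter.commutator_of_deg_one (χ.2.isCharacter.dg_eq_one.1 d.symm) (e.ge trivial)))
      have : (2 : ℝ) ≤ dg χ.1 := by exact_mod_cast this
      simp; nlinarith
    · simp [b]

end Cfsg.Agent.S4757
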