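import Cfsg.Statements.S4762
import Cfsg.Agent.H3.Cls

set_option autoImplicit false
open Cfsg

namespace Cfsg.Agent.S4762
open H3
export H3 (inner_add_left inner_add_right inner_sub_left inner_sub_right inner_neg_left inner_neg_right
  inner_zero_left inner_zero_right inner_smul_left inner_smul_right inner_conj_symm inner_self_eq_zero
  inner_self_im)

open H7

/-- Let p be a prime and G a finite nilpotent group. Then G has exactly one irreducible complex character of degree divisible by p if and only if p = 2 and G is an extraspecial 2-group. -/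
theorem result {G : Type*} [Group G] [Finite G] [Group.IsNilpotent G] (p : ℕ) [Fact p.Prime] : Nat.card {χ : Cfsg.IrrCharacter G // p ∣ Cfsg.charDegree (χ : G → ℂ)} = 1 ↔ (p = 2 ∧ Cfsg.IsExtraspecial 2 G) := by
  set_option maxSynthPendingDepth 3 in
  classical
  haveI := Fintype.ofFinite G
  have hp : p.Prime := Fact.out
  have one : ∀ {χ : G → ℂ}, Irr G χ → (∀ ψ, Irr G ψ → (¬ ψ 1 = 1 ↔ ψ = χ)) →
      (commutator G).index + dg χ ^ 2 = Nat.card G := fun {χ} a h => by
    rw [← sum_nonlin]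
    exact congrArg _ (Finset.sum_eq_single_of_mem (f := fun ψ : IrrCharacter G => dg ψ.1 ^ 2) ⟨χ, a⟩
      (Finset.mem_filter_univ _ |>.2 ((h χ a).2 rfl))
      fun ψ b c => absurd (Subtype.ext ((h _ ψ.2).1 (Finset.mem_filter.1 b).2)) c).symm
  constructor
  · intro h
    obtain ⟨⟨⟨χ, a⟩, d⟩⟩ := (Nat.card_eq_one_iff_unique.1 h).2
    have nil : Group.IsNilpotent (⊤ : Subgroup G) := inferInstance
    have s := nilp_sylow_Op (p := p) nil
    have t : Op p (⊤ : Subgroup G) = ⊤ := of_not_not fun t => by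
      haveI := H1B.normal_of (le_nrm_Opi {p} (⊤ : Subgroup G))
      have c := syl_coprime s
      rw [Subgroup.relIndex_top_right] at c
      obtain ⟨θ, b, e⟩ := exists_irr_under (Op p ⊤) a
      obtain ⟨m, m1, m2⟩ := dg_eq_mul' b a e
      have i : inertia θ = ⊤ := eq_top_iff.2 ((nilp_Opi_sup nil {p}).ge.trans (sup_le (le_inertia b.isClassFunction)
        fun x hx => mem_inertia'.2 fun n => congrArg θ (Subtype.ext (conj_eq_of_mem_cen (Op'_le_cen p ⊤ hx) n.2))))
      obtain ⟨η, k, -⟩ := exists_canExt_of_coprime b i c.symm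
      have d' : p ∣ dg η := dg_congr (congrFun k.res 1) ▸ (hp.dvd_mul.1 (m2 ▸ d)).resolve_left fun f =>
        s.not_dvd (by rw [Subgroup.relIndex_top_right]; exact f.trans m1)
      obtain ⟨g, hg⟩ := not_forall.1 fun k : ∀ g, g ∈ Op p ⊤ ⊔ commutator G => t (eq_top_iff.2
        (nilp_le_of_le_sup_comm nil le_rfl (H1B.top_nrm _) fun g _ => k g))
      obtain ⟨ω, w1, w2⟩ := exists_triv_ne_one le_sup_right hg
      have := gallagher_inj k.irr.isCharacter (k.res ▸ b) (lf_ch ω) (lf_ch 1)
        (fun n hn => by simp [lf_apply, mem_triv.1 w1 n (le_sup_left (b := commutator G) hn)]) (fun _ _ => rfl)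
        (ne_of_unique h (k.irr.lf_mul ω) (k.irr.lf_mul 1) (d'.trans (dg_congr (by simp [lf_apply])).dvd)
          (d'.trans (dg_congr (by simp [lf_apply])).dvd))
      exact w2 (by rw [lf_injective this]; rfl)
    have hG : IsPGroup p G := H1B.pg_top_iff.1 (t ▸ isPGroup_Op p ⊤)
    have n := (dvd_dg_iff hG a).1 d
    have e := one a fun ψ b => ⟨fun c => ne_of_unique h b a ((dvd_dg_iff hG b).2 c) d, fun c => c ▸ n⟩
    have ne : commutator G ≠ ⊥ := fun f => n (a.isCharacter.dg_eq_one.1 (Nat.dvd_one.1 (Subgroup.index_top (G := G) ▸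
      a.dg_dvd_index ⊤ (le_cen_iff.1 (comm_eq_bot.1 f)))))
    obtain ⟨m, hm⟩ := dvd_card_of_isPGroup (hG.to_subgroup _) ne
    have e' : dg χ ^ 2 = (commutator G).index * (ord (commutator G) - 1) := by
      rw [Nat.mul_sub_one, Subgroup.index_mul_card, ← e, Nat.add_sub_cancel_left]
    obtain ⟨k, hk⟩ := hG.exists_card_eq
    obtain ⟨j, -, hj⟩ := (Nat.dvd_prime_pow hp).1 ((e' ▸ Dvd.intro_left _ rfl : _ ∣ dg χ ^ 2).trans
      (pow_dvd_pow_of_dvd (hk ▸ a.dg_dvd) 2) |>.trans (pow_mul p k 2).symm.dvd)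
    have o : ord (commutator G) = 2 := by
      have := card_pos' (commutator G)
      rcases j with _ | j
      · rw [pow_zero] at hj; omega
      · exact absurd ((Nat.dvd_sub_iff_right (by omega) ⟨m, hm⟩).1 (hj ▸ dvd_pow_self p j.succ_ne_zero)) hp.not_dvd_one
    obtain rfl : p = 2 := (Nat.prime_dvd_prime_iff_eq hp Nat.prime_two).1 (o ▸ ⟨m, hm⟩)
    have c := der_le_center hG o.le
    have z : commutator G = Subgroup.center G := eq_of_le_of_card_le c (Nat.le_of_mul_le_mul_left (by
      rw [Subgroup.index_mul_card, ← (der_prime (o ▸ hp) c a n).2.2.2, e', ← (commutator G).index_mul_card, o]; simp)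
      (Nat.pos_of_ne_zero (Subgroup.center G).index_ne_zero_of_finite))
    refine ⟨rfl, ⟨hG, ?_, z⟩, z ▸ o⟩
    rw [← H1B.Phi_top]
    refine le_antisymm (Phi_le_of_elem hp c fun x _ => Subgroup.mem_center_iff.2 fun y => ?_) (z ▸ comm_le_Phi nil)
    have m := Subgroup.commutator_mem_commutator (Subgroup.mem_top x) (Subgroup.mem_top y)
    rw [eq_comm, ← commutatorElement_eq_one_iff_mul_comm, comm_pow_left (Subgroup.mem_center_iff.1 (c m) x).symm, ← o]
    exact pow_card_eq_one'' m
  · rintro ⟨rfl, h⟩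
    obtain ⟨χ, a, n⟩ := exists_nonlin (G := G) (h.1.2.2 ▸ ne_bot_of_card_p h.2)
    have e := sum_nonlin (G := G)
    rw [Finset.sum_congr rfl fun ψ b => (es_faithful h ψ.2 (Finset.mem_filter.1 b).2).2.2, Finset.sum_const, h.1.2.2,
      ← (Subgroup.center G).index_mul_card, h.2, smul_eq_mul] at e
    rw [Nat.card_congr (Equiv.subtypeEquivRight fun ψ : IrrCharacter G => dvd_dg_iff h.1.1 ψ.2), Nat.card_eq_fintype_card,
      Fintype.card_subtype]
    exact Nat.eq_of_mul_eq_mul_right (Nat.pos_of_ne_zero (Subgroup.center G).index_ne_zero_of_finite)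
      (by simp only [ne_eq] at e ⊢; omega)

end Cfsg.Agent.S4762
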