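import Cfsg.Statements.S4763
import Cfsg.Agent.H3.Cls

set_option autoImplicit false
open Cfsg

namespace Cfsg.Agent.S4763
open H3
export H3 (inner_add_left inner_add_right inner_sub_left inner_sub_right inner_neg_left inner_neg_right
  inner_zero_left inner_zero_right inner_smul_left inner_smul_right inner_conj_symm inner_self_eq_zero
  inner_self_im)

open H7

/-- Let p be a prime and G a finite group that is not nilpotent and has a normal p-complement (a normal subgroup of order prime to p and index a power of p). If G has exactly one irreducible complex character of degree divisible by p, then G has exactly one conjugacy class whose size is divisible by p. -/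
theorem result {G : Type*} [Group G] [Finite G] (p : ℕ) [Fact p.Prime] (hnil : ¬ Group.IsNilpotent G) (N : Subgroup G) [N.Normal] (hN : (Nat.card N).Coprime p) (hidx : ∃ k : ℕ, N.index = p ^ k) (hone : Nat.card {χ : Cfsg.IrrCharacter G // p ∣ Cfsg.charDegree (χ : G → ℂ)} = 1) : Nat.card {C : ConjClasses G // p ∣ Nat.card C.carrier} = 1 := by
  set_option maxSynthPendingDepth 3 in
  haveI := Fintype.ofFinite G
  have hp : p.Prime := Fact.out
  obtain ⟨k, hk⟩ := hidx
  obtain ⟨P, hP⟩ := H1B.exists_syl p (⊤ : Subgroup G)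
  have s : N ⊔ P = ⊤ := hP.sup_eq_of_relIndex le_top (by rwa [Subgroup.relIndex_top_right])
  have cop := cop_of_pgroup hP.isPGroup hN (le_nrm_of_normal P N)
  have n1 : N ≠ ⊥ := by
    rintro rfl
    exact hnil (IsPGroup.of_card (Subgroup.index_bot.symm.trans hk)).isNilpotent
  have ab : commutator G ≤ N := of_not_not fun ab => by
    have hQ : IsPGroup p (G ⧸ N) := IsPGroup.of_card hk
    obtain ⟨β, b, b1⟩ := exists_nonlin (G := G ⧸ N) fun e => ab (by
      rwa [commutator_def, ← Subgroup.map_top_of_surjective _ (QuotientGroup.mk'_surjective N),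
        ← Subgroup.map_commutator, Subgroup.map_eq_bot_iff, QuotientGroup.ker_mk'] at e)
    have d : p ∣ dg fun g : G => β g := (dvd_dg_iff hQ b).2 b1
    have kr : ∀ n ∈ N, β n = β (1 : G) := fun n hn => by rw [(QuotientGroup.eq_one_iff n).2 hn]; rfl
    obtain ⟨x, x1, x2⟩ := exists_ne_one n1
    obtain ⟨θ, a, -, a1⟩ := exists_irr_ker_not_mem (⊥ : Subgroup N) (g := ⟨x, x1⟩) fun e => x2 (congrArg Subtype.val e)
    have u : ∀ ψ, Irr G ψ → ⟪ψ↾N, θ⟫ ≠ 0 → ¬ p ∣ dg ψ := fun ψ c o f => a1 (by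
      rw [← ne_of_unique hone b.inflate c d f] at o
      exact (b.inflate.isCharacter.res N).eq_deg_of_inner_ne_zero a o (kr x x1))
    rcases eq_or_ne (inertia θ) ⊤ with i | i
    · obtain ⟨η, e, -⟩ := exists_canExt_of_coprime a i (hk ▸ hN.symm.pow_left k)
      refine u _ (gallagher_irr' e.irr.isCharacter (e.res ▸ a) b.inflate kr) ?_ ?_
      · rw [show (((fun g : G => β g) * η)↾N) = β 1 • θ from funext fun n => by
          rw [← e.res]; exact congrArg (· * η n) (kr n n.2), inner_smul_left, a.inner_self, mul_one]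
        exact b.deg_ne_zero
      · rw [dg_eq (n := dg β * dg η) (by rw [Nat.cast_mul, ← b.deg, ← e.irr.deg]; rfl)]
        exact Dvd.dvd.mul_right d _
    · obtain ⟨ψ, c, o⟩ := exists_irr_over N a
      obtain ⟨e, -, -, f⟩ := dg_eq_mul a c o
      obtain ⟨j, -, hj⟩ := (Nat.dvd_prime_pow hp).1 (hk ▸ Subgroup.index_dvd_of_le (le_inertia a.isClassFunction))
      refine u ψ c o (f ▸ ((hj ▸ dvd_pow_self p ?_).mul_left _).mul_right _)
      rintro rfl
      exact i (Subgroup.index_eq_one.1 hj)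
  have c : P ≤ cen P := comm_eq_bot.1 (eq_bot_iff.2 (cop.inf_eq_bot ▸ le_inf (comm_le_of_le le_rfl le_rfl)
    ((Subgroup.commutator_mono le_top le_top).trans ab)))
  have d : p ∣ ord P := dvd_card_of_isPGroup hP.isPGroup (syl_ne_bot hP (by
    obtain ⟨⟨χ, d⟩⟩ := (Nat.card_eq_one_iff_unique.1 hone).2
    exact Subgroup.card_top (G := G) ▸ d.trans χ.2.dg_dvd))
  have e1 := card_coprime_deg s cop (solv_of_isPGroup hP.isPGroup)
  rw [card_irr, card_lin_of_comm' (isComm_iff.2 c).is_comm.comm, Nat.card_congr (Equiv.subtypeEquivRight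
    (q := fun χ : IrrCharacter G => ¬ p ∣ dg χ.1) fun χ => ⟨fun h f => hp.one_lt.ne' (Nat.eq_one_of_dvd_coprimes h f d),
      fun h => coprime_of_isPGroup hP.isPGroup (coprime_iff_not_dvd.2 h)⟩), ← Nat.card_prod] at e1
  have e2 := card_add_compl fun χ : IrrCharacter G => p ∣ dg χ.1
  have e3 := card_add_compl fun C : ConjClasses G => p ∣ Nat.card C.carrier
  obtain ⟨e, h1, h2⟩ := exists_modEq_one_dvd cop.cop.symm
  obtain ⟨f, h3, h4⟩ := exists_modEq_one_dvd cop.cop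
  have pw : ∀ s ∈ N ⊓ cen P, ∀ g ∈ P, (s * g) ^ e = s ∧ (s * g) ^ f = g := fun s a g b =>
    ⟨mul_pow_eq_left (mem_cen.1 a.2 g b).symm (orderOf_dvd_card' a.1) (orderOf_dvd_card' b) h1 h2,
      mul_pow_eq_right (mem_cen.1 a.2 g b).symm (orderOf_dvd_card' a.1) (orderOf_dvd_card' b) h3 h4⟩
  rw [hone, e1, card_irr, ← e3, card_eq_of_rel (Y := {C : ConjClasses G // ¬ p ∣ Nat.card C.carrier})
    (fun D C => ∃ g, D.1 = ConjClasses.mk g ∧ C.1 = ConjClasses.mk (g.1 * D.2.1)) ?_ ?_ ?_ ?_] at e2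
  · omega
  · rintro ⟨D, u⟩
    obtain ⟨g, rfl⟩ := ConjClasses.mk_surjective D
    refine ⟨⟨ConjClasses.mk (g.1 * u.1), fun h => hP.not_dvd ?_⟩, g, rfl, rfl⟩
    rw [card_carrier_mk] at h
    rw [Subgroup.relIndex_top_right]
    exact h.trans (Subgroup.index_dvd_of_le (le_cen1_iff.2 (mul_mem g.2.2 (c u.2))))
  · rintro ⟨D, u⟩ _ _ ⟨g, a, a'⟩ ⟨h, b, b'⟩
    obtain ⟨y, y1, k⟩ := mk_eq_mk_sub.1 (a.symm.trans b)
    exact Subtype.ext (a'.trans ((ConjClasses.mk_eq_mk_iff_isConj.2 (isConj_iff.2 ⟨y, by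
      rw [← k, ← mul_assoc, mul_assoc _ u.1, mem_cen.1 (inv_mem y1.2) u u.2, ← mul_assoc]⟩)).trans b'.symm))
  · rintro ⟨_, u⟩ ⟨_, v⟩ _ ⟨g, rfl, k'⟩ ⟨h, rfl, k⟩
    obtain ⟨x, k⟩ := isConj_iff.1 (ConjClasses.mk_eq_mk_iff_isConj.1 (k'.symm.trans k))
    obtain ⟨y, y1, n, n1, rfl⟩ := (mem_sup_nrm' (le_nrm_of_normal P N)).1 (s.ge (Subgroup.mem_top x))
    have k1 := congrArg (· ^ e) k
    have k2 := congrArg (· ^ f) k
    simp only [conj_pow, pw g g.2 u u.2, pw h h.2 v v.2] at k1 k2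
    refine Prod.ext (mk_eq_mk_sub.2 (conj_in_cen cop g.2.2 h.2.2 y1 ?_)) (Subtype.ext (mul_inv_eq_one.1
      (cop.inf_eq_bot.le ⟨P.mul_mem u.2 (P.inv_mem v.2), ab ?_⟩)))
    · rw [← k1, mul_assoc y n, mem_cen.1 g.2.2 n n1]; group
    · have := Subgroup.commutator_mem_commutator (Subgroup.mem_top u.1) (Subgroup.mem_top (y * n))
      rw [← k2, commutator_def]; simpa [commutatorElement_def, mul_assoc] using this
  · rintro ⟨C, h⟩
    obtain ⟨g, rfl⟩ := ConjClasses.mk_surjective C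
    rw [card_carrier_mk] at h
    obtain ⟨R, r1, r2⟩ := exists_syl_le h
    obtain ⟨t, -, rfl⟩ := r1.exists_cj_eq hP
    have m : t * g * t⁻¹ ∈ cen (cj t R) := le_cen1_iff.1 (cj_cen1 t g ▸ cj_mono t r2)
    obtain ⟨y, y1, n, n1, e⟩ := (mem_sup_nrm' (le_nrm_of_normal _ N)).1 (s.ge (Subgroup.mem_top (t * g * t⁻¹)))
    exact ⟨(ConjClasses.mk ⟨y, y1, (mul_mem_cancel_right (c n1)).1 (e ▸ m)⟩, ⟨n, n1⟩), _, rfl,
      ConjClasses.mk_eq_mk_iff_isConj.2 (isConj_iff.2 ⟨t, e.symm⟩)⟩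

end Cfsg.Agent.S4763
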