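import Cfsg.Statements.S4765
import Cfsg.Agent.H3.GL2f

set_option autoImplicit false
open Cfsg

namespace Cfsg.Agent.S4765
open H3
export H3 (inner_add_left inner_add_right inner_sub_left inner_sub_right inner_neg_left inner_neg_right
  inner_zero_left inner_zero_right inner_smul_left inner_smul_right inner_conj_symm inner_self_eq_zero
  inner_self_im)

open G2

/-- Let F be a finite field of characteristic p with at least 4 elements. Then PSL(2,F) has exactly one irreducible complex character of degree divisible by p, and its degree is the order of F. -/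
theorem result (p : ℕ) [Fact p.Prime] (F : Type*) [Field F] [Fintype F] [CharP F p] (hF : 4 ≤ Fintype.card F) : Nat.card {χ : Cfsg.IrrCharacter (Matrix.ProjectiveSpecialLinearGroup (Fin 2) F) // p ∣ Cfsg.charDegree (χ : Matrix.ProjectiveSpecialLinearGroup (Fin 2) F → ℂ)} = 1 ∧ ∀ χ : Cfsg.IrrCharacter (Matrix.ProjectiveSpecialLinearGroup (Fin 2) F), p ∣ Cfsg.charDegree (χ : Matrix.ProjectiveSpecialLinearGroup (Fin 2) F → ℂ) → Cfsg.charDegree (χ : Matrix.ProjectiveSpecialLinearGroup (Fin 2) F → ℂ) = Fintype.card F := by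
  set_option maxSynthPendingDepth 3 in
  classical
  have k : ∀ χ : Cfsg.IrrCharacter (Matrix.ProjectiveSpecialLinearGroup (Fin 2) F), p ∣ dg χ.1 →
      (fun g : Matrix.SpecialLinearGroup (Fin 2) F => χ.1 g) = rs (st 1) := fun χ h =>
    eq_st_of_dvd χ.2.inflate h
  obtain ⟨η, a, b⟩ := descend (F := F) rs_st_irr (st_neg.trans (rs_one.trans (st_one _)).symm)
  refine ⟨Nat.card_eq_one_iff_exists.2 ⟨⟨⟨η, a⟩, ?_⟩, fun χ => Subtype.ext (Subtype.ext (funext fun g => ?_))⟩,
    fun χ h => (dg_congr (congrFun (k χ h) 1)).trans st_dg⟩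
  · rw [dg_congr (b 1).symm, st_dg, ← Nat.card_eq_fintype_card]; exact H4.char_dvd_card p
  · obtain ⟨g, rfl⟩ := QuotientGroup.mk_surjective g
    exact (congrFun (k χ.1 χ.2) g).trans (b g)

end Cfsg.Agent.S4765
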