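import Cfsg.Statements.S4774
import Cfsg.Agent.H3.GL2f

set_option autoImplicit false
open Cfsg

namespace Cfsg.Agent.S4774
open H3
export H3 (inner_add_left inner_add_right inner_sub_left inner_sub_right inner_neg_left inner_neg_right
  inner_zero_left inner_zero_right inner_smul_left inner_smul_right inner_conj_symm inner_self_eq_zero
  inner_self_im)

open G2

/-- Let F be a finite field of odd characteristic t with q > 5 elements and let S be isomorphic to PSL(2,F) or to SL(2,F). Then the vertices of the character degree graph of S are the primes dividing q(q²−1); the prime t is adjacent to no vertex; two distinct primes dividing q² − 1 are adjacent exactly when one of them is 2, or both divide q + 1, or both divide q − 1. -/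
theorem result (F : Type*) [Field F] [Fintype F] (t : ℕ) [Fact t.Prime] [CharP F t] (ht : t ≠ 2) (q : ℕ) (hq : Fintype.card F = q) (h5 : 5 < q) {S : Type*} [Group S] [Finite S] (hS : Nonempty (S ≃* Matrix.ProjectiveSpecialLinearGroup (Fin 2) F) ∨ Nonempty (S ≃* Matrix.SpecialLinearGroup (Fin 2) F)) : Cfsg.degreePrimes S = {r : ℕ | r.Prime ∧ r ∣ q * (q ^ 2 - 1)} ∧ ∀ r s : ℕ, (Cfsg.degreeGraph S).Adj r s ↔ (r ≠ s ∧ r.Prime ∧ s.Prime ∧ r ∣ q ^ 2 - 1 ∧ s ∣ q ^ 2 - 1 ∧ (r = 2 ∨ s = 2 ∨ (r ∣ q + 1 ∧ s ∣ q + 1) ∨ (r ∣ q - 1 ∧ s ∣ q - 1))) := by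
  set_option maxSynthPendingDepth 3 in
  classical
  subst hq
  have o : Odd (Fintype.card F) := by rw [← Nat.card_eq_fintype_card]; exact (H4.char_ne_two_iff_odd t).1 ht
  obtain ⟨a, b⟩ := graph (by omega) (by omega) hS
  refine ⟨a, fun r s => (b r s).trans (and_congr_right fun n => and_congr_right fun p => and_congr_right fun p' => ?_)⟩
  have d1 : 2 ∣ Fintype.card F + 1 := o.add_one.two_dvd
  have d2 : 2 ∣ Fintype.card F - 1 := (Nat.Odd.sub_odd o odd_one).two_dvd
  rw [show Fintype.card F ^ 2 - 1 = (Fintype.card F + 1) * (Fintype.card F - 1) from Nat.sq_sub_sq _ 1, p.dvd_mul,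
    p'.dvd_mul]
  refine ⟨by tauto, ?_⟩
  rintro ⟨x, y, rfl | rfl | z⟩
  · tauto
  · tauto
  · exact z

end Cfsg.Agent.S4774
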