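import Cfsg.Statements.S4784
import Cfsg.Agent.H3.Cnt

set_option autoImplicit false
open Cfsg

namespace Cfsg.Agent.S4784
open H3
export H3 (inner_add_left inner_add_right inner_sub_left inner_sub_right inner_neg_left inner_neg_right
  inner_zero_left inner_zero_right inner_smul_left inner_smul_right inner_conj_symm inner_self_eq_zero
  inner_self_im)

/-- Let H be a subgroup of the finite group G and consider the permutation character of G on the cosets of H (the function induced from the principal character of H). Then exactly one irreducible constituent of it is real-valued with Frobenius–Schur indicator +1 (namely the principal character) if and only if the normal core of H has odd index in G. -/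
theorem result {G : Type*} [Group G] [Fintype G] (H : Subgroup G) : Nat.card {χ : Cfsg.IrrCharacter G // Cfsg.classInner (Cfsg.indFun H (fun _ : H => (1 : ℂ))) (χ : G → ℂ) ≠ 0 ∧ (∀ g : G, (starRingEnd ℂ) ((χ : G → ℂ) g) = (χ : G → ℂ) g) ∧ (Nat.card G : ℂ)⁻¹ * ∑ g : G, (χ : G → ℂ) (g * g) = 1} = 1 ↔ Odd H.normalCore.index := by
  set_option maxSynthPendingDepth 3 in
  classical
  have o : ∀ χ, Irr G χ → ⟪indFun H fun _ => 1, χ⟫ ≠ 0 → ∀ g ∈ H.normalCore, χ g = χ 1 := fun χ a b g c =>
    isCharacter_one.ind.eq_deg_of_inner_ne_zero a b (by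
      rw [indFun_one_apply, indFun_one_apply]
      exact congrArg _ (congrArg _ (Nat.card_congr (Equiv.subtypeEquivRight fun x => by simp [c x, one_mem]))))
  have i : ⟪indFun H fun _ => 1, fun _ => 1⟫ = 1 := (inner_indFun_left H _ (isClassFunction_const 1)).trans inner_one_one
  rw [Nat.card_eq_one_iff_exists]
  refine ⟨fun ⟨χ, h⟩ => Nat.not_even_iff_odd.1 fun e => ?_, fun h => ⟨⟨⟨_, isIrrCharacter_one⟩, by simp [i]⟩, fun χ => ?_⟩⟩
  · obtain ⟨t, a⟩ := exists_prime_orderOf_dvd_card' (G := G ⧸ H.normalCore) 2 e.two_dvd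
    obtain ⟨t, rfl⟩ := QuotientGroup.mk_surjective t
    have b : t * t ∈ H.normalCore := (QuotientGroup.eq_one_iff _).1 (by
      rw [QuotientGroup.mk_mul, ← sq, ← a, pow_orderOf_eq_one])
    obtain ⟨x, c⟩ : ∃ x, x * t * x⁻¹ ∉ H := not_forall.1 fun c => by
      simp [(QuotientGroup.eq_one_iff (N := H.normalCore) t).2 c] at a
    have d : ∑ g, Nat.card {x // x * g * x⁻¹ ∈ H} < ∑ g, Nat.card {x // x * (g * g) * x⁻¹ ∈ H} :=
      Finset.sum_lt_sum (fun g _ => Nat.card_le_card_of_injective
        (fun y => ⟨y.1, by simpa [mul_assoc] using mul_mem y.2 y.2⟩) fun _ _ e => Subtype.ext (congrArg Subtype.val e :))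
        ⟨t, Finset.mem_univ _, (Finite.card_subtype_lt (p := fun x => x * t * x⁻¹ ∈ H) c).trans_eq
          (Nat.card_congr (Equiv.subtypeUnivEquiv fun y => b y)).symm⟩
    have f : (∑ g, indFun H (fun _ => 1) (g * g)).re ≤ (∑ g, indFun H (fun _ => 1) g).re := by
      have n := card_ne_zero G
      have e : ∑ g, indFun H (fun _ => 1) (g * g) =
          ∑ ψ : IrrCharacter G, Nat.card G * (⟪indFun H fun _ => 1, ψ.1⟫ * fsInd ψ.1) := by
        rw [Finset.sum_congr rfl fun g _ => (isClassFunction_indFun H _).apply_eq_sum (g * g), Finset.sum_comm]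
        exact Finset.sum_congr rfl fun ψ _ => by rw [← Finset.mul_sum, fsInd]; field_simp
      rw [e, ← Finset.add_sum_erase _ _ (Finset.mem_univ ⟨_, isIrrCharacter_one⟩), i]
      rw [inner_one_right, inv_mul_eq_one₀ n] at i
      rw [← i, Complex.add_re, Complex.re_sum]
      refine (add_le_of_nonpos_right (Finset.sum_nonpos fun ψ u => ?_)).trans (by simp [fsInd])
      obtain ⟨m, v⟩ := (isCharacter_one.ind (H := H)).inner_nat ψ.2.isCharacter
      rcases ψ.2.fsInd_spec with w | ⟨w, y | y⟩
      · simp [w.2]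
      · rw [by_contra fun z => (Finset.mem_erase.1 u).1 (congrArg Subtype.val ((h ⟨ψ, z, congrFun w, y⟩).trans
          (h ⟨⟨_, isIrrCharacter_one⟩, by simp [← i, classInner]⟩).symm)), zero_mul, mul_zero, Complex.zero_re]
      · rw [v, y]; simp; positivity
    simp only [indFun_one_apply, ← Finset.mul_sum, ← Nat.cast_sum] at f
    simp only [← Complex.ofReal_natCast, ← Complex.ofReal_inv,
      ← Complex.ofReal_mul, Complex.ofReal_re] at f
    exact d.not_ge ((Nat.cast_le (α := ℝ)).1 (le_of_mul_le_mul_left f (inv_pos.2 (Nat.cast_pos.2 Nat.card_pos))))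
  · obtain ⟨ψ, a, b⟩ := χ.1.2.exists_quotient H.normalCore (o _ χ.1.2 χ.2.1)
    have := a.eq_one_of_real h (funext fun g => by
      obtain ⟨g, rfl⟩ := QuotientGroup.mk_surjective g
      rw [← b, χ.2.2.1])
    exact Subtype.ext (Subtype.ext (funext fun g => by simp [b, this]))

end Cfsg.Agent.S4784
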