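import Cfsg.Statements.S4796
import Cfsg.Agent.H3.Cls

set_option autoImplicit false
open Cfsg

namespace Cfsg.Agent.S4796
open H3
export H3 (inner_add_left inner_add_right inner_sub_left inner_sub_right inner_neg_left inner_neg_right
  inner_zero_left inner_zero_right inner_smul_left inner_smul_right inner_conj_symm inner_self_eq_zero
  inner_self_im)

open H7

/-- Let G be a finite group with a faithful irreducible complex character χ whose codegree #G / χ(1) is a prime p (for a faithful character the kernel is trivial, so the codegree is #G / χ(1)). Then either G is cyclic of order p, or G is a Frobenius group whose Frobenius kernel has order p: some proper non-trivial subgroup H satisfies H ∩ gHg⁻¹ = 1 for every element g outside H, and the set of elements lying in no conjugate of H, together with the identity, has exactly p elements. -/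
theorem result {G : Type*} [Group G] [Finite G] (χ : Cfsg.IrrCharacter G) (hfaith : ∀ g : G, (χ : G → ℂ) g = (χ : G → ℂ) 1 → g = 1) (p : ℕ) (hp : p.Prime) (hcod : Nat.card G = p * Cfsg.charDegree (χ : G → ℂ)) : (IsCyclic G ∧ Nat.card G = p) ∨ ∃ H : Subgroup G, Cfsg.IsFrobeniusComplement H ∧ Nat.card ↥(Cfsg.frobeniusKernel H) = p := by
  set_option maxSynthPendingDepth 3 in
  obtain ⟨P, n, o, c, i, l⟩ := prime_cod χ.2 hfaith hp hcod
  haveI := Fact.mk hp
  rcases eq_or_ne (dg χ.1) 1 with d | d
  · rw [d, mul_one] at hcod
    exact .inl ⟨isCyclic_of_prime_card hcod, hcod⟩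
  obtain ⟨H, h⟩ := Subgroup.exists_right_complement'_of_coprime (N := P) (by
    rw [o, i]; exact (Nat.coprime_of_lt_prime χ.2.dg_pos.ne' l hp))
  have f := H1.FrobC.of_fpf h (ne_bot_of_card_p o) (fun e => d (by rw [← i, h.symm.index_eq_card, e, Subgroup.card_bot]))
    fun x a b => inf_eq_bot_of_card_p o fun e => b (h.disjoint.le_bot ⟨c (le_cen1_iff.1 e), a⟩)
  exact .inr ⟨H, f, by rw [H1.FrobC.card_kernel f, h.index_eq_card, o]⟩

end Cfsg.Agent.S4796
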