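import Cfsg.Statements.S4797
import Cfsg.Agent.H3.Cls

set_option autoImplicit false
open Cfsg

namespace Cfsg.Agent.S4797
open H3
export H3 (inner_add_left inner_add_right inner_sub_left inner_sub_right inner_neg_left inner_neg_right
  inner_zero_left inner_zero_right inner_smul_left inner_smul_right inner_conj_symm inner_self_eq_zero
  inner_self_im)

open H7

/-- The codegree of an irreducible complex character χ of a finite group G is [G : ker χ] / χ(1), where ker χ is the set of elements at which χ takes the value χ(1). A non-trivial finite group is perfect if and only if no irreducible complex character of it has prime codegree. -/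
theorem result {G : Type*} [Group G] [Finite G] [Nontrivial G] : commutator G = ⊤ ↔ ∀ χ : Cfsg.IrrCharacter G, ¬ ((Nat.card G / (Nat.card {g : G // (χ : G → ℂ) g = (χ : G → ℂ) 1} * Cfsg.charDegree (χ : G → ℂ)))).Prime := by
  set_option maxSynthPendingDepth 3 in
  simp only [fun χ : IrrCharacter G => χ.2.cod_eq]
  refine ⟨fun h χ hp => ?_, fun h => of_not_not fun n => ?_⟩
  · haveI := χ.2.isClassFunction.charKer_normal
    haveI := Fact.mk hp
    obtain ⟨ψ, a, -, f, d⟩ := χ.2.exists_faithful
    obtain ⟨P, n, o, c, -⟩ := prime_cod a f hp (by rw [d, χ.2.cod_mul]; rfl)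
    have t : ⁅(⊤ : Subgroup (G ⧸ charKer χ.1)), (⊤ : Subgroup (G ⧸ charKer χ.1))⁆ = ⊤ := by
      rw [← Subgroup.map_top_of_surjective _ (QuotientGroup.mk'_surjective _), ← Subgroup.map_commutator,
        ← commutator_def, h]
    have u := t.ge.trans (der_le_cen_of_cyc (cyc_of_card_p o) (H1B.top_nrm P) (H1B.top_nrm P))
    rw [comm_eq_bot.2 (u.trans (cen_anti (u.trans c)))] at t
    exact ne_bot_of_card_p o (eq_bot_iff.2 (le_top.trans t.ge))
  · obtain ⟨g, hg⟩ := not_forall.1 fun k : ∀ g, g ∈ commutator G => n (eq_top_iff.2 fun g _ => k g)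
    obtain ⟨l, hl⟩ := exists_lin_ne_one hg
    obtain ⟨p, k, hp, e⟩ := exists_prime_order_pow (x := l) (by rintro rfl; exact hl rfl)
    have a := lf_irr (l ^ k)
    have c := a.cod_mul
    rw [dg_lf, mul_one, show charKer (lf (l ^ k)) = (l ^ k).ker from Subgroup.ext fun x => by
      rw [a.isCharacter.mem_charKer, lf_apply, lf_apply, map_one, Units.val_inj, MonoidHom.mem_ker]] at c
    refine h ⟨_, a⟩ (c ▸ ((Nat.dvd_prime hp).1 (e ▸ card_range_dvd_orderOf (l ^ k))).elim (fun i => ?_) fun i : _ = p => by rwa [i])
    rw [Subgroup.index_eq_one, MonoidHom.ker_eq_top_iff] at i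
    rw [i, orderOf_one] at e
    exact absurd e.symm hp.ne_one

end Cfsg.Agent.S4797
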