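import Cfsg.Statements.S4798
import Cfsg.Agent.H3.Deg

set_option autoImplicit false
open Cfsg

namespace Cfsg.Agent.S4798
open H3
export H3 (inner_add_left inner_add_right inner_sub_left inner_sub_right inner_neg_left inner_neg_right
  inner_zero_left inner_zero_right inner_smul_left inner_smul_right inner_conj_symm inner_self_eq_zero
  inner_self_im)

/-- Let p be a prime and χ a faithful irreducible complex character of the finite group G (χ(g) = χ(1) only for g = 1), so that its codegree is #G / χ(1). Then #G / χ(1) is a power of p if and only if χ is induced from a character of a Sylow p-subgroup of G. -/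
theorem result {G : Type*} [Group G] [Fintype G] (p : ℕ) [Fact p.Prime] (χ : Cfsg.IrrCharacter G) (hfaith : ∀ g : G, (χ : G → ℂ) g = (χ : G → ℂ) 1 → g = 1) : (∃ k : ℕ, Nat.card G = p ^ k * Cfsg.charDegree (χ : G → ℂ)) ↔ ∃ (P : Sylow p G) (θ : ↥(P : Subgroup G) → ℂ), Cfsg.IsCharacter ↥(P : Subgroup G) θ ∧ (χ : G → ℂ) = Cfsg.indFun (P : Subgroup G) θ := by
  set_option maxSynthPendingDepth 3 in
  have hp : p.Prime := Fact.out
  refine ⟨fun ⟨k, e⟩ => ?_, fun ⟨P, θ, a, b⟩ => ?_⟩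
  · classical
    let P : Sylow p G := default
    haveI := Fintype.ofFinite P
    obtain ⟨a, f⟩ := P.2.exists_card_eq
    obtain ⟨j, g⟩ : ∃ j, dg χ.1 = P.index * p ^ j := by
      obtain ⟨c, g⟩ := ((hp.coprime_iff_not_dvd.2 P.not_dvd_index).symm.pow_right k).dvd_of_dvd_mul_left
        (e ▸ P.1.index_dvd_card)
      obtain ⟨j, -, i⟩ := (Nat.dvd_prime_pow hp).1 (show c ∣ p ^ a from Dvd.intro_left (p ^ k) (Nat.eq_of_mul_eq_mul_left
        (Nat.pos_of_ne_zero P.1.index_ne_zero_of_finite) (by rw [← f, P.1.index_mul_card, e, g]; ring)))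
      exact ⟨j, i ▸ g⟩
    obtain ⟨n, h1, h2⟩ := (χ.2.isCharacter.res P).exists_coeff
    obtain ⟨θ, i, l⟩ : ∃ θ : IrrCharacter P, n θ ≠ 0 ∧ ¬ p ^ (j + 1) ∣ dg θ.1 := by
      by_contra c
      push Not at c
      have := congrFun h2 1
      simp only [Finset.sum_apply, Pi.smul_apply, fun θ : IrrCharacter P => θ.2.deg, OneMemClass.coe_one, χ.2.deg] at this
      simp only [smul_eq_mul] at this
      norm_cast at this
      refine P.not_dvd_index (Nat.dvd_of_mul_dvd_mul_right (pow_pos hp.pos j) ?_)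
      rw [← g, ← pow_succ', this]
      exact Finset.dvd_sum fun θ _ => (eq_or_ne (n θ) 0).elim (by simp [·]) fun d => (c θ d).mul_left _
    have m : ⟪indFun (P : Subgroup G) θ.1, χ.1⟫ ≠ 0 := by
      rw [inner_indFun_left _ _ χ.2.isClassFunction, Ne, inner_eq_zero_comm, h1]; exact_mod_cast i
    obtain ⟨t, -, o⟩ := (Nat.dvd_prime_pow hp).1 (f ▸ θ.2.dg_dvd)
    have q : indFun (P : Subgroup G) θ.1 1 = (P.index * p ^ t : ℕ) := by rw [indFun_one, θ.2.deg, o]; simp
    have r := θ.2.isCharacter.ind.deg_le_of_inner_ne_zero χ.2 m χ.2.deg q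
    refine ⟨P, θ, θ.2.isCharacter, (θ.2.isCharacter.ind.eq_of_inner_ne_zero χ.2 m ?_).symm⟩
    rw [q, χ.2.deg, r.antisymm (g ▸ Nat.mul_le_mul_left _ (Nat.pow_le_pow_right hp.pos (by
      by_contra c; exact l (o ▸ pow_dvd_pow p (by omega)))))]
  · obtain ⟨c, e⟩ := (a.isIrr_of_indFun (b ▸ χ.2)).dg_dvd
    obtain ⟨j, f⟩ := P.2.exists_card_eq
    obtain ⟨k, -, rfl⟩ := (Nat.dvd_prime_pow hp).1 (f ▸ Dvd.intro_left _ e.symm)
    refine ⟨k, ?_⟩
    rw [dg_eq (n := P.index * dg θ) (by rw [b, indFun_one, a.deg]; simp), ← P.1.index_mul_card, e]; ring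

end Cfsg.Agent.S4798
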