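import Cfsg.Statements.S4801
import Cfsg.Agent.H3.Deg

set_option autoImplicit false
open Cfsg

namespace Cfsg.Agent.S4801
open H3
export H3 (inner_add_left inner_add_right inner_sub_left inner_sub_right inner_neg_left inner_neg_right
  inner_zero_left inner_zero_right inner_smul_left inner_smul_right inner_conj_symm inner_self_eq_zero
  inner_self_im)

/-- The codegree of an irreducible complex character χ of a finite group G is [G : ker χ] / χ(1), where ker χ is the set of elements at which χ takes the value χ(1). Let S be a finite simple group and G a finite group such that every codegree of an irreducible character of S is a codegree of an irreducible character of G. Then the order of S divides the order of G. -/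
theorem result {S : Type*} [Group S] [Finite S] (hS : IsSimpleGroup S) {G : Type*} [Group G] [Finite G] (hsub : ∀ χ : Cfsg.IrrCharacter S, ∃ ψ : Cfsg.IrrCharacter G, (Nat.card S / (Nat.card {g : S // (χ : S → ℂ) g = (χ : S → ℂ) 1} * Cfsg.charDegree (χ : S → ℂ))) = (Nat.card G / (Nat.card {g : G // (ψ : G → ℂ) g = (ψ : G → ℂ) 1} * Cfsg.charDegree (ψ : G → ℂ)))) : Nat.card S ∣ Nat.card G := by
  set_option maxSynthPendingDepth 3 in
  simp only [fun χ : IrrCharacter G => χ.2.cod_eq, fun χ : IrrCharacter S => χ.2.cod_eq] at hsub
  refine (Nat.dvd_iff_prime_pow_dvd_dvd _ _).2 fun p k hp h => ?_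
  rcases k with _ | k
  · simp
  obtain ⟨χ, a, b, c⟩ := exists_not_dvd_deg hp ((dvd_pow_self p k.succ_ne_zero).trans h)
  obtain ⟨ψ, d⟩ := hsub ⟨χ, a⟩
  rw [← Subgroup.index_bot, ← a.charKer_eq_bot_of_simple b, ← a.cod_mul] at h
  exact (((hp.coprime_iff_not_dvd.2 c).pow_left _).dvd_of_dvd_mul_right h).trans (d ▸ ψ.2.cod_dvd)

end Cfsg.Agent.S4801
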