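import Cfsg.Statements.S4802
import Cfsg.Agent.H3.Deg

set_option autoImplicit false
open Cfsg

namespace Cfsg.Agent.S4802
open H3
export H3 (inner_add_left inner_add_right inner_sub_left inner_sub_right inner_neg_left inner_neg_right
  inner_zero_left inner_zero_right inner_smul_left inner_smul_right inner_conj_symm inner_self_eq_zero
  inner_self_im)

/-- Let N < M be normal subgroups of the finite group G and g ∈ M ∖ N. Then the conjugacy class of g is exactly M ∖ N if and only if every irreducible complex character of G whose kernel contains N takes the same value at all elements of M ∖ N, and every irreducible complex character of G whose kernel does not contain N vanishes at g. -/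
theorem result {G : Type*} [Group G] [Finite G] (N M : Subgroup G) [N.Normal] [M.Normal] (hNM : N < M) (g : G) (hgM : g ∈ M) (hgN : g ∉ N) : {h : G | IsConj g h} = (M : Set G) \ (N : Set G) ↔ ((∀ χ : Cfsg.IrrCharacter G, (∀ x ∈ N, (χ : G → ℂ) x = (χ : G → ℂ) 1) → ∀ x ∈ M, x ∉ N → ∀ y ∈ M, y ∉ N → (χ : G → ℂ) x = (χ : G → ℂ) y) ∧ (∀ χ : Cfsg.IrrCharacter G, (∃ x ∈ N, (χ : G → ℂ) x ≠ (χ : G → ℂ) 1) → (χ : G → ℂ) g = 0)) := by
  set_option maxSynthPendingDepth 3 in
  classical
  haveI := Fintype.ofFinite N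
  refine ⟨fun h => ⟨fun χ _ x a b y c d => ?_, fun χ a => ?_⟩, fun ⟨h, k⟩ => Set.ext fun x => ⟨fun c => ?_,
    fun ⟨a, b⟩ => by_contra fun d => ?_⟩⟩
  · exact (χ.2.isClassFunction.of_isConj (h.ge ⟨a, b⟩)).symm.trans (χ.2.isClassFunction.of_isConj (h.ge ⟨c, d⟩))
  · have := χ.2.sum_normal_mul_eq_zero N a g
    rw [Finset.sum_congr rfl fun n _ => (χ.2.isClassFunction.of_isConj (h.ge ⟨mul_mem (hNM.le n.2) hgM,
      mt (N.mul_mem_cancel_left n.2).1 hgN⟩)).symm] at this
    simpa using this
  · replace c := isConj_iff.1 c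
    obtain ⟨c, rfl⟩ := c
    exact ⟨‹M.Normal›.conj_mem _ hgM c, fun e => hgN (by simpa [mul_assoc] using ‹N.Normal›.conj_mem' _ e c)⟩
  · have := congrArg Complex.re (column_orthogonality g x)
    rw [if_neg (show ¬ IsConj g x from d), Complex.re_sum] at this
    refine (Finset.sum_pos' (fun χ _ => ?_) ⟨⟨_, isIrrCharacter_one⟩, Finset.mem_univ _, by simp⟩).ne' this
    by_cases e : ∀ x ∈ N, χ.1 x = χ.1 1
    · rw [h χ e x a b g hgM hgN, Complex.mul_conj]
      exact Complex.normSq_nonneg _
    · simp [k χ (by simpa using e)]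

end Cfsg.Agent.S4802
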