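import Cfsg.Statements.S4807
import Cfsg.Agent.H3.MK7

set_option autoImplicit false
open Cfsg

namespace Cfsg.Agent.S4807
open H3
export H3 (inner_add_left inner_add_right inner_sub_left inner_sub_right inner_neg_left inner_neg_right
  inner_zero_left inner_zero_right inner_smul_left inner_smul_right inner_conj_symm inner_self_eq_zero
  inner_self_im)

open H7

/-- Let p be a prime and G a finite p-solvable group, L a normal subgroup of G, S a Sylow p-subgroup of G and P the subgroup generated by L and S (so P/L is a Sylow p-subgroup of G/L), and let ν be an irreducible complex character of L that is invariant under conjugation by every element of P. Let N be the normalizer of P in G (it contains L). Then the number of irreducible characters of G of degree prime to p lying over ν (restriction to L not orthogonal to ν) equals the number of irreducible characters of N of degree prime to p lying over ν. -/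
theorem result {G : Type*} [Group G] [Finite G] (p : ℕ) [Fact p.Prime] (hG : Cfsg.IsPSolvable p G) (L : Subgroup G) [L.Normal] (S : Sylow p G) (P : Subgroup G) (hP : P = L ⊔ (S : Subgroup G)) (hLN : L ≤ (Subgroup.normalizer ((P : Subgroup G) : Set G))) (ν : Cfsg.IrrCharacter ↥L) (hν : ∀ x ∈ P, Cfsg.IsConjCharOf L x (ν : ↥L → ℂ) (ν : ↥L → ℂ)) : Nat.card {χ : Cfsg.IrrCharacter G // ¬ p ∣ Cfsg.charDegree (χ : G → ℂ) ∧ (∑ᶠ l : ↥L, (χ : G → ℂ) (l : G) * (starRingEnd ℂ) ((ν : ↥L → ℂ) l)) ≠ 0} = Nat.card {ψ : Cfsg.IrrCharacter ↥(Subgroup.normalizer ((P : Subgroup G) : Set G)) // ¬ p ∣ Cfsg.charDegree (ψ : ↥(Subgroup.normalizer ((P : Subgroup G) : Set G)) → ℂ) ∧ (∑ᶠ l : ↥L, (ψ : ↥(Subgroup.normalizer ((P : Subgroup G) : Set G)) → ℂ) (Subgroup.inclusion hLN l) * (starRingEnd ℂ) ((ν : ↥L → ℂ) l)) ≠ 0} := by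
  set_option maxSynthPendingDepth 3 in
  subst hP
  have h := mk_rel (ν := am ν.1) (ps_top.2 hG) (sym_of_syl (K := L) (H2.sylow_isSylowIn_top S) le_top (le_nrm_of_normal _ _))
    (le_nrm_of_normal _ _) (irr_am ν) ((le_iA_am (le_nrm_of_normal _ _)).2 hν)
  rw [top_inf_eq, ov_top, ov_sub' hLN, am_res] at h
  refine Eq.trans ?_ (h.trans ?_) <;> refine Nat.card_congr (Equiv.subtypeEquivRight fun χ => and_congr_right fun _ => ?_)
  · rw [inner_ne_iff_finsum]; simp
  · rw [inner_ne_iff_finsum]; simp [Subgroup.inclusion]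

end Cfsg.Agent.S4807
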