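import Cfsg.Statements.S4808
import Cfsg.Agent.H3.Deg

set_option autoImplicit false
open Cfsg

namespace Cfsg.Agent.S4808
open H3
export H3 (inner_add_left inner_add_right inner_sub_left inner_sub_right inner_neg_left inner_neg_right
  inner_zero_left inner_zero_right inner_smul_left inner_smul_right inner_conj_symm inner_self_eq_zero
  inner_self_im)

/-- The codegree of an irreducible complex character χ of a finite group G is [G : ker χ] / χ(1), where ker χ is the set of elements at which χ takes the value χ(1). A prime divides the order of G if and only if it divides the codegree of some irreducible complex character of G. -/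
theorem result {G : Type*} [Group G] [Finite G] (p : ℕ) (hp : p.Prime) : p ∣ Nat.card G ↔ ∃ χ : Cfsg.IrrCharacter G, p ∣ (Nat.card G / (Nat.card {g : G // (χ : G → ℂ) g = (χ : G → ℂ) 1} * Cfsg.charDegree (χ : G → ℂ))) := by
  set_option maxSynthPendingDepth 3 in
  haveI := Fact.mk hp
  simp only [fun χ : IrrCharacter G => χ.2.cod_eq]
  refine ⟨fun h => by_contra fun c => ?_, fun ⟨χ, h⟩ => h.trans χ.2.cod_dvd⟩
  push Not at c
  obtain ⟨x, e⟩ := exists_prime_orderOf_dvd_card' p h
  have := congrArg Complex.re (sum_deg_mul_eq_zero (g := x) (mt orderOf_eq_one_iff.2 (e ▸ hp.one_lt.ne')))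
  rw [Complex.re_sum] at this
  refine (Finset.sum_pos' (fun χ _ => ?_) ⟨⟨_, isIrrCharacter_one⟩, Finset.mem_univ _, by simp⟩).ne' this
  by_cases f : χ.1 x = χ.1 1
  · rw [f, χ.2.deg]; norm_cast; positivity
  · simp [χ.2.eq_zero_of_cod hp (c χ) (k := 1) (by simp [← e]) f]

end Cfsg.Agent.S4808
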