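import Cfsg.Statements.S4813
import Cfsg.Agent.H2.Cd7

set_option autoImplicit false
open Cfsg

namespace Cfsg.Agent.S4813

open Subgroup hiding upperCentralSeries
open H2 Cfsg.FusionSystem

open H3 H7

/-- If every irreducible complex character of the finite group G of degree greater than one has prime degree, then G has at most three distinct irreducible character degrees. -/
theorem result {G : Type*} [Group G] [Finite G] (hprime : ∀ d ∈ Cfsg.charDegrees G, d = 1 ∨ d.Prime) : Nat.card ↥(Cfsg.charDegrees G) ≤ 3 := by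
  haveI := H2.prime_deg_solv hprime
  have k : ∀ f r, H2.cds G ⊆ {1, f, r} → Nat.card (Cfsg.charDegrees G) ≤ 3 := fun f r l =>
    (Set.ncard_le_ncard l).trans ((Set.ncard_insert_le _ _).trans (Nat.succ_le_succ
      ((Set.ncard_insert_le _ _).trans (by simp))))
  by_cases n : commutator G = ⊥
  · exact k 1 1 fun _ ⟨χ, e⟩ => Or.inl
      (e ▸ χ.2.isCharacter.dg_eq_one.2 (χ.2.deg_eq_one_of_comm (H2.der_eq_bot_iff.1 n)))
  obtain ⟨r, f, hr, f1, f2, h⟩ := H2.solv_cases n
  have hf := (hprime f f1).resolve_left f2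
  refine k f r fun d hd => or_iff_not_imp_left.2 fun d1 => ?_
  have hd' := (hprime d hd).resolve_left d1
  obtain ⟨e, t, rfl, e1, e2⟩ := h d hd
  rcases (Nat.dvd_prime hf).1 e1 with rfl | rfl
  · rw [one_mul] at hd' d1 ⊢
    rcases e2 with e2 | e2
    · rcases hprime _ e2 with g | g
      · exact absurd (Nat.eq_one_of_mul_eq_one_right g) f2
      · exact absurd g (Nat.not_prime_mul f2 d1)
    · exact Or.inr ((Nat.prime_dvd_prime_iff_eq hr hd').1 e2).symm
  · exact Or.inl ((Nat.prime_dvd_prime_iff_eq hf hd').1 (dvd_mul_right _ _)).symm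

end Cfsg.Agent.S4813
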