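import Cfsg.Statements.S4814
import Cfsg.Agent.H3.Cnt

set_option autoImplicit false
open Cfsg

namespace Cfsg.Agent.S4814
open H3
export H3 (inner_add_left inner_add_right inner_sub_left inner_sub_right inner_neg_left inner_neg_right
  inner_zero_left inner_zero_right inner_smul_left inner_smul_right inner_conj_symm inner_self_eq_zero
  inner_self_im)

/-- Let G be a finite group such that the sum, over the irreducible complex characters χ of G, of 1/χ(1)² is less than 2. Then every element of G is a product of two commutators. -/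
theorem result {G : Type*} [Group G] [Finite G]
    (h : ∑ᶠ χ : Cfsg.IrrCharacter G, 1 / ‖(χ : G → ℂ) 1‖ ^ 2 < (2 : ℝ)) (g : G) :
    ∃ a b c d : G, (a * b * a⁻¹ * b⁻¹) * (c * d * c⁻¹ * d⁻¹) = g := by
  set_option maxSynthPendingDepth 3 in
  classical
  haveI := Fintype.ofFinite G
  by_contra n
  have := cnt_eq_sum_irr (fun x : (G × G) × G × G =>
      x.1.1 * x.1.2 * x.1.1⁻¹ * x.1.2⁻¹ * (x.2.1 * x.2.2 * x.2.1⁻¹ * x.2.2⁻¹))
    (fun g => ⟨((MulAut.conj g).toEquiv.prodCongr (MulAut.conj g).toEquiv).prodCongr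
      ((MulAut.conj g).toEquiv.prodCongr (MulAut.conj g).toEquiv), fun x => by simp [mul_assoc]⟩) g
  rw [cnt, Nat.card_eq_zero.2 (.inl ⟨fun x => n ⟨_, _, _, _, x.2⟩⟩), Nat.cast_zero] at this
  have c := card_ne_zero G
  have k : ∑ χ : IrrCharacter G, (starRingEnd ℂ) (χ.1 g) / χ.1 1 ^ 3 = 0 := by
    refine mul_left_cancel₀ (pow_ne_zero 3 c) ?_
    rw [mul_zero, this, Finset.mul_sum]
    refine Finset.sum_congr rfl fun χ _ => ?_
    have b := χ.2.deg_ne_zero
    have a := χ.2.sum_comm_mul 1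
    simp only [mul_one] at a
    rw [Fintype.sum_prod_type_right]
    dsimp only
    rw [Finset.sum_congr rfl fun y _ => eq_div_of_mul_eq (pow_ne_zero 2 b)
      ((mul_comm _ _).trans (χ.2.sum_comm_mul _)), ← Finset.sum_div, ← Finset.mul_sum,
      eq_div_of_mul_eq (pow_ne_zero 2 b) ((mul_comm _ _).trans a)]
    field_simp
  rw [finsum_eq_sum_of_fintype, ← Finset.add_sum_erase _ _ (Finset.mem_univ ⟨_, isIrrCharacter_one⟩)] at h
  rw [← Finset.add_sum_erase _ _ (Finset.mem_univ ⟨_, isIrrCharacter_one⟩)] at k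
  have := (congrArg norm (eq_neg_of_add_eq_zero_left k)).trans_le ((norm_neg _).trans_le ((norm_sum_le _ _).trans
    (Finset.sum_le_sum (g := fun χ : IrrCharacter G => 1 / ‖χ.1 1‖ ^ 2) fun χ _ => ?_)))
  · simp at this h
    linarith
  have b := norm_pos_iff.2 χ.2.deg_ne_zero
  rw [norm_div, norm_pow, RCLike.norm_conj, div_le_div_iff₀ (by positivity) (by positivity), one_mul, pow_succ' _ 2]
  exact mul_le_mul_of_nonneg_right (χ.2.isCharacter.norm_le g) (by positivity)

end Cfsg.Agent.S4814
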