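import Cfsg.Statements.S4825
import Cfsg.Agent.H9.Misc3

set_option autoImplicit false
open Cfsg

namespace Cfsg.Agent.S4825
open H9 H3 MonoidAlgebra
open scoped Pointwise
set_option linter.style.haveILetI false
set_option linter.unusedVariables false
theorem z2 : ∀ a : ZMod 2, a ≠ 0 → a ^ 2 = 1 := by decide
theorem z3 : ∀ a : ZMod 3, a ≠ 0 → a ^ 2 = 1 := by decide

/-- Let p be a prime, G a finite group with Sylow p-subgroup P, M a maximal ideal of the algebraic integers containing p, and B a p-block of G with defect group P. Let N be a normal subgroup of G not containing P and θ an irreducible character of N. Then the number of irreducible characters in B of degree prime to p lying over θ (having θ as a constituent on restriction to N) is either 0 or at least 2, and when p ≤ 3 it is divisible by p. -/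
theorem result {G : Type*} [Group G] [Fintype G] (p : ℕ) [Fact p.Prime] (P : Sylow p G) (M : Ideal Cfsg.AlgInt) (hM : Cfsg.IsPModular p M) (B : Set (Cfsg.IrrCharacter G)) (hB : Cfsg.IsPBlock M B) (hBP : Cfsg.IsDefectGroup p M B P) (N : Subgroup G) [N.Normal] [Fintype N] (hPN : ¬ (P : Subgroup G) ≤ N) (θ : Cfsg.IrrCharacter N) :
    (Nat.card {χ : Cfsg.IrrCharacter G // χ ∈ B ∧ ¬ p ∣ Cfsg.charDegree (χ : G → ℂ) ∧ Cfsg.classInner (fun n : N => (χ : G → ℂ) n) (θ : N → ℂ) ≠ 0} = 0 ∨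
      2 ≤ Nat.card {χ : Cfsg.IrrCharacter G // χ ∈ B ∧ ¬ p ∣ Cfsg.charDegree (χ : G → ℂ) ∧ Cfsg.classInner (fun n : N => (χ : G → ℂ) n) (θ : N → ℂ) ≠ 0}) ∧
    (p ≤ 3 → p ∣ Nat.card {χ : Cfsg.IrrCharacter G // χ ∈ B ∧ ¬ p ∣ Cfsg.charDegree (χ : G → ℂ) ∧ Cfsg.classInner (fun n : N => (χ : G → ℂ) n) (θ : N → ℂ) ≠ 0}) := by
  classical
  haveI : PMod p M := ⟨hM⟩
  lift B to Bl M G using hB
  obtain ⟨u, hu, hN⟩ := SetLike.not_le_iff_exists.1 hPN
  have hp := isPElt_of_mem P.2 hu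
  set A := {χ : IrrCharacter G | classInner (fun n : N => χ.1 n) θ.1 ≠ 0} with hA
  have h1 : ∀ g ∉ N, regA A g = 0 := fun g hg => by
    have h2 := (isClassFunction_indFun _ θ.1).apply_eq_sum g
    rw [indFun_eq_zero_of_not_conj _ _ fun x hx => hg (by simpa [mul_assoc] using ‹N.Normal›.conj_mem _ hx x⁻¹)] at h2
    rw [regA_apply, Finset.sum_filter]
    refine (Finset.sum_congr rfl fun χ _ => ?_).trans (by rw [← Finset.mul_sum, ← h2, mul_zero] :
      ∑ χ : IrrCharacter G, ((inertia θ.1).index : ℂ) * θ.1 1 * (classInner (indFun N θ.1) χ.1 * χ.1 g) = 0)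
    obtain ⟨m, hm⟩ := (χ.2.isCharacter.res N).inner_nat θ.2.isCharacter
    rw [inner_indFun_left _ _ χ.2.isClassFunction, ← H3.inner_conj_symm, hm, map_natCast]
    split_ifs with h
    · rw [clifford_deg χ.2 θ.2 h, hm]; ring
    · have : classInner (fun n : N => χ.1 n) θ.1 = 0 := not_not.1 h
      rw [← hm, this]; simp
  have h2 : regA (A ∩ B.1) u = 0 := by
    rw [← blockPart_regA, blockPart_congr_section B (η := 0) fun g hg => h1 g fun h => hN (by
      obtain ⟨c, hc⟩ := isConj_iff.1 hg.symm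
      rw [← pp_of_isPElt hp, ← hc]; exact ‹N.Normal›.conj_mem _ (pp_mem h) c)]
    exact congrFun (map_zero (bpLin B.1)) u
  set S := Finset.univ.filter fun χ : IrrCharacter G => χ ∈ B.1 ∧ ¬ p ∣ charDegree χ.1 ∧
    classInner (fun n : N => χ.1 n) θ.1 ≠ 0 with hS
  have h3 : ∑ χ ∈ S, (charDegree χ.1 : ZMod p) ^ 2 = 0 := by
    have : p ∣ ∑ χ with χ ∈ A ∩ B.1, charDegree χ.1 ^ 2 := by
      rw [← natCast_mem_LI_iff (M := M)]
      suffices ((∑ χ with χ ∈ A ∩ B.1, charDegree χ.1 ^ 2 : ℕ) : ℂ) - regA (A ∩ B.1) u ∈ LI M by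
        rwa [h2, sub_zero] at this
      rw [show regA (A ∩ B.1) u = ∑ χ with χ ∈ A ∩ B.1, χ.1 1 * χ.1 u by convert regA_apply _ _,
        Nat.cast_sum, ← Finset.sum_sub_distrib]
      refine sum_mem fun χ _ => ?_
      rw [Nat.cast_pow, ← irr_deg, pow_two, ← mul_sub, ← neg_sub, ← pq_of_isPElt hp]
      exact LI_mul_left (by rw [pq_of_isPElt hp]; exact irr_mem_LR χ 1) (neg_mem (char_sub_pq χ.2.isCharacter u))
    rw [← ZMod.natCast_eq_zero_iff, Nat.cast_sum] at this
    rw [← this]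
    push_cast
    refine Finset.sum_subset (fun χ h => Finset.mem_filter.2 ⟨Finset.mem_univ _,
      (Finset.mem_filter.1 h).2.2.2, (Finset.mem_filter.1 h).2.1⟩) fun χ h h' => ?_
    rw [(ZMod.natCast_eq_zero_iff _ _).2, zero_pow two_ne_zero]
    exact by_contra fun e => h' (Finset.mem_filter.2 ⟨Finset.mem_univ _, (Finset.mem_filter.1 h).2.2, e,
      (Finset.mem_filter.1 h).2.1⟩)
  have h4 : ∀ χ ∈ S, (charDegree χ.1 : ZMod p) ≠ 0 := fun χ h =>
    mt (ZMod.natCast_eq_zero_iff _ _).1 (Finset.mem_filter.1 h).2.2.1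
  rw [Nat.card_eq_fintype_card, Fintype.card_subtype, ← hS]
  refine ⟨by_contra fun h => ?_, fun h => ?_⟩
  · obtain ⟨χ, e⟩ := Finset.card_eq_one.1 (by omega : S.card = 1)
    rw [e, Finset.sum_singleton] at h3
    exact h4 χ (by simp [e]) (pow_eq_zero_iff two_ne_zero |>.1 h3)
  · rw [Finset.sum_congr rfl (g := fun _ => 1) fun χ hχ => ?_] at h3
    · simpa [ZMod.natCast_eq_zero_iff] using h3
    have := h4 χ hχ
    have h5 := (Fact.out : p.Prime).two_le
    generalize (charDegree χ.1 : ZMod p) = a at this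
    obtain rfl | rfl : p = 2 ∨ p = 3 := by omega
    · exact z2 a this
    · exact z3 a this

end Cfsg.Agent.S4825
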