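import Cfsg.Statements.S4828
import Cfsg.Agent.H9.Cent

set_option autoImplicit false
open Cfsg

namespace Cfsg.Agent.S4828
open H9 H3 MonoidAlgebra
open scoped Pointwise
set_option linter.style.haveILetI false
set_option linter.unusedVariables false


/-- Let p be a prime, M a maximal ideal of the algebraic integers containing p, and (Q, e) a Brauer pair of the finite group G (Q a p-subgroup, e a block of C_G(Q)). Then (Q, e) is a maximal Brauer pair of some block of G if and only if e contains an irreducible character θ such that θ takes the value θ(1) at every element of Z(Q) = Q ∩ C_G(Q), the p-part of θ(1) times the p-part of the order of Z(Q) equals the p-part of the order of C_G(Q) (θ has defect zero as a character of C_G(Q)/Z(Q)), and every element of N_G(Q) of p-power order that stabilizes e lies in Q·C_G(Q) (the stabilizer of e in N_G(Q) has index prime to p over Q·C_G(Q)). -/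
theorem result {G : Type*} [Group G] [Finite G] (p : ℕ) [Fact p.Prime] (M : Ideal Cfsg.AlgInt) (hM : Cfsg.IsPModular p M) (Q : Subgroup G) (e : Set (Cfsg.IrrCharacter (Subgroup.centralizer (Q : Set G)))) (he : Cfsg.IsBrauerPair p M Q e) :
    (∃ B : Set (Cfsg.IrrCharacter G), Cfsg.IsMaximalBrauerPair p M B Q e) ↔
      ∃ θ ∈ e, (∀ z : Subgroup.centralizer (Q : Set G), (z : G) ∈ Q → (θ : Subgroup.centralizer (Q : Set G) → ℂ) z = (θ : Subgroup.centralizer (Q : Set G) → ℂ) 1) ∧
        (Cfsg.charDegree (θ : Subgroup.centralizer (Q : Set G) → ℂ)).factorization p + (Nat.card ↥(Q ⊓ Subgroup.centralizer (Q : Set G))).factorization p = (Nat.card (Subgroup.centralizer (Q : Set G))).factorization p ∧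
        (∀ g : G, g ∈ Subgroup.normalizer (Q : Set G) → Cfsg.StabilizesBlock (Subgroup.centralizer (Q : Set G)) e g → (∃ k : ℕ, orderOf g = p ^ k) → g ∈ Q ⊔ Subgroup.centralizer (Q : Set G)) := by
  haveI : PMod p M := ⟨hM⟩
  lift e to Bl M (cen Q) using he.2
  have hb := isBrauerPair_iff.1 he
  have hc : ((Q ⊓ cen Q).subgroupOf (cen Q)) = Q.subgroupOf (cen Q) := Subgroup.inf_subgroupOf_right _ _
  have hcard : Nat.card (Q.subgroupOf (cen Q)) = Nat.card (Q ⊓ cen Q : Subgroup G) := by
    rw [← hc]; exact Nat.card_congr (Subgroup.subgroupOfEquivOfLe inf_le_right).toEquiv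
  have hi := factorization_card_add_index p (Q.subgroupOf (cen Q))
  rw [hcard] at hi
  constructor
  · rintro ⟨B, hB⟩
    lift B to Bl M G using hB.1.2.1
    rw [isMaximalBrauerPair_iff] at hB
    have h1 := hb.loc_stab.adef_cen hB.adef_stab
    rw [← isDef_subgroupOf_iff inf_le_right, hc] at h1
    obtain ⟨θ, h⟩ := h1.exists_can (sup_cen_of_le_center (subgroupOf_cen_le_center Q))
    refine ⟨θ, h.mem, h.ker, by rw [h.factorization_deg, ← hi, add_comm], fun g h1 h2 h3 => ?_⟩
    rw [sup_comm]
    exact hB.mem_sup_of_isPElt (mem_nrm_stabilizes_iff.1 ⟨h1, h2⟩) h3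
  · rintro ⟨θ, h1, -, h2, h3⟩
    have h4 := isDef_of_center (D := Q.subgroupOf (cen Q)) hb.isPGroup.comap_subtype
      (subgroupOf_cen_le_center Q) h1 (Nat.add_right_cancel (h2.trans (hi.symm.trans (add_comm _ _))))
    rw [← hc, isDef_subgroupOf_iff inf_le_right] at h4
    obtain ⟨B, hB⟩ := exists_nsub_bot hb
    refine ⟨B.1, isMaximalBrauerPair_iff.2 (maxP_of_max hB fun R c h => ?_)⟩
    refine ((hb.adef_sup h4).eq_of_le (fun x hx => ?_) h.right.isPGroup h.br_ne h.le).le
    have := mem_nrm_stabilizes_iff.2 (⟨h.norm hx, le_stab_iff.2 h.fix hx⟩ : x ∈ nrm Q ⊓ stab e.E)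
    exact h3 x this.1 this.2 (isPElt_of_mem h.right.isPGroup hx)

end Cfsg.Agent.S4828
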