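import Cfsg.Statements.S4837
import Cfsg.Agent.H3.Cnt

set_option autoImplicit false
open Cfsg

namespace Cfsg.Agent.S4837
open H3
export H3 (inner_add_left inner_add_right inner_sub_left inner_sub_right inner_neg_left inner_neg_right
  inner_zero_left inner_zero_right inner_smul_left inner_smul_right inner_conj_symm inner_self_eq_zero
  inner_self_im)

/-- Let G be a finite group of order greater than 2 with an irreducible character χ nonzero on exactly two conjugacy classes, and let N be the set of elements where χ is nonzero, given as a nontrivial normal p-subgroup of G for the prime p. Then for every nonidentity x in N the centralizer C_G(x) is a Sylow p-subgroup of G, and for every irreducible character λ ≠ 1 of N the stabilizer of λ in G (its inertia group) is a Sylow p-subgroup of G. -/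
theorem result {G : Type*} [Group G] [Finite G] (hG : 2 < Nat.card G) (χ : Cfsg.IrrCharacter G) (hχ : Nat.card {C : ConjClasses G // ∃ g ∈ C.carrier, (χ : G → ℂ) g ≠ 0} = 2) (p : ℕ) [Fact p.Prime] (N : Subgroup G) [N.Normal] (hN : ∀ g : G, g ∈ N ↔ (χ : G → ℂ) g ≠ 0) (hNp : IsPGroup p N) (hN1 : N ≠ ⊥) :
    (∀ x ∈ N, x ≠ 1 → ∃ P : Sylow p G, Subgroup.centralizer ({x} : Set G) = P) ∧
      (∀ μ : Cfsg.IrrCharacter N, (μ : N → ℂ) ≠ (fun _ => (1 : ℂ)) → ∃ P : Sylow p G, ∀ g : G, g ∈ (P : Subgroup G) ↔ ∀ n n' : N, (n' : G) = g * n * g⁻¹ → (μ : N → ℂ) n' = (μ : N → ℂ) n) := by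
  set_option maxSynthPendingDepth 3 in
  classical
  haveI := Fintype.ofFinite G
  obtain ⟨M, h⟩ := exists_gag hG χ.2 hχ
  obtain rfl : N = M := Subgroup.ext fun g => (hN g).trans (h.supp g)
  refine ⟨fun x a b => ⟨(h.pgroup_cen hNp a b).toSylow (h.index_cen a b ▸ h.not_dvd hNp), rfl⟩, fun μ a => ?_⟩
  have b : IsPGroup p (inertia μ.1) := fun y => by
    obtain ⟨n, c, d, m, e, f⟩ := exists_fixed_class_of_mem_inertia μ.2 a y.2
    obtain ⟨k, g⟩ := h.pgroup_cen hNp c d ⟨y, (Subgroup.mul_mem_cancel_left _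
      (Subgroup.mem_centralizer_singleton_iff.2 (h.comm e c))).1 f⟩
    exact ⟨k, Subtype.ext (congrArg Subtype.val g :)⟩
  have c : (inertia μ.1).index = Nat.card N - 1 := by
    rw [← card_conjSet, ← sum_dg_sq, Finset.sum_congr rfl fun θ _ => by
      rw [dg_eq (n := 1) (by simpa using θ.2.deg_eq_one_of_comm fun a b => Subtype.ext (h.comm a.2 b.2))]]
    simp only [one_pow, Finset.sum_const, smul_eq_mul, mul_one]
    rw [← Finset.card_erase_of_mem (Finset.mem_univ ⟨_, isIrrCharacter_one⟩)]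
    have o : ∀ θ, Irr N θ → θ ≠ (fun _ => 1) → ⟪χ.1↾N, θ⟫ ≠ 0 := fun θ u v => by
      obtain ⟨ψ, w, x⟩ := exists_irr_over N u
      obtain rfl : ψ = χ.1 := by_contra fun e => v (u.eq_one_of_const fun n =>
        (w.isCharacter.res N).eq_deg_of_inner_ne_zero u x (h.ker ψ w e n n.2))
      exact x
    refine (Finset.card_nbij Subtype.val (fun θ u => ?_) Subtype.val_injective.injOn fun θ u => ?_).symm
    · exact mem_conjSet.2 (exists_conjF_of_under χ.2 μ.2 θ.2 (o _ μ.2 a)
        (o _ θ.2 fun e => (Finset.mem_erase.1 u).1 (Subtype.ext e)))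
    · obtain ⟨g, rfl⟩ := mem_conjSet.1 u
      exact ⟨⟨_, μ.2.conjF g⟩, Finset.mem_erase.2 ⟨fun e => a (conjF_injective g (congrArg Subtype.val e :)),
        Finset.mem_univ _⟩, rfl⟩
  exact ⟨b.toSylow (c ▸ h.not_dvd hNp), fun g => mem_inertia'.trans
    ⟨fun e n n' f => (congrArg μ.1 (Subtype.ext f)).trans (e n), fun e n => e n _ rfl⟩⟩

end Cfsg.Agent.S4837
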