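import Cfsg.Statements.S4838
import Cfsg.Agent.H3.Cnt

set_option autoImplicit false
open Cfsg

namespace Cfsg.Agent.S4838
open H3
export H3 (inner_add_left inner_add_right inner_sub_left inner_sub_right inner_neg_left inner_neg_right
  inner_zero_left inner_zero_right inner_smul_left inner_smul_right inner_conj_symm inner_self_eq_zero
  inner_self_im)

/-- Let G be a finite group of order greater than 2 with an irreducible character χ nonzero on exactly two conjugacy classes, N the normal p-subgroup of elements where χ is nonzero, and P a Sylow p-subgroup of G. Then (a) for every x outside N the centralizer of x in G has the same order as the centralizer of xN in G/N; (b) the centre of P lies in N, and equals N exactly when P is normal in G; (c) N, viewed inside P, is a term of the upper central series of P. -/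
theorem result {G : Type*} [Group G] [Finite G] (hG : 2 < Nat.card G) (χ : Cfsg.IrrCharacter G) (hχ : Nat.card {C : ConjClasses G // ∃ g ∈ C.carrier, (χ : G → ℂ) g ≠ 0} = 2) (p : ℕ) [Fact p.Prime] (N : Subgroup G) [N.Normal] (hN : ∀ g : G, g ∈ N ↔ (χ : G → ℂ) g ≠ 0) (hNp : IsPGroup p N) (hN1 : N ≠ ⊥) (P : Sylow p G) :
    (∀ x : G, x ∉ N → Nat.card (Subgroup.centralizer ({x} : Set G)) = Nat.card (Subgroup.centralizer ({(x : G ⧸ N)} : Set (G ⧸ N)))) ∧
      ((Subgroup.center ↥(P : Subgroup G)).map (P : Subgroup G).subtype ≤ N ∧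
        ((Subgroup.center ↥(P : Subgroup G)).map (P : Subgroup G).subtype = N ↔ (P : Subgroup G).Normal)) ∧
      (∃ i : ℕ, Subgroup.upperCentralSeries ↥(P : Subgroup G) i = N.subgroupOf (P : Subgroup G)) := by
  set_option maxSynthPendingDepth 3 in
  classical
  obtain ⟨M, h⟩ := exists_gag hG χ.2 hχ
  obtain rfl : N = M := Subgroup.ext fun g => (hN g).trans (h.supp g)
  have l : N ≤ P := hNp.le_sylow_of_normal P
  have k : ∀ y : (P : Subgroup G), y.1 ∉ N → Nat.card N ≤ (Subgroup.centralizer {y}).index := fun y a => by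
    have b : Nat.card (Subgroup.centralizer {y}) * Nat.card N ∣ Nat.card G := by
      rw [← N.index_mul_card, ← card_map_subtype]
      refine Nat.mul_dvd_mul_right ((Subgroup.card_dvd_of_le ?_).trans
        ((h.card_cen a).dvd.trans (Subgroup.card_subgroup_dvd_card _))) _
      rintro _ ⟨z, c, rfl⟩
      exact Subgroup.mem_centralizer_singleton_iff.2 (congrArg Subtype.val (Subgroup.mem_centralizer_singleton_iff.1 c))
    obtain ⟨i, c⟩ := (P.2.to_subgroup (Subgroup.centralizer {y})).exists_card_eq
    obtain ⟨j, d⟩ := hNp.exists_card_eq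
    rw [← (P : Subgroup G).card_mul_index] at b
    replace b := Nat.le_of_dvd Nat.card_pos (Nat.Coprime.dvd_of_dvd_mul_right (by
      rw [c, d, ← pow_add]
      exact Nat.Coprime.pow_left _ ((Nat.Prime.coprime_iff_not_dvd Fact.out).2 P.not_dvd_index)) b)
    rw [← (Subgroup.centralizer {y}).card_mul_index] at b
    exact Nat.le_of_mul_le_mul_left b Nat.card_pos
  have z : (Subgroup.center ↥(P : Subgroup G)).map (P : Subgroup G).subtype ≤ N := by
    rintro _ ⟨y, a, rfl⟩
    by_contra b
    have := k y b
    rw [show Subgroup.centralizer {y} = ⊤ from eq_top_iff.2 fun g _ => Subgroup.mem_centralizer_singleton_iff.2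
      (Subgroup.mem_center_iff.1 a g), Subgroup.index_top] at this
    exact hN1 (Subgroup.card_eq_one.1 (le_antisymm this Nat.card_pos))
  refine ⟨fun x a => h.card_cen a, ⟨z, fun e => ?_, fun e => le_antisymm z (h.min fun f => ?_)⟩, ?_⟩
  · obtain ⟨⟨x, a⟩, b⟩ := Subgroup.ne_bot_iff_exists_ne_one.1 hN1
    have c : (P : Subgroup G) ≤ Subgroup.centralizer (N : Set G) := fun g c => Subgroup.mem_centralizer_iff.2 fun n d => by
      obtain ⟨m, u, rfl⟩ := e.ge d
      exact congrArg Subtype.val (Subgroup.mem_center_iff.1 u ⟨g, c⟩).symm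
    rw [← P.3 ((h.pgroup_cen hNp a fun e => b (Subtype.ext e)).to_le (Subgroup.centralizer_le (by simpa using a))) c]
    infer_instance
  · haveI := (Subgroup.nontrivial_iff_ne_bot _).2 (mt (fun e => le_bot_iff.1 (l.trans_eq e)) hN1)
    exact (Subgroup.nontrivial_iff_ne_bot _).1 P.2.center_nontrivial
      ((Subgroup.map_eq_bot_iff_of_injective _ (Subgroup.subtype_injective _)).1 f)
  by_cases e : N.subgroupOf P = ⊤
  · refine ⟨1, ?_⟩
    rw [e, Subgroup.upperCentralSeries_one, eq_top_iff]
    exact fun x _ => Subgroup.mem_center_iff.2 fun y => Subtype.ext (h.comm (e.ge trivial) (e.ge trivial))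
  haveI := P.2.isNilpotent
  have x : ∃ i, ¬ Subgroup.upperCentralSeries (P : Subgroup G) (i + 1) ≤ N.subgroupOf P :=
    ⟨Group.nilpotencyClass (P : Subgroup G), fun f => e (top_le_iff.1 (Subgroup.upperCentralSeries_nilpotencyClass.ge.trans
      ((Subgroup.upperCentralSeries_mono _ (Nat.le_succ _)).trans f)))⟩
  have a : Subgroup.upperCentralSeries (P : Subgroup G) (Nat.find x) ≤ N.subgroupOf P := by
    cases f : Nat.find x with
    | zero => exact bot_le
    | succ n => exact not_not.1 (Nat.find_min x (by omega))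
  obtain ⟨y, b, c⟩ := SetLike.not_le_iff_exists.1 (Nat.find_spec x)
  refine ⟨_, Subgroup.eq_of_le_of_card_ge a ?_⟩
  rw [Nat.card_congr (Subgroup.subgroupOfEquivOfLe l).toEquiv]
  refine (k y c).trans ?_
  rw [← card_isConj_eq_index]
  refine Nat.card_le_card_of_injective (fun w => ⟨y * w.1⁻¹, ?_⟩) fun u v f => Subtype.ext (by simpa using f)
  obtain ⟨g, d⟩ := isConj_iff.1 w.2
  simpa [← d, mul_assoc, commutatorElement_def] using
    Subgroup.Normal.conj_mem' inferInstance _ (Subgroup.mem_upperCentralSeries_succ_iff.1 b g) 1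

end Cfsg.Agent.S4838
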