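import Cfsg.Statements.S4856
import Cfsg.Agent.H3.Cnt

set_option autoImplicit false
open Cfsg

namespace Cfsg.Agent.S4856
open H3
export H3 (inner_add_left inner_add_right inner_sub_left inner_sub_right inner_neg_left inner_neg_right
  inner_zero_left inner_zero_right inner_smul_left inner_smul_right inner_conj_symm inner_self_eq_zero
  inner_self_im)

/-- For an element z of a finite group G, the number of pairs (x, y) of elements with x y x⁻¹ y⁻¹ = z equals the order of G times the sum over the irreducible characters χ of χ(z)/χ(1). -/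
theorem result {G : Type*} [Group G] [Finite G] (z : G) : (Nat.card {xy : G × G // xy.1 * xy.2 * xy.1⁻¹ * xy.2⁻¹ = z} : ℂ) = (Nat.card G : ℂ) * ∑ᶠ χ : Cfsg.IrrCharacter G, (χ : G → ℂ) z / (χ : G → ℂ) 1 := by
  set_option maxSynthPendingDepth 3 in
  classical
  haveI := Fintype.ofFinite G
  have := congrArg (starRingEnd ℂ) (cnt_eq_sum_irr (fun x : G × G => x.1 * x.2 * x.1⁻¹ * x.2⁻¹)
    (fun g => ⟨(MulAut.conj g).toEquiv.prodCongr (MulAut.conj g).toEquiv, fun x => by simp [mul_assoc]⟩) z)
  rw [cnt, map_natCast, map_sum] at this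
  rw [this, finsum_eq_sum_of_fintype, Finset.mul_sum]
  refine Finset.sum_congr rfl fun χ _ => ?_
  have a := χ.2.sum_comm_mul 1
  simp only [mul_one] at a
  have b := χ.2.deg_ne_zero
  have c := card_ne_zero G
  rw [show ∑ x : G × G, χ.1 (x.1 * x.2 * x.1⁻¹ * x.2⁻¹) = Nat.card G ^ 2 / χ.1 1 from
    mul_left_cancel₀ (pow_ne_zero 2 b) (by rw [a]; field_simp)]
  simp only [map_mul, map_inv₀, map_natCast, map_div₀, map_pow, conj_deg χ.2.isCharacter, Complex.conj_conj]
  field_simp

end Cfsg.Agent.S4856
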