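import Cfsg.Statements.S4866
import Cfsg.Agent.H3.Cls

set_option autoImplicit false
open Cfsg

namespace Cfsg.Agent.S4866
open H3
export H3 (inner_add_left inner_add_right inner_sub_left inner_sub_right inner_neg_left inner_neg_right
  inner_zero_left inner_zero_right inner_smul_left inner_smul_right inner_conj_symm inner_self_eq_zero
  inner_self_im)

open H7

/-- Let K be a normal subgroup of odd index in the finite group G. Then G has as many orbits on the real-valued irreducible complex characters of K (acting by conjugation) as it has orbits on the conjugacy classes of K that are real in K; equivalently, the number of G-orbits of real-valued irreducible characters of K equals the number of G-conjugacy classes of elements of K that are conjugate in K to their inverses. -/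
theorem result {G : Type*} [Group G] [Finite G] (K : Subgroup G) [K.Normal] (hodd : Odd K.index) : Nat.card (Quot (fun θ η : {θ : Cfsg.IrrCharacter ↥K // (∀ k : ↥K, ((θ : ↥K → ℂ) k).im = 0)} => ∃ g : G, ∀ k k' : ↥K, (k' : G) = g * (k : G) * g⁻¹ → (η.1 : ↥K → ℂ) k' = (θ.1 : ↥K → ℂ) k)) = Nat.card (Quot (fun x y : {x : ↥K // IsConj x x⁻¹} => ∃ g : G, (y.1 : G) = g * x.1 * g⁻¹)) := by
  set_option maxSynthPendingDepth 3 in
  let τ := fun g : G => MulAut.conjNormal (H := K) g
  letI : MulAction G {θ : IrrCharacter K // ∀ k, (θ.1 k).im = 0} :=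
    { smul := fun g θ => ⟨⟨conjF θ.1.1 g⁻¹, θ.1.2.conjF _⟩, fun k => θ.2 _⟩
      one_smul := fun θ => Subtype.ext (Subtype.ext (by change conjF _ 1⁻¹ = _; rw [inv_one, conjF_one]))
      mul_smul := fun g h θ => Subtype.ext (Subtype.ext (by
        change conjF _ (g * h)⁻¹ = _; rw [mul_inv_rev, conjF_mul]; rfl)) }
  have rc : ∀ (g : G) (C : ConjClasses K), RealC C → RealC (C.map (τ g).toMonoidHom) := fun g C h => by
    obtain ⟨x, rfl⟩ := ConjClasses.mk_surjective C
    exact realC_mk.2 (by simpa using (τ g).toMonoidHom.map_isConj (realC_mk.1 h))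
  letI : MulAction G {C : ConjClasses K // RealC C} :=
    { smul := fun g C => ⟨C.1.map (τ g).toMonoidHom, rc g _ C.2⟩
      one_smul := fun ⟨C, h⟩ => Subtype.ext (by
        obtain ⟨x, rfl⟩ := ConjClasses.mk_surjective C
        exact congrArg ConjClasses.mk (by simp [τ]))
      mul_smul := fun g h ⟨C, _⟩ => Subtype.ext (by
        obtain ⟨x, rfl⟩ := ConjClasses.mk_surjective C
        exact congrArg ConjClasses.mk (by simp [τ])) }
  have od : ∀ {T : Subgroup G} {g : G}, K ≤ T → g ^ 2 ∈ T → g ∈ T := fun {T g} a b =>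
    mem_of_pow_cop hodd.coprime_two_left b (a (K.pow_index_mem g))
  rw [card_quot_eq (G := G) _ id Function.surjective_id fun θ η => exists_congr fun g => ?_,
    card_quot_eq (G := G) _ (fun x : {x : K // IsConj x x⁻¹} =>
      (⟨ConjClasses.mk x.1, realC_mk.2 x.2⟩ : {C : ConjClasses K // RealC C}))
      (fun ⟨C, h⟩ => by
        obtain ⟨x, rfl⟩ := ConjClasses.mk_surjective C
        exact ⟨⟨x, realC_mk.1 h⟩, rfl⟩) fun x y => ?_]
  · refine card_orbits_eq fun g => ?_
    let P : ConjClasses K → Prop := fun C => RealC C ∧ C.map (τ g).toMonoidHom = C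
    have := card_fixed_irr (fun x : K => τ g x⁻¹) (fun χ h => (h.comp_equiv (τ g)).comp_inv) P fun x => ⟨fun h => ?_, fun h => ?_⟩
    · refine Eq.trans (Nat.card_congr ?_) (this.trans (Nat.card_congr ?_))
      · refine (Equiv.subtypeSubtypeEquivSubtypeInter _ fun θ : IrrCharacter K => conjF θ.1 g = θ.1).trans
          (Equiv.subtypeEquivRight fun θ => ?_) |> (Equiv.subtypeEquivRight fun θ => ?_).trans
        swap
        · rw [real_iff θ.2.isCharacter]
          refine ⟨fun h => funext fun x => (congrFun h.2 x⁻¹).trans (congrFun h.1 x), fun h => ?_⟩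
          have i : conjF θ.1 g = θ.1 := mem_inertia.1 (od (le_inertia θ.2.isClassFunction) (mem_inertia.2 (funext fun x => by
            refine Eq.trans ?_ ((congrFun h (τ g x⁻¹)).trans (congrFun h x))
            exact congrArg θ.1 (Subtype.ext (by simp [τ, sq, mul_assoc])))))
          exact ⟨funext fun x => (congrFun i x⁻¹).symm.trans (congrFun h x), i⟩
        · rw [MulAction.mem_fixedBy, Subtype.ext_iff, Subtype.ext_iff, ← mem_inertia, ← inv_mem_iff]; rfl
      · exact ((Equiv.subtypeEquivRight fun C => by rw [MulAction.mem_fixedBy, Subtype.ext_iff]; rfl).trans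
          (Equiv.subtypeSubtypeEquivSubtypeInter _ fun C : ConjClasses K => C.map (τ g).toMonoidHom = C)).symm
    · exact (ConjClasses.mk_eq_mk_iff_isConj.1 h.2).symm.trans ((τ g).toMonoidHom.map_isConj (realC_mk.1 h.1))
    · have i : g ∈ K ⊔ cen1 (x : G) := od le_sup_left (by
        obtain ⟨a, a1, a2⟩ := isConj_sub.1 (h.trans ((τ g).toMonoidHom.map_isConj (isConj_inv_iff.2 h)))
        rw [← mul_inv_cancel_left a (g ^ 2)]
        refine Subgroup.mul_mem_sup a1 (mem_cen1.2 ?_)
        have : a * x * a⁻¹ = g * g * x * (g * g)⁻¹ := by simpa [τ, mul_assoc] using a2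
        rw [sq]
        calc a⁻¹ * (g * g) * x = a⁻¹ * (g * g * x * (g * g)⁻¹) * (g * g) := by group
          _ = _ := by rw [← this]; group)
      obtain ⟨a, a1, c, c1, e⟩ := (mem_sup_nrm' (le_nrm_of_normal _ K)).1 i
      have j : IsConj x (τ g x) := isConj_sub.2 ⟨a, a1, by
        simp [τ, ← e, mul_assoc, ← mul_assoc c, mem_cen1.1 c1]⟩
      exact ⟨realC_mk.2 (h.trans (by simpa using (isConj_inv_iff.2 j).symm)),
        ConjClasses.mk_eq_mk_iff_isConj.2 j.symm⟩
  · refine ⟨fun ⟨g, e⟩ => ⟨g, Subtype.ext (congrArg ConjClasses.mk (Subtype.ext e.symm))⟩, fun ⟨g, e⟩ => ?_⟩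
    obtain ⟨a, -, e⟩ := mk_eq_mk_sub.1 (congrArg Subtype.val e)
    exact ⟨a * g, by rw [← e]; simp [τ, mul_assoc]⟩
  · rw [Subtype.ext_iff, Subtype.ext_iff]
    refine ⟨fun h => funext fun k => (h _ k (by simp [mul_assoc])).symm, fun h k k' e => ?_⟩
    refine (congrFun h k').symm.trans ?_
    exact congrArg θ.1.1 (Subtype.ext (by simp [e, mul_assoc]))

end Cfsg.Agent.S4866
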