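import Cfsg.Statements.S4872
import Cfsg.Agent.H3.Mack

set_option autoImplicit false
open Cfsg

namespace Cfsg.Agent.S4872
open H3
export H3 (inner_add_left inner_add_right inner_sub_left inner_sub_right inner_neg_left inner_neg_right
  inner_zero_left inner_zero_right inner_smul_left inner_smul_right inner_conj_symm inner_self_eq_zero
  inner_self_im)

/-- Let N be a normal subgroup of the finite group G with G/N a 2-group, and let φ be an irreducible complex character of N of 2-defect zero (the 2-part of #N divides φ(1)) whose complex conjugate is G-conjugate to φ. Then some irreducible character of G with Frobenius–Schur indicator +1 contains φ with multiplicity exactly one on restriction to N. -/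
theorem result {G : Type*} [Group G] [Finite G] (N : Subgroup G) [N.Normal] (h2 : IsPGroup 2 (G ⧸ N)) (φ : Cfsg.IrrCharacter ↥N) (hdef : 2 ^ (Nat.card ↥N).factorization 2 ∣ Cfsg.charDegree (φ : ↥N → ℂ)) (hconj : ∃ g : G, ∀ n n' : ↥N, (n' : G) = g * (n : G) * g⁻¹ → (φ : ↥N → ℂ) n' = (starRingEnd ℂ) ((φ : ↥N → ℂ) n)) : ∃ χ : Cfsg.IrrCharacter G, (Nat.card G : ℂ)⁻¹ * ∑ᶠ g : G, (χ : G → ℂ) (g * g) = 1 ∧ (Nat.card ↥N : ℂ)⁻¹ * ∑ᶠ n : ↥N, (χ : G → ℂ) n * (starRingEnd ℂ) ((φ : ↥N → ℂ) n) = 1 := by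
  set_option maxSynthPendingDepth 3 in
  classical
  haveI := Fintype.ofFinite G
  simp only [finsum_eq_sum_of_fintype]
  obtain ⟨P⟩ : Nonempty (Sylow 2 G) := inferInstance
  obtain ⟨g, hg⟩ := hconj
  have c : conjF φ.1 g = fun n => (starRingEnd ℂ) (φ.1 n) := funext fun n => hg n _ rfl
  choose! a ha using fun χ (h : Irr G χ) => (h.isCharacter.res P).inner_nat isCharacter_one
  choose! b hb using fun χ (h : Irr G χ) => (h.isCharacter.res N).inner_nat φ.2.isCharacter
  obtain ⟨k, l⟩ := h2.exists_card_eq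
  have s : N ⊔ P = ⊤ := H1.sup_eq_top_of_coprime_index
    ((show N.index = _ from l).symm ▸ (Nat.prime_two.coprime_iff_not_dvd.2 P.not_dvd_index).pow_left k)
  have e : ((∑ χ : IrrCharacter G, a χ * b χ : ℕ) : ℂ) = ⟪(indFun (P : Subgroup G) fun _ => 1)↾N, φ.1⟫ := by
    rw [← inner_indFun_right N _ (isClassFunction_indFun _ _), (isClassFunction_indFun _ _).inner_eq_sum, Nat.cast_sum]
    refine Finset.sum_congr rfl fun χ _ => ?_
    rw [← inner_conj_symm _ (indFun N φ.1), Complex.conj_conj, inner_indFun_right N _ χ.2.isClassFunction, hb _ χ.2,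
      inner_indFun_left _ _ χ.2.isClassFunction, isCharacter_one.inner_comm (χ.2.isCharacter.res _), ha _ χ.2, Nat.cast_mul]
  have o : Odd (∑ χ : IrrCharacter G, a χ * b χ) := by
    have q := ((H1.isSylowIn_top P).inf le_top (le_top.trans N.normalizer_eq_top.ge)).card_eq
    rw [inner_res_ind_fac (fac_of_sup s) (isClassFunction_const 1) φ.2.isClassFunction,
      isCharacter_one.inner_comm (φ.2.isCharacter.res _)] at e
    have := card_mul_inner_of_supp (K := (P : Subgroup G).subgroupOf N) (χ := φ.1) fun x c d => by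
      obtain ⟨j, f⟩ := P.2.exists_orderOf_eq_pow ⟨x, c⟩
      refine φ.2.eq_zero_of_dz Nat.prime_two hdef ?_
      rw [← Subgroup.orderOf_coe, ← Subgroup.orderOf_mk (x : G) c, f]
      exact dvd_pow_self 2 fun g => d (Subtype.ext (orderOf_eq_one_iff.1 ((Subgroup.orderOf_mk (x : G) c).symm.trans (by simpa only [g, pow_zero] using f))))
    rw [← e, φ.2.deg, ← Subgroup.inf_subgroupOf_right, Nat.card_congr (Subgroup.subgroupOfEquivOfLe inf_le_right).toEquiv,
      q, ← Nat.cast_mul, Nat.cast_inj] at this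
    exact Nat.not_even_iff_odd.1 fun c => Nat.pow_succ_factorization_not_dvd Nat.card_pos.ne' Nat.prime_two
      (((pow_succ 2 _).symm ▸ Nat.mul_dvd_mul_left _ c.two_dvd).trans (this ▸ φ.2.dg_dvd))
  obtain ⟨χ, u, v, w⟩ := exists_real_odd (fun χ => a χ * b χ) (fun χ h => by
    congr 1 <;> apply Nat.cast_injective (R := ℂ)
    · rw [← ha _ h.conj, ← ha _ h, (h.isCharacter.res P).inner_comm isCharacter_one, ← inner_conj_conj]; simp
    · rw [← hb _ h.conj, ← hb _ h, ← inner_res_conjF h.conj.isClassFunction φ.1 g, c, inner_conj_conj]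
      exact φ.2.isCharacter.inner_comm (h.isCharacter.res N)) o
  · refine ⟨⟨χ, u⟩, (fs_eq_of_odd (P : Subgroup G).subtype u isIrrCharacter_one v (by simp) (ha χ u)
      (Nat.odd_mul.1 w).1).trans fsInd_one, (hb χ u).trans ?_⟩
    obtain ⟨e, d, f, -⟩ := dg_eq_mul φ.2 u ((hb χ u).trans_ne (Nat.cast_ne_zero.2 (Nat.odd_mul.1 w).2.pos.ne'))
    obtain rfl := Nat.cast_injective ((hb χ u).symm.trans f)
    exact_mod_cast Nat.Coprime.eq_one_of_dvd ((Nat.odd_mul.1 w).2.coprime_two_right.pow_right k)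
      (l ▸ d.trans (Subgroup.relIndex_dvd_index_of_le (le_inertia φ.2.isClassFunction)))

end Cfsg.Agent.S4872
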