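import Cfsg.Statements.S4873
import Cfsg.Agent.H3.Real

set_option autoImplicit false
open Cfsg

namespace Cfsg.Agent.S4873
open H3
export H3 (inner_add_left inner_add_right inner_sub_left inner_sub_right inner_neg_left inner_neg_right
  inner_zero_left inner_zero_right inner_smul_left inner_smul_right inner_conj_symm inner_self_eq_zero
  inner_self_im)

/-- Let N be a normal subgroup of odd index in the finite group G. Then every irreducible complex character of N with Frobenius–Schur indicator +1 lies under exactly one irreducible character of G with Frobenius–Schur indicator +1. -/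
theorem result {G : Type*} [Group G] [Finite G] (N : Subgroup G) [N.Normal] (hodd : Odd N.index) (φ : Cfsg.IrrCharacter ↥N) (hφ : (Nat.card ↥N : ℂ)⁻¹ * ∑ᶠ g : ↥N, (φ : ↥N → ℂ) (g * g) = 1) : ∃! χ : Cfsg.IrrCharacter G, (Nat.card G : ℂ)⁻¹ * ∑ᶠ g : G, (χ : G → ℂ) (g * g) = 1 ∧ (∑ᶠ n : ↥N, (χ : G → ℂ) n * (starRingEnd ℂ) ((φ : ↥N → ℂ) n)) ≠ 0 := by
  set_option maxSynthPendingDepth 3 in
  classical
  haveI := Fintype.ofFinite G
  simp only [finsum_eq_sum_of_fintype] at hφ ⊢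
  have r := φ.2.real_of_fs (hφ.trans_ne one_ne_zero)
  obtain ⟨χ, u, v, w, -, y⟩ := invG_conj.over' φ.2 r hodd
  have i : ∀ ψ : G → ℂ, ∑ n : N, ψ n * (starRingEnd ℂ) (φ.1 n) ≠ 0 ↔ ⟪ψ↾N, φ.1⟫ ≠ 0 := fun ψ => by
    rw [← card_mul_inner ψ↾N, mul_ne_zero_iff_left (card_ne_zero N)]
  refine ⟨⟨χ, u⟩, ⟨?_, (i _).2 w⟩, fun ψ h => Subtype.ext (y ψ ψ.2 (ψ.2.real_of_fs (h.1.trans_ne one_ne_zero)) ((i _).1 h.2))⟩
  obtain ⟨e, a, b, -⟩ := dg_eq_mul φ.2 u w
  exact (fs_eq_of_odd N.subtype u φ.2 v r b (hodd.of_dvd_nat (a.trans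
    (Subgroup.relIndex_dvd_index_of_le (le_inertia φ.2.isClassFunction))))).trans hφ

end Cfsg.Agent.S4873
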