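import Cfsg.Statements.S4888
import Cfsg.Agent.H9.IS

set_option autoImplicit false
open Cfsg

namespace Cfsg.Agent.S4888
open H9 H3 MonoidAlgebra
open scoped Pointwise
set_option linter.style.haveILetI false
set_option linter.unusedVariables false
open H9 H3

/-- Let G be a finite group, p a prime and M a maximal ideal of the algebraic integers containing p. Then all height-zero irreducible characters of the principal p-block of G (equivalently, all its characters of degree prime to p) have the same degree if and only if G has a normal p-complement. -/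
theorem result {G : Type*} [Group G] [Finite G] (p : ℕ) [Fact p.Prime] (M : Ideal Cfsg.AlgInt) (hM : Cfsg.IsPModular p M) : (∃ d : ℕ, ∀ χ : Cfsg.IrrCharacter G, χ ∈ (Cfsg.principalBlock M G) → Cfsg.blockHeight p (Cfsg.principalBlock M G) (χ : G → ℂ) = 0 → Cfsg.charDegree (χ : G → ℂ) = d) ↔ Cfsg.HasNormalPComplement p G := by
  haveI : PMod p M := ⟨hM⟩
  refine ⟨fun ⟨d, h⟩ => isaacs_smith (M := M) (k := 1) (m := 0) (Nat.coprime_one_left _) (by simp) fun χ hχ hd _ => ?_,
    fun h => ⟨1, fun χ hχ h0 => deg_eq_one_of_npc h hχ (height_B0_iff.1 h0)⟩⟩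
  rw [h χ hχ (height_B0_iff.2 hd), ← h _ trivChar_mem_B0 height_trivChar]
  simp [trivChar, charDegree]

end Cfsg.Agent.S4888
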