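import Cfsg.Statements.S4892
import Cfsg.Agent.H9.AD2

set_option autoImplicit false
open Cfsg

namespace Cfsg.Agent.S4892
open H9 H3 MonoidAlgebra
open scoped Pointwise
set_option linter.style.haveILetI false
set_option linter.unusedVariables false
theorem mem_fixed (F : IntermediateField ℚ ℂ) {z : ℂ} (hz : IsIntegral ℤ z)
    (h : ∀ σ : ℂ ≃+* ℂ, (∀ x ∈ F, σ x = x) → σ z = z) : z ∈ F := by
  obtain ⟨q, rfl⟩ := mem_range_of_fixed (F := F) hz.tower_top.isAlgebraic fun σ hσ => h σ fun x hx => hσ ⟨x, hx⟩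
  exact q.2

/-- Let p be an odd prime, M a maximal ideal of the algebraic integers containing p, N a normal subgroup of the finite group G, and θ an irreducible character of N that is G-invariant, of degree prime to p, p-rational (values in the field generated over ℚ by a root of unity of order prime to p) and lies in the principal p-block of N. Let Q be a Sylow p-subgroup of N and suppose the index of N·C_G(Q) in G is a power of p. Then θ extends to a p-rational irreducible character of G lying in the principal p-block of G. -/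
theorem result {G : Type*} [Group G] [Finite G] (p : ℕ) [Fact p.Prime] (hp : p ≠ 2) (M : Ideal Cfsg.AlgInt) (hM : Cfsg.IsPModular p M) (N : Subgroup G) [N.Normal] (θ : Cfsg.IrrCharacter ↥N) (hinv : ∀ g : G, ∀ n n' : ↥N, (n' : G) = g * (n : G) * g⁻¹ → (θ : ↥N → ℂ) n' = (θ : ↥N → ℂ) n) (hdeg : ¬ p ∣ Cfsg.charDegree (θ : ↥N → ℂ)) (hrat : ∃ m : ℕ, ¬ p ∣ m ∧ ∀ n : ↥N, (θ : ↥N → ℂ) n ∈ IntermediateField.adjoin ℚ ({Complex.exp (2 * Real.pi * Complex.I / m)} : Set ℂ)) (hB : θ ∈ Cfsg.principalBlock M ↥N) (Q : Sylow p ↥N) (hidx : ∃ a : ℕ, (N ⊔ Subgroup.centralizer (((Q : Subgroup ↥N).map N.subtype : Subgroup G) : Set G)).index = p ^ a) : ∃ χ : Cfsg.IrrCharacter G, χ ∈ (Cfsg.principalBlock M G) ∧ (∃ n : ℕ, ¬ p ∣ n ∧ ∀ g : G, (χ : G → ℂ) g ∈ IntermediateField.adjoin ℚ ({Complex.exp (2 * Real.pi * Complex.I / n)} : Set ℂ)) ∧ ∀ n : ↥N, (χ : G → ℂ) n = (θ : ↥N → ℂ) n := by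
  haveI : PMod p M := ⟨hM⟩
  obtain ⟨a, ha⟩ := hidx
  obtain ⟨m, hm, hr⟩ := hrat
  have h := ad2_of_index Q ha
  obtain ⟨α, e⟩ := exists_amb θ.1
  have b : InB0 M N α := ⟨θ, hB, e.symm⟩
  have d : ¬ p ∣ dg α := by rwa [dg_congr (congrFun e 1)]
  have r : IsPRegular p (dt α↾N) := by
    rw [e, ← pp_eq_one_iff]
    refine MonoidHom.ext fun g => ?_
    have m0 : m ≠ 0 := by rintro rfl; exact hm (dvd_zero _)
    obtain ⟨j, hj⟩ := isPElt_iff_pow.1 (isPElt_pp (p := p) (dt θ.1))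
    have c : m.Coprime (p ^ j) := ((Fact.out : p.Prime).coprime_iff_not_dvd.2 hm).symm.pow_right _
    obtain ⟨k, h1, h2⟩ := Nat.chineseRemainder c 1 2
    obtain ⟨σ, hσ⟩ := exists_ringEquiv_pow (mul_ne_zero m0 (p_pow_ne_zero j)) (k := k) (Nat.Coprime.mul_right
      (by rw [Nat.Coprime, h1.gcd_eq]; simp) (by
        rw [Nat.Coprime, h2.gcd_eq]; exact ((Nat.coprime_primes Nat.prime_two Fact.out).2 hp.symm).pow_right _))
    have h3 : ∀ z ∈ IntermediateField.adjoin ℚ ({Complex.exp (2 * Real.pi * Complex.I / m)} : Set ℂ), σ z = z :=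
      fun z hz => by
        induction hz using IntermediateField.adjoin_induction with
        | mem x hx =>
          have := (Complex.isPrimitiveRoot_exp m m0).pow_eq_one
          rw [hx, hσ _ (pow_eq_one_of_dvd this (dvd_mul_right _ _)), pow_eq_pow_of_modEq h1 this, pow_one]
        | algebraMap x => exact map_ratCast σ x
        | add x y _ _ a b => rw [map_add, a, b]
        | inv x _ a => rw [map_inv₀, a]
        | mul x y _ _ a b => rw [map_mul, a, b]
    have h4 : ∀ g, σ (dt θ.1 g) = dt θ.1 g := fun g => by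
      have := θ.2.isCharacter.dt_gal σ.toRingHom g
      rw [show (fun x => σ.toRingHom (θ.1 x)) = θ.1 from funext fun x => h3 _ (hr x)] at this
      exact this.symm
    obtain ⟨i, hi⟩ := mem_powers_iff_mem_zpowers.2 (pp_mem_zpowers (p := p) (dt θ.1))
    have h5 : ((pp p (dt θ.1) g : ℂˣ) : ℂ) = (dt θ.1 g : ℂ) ^ i := by rw [← hi]; rfl
    have h6 : ((pp p (dt θ.1) g : ℂˣ) : ℂ) ^ p ^ j = 1 := congrArg Units.val (DFunLike.congr_fun hj g)
    have h7 := hσ _ (pow_eq_one_of_dvd h6 (dvd_mul_left _ _))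
    rw [pow_eq_pow_of_modEq h2 h6, h5, map_pow, h4, ← h5, pow_two, eq_comm, mul_eq_left₀ (Units.ne_zero _)] at h7
    exact Units.ext h7
  obtain ⟨χ, c, f, g, s⟩ := h.exists_dt b d r (eq_top_iff.2 fun g _ => e ▸ mem_inertia.2 (funext fun n => hinv g n _ rfl))
  refine ⟨⟨χ, c⟩, inB0_top.1 (g ⊤ le_top), ⟨m, hm, fun x => ?_⟩, congrFun (f.trans e)⟩
  generalize IntermediateField.adjoin ℚ ({Complex.exp (2 * Real.pi * Complex.I / m)} : Set ℂ) = F at hr ⊢
  refine mem_fixed F (c.isCharacter.isIntegral x) fun σ hσ => congrFun (h.eq_of_dt (f ▸ b.irr)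
    (by rwa [dg_congr (congrFun f 1)]) c.isCharacter (c.isCharacter.gal σ.toRingHom) (funext fun n => by
      rw [congrFun (f.trans e) n]; exact hσ _ (hr n)) (fun y _ => g _ le_sup_left)
    (fun y _ => (g _ le_sup_left).gal p _) s (isPRegular_of_pow_eq_one s (MonoidHom.ext fun y => Units.ext ?_))) x
  change ((dt _ y : ℂˣ) : ℂ) ^ _ = 1
  rw [c.isCharacter.dt_gal, ← map_pow, show ((dt χ y : ℂˣ) : ℂ) ^ _ = 1 from
    congrArg Units.val (DFunLike.congr_fun (pow_orderOf_eq_one (dt χ)) y), map_one]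

end Cfsg.Agent.S4892
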