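import Cfsg.Statements.S4911
import Cfsg.Agent.H3.Cls

set_option autoImplicit false
open Cfsg

namespace Cfsg.Agent.S4911
open H3
export H3 (inner_add_left inner_add_right inner_sub_left inner_sub_right inner_neg_left inner_neg_right
  inner_zero_left inner_zero_right inner_smul_left inner_smul_right inner_conj_symm inner_self_eq_zero
  inner_self_im)

open H7
open scoped ComplexConjugate

/-- Let P and K be subgroups of a finite group with P a p-group normalizing K and K of order prime to p. Then the number of P-invariant real-valued irreducible complex characters of K equals the number of conjugacy classes of K that are real (closed under inversion) and P-invariant. Moreover, if every real-valued irreducible character of K is P-invariant, then every real element of K (one conjugate in K to its inverse) is conjugate in K to an element centralized by P. -/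
theorem result {G : Type*} [Group G] [Finite G] (p : ℕ) [Fact p.Prime] (P K : Subgroup G) (hP : IsPGroup p ↥P) (hK : ¬ p ∣ Nat.card ↥K) (hPK : P ≤ Subgroup.normalizer (K : Set G)) : Nat.card {θ : Cfsg.IrrCharacter ↥K // (∀ k : ↥K, ((θ : ↥K → ℂ) k).im = 0) ∧ (∀ x ∈ P, ∀ k k' : ↥K, (k' : G) = x * (k : G) * x⁻¹ → (θ : ↥K → ℂ) k' = (θ : ↥K → ℂ) k)} = Nat.card {c : ConjClasses ↥K // (∀ k : ↥K, ConjClasses.mk k = c → IsConj k k⁻¹) ∧ ∀ k : ↥K, ConjClasses.mk k = c → ∀ x ∈ P, ∀ k' : ↥K, (k' : G) = x * (k : G) * x⁻¹ → ConjClasses.mk k' = c} ∧ ((∀ θ : Cfsg.IrrCharacter ↥K, (∀ k : ↥K, ((θ : ↥K → ℂ) k).im = 0) → (∀ x ∈ P, ∀ k k' : ↥K, (k' : G) = x * (k : G) * x⁻¹ → (θ : ↥K → ℂ) k' = (θ : ↥K → ℂ) k)) → ∀ k : ↥K, IsConj k k⁻¹ → ∃ k' : ↥K, IsConj k k' ∧ ∀ x ∈ P, x * (k' : G) * x⁻¹ = (k' : G)) := by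
  set_option maxSynthPendingDepth 3 in
  have hp : p.Prime := Fact.out
  have c := coprime_iff_not_dvd.2 hK
  have cop := cop_of_pgroup hP c hPK
  have g := glC hp c hP hPK
  have r : ∀ {H : Subgroup G} {α : G → ℂ}, (∀ x : H, (α x).im = 0) ↔ (fun x => conj (α x))↾H = α↾H :=
    conj_eq_iff_im.symm
  have e1 : Nat.card {θ : IrrCharacter K // (∀ k, (θ.1 k).im = 0) ∧ ∀ x ∈ P, ∀ k k' : K, (k' : G) = x * k * x⁻¹ →
      θ.1 k' = θ.1 k} = Nat.card {c : ConjClasses K // RealC c ∧ ∀ k : K, ConjClasses.mk k = c → ∀ x ∈ P, ∀ k' : K,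
      (k' : G) = x * k * x⁻¹ → ConjClasses.mk k' = c} := by
    refine (card_eq_of_rel (Y := {ξ : IrrCharacter ↥(K ⊓ cen P) // ∀ k, (ξ.1 k).im = 0})
      (fun θ ξ => Gl p (K ⊓ cen P) (am θ.1.1) (am ξ.1.1)) (fun θ => ?_) (fun θ ξ ξ' u v => ?_)
      (fun θ θ' ξ u v => ?_) fun ξ => ?_).trans (card_real.trans (card_eq_of_rel
        (fun C D => C.1.map (Subgroup.inclusion inf_le_left) = D.1) (fun ⟨C, h⟩ => ?_)
        (fun _ _ _ u v => Subtype.ext (u.symm.trans v)) (fun ⟨C, _⟩ ⟨C', _⟩ _ u v => ?_) fun ⟨D, h, k⟩ => ?_))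
    · obtain ⟨β, u, v⟩ := g.ex _ (irr_am θ.1) ((le_iA_am hPK).2 θ.2.2)
      refine ⟨⟨⟨_, u⟩, r.2 ((v.conj.congr (β' := fun x => conj (β x))
        (res_eq_mono (α := fun x => conj (am θ.1.1 x)) (r.1 fun x => ?_) inf_le_left) rfl).unique hp v u.conj u)⟩, v.congr rfl (am_res _).symm⟩
      rw [congrFun (am_res _) x]; exact θ.2.1 x
    · simpa only [Subtype.ext_iff, am_res] using u.unique hp v (irr_am _) (irr_am _)
    · simpa only [Subtype.ext_iff, am_res] using g.inj _ _ _ (irr_am _) (irr_am _) ((le_iA_am hPK).2 θ.2.2)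
        ((le_iA_am hPK).2 θ'.2.2) (irr_am _) u v
    · obtain ⟨α, u, v, w⟩ := g.surj _ (irr_am ξ.1)
      refine ⟨⟨⟨_, u⟩, r.2 (g.inj (fun x => conj (α x)) _ _ u.conj u (fun s a => mem_iA'.2 ⟨hPK a, fun x b => congrArg conj
        (iA_apply (v a) b)⟩) v (irr_am _) (w.conj.congr rfl (r.1 fun x => ?_)) w), (le_iA_iff hPK rfl).1 v⟩,
        w.congr (res_eq_mono (am_res _) inf_le_left).symm rfl⟩
      rw [congrFun (am_res _) x]; exact ξ.2 x
    · obtain ⟨x, rfl⟩ := ConjClasses.mk_surjective C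
      refine ⟨⟨_, realC_mk.2 ((Subgroup.inclusion inf_le_left).map_isConj (realC_mk.1 h)), fun k e s a k' e' => ?_⟩, rfl⟩
      obtain ⟨y, y1, y2⟩ := mk_eq_mk_sub.1 e
      refine mk_eq_mk_sub.2 ⟨_, conj_mem hPK a y1, ?_⟩
      refine Eq.trans ?_ (conj_eq_of_mem_cen (le_cen_symm inf_le_right a) x.2)
      change _ = s * x * s⁻¹
      rw [e', ← show _ = (x : G) from y2]
      simp [mul_assoc]
    · obtain ⟨x, rfl⟩ := ConjClasses.mk_surjective C
      obtain ⟨y, rfl⟩ := ConjClasses.mk_surjective C'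
      obtain ⟨a, a1, a2⟩ := mk_eq_mk_sub.1 (u.trans v.symm)
      exact Subtype.ext (mk_eq_mk_sub.2 (conj_in_cen cop x.2.2 y.2.2 a1 a2))
    · obtain ⟨x, rfl⟩ := ConjClasses.mk_surjective D
      obtain ⟨y, y1, y2⟩ := exists_conj_cen cop (c := x) fun s a =>
        mk_eq_mk_sub.1 (k x rfl s a ⟨_, conj_mem hPK a x.2⟩ rfl).symm
      have m := K.mul_mem (K.mul_mem (K.inv_mem y1) x.2) y1
      have e : ConjClasses.mk (⟨_, m⟩ : K) = ConjClasses.mk x := mk_eq_mk_sub.2 ⟨y, y1, by simp [mul_assoc]⟩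
      obtain ⟨a, a1, a2⟩ := isConj_sub.1 (h _ e)
      exact ⟨⟨ConjClasses.mk ⟨_, m, y2⟩, realC_mk.2 (isConj_sub.2 (conj_in_cen cop y2 (inv_mem y2) a1 a2))⟩, e⟩
  refine ⟨e1, fun h k hk => ?_⟩
  rw [Nat.card_congr (Equiv.subtypeEquivRight fun θ => and_iff_left_of_imp (h θ)), card_real] at e1
  have s := (Set.eq_of_subset_of_ncard_le (s := {c : ConjClasses K | RealC c ∧ _}) (t := {c | RealC c})
    (fun _ h => h.1) e1.le).ge (realC_mk.2 hk)
  obtain ⟨y, y1, y2⟩ := exists_conj_cen cop (c := k) fun x a =>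
    mk_eq_mk_sub.1 (s.2 k rfl x a ⟨_, conj_mem hPK a k.2⟩ rfl).symm
  exact ⟨⟨_, K.mul_mem (K.mul_mem (K.inv_mem y1) k.2) y1⟩, isConj_sub.2 ⟨y⁻¹, inv_mem y1, by simp⟩,
    fun x a => by rw [mem_cen.1 y2 x a, mul_inv_cancel_right]⟩

end Cfsg.Agent.S4911
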