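import Cfsg.Statements.S4912
import Cfsg.Agent.H3.Mack

set_option autoImplicit false
open Cfsg

namespace Cfsg.Agent.S4912
open H3
export H3 (inner_add_left inner_add_right inner_sub_left inner_sub_right inner_neg_left inner_neg_right
  inner_zero_left inner_zero_right inner_smul_left inner_smul_right inner_conj_symm inner_self_eq_zero
  inner_self_im)

/-- Let G be a finite group with a non-abelian minimal normal subgroup N, and let φ be an irreducible complex character of N with stabilizer I in G such that φ extends to an irreducible character of I with Frobenius–Schur indicator +1. Put d = φ(1)·[G : I]. Then the number of linear characters of G with Frobenius–Schur indicator +1 is at most [G : I] times the number of irreducible characters of G of degree d with Frobenius–Schur indicator +1. -/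
theorem result {G : Type*} [Group G] [Finite G] (N : Subgroup G) (hN : N.Normal) (hN1 : N ≠ ⊥) (hmin : ∀ M : Subgroup G, M.Normal → M ≤ N → M = ⊥ ∨ M = N) (hna : ¬ IsMulCommutative ↥N) (φ : Cfsg.IrrCharacter ↥N) (I : Subgroup G) (hI : ∀ g : G, g ∈ I ↔ ∀ n n' : ↥N, (n' : G) = g * (n : G) * g⁻¹ → (φ : ↥N → ℂ) n' = (φ : ↥N → ℂ) n) (hNI : N ≤ I) (hext : ∃ ψ : Cfsg.IrrCharacter ↥I, (Nat.card ↥I : ℂ)⁻¹ * ∑ᶠ g : ↥I, (ψ : ↥I → ℂ) (g * g) = 1 ∧ ∀ n : ↥N, (ψ : ↥I → ℂ) (Subgroup.inclusion hNI n) = (φ : ↥N → ℂ) n) : Nat.card {χ : Cfsg.IrrCharacter G // Cfsg.charDegree (χ : G → ℂ) = 1 ∧ (Nat.card G : ℂ)⁻¹ * ∑ᶠ g : G, (χ : G → ℂ) (g * g) = 1} ≤ I.index * Nat.card {χ : Cfsg.IrrCharacter G // Cfsg.charDegree (χ : G → ℂ) = Cfsg.charDegree (φ : ↥N → ℂ) * I.index ∧ (Nat.card G : ℂ)⁻¹ * ∑ᶠ g : G, (χ : G → ℂ) (g * g) = 1} := by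
  set_option maxSynthPendingDepth 3 in
  classical
  haveI := Fintype.ofFinite G
  obtain rfl : I = inertia φ.1 := Subgroup.ext fun g => (hI g).trans
    ⟨fun e => mem_inertia'.2 fun n => e n _ rfl, fun e n n' f => (congrArg φ.1 (Subtype.ext f)).trans (mem_inertia'.1 e n)⟩
  obtain ⟨ψ, f, e⟩ := hext
  simp only [finsum_eq_sum_of_fintype] at f ⊢
  refine card_lin_le (le_commutator_of_min hN hmin hna) φ.2 ψ.2 e (fsInd · = 1) (fsInd · = 1) fun ω a b => ?_
  have c : (ω.comp (inertia φ.1).subtype) ^ 2 = 1 := MonoidHom.ext fun g => Units.ext (by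
    have := congrFun ((lf_irr ω).real_of_fs (a.trans_ne one_ne_zero)) g
    simpa [sq] using (congrArg _ this).symm.trans (lin_mul_conj ω g))
  have d := (fsInd_lf_mul c ψ.1).trans f
  exact (fsInd_ind (ψ.2.lf_mul _) b ((ψ.2.lf_mul _).real_of_fs (d.trans_ne one_ne_zero))).trans d

end Cfsg.Agent.S4912
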