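import Cfsg.Statements.S4914
import Cfsg.Agent.H3.RG

set_option autoImplicit false
open Cfsg

namespace Cfsg.Agent.S4914
open H3
export H3 (inner_add_left inner_add_right inner_sub_left inner_sub_right inner_neg_left inner_neg_right
  inner_zero_left inner_zero_right inner_smul_left inner_smul_right inner_conj_symm inner_self_eq_zero
  inner_self_im)

open H7
open scoped commutatorElement

/-- Let P and K be subgroups of a finite group G with P a p-group normalizing K, and suppose K has a normal Sylow p-subgroup Q. Let C be the subgroup of those k ∈ K whose commutator with every element of P lies in Q (so that C/Q is the fixed-point subgroup of P on K/Q). Then there is a bijection f from the P-invariant irreducible complex characters of K onto the P-invariant irreducible complex characters of C such that, for every P-invariant irreducible character χ of K, the multiplicity of f(χ) in the restriction of χ to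 C is a natural number congruent to 1 or to −1 modulo p, every other P-invariant irreducible character of C occurs in that restriction with multiplicity divisible by p, and the degrees of χ and f(χ) are congruent modulo p up to sign. -/
theorem result {G : Type*} [Group G] [Finite G] (p : ℕ) [Fact p.Prime] (P K Q C : Subgroup G) (hP : IsPGroup p ↥P) (hPK : P ≤ Subgroup.normalizer (K : Set G)) (hQK : Q ≤ K) (hQn : ∀ k ∈ K, ∀ q ∈ Q, k * q * k⁻¹ ∈ Q) (hQp : ∃ a : ℕ, Nat.card ↥Q = p ^ a) (hQsyl : ¬ p ∣ Q.relIndex K) (hCK : C ≤ K) (hC : ∀ k : G, k ∈ C ↔ (k ∈ K ∧ ∀ x ∈ P, x * k * x⁻¹ * k⁻¹ ∈ Q)) : ∃ f : {χ : Cfsg.IrrCharacter ↥K // (∀ x ∈ P, ∀ k k' : ↥K, (k' : G) = x * (k : G) * x⁻¹ → (χ : ↥K → ℂ) k' = (χ : ↥K → ℂ) k)} → {ξ : Cfsg.IrrCharacter ↥C // (∀ x ∈ P, ∀ k k' : ↥C, (k' : G) = x * (k : G) * x⁻¹ → (ξ : ↥C → ℂ) k' = (ξ : ↥C → ℂ) k)}, Function.Bijective f ∧ ∀ χ, (∀ ξ : {ξ : Cfsg.IrrCharacter ↥C // (∀ x ∈ P, ∀ k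 k' : ↥C, (k' : G) = x * (k : G) * x⁻¹ → (ξ : ↥C → ℂ) k' = (ξ : ↥C → ℂ) k)}, ∃ m : ℕ, (Nat.card ↥C : ℂ)⁻¹ * ∑ᶠ c : ↥C, (χ.1 : ↥K → ℂ) (Subgroup.inclusion hCK c) * (starRingEnd ℂ) ((ξ.1 : ↥C → ℂ) c) = (m : ℂ) ∧ (ξ = f χ → ((m : ZMod p) = 1 ∨ (m : ZMod p) = -1)) ∧ (ξ ≠ f χ → p ∣ m)) ∧ ((Cfsg.charDegree ((f χ).1 : ↥C → ℂ) : ZMod p) = (Cfsg.charDegree (χ.1 : ↥K → ℂ) : ZMod p) ∨ (Cfsg.charDegree ((f χ).1 : ↥C → ℂ) : ZMod p) = -(Cfsg.charDegree (χ.1 : ↥K → ℂ) : ZMod p)) := by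
  set_option maxSynthPendingDepth 3 in
  classical
  have hp : p.Prime := Fact.out
  have m : K ≤ nrm Q := nrm_of_forall hQn
  obtain ⟨a, ha⟩ := hQp
  have nQ : P ≤ nrm Q := by
    have s : H2.IsSylowIn p Q K := (syl_self (IsPGroup.of_card ha)).trans hQK hQsyl
    have := fun x (u : x ∈ P) => syl_cj_of_mem s (hPK u)
    exact le_nrm_of_cj_le fun x u => s.le_of_le_normalizer (this x u).2 (this x u).1 ((this x u).1.trans m)
  obtain rfl : C = K ⊓ cmod Q P := Subgroup.ext fun k => (hC k).trans (and_congr_right fun u => by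
    change _ ↔ k ∈ cmod Q P
    rw [mem_cmod, and_iff_right (m u)]
    refine forall₂_congr fun x _ => ?_
    rw [← inv_mem_iff, ← commutatorElement_def, commutatorElement_inv])
  have nC : P ≤ nrm (K ⊓ cmod Q P) := nrm_inf hPK (nrm_cmod nQ (le_nrm_self P))
  have g := rg hp hP hPK nQ hQK m (coprime_iff_not_dvd.2 hQsyl)
  choose β b1 b2 b3 using fun χ : {χ : IrrCharacter K // ∀ x ∈ P, ∀ k k' : K, (k' : G) = x * k * x⁻¹ → χ.1 k' = χ.1 k} =>
    g.ex _ (irr_am χ.1) ((le_iA_am hPK).2 χ.2)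
  refine ⟨fun χ => ⟨⟨_, b1 χ⟩, (le_iA_iff nC rfl).1 (b2 χ)⟩, ⟨fun χ χ' e => ?_, fun ξ => ?_⟩, fun χ => ⟨fun ξ => ?_, ?_⟩⟩
  · simp only [Subtype.ext_iff] at e
    simpa only [Subtype.ext_iff, am_res] using g.inj _ _ _ (irr_am _) ((le_iA_am hPK).2 χ.2) (irr_am _)
      ((le_iA_am hPK).2 χ'.2) (b1 χ) (b2 χ) (b3 χ) (by rw [mi_congr rfl e]; exact b3 χ')
  · obtain ⟨α, u, v, w⟩ := g.surj _ (irr_am ξ.1) ((le_iA_am nC).2 ξ.2)
    refine ⟨⟨⟨_, u⟩, (le_iA_iff hPK rfl).1 v⟩, Subtype.ext (Subtype.ext ?_)⟩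
    exact (g.un _ _ _ (irr_am _) (iA_am.ge.trans' v) (b1 _) (b2 _) (irr_am _) ((le_iA_am nC).2 ξ.2) (b3 _)
      (by rwa [mi_congr (res_eq_mono (am_res _) inf_le_left) rfl])).trans (am_res _)
  · obtain ⟨n, e⟩ := (ch_mono (irr_am χ.1).isCharacter hCK).inner_nat (irr_am ξ.1).isCharacter
    have e' : mi (K ⊓ cmod Q P) (am χ.1.1) (am ξ.1.1) = n := by
      exact_mod_cast (mi_eq (ch_mono (irr_am χ.1).isCharacter hCK).isGen (irr_am ξ.1).isGen).symm.trans e
    refine ⟨n, ?_, fun f => ?_, fun f => ?_⟩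
    · rw [finsum_eq_sum_of_fintype, ← e, am_res, am_le hCK]; rfl
    · have := zmod_pm (g.pm _ _ (irr_am _) ((le_iA_am hPK).2 χ.2) (b1 χ) (b2 χ) (b3 χ))
      rw [← mi_congr rfl ((am_res ξ.1.1).trans (congrArg (fun x => x.1.1) f)), e'] at this
      exact_mod_cast this
    · by_contra o
      exact f (Subtype.ext (Subtype.ext ((am_res _).symm.trans (g.un _ _ _ (irr_am _) ((le_iA_am hPK).2 χ.2) (irr_am _)
        ((le_iA_am nC).2 ξ.2) (b1 χ) (b2 χ) (by rw [e']; exact_mod_cast o) (b3 χ)))))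
  · have u := g.deg hp hP hCK (irr_am _) ((le_iA_am hPK).2 χ.2) (b1 χ) (b2 χ) (b3 χ)
    rw [← ZMod.intCast_zmod_eq_zero_iff_dvd, dg_congr (χ := am χ.1.1) (ψ := χ.1.1) (congrFun (am_res _) 1)] at u
    push_cast at u
    change ((dg (β χ) : ZMod p) = _) ∨ ((dg (β χ) : ZMod p) = _)
    rcases zmod_pm (g.pm _ _ (irr_am _) ((le_iA_am hPK).2 χ.2) (b1 χ) (b2 χ) (b3 χ)) with v | v <;> rw [v] at u
    · left; linear_combination -u
    · right; linear_combination u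

end Cfsg.Agent.S4914
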