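import Cfsg.Statements.S4916
import Cfsg.Agent.H9.Misc4

set_option autoImplicit false
open Cfsg

namespace Cfsg.Agent.S4916
open H9 H3 MonoidAlgebra
open scoped Pointwise
set_option linter.style.haveILetI false
set_option linter.unusedVariables false


/-- Let G be a finite group, p a prime and M a maximal ideal of the algebraic integers containing p. Then the principal character is the only irreducible character of degree prime to p in the principal p-block of G if and only if p does not divide the order of G. -/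
theorem result {G : Type*} [Group G] [Finite G] (p : ℕ) [Fact p.Prime] (M : Ideal Cfsg.AlgInt) (hM : Cfsg.IsPModular p M) : (∀ χ : Cfsg.IrrCharacter G, χ ∈ Cfsg.principalBlock M G → ¬ p ∣ Cfsg.charDegree (χ : G → ℂ) → (χ : G → ℂ) = fun _ => (1 : ℂ)) ↔ ¬ p ∣ Nat.card G := by
  haveI : PMod p M := ⟨hM⟩
  rw [← B0_val]
  refine ⟨fun h hG => ?_, fun h χ hχ _ => ?_⟩
  · obtain ⟨χ, h1, h2, h3⟩ := exists_B0_not_dvd M hG (Fact.out : p.Prime)
    exact h2 (Subtype.ext (h χ h1 h3))
  · have : Nat.card (B0 M G).1 = 1 := Bl.card_eq_one_iff.2 (by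
      rw [B0_defect, Nat.factorization_eq_zero_of_not_dvd h])
    have e := (Nat.card_eq_one_iff_unique.1 this).1.elim ⟨χ, hχ⟩ ⟨_, trivChar_mem_B0⟩
    rw [Subtype.mk.inj e]; rfl

end Cfsg.Agent.S4916
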