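import Cfsg.Statements.S4931
import Cfsg.Agent.H1.V3
import Cfsg.Agent.H7.GL2
import Cfsg.Agent.H3.Primitive
import Cfsg.Agent.H3.Kernel
import Cfsg.Agent.H3.Det

set_option autoImplicit false
open Cfsg

namespace Cfsg.Agent.S4931
open H3 H7 Subgroup
open scoped commutatorElement
set_option linter.style.haveILetI false
set_option linter.unusedVariables false

/-- Let G be a finite group, p a prime and P a Sylow p-subgroup of G with normalizer N. Then every irreducible complex character of N of degree not divisible by p is the restriction of an irreducible character of G if and only if there is a normal subgroup K of G with KN = G and K ∩ N = 1. -/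
theorem result {G : Type*} [Group G] [Finite G] (p : ℕ) [Fact p.Prime] (P : Sylow p G) :
    (∀ θ : Cfsg.IrrCharacter ↥(Subgroup.normalizer ((P : Subgroup G) : Set G)), ¬ p ∣ Cfsg.charDegree (θ : ↥(Subgroup.normalizer ((P : Subgroup G) : Set G)) → ℂ) →
        ∃ χ : Cfsg.IrrCharacter G, ∀ x : ↥(Subgroup.normalizer ((P : Subgroup G) : Set G)), (χ : G → ℂ) x = (θ : ↥(Subgroup.normalizer ((P : Subgroup G) : Set G)) → ℂ) x) ↔
      ∃ K : Subgroup G, K.Normal ∧ K ⊔ Subgroup.normalizer ((P : Subgroup G) : Set G) = ⊤ ∧ K ⊓ Subgroup.normalizer ((P : Subgroup G) : Set G) = ⊥ := by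
  classical
  have sP : H2.IsSylowIn p (P : Subgroup G) ⊤ := H2.sylow_isSylowIn_top P
  constructor
  · intro H
    have key : ∀ M : Subgroup G, M ≤ nrm (P : Subgroup G) → nrm (P : Subgroup G) ≤ nrm M →
        ⁅(P : Subgroup G), (P : Subgroup G)⁆ ≤ M →
        normalClosure (M : Set G) ⊓ nrm (P : Subgroup G) ≤ M := by
      intro M h1 h2 h3 x hx
      by_contra hxM
      haveI := normal_subgroupOf h2
      obtain ⟨θ, hθ, k1, k2⟩ := exists_irr_ker_not_mem (M.subgroupOf (nrm (P : Subgroup G)))
        (g := ⟨x, hx.2⟩) hxM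
      haveI : ((P : Subgroup G).subgroupOf (nrm (P : Subgroup G))).Normal := normal_subgroupOf le_rfl
      have dv := hθ.deg_dvd_index_of_abelian_normal hθ.deg
        ((P : Subgroup G).subgroupOf (nrm (P : Subgroup G))) fun a ha b hb =>
          hθ.isCharacter.mem_charKer.2 (k1 _ (h3 (commutator_mem_commutator (g₁ := (a : G)) (g₂ := (b : G)) ha hb)))
      obtain ⟨χ, hχ⟩ := H ⟨θ, hθ⟩ fun hd =>
        (sP.mono (le_nrm_self _) le_top).not_dvd (hd.trans dv)
      have e1 : χ.1 1 = θ 1 := hχ 1
      haveI := χ.2.isCharacter.isClassFunction.charKer_normal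
      have l : normalClosure (M : Set G) ≤ charKer χ.1 := normalClosure_le_normal fun m hm =>
        χ.2.isCharacter.mem_charKer.2 ((hχ ⟨m, h1 hm⟩).trans ((k1 ⟨m, h1 hm⟩ hm).trans e1.symm))
      exact k2 ((hχ ⟨x, hx.2⟩).symm.trans ((χ.2.isCharacter.mem_charKer.1 (l hx.1)).trans e1))
    have cP : ⁅(P : Subgroup G), (P : Subgroup G)⁆ ≤ (P : Subgroup G) := comm_le_right (le_nrm_self _)
    have kR := key P (le_nrm_self _) le_rfl cP
    have kK := key ⁅(P : Subgroup G), (P : Subgroup G)⁆ (cP.trans (le_nrm_self _))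
      (nrm_commutator le_rfl le_rfl) le_rfl
    set R := normalClosure ((P : Subgroup G) : Set G) with hR
    set K := normalClosure ((⁅(P : Subgroup G), (P : Subgroup G)⁆ : Subgroup G) : Set G) with hK
    haveI : R.Normal := normalClosure_normal
    haveI : K.Normal := normalClosure_normal
    have PR : (P : Subgroup G) ≤ R := le_normalClosure
    have cK : ⁅(P : Subgroup G), (P : Subgroup G)⁆ ≤ K := le_normalClosure
    have KR : K ≤ R := normalClosure_mono cP
    have sR : H2.IsSylowIn p (P : Subgroup G) R := sP.mono PR le_top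
    have D : ∀ A : Subgroup G, A ≤ nrm K := fun A => le_nrm_of_normal A K
    have sB : H2.IsSylowIn p (P : Subgroup G) ((P : Subgroup G) ⊔ K) := sP.mono le_sup_left le_top
    have iB : im (qm K) ((P : Subgroup G) ⊔ K) = im (qm K) (P : Subgroup G) := by
      have := im_sup_kr (f := qm K) (D P)
      rwa [kr_qm] at this
    have n1 : NPC p (im (qm K) R) := by
      refine npc_burnside (syl_im sR (D _) (qm K)) ?_
      rw [← iB, ← im_nrm_inf (D R) (D _) (by rw [kr_qm]; exact le_sup_right), iB]
      have fr := syl_frattini (U := R ⊓ nrm ((P : Subgroup G) ⊔ K)) sB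
        (le_inf (sup_le PR KR) (le_nrm_self _)) inf_le_right
      have u : R ⊓ nrm ((P : Subgroup G) ⊔ K) ≤ (P : Subgroup G) ⊔ K := by
        rw [← fr]
        exact sup_le (((inf_le_inf_right _ inf_le_left).trans kR).trans le_sup_left) le_rfl
      refine (im_mono _ u).trans ?_
      rw [iB, im_le_cen_iff (D _) (D _), kr_qm]
      exact cK
    have b := H1B.NPC.inf_eq_bot n1 (syl_im sR (D _) (qm K)).isPGroup
    rw [← im_pRes (D R)] at b
    have b' : (P : Subgroup G) ⊓ pRes p R ≤ K := by
      have := (im_eq_bot_iff (f := qm K) (D ((P : Subgroup G) ⊓ pRes p R))).1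
        (le_bot_iff.1 ((im_inf_le _ _ _).trans b.le))
      rwa [kr_qm] at this
    have n2 : NPC p R := H1B.npc_tate sR
      (((le_inf b' (inf_le_left.trans (le_nrm_self _))).trans kK).trans
        (comm_le_Phi P.2.isNilpotent))
    refine ⟨Op' p R, normal_iff_top_le_nrm.2 (nrm_Opi _ (le_nrm_of_normal _ R)), ?_, ?_⟩
    · have fr := syl_frattini (U := ⊤) sR le_top (le_nrm_of_normal _ R)
      rw [eq_top_iff, ← fr, ← n2.sup sR]
      rw [n2.sup sR]
      refine sup_le (inf_le_right.trans le_sup_right) ?_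
      calc R = Op' p R ⊔ P := (n2.sup sR).symm
        _ ≤ _ := sup_le_sup_left (le_nrm_self _) _
    · have o : Op' p R ≤ R := (le_sup_left.trans (n2.sup sR).le)
      have c : Op' p R ⊓ (P : Subgroup G) = ⊥ := by
        obtain ⟨n, hn⟩ := P.2.exists_card_eq
        exact eq_bot_of_coprime (by rw [hn]; exact (coprime_Op' p R).pow_right n)
      rw [eq_bot_iff, ← c]
      exact le_inf inf_le_left ((inf_le_inf_right _ o).trans kR)
  · rintro ⟨K, hK, h1, h2⟩ θ -
    let φ : ↥(nrm (P : Subgroup G)) →* G ⧸ K := (QuotientGroup.mk' K).comp (Subgroup.subtype _)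
    have bj : Function.Bijective φ := by
      refine ⟨(injective_iff_map_eq_one φ).2 fun a ha => ?_, fun q => ?_⟩
      · have : (a : G) ∈ K ⊓ nrm (P : Subgroup G) := ⟨(QuotientGroup.eq_one_iff _).1 ha, a.2⟩
        rw [h2] at this
        exact Subtype.ext this
      · obtain ⟨g, rfl⟩ := QuotientGroup.mk_surjective q
        have : g ∈ K ⊔ nrm (P : Subgroup G) := h1 ▸ mem_top g
        obtain ⟨k, hk, n, hn, rfl⟩ := mem_sup_of_normal_left.1 this
        refine ⟨⟨n, hn⟩, ?_⟩
        change (n : G ⧸ K) = ((k * n : G) : G ⧸ K)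
        rw [QuotientGroup.mk_mul, (QuotientGroup.eq_one_iff k).2 hk, one_mul]
    let e := MulEquiv.ofBijective φ bj
    refine ⟨⟨_, θ.2.comp_surjective (e.symm.toMonoidHom.comp (QuotientGroup.mk' K))
      (e.symm.surjective.comp QuotientGroup.mk_surjective)⟩, fun x => ?_⟩
    exact congrArg θ.1 (e.symm_apply_apply x)

end Cfsg.Agent.S4931
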