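import Cfsg.Statements.S4937
import Cfsg.Agent.H9.AD

set_option autoImplicit false
open Cfsg

namespace Cfsg.Agent.S4937
open H9 H3 MonoidAlgebra
open scoped Pointwise
set_option linter.style.haveILetI false
set_option linter.unusedVariables false


/-- Let G be a finite group, p a prime, M a maximal ideal of the algebraic integers containing p, N a normal subgroup of G and P a Sylow p-subgroup of N such that G = N·C_G(P). Let θ be an irreducible character in the principal p-block of N that is the restriction of some irreducible character of G. Then θ is the restriction of an irreducible character χ of G lying in the principal p-block of G such that, for every subgroup J of G containing N, the restriction of χ to J is an irreducible character of J lying in the principal p-block of J. -/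
theorem result {G : Type*} [Group G] [Finite G] (p : ℕ) [Fact p.Prime] (M : Ideal Cfsg.AlgInt) (hM : Cfsg.IsPModular p M) (N : Subgroup G) [N.Normal] (P : Sylow p ↥N)
    (hcov : N ⊔ Subgroup.centralizer (((P : Subgroup ↥N).map N.subtype : Subgroup G) : Set G) = ⊤)
    (θ : Cfsg.IrrCharacter ↥N) (hθ : θ ∈ Cfsg.principalBlock M ↥N)
    (hext : ∃ ψ : Cfsg.IrrCharacter G, ∀ x : ↥N, (ψ : G → ℂ) x = (θ : ↥N → ℂ) x) :
    ∃ χ : Cfsg.IrrCharacter G, χ ∈ Cfsg.principalBlock M G ∧ (∀ x : ↥N, (χ : G → ℂ) x = (θ : ↥N → ℂ) x) ∧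
      ∀ J : Subgroup G, N ≤ J → ∃ ξ : Cfsg.IrrCharacter ↥J, ξ ∈ Cfsg.principalBlock M ↥J ∧ ∀ y : ↥J, (ξ : ↥J → ℂ) y = (χ : G → ℂ) y := by
  haveI : PMod p M := ⟨hM⟩
  obtain ⟨ψ, hψ⟩ := hext
  have h : AD p N := ad_of_sup (by
    rw [Subgroup.relIndex, Subgroup.subgroupOf, Subgroup.comap_map_eq_self_of_injective N.subtype_injective]
    exact P.not_dvd_index) hcov
  obtain ⟨χ, a, b, c⟩ := h.exists_ext_of_ext (θ := ψ.1) ⟨θ, hθ, (funext hψ).symm⟩ ψ.2 rfl
  refine ⟨⟨χ, a⟩, inB0_top.1 (c ⊤ le_top), fun x => (congrFun b x).trans (hψ x), fun J hJ => ?_⟩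
  obtain ⟨ξ, d, e⟩ := c J hJ
  exact ⟨ξ, d, congrFun e⟩

end Cfsg.Agent.S4937
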