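import Cfsg.Statements.S4989
import Cfsg.Agent.H3.Cnt

set_option autoImplicit false
open Cfsg

namespace Cfsg.Agent.S4989
open H3
export H3 (inner_add_left inner_add_right inner_sub_left inner_sub_right inner_neg_left inner_neg_right
  inner_zero_left inner_zero_right inner_smul_left inner_smul_right inner_conj_symm inner_self_eq_zero
  inner_self_im)

/-- Let H be a subgroup of the finite group G and χ an irreducible complex character of G. Then the inner product of the restriction of χ to H with itself, (1/#H)·Σ_{h ∈ H} |χ(h)|², is at most 1 + #(Z ∖ H)/#H, where Z is the set of zeros of χ in G. -/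
theorem result {G : Type*} [Group G] [Finite G] (H : Subgroup G) (χ : Cfsg.IrrCharacter G) : (Nat.card ↥H : ℝ)⁻¹ * ∑ᶠ h : ↥H, ‖(χ : G → ℂ) h‖ ^ 2 ≤ 1 + (Set.ncard ({x : G | (χ : G → ℂ) x = 0} \ (H : Set G)) : ℝ) / (Nat.card ↥H : ℝ) := by
  set_option maxSynthPendingDepth 3 in
  classical
  haveI := Fintype.ofFinite G
  have a := χ.2.isGen.card_le_sum_normSq (Finset.univ.filter fun g => g ∉ H ∧ χ.1 g ≠ 0) (fun k c g d => ?_)
    fun g d => (Finset.mem_filter.1 d).2.2
  · have b := card_mul_inner_self_re χ.1
    have c : (0 : ℝ) < Nat.card H := Nat.cast_pos.2 Nat.card_pos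
    have d : Nat.card G = Nat.card H + (Finset.univ.filter fun g => g ∉ H ∧ χ.1 g ≠ 0).card +
        ({x | χ.1 x = 0} \ (H : Set G)).ncard := by
      rw [Nat.card_eq_fintype_card, ← Finset.card_univ, ← Finset.card_filter_add_card_filter_not (· ∈ H), add_assoc,
        ← Finset.card_filter_add_card_filter_not (s := Finset.univ.filter (· ∉ H)) (χ.1 · ≠ 0), Finset.filter_filter,
        Finset.filter_filter, Nat.card_eq_fintype_card, Fintype.card_subtype, Set.ncard_eq_toFinset_card']
      congr 3
      ext; simp [and_comm]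
    rw [χ.2.inner_self, Complex.one_re, mul_one, ← Finset.sum_filter_add_sum_filter_not _ (· ∈ H),
      ← sum_subgroup_eq H fun g => ‖χ.1 g‖ ^ 2, d] at b
    replace a := a.trans (Finset.sum_le_sum_of_subset_of_nonneg (t := Finset.univ.filter (· ∉ H))
      (fun g => by simp +contextual) fun _ _ _ => by positivity)
    rw [finsum_eq_sum_of_fintype, inv_mul_le_iff₀ c, mul_add, mul_one, mul_div_cancel₀ _ c.ne']
    push_cast at b
    linarith
  obtain ⟨σ, e⟩ := exists_gal_pow c
  simp only [Finset.mem_filter, Finset.mem_univ, true_and] at d ⊢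
  exact ⟨fun f => d.1 (mem_of_pow_cop c f (by simp)), by simpa [← e _ χ.2.isGen] using d.2⟩

end Cfsg.Agent.S4989
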