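import Cfsg.Statements.S4991
import Cfsg.Agent.H3.FPS
import Cfsg.Agent.FT.Main

set_option autoImplicit false
open Cfsg

namespace Cfsg.Agent.S4991
open H3
export H3 (inner_add_left inner_add_right inner_sub_left inner_sub_right inner_neg_left inner_neg_right
  inner_zero_left inner_zero_right inner_smul_left inner_smul_right inner_conj_symm inner_self_eq_zero
  inner_self_im)

/-- Let G be a group of odd order, χ an irreducible complex character of G that is primitive (not induced from a character of any proper subgroup), and p a prime dividing the order of G. Then there is an element g of G such that the p-part of χ(1) divides the p-part of the size of the conjugacy class of g. -/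
theorem result {G : Type*} [Group G] [Fintype G] (hodd : Odd (Nat.card G)) (χ : Cfsg.IrrCharacter G) (hprim : ¬ ∃ (H : Subgroup G), H ≠ ⊤ ∧ ∃ θ : ↥H → ℂ, Cfsg.IsCharacter ↥H θ ∧ Cfsg.indFun H θ = (χ : G → ℂ)) (p : ℕ) [Fact p.Prime] (hp : p ∣ Nat.card G) : ∃ g : G, (Cfsg.charDegree (χ : G → ℂ)).factorization p ≤ ((Subgroup.centralizer ({g} : Set G)).index).factorization p := by
  set_option maxSynthPendingDepth 3 in
  haveI : Group.IsSolvable G := FT.odd_solvable hodd
  obtain ⟨g, h⟩ := qp_class (p := p) (M := ⊥) (F := ⊥) (P := ⊥) χ.2 (IsPrimitiveChar.isQuasiPrimitive χ.2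
    fun K k φ a b => hprim ⟨K, k, φ, a, b⟩) H7.nilp_bot IsPGroup.of_bot bot_le
  exact ⟨_, h 1 (one_mem _)⟩

end Cfsg.Agent.S4991
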