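import Cfsg.Statements.S4993
import Cfsg.Agent.H3.FPS
import Cfsg.Agent.H1.Fitting

set_option autoImplicit false
open Cfsg

namespace Cfsg.Agent.S4993
open H3
export H3 (inner_add_left inner_add_right inner_sub_left inner_sub_right inner_neg_left inner_neg_right
  inner_zero_left inner_zero_right inner_smul_left inner_smul_right inner_conj_symm inner_self_eq_zero
  inner_self_im)

open H7 Subgroup

/-- Let G be a group of odd order whose order has exactly two prime divisors and whose quotient by its Fitting subgroup is nilpotent (G is metanilpotent), and let χ be a primitive irreducible complex character of G (not induced from a character of any proper subgroup). Then χ(1) divides the size of some conjugacy class of G. -/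
theorem result {G : Type*} [Group G] [Fintype G] (hodd : Odd (Nat.card G)) (h2 : (Nat.card G).primeFactors.card = 2) [hF : (Cfsg.fittingSubgroup G).Normal] (hmeta : Group.IsNilpotent (G ⧸ Cfsg.fittingSubgroup G)) (χ : Cfsg.IrrCharacter G) (hprim : ¬ ∃ (H : Subgroup G), H ≠ ⊤ ∧ ∃ θ : ↥H → ℂ, Cfsg.IsCharacter ↥H θ ∧ Cfsg.indFun H θ = (χ : G → ℂ)) : ∃ g : G, Cfsg.charDegree (χ : G → ℂ) ∣ (Subgroup.centralizer ({g} : Set G)).index := by
  set_option maxSynthPendingDepth 3 in
  classical
  haveI : Group.IsSolvable G := solvable_of_ker_le_range (fittingSubgroup G).subtype (QuotientGroup.mk' (fittingSubgroup G)) (by simp)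
  have qp := IsPrimitiveChar.isQuasiPrimitive χ.2 fun K k φ a b => hprim ⟨K, k, φ, a, b⟩
  have key : ∀ p, p.Prime → ∃ (M : Subgroup G) (g : G), M.Normal ∧ p ^ (Nat.card G).factorization p ∣ Nat.card M ∧
      ∀ m ∈ M, (dg χ.1).factorization p ≤ (centralizer {g * m}).index.factorization p := fun p hp => by
    haveI := Fact.mk hp
    obtain ⟨P⟩ : Nonempty (Sylow p G) := inferInstance
    haveI : (fittingSubgroup G ⊔ P.1).Normal := by
      have := (inferInstance : (P.mapSurjective (QuotientGroup.mk'_surjective (fittingSubgroup G))).1.Normal).comap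
        (QuotientGroup.mk' (fittingSubgroup G))
      rwa [Sylow.coe_mapSurjective, comap_map_eq, QuotientGroup.ker_mk', sup_comm] at this
    obtain ⟨g, h⟩ := qp_class χ.2 qp (H1.isNilpotent_fitting) P.2 le_rfl
    exact ⟨_, g, this, P.card_eq_multiplicity ▸ card_dvd_of_le le_sup_right, h⟩
  obtain ⟨p, q, pq, e⟩ := Finset.card_eq_two.1 h2
  have hp := Nat.prime_of_mem_primeFactors (e.ge (Finset.mem_insert_self p {q}))
  have hq := Nat.prime_of_mem_primeFactors (e.ge (Finset.mem_insert_of_mem (Finset.mem_singleton_self q)))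
  obtain ⟨M, g, n, a, b⟩ := key p hp
  obtain ⟨N, h, -, c, d⟩ := key q hq
  have t : M ⊔ N = ⊤ := eq_top_of_le_card _ (Nat.le_of_dvd Nat.card_pos (by
    rw [← Nat.prod_factorization_pow_eq_self (Nat.card_pos (α := G)).ne', Finsupp.prod, Nat.support_factorization, e,
      Finset.prod_pair pq]
    exact Nat.Coprime.mul_dvd_of_dvd_of_dvd (Nat.coprime_pow_primes _ _ hp hq pq) (a.trans (card_dvd_of_le le_sup_left))
      (c.trans (card_dvd_of_le le_sup_right))))
  obtain ⟨x, x1, y, y1, u⟩ := (mem_sup_nrm' (le_nrm_of_normal N M)).1 (t.ge (mem_top (g⁻¹ * h)))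
  refine ⟨g * x, (Nat.factorization_prime_le_iff_dvd χ.2.dg_pos.ne' index_ne_zero_of_finite).1 fun r hr => ?_⟩
  by_cases k : r ∣ Nat.card G
  · have := e.le (Nat.mem_primeFactors.2 ⟨hr, k, Nat.card_pos.ne'⟩)
    rcases Finset.mem_insert.1 this with rfl | z
    · exact b x x1
    · rw [Finset.mem_singleton.1 z, show g * x = h * y⁻¹ by rw [eq_mul_inv_iff_mul_eq, mul_assoc, u]; group]
      exact d _ (inv_mem y1)
  · rw [Nat.factorization_eq_zero_of_not_dvd fun z => k (z.trans χ.2.dg_dvd)]; exact Nat.zero_le _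

end Cfsg.Agent.S4993
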