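import Cfsg.Statements.S4996
import Cfsg.Agent.H3.Cnt

set_option autoImplicit false
open Cfsg

namespace Cfsg.Agent.S4996
open H3
export H3 (inner_add_left inner_add_right inner_sub_left inner_sub_right inner_neg_left inner_neg_right
  inner_zero_left inner_zero_right inner_smul_left inner_smul_right inner_conj_symm inner_self_eq_zero
  inner_self_im)

/-- Let N be a normal subgroup of the finite group G and χ an irreducible complex character of G. Then the restriction of χ to N is not irreducible if and only if χ vanishes on some whole coset Nx of N in G. -/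
theorem result {G : Type*} [Group G] [Finite G] (N : Subgroup G) [N.Normal] (χ : Cfsg.IrrCharacter G) : ¬ Cfsg.IsIrrCharacter ↥N (fun n : ↥N => (χ : G → ℂ) n) ↔ ∃ x : G, ∀ n : ↥N, (χ : G → ℂ) ((n : G) * x) = 0 := by
  set_option maxSynthPendingDepth 3 in
  classical
  haveI := Fintype.ofFinite G
  have c : (0 : ℝ) < Nat.card N := Nat.cast_pos.2 Nat.card_pos
  refine ⟨fun h => by_contra fun n => h ?_, fun ⟨x, h⟩ a => ?_⟩
  · have e : ∀ g, avg N (χ.1 * fun g => (starRingEnd ℂ) (χ.1 g)) g =
        ((Nat.card N : ℝ)⁻¹ * ∑ n : N, ‖χ.1 (n * g)‖ ^ 2 : ℝ) := fun g => by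
      simp [avg, Complex.mul_conj']
    have := (χ.2.isCharacter.mul χ.2.isCharacter.conj).avg.eq_one_of_pos _ e (fun g => ?_) (le_of_eq ?_) 1
    · refine (χ.2.isCharacter.res N).isIrr_of_inner_self ?_
      simp only [mul_one] at this
      rw [inner_self_eq, this, Complex.ofReal_one]
    · obtain ⟨m, b⟩ := not_forall.1 (not_exists.1 n g)
      exact mul_pos (inv_pos.2 c) (Finset.sum_pos' (fun _ _ => by positivity) ⟨m, Finset.mem_univ _, by positivity⟩)
    · apply Complex.ofReal_injective
      rw [Complex.ofReal_sum, ← Finset.sum_congr rfl fun g _ => e g, sum_avg]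
      simpa [χ.2.inner_self] using (card_mul_inner χ.1 χ.1).symm
  · have := sum_normSq_coset χ.2.isCharacter a x
    simp only [h, norm_zero, ne_eq, OfNat.ofNat_ne_zero, not_false_eq_true, zero_pow, Finset.sum_const_zero] at this
    exact c.ne this

end Cfsg.Agent.S4996
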