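import Cfsg.Statements.S5001
import Cfsg.Agent.H9.Misc2

set_option autoImplicit false
open Cfsg

namespace Cfsg.Agent.S5001
open H9 H3 MonoidAlgebra
open scoped Pointwise
set_option linter.style.haveILetI false
set_option linter.unusedVariables false


/-- Let p be a prime, G a finite group and B a p-block of G (relative to a maximal ideal M of the algebraic integers containing p) with defect group D. Let Z be a central p-subgroup of G contained in D and λ a linear character of Z (a homomorphism to the nonzero complex numbers). Say an irreducible character χ of G lies over λ when χ(z) = χ(1)λ(z) for all z ∈ Z. If some irreducible character in B lying over λ has height zero, then λ extends to a linear character of D. -/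
theorem result {G : Type*} [Group G] [Finite G] (p : ℕ) [Fact p.Prime] (M : Ideal Cfsg.AlgInt) (hM : Cfsg.IsPModular p M) (B : Set (Cfsg.IrrCharacter G)) (hB : Cfsg.IsPBlock M B) (D : Subgroup G) (hD : Cfsg.IsDefectGroup p M B D) (Z : Subgroup G) (hZc : Z ≤ Subgroup.center G) (hZp : IsPGroup p ↥Z) (hZD : Z ≤ D) (lam : ↥Z →* ℂˣ) (χ : Cfsg.IrrCharacter G) (hχ : χ ∈ B) (hover : (∀ z : ↥Z, (χ : G → ℂ) z = (χ : G → ℂ) 1 * (lam z : ℂ))) (h0 : Cfsg.blockHeight p B (χ : G → ℂ) = 0) : (∃ μ : ↥D →* ℂˣ, ∀ z : ↥Z, μ ⟨(z : G), hZD z.2⟩ = lam z) := by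
  haveI : PMod p M := ⟨hM⟩
  haveI := Fintype.ofFinite D
  lift B to Bl M G using hB
  obtain ⟨x, hx, hS⟩ := Bl.isDef_iff_defectClass.1 hD
  obtain ⟨μ, hμ⟩ := RCh_exists_lin hS.isPGroup (RCh_shift (irr_mem_RCh (M := M) χ) hS.le)
    (by simpa using B.apply_not_mem_of_defectClass hx hχ h0)
  refine ⟨μ, fun z => Units.ext ?_⟩
  have hz : (⟨z, hZD z.2⟩ : D) ∈ Subgroup.center D := Subgroup.mem_center_iff.2 fun y =>
    Subtype.ext (Subgroup.mem_center_iff.1 (hZc z.2) y)
  obtain ⟨ζ, -, h1, h2⟩ := inner_shift_irr hz ⟨lf μ, isIrrCharacter_lin μ⟩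
  obtain ⟨c, -, hc⟩ := exists_central_scalar χ.2 (hZc z.2)
  have h3 : c = lam z := mul_right_cancel₀ χ.2.deg_ne_zero (by
    rw [← hc, mul_one, hover, mul_comm])
  have h4 := h2 fun u : D => χ.1 (x * u)
  rw [show (fun u : D => χ.1 (x * (⟨z, hZD z.2⟩ * u : D))) = c • fun u : D => χ.1 (x * u) from
    funext fun u => by
      rw [Pi.smul_apply, smul_eq_mul, ← hc, ← mul_assoc, ← Subgroup.mem_center_iff.1 (hZc z.2) x,
        mul_assoc]; rfl, H3.inner_smul_left] at h4
  rw [← h3, mul_right_cancel₀ (ne_zero_of_not_mem_LI hμ) h4]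
  simpa [lf] using h1 1

end Cfsg.Agent.S5001
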