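import Cfsg.Statements.S5011
import Cfsg.Agent.H3.Deg

set_option autoImplicit false
open Cfsg

namespace Cfsg.Agent.S5011
open H3
export H3 (inner_add_left inner_add_right inner_sub_left inner_sub_right inner_neg_left inner_neg_right
  inner_zero_left inner_zero_right inner_smul_left inner_smul_right inner_conj_symm inner_self_eq_zero
  inner_self_im)

/-- Let G be a finite non-abelian simple group and ρ an irreducible complex representation of G on a space of dimension greater than one (irreducible in the sense that the only subspaces invariant under every ρ(x) are 0 and the whole space). Then for every non-identity element g of G, the centralizer of g does not act irreducibly: there is a non-zero proper subspace invariant under ρ(c) for every c commuting with g. -/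
theorem result {G : Type*} [Group G] [Finite G] [IsSimpleGroup G]
    (hG : ¬ IsMulCommutative G) {V : Type*} [AddCommGroup V] [Module ℂ V] [FiniteDimensional ℂ V]
    (ρ : Representation ℂ G V)
    (hirr : ∀ W : Submodule ℂ V, (∀ x : G, ∀ v ∈ W, ρ x v ∈ W) → W = ⊥ ∨ W = ⊤)
    (hdim : 1 < Module.finrank ℂ V) (g : G) (hg : g ≠ 1) :
    ∃ W : Submodule ℂ V, W ≠ ⊥ ∧ W ≠ ⊤ ∧ ∀ c ∈ Subgroup.centralizer ({g} : Set G), ∀ v ∈ W, ρ c v ∈ W := by
  set_option maxSynthPendingDepth 3 in
  by_contra c
  push Not at c
  haveI : Nontrivial V := Module.nontrivial_of_finrank_pos (R := ℂ) (by omega)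
  haveI := (isIrreducible_iff ρ).2 ⟨this, hirr⟩
  haveI := (isIrreducible_iff (ρ.comp (Subgroup.centralizer {g}).subtype)).2 ⟨‹_›, fun W a => by_contra fun b => by
    push Not at b
    obtain ⟨x, d, v, e, f⟩ := c W b.1 b.2
    exact f (a ⟨x, d⟩ v e)⟩
  have a := isIrrCharacter_character ρ
  have b := (isIrrCharacter_character (ρ.comp (Subgroup.centralizer {g}).subtype)).center_le_charCenter
    (x := ⟨g, H7.self_mem_cen1 g⟩) (Subgroup.mem_center_iff.2 fun x => Subtype.ext (H7.mem_cen1.1 x.2))
  rw [(isCharacter_character _).mem_charCenter] at b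
  replace b := a.isCharacter.mem_charCenter.2 b
  rw [a.charCenter_eq_center (a.charKer_eq_bot_of_simple fun e => by
    have := congrFun e 1
    rw [Representation.char_one] at this
    exact hdim.ne' (by exact_mod_cast this))] at b
  refine hG ((IsSimpleGroup.eq_bot_or_eq_top_of_normal (Subgroup.center G) inferInstance).elim (fun e => absurd (e.le b) hg)
    fun e => ⟨⟨fun x y => Subgroup.mem_center_iff.1 (e.ge trivial) x⟩⟩)

end Cfsg.Agent.S5011
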