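import Cfsg.Statements.S5075
import Cfsg.Agent.H5.ML2

set_option autoImplicit false
open Cfsg

namespace Cfsg.Agent.S5075

open H5.ML Module

variable {F V : Type*} [Field F] [AddCommGroup V] [Module F V] [FiniteDimensional F V] {H : Subgroup (V ≃ₗ[F] V)}
  {Q : V → Dual F V → Prop}

theorem rho (h2 : (2 : F) ≠ 0) (h : HH H) (c : Cp LinearMap.id (PP H) Q) : ∃ ρ : KK Q →* ((h.tv c).W ≃ₗ[F] (h.tv c).W),
    (∀ (g : KK Q) (v : (h.tv c).W), ((ρ g v : (h.tv c).W) : V) = (g : V ≃ₗ[F] V) (v : V)) ∧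
    ((ρ.range : Set ((h.tv c).W ≃ₗ[F] (h.tv c).W)) = {f : (h.tv c).W ≃ₗ[F] (h.tv c).W |
        LinearMap.det (f : (h.tv c).W →ₗ[F] (h.tv c).W) = 1} ∨
      ∃ B : LinearMap.BilinForm F (h.tv c).W, B.IsAlt ∧ B.Nondegenerate ∧
        (ρ.range : Set ((h.tv c).W ≃ₗ[F] (h.tv c).W)) =
          {f : (h.tv c).W ≃ₗ[F] (h.tv c).W | ∀ x y, B (f x) (f y) = B x y}) := by
  set t := h.tv c
  let ρ : KK Q →* (t.W ≃ₗ[F] t.W) := MonoidHom.mk' (fun g => g.1.ofSubmodules t.W t.W
    (h.map_eq (icW t c) (K_le t c h g.2))) fun a b => LinearEquiv.ext fun x => Subtype.ext rfl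
  have hρ : ∀ (g : KK Q) (v : t.W), ((ρ g v : t.W) : V) = g.1 v := fun _ _ => rfl
  have ind : ∀ p : (t.W ≃ₗ[F] t.W) → Prop, p 1 → (∀ f g, p f → p g → p (f * g)) →
      (∀ f v φ (a : Q v φ), (∀ x : t.W, f x = x + φ x • (⟨v, t.memW a⟩ : t.W)) → p f) → ∀ f ∈ ρ.range, p f := by
    rintro p h0 h1 h2 _ ⟨⟨g, hg⟩, rfl⟩
    exact K_ind (p := fun g hg => p (ρ ⟨g, hg⟩)) t.neg (by rw [show (⟨1, _⟩ : KK Q) = 1 from rfl, map_one]; exact h0)
      (fun g hg v φ a e => h2 _ v φ a fun x => Subtype.ext (e x))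
      (fun g g' hg hg' a a' => by rw [show (⟨g * g', _⟩ : KK Q) = ⟨g, hg⟩ * ⟨g', hg'⟩ from rfl, map_mul]; exact h1 _ _ a a') hg
  have mem : ∀ v φ (a : Q v φ), ∃ g ∈ ρ.range, ∀ x : t.W, g x = x + φ x • (⟨v, t.memW a⟩ : t.W) := fun v φ a => by
    obtain ⟨g, -, e⟩ := (c.sub a).ex 1
    rw [one_smul] at e
    exact ⟨_, ⟨⟨g, Subgroup.subset_closure ⟨v, φ, a, e⟩⟩, rfl⟩, fun x => Subtype.ext (e x)⟩
  refine ⟨ρ, hρ, ?_⟩
  by_cases s : TV.Sym LinearMap.id Q ∧ ∃ e ε, Q e ε
  · obtain ⟨s, e, ε, a₀⟩ := s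
    obtain ⟨σ, s1, s2⟩ := t.sp s a₀
    let B : LinearMap.BilinForm F t.W := LinearMap.mk₂ F (fun v w : t.W => σ v w) (by simp) (by simp) (by simp) (by simp)
    have hB : ∀ v w : t.W, B v w = σ v w := fun _ _ => rfl
    have sk : ∀ v w : t.W, σ v w = -σ w v := s1
    have hA : B.IsAlt := fun v => (mul_eq_zero.1 (show 2 * σ v v = 0 by linear_combination sk v v)).resolve_left h2
    have nd : ∀ x, (∀ y, B x y = 0) → x = 0 := by
      rintro ⟨x, rfl | ⟨φ, a⟩⟩ e
      · rfl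
      obtain ⟨l, -, e1⟩ := s2 x φ a
      obtain ⟨χ, u, q, n⟩ := t.rr a
      refine (n ?_).elim
      rw [e1]
      exact (congrArg (l * ·) (e ⟨u, t.memW q⟩)).trans (mul_zero l)
    refine Or.inr ⟨B, hA, hA.isRefl.nondegenerate_iff_separatingLeft.2 nd, Set.ext fun f => ⟨ind
      (fun f => ∀ x y, B (f x) (f y) = B x y) (fun _ _ => rfl) (fun f g a b x y => (a _ _).trans (b x y)) ?_ f,
      sp_gen _ hA nd fun v k v0 k0 => ?_⟩⟩
    · intro f v φ a e x y
      obtain ⟨l, -, e1⟩ := s2 v φ a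
      have e2 : ∀ x : t.W, φ x = l * B ⟨v, t.memW a⟩ x := fun x => LinearMap.congr_fun e1 x
      simp only [e, e2, map_add, map_smul, LinearMap.add_apply, LinearMap.smul_apply, smul_eq_mul, hA.self_eq_zero,
        ← hA.neg_eq ⟨v, t.memW a⟩ x]
      ring
    · obtain ⟨v, rfl | ⟨φ, a⟩⟩ := v
      · exact (v0 rfl).elim
      obtain ⟨l, l0, e1⟩ := s2 v φ a
      obtain ⟨g, m, e⟩ := mem _ _ (t.sm a one_ne_zero (div_ne_zero k0 l0))
      refine ⟨g, m, fun x => (e x).trans (Subtype.ext ?_)⟩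
      have e2 : φ x = l * B ⟨v, t.memW a⟩ x := LinearMap.congr_fun e1 x
      simp [e2, ← mul_assoc, div_mul_cancel₀ _ l0]
  · refine Or.inl (Set.ext fun f => ⟨ind (fun f => LinearMap.det (f : t.W →ₗ[F] t.W) = 1) (by simp)
      (fun f g a b => by rw [LinearEquiv.coe_toLinearMap_mul, map_mul, a, b, one_mul]) ?_ f, sl_gen _ fun v θ e => ?_⟩)
    · intro f v φ a e
      rw [show (f : t.W →ₗ[F] t.W) = LinearMap.transvection (φ ∘ₗ t.W.subtype) ⟨v, t.memW a⟩ from
        LinearMap.ext fun x => by simp [e, LinearMap.transvection.apply], LinearMap.transvection.det]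
      simpa using t.perp a
    · obtain ⟨φ, m, e1⟩ := (perf t).2 θ
      obtain ⟨v, rfl | ⟨ψ, a⟩⟩ := v
      · exact ⟨1, one_mem _, fun x => Subtype.ext (by simp)⟩
      rcases m with rfl | ⟨u, a'⟩
      · exact ⟨1, one_mem _, fun x => by simp [← e1]⟩
      obtain ⟨g, m, e2⟩ := mem _ _ (t.g1 (fun s' => s ⟨s', _, _, a⟩) a a' ((e1 ⟨v, _⟩).trans e))
      exact ⟨g, m, fun x => by rw [e2, e1]⟩

omit [FiniteDimensional F V] in
theorem pw (g : V ≃ₗ[F] V) (x : V) (h : g (g (g x - x) - (g x - x)) = g (g x - x) - (g x - x)) (n : ℕ) :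
    (g ^ n) x = x + (n : F) • (g x - x) + (n.choose 2 : F) • (g (g x - x) - (g x - x)) := by
  induction n with
  | zero => simp
  | succ n ih =>
    rw [pow_succ', LinearEquiv.mul_apply, ih, map_add, map_add, map_smul, map_smul, h, Nat.choose_succ_succ' n 1,
      Nat.choose_one_right]
    push_cast; module

/-- Let p be an odd prime, V a finite-dimensional vector space over the field with p elements, and H a group of linear automorphisms of V generated by transvections (elements of order p fixing a hyperplane pointwise) and having no nontrivial normal p-subgroup. Then for some n ≥ 1 there are a decomposition V = V₀ ⊕ V₁ ⊕ ⋯ ⊕ Vₙ into H-invariant subspaces and a decomposition of H as the internal direct product of normal subgroups H₁, …, Hₙ such that Hⱼ acts trivially on every Vᵢ with i ≠ j, and Hⱼ induces on Vⱼ exactly the special linear group of Vⱼ or exactly the isometry group of a non-degenerate alternating form on Vⱼ. -/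
theorem result {p : ℕ} [Fact p.Prime] (hp : Odd p) {V : Type*} [AddCommGroup V] [Module (ZMod p) V] [Finite V]
    (H : Subgroup (V ≃ₗ[ZMod p] V)) (T : Set (V ≃ₗ[ZMod p] V)) (hHT : H = Subgroup.closure T)
    (hT : ∀ t ∈ T, orderOf t = p ∧
      Module.finrank (ZMod p) ↥(LinearMap.ker ((t : V →ₗ[ZMod p] V) - LinearMap.id)) + 1 =
        Module.finrank (ZMod p) V)
    (hOp : Cfsg.pCore p ↥H = ⊥) :
    ∃ (n : ℕ) (W : Fin (n + 1) → Submodule (ZMod p) V) (K : Fin n → Subgroup (V ≃ₗ[ZMod p] V)),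
      1 ≤ n ∧ DirectSum.IsInternal W ∧
      (∀ h ∈ H, ∀ i, (W i).map (h : V →ₗ[ZMod p] V) = W i) ∧
      (∀ j, K j ≤ H ∧ ((K j).subgroupOf H).Normal) ∧ ⨆ j, K j = H ∧
      (∀ j, K j ⊓ (⨆ j' ∈ {j' : Fin n | j' ≠ j}, K j') = ⊥) ∧
      (∀ j j', j ≠ j' → ∀ a ∈ K j, ∀ b ∈ K j', a * b = b * a) ∧
      (∀ j, ∀ h ∈ K j, ∀ i : Fin (n + 1), i ≠ j.succ → ∀ v ∈ W i, h v = v) ∧
      (∀ j, ∃ ρ : ↥(K j) →* (↥(W j.succ) ≃ₗ[ZMod p] ↥(W j.succ)),
        (∀ (h : ↥(K j)) (v : ↥(W j.succ)), ((ρ h v : ↥(W j.succ)) : V) = (h : V ≃ₗ[ZMod p] V) (v : V)) ∧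
        ((ρ.range : Set (↥(W j.succ) ≃ₗ[ZMod p] ↥(W j.succ))) =
            {f : ↥(W j.succ) ≃ₗ[ZMod p] ↥(W j.succ) | LinearMap.det (f : ↥(W j.succ) →ₗ[ZMod p] ↥(W j.succ)) = 1} ∨
          ∃ B : LinearMap.BilinForm (ZMod p) ↥(W j.succ), B.IsAlt ∧ B.Nondegenerate ∧
            (ρ.range : Set (↥(W j.succ) ≃ₗ[ZMod p] ↥(W j.succ))) = {f : ↥(W j.succ) ≃ₗ[ZMod p] ↥(W j.succ) | ∀ x y, B (f x) (f y) = B x y})) := by
  have p2 : p ≠ 2 := by rintro rfl; exact absurd hp (by decide)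
  have h2 : (2 : ZMod p) ≠ 0 := fun e => p2 ((Nat.prime_dvd_prime_iff_eq Fact.out Nat.prime_two).1
    ((ZMod.natCast_eq_zero_iff 2 p).1 (by exact_mod_cast e)))
  haveI : FiniteDimensional (ZMod p) V := Module.Finite.of_finite
  have h : HH H := by
    refine ⟨⟨2, h2, fun e => one_ne_zero (α := ZMod p) (by linear_combination e)⟩, le_antisymm ?_ ?_, ?_⟩
    · refine hHT.le.trans (Subgroup.closure_mono fun t ht => ?_)
      obtain ⟨o, d⟩ := hT t ht
      have r := LinearMap.finrank_range_add_finrank_ker ((t : V →ₗ[ZMod p] V) - LinearMap.id)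
      obtain ⟨v, v0, hv⟩ := finrank_eq_one_iff'.1 (show finrank (ZMod p)
        (LinearMap.range ((t : V →ₗ[ZMod p] V) - LinearMap.id)) = 1 by omega)
      have v1 : v.1 ≠ 0 := fun e => v0 (Subtype.ext e)
      choose f hf using fun x => hv ⟨_, x, rfl⟩
      have e : ∀ x, t x = x + f x • v.1 := fun x => eq_add_of_sub_eq' (congrArg Subtype.val (hf x)).symm
      let φ : Dual (ZMod p) V := ⟨⟨f, fun x y => smul_left_injective _ v1 (add_left_cancel (a := x + y) (by
        beta_reduce; rw [← e, map_add, e, e]; module))⟩, fun c x => smul_left_injective _ v1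
        (add_left_cancel (a := c • x) (by beta_reduce; rw [← e, map_smul, e]; simp [smul_smul]))⟩
      have e0 : f v.1 = 0 := by
        have : ∀ n : ℕ, (t ^ n) v.1 = (1 + f v.1) ^ n • v.1 := fun n => by
          induction n with
          | zero => simp
          | succ n ih => rw [pow_succ', LinearEquiv.mul_apply, ih, map_smul, e, pow_succ]; module
        have := this p
        rw [ZMod.pow_card, orderOf_dvd_iff_pow_eq_one.1 o.dvd, add_smul, one_smul] at this
        simpa [v1] using this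
      refine ⟨v, φ, ⟨v1, fun e1 => ?_, e0, fun c => ⟨t ^ c.val, pow_mem (hHT.ge (Subgroup.subset_closure ht)) _,
        fun x => ?_⟩⟩, e⟩
      · obtain ⟨x, hx⟩ := v.2
        exact v1 (by rw [← hx]; simpa [sub_eq_zero, show f x = 0 from LinearMap.congr_fun e1 x] using e x)
      · have e1 : t (t x - x) = t x - x := by rw [e x, add_sub_cancel_left, map_smul, e, e0]; simp
        rw [pw t x (by simp only [e1, sub_self, map_zero]), e1, e x]
        simp only [ZMod.natCast_val, ZMod.cast_id', id_eq, add_sub_cancel_left, sub_self, smul_zero, add_zero]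
        rw [smul_comm]; rfl
    · refine (Subgroup.closure_le _).2 ?_
      rintro g ⟨v, φ, a, e⟩
      obtain ⟨g', m, e'⟩ := a.ex 1
      rwa [show g = g' from LinearEquiv.ext fun x => by rw [e, e', one_smul]]
    · intro A B hA hB g hg a1 a2 a3
      let N : Subgroup H := {
        carrier := {g | (∀ x, g.1 x - x ∈ A) ∧ (∀ x ∈ A, g.1 x - x ∈ B) ∧ ∀ x ∈ B, g.1 x = x}
        one_mem' := by simp
        mul_mem' := fun {a b} ha hb => ⟨fun x => by simpa using add_mem (ha.1 (b.1 x)) (hb.1 x),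
          fun x hx => by simpa using add_mem (ha.2.1 _ (hA _ b.2 x hx)) (hb.2.1 x hx),
          fun x hx => by simp [hb.2.2 x hx, ha.2.2 x hx]⟩
        inv_mem' := fun {a} ha => ⟨fun x => by simpa using neg_mem (ha.1 (a.1⁻¹ x)),
          fun x hx => by simpa using neg_mem (ha.2.1 _ (hA _ (inv_mem a.2) x hx)),
          fun x hx => a.1.injective (by simp [ha.2.2 x hx])⟩ }
      have : N ≤ pCore p H := le_sSup ⟨⟨fun a ha b => ⟨fun x => by simpa using hA _ b.2 _ (ha.1 (b.1⁻¹ x)),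
        fun x hx => by simpa using hB _ b.2 _ (ha.2.1 _ (hA _ (inv_mem b.2) x hx)),
        fun x hx => by
          show b.1 (a.1 (b.1⁻¹ x)) = x
          rw [ha.2.2 (b.1⁻¹ x) (hB _ (inv_mem b.2) x hx)]; simp⟩⟩, fun a => ⟨1, Subtype.ext (Subtype.ext
          (LinearEquiv.ext fun x => ?_))⟩⟩
      · rw [hOp] at this
        exact congrArg Subtype.val (Subgroup.mem_bot.1 (this (show (⟨g, hg⟩ : H) ∈ N from ⟨a1, a2, a3⟩)))
      · rw [pow_one]
        refine (pw a.1.1 x (a.2.2.2 _ (a.2.2.1 _ (a.2.1 x))) p).trans ?_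
        rw [(ZMod.natCast_eq_zero_iff _ p).2 ((Fact.out : p.Prime).dvd_choose_self two_ne_zero
          (lt_of_le_of_ne (Fact.out : p.Prime).two_le p2.symm))]
        simp
  haveI : Finite (Dual (ZMod p) V) := DFunLike.finite _
  obtain ⟨n, ⟨e⟩⟩ := Finite.exists_equiv_fin (Set.range (QQ H))
  have c : ∀ j, Cp LinearMap.id (PP H) (e.symm j).1 := fun j => by
    obtain ⟨a, ha⟩ := (e.symm j).2; exact ha ▸ cpQ a
  have ne : ∀ i j, i ≠ j → (e.symm i).1 ≠ (e.symm j).1 := fun i j h a => h (e.symm.injective (Subtype.ext a))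
  have all : ∀ v φ, PP H v φ → ∃ j, (e.symm j).1 v φ := fun v φ a =>
    ⟨e ⟨_, (v, φ), rfl⟩, by rw [Equiv.symm_apply_apply]; exact ⟨a, .refl⟩⟩
  have n1 : 1 ≤ n := (e ⟨_, (0, 0), rfl⟩).pos
  set Q : Fin n → V → Dual (ZMod p) V → Prop := fun j => (e.symm j).1
  let t := fun j => h.tv (c j)
  have le : ∀ i j, i ≠ j → (t i).W ≤ CC (Q j) := fun i j a => W_le (t i) (c i) (c j) (ne i j a)
  have cm : ∀ j j', j ≠ j' → ∀ a ∈ KK (Q j), ∀ b ∈ KK (Q j'), a * b = b * a := fun j j' n a ha b hb =>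
    LinearEquiv.ext fun x => by
      have e1 := K_C (t j) ha _ (le j' j n.symm (K_W (t j') hb x))
      have e2 := K_C (t j') hb _ (le j j' n (K_W (t j) ha x))
      rw [map_sub] at e1 e2
      rw [LinearEquiv.mul_apply, LinearEquiv.mul_apply]
      linear_combination (norm := abel1) e1 - e2
  let E : V →ₗ[ZMod p] V := LinearMap.id - ∑ j, (t j).W.projection _ (compl (t j))
  have E1 : ∀ j, ∀ x ∈ (t j).W, E x = 0 := fun j x hx => by
    simp only [E, LinearMap.sub_apply, LinearMap.id_apply, LinearMap.sum_apply]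
    rw [Finset.sum_eq_single j (fun i _ a => Submodule.projection_apply_of_mem_right _ (le j i a.symm hx))
      (by simp), Submodule.projection_apply_of_mem_left _ hx, sub_self]
  have E2 : ∀ x ∈ ⨅ j, CC (Q j), E x = x := fun x hx => by
    simp only [E, LinearMap.sub_apply, LinearMap.id_apply, LinearMap.sum_apply]
    rw [Finset.sum_eq_zero fun i _ => Submodule.projection_apply_of_mem_right _ ((Submodule.mem_iInf _).1 hx i), sub_zero]
  have E3 : ∀ x, E x ∈ ⨅ j, CC (Q j) := fun x => (Submodule.mem_iInf _).2 fun j => by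
    obtain ⟨w, a, y, b, rfl⟩ := Submodule.mem_sup.1 ((compl (t j)).sup_eq_top.ge (Submodule.mem_top (x := x)))
    rw [map_add, E1 j w a, zero_add]
    simp only [E, LinearMap.sub_apply, LinearMap.id_apply, LinearMap.sum_apply]
    refine sub_mem b (Submodule.sum_mem _ fun i _ => ?_)
    by_cases k : i = j
    · subst k; rw [Submodule.projection_apply_of_mem_right _ b]; exact zero_mem _
    · exact le i j k (Submodule.projection_apply_mem _ _)
  have oth : ∀ j (i : Fin (n + 1)), i ≠ j.succ → (Fin.cons (⨅ j, CC (Q j)) (fun j => (t j).W) : Fin (n + 1) → _) i ≤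
      CC (Q j) := fun j i => Fin.cases (fun _ => iInf_le _ j) (fun i a => le i j fun e => a (congrArg _ e)) i
  have ind : iSupIndep (Fin.cons (⨅ j, CC (Q j)) (fun j => (t j).W) : Fin (n + 1) → Submodule (ZMod p) V) := by
    intro i
    induction i using Fin.cases with
    | zero =>
      refine Submodule.disjoint_def.2 fun x a b => (E2 x a).symm.trans ?_
      refine (show _ ≤ LinearMap.ker E from iSup₂_le fun i n => ?_) b
      induction i using Fin.cases with
      | zero => exact (n rfl).elim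
      | succ j => exact E1 j
    | succ j => exact (compl (t j)).disjoint.mono_right (iSup₂_le fun i a => oth j i a)
  refine ⟨n, Fin.cons (⨅ j, CC (Q j)) fun j => (t j).W, fun j => KK (Q j), n1,
    (DirectSum.isInternal_submodule_iff_iSupIndep_and_iSup_eq_top _).2 ⟨ind, eq_top_iff.2 fun x _ => ?_⟩,
    fun g hg => Fin.cases (h.map_eq (fun r ρ a x hx e => (Submodule.mem_iInf _).2 fun j =>
      (c j).icC r ρ a x ((Submodule.mem_iInf _).1 hx j) e) hg) fun j => h.map_eq (icW (t j) (c j)) hg,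
    fun j => ⟨K_le (t j) (c j) h, (Subgroup.normal_subgroupOf_iff (K_le (t j) (c j) h)).2 fun g k hg hk => ?_⟩,
    le_antisymm (iSup_le fun j => K_le (t j) (c j) h) (h.gen.le.trans ((Subgroup.closure_le _).2 ?_)),
    fun j => (Subgroup.eq_bot_iff_forall _).2 fun g hg => LinearEquiv.ext fun x => ?_, cm,
    fun j g hg i a v hv => K_C (t j) hg v (oth j i a hv), fun j => rho h2 h (c j)⟩
  · rw [show x = E x + ∑ j, (t j).W.projection _ (compl (t j)) x by simp [E]]
    exact add_mem (Submodule.mem_iSup_of_mem 0 (E3 x)) (Submodule.sum_mem _ fun j _ =>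
      Submodule.mem_iSup_of_mem j.succ (Submodule.projection_apply_mem _ _))
  · rw [h.gen] at hk
    refine K_ind (p := fun k _ => ∀ g ∈ KK (Q j), k * g * k⁻¹ ∈ KK (Q j)) (fun _ _ => PP.neg) (by simp)
      (fun k _ v φ a e g hg => ?_) (fun k k' _ _ a a' g hg => by simpa [mul_assoc] using a _ (a' g hg)) hk g hg
    obtain ⟨i, q⟩ := all v φ a
    have m : k ∈ KK (Q i) := Subgroup.subset_closure ⟨v, φ, q, e⟩
    by_cases ij : i = j
    · subst ij; exact mul_mem (mul_mem m hg) (inv_mem m)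
    · rwa [cm i j ij k m g hg, mul_inv_cancel_right]
  · rintro g ⟨v, φ, a, e⟩
    obtain ⟨i, q⟩ := all v φ a
    exact Subgroup.mem_iSup_of_mem i (Subgroup.subset_closure ⟨v, φ, q, e⟩)
  · obtain ⟨w, a, y, b, rfl⟩ := Submodule.mem_sup.1 ((compl (t j)).sup_eq_top.ge (Submodule.mem_top (x := x)))
    have : g ∈ MulAction.stabilizer (V ≃ₗ[ZMod p] V) w :=
      (iSup₂_le (a := MulAction.stabilizer (V ≃ₗ[ZMod p] V) w) fun i n g hg => K_C (t i) hg w (le j i (Ne.symm n) a) :) hg.2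
    rw [map_add, K_C (t j) hg.1 y b, show g w = w from this]; rfl

end Cfsg.Agent.S5075
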