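import Cfsg.Statements.S5125
import Cfsg.Agent.H2.FS6

set_option autoImplicit false
open Cfsg

namespace Cfsg.Agent.S5125

open Subgroup H2


/-- Let F be a saturated fusion system over a finite p-group S and Q a subgroup strongly closed in F. If Q has a subgroup Q₁ that is normal in F, with Q/Q₁ abelian and Aut_F(Q₁) a p-group, then Q is normal in F. -/
theorem result {Ω : Type*} [Group Ω] {S : Subgroup Ω} [Finite S] (p : ℕ) [Fact p.Prime] (hS : IsPGroup p S) (F : Cfsg.FusionSystem S) (hF : F.IsSaturated p) (Q Q₁ : Subgroup Ω) (hQ : F.StronglyClosed Q) (hQ₁Q : Q₁ ≤ Q) (hQ₁ : F.IsNormal Q₁) (hab : ⁅Q, Q⁆ ≤ Q₁) (hAut : IsPGroup p ↥(F.autGroup Q₁)) : F.IsNormal Q := by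
  refine normal_of_sc hS hF hQ fun P hP => ?_
  have h1 := normal_le_essS hS hF hQ₁ hP
  have hPn := hP.le.trans (sc_le_normalizer hQ)
  haveI := finite_of_le hQ₁.1
  exact le_of_stab' hS hP.centric (hP.radical hS hF) hQ.1 hPn (C := fun _ => Q₁) monotone_const
    (n := 0) hQ₁Q (fun α hα => by
      obtain ⟨k, hk⟩ := exists_pow_fix_of_isPGroup hP.le h1 hAut hα
        fun x hx => sc_afn (normal_sc hQ₁) hP.le hα (h1 hx) hx
      exact ⟨k, fun x _ hx => hk x hx⟩)
    (fun α hα _ _ x => sc_afn (normal_sc hQ₁) hP.le hα) (fun α hα x => sc_afn hQ hP.le hα)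
    (fun _ _ _ i hi => absurd hi (Nat.not_lt_zero i))
    (fun u hu _ x _ hx => hab (inv_mul_conj_mem_commutator hx hu))
    fun u hu _ x hx => inv_mul_conj_mem (hPn hx) hu

end Cfsg.Agent.S5125
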