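import Cfsg.Statements.S5126
import Cfsg.Agent.H2.Mod3

set_option autoImplicit false
open Cfsg

namespace Cfsg.Agent.S5126

open Subgroup H2 Cfsg.FusionSystem


/-- In a saturated fusion system over a finite p-group S, the normalizer system of a fully normalized, centric, radical subgroup R is constrained, and in every model of that normalizer system the largest normal p-subgroup is the image of R. -/
theorem result {Ω : Type*} [Group Ω] {S : Subgroup Ω} [Finite S] (p : ℕ) [Fact p.Prime] (hS : IsPGroup p S) (F : Cfsg.FusionSystem S) (hF : F.IsSaturated p) (R : Subgroup Ω) (hRn : F.IsFullyNormalized R) (hRc : F.IsCentric R) (hRr : F.IsRadical p R) (E : Cfsg.FusionSystem (Cfsg.FusionSystem.normalizerIn S R)) (hE : F.IsNormalizerSystem R E) {G : Type*} [Group G] (ι : ↥(Cfsg.FusionSystem.normalizerIn S R) →* G) : E.IsConstrained p ∧ (E.IsModel p G ι → (Cfsg.pCore p G : Subgroup G) = (R.subgroupOf (Cfsg.FusionSystem.normalizerIn S R)).map ι) := by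
  rw [isNormalizerSystem_iff] at hE
  have h0 := hE.top_le hRn.1
  have h1 := hE.constrained hS hF (fullyK_top_iff.2 hRn) h0 (centric_self hRc)
  refine ⟨h1, fun hG => ?_⟩
  obtain ⟨_, k⟩ := isModel_iff.1 hG
  rw [H7.pCore_eq, ← k.core, ← img_fn_of_le ι h0]
  congr 1
  refine le_antisymm (normal_le_of_centric_radical (hS.to_le hE.le) (normal_core E)
    (hE.centric h0 (centric_self hRc)) ⟨h0, ?_⟩) (le_core (hE.normal h0))
  rw [hE.autGroup h0, inf_top_eq]; exact hRr.2

end Cfsg.Agent.S5126
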