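import Cfsg.Statements.S5132
import Cfsg.Agent.H2.FS11

set_option autoImplicit false
open Cfsg

namespace Cfsg.Agent.S5132

open Subgroup H2 Cfsg.FusionSystem


/-- Let F be a fusion system over a finite p-group S and S₀ a subgroup strongly closed in F (so S₀ is normal in S; the normality of S₀ ∩ S in S is supplied as an instance hypothesis so that the quotient can be written). Then the factor system F/S₀ exists: there is a fusion system over S/S₀ whose maps with source a subgroup P' of S/S₀ are exactly the homomorphisms induced along the quotient map by the maps of F whose source is the full preimage of P' in S. -/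
theorem result {Ω : Type*} [Group Ω] {S : Subgroup Ω} [Finite S] (p : ℕ) [Fact p.Prime] (hS : IsPGroup p S) (F : Cfsg.FusionSystem S) (S₀ : Subgroup Ω) (hS₀ : F.StronglyClosed S₀) [(S₀.subgroupOf S).Normal] : ∃ E : Cfsg.FusionSystem (⊤ : Subgroup (S ⧸ S₀.subgroupOf S)), F.IsFactorSystem S₀ (QuotientGroup.mk' (S₀.subgroupOf S)) E := by
  have hk : prim (fn (QuotientGroup.mk' (S₀.subgroupOf S))) S ⊥ = S₀ := by
    rw [← map_ker_eq, QuotientGroup.ker_mk', map_subgroupOf_eq_of_le hS₀.1]
  obtain ⟨E, hE⟩ := exists_fac (F := F) (S' := ⊤) (homOn_fn (QuotientGroup.mk' (S₀.subgroupOf S)))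
    (hk.symm ▸ hS₀) (by rw [img_fn, QuotientGroup.range_mk'])
  exact ⟨E, isFactorSystem_iff.2 ⟨hk.symm, hE⟩⟩

end Cfsg.Agent.S5132
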