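import Cfsg.Statements.S5138
import Cfsg.Agent.H2.CE3

set_option autoImplicit false
open Cfsg

namespace Cfsg.Agent.S5138

open Subgroup H2 Cfsg.FusionSystem


/-- Let F be a saturated fusion system over a finite p-group S and E₁, E₂ normal subsystems over T₁, T₂ with [T₁, T₂] = 1. Then there is a normal subsystem of F over T₁T₂ which, if moreover T₁ ∩ T₂ lies in the centre of E₁ and in the centre of E₂, is a central product of E₁ and E₂ (the factor system of a direct product of E₁ and E₂ modulo a subgroup of its centre meeting both factors trivially). -/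
theorem result {Ω : Type*} [Group Ω] {S : Subgroup Ω} [Finite S] (p : ℕ) [Fact p.Prime] (hS : IsPGroup p S) (F : Cfsg.FusionSystem S) (hF : F.IsSaturated p) {T₁ T₂ : Subgroup Ω} (E₁ : Cfsg.FusionSystem T₁) (E₂ : Cfsg.FusionSystem T₂) (hE₁ : E₁.IsNormalIn F p) (hE₂ : E₂.IsNormalIn F p) (hc : ⁅T₁, T₂⁆ = ⊥) : ∃ D : Cfsg.FusionSystem (T₁ ⊔ T₂), D.IsNormalIn F p ∧ (T₁ ⊓ T₂ ≤ E₁.center → T₁ ⊓ T₂ ≤ E₂.center → Cfsg.FusionSystem.IsCentralProductOf E₁ E₂ D) := by
  have n1 := normalIn_iff.1 hE₁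
  have n2 := normalIn_iff.1 hE₂
  haveI := finite_of_le n1.le
  haveI := finite_of_le n2.le
  have cm : T₁ ≤ centralizer (T₂ : Set Ω) := commutator_eq_bot_iff_le_centralizer.1 hc
  by_cases h : T₁ ⊓ T₂ ≤ E₁.center ∧ T₁ ⊓ T₂ ≤ E₂.center
  · obtain ⟨D, d⟩ := (⟨cm, central_iff_le.2 h.1, central_iff_le.2 h.2⟩ : CPD E₁ E₂).exists rfl
    exact ⟨D, normalIn_iff.2 (d.nrm hS n1 n2), fun _ _ => cp_iff.2 d⟩
  · have p1 := hS.to_le n1.le
    have p2 := hS.to_le n2.le
    obtain ⟨O₁, o1, -⟩ := exists_ppres' p1 n1.satE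
    obtain ⟨O₂, o2, -⟩ := exists_ppres' p2 n2.satE
    have s := sc_inf n1.inv.sc n2.inv.sc
    obtain ⟨D, d⟩ := (⟨cm, ppres_central p1 n1.satE o1 (sc_sub n1.inv.sub s inf_le_left)
      (inf_le_right.trans (le_centralizer_iff.1 cm)), ppres_central p2 n2.satE o2
      (sc_sub n2.inv.sub s inf_le_right) (inf_le_left.trans cm)⟩ : CPD O₁ O₂).exists rfl
    exact ⟨D, normalIn_iff.2 (d.nrm hS (ppres_nrm hS hF n1.satE n1.inv o1)
      (ppres_nrm hS hF n2.satE n2.inv o2)), fun a b => (h ⟨a, b⟩).elim⟩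

end Cfsg.Agent.S5138
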