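import Cfsg.Statements.S5148
import Cfsg.Agent.H2.TrF

set_option autoImplicit false
open Cfsg

namespace Cfsg.Agent.S5148

open Subgroup H2 Cfsg.FusionSystem


/-- A quasisimple fusion system over a finite p-group S (saturated, equal to its p-residual subsystem, with simple — in particular nontrivial — factor system modulo its centre) has S nonabelian. -/
theorem result {Ω : Type*} [Group Ω] {S : Subgroup Ω} [Finite S] (p : ℕ) [Fact p.Prime] (hS : IsPGroup p S) (F : Cfsg.FusionSystem S) (hq : F.Quasisimple p) : ¬ IsMulCommutative S := by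
  intro hc
  obtain ⟨Ω', _, S', _, E, θ, hm, hk, -⟩ := exists_quot_smor (central_normal (central_center F))
  obtain ⟨hF, h1, h2⟩ := (quasisimple_iff hS hm.fac hk).1 hq
  have hS' := hm.fac.isPGroup hS
  obtain ⟨hE, h3, h4⟩ := simple_iff.1 h2
  have hc' : IsMulCommutative S' := by
    rw [H7.isComm_iff, ← H7.comm_eq_bot, ← hm.onto, ← hm.hom.img_commutator le_rfl le_rfl,
      commutator_eq_bot_of_comm hc, img_bot hm.hom.one]
  have := (sub_inner_iff hS' hE).1 ((h4 _ _ (inner_nrm hS' hE
    (normal_of_abelian_sc hS' hE (sc_top E) hc'))).resolve_left h3)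
  rw [hm.hyp, h1, hm.onto] at this
  exact h3 this

end Cfsg.Agent.S5148
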