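import Cfsg.Statements.S5152
import Cfsg.Agent.H2.CP1

set_option autoImplicit false
open Cfsg

namespace Cfsg.Agent.S5152

open Subgroup H2 Cfsg.FusionSystem


/-- Dichotomy for saturated fusion systems: a saturated fusion system over a finite p-group is of characteristic p-type (the normalizer system of every nontrivial fully normalized subgroup is constrained) or of component type (the centralizer system of some fully normalized subgroup of order p has a component). -/
theorem result {Ω : Type*} [Group Ω] {S : Subgroup Ω} [Finite S] (p : ℕ) [Fact p.Prime] (hS : IsPGroup p S) (F : Cfsg.FusionSystem S) (hF : F.IsSaturated p) : F.IsOfCharacteristicPType p ∨ F.IsOfComponentType p := by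
  by_cases h : F.IsOfComponentType p
  · exact Or.inr h
  refine Or.inl fun U h0 hU E hE => charP_of_cen hS hF (fun X h1 h2 C hC => ?_) h0 hU
    (isNormalizerSystem_iff.1 hE)
  refine (constrained_iff_no_component (hS.to_le hC.le) (hC.saturated hS hF
    (fullyK_bot_iff.2 (sat_fullyCentralized hS hF h2)))).2 fun k => h ?_
  exact ⟨X, h1, h2, C, isCentralizerSystem_iff.2 hC, k⟩

end Cfsg.Agent.S5152
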