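import Cfsg.Statements.S5153
import Cfsg.Agent.H2.FS9

set_option autoImplicit false
open Cfsg

namespace Cfsg.Agent.S5153

open Subgroup H2

theorem aux {Ω : Type*} [Group Ω] {p : ℕ} {T S : Subgroup Ω} {E : FusionSystem T}
    {F : FusionSystem S} (hE : E.IsSubnormalIn F p) : Fact p.Prime → Finite S → IsPGroup p S →
    F.IsSaturated p → ∀ P ≤ T, F.IsFullyNormalized P → E.IsFullyNormalized P := by
  induction hE with
  | refl F p => exact fun _ _ _ _ _ _ h => h
  | step h1 h2 ih =>
    intro _ _ hS hF P hP h
    have h3 := normalIn_iff.1 h2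
    exact ih ‹_› (finite_of_le h3.le) (hS.to_le h3.le) h3.satE P hP
      (fullyNormalized_sub hS hF h3.inv.sc h3.inv.sub (hP.trans (sub_le (subnormal_sub h1))) h)

/-- Let F be a saturated fusion system over a finite p-group S and E a subnormal subsystem of F over T. Then every subgroup of T that is fully normalized in F is fully normalized in E. -/
theorem result {Ω : Type*} [Group Ω] {S : Subgroup Ω} [Finite S] (p : ℕ) [Fact p.Prime] (hS : IsPGroup p S) (F : Cfsg.FusionSystem S) (hF : F.IsSaturated p) {T : Subgroup Ω} (E : Cfsg.FusionSystem T) (hE : E.IsSubnormalIn F p) (P : Subgroup Ω) (hPT : P ≤ T) (hP : F.IsFullyNormalized P) : E.IsFullyNormalized P := by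
  exact aux hE ‹_› ‹_› hS hF P hPT hP

end Cfsg.Agent.S5153
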