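import Cfsg.Statements.S5197
import Cfsg.Agent.H2.TrR

set_option autoImplicit false
universe u
open Cfsg

namespace Cfsg.Agent.S5197

open Subgroup H2 Cfsg.FusionSystem


/-- Let p be a prime and W a positive characteristic p-functor: W assigns to every finite p-group Q (in a fixed universe) a subgroup W(Q), nontrivial when Q is, carried to W(R) by every isomorphism Q ≅ R. Suppose W satisfies the local condition: for every finite group G with Sylow p-subgroup P such that C_G(O_p(G)) ≤ O_p(G), one has O_p(G) ∩ [G, G] = O_p(G) ∩ [N, N] for N = N_G(W(P)). Then W controls transfer in every saturated fusion system F over a finite p-group S: the focal subgroup of F equals the focal subgroup of the normalizer fusion system of W(S) in F. -/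
theorem result {p : ℕ} [Fact p.Prime] (W : ∀ (Q : Type u) [Group Q], Subgroup Q) (hW1 : ∀ (Q : Type u) [Group Q] [Finite Q], IsPGroup p Q → Nontrivial Q → W Q ≠ ⊥) (hW2 : ∀ (Q R : Type u) [Group Q] [Group R] [Finite Q], IsPGroup p Q → ∀ φ : Q ≃* R, (W Q).map φ.toMonoidHom = W R) (hT : ∀ (G : Type u) [Group G] [Finite G] (P : Sylow p G), Subgroup.centralizer ((Cfsg.pCore p G : Subgroup G) : Set G) ≤ Cfsg.pCore p G → Cfsg.pCore p G ⊓ commutator G = Cfsg.pCore p G ⊓ (commutator ↥(Subgroup.normalizer (((W ↥(P : Subgroup G)).map (P : Subgroup G).subtype : Subgroup G) : Set G))).map (Subgroup.normalizer (((W ↥(P : Subgroup G)).map (P : Subgroup G).subtype : Subgroup G) : Set G)).subtype) {Ω : Type u} [Group Ω] {S : Subgroup Ω} [Finite S] (hS : IsPGroup p S) (F : Cfsg.FusionSystem S) (hF : F.IsSaturated p) (N : Cfsg.FusionSystem (Cfsg.FusionSystem.normalizerIn S ((W ↥S).map S.subtype))) (hN : F.IsNormalizerSystem ((W ↥S).map S.subtype) N) : N.focalSubgroup = F.focalSubgroup := by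
  have hW := pf_induced (p := p) (W := W) ⟨hW1, hW2⟩
  have hD : IsNK F (inducedFunctor W S) ⊤ N := isNormalizerSystem_iff.1 hN
  refine le_antisymm (focal_mono hD.sub) (tc_of_models (W := fun _ : Unit => fun P => inducedFunctor W P)
    (fun _ => hW) secCl_top (upto_self fun L _ _ _ _ T X h1 h2 _ _ h5 => ?_) hS hF loc_top _ ?_
    fun _ => hD.nf_iff.2 le_rfl)
  · have := hT L h1.toSylowTop (chP_top.1 h2)
    rw [map_subtype_commutator, H7.pCore_eq] at this
    refine this.le.trans (le_trans (inf_le_inf (h1.le_of_normal (H7.isPGroup_Op p ⊤) le_top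
      (le_top.trans (H7.le_nrm_Opi _ _))) ?_) (h5 ()))
    rw [top_inf_eq]; exact le_rfl
  · have e : normalizerIn S ((W ↥S).map S.subtype) = S := normalizerIn_eq (hW.nrm_le hS le_normalizer)
    exact le_trans (commutator_mono e.ge e.ge) (commutator_le_focal N)

end Cfsg.Agent.S5197
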