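import Cfsg.Statements.S5202
import Cfsg.Agent.H2.CE5

set_option autoImplicit false
open Cfsg

namespace Cfsg.Agent.S5202

open Subgroup H2 Cfsg.FusionSystem


/-- Let F be a saturated fusion system over a finite p-group S and E a normal subsystem of F over T such that Aut_F(T)/Aut_E(T) is p-solvable. Then there is a normal subsystem F₀ of F over T·C_S(T) containing E, with Aut_{F₀}(T) = Aut_E(T), containing every residual limit of F, and whose residual limits have the same maps as those of F. -/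
theorem result {Ω : Type*} [Group Ω] {S : Subgroup Ω} [Finite S] (p : ℕ) [Fact p.Prime] (hS : IsPGroup p S) (F : Cfsg.FusionSystem S) (hF : F.IsSaturated p) {T : Subgroup Ω} (E : Cfsg.FusionSystem T) (hE : E.IsNormalIn F p) [hn : ((E.autGroup T).subgroupOf (F.autGroup T)).Normal] (hsolv : Cfsg.IsPSolvable p (↥(F.autGroup T) ⧸ (E.autGroup T).subgroupOf (F.autGroup T))) : ∃ F₀ : Cfsg.FusionSystem (T ⊔ Cfsg.FusionSystem.centralizerIn S T), F₀.IsNormalIn F p ∧ E.IsSubsystemOf F₀ ∧ F₀.autGroup T = E.autGroup T ∧ ∀ {U : Subgroup Ω} (Finf : Cfsg.FusionSystem U), Finf.IsResidualLimitOf F p → Finf.IsSubsystemOf F₀ ∧ ∀ {V : Subgroup Ω} (L : Cfsg.FusionSystem V), L.IsResidualLimitOf F₀ p → ∀ P : Subgroup Ω, L.Hom P = Finf.Hom P := by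
  have n := normalIn_iff.1 hE
  haveI := finite_mulAut n.le
  have e := inf_eq_left.2 (autGroup_mono n.inv.sub T)
  obtain ⟨N, n1, n2, n3, n4⟩ := n.exists_red hS fun A l h1 h2 =>
    le_of_psolv hsolv A l (e.symm ▸ h1) (e.symm ▸ h2)
  refine ⟨N, normalIn_iff.2 n1, n2, n3, fun Finf h => ?_⟩
  have a := lim_nrm h hS (nrm_refl hF)
  have l := n4 _ _ a.2 a.1.subnormal
  exact ⟨subnormal_sub (a.2.subn hS a.1.subnormal n1 l), fun L k P => (n1.lim_eq hS h k l P).symm⟩

end Cfsg.Agent.S5202
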