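import Cfsg.Statements.S5221
import Cfsg.Agent.H2.FS17

set_option autoImplicit false
open Cfsg

namespace Cfsg.Agent.S5221

open Subgroup H2 Cfsg.FusionSystem


/-- Let F be a sparse fusion system over a finite p-group S: a saturated fusion system, not the inner fusion system of S, whose only saturated fusion systems over S contained in it are F itself and the inner one. If p is odd, or F is S₄-free (the symmetric group of degree 4 is not involved in any model of the normalizer system of a fully normalized F-centric subgroup), then F is constrained. -/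
theorem result {Ω : Type*} [Group Ω] {S : Subgroup Ω} [Finite S] (p : ℕ) [Fact p.Prime] (hS : IsPGroup p S) (F : Cfsg.FusionSystem S) (hF : F.IsSaturated p) (hsp : ¬ (∀ P : Subgroup Ω, F.Hom P = (Cfsg.innerFusionSystem S).Hom P) ∧ ∀ E : Cfsg.FusionSystem S, E.IsSaturated p → E.IsSubsystemOf F → (∀ P : Subgroup Ω, E.Hom P = F.Hom P) ∨ (∀ P : Subgroup Ω, E.Hom P = (Cfsg.innerFusionSystem S).Hom P)) (hp : p ≠ 2 ∨ F.IsSectionFree p (Equiv.Perm (Fin 4))) : F.IsConstrained p := by
  refine constrained_of_sparse hS hF (loc_TH hp) (fun U h1 h2 h3 => ?_)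
    fun h => hsp.1 (hom_eq_inner_iff.2 h)
  obtain ⟨D, hD⟩ := exists_nrmSystem F h1 h2
  rcases hsp.2 D (hD.sat_top hS hF (fullyNormalized_of_normal h1 h2)) hD.sub with h | h
  · exact (h3 (hD.normal_of_sub h1 (sub_iff_mor.2 fun P f => ((hom_eq_iff_mor.1 (h P)) f).2))).elim
  · exact hD.nle_iff.2 (hom_eq_inner_iff.1 h)

end Cfsg.Agent.S5221
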