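import Cfsg.Statements.S5222
import Cfsg.Agent.H2.TrF

set_option autoImplicit false
open Cfsg

namespace Cfsg.Agent.S5222

open Subgroup H2 Cfsg.FusionSystem


/-- Let F be a saturated fusion system over a finite p-group S whose normalizer fusion system of S is the inner fusion system of S (Aut_F(S) is a p-group). Then for every subgroup Q of S with [S, S] ≤ Q ≤ Φ(S), the normalizer fusion system of Q in F is the inner fusion system of N_S(Q) = S. -/
theorem result {Ω : Type*} [Group Ω] {S : Subgroup Ω} [Finite S] (p : ℕ) [Fact p.Prime] (hS : IsPGroup p S) (F : Cfsg.FusionSystem S) (hF : F.IsSaturated p) (hN : ∀ N : Cfsg.FusionSystem (Cfsg.FusionSystem.normalizerIn S S), F.IsNormalizerSystem S N → ∀ P : Subgroup Ω, N.Hom P = (Cfsg.innerFusionSystem (Cfsg.FusionSystem.normalizerIn S S)).Hom P) (Q : Subgroup Ω) (h1 : (commutator ↥S).map S.subtype ≤ Q) (h2 : Q ≤ (frattini ↥S).map S.subtype) : ∀ N : Cfsg.FusionSystem (Cfsg.FusionSystem.normalizerIn S Q), F.IsNormalizerSystem Q N → ∀ P : Subgroup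 Ω, N.Hom P = (Cfsg.innerFusionSystem (Cfsg.FusionSystem.normalizerIn S Q)).Hom P := by
  have hQ : Q ≤ S := h2.trans (map_subtype_le _)
  rw [_root_.commutator_def, map_commutator, H7.map_subtype_top] at h1
  have hn : S ≤ normalizer (Q : Set Ω) := mem_normalizer_of_conj_mem_both fun a ha x hx => by
    simpa using Q.mul_mem hx (h1 (inv_mul_conj_mem_commutator (hQ hx) ha))
  rw [normalizer_inner_iff le_rfl] at hN
  rw [normalizer_inner_iff hQ]
  obtain ⟨E, hE⟩ := exists_nrmSystem F hQ hn
  have hE' := hE.sat_top hS hF (fullyNormalized_of_normal hQ hn)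
  rw [hE.nle_iff, normalizerIn_eq hn]
  refine inner_of_focal_le_Phi hS hE' ((focal_le_of_sc hS hE' (normal_sc (hE.normal hQ)) h1
    fun f hf x hx => ?_).trans h2)
  obtain ⟨-, g, g1, g2⟩ := mor_inner.1
    (hN.mor (hf.sub hE.sub) le_rfl le_normalizer (hf.img_eq_self fun _ => hf.mem))
  exact g2 x hx ▸ h1 (inv_mul_conj_mem_commutator hx g1.1)

end Cfsg.Agent.S5222
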