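import Cfsg.Statements.S5226
import Cfsg.Agent.H2.FS6

set_option autoImplicit false
open Cfsg

namespace Cfsg.Agent.S5226

open Subgroup H2


/-- Let F be a saturated fusion system over a finite p-group S and Q a subgroup of S. Then Q is normal in F (F equals the normalizer system of Q) if and only if Q is strongly closed in F and admits a central series 1 = Q₀ ≤ Q₁ ≤ ⋯ ≤ Qₙ = Q ([Qᵢ₊₁, Q] ≤ Qᵢ) all of whose proper terms are weakly closed in F. -/
theorem result {Ω : Type*} [Group Ω] {S : Subgroup Ω} [Finite S] (p : ℕ) [Fact p.Prime] (hS : IsPGroup p S) (F : Cfsg.FusionSystem S) (hF : F.IsSaturated p) (Q : Subgroup Ω) : F.IsNormal Q ↔ F.StronglyClosed Q ∧ ∃ (n : ℕ) (C : Fin (n + 1) → Subgroup Ω), C 0 = ⊥ ∧ C (Fin.last n) = Q ∧ Monotone C ∧ (∀ i : Fin n, ⁅C i.succ, Q⁆ ≤ C i.castSucc) ∧ ∀ i : Fin n, F.WeaklyClosed (C i.castSucc) := by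
  constructor
  · intro h
    haveI := finite_of_le h.1
    obtain ⟨n, hn⟩ := exists_ucs_eq (hS.to_le h.1)
    exact ⟨normal_sc h, n, fun i => ucs Q i, ucs_zero Q, hn, fun i j hij => ucs_mono Q hij,
      fun i => commutator_ucs_le Q i,
      fun i => normal_wc (normal_of_characteristic h (ucs_le Q _) inferInstance)⟩
  · rintro ⟨hQ, n, C, h0, hn, hC, h, h'⟩
    refine normal_of_sc hS hF hQ fun P hP => le_of_wc_chain hS hP.centric (hP.radical hS hF) hQ
      (natChain_mono hC) ((natChain_zero C).trans h0)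
      ((natChain_of_le C le_rfl).trans hn) (fun i hi => ?_) fun i hi => ?_
    · rw [natChain_castSucc C hi]; exact h' _
    · rw [natChain_succ C hi, natChain_castSucc C hi]; exact h _

end Cfsg.Agent.S5226
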