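import Cfsg.Statements.S5233
import Cfsg.Agent.H2.RL4

set_option autoImplicit false
open Cfsg

namespace Cfsg.Agent.S5233

open Subgroup H2 Cfsg.FusionSystem

open H7 H1B
open scoped commutatorElement

/-- Let F be a saturated fusion system over a finite p-group S and P a subgroup of S strongly closed in F that is generalized extraspecial (its Frattini subgroup equals its commutator subgroup and has order p) and not isomorphic to E × A with A elementary abelian and E dihedral of order 8 (p = 2) or extraspecial of order p³ and exponent p (p odd). Then P is normal in F. -/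
theorem result {Ω : Type*} [Group Ω] {S : Subgroup Ω} [Finite S] (p : ℕ) [Fact p.Prime] (hS : IsPGroup p S) (F : Cfsg.FusionSystem S) (hF : F.IsSaturated p) (P : Subgroup Ω) (hP : F.StronglyClosed P) (hge : frattini ↥P = commutator ↥P ∧ Nat.card ↥(commutator ↥P) = p) (h2 : p = 2 → ¬ ∃ (A : Type) (_ : CommGroup A), (∀ a : A, a ^ 2 = 1) ∧ Nonempty (↥P ≃* DihedralGroup 4 × A)) (hodd : p ≠ 2 → ¬ ∃ (E : Type) (_ : Group E) (A : Type) (_ : CommGroup A), Cfsg.IsExtraspecial p E ∧ Nat.card E = p ^ 3 ∧ Monoid.exponent E = p ∧ (∀ a : A, a ^ p = 1) ∧ Nonempty (↥P ≃* E × A)) : F.IsNormal P := by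
  obtain ⟨G, _, _, S', F', θ, θ', j, r⟩ := exists_real F
  obtain ⟨e⟩ := j.equiv hP.1
  haveI := finite_of_le hP.1
  have hp : p.Prime := Fact.out
  have pS := j.isPGroup hS
  have sP := j.sc hP
  set P' := img θ P
  have pP := pS.to_le sP.1
  have e1 : (_root_.commutator P).map (e : P →* P') = _root_.commutator P' := by
    rw [map_commutator_eq, MonoidHom.range_eq_top.2 e.surjective]; rfl
  have f1 : frattini P' ≤ _root_.commutator P' := fun x hx => by
    rw [← e1, ← hge.1]
    exact ⟨e.symm x, frattini_le_comap_frattini_of_surjective (φ := (e.symm : P' →* P)) e.symm.surjective hx,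
      e.apply_symm_apply x⟩
  have c1 : ord ⁅P', P'⁆ = p := by
    rw [← der_map, card_map_of_injective P'.subtype_injective, ← e1, card_map_of_injective e.injective, hge.2]
  obtain ⟨z, hz⟩ := H1B.cyc_iff.1 (isCyclic_of_prime_card c1)
  have d : ⁅P', P'⁆ ≤ P' := comm_le_left (le_nrm_self _)
  have nS : S' ≤ nrm ⁅P', P'⁆ := nrm_commutator (sc_le_normalizer sP) (sc_le_normalizer sP)
  have q : SQ p P' z := ⟨d (hz.le (mem_zpowers z)), by rw [← Nat.card_zpowers, hz, c1],
    zpowers_le.1 (hz ▸ le_cen_symm (cen_of_card_le pP (pP.to_le d) (sP.1.trans nS) c1.le)),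
    fun a ha b hb => hz ▸ commutator_mem_commutator ha hb, fun a ha => by
      rw [hz, ← der_map]; exact map_mono f1 (pow_mem_Phi pP ha)⟩
  have nc : ¬ P' ≤ cen P' := fun h => hp.ne_one (by rw [← c1, comm_eq_bot.2 h, card_bot])
  rcases r.normal_sq pS (j.saturated hS hF) sP q nc (hz ▸ nS) with h | ⟨x, hx, y, hy, xy, ea, o⟩
  · exact (j.normal_iff hP.1).1 h
  exfalso
  obtain ⟨E, A, xs, xE, yE, oE, eA, EA', i, s, g⟩ := sq_split q hx hy xy ea
  obtain ⟨k⟩ := exists_prod EA' i
  have k' := e.trans ((MulEquiv.subgroupCongr s.symm).trans k)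
  let φ : G →* Shrink.{0} G := (Shrink.mulEquiv.{0} (α := G)).symm.toMonoidHom
  have hφ : Function.Injective φ := (Shrink.mulEquiv.{0} (α := G)).symm.injective
  haveI : Finite (Shrink.{0} G) := Finite.of_equiv G (equivShrink.{0} G)
  have cA : IsMulCommutative (A.map φ) := by haveI := eA.1; infer_instance
  letI : CommGroup (A.map φ) := { (inferInstance : Group (A.map φ)) with mul_comm := cA.is_comm.comm }
  have pA : ∀ a : A.map φ, a ^ p = 1 := by
    rintro ⟨_, a, ha, rfl⟩
    exact Subtype.ext (by rw [coe_pow, ← map_pow, eA.pow ha, map_one]; rfl)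
  have ncE : ¬ E ≤ cen E := fun h => by
    have := xs.oz
    rw [← xy, commutatorElement_eq_one_iff_mul_comm.2 (h yE x xE), orderOf_one] at this
    exact hp.ne_one this.symm
  have xp : x ^ p = 1 := ea.pow ⟨hx, mem_cen1.2 (Commute.refl x)⟩
  by_cases p2 : p = 2
  · subst p2
    obtain ⟨a, m⟩ := mx_of_eight oE (mt isComm_iff.1 ncE)
    have xa : x ∉ zpowers a := fun h => by
      rcases m.eq_of_sq h (by rw [← sq, xp]) with h | h
      · have := xs.oz
        rw [← xy, h, commutatorElement_one_left, orderOf_one] at this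
        omega
      · have := xs.oz
        rw [← xy, h, commutatorElement_eq_one_iff_mul_comm.2 (m.z_comm yE).symm, orderOf_one] at this
        omega
    obtain ⟨l⟩ := m.dih rfl xE xa (by rw [← sq, xp])
    exact h2 rfl ⟨A.map φ, inferInstance, pA, ⟨k'.trans (l.prodCongr (A.equivMapOfInjective φ hφ))⟩⟩
  · have yp := o.resolve_left p2
    have ex : ∀ a ∈ E, a ^ p = 1 := by
      let T : Subgroup G := ⟨⟨⟨{a | a ∈ E ∧ a ^ p = 1}, fun {a b} ha hb => ⟨mul_mem ha.1 hb.1, by
        rw [H2.SQ.mul_pow xs.toSQ p2 ha.1 hb.1, ha.2, hb.2, one_mul]⟩⟩, one_mem _, one_pow _⟩,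
        fun {a} ha => ⟨inv_mem ha.1, by rw [inv_pow, ha.2, inv_one]⟩⟩
      have : E ≤ T := g.le.trans (sup_le (sup_le (zpowers_le.2 ⟨xs.zm, xs.oz ▸ pow_orderOf_eq_one z⟩)
        (zpowers_le.2 ⟨xE, xp⟩)) (zpowers_le.2 ⟨yE, yp⟩))
      exact fun a ha => (this ha).2
    refine hodd p2 ⟨E.map φ, inferInstance, A.map φ, inferInstance, (xs.map hφ).es fun h => ncE fun a ha b hb =>
      hφ (by rw [map_mul, map_mul]; exact h (mem_map_of_mem φ ha) _ (mem_map_of_mem φ hb)),
      by rw [card_map_of_injective hφ, oE], exponent_eq_prime (fun h => ncE ?_) ?_, pA,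
      ⟨k'.trans ((E.equivMapOfInjective φ hφ).prodCongr (A.equivMapOfInjective φ hφ))⟩⟩
    · rw [(map_eq_bot_iff_of_injective _ hφ).1 h]; exact bot_le
    · rintro _ ⟨a, ha, rfl⟩
      rw [← map_pow, ex a ha, map_one]

end Cfsg.Agent.S5233
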