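import Cfsg.Statements.S5236
import Cfsg.Agent.H2.RL4

set_option autoImplicit false
open Cfsg

namespace Cfsg.Agent.S5236

open Subgroup H2 Cfsg.FusionSystem


/-- Let p be an odd prime, F a saturated fusion system over a finite p-group S and P a subgroup of S strongly closed in F. Then P is normal in F if and only if Ω₁(P) (the subgroup generated by the elements of order p of P) has a chain of subgroups 1 = Q₀ ≤ Q₁ ≤ ⋯ ≤ Qₙ = Ω₁(P), each strongly closed in F, with [Qᵢ₊₁, P] ≤ Qᵢ for all i. -/
theorem result {Ω : Type*} [Group Ω] {S : Subgroup Ω} [Finite S] (p : ℕ) [Fact p.Prime] (hS : IsPGroup p S) (F : Cfsg.FusionSystem S) (hF : F.IsSaturated p) (hp : p ≠ 2) (P : Subgroup Ω) (hP : F.StronglyClosed P) : F.IsNormal P ↔ ∃ (n : ℕ) (Q : Fin (n + 1) → Subgroup Ω), Q 0 = ⊥ ∧ Q (Fin.last n) = Cfsg.omegaOne p P ∧ Monotone Q ∧ (∀ i : Fin (n + 1), F.StronglyClosed (Q i)) ∧ ∀ i : Fin n, ⁅Q i.succ, P⁆ ≤ Q i.castSucc := by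
  constructor
  · intro h
    haveI := finite_of_le hP.1
    obtain ⟨n, hn⟩ := exists_ucs_eq (hS.to_le hP.1)
    have o : F.IsNormal (omegaOne p P) := normal_of_aut_invariant h (H7.Om_le p P) fun α _ x hx => by
      have : img (afn α) (H7.Om p P) ≤ H7.Om p P := by
        refine img_le_iff.2 fun x hx => closure_induction (fun x hx => ?_) ?_ (fun x y hx hy a b => ?_)
          (fun x hx a => ?_) hx
        · exact H7.mem_Om (afn_maps α hx.1) (by rw [← (homOn_afn α).pow hx.1, hx.2, (homOn_afn α).one])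
        · rw [(homOn_afn α).one]; exact one_mem _
        · rw [homOn_afn α x (H7.Om_le p P hx) y (H7.Om_le p P hy)]; exact mul_mem a b
        · rw [(homOn_afn α).inv (H7.Om_le p P hx)]; exact inv_mem a
      exact this (mem_img_of_mem _ hx)
    refine ⟨n, fun i => ucs P i ⊓ omegaOne p P, by simp [ucs_zero], ?_, fun i j hij => inf_le_inf_right _ (ucs_mono P hij),
      fun i => sc_inf (normal_sc (normal_of_characteristic h (ucs_le P i) inferInstance)) (normal_sc o), fun i =>
      le_inf ((commutator_mono inf_le_left le_rfl).trans (commutator_ucs_le P i))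
        ((commutator_mono inf_le_right le_rfl).trans (H7.comm_le_left (H7.nrm_Om (H7.le_nrm_self P))))⟩
    simp only [Fin.val_last, hn]
    exact inf_eq_right.2 (H7.Om_le p P)
  rintro ⟨n, Q, h0, h1, -, h3, h4⟩
  obtain ⟨G, _, _, S', F', θ, θ', j, r⟩ := exists_real F
  refine (j.normal_iff hP.1).1 (r.normal_of_Om_chain (D := fun i => img θ (natChain Q i)) (n := n) (j.isPGroup hS)
    (j.saturated hS hF) (j.sc hP) (by simp only [natChain_zero, h0, j.img_bot]) ?_ (fun i _ => j.sc (h3 _)) fun i hi => ?_)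
  · simp only [natChain_of_le Q le_rfl, h1, ex, if_neg hp]
    exact j.Om_le hP.1 p
  · simp only [natChain_succ Q hi, natChain_castSucc Q hi]
    rw [← j.hom.img_commutator (h3 _).1 hP.1]
    exact img_mono θ (h4 _)

end Cfsg.Agent.S5236
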