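import Cfsg.Statements.S5243
import Cfsg.Agent.H2.OQ2

set_option autoImplicit false
open Cfsg

namespace Cfsg.Agent.S5243

open Subgroup H2 Cfsg.FusionSystem


/-- Let F be a saturated fusion system over a finite p-group S, E a normal subsystem of F over T ≤ S, and χ a surjective homomorphism from Aut_F(T) onto a nontrivial finite group Δ of order prime to p whose kernel contains Aut_E(T). Then there is a proper normal subsystem F₀ of F over S containing E such that Aut_{F₀}(S) consists of those α ∈ Aut_F(S) whose restriction to T is an element of Aut_F(T) in the kernel of χ; moreover every p'-residual subsystem O^{p'}(F) of F is contained in F₀. -/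
theorem result {Ω : Type*} [Group Ω] {S : Subgroup Ω} [Finite S] (p : ℕ) [Fact p.Prime] (hS : IsPGroup p S) (F : Cfsg.FusionSystem S) (hF : F.IsSaturated p) {T : Subgroup Ω} (hTS : T ≤ S) (E : Cfsg.FusionSystem T) (hE : E.IsNormalIn F p) {Δ : Type*} [Group Δ] [Finite Δ] [Nontrivial Δ] (hΔ : (Nat.card Δ).Coprime p) (χ : ↥(F.autGroup T) →* Δ) (hχ : Function.Surjective χ) (hker : (E.autGroup T).subgroupOf (F.autGroup T) ≤ χ.ker) : ∃ F₀ : Cfsg.FusionSystem S, F₀.IsNormalIn F p ∧ ¬ (∀ P : Subgroup Ω, F₀.Hom P = F.Hom P) ∧ E.IsSubsystemOf F₀ ∧ (∀ α : MulAut ↥S, α ∈ F₀.autGroup S ↔ α ∈ F.autGroup S ∧ ∃ β : ↥(F.autGroup T), χ β = 1 ∧ ∀ t : ↥T, (((β : MulAut ↥T) t : ↥T) : Ω) = ((α ⟨(t : Ω), hTS t.2⟩ : ↥S) : Ω)) ∧ ∀ R : Cfsg.FusionSystem S, F.IsPPrimeResidual p R → R.IsSubsystemOf F₀ := by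
  rw [normalIn_iff] at hE
  have k1 : ∀ {γ} (h : γ ∈ F.autGroup T), γ ∈ χ.ker.map (F.autGroup T).subtype ↔ χ ⟨γ, h⟩ = 1 :=
    fun h => ⟨fun ⟨_, h1, e⟩ => by cases e; exact h1, fun e => ⟨⟨_, h⟩, e, rfl⟩⟩
  obtain ⟨D, d1, d2, d3⟩ := hE.inv.exists_qi hS hF hE.satE (K := χ.ker.map (F.autGroup T).subtype)
    (fun α hα => (k1 (autGroup_mono hE.inv.sub T hα)).2 (hker hα)) (map_subtype_le _)
    ((normal_subgroupOf_iff_le_normalizer (map_subtype_le _)).1 (by
      rw [subgroupOf, comap_map_eq_self_of_injective (subtype_injective _)]; infer_instance))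
    fun γ hγ k h => (k1 hγ).2 (eq_one_of_coprime_of_pow (k := k) (by
      rw [← map_pow]; exact (k1 (pow_mem hγ _)).1 h) (hΔ.coprime_dvd_left (orderOf_dvd_natCard _)))
  refine ⟨D, normalIn_iff.2 d1, fun H => ?_, d2, fun α => ?_, fun R hR =>
    hR.2.2 D d1.satE (qI_iff.2 (d1.inv.qi hS hF))⟩
  · obtain ⟨x, hx⟩ := exists_ne (1 : Δ)
    obtain ⟨β, rfl⟩ := hχ x
    have h1 := (mem_autGroup hTS).1 β.2
    obtain ⟨γ, h2, e⟩ := (d3 T _ le_rfl h1).1 ((hom_eq_iff_mor.1 (H T) _).2 h1)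
    obtain rfl := afn_ext e
    exact hx ((k1 β.2).1 h2)
  · rw [mem_autGroup le_rfl, mem_autGroup le_rfl]
    constructor
    · intro h
      obtain ⟨γ, h2, e⟩ := (d3 S _ hTS (h.sub d1.inv.sub)).1 h
      exact ⟨h.sub d1.inv.sub, ⟨γ, map_subtype_le _ h2⟩, (k1 _).1 h2, fun t =>
        (afn_coe γ t).symm.trans ((e t t.2).trans (afn_mem α _))⟩
    · rintro ⟨h, β, h1, h2⟩
      exact (d3 S _ hTS h).2 ⟨β, (k1 β.2).2 h1, fun t ht =>
        (afn_mem _ ht).trans ((h2 ⟨t, ht⟩).trans (afn_mem α _).symm)⟩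

end Cfsg.Agent.S5243
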