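import Cfsg.Statements.S5244
import Cfsg.Agent.H2.RL6

set_option autoImplicit false
open Cfsg

namespace Cfsg.Agent.S5244

open Subgroup H2 Cfsg.FusionSystem


/-- Let p be an odd prime, S a finite nonabelian p-group with a unique abelian subgroup A of index p, and F a saturated fusion system over S with no nontrivial normal subgroup (O_p(F) = 1) in which A is not F-essential. Then some subgroup Z(S)⟨x⟩ with x ∈ S outside A is F-essential, the centre Z(S) is contained in the commutator subgroup of S, and S has maximal nilpotency class (if S has order pⁿ with n ≥ 3, the term of index n − 2 of its lower central series, counting S itself as the term of index 0, is nontrivial). -/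
theorem result {Ω : Type*} [Group Ω] {S : Subgroup Ω} [Finite S] (p : ℕ) [Fact p.Prime] (hS : IsPGroup p S) (F : Cfsg.FusionSystem S) (hF : F.IsSaturated p) (hp : p ≠ 2) (hna : ¬ IsMulCommutative ↥S) (A : Subgroup Ω) (hA : A ≤ S ∧ IsMulCommutative ↥A ∧ (A.subgroupOf S).index = p) (huniq : ∀ B : Subgroup Ω, B ≤ S → IsMulCommutative ↥B → (B.subgroupOf S).index = p → B = A) (hcore : F.core = ⊥) (hAe : ¬ F.IsEssential p A) : (∃ x ∈ S, x ∉ A ∧ F.IsEssential p ((S ⊓ Subgroup.centralizer (S : Set Ω)) ⊔ Subgroup.zpowers x)) ∧ (S ⊓ Subgroup.centralizer (S : Set Ω)) ≤ (commutator ↥S).map S.subtype ∧ ∀ n : ℕ, Nat.card S = p ^ n → 3 ≤ n → Subgroup.lowerCentralSeries S (n - 2) ≠ ⊥ := by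
  obtain ⟨G, _, _, S', F', θ, θ', j, r⟩ := exists_real F
  obtain ⟨a, uq⟩ := j.ai hS hna hA huniq
  have pS := j.isPGroup hS
  have sF := j.saturated hS hF
  obtain ⟨⟨x, x1, x2, k⟩, l, m⟩ := r.ai_core sF hp a uq (by rw [← j.core, hcore, j.img_bot])
    fun h => hAe (j.img_img hA.1 ▸ j.symm.essential pS sF h)
  rw [H1B.der_map]
  refine ⟨⟨θ' x, j.symm.maps x1, fun l => x2 (j.r x x1 ▸ mem_img_of_mem θ l), ?_⟩, ?_, fun n hn h3 e => m n ?_ h3 ?_⟩
  · have := j.symm.essential pS sF k
    rwa [j.symm.img_sup inf_le_left (zpowers_le.2 x1), j.symm.ctr, j.symm.zp x1] at this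
  · rw [← j.symm.ctr, ← j.symm.der]; exact img_mono θ' l
  · rw [← j.onto, j.card le_rfl, hn]
  · rw [← j.lcs, e, j.img_bot]

end Cfsg.Agent.S5244
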