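import Cfsg.Statements.S5246
import Cfsg.Agent.H2.FS20

set_option autoImplicit false
open Cfsg

namespace Cfsg.Agent.S5246

open Subgroup H2 Cfsg.FusionSystem


/-- Let p be an odd prime, G a finite group and P a Sylow p-subgroup. Call a fusion system F p-stable when, for every fully normalized subgroup Q and every χ ∈ Aut_F(Q) acting quadratically on Q (that is, χ fixes a⁻¹χ(a) for every a ∈ Q; equivalently χ(a⁻¹)·a·χ(a⁻¹)·χ(χ(a)) = 1), χ lies in O_p(Aut_F(Q)). Then G is p-stable in the normalizer form (for every p-subgroup Q and x ∈ N_G(Q) with [Q, x, x] = 1, the image of x lies in O_p(N_G(Q)/C_G(Q))) if and only if the fusion system of G on P is p-stable. -/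
theorem result {Ω : Type*} [Group Ω] [Finite Ω] {p : ℕ} [Fact p.Prime] (hp : p ≠ 2) (P : Sylow p Ω) : Cfsg.IsNormalizerPStable p Ω ↔ (∀ Q : Subgroup Ω, (Cfsg.groupFusionSystem (P : Subgroup Ω)).IsFullyNormalized Q → ∀ χ : MulAut ↥Q, χ ∈ (Cfsg.groupFusionSystem (P : Subgroup Ω)).autGroup Q → (∀ a : ↥Q, (χ a⁻¹) * a * (χ a⁻¹) * (χ (χ a)) = 1) → χ ∈ ((Cfsg.pCore p ↥((Cfsg.groupFusionSystem (P : Subgroup Ω)).autGroup Q)).map ((Cfsg.groupFusionSystem (P : Subgroup Ω)).autGroup Q).subtype : Subgroup (MulAut ↥Q))) := by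
  have hS := sylow_isSylowIn_top P
  have hG := isGF_group (P : Subgroup Ω)
  rw [nst_iff]
  refine ⟨fun h Q hQ χ hχ hq => ?_, fun h B _ b1 a a1 a2 => ?_⟩
  · rw [H7.pCore_map, hG.autGroup hQ.1] at *
    obtain ⟨g, -, e⟩ := mem_autInducedBy.1 hχ
    have hg := mem_normalizer_of_afn e
    obtain rfl : χ = cAut Q g hg := afn_ext fun x hx => by rw [e x hx, afn_cAut _ hx]
    have hg' : g ∈ ⊤ ⊓ normalizer (Q : Set Ω) := ⟨trivial, hg⟩
    exact (mem_Omod_act hg').1 (h Q le_top (hS.isPGroup.to_le hQ.1) g hg'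
      ((quad_cAut hg).1 hq))
  · obtain ⟨g, -, hg⟩ := hS.exists_cj_le b1 le_top
    have a3 : g * a * g⁻¹ ∈ ⊤ ⊓ normalizer (cj g B : Set Ω) :=
      ⟨trivial, by rw [normalizer_cj]; exact conj_mem_cj a1.2⟩
    have := st_all h hg _ (by rw [hG.autGroup hg]; exact cAut_mem a3.2 trivial)
      ((quad_cAut a3.2).2 fun v hv => by
        have := congrArg (MulAut.conj g) (a2 _ (mem_cj.1 hv))
        simpa [map_commutatorElement, mul_assoc] using this)
    rw [H7.pCore_map, hG.autGroup hg, ← mem_Omod_act a3, ← H7.cj_nrm, ← H7.cj_cen, ← cj_top g,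
      ← cj_inf, ← H7.cj_Omod] at this
    exact conj_mem_cj_iff.1 this

end Cfsg.Agent.S5246
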