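import Cfsg.Statements.S5247
import Cfsg.Agent.H2.FS20

set_option autoImplicit false
open Cfsg

namespace Cfsg.Agent.S5247

open Subgroup H2 Cfsg.FusionSystem


/-- Let p be an odd prime and F a saturated fusion system over a finite p-group S. Call a fusion system E (over any subgroup) p-stable when, for every fully E-normalized subgroup Q and every χ ∈ Aut_E(Q) with χ(a⁻¹)·a·χ(a⁻¹)·χ(χ(a)) = 1 for all a ∈ Q (χ acts quadratically), χ lies in O_p(Aut_E(Q)). Then F is p-stable if and only if every normalizer fusion system N_F(R) of every non-cyclic fully F-normalized subgroup R of S is p-stable. -/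
theorem result {Ω : Type*} [Group Ω] {S : Subgroup Ω} [Finite S] (p : ℕ) [Fact p.Prime] (hS : IsPGroup p S) (F : Cfsg.FusionSystem S) (hF : F.IsSaturated p) (hp : p ≠ 2) : (∀ Q : Subgroup Ω, F.IsFullyNormalized Q → ∀ χ : MulAut ↥Q, χ ∈ F.autGroup Q → (∀ a : ↥Q, (χ a⁻¹) * a * (χ a⁻¹) * (χ (χ a)) = 1) → χ ∈ ((Cfsg.pCore p ↥(F.autGroup Q)).map (F.autGroup Q).subtype : Subgroup (MulAut ↥Q))) ↔ ∀ R : Subgroup Ω, F.IsFullyNormalized R → ¬ IsCyclic ↥R → ∀ N : Cfsg.FusionSystem (Cfsg.FusionSystem.normalizerIn S R), F.IsNormalizerSystem R N → (∀ Q : Subgroup Ω, N.IsFullyNormalized Q → ∀ χ : MulAut ↥Q, χ ∈ N.autGroup Q → (∀ a : ↥Q, (χ a⁻¹) * a * (χ a⁻¹) * (χ (χ a)) = 1) → χ ∈ ((Cfsg.pCore p ↥(N.autGroup Q)).map (N.autGroup Q).subtype : Subgroup (MulAut ↥Q))) := by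
  refine ⟨fun h R _ _ N hN Q hQ => st_sub h (isNormalizerSystem_iff.1 hN).sub hQ.1,
    fun h Q hQ χ hχ hq => ?_⟩
  have := finite_of_le hQ.1
  by_cases hc : IsCyclic Q
  · have hA : ∀ α β : MulAut Q, α * β = β * α := fun α β =>
      (IsCyclic.mulAutMulEquiv Q).injective (by rw [map_mul, map_mul, mul_comm])
    refine le_map_pCore (zpowers_le.2 hχ) (fun α _ => H7.cen_le_nrm _ ?_) ?_ (mem_zpowers χ)
    · exact H7.mem_cen.2 fun β _ => hA β α
    obtain ⟨k, hk⟩ := exists_pow_eq_one (hS.to_le hQ.1)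
    refine isPGroup_zpowers (k := k) (afn_ext fun x hx => ?_)
    have h1 : afn χ (x⁻¹ * afn χ x) = x⁻¹ * afn χ x := by
      have := congrArg Subtype.val (hq ⟨x, hx⟩)
      rw [(homOn_afn χ).inv_mul hx (afn_maps χ hx), afn_mem χ (afn_maps χ hx)]
      simp only [afn_mem χ hx, map_inv, Subgroup.coe_mul, Subgroup.coe_inv, Subgroup.coe_one,
        Subtype.coe_eta] at this ⊢
      rw [← mul_inv_eq_one, ← conj_eq_one_iff (a := (χ ⟨x, hx⟩ : Ω)⁻¹ * x), ← this]; group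
    rw [afn_pow_of_fix hx h1, hk _ (Q.mul_mem (Q.inv_mem hx) (afn_maps χ hx)), mul_one, afn_one hx]
  · obtain ⟨N, hN⟩ := exists_isNK F hQ.1 ⊤ NK_top.symm
    have hQN := hN.top_le hQ.1
    have := st_all (h Q hQ hc N (isNormalizerSystem_iff.2 hN)) hQN
    rw [hN.autGroup hQN, inf_top_eq] at this
    exact this χ hχ hq

end Cfsg.Agent.S5247
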