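import Cfsg.Statements.S5253
import Cfsg.Agent.H2.FS16

set_option autoImplicit false
universe u
open Cfsg

namespace Cfsg.Agent.S5253

open Subgroup H2 Cfsg.FusionSystem


/-- Let p be a prime and W a positive characteristic p-functor with Z(Q) ≤ W(Q): W assigns to every finite p-group Q (in a fixed universe) a subgroup W(Q), nontrivial when Q is, carried to W(R) by every isomorphism Q ≅ R, and containing the centre of Q. Suppose that for every finite group G with Sylow p-subgroup P in which W(P) is not normal there is g ∈ P outside O_p(G) with [Z(O_p(G)), g, g] = 1. Then for every saturated fusion system F over a finite p-group S and every normalizer fusion system N of W(S) in F, every p-th power of an element of Z(S) that lies in the centre of N lies in the centre of F. -/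
theorem result {p : ℕ} [Fact p.Prime] (W : ∀ (Q : Type u) [Group Q], Subgroup Q) (hW1 : ∀ (Q : Type u) [Group Q] [Finite Q], IsPGroup p Q → Nontrivial Q → W Q ≠ ⊥) (hW2 : ∀ (Q R : Type u) [Group Q] [Group R] [Finite Q], IsPGroup p Q → ∀ φ : Q ≃* R, (W Q).map φ.toMonoidHom = W R) (hWZ : ∀ (Q : Type u) [Group Q] [Finite Q], IsPGroup p Q → Subgroup.center Q ≤ W Q) (hq : ∀ (G : Type u) [Group G] [Finite G] (P : Sylow p G), ¬ (((W ↥(P : Subgroup G)).map (P : Subgroup G).subtype : Subgroup G)).Normal → ∃ g : G, g ∈ (P : Subgroup G) ∧ g ∉ Cfsg.pCore p G ∧ ⁅⁅Subgroup.center ↥(Cfsg.pCore p G) |>.map (Cfsg.pCore p G).subtype, Subgroup.zpowers g⁆, Subgroup.zpowers g⁆ = ⊥) {Ω : Type u} [Group Ω] {S : Subgroup Ω} [Finite S] (hS : IsPGroup p S) (F : Cfsg.FusionSystem S) (hF : F.IsSaturated p) (N : Cfsg.FusionSystem (Cfsg.FusionSystem.normalizerIn S ((W ↥S).map S.subtype))) (hN : F.IsNormalizerSystem ((W ↥S).map S.subtype) N) : Subgroup.closure ((fun z => z ^ p) '' ((S ⊓ Subgroup.centralizer (S : Set Ω) : Subgroup Ω) : Set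 Ω)) ⊓ N.center ≤ F.center := by
  have hW := pf_induced (W := W) ⟨hW1, hW2⟩
  refine mho_inf_center_le hW (zf_induced hWZ) (fun G _ _ T hT L h1 _ h3 => ?_) hS hF
    (isNormalizerSystem_iff.1 hN)
  have hT' := hT.mono h1 le_top
  have e : (inducedFunctor W (T.subgroupOf L)).map L.subtype = inducedFunctor W T := by
    have := hW.img (P := T.subgroupOf L) (hT.isPGroup.comap_subtype) (homOn_hom L.subtype _)
      fun _ _ _ _ e => Subtype.ext e
    rwa [img_hom, img_hom, H7.subgroupOf_map h1] at this
  obtain ⟨g, k1, k2, k3⟩ := hq L hT'.toSylow fun hn => h3 (e ▸ @H7.le_nrm_map_subtype _ _ _ _ hn)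
  refine ⟨g, k1, fun h => k2 (by rw [H7.pCore_eq_subgroupOf]; exact h), ?_⟩
  have := congrArg (Subgroup.map L.subtype) k3
  rw [map_commutator, map_commutator, H7.center_map_subtype, ← img_hom,
    (homOn_hom L.subtype _).img_center (fun _ _ _ _ e => Subtype.ext e) le_rfl le_rfl, img_hom,
    H7.pCore_map, MonoidHom.map_zpowers, Subgroup.map_bot] at this
  exact this

end Cfsg.Agent.S5253
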