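import Cfsg.Statements.S5254
import Cfsg.Agent.H2.RL6

set_option autoImplicit false
open Cfsg

namespace Cfsg.Agent.S5254

open Subgroup hiding upperCentralSeries
open H2 Cfsg.FusionSystem


/-- Let p be an odd prime, S a finite nonabelian p-group with a unique abelian subgroup A of index p, and F a saturated fusion system over S. Then every F-essential subgroup P is A, or Z(S)⟨x⟩ for some x ∈ S outside A, or (when the second centre Z₂(S) lies in A) Z₂(S)⟨x⟩ for some x ∈ S outside A; and P has index p in its normalizer in S. -/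
theorem result {Ω : Type*} [Group Ω] {S : Subgroup Ω} [Finite S] (p : ℕ) [Fact p.Prime] (hS : IsPGroup p S) (F : Cfsg.FusionSystem S) (hF : F.IsSaturated p) (hp : p ≠ 2) (hna : ¬ IsMulCommutative ↥S) (A : Subgroup Ω) (hA : A ≤ S ∧ IsMulCommutative ↥A ∧ (A.subgroupOf S).index = p) (huniq : ∀ B : Subgroup Ω, B ≤ S → IsMulCommutative ↥B → (B.subgroupOf S).index = p → B = A) (P : Subgroup Ω) (hP : F.IsEssential p P) : (P = A ∨ (∃ x ∈ S, x ∉ A ∧ P = (S ⊓ Subgroup.centralizer (S : Set Ω)) ⊔ Subgroup.zpowers x) ∨ (((upperCentralSeries ↥S 2).map S.subtype) ≤ A ∧ ∃ x ∈ S, x ∉ A ∧ P = ((upperCentralSeries ↥S 2).map S.subtype) ⊔ Subgroup.zpowers x)) ∧ (P.subgroupOf (S ⊓ Subgroup.normalizer (P : Set Ω))).index = p := by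
  by_cases ne : P = A
  · refine ⟨.inl ne, ?_⟩
    haveI := finite_of_le hA.1
    have : S ≤ normalizer (A : Set Ω) := by
      haveI := hS.to_le le_rfl
      have : (A.subgroupOf S).Normal := by
        obtain ⟨n, hn⟩ := IsPGroup.iff_card.1 hS
        haveI : Group.IsNilpotent S := hS.isNilpotent
        exact (Group.normalizerCondition_of_isNilpotent (G := S)).normal_of_coatom _
          (isCoatom_of_index_prime (h := hA.2.2))
      exact (H7.normal_subgroupOf_iff' hA.1).1 this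
    rw [ne, inf_eq_left.2 this]
    exact hA.2.2
  obtain ⟨G, _, _, S', F', θ, θ', j, r⟩ := exists_real F
  obtain ⟨a, uq⟩ := j.ai hS hna hA huniq
  have PS := hP.1.1
  obtain ⟨z1, -, i, x, x1, x2, k⟩ := r.ai_ess (j.saturated hS hF) a uq (j.essential hS hF hP)
    fun e => ne (j.img_inj PS hA.1 e)
  obtain ⟨x, hx, rfl⟩ := j.hom.mem_img.1 (j.onto.ge x1)
  have x3 : x ∉ A := fun l => x2 (mem_img_of_mem θ l)
  rw [← j.ucs, j.img_le_iff (ucs_le S 2) hA.1] at z1
  refine ⟨.inr ?_, ?_⟩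
  · rcases k with k | ⟨k, -⟩
    · rw [← j.ctr, ← j.zp hx, ← j.img_sup inf_le_left (zpowers_le.2 hx)] at k
      exact .inl ⟨x, hx, x3, j.img_inj PS (sup_le inf_le_left (zpowers_le.2 hx)) k⟩
    · rw [← j.ucs, ← j.zp hx, ← j.img_sup (ucs_le S 2) (zpowers_le.2 hx)] at k
      exact .inr ⟨z1, x, hx, x3, j.img_inj PS (sup_le (ucs_le S 2) (zpowers_le.2 hx)) k⟩
  · have := j.img_normalizerIn' PS
    exact (j.relIndex PS normalizerIn_le).symm.trans (this ▸ i)

end Cfsg.Agent.S5254
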