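import Cfsg.Statements.S5257
import Cfsg.Agent.H2.RL6

set_option autoImplicit false
open Cfsg

namespace Cfsg.Agent.S5257

open Subgroup hiding upperCentralSeries
open H2 Cfsg.FusionSystem


/-- Let p be an odd prime, S a finite nonabelian p-group with a unique abelian subgroup A of index p, and F a saturated fusion system over S having an F-essential subgroup other than A. Then the second centre Z₂(S) lies in A; Z(S) ∩ [S, S] has order p; Z(S)[S, S] has index p in A; Z(S) has index p in Z₂(S); and S/Z(S) has maximal nilpotency class (if S/Z(S) has order pᵐ with m ≥ 3 then the term of index m − 2 of the lower central series of S, counting S as index 0, is not contained in Z(S)). -/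
theorem result {Ω : Type*} [Group Ω] {S : Subgroup Ω} [Finite S] (p : ℕ) [Fact p.Prime] (hS : IsPGroup p S) (F : Cfsg.FusionSystem S) (hF : F.IsSaturated p) (hp : p ≠ 2) (hna : ¬ IsMulCommutative ↥S) (A : Subgroup Ω) (hA : A ≤ S ∧ IsMulCommutative ↥A ∧ (A.subgroupOf S).index = p) (huniq : ∀ B : Subgroup Ω, B ≤ S → IsMulCommutative ↥B → (B.subgroupOf S).index = p → B = A) (P : Subgroup Ω) (hP : F.IsEssential p P) (hPA : P ≠ A) : ((upperCentralSeries ↥S 2).map S.subtype) ≤ A ∧ Nat.card ↥((S ⊓ Subgroup.centralizer (S : Set Ω)) ⊓ ((commutator ↥S).map S.subtype)) = p ∧ (((S ⊓ Subgroup.centralizer (S : Set Ω)) ⊔ ((commutator ↥S).map S.subtype)).subgroupOf A).index = p ∧ (((S ⊓ Subgroup.centralizer (S : Set Ω))).subgroupOf ((upperCentralSeries ↥S 2).map S.subtype)).index = p ∧ ∀ m : ℕ, ((S ⊓ Subgroup.centralizer (S : Set Ω)).subgroupOf S).index = p ^ m → 3 ≤ m → ¬ Subgroup.lowerCentralSeries S (m - 2) ≤ (S ⊓ Subgroup.centralizer (S : Set Ω)) := by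
  obtain ⟨G, _, _, S', F', θ, θ', j, r⟩ := exists_real F
  obtain ⟨a, uq⟩ := j.ai hS hna hA huniq
  have PS := hP.1.1
  obtain ⟨z1, z2, -⟩ := r.ai_ess (j.saturated hS hF) a uq (j.essential hS hF hP)
    fun e => hPA (j.img_inj PS hA.1 e)
  have oX := a.card_Z0
  rw [inf_eq_left.2 z1, z2] at oX
  have i := a.idx_der.trans oX
  have d : ⁅S, S⁆ ≤ S := H7.comm_le_of_le le_rfl le_rfl
  rw [H1B.der_map]
  refine ⟨?_, ?_, ?_, ?_, fun m hm h3 l => a.lcs_not_le le_rfl i.le (m := m) ?_ h3 ?_⟩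
  · rwa [← j.ucs, j.img_le_iff (ucs_le S 2) hA.1] at z1
  · rwa [← j.ctr, ← j.der, ← j.img_inf inf_le_left d, j.card (inf_le_right.trans d)] at oX
  · rwa [← j.ctr, ← j.der, ← j.img_sup inf_le_left d, j.relIndex (sup_le inf_le_left d) hA.1] at i
  · rwa [← j.ctr, ← j.ucs, j.relIndex inf_le_left (ucs_le S 2)] at z2
  · rw [← j.ctr, ← j.onto, j.relIndex inf_le_left le_rfl]; exact hm
  · rw [← j.ctr, ← j.lcs]; exact img_mono θ l

end Cfsg.Agent.S5257
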