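import Cfsg.Statements.S5272
import Cfsg.Agent.H2.FS18

set_option autoImplicit false
open Cfsg

namespace Cfsg.Agent.S5272

open Subgroup H2 Cfsg.FusionSystem


/-- An axiomatic Glauberman–Thompson nilpotency criterion for fusion systems. Let p be an odd prime, F a saturated fusion system over a finite p-group S, and 𝒜 a nonempty family of abelian subgroups of S. For Q ≤ S write I(Q) for the intersection of the members of 𝒜 contained in Q. Assume (invariance) that for every Q ≤ S containing a member of 𝒜, every F-automorphism of Q maps I(Q) into itself, and (replacement) that for every subgroup B of S of nilpotency class at most 2, if some member of 𝒜 contains [B,B] but not B, then B normalizes some member of 𝒜 that contains [B,B] but not B. Then F is the inner fusion system of S if and only if the normalizer fusion system of I(S)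 in F is the inner fusion system of N_S(I(S)). -/
theorem result {Ω : Type*} [Group Ω] {S : Subgroup Ω} [Finite S] (p : ℕ) [Fact p.Prime] (hS : IsPGroup p ↥S) (F : Cfsg.FusionSystem S) (hF : F.IsSaturated p) (hp : p ≠ 2) (𝒜 : Set (Subgroup Ω)) (h𝒜 : ∀ A ∈ 𝒜, A ≤ S ∧ IsMulCommutative ↥A) (hne : 𝒜.Nonempty) (hinv : ∀ Q : Subgroup Ω, Q ≤ S → (∃ A ∈ 𝒜, A ≤ Q) → ∀ α ∈ F.autGroup Q, ∀ x : ↥Q, (x : Ω) ∈ (⨅ A ∈ {A : Subgroup Ω | A ∈ 𝒜 ∧ A ≤ Q}, A) → (((α : MulAut ↥Q) x : ↥Q) : Ω) ∈ (⨅ A ∈ {A : Subgroup Ω | A ∈ 𝒜 ∧ A ≤ Q}, A)) (hrep : ∀ B : Subgroup Ω, B ≤ S → ⁅⁅B, B⁆, B⁆ = ⊥ → (∃ A ∈ 𝒜, ⁅B, B⁆ ≤ A ∧ ¬ B ≤ A) → ∃ A ∈ 𝒜, ⁅B, B⁆ ≤ A ∧ ¬ B ≤ A ∧ B ≤ Subgroup.normalizer (A : Set Ω)) : (∀ P : Subgroup Ω, F.Hom P = (Cfsg.innerFusionSystem S).Hom P) ↔ ∀ N : Cfsg.FusionSystem (Cfsg.FusionSystem.normalizerIn S (⨅ A ∈ 𝒜, A)), F.IsNormalizerSystem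 (⨅ A ∈ 𝒜, A) N → ∀ P : Subgroup Ω, N.Hom P = (Cfsg.innerFusionSystem (Cfsg.FusionSystem.normalizerIn S (⨅ A ∈ 𝒜, A))).Hom P := by
  obtain ⟨A₀, hA₀⟩ := hne
  have hle : (⨅ A ∈ 𝒜, A) ≤ S := (iInf₂_le A₀ hA₀).trans (h𝒜 _ hA₀).1
  have hinv' : ∀ Q ≤ S, (∃ A ∈ 𝒜, A ≤ Q) → ∀ f, Mor F Q f → (∀ x ∈ Q, f x ∈ Q) →
      ∀ x ∈ fI 𝒜 Q, f x ∈ fI 𝒜 Q := fun Q hQ h f hf hm x hx => by
    have := finite_of_le hQ
    obtain ⟨α, hα, e⟩ := hf.exists_aut hm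
    obtain ⟨A, a1, a2⟩ := h
    have hxQ := a2 (fI_le a1 a2 hx)
    have := hinv Q hQ ⟨A, a1, a2⟩ α hα ⟨x, hxQ⟩ hx
    rwa [← afn_mem α hxQ, e x hxQ] at this
  have e0 := fI_eq (P := S) fun A hA => (h𝒜 A hA).1
  rw [hom_eq_inner_iff, normalizer_inner_iff hle]
  refine ⟨fun h => nle_inner_of_inner h fun s hs => ?_, fun h => inner_of_minCfg hp hS hF hle
    (fun E hE L _ _ ι Q hL hQ => ?_) (h.trans (inner_sub _ normalizerIn_le))⟩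
  · have := finite_of_le hle
    rw [← e0] at this ⊢
    exact mem_normalizer_of_conj_mem (hinv' S le_rfl ⟨A₀, hA₀, (h𝒜 _ hA₀).1⟩ _ (mor_conj F le_rfl hs)
      fun x hx => S.mul_mem (S.mul_mem hs hx) (S.inv_mem hs))
  have hR := hL.toRz
  obtain ⟨D, π, d1, d2⟩ := hR.fsi'
  have e1 : ∀ Q ≤ S, (∃ A ∈ 𝒜, A ≤ Q) → fI (img ι '' 𝒜) (img ι Q) = img ι (fI 𝒜 Q) := by
    rintro Q hQ ⟨A, a1, a2⟩
    refine le_antisymm (fun y hy => ?_) (le_fI.2 ?_)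
    · obtain ⟨x, hx, rfl⟩ := (hR.mem_img (h𝒜 A a1).1).1 (fI_le (Set.mem_image_of_mem _ a1) (img_mono ι a2) hy)
      exact mem_img_of_mem ι (mem_fI.2 fun B b1 b2 => (hR.map_mem_img (h𝒜 B b1).1
        ((h𝒜 A a1).1 hx)).1 (fI_le (Set.mem_image_of_mem _ b1) (img_mono ι b2) hy))
    · rintro _ ⟨B, b1, rfl⟩ b2
      exact img_mono ι (fI_le b1 ((hR.img_le_iff (h𝒜 B b1).1 hQ).1 b2))
  rw [← e0, ← e1 S le_rfl ⟨A₀, hA₀, (h𝒜 _ hA₀).1⟩]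
  refine gzj_normal ⟨?_, ?_, ⟨_, A₀, hA₀, rfl⟩, fun Q' q1 q2 g hg => ?_, fun B' b1 _ b3 b4 => ?_⟩
    hL.syl (hQ.pst hp) hL.chp
  · rintro _ ⟨A, a, rfl⟩; exact img_mono ι (h𝒜 A a).1
  · rintro _ ⟨A, a, rfl⟩
    exact H7.isComm_iff.1 ((hR.hom.mono (h𝒜 A a).1).isMulCommutative_img (h𝒜 A a).2)
  · obtain ⟨Q, q3, rfl⟩ : ∃ Q ≤ S, img ι Q = Q' := ⟨_, d2.symm.img_le q1, d2.symm.img_img q1⟩
    obtain ⟨_, ⟨A, a1, rfl⟩, a2⟩ := q2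
    have a3 := (hR.img_le_iff (h𝒜 A a1).1 q3).1 a2
    rw [e1 Q q3 ⟨A, a1, a3⟩]
    obtain ⟨f, f1, f2⟩ := hR.exists_mor q3 hg.1 fun x hx =>
      img_mono ι q3 (H7.nconj_mem hg.2 (mem_img_of_mem ι hx))
    refine mem_normalizer_of_conj_mem fun y hy => ?_
    have a4 := (fI_le a1 a3).trans a3
    obtain ⟨x, hx, rfl⟩ := (hR.mem_img (a4.trans q3)).1 hy
    rw [← f2 x (a4 hx)]
    refine mem_img_of_mem ι (hinv' Q q3 ⟨A, a1, a3⟩ f (f1.sub hE) (fun x hx => ?_) x hx)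
    rw [← hR.map_mem_img q3 (f1.mem hx), f2 x hx]
    exact H7.nconj_mem hg.2 (mem_img_of_mem ι hx)
  · obtain ⟨B, b5, rfl⟩ : ∃ B ≤ S, img ι B = B' := ⟨_, d2.symm.img_le b1, d2.symm.img_img b1⟩
    obtain ⟨_, ⟨A, a1, rfl⟩, a2, a3⟩ := b4
    have c1 : ⁅B, B⁆ ≤ S := (H7.comm_le_of_le le_rfl le_rfl).trans b5
    rw [← hR.hom.img_commutator b5 b5] at a2 b3
    obtain ⟨A', a4, -, a5, a6⟩ := hrep B b5 (by
      rw [← d2.img_eq_bot ((H7.comm_le_of_le (H7.comm_le_of_le le_rfl le_rfl) le_rfl).trans b5),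
        hR.hom.img_commutator c1 b5]
      exact H7.comm_eq_bot'.2 b3)
      ⟨A, a1, (hR.img_le_iff c1 (h𝒜 A a1).1).1 a2, fun h => a3 (img_mono ι h)⟩
    refine ⟨_, ⟨A', a4, rfl⟩, fun h => a5 ((hR.img_le_iff b5 (h𝒜 A' a4).1).1 h),
      img_le_iff.2 fun x hx => hR.hom.mem_normalizer_img (h𝒜 A' a4).1 (b5 hx) (a6 hx)⟩

end Cfsg.Agent.S5272
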