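import Cfsg.Statements.S5276
import Cfsg.Agent.H2.TrF

set_option autoImplicit false
open Cfsg

namespace Cfsg.Agent.S5276

open Subgroup H2 Cfsg.FusionSystem


/-- Let p be a prime and F a saturated fusion system over a finite p-group S. Then F is the inner fusion system of S if and only if the normalizer fusion system of S itself in F is the inner fusion system (equivalently, Aut_F(S) is induced by S) and the Frattini subgroup Φ(S) is strongly closed in F. -/
theorem result {Ω : Type*} [Group Ω] {S : Subgroup Ω} [Finite S] (p : ℕ) [Fact p.Prime] (hS : IsPGroup p ↥S) (F : Cfsg.FusionSystem S) (hF : F.IsSaturated p) : (∀ P : Subgroup Ω, F.Hom P = (Cfsg.innerFusionSystem S).Hom P) ↔ (∀ N : Cfsg.FusionSystem (Cfsg.FusionSystem.normalizerIn S S), F.IsNormalizerSystem S N → ∀ P : Subgroup Ω, N.Hom P = (Cfsg.innerFusionSystem (Cfsg.FusionSystem.normalizerIn S S)).Hom P) ∧ F.StronglyClosed ((frattini ↥S).map S.subtype) := by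
  rw [normalizer_inner_iff le_rfl, hom_eq_inner_iff]
  refine ⟨fun h => ⟨nle_inner_of_inner h le_normalizer, sc_of_focal_le ((focal_mono h).trans
    (focal_le_iff.2 fun P f hf x hx => ?_)) (map_subtype_le _)⟩, fun ⟨h1, h2⟩ =>
    inner_of_focal_le_Phi hS hF (focal_le_of_sc hS hF h2 (comm_le_Phi' hS) fun f hf x hx => ?_)⟩
  · obtain ⟨h1, g, g1, g2⟩ := mor_inner.1 hf
    exact g2 x hx ▸ comm_le_Phi' hS (inv_mul_conj_mem_commutator (h1 hx) g1)
  · obtain ⟨-, g, g1, g2⟩ := mor_inner.1
      (h1.mor hf le_rfl le_normalizer (hf.img_eq_self fun _ => hf.mem))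
    exact g2 x hx ▸ comm_le_Phi' hS (inv_mul_conj_mem_commutator hx g1.1)

end Cfsg.Agent.S5276
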