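import Cfsg.Statements.S5291
import Cfsg.Agent.H2.FS9

set_option autoImplicit false
open Cfsg

namespace Cfsg.Agent.S5291

open Subgroup H2 Cfsg.FusionSystem


/-- Let F be a saturated fusion system over a finite p-group S and E a weakly normal subsystem of F over a subgroup T. Suppose a subgroup R of T is normal in E (E = N_E(R)), and let R* be the subgroup of T generated by the images of R under all maps of F with source R. Then R* is normal in F (F = N_F(R*)). -/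
theorem result {Ω : Type*} [Group Ω] {S : Subgroup Ω} [Finite S] (p : ℕ) [Fact p.Prime] (hS : IsPGroup p S)
    (F : Cfsg.FusionSystem S) (hF : F.IsSaturated p)
    {T : Subgroup Ω} (E : Cfsg.FusionSystem T) (hE : E.IsWeaklyNormalIn F p)
    (R : Subgroup Ω) (hR : E.IsNormal R) :
    F.IsNormal (Subgroup.closure {x : Ω | ∃ φ ∈ F.Hom R, ∃ r : R, x = φ r}) := by
  obtain ⟨h1, -, h⟩ := weaklyNormalIn_iff.1 hE
  haveI := finite_of_le h.sc.1
  have e : closure {x : Ω | ∃ φ ∈ F.Hom R, ∃ r : R, x = φ r} =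
      sSup {Q | E.IsNormal Q ∧ Q ≤ closure {x : Ω | ∃ φ ∈ F.Hom R, ∃ r : R, x = φ r}} := by
    refine le_antisymm ((closure_le _).2 ?_) (sSup_le fun Q hQ => hQ.2)
    rintro _ ⟨φ, hφ, r, rfl⟩
    obtain ⟨a, f₀, ha, h0, e⟩ := h.frat R hR.1 _ (mor_fn hφ)
    have e' : img (fn φ) R = img a R := by
      rw [img_congr e, ← h0.homOn.img_img, wc_img (normal_wc hR) h0 le_rfl]
    have h3 : img (fn φ) R ≤
        sSup {Q | E.IsNormal Q ∧ Q ≤ closure {x : Ω | ∃ φ ∈ F.Hom R, ∃ r : R, x = φ r}} :=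
      le_sSup ⟨e' ▸ h.normal_img ha hR, img_le_iff.2 fun x hx =>
        subset_closure ⟨φ, hφ, ⟨x, hx⟩, fn_mem φ hx⟩⟩
    refine h3 ?_
    rw [← fn_coe]; exact mem_img_of_mem _ r.2
  have hn : E.IsNormal (closure {x : Ω | ∃ φ ∈ F.Hom R, ∃ r : R, x = φ r}) := by
    rw [e]
    exact (sSup_mem_of_finite (S := T) (X := {Q | E.IsNormal Q ∧
      Q ≤ closure {x : Ω | ∃ φ ∈ F.Hom R, ∃ r : R, x = φ r}}) (fun Q hQ => hQ.1.1) ⟨⊥, normal_bot E, bot_le⟩
      fun P hP Q hQ => ⟨normal_sup hP.1 hQ.1, sup_le hP.2 hQ.2⟩).1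
  refine h.normal hS hF hn fun a ha => (ha.homOn.mono hn.1).maps_closure ?_
  rintro _ ⟨φ, hφ, r, rfl⟩
  have := ha.comp (mor_fn hφ) fun x hx => sc_mem h.sc (mor_fn hφ) hx (hR.1 hx)
  exact subset_closure ⟨_, this.toHom_mem, r, by rw [HomOn.toHom_apply, fn_coe]⟩

end Cfsg.Agent.S5291
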