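import Cfsg.Statements.S5292
import Cfsg.Agent.H2.Mod3
import Cfsg.Agent.H1.Hall

set_option autoImplicit false
universe u
open Cfsg

namespace Cfsg.Agent.S5292

open Subgroup H2 Cfsg.FusionSystem


/-- Let F be a saturated fusion system over a finite p-group S. Then F is the fusion system of some finite p-solvable group on a Sylow p-subgroup if and only if F is constrained (some subgroup normal in F is centric in F) and the group of automorphisms that F induces on its largest normal subgroup O_p(F) is p-solvable. -/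
theorem result {Ω : Type u} [Group Ω] {S : Subgroup Ω} [Finite S] (p : ℕ) [Fact p.Prime] (hS : IsPGroup p S)
    (F : Cfsg.FusionSystem S) (hF : F.IsSaturated p) :
    (∃ (G : Type u) (_ : Group G) (_ : Finite G) (ι : S →* G), Cfsg.IsPSolvable p G ∧ F.IsRealizedBy ι ∧
        ∃ T : Sylow p G, (T : Subgroup G) = ι.range) ↔
      (F.IsConstrained p ∧ Cfsg.IsPSolvable p ↥(F.autGroup F.core)) := by
  have hp : p.Prime := Fact.out
  constructor
  · rintro ⟨G, _, _, ι, h1, h2⟩
    have h3 := rzS_iff.1 h2
    set π := QuotientGroup.mk' (pPrimeCore p G)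
    obtain ⟨ι', h4, -⟩ := h3.smor (fsi_refl F).smor (homOn_hom π ⊤) fun x hx => by
      refine ⟨fun e => h3.inj x hx (mem_bot.1 ((H7.inf_eq_bot_of_isPGroup h3.syl.isPGroup
        (H7.coprime_Op' p ⊤)).le ⟨mem_img_of_mem _ hx, ?_⟩)), fun e => by
          rw [e, h3.hom.one, map_one]⟩
      rw [← H7.pPrimeCore_eq]; exact (QuotientGroup.eq_one_iff _).1 e
    rw [img_hom, map_top_of_surjective _ (QuotientGroup.mk'_surjective _)] at h4
    have h5 := ((H1.isPSolvable_iff_piSep hp).1 h1).quotient (pPrimeCore p G)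
    have h6 : Mdl F p ⊤ ι' := ⟨h4, chP_top.2 (H1.centralizer_pCore_le_of_isPSolvable
      ((H1.isPSolvable_iff_piSep hp).2 h5) H1.pPrimeCore_quotient_pPrimeCore)⟩
    obtain ⟨κ, hκ, -⟩ := h6.exists_act (normal_core F)
    haveI := finite_mulAut (core_le F)
    exact ⟨h6.constrained, (H1.isPSolvable_iff_piSep hp).2 (h5.of_surjective hκ)⟩
  · rintro ⟨h1, h2⟩
    obtain ⟨G, _, _, ι, h⟩ := exists_mdl hS h1
    obtain ⟨κ, hκ, e⟩ := h.exists_act (normal_core F)
    haveI := finite_mulAut (core_le F)
    refine ⟨G, _, inferInstance, _, (H1.isPSolvable_iff_piSep hp).2 ?_, h.realized⟩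
    have h3 : IsPGroup p κ.ker := (h.syl.isPGroup.to_le (img_mono ι (core_le F))).to_le
      fun g hg => h.cen_le (normal_core F) (constrained_iff.1 h1).2 ⟨mem_top _, H7.mem_cen.2
        fun y hy => by
          obtain ⟨q, hq, rfl⟩ := (h.mem_img (core_le F)).1 hy
          have := e g q hq
          rw [show κ g = 1 from hg, ac_one hq] at this
          exact (mul_inv_eq_iff_eq_mul.1 this).symm⟩
    exact H1.PiSepTo.comap ((H1.isPSolvable_iff_piSep hp).1 h2)
      (H1.PiSepTo.of_piNum (H1.piNum_or_of_isPGroup h3 _))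

end Cfsg.Agent.S5292
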