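import Cfsg.Statements.S5297
import Cfsg.Agent.H2.RL4

set_option autoImplicit false
universe u
open Cfsg

namespace Cfsg.Agent.S5297

open Subgroup H2 Cfsg.FusionSystem


/-- Let F be a saturated fusion system over a finite p-group S. If every map of F between cyclic subgroups of the hyperfocal subgroup of F of order p or 4 is a map of the normalizer system of S (it extends to a map of F defined on all of S), then S is normal in F. -/
theorem result {Ω : Type u} [Group Ω] {S : Subgroup Ω} [Finite S] (p : ℕ) [Fact p.Prime] (hS : IsPGroup p S)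
    (F : Cfsg.FusionSystem S) (hF : F.IsSaturated p)
    (h : ∀ A B : Subgroup Ω, A ≤ (F.hyperfocalSubgroup p) → B ≤ (F.hyperfocalSubgroup p) → IsCyclic ↥A → (Nat.card ↥A = p ∨ Nat.card ↥A = 4) → IsCyclic ↥B → (Nat.card ↥B = p ∨ Nat.card ↥B = 4) →
      F.homSet A B ⊆ F.normalizerHom S A) :
    F.IsNormal S := by
  obtain ⟨G, _, _, S', F', θ, θ', j, r⟩ := exists_real F
  refine (j.normal_iff le_rfl).1 ?_
  rw [j.onto]
  refine r.normal_of_small (j.isPGroup hS) (j.saturated hS hF) (j.small j fun x hx e f hf => ?_)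
  by_cases h1 : x = 1
  · exact ⟨_, mor_id F le_rfl, by rw [h1, hf.homOn.one]⟩
  obtain ⟨-, g, g1, g2, -⟩ := nkMor_top_iff.1 (mem_normalizerHom.1 (small_hom hS hF h hx e h1 hf))
  exact ⟨g, g1.mono le_sup_right, (g2 x (mem_zpowers x)).trans (fn_mem _ (mem_zpowers x))⟩

end Cfsg.Agent.S5297
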