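import Cfsg.Statements.S5298
import Cfsg.Agent.H2.RL4

set_option autoImplicit false
universe u
open Cfsg

namespace Cfsg.Agent.S5298

open Subgroup H2 Cfsg.FusionSystem


/-- Let F be a saturated fusion system over a finite p-group S. If every map of F between cyclic subgroups of the hyperfocal subgroup of F of order p or 4 is conjugation by an element of S, then F is the inner fusion system of S. -/
theorem result {Ω : Type u} [Group Ω] {S : Subgroup Ω} [Finite S] (p : ℕ) [Fact p.Prime] (hS : IsPGroup p S)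
    (F : Cfsg.FusionSystem S) (hF : F.IsSaturated p)
    (h : ∀ A B : Subgroup Ω, A ≤ (F.hyperfocalSubgroup p) → B ≤ (F.hyperfocalSubgroup p) → IsCyclic ↥A → (Nat.card ↥A = p ∨ Nat.card ↥A = 4) → IsCyclic ↥B → (Nat.card ↥B = p ∨ Nat.card ↥B = 4) →
      F.homSet A B ⊆ (Cfsg.innerFusionSystem S).Hom A) :
    ∀ P : Subgroup Ω, F.Hom P = (Cfsg.innerFusionSystem S).Hom P := by
  obtain ⟨G, _, _, S', F', θ, θ', j, r⟩ := exists_real F
  obtain ⟨E', k, -⟩ := j.exists_push (inner_sub F le_rfl) j.onto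
  have i : ∀ P f, Mor E' P f → ∃ g ∈ S', ∀ x ∈ P, f x = g * x * g⁻¹ := fun P f hf => by
    obtain ⟨-, s, hs, e⟩ := mor_inner.1 (k.symm.mor hf)
    refine ⟨θ s, k.maps hs, fun y hy => ?_⟩
    have h1 := congrArg θ (e _ (mem_img_of_mem θ' hy))
    have hyS := hf.le hy
    rwa [k.r y hyS, k.r _ (hf.mem hy), k.hom.conj hs (k.symm.maps hyS), k.r y hyS] at h1
  have s := j.small k (p := p) fun x hx e f hf => by
    by_cases h1 : x = 1
    · exact ⟨_, mor_id _ le_rfl, by rw [h1, hf.homOn.one]⟩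
    obtain ⟨-, s, s1, s2⟩ := mor_inner.1 (mor_fn (small_hom hS hF h hx e h1 hf))
    exact ⟨_, mor_conj _ le_rfl s1, (s2 x (mem_zpowers x)).symm.trans (fn_mem _ (mem_zpowers x))⟩
  have e := eq_inner_of_essS (j.isPGroup hS) (j.saturated hS hF) fun R hR =>
    r.pgroup_of_small (j.isPGroup hS) (j.saturated hS hF) (fun x hx e f hf => by
      obtain ⟨a, a1, a2⟩ := s x hx e f hf
      obtain ⟨g, g1, g2⟩ := i _ _ a1
      exact ⟨g, g1, a2.symm.trans (g2 x (hyp_le _ _ hx))⟩) hR.le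
  refine eq_inner_iff.2 fun P f hf => ?_
  obtain ⟨s, hs, e⟩ := eq_inner_iff.1 e _ _ (j.mor hf)
  refine ⟨θ' s, j.symm.maps hs, fun y hy => ?_⟩
  have h1 := congrArg θ' (e _ (mem_img_of_mem θ hy))
  have hyS := hf.le hy
  rwa [j.l y hyS, j.l _ (hf.mem hy), j.symm.hom.conj hs (j.maps hyS), j.l y hyS] at h1

end Cfsg.Agent.S5298
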