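import Cfsg.Statements.S5300
import Cfsg.Agent.H2.RL4

set_option autoImplicit false
universe u
open Cfsg

namespace Cfsg.Agent.S5300

open Subgroup H2 Cfsg.FusionSystem


/-- Let F be a saturated fusion system over a finite p-group S. If every cyclic subgroup of the focal subgroup of F of order p (of order 2 or 4 when p = 2) is normal in S, then S is normal in F. -/
theorem result {Ω : Type u} [Group Ω] {S : Subgroup Ω} [Finite S] (p : ℕ) [Fact p.Prime] (hS : IsPGroup p S)
    (F : Cfsg.FusionSystem S) (hF : F.IsSaturated p)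
    (hnorm : ∀ x ∈ F.focalSubgroup, (x ^ p = 1 ∨ (p = 2 ∧ x ^ 4 = 1)) → ∀ s ∈ S, s * x * s⁻¹ ∈ Subgroup.zpowers x) :
    F.IsNormal S := by
  obtain ⟨G, _, _, S', F', θ, θ', j, r⟩ := exists_real F
  refine (j.normal_iff le_rfl).1 ?_
  rw [j.onto]
  refine r.normal_of_foc (j.isPGroup hS) (j.saturated hS hF) fun y hy e s hs => ?_
  have yS := focal_le F' hy
  have := hnorm _ (j.symm.focal.le (mem_img_of_mem θ' hy)) (by
    rw [← j.symm.hom.pow yS, ← j.symm.hom.pow yS]
    unfold ex at e
    split_ifs at e with h2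
    · exact .inr ⟨h2, by rw [e, j.symm.hom.one]⟩
    · exact .inl (by rw [e, j.symm.hom.one])) _ (j.symm.maps hs)
  rw [← j.symm.hom.conj hs yS, ← (j.symm.hom.mono (zpowers_le.2 yS)).img_zpowers] at this
  exact (j.symm.map_mem_img (zpowers_le.2 yS) (mul_mem (mul_mem hs yS) (inv_mem hs))).1 this

end Cfsg.Agent.S5300
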