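import Cfsg.Statements.S5301
import Cfsg.Agent.H2.FS6

set_option autoImplicit false
universe u
open Cfsg

namespace Cfsg.Agent.S5301

open Subgroup H2


/-- Let F be a saturated fusion system over a finite p-group S. If for every subgroup P of S that is fully normalized, centric and radical in F the automorphism group that F induces on P has a normal Sylow p-subgroup, then S is normal in F. -/
theorem result {Ω : Type u} [Group Ω] {S : Subgroup Ω} [Finite S] (p : ℕ) [Fact p.Prime] (hS : IsPGroup p S)
    (F : Cfsg.FusionSystem S) (hF : F.IsSaturated p)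
    (hcl : ∀ P : Subgroup Ω, F.IsFullyNormalized P → F.IsCentric P → F.IsRadical p P →
      ∃ R : Sylow p ↥(F.autGroup P), (R : Subgroup ↥(F.autGroup P)).Normal) :
    F.IsNormal S := by
  refine normal_top_of hS hF fun R hR => (essential_ambient hS hF hR).1.not_ge ?_
  obtain ⟨T, hT⟩ := hcl R hR.2.1 hR.1 (essential_radical hS hF hR)
  haveI := finite_mulAut hR.1.1
  have h1 := isSylowIn_map_subtype T
  have h2 : F.autGroup R ≤ normalizer (((T : Subgroup (F.autGroup R)).map
      (F.autGroup R).subtype : Subgroup (MulAut R)) : Set (MulAut R)) := by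
    refine le_trans ?_ (le_normalizer_map _)
    rw [normalizer_eq_top, ← MonoidHom.range_eq_map, range_subtype]
  have hA := autInducedBy_le_autGroup F hR.1.1
  exact (h1.le_of_le_normalizer (isPGroup_autInducedBy hS R) hA (hA.trans h2)).trans
    (radical_le_Inn (essential_radical hS hF hR) h1.le h2 h1.isPGroup)

end Cfsg.Agent.S5301
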