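import Cfsg.Statements.S5310
import Cfsg.Agent.H2.CP3

set_option autoImplicit false
open Cfsg

namespace Cfsg.Agent.S5310

open Subgroup H2 Cfsg.FusionSystem


/-- A saturated fusion system F over a finite p-group S is constrained (its largest normal subgroup O_p(F) is centric) if and only if the inner fusion system of O_p(F) is itself a generalized Fitting subsystem of F (that is, F*(F) = O_p(F)). -/
theorem result {Ω : Type*} [Group Ω] {S : Subgroup Ω} [Finite S] (p : ℕ) [Fact p.Prime] (hS : IsPGroup p S) (F : Cfsg.FusionSystem S) (hF : F.IsSaturated p) :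
    F.IsConstrained p ↔ (Cfsg.innerFusionSystem F.core).IsGeneralizedFittingOf F p := by
  haveI : Finite F.core := H2.finite_of_le (core_le F)
  have pc : IsPGroup p F.core := hS.to_le (core_le F)
  rw [constrained_iff_no_component hS hF]
  refine ⟨fun h => ⟨⊥, innerFusionSystem ⊥, ⟨normalIn_iff.2 (inner_nrm hS hF (normal_bot F)),
    fun U C k => absurd ⟨U, C, k⟩ h, fun R D _ _ => inner_sub D bot_le⟩, cp_iff.2 ?_⟩, ?_⟩
  · have d : CPD (innerFusionSystem F.core) (innerFusionSystem (⊥ : Subgroup Ω)) :=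
      ⟨fun x _ y hy => by rw [mem_bot.1 hy]; simp, by rw [inf_bot_eq]; exact central_bot _,
        by rw [inf_bot_eq]; exact central_bot _⟩
    obtain ⟨D, hD⟩ := d.exists (sup_bot_eq _).symm
    have e : D = innerFusionSystem F.core := by
      refine fs_eq_of_sub (hD.sub_of (fun P f hf => ⟨f, by rwa [sup_bot_eq], fun _ _ => rfl,
        fun x hx => by rw [mem_bot.1 hx, hf.homOn.one]⟩) fun P f hf => ?_) hD.sub1
      refine ⟨fun x => x, mor_id _ (sup_le (hf.le.trans bot_le) le_rfl), fun x hx => ?_,
        fun _ _ => rfl⟩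
      rw [mem_bot.1 (hf.le hx), hf.homOn.one]
    exact e ▸ hD
  · rintro ⟨T, E, h1, h2⟩ ⟨U, C, k⟩
    have s := sub_le (subnormal_sub k.1)
    haveI : Finite U := H2.finite_of_le s
    haveI : Finite T := H2.finite_of_le (sub_le (normalIn_iff.1 h1.1).inv.sub)
    exact qs_hyp_ne_bot (hS.to_le s) k.2 (sub_trans (h1.2.1 U C k) (cp_iff.1 h2).sub2)
      (hyp_inner pc)

end Cfsg.Agent.S5310
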