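import Cfsg.Statements.S5315
import Cfsg.Agent.H2.TrF

set_option autoImplicit false
open Cfsg

namespace Cfsg.Agent.S5315

open Subgroup H2 Cfsg.FusionSystem


/-- An analogue of Grün's lemma for fusion systems. Let F be a saturated fusion system over a finite p-group S that is perfect in the sense that its hyperfocal subgroup is all of S (F coincides with its p-residual subsystem). Then the second centre of F equals its centre: every fusion system over S/(Z(F) ∩ S) that is the factor system of F modulo its centre Z(F), read through the quotient map, has trivial centre. -/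
theorem result {Ω : Type*} [Group Ω] {S : Subgroup Ω} [Finite S] (p : ℕ) [Fact p.Prime] (hS : IsPGroup p S) (F : Cfsg.FusionSystem S) (hF : F.IsSaturated p)
    (hperf : F.hyperfocalSubgroup p = S)
    (E : Cfsg.FusionSystem (⊤ : Subgroup (↥S ⧸ (F.center).subgroupOf S)))
    (hE : F.IsFactorSystem F.center (QuotientGroup.mk' ((F.center).subgroupOf S)) E) : E.center = ⊥ := by
  obtain ⟨hk, hf⟩ := isFactorSystem_iff.1 hE
  have hZ := central_center F
  have hm := hf.smor_of_normal (hk ▸ central_normal hZ)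
  generalize fn (QuotientGroup.mk' (F.center.subgroupOf S)) = θ at *
  have := hf.finite
  set Z := prim θ S E.center
  have z1 : F.center ≤ Z := hk.le.trans (prim_mono bot_le)
  have z2 := hm.sc_prim (normal_sc (central_normal (central_center E)))
  have z3 : ∀ P f, Mor F P f → ∀ x ∈ P, x ∈ Z → x⁻¹ * f x ∈ F.center := fun P f h x hx hx' => by
    obtain ⟨f', h1, h2⟩ := hm.mor P f h
    rw [hk, ← hm.hom.eq_iff_ker (h.le hx) (h.mem hx), ← h2 x hx,
      central_fix (central_center E) h1 (mem_img_of_mem θ hx) (hm.hom.mem_prim.1 hx').2]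
  have z4 : ∀ s ∈ S, ∀ x ∈ Z, x⁻¹ * (s * x * s⁻¹) ∈ F.center := fun s hs x hx =>
    z3 S _ (mor_conj F le_rfl hs) x (prim_le hx) hx
  have c1 := central_le_centralizer hZ
  have z5 : F.IsNormal Z := by
    refine normal_of_sc_chain hS hF (C := fun i => if i = 0 then ⊥ else if i = 1 then F.center else Z)
      (monotone_nat_of_le_succ fun i => ?_) rfl (n := 2) rfl (fun i hi => ?_) fun i hi => ?_
    · rcases i with _ | _ | i <;> simp [z1]
    · interval_cases i
      · exact sc_bot F
      · exact normal_sc (central_normal hZ)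
      · exact z2
    · interval_cases i
      · exact (H7.comm_eq_bot.2 (c1.trans (H7.cen_anti prim_le))).le
      · refine commutator_le.2 fun a ha b hb => ?_
        simpa [commutatorElement_def, mul_assoc] using
          Subgroup.inv_mem _ (z4 a (prim_le ha) b⁻¹ (Z.inv_mem hb))
  have z6 : ∀ x ∈ Z, ∀ s ∈ S, s * x * s⁻¹ = x := fun x hx s hs => by
    have : F.focalSubgroup ≤ centralizer {x} := focal_le_iff.2 fun P f h y hy => by
      obtain ⟨g, g1, g2, -⟩ := normal_ext z5 h
      have k1 : x ∈ P ⊔ Z := mem_sup_right hx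
      have k2 : y ∈ P ⊔ Z := mem_sup_left hy
      have k3 := Subgroup.mul_mem _ (Subgroup.mul_mem _ k2 k1) (Subgroup.inv_mem _ k2)
      have e := central_fix hZ g1 (Subgroup.mul_mem _ (Subgroup.inv_mem _ k1) k3)
        (z4 y (h.le hy) x hx)
      rw [g1.homOn.inv_mul k1 k3, g1.homOn.conj k2 k1, g2 y hy] at e
      obtain ⟨z, hz, e'⟩ : ∃ z ∈ F.center, g x = x * z := ⟨_, z3 _ g g1 x k1 hx, by group⟩
      rw [e', ← mul_assoc (f y), mul_assoc _ z, ← c1 hz _ (S.inv_mem (h.mem hy)), ← mul_assoc _ _ z,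
        c1 hz _ (S.mul_mem (S.mul_mem (h.mem hy) (prim_le hx)) (S.inv_mem (h.mem hy))),
        c1 hz x (prim_le hx), mul_inv_rev, mul_assoc, inv_mul_cancel_left, mul_right_inj] at e
      rw [H7.mem_cen1, mul_assoc, inv_mul_eq_iff_eq_mul, ← mul_assoc, ← mul_assoc, ← e]; group
    rw [H7.mem_cen1.1 (this (hyp_le_focal F p (hperf.ge hs))), mul_inv_cancel_right]
  rw [← hf.img_prim (center_le' E), hm.hom.img_eq_bot_iff prim_le, ← hk]
  refine le_center' (central_of_essS hS hF fun R hR => ⟨normal_le_essS hS hF z5 hR,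
    fun a h1 h2 x hx => ?_⟩)
  have hZR := normal_le_essS hS hF z5 hR
  obtain ⟨β, hβ, s, hs, e⟩ := exists_pRes_mul hS hF hR.fullyNormalized h1 h2
  rw [e x (hZR hx), z6 x hx s hs.1]
  have := finite_mulAut hR.le
  refine mem_resK_bot.1 (H7.pRes_le_iff.2 (fun α hα hc => (mem_resK_bot (hQ := hZR)).2
    fun y hy => ?_) hβ) x hx
  have hα' := (mem_autGroup hR.le).1 hα
  have k1 := z3 R _ hα' y (hZR hy) hy
  have k2 := afn_pow_of_fix (hZR hy) (central_fix hZ hα' (hZR (z1 k1)) k1) (orderOf α)
  rw [pow_orderOf_eq_one, afn_one (hZR hy), left_eq_mul] at k2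
  obtain ⟨k, hk⟩ := isPGroup_iff_mem.1 hS _ (center_le' F k1)
  exact (inv_mul_eq_one.1 (eq_one_of_pows (H7.coprime_iff_not_dvd.1 hc) k2 hk)).symm

end Cfsg.Agent.S5315
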