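import Cfsg.Statements.S5317
import Cfsg.Agent.H2.SG1
import Cfsg.Agent.S0261

set_option autoImplicit false
open Cfsg

namespace Cfsg.Agent.S5317

open Subgroup H2 Cfsg.FusionSystem


/-- Let F be a finite field of odd order q with q² ≡ 1 mod 16 (so that a Sylow 2-subgroup of PSL(2,q), dihedral of order the 2-part of (q²−1)/2, has order at least 8). Then the 2-fusion system of PSL(2,F) on a Sylow 2-subgroup is simple: saturated, over a nontrivial 2-group, with no normal subsystem other than the trivial one and itself. -/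
theorem result {F : Type*} [Field F] [Fintype F] (hodd : Fintype.card F % 2 = 1) (h16 : 16 ∣ Fintype.card F ^ 2 - 1)
    (S : Sylow 2 (Matrix.ProjectiveSpecialLinearGroup (Fin 2) F)) :
    (Cfsg.groupFusionSystem (S : Subgroup (Matrix.ProjectiveSpecialLinearGroup (Fin 2) F))).IsSimple 2 := by
  classical
  obtain ⟨P, rfl⟩ := Sylow.mapSurjective_surjective (QuotientGroup.mk'_surjective
    (center (Matrix.SpecialLinearGroup (Fin 2) F))) 2 S
  have q2 : 1 < Fintype.card F := Fintype.one_lt_card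
  have h2 : (2 : F) ≠ 0 := H4.two_ne_zero_iff_odd.2 (by rw [Nat.card_eq_fintype_card]; exact Nat.odd_iff.2 hodd)
  obtain ⟨k, hk, ⟨e⟩⟩ := S0261.result (Nat.odd_iff.2 hodd) P
  obtain ⟨n, rfl⟩ : ∃ n, k = n + 1 := ⟨k - 1, by omega⟩
  obtain ⟨a, m, sq⟩ := H1B.mx_of_quat e
  have d : 2 ^ 4 ∣ Nat.card (P : Subgroup (Matrix.SpecialLinearGroup (Fin 2) F)) := by
    refine P.pow_dvd_card_of_pow_dvd_card ?_
    rw [H4.card_sl2, Nat.card_eq_fintype_card, mul_assoc]
    refine Dvd.dvd.mul_left ?_ _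
    rwa [mul_comm, ← Nat.sq_sub_sq]
  rw [m.card, Nat.pow_dvd_pow_iff_le_right one_lt_two] at d
  obtain ⟨n, rfl⟩ : ∃ l, n = l + 1 := ⟨n - 1, by omega⟩
  have z : a ^ 2 ^ (n + 2) = -1 := (H4.sl2_invol h2 m.z_sq).resolve_left m.z_ne
  have D := dih_quot (Z := Subgroup.center _) m sq (by
    ext x
    rw [H4.sl2_mem_center_iff, H1B.mem_zp_two m.z_ord, z])
  haveI := Matrix.ProjectiveSpecialLinearGroup.rank_two_simple (F := F) (by
    rw [Nat.card_eq_fintype_card]
    by_contra hq
    rw [show Fintype.card F = 3 by omega] at h16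
    omega)
  refine simple_of_dih _ (pRes_top_of_simple fun c => ?_) D
  have := orderOf_dvd_natCard (a : Matrix.ProjectiveSpecialLinearGroup (Fin 2) F)
  rw [D.1.orda, c] at this
  have := (Nat.pow_dvd_pow_iff_le_right one_lt_two).1 (this.trans (pow_one 2).symm.dvd)
  omega

end Cfsg.Agent.S5317
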