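import Cfsg.Statements.S5328
import Cfsg.Agent.H2.TrF

set_option autoImplicit false
universe u
open Cfsg

namespace Cfsg.Agent.S5328

open Subgroup H2 Cfsg.FusionSystem


/-- Every fusion system over a finite p-group S, saturated or not, is realized inside some finite group: there is a finite group G and an injective homomorphism ι of S into G such that the maps of the system are exactly the homomorphisms between subgroups of S that become conjugations by elements of G (the image of S need not be a Sylow p-subgroup of G). -/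
theorem result {Ω : Type u} [Group Ω] {S : Subgroup Ω} [Finite S] (p : ℕ) [Fact p.Prime] (hS : IsPGroup p S) (F : Cfsg.FusionSystem S) : ∃ (G : Type u) (_ : Group G) (_ : Finite G) (ι : ↥S →* G), F.IsRealizedBy ι := by
  obtain ⟨m, hm, h0⟩ := exists_stb' F
  obtain ⟨X, _, ρ, e⟩ := hm.rl
  obtain ⟨x₀, -, hx⟩ := mrk_ne_zero.1 (e _ ▸ h0)
  have hx' : ∀ s : S, ρ (s, s) x₀ = x₀ := fun s => hx ⟨s.2, rfl⟩
  let G := centralizer (Set.range fun t : S => ρ (1, t))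
  let ι : S →* G := (ρ.comp (MonoidHom.inl S S)).codRestrict G fun s => by
    rintro _ ⟨t, rfl⟩
    show ρ (1, t) * ρ (s, 1) = ρ (s, 1) * ρ (1, t)
    simp [← map_mul]
  refine ⟨G, inferInstance, inferInstance, ι, (injective_iff_map_eq_one ι).2 fun s hs => ?_,
    fun P hP φ hφ => ⟨fun h => ?_, fun ⟨g, hg⟩ => ?_⟩⟩
  · obtain ⟨f, hf, ef⟩ := hm.td e (ρ (s, 1) x₀)
    have h1 : ρ (s, 1) = 1 := congrArg Subtype.val hs
    have := ef (s, 1) (by rw [mem_stb, h1]; rfl)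
    exact Subtype.ext (hf.eq_one ⟨(s, 1), by show _ ∈ stb _ _; rw [mem_stb, h1]; rfl, rfl⟩ this.symm)
  · obtain ⟨σ, s1, s2⟩ := hm.exists_perm e (mor_fn h)
    refine ⟨⟨σ, ?_⟩, fun x => Subtype.ext (eq_mul_inv_of_mul_eq (Equiv.ext fun y => ?_))⟩
    · rintro _ ⟨t, rfl⟩
      exact Equiv.ext fun y => (s1 t y).symm
    · exact (s2 ⟨x, hP x.2⟩ ⟨φ x, hφ x⟩ x.2 (fn_coe φ x).symm y).symm
  · obtain ⟨f, hf, ef⟩ := hm.td e (g.1 x₀)
    have k : ∀ x : P, ((⟨φ x, hφ x⟩, ⟨x, hP x.2⟩) : S × S) ∈ stb ρ (g.1 x₀) := fun x => by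
      have h1 : ρ (⟨φ x, hφ x⟩, 1) = g.1 * ρ (⟨x, hP x.2⟩, 1) * g.1⁻¹ := congrArg Subtype.val (hg x)
      have h2 := g.2 _ ⟨⟨x, hP x.2⟩, rfl⟩
      rw [mem_stb, show ((⟨φ x, hφ x⟩, ⟨x, hP x.2⟩) : S × S) = (⟨φ x, hφ x⟩, 1) * (1, ⟨x, hP x.2⟩) by
        simp, map_mul, h1, ← Equiv.Perm.mul_apply, mul_assoc _ _ g.1, h2, mul_assoc _ g.1⁻¹,
        inv_mul_cancel_left, mul_assoc, ← map_mul, Equiv.Perm.mul_apply]
      simp [hx']
    have h1 : φ.range ≤ pr (stb ρ (g.1 x₀)) := by rintro _ ⟨x, rfl⟩; exact ⟨_, k x, rfl⟩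
    have h2 : ∀ x : P, f (φ x) = x := fun x => (ef _ (k x)).symm
    refine mem_hom_iff.2 (((hf.mono h1).inv (g := fn φ) ?_).mono fun x hx => ?_)
    · rintro _ ⟨x, rfl⟩; rw [h2, fn_coe]
    · exact (hf.mono h1).mem_img.2 ⟨_, ⟨⟨x, hx⟩, rfl⟩, h2 ⟨x, hx⟩⟩

end Cfsg.Agent.S5328
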