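import Cfsg.Statements.S5329
import Cfsg.Agent.H2.TrF

set_option autoImplicit false
open Cfsg

namespace Cfsg.Agent.S5329

open Subgroup H2 Cfsg.FusionSystem


/-- For a saturated fusion system F over a finite p-group S, the focal subgroup and the derived subgroup of S meet the centre Z(F) of the system in the same subgroup: foc(F) ∩ Z(F) = S′ ∩ Z(F). -/
theorem result {Ω : Type*} [Group Ω] {S : Subgroup Ω} [Finite S] (p : ℕ) [Fact p.Prime] (hS : IsPGroup p S) (F : Cfsg.FusionSystem S) (hF : F.IsSaturated p) : F.focalSubgroup ⊓ F.center = ⁅(S : Subgroup Ω), (S : Subgroup Ω)⁆ ⊓ F.center := by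
  refine le_antisymm (le_inf (focal_inf_le hS hF le_rfl fun P f hf x hx hx' => ?_) inf_le_right)
    (inf_le_inf_right _ (commutator_le_focal F))
  rw [central_fix (central_center F) hf hx hx', inv_mul_cancel]; exact one_mem _

end Cfsg.Agent.S5329
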