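import Cfsg.Statements.S5330
import Cfsg.Agent.H2.TrF

set_option autoImplicit false
open Cfsg

namespace Cfsg.Agent.S5330

open Subgroup H2 Cfsg.FusionSystem


/-- Let F be a saturated fusion system over a finite abelian p-group S. Then S is the internal direct product of the centre of the system and the focal subgroup: Z(F) ∩ foc(F) = 1 and Z(F)·foc(F) = S. -/
theorem result {Ω : Type*} [Group Ω] {S : Subgroup Ω} [Finite S] (p : ℕ) [Fact p.Prime] (hS : IsPGroup p S) (F : Cfsg.FusionSystem S) (hF : F.IsSaturated p) (hab : ∀ x ∈ S, ∀ y ∈ S, x * y = y * x) : F.center ⊓ F.focalSubgroup = ⊥ ∧ F.center ⊔ F.focalSubgroup = S := by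
  have hc : IsMulCommutative S := isMulCommutative_of_le_centralizer fun x hx y hy => hab y hy x hx
  have h1 : F.focalSubgroup ⊓ F.center ≤ ⊥ := (commutator_eq_bot_of_comm hc).le.trans' <|
    focal_inf_le hS hF le_rfl fun P f hf x hx hx' => by
      rw [central_fix (central_center F) hf hx hx', inv_mul_cancel]; exact one_mem _
  refine ⟨eq_bot_iff.2 ((inf_comm _ _).le.trans h1), ?_⟩
  obtain ⟨G, _, _, ι, h⟩ := exists_mdl hS (constrained_iff.2 ⟨hF, centralizerIn_le.trans
    (le_core (normal_of_abelian_sc hS hF (sc_top F) hc))⟩)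
  have n1 := h.le_nrm (normal_of_abelian_sc hS hF (sc_top F) hc)
  have hc' : IsMulCommutative (img ι S) := by
    rw [H7.isComm_iff, ← H7.comm_eq_bot, ← h.hom.img_commutator le_rfl le_rfl,
      commutator_eq_bot_of_comm hc, img_bot h.hom.one]
  have e := fitting_decomp_hall hc' le_top n1 (sylow_coprime_relIndex h.syl)
  have k1 : img ι S ⊓ centralizer ((⊤ : Subgroup G) : Set G) ≤ img ι F.center := fun y hy => by
    obtain ⟨x, hx, rfl⟩ := (h.mem_img le_rfl).1 hy.1
    refine mem_img_of_mem ι ((mem_center_iff' hS hF).2 ⟨hx, fun P f hf hP => h.fix hf hP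
      fun g _ => H7.mem_cen1.2 (hy.2 g trivial)⟩)
  refine le_antisymm (sup_le (center_le' F) (focal_le F)) ?_
  have k2 := sup_le (center_le' F) (focal_le F)
  rw [← h.img_le_iff le_rfl k2, (h.hom.mono k2).img_sup, h.toRz.focal, sup_comm,
    foc_eq_commutator n1]
  exact e.ge.trans (sup_le_sup_left k1 _)

end Cfsg.Agent.S5330
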