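import Cfsg.Statements.S5521
import Cfsg.Agent.H0.M24x


set_option autoImplicit false
open Cfsg

namespace Cfsg.Agent.S5521

open H0 H6 Finset MulAction
open scoped Pointwise
set_option maxRecDepth 100000

/-- The Mathieu group M₂₄ in its natural action on the 24 coordinate positions of the binary Golay code has minimal base size exactly 7: every set of at most 6 positions is fixed pointwise by some non-identity element of M₂₄, while some set of 7 positions is fixed pointwise only by the identity. -/
theorem result :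
    (∀ B : Finset Cfsg.GolayPt, B.card ≤ 6 → ∃ g ∈ Cfsg.M24, g ≠ 1 ∧ ∀ b ∈ B, g b = b) ∧
    (∃ B : Finset Cfsg.GolayPt, B.card = 7 ∧ ∀ g ∈ Cfsg.M24, (∀ b ∈ B, g b = b) → g = 1) := by
  refine ⟨fun B h => ?_, dec 0x7f, by decide +kernel, fun g hg h => ?_⟩
  · obtain ⟨s, h1, h2⟩ := exists_superset_card_eq h (by rw [card_pt]; decide)
    obtain ⟨g, hg, h3⟩ := (fxs s).bot_or_exists_ne_one.resolve_left fun e => by
      have := six_cases h2
      rw [e, Subgroup.card_bot] at this; omega
    exact ⟨g, g.2, fun e => h3 (Subtype.ext e), fun b hb => mem_fxs.1 hg b (h1 hb)⟩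
  · have : fxs (dec 0x7f) = ⊥ := by
      rw [show dec 0x7f = insert (pt 6) (dec 0x3f) by decide +kernel, fxs_ins, ← Subgroup.card_le_one_iff_eq_bot]
      exact card_le_of_orb card3f.le (d := 3) (le_trans (by decide +kernel) ((ckA 0x3f).orbP_le (gs := [0x7520f4cee6b450a69e4b654a418820]) (by decide +kernel) (j := 6) (by decide))) (by decide) (by decide)
    exact congrArg Subtype.val (this.le (mem_fxs.2 h : (⟨g, hg⟩ : Cfsg.M24) ∈ _))

end Cfsg.Agent.S5521
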