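import Cfsg.Statements.S5562
import Mathlib
import Cfsg.Agent.H8.Tr3

set_option autoImplicit false
open Cfsg

namespace Cfsg.Agent.S5562

open H8
theorem conj_pow_odd {G : Type*} [Group G] {u w : G} (h : u * w * u⁻¹ = w⁻¹) (m : ℕ) :
    u ^ (2 * m + 1) * w * (u ^ (2 * m + 1))⁻¹ = w⁻¹ := by
  have h2 : Commute (u ^ 2) w := by
    show _ = _
    calc u ^ 2 * w = u * (u * w * u⁻¹) * u := by rw [pow_two]; group
      _ = (u * w * u⁻¹)⁻¹ * u ^ 2 := by nth_rw 1 [h]; rw [pow_two]; group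
      _ = _ := by rw [h, inv_inv]
  calc _ = u * ((u ^ 2) ^ m * w) * ((u ^ 2) ^ m)⁻¹ * u⁻¹ := by rw [← pow_mul]; group
    _ = _ := by rw [(h2.pow_left m).eq, ← h]; group

/-- Let G be a finite group, d an involution of G whose conjugates pairwise have products of odd order, and x any involution of G. Then the conjugacy class of d is the disjoint union, over the conjugates a of d commuting with x, of the sets of conjugates of d commuting with ax: every conjugate of d commutes with ax for exactly one conjugate a of d that commutes with x. -/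
theorem result {G : Type*} [Group G] [Finite G] (d : G) (hd : orderOf d = 2)
    (hodd : ∀ a ∈ conjugatesOf d, ∀ b ∈ conjugatesOf d, Odd (orderOf (a * b)))
    (x : G) (hx : orderOf x = 2) :
    ∀ e ∈ conjugatesOf d,
      ∃! a : G, a ∈ conjugatesOf d ∧ Commute a x ∧ Commute e (a * x) := by
  intro e he
  have sq : ∀ a ∈ conjugatesOf d, a * a = 1 := fun a ha => by
    obtain ⟨g, rfl⟩ := isConj_iff.1 ha
    simp [mul_assoc, ll1 (sq1 hd)]
  have cj : ∀ g, ∀ a ∈ conjugatesOf d, g * a * g⁻¹ ∈ conjugatesOf d := fun g a ha =>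
    IsConj.trans ha (isConj_iff.2 ⟨g, rfl⟩)
  have sx := sq1 hx
  have se := sq e he
  refine existsUnique_of_exists_of_unique ?_ fun a b ⟨a1, a2, a3⟩ ⟨b1, b2, b3⟩ => ?_
  · obtain ⟨m, hm⟩ := hodd e he _ (cj x e he)
    have h1 := pow_orderOf_eq_one (e * (x * e * x⁻¹))
    rw [hm] at h1
    have h2 : e * (e * (x * e * x⁻¹)) * e⁻¹ = (e * (x * e * x⁻¹))⁻¹ := by
      simp [mul_assoc, ll1 se, inv1 se]
    have h3 : x * (e * (x * e * x⁻¹)) * x⁻¹ = (e * (x * e * x⁻¹))⁻¹ := by
      simp [mul_assoc, inv1 sx, inv1 se, sx]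
    have h4 : x * e * x⁻¹ = e * (e * (x * e * x⁻¹)) := (ll1 se _).symm
    generalize e * (x * e * x⁻¹) = u at h1 h2 h3 h4
    have h5 : ∀ k : ℕ, e * u ^ k = (u ^ k)⁻¹ * e := fun k => by
      rw [← inv_pow, ← h2, conj_pow]; group
    have h6 : ∀ k : ℕ, x * u ^ k = (u ^ k)⁻¹ * x := fun k => by
      rw [← inv_pow, ← h3, conj_pow]; group
    have h7 : u ^ (m + 1) * u ^ (m + 1) = u := by
      rw [← pow_add, show m + 1 + (m + 1) = 2 * m + 1 + 1 by ring, pow_succ, h1, one_mul]
    refine ⟨e * u ^ (m + 1), ?_, ?_, ?_⟩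
    · have := cj (u ^ ((m + 1) * (m + 1)))⁻¹ e he
      rwa [← h5, inv_inv, mul_assoc, pow_mul, ← (Commute.refl _).mul_pow, h7] at this
    · show _ = _
      calc e * u ^ (m + 1) * x = e * u * ((u ^ (m + 1))⁻¹ * x) := by nth_rw 2 [← h7]; group
        _ = _ := by rw [← h6, ← h4]; group
    · show _ = _
      calc e * (e * u ^ (m + 1) * x) = u ^ (m + 1) * x := by simp [mul_assoc, ll1 se]
        _ = (u ^ (m + 1))⁻¹ * e * (e * u) * x := by
          nth_rw 3 [← h7]; simp [mul_assoc, ll1 se]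
        _ = _ := by rw [← h5, ← h4]; group
  have h1 : Commute e (a * b) := by
    have := a3.mul_right b3.inv_right
    rwa [mul_inv_rev, mul_assoc, mul_inv_cancel_left, inv1 (sq b b1)] at this
  obtain ⟨m, hm⟩ := hodd e he a a1
  have h2 := conj_pow_odd (u := e * a) (w := a * b) (by
    calc e * a * (a * b) * (e * a)⁻¹ = e * (a * b)⁻¹ * e⁻¹ := by
          simp [mul_assoc, ll1 (sq a a1), inv1 (sq b b1)]
      _ = _ := by rw [h1.inv_right.eq, mul_inv_cancel_right]) m
  rw [← hm, pow_orderOf_eq_one, one_mul, inv_one, mul_one, eq_inv_iff_mul_eq_one, ← pow_two] at h2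
  have h3 := Nat.eq_one_of_dvd_coprimes (hodd a a1 b b1).coprime_two_right dvd_rfl
    (orderOf_dvd_of_pow_eq_one h2)
  rw [eq_inv_of_mul_eq_one_left (orderOf_eq_one_iff.1 h3), inv1 (sq b b1)]

end Cfsg.Agent.S5562
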