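import Cfsg.Statements.S5596
import Cfsg.Agent.H2.LX1

set_option autoImplicit false
open Cfsg

namespace Cfsg.Agent.S5596

open Subgroup hiding upperCentralSeries
open H2 Cfsg.FusionSystem

open Subgroup H2 H7 H1B
open scoped commutatorElement

/-- Setting: `z` is an involution of the finite group `G`; for each element `x`, `Q x` is the largest normal 2-subgroup of the centralizer of `x`; `Q z` is extraspecial and contains its own centralizer in `G`. A subgroup `U` is singular when it is elementary abelian, every non-identity element of `U` is conjugate to `z`, and any two non-identity elements `u`, `v` of `U` are orthogonal (`v ∈ Q u`). Write `QU` for the intersection of the `Q u` and `LU` for the join of the `Q u` over the non-identity `u` in `U`. If `U` is singular of order `2 ^ n` with `n ≥ 2`, then `U ≤ QU ≤ LU`, `LU` normalizes `U`, and `LU` induces on `U` its full automorphism group (the general linear group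 of dimension `n` over the field with two elements): every automorphism of `U` is conjugation by some element of `LU`. -/
theorem result {G : Type*} [Group G] [Finite G]
    (Q : G → Subgroup G)
    (hQ : ∀ x : G, Q x = (Cfsg.pCore 2 ↥(Subgroup.centralizer ({x} : Set G))).map (Subgroup.centralizer ({x} : Set G)).subtype)
    (z : G) (hz : orderOf z = 2) (hE : Cfsg.IsExtraspecial 2 ↥(Q z))
    (hC : Subgroup.centralizer ((Q z : Subgroup G) : Set G) ≤ Q z)
    (U : Subgroup G) (hU2 : ∀ u ∈ U, u * u = 1)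
    (hS : ∀ u ∈ U, u ≠ 1 → ∃ g : G, g * z * g⁻¹ = u)
    (hO : ∀ u ∈ U, ∀ v ∈ U, u ≠ 1 → v ≠ 1 → v ∈ Q u)
    (QU LU : Subgroup G) (hQU : QU = ⨅ u ∈ ((U : Set G) \ {1}), Q u) (hLU : LU = ⨆ u ∈ ((U : Set G) \ {1}), Q u)
    (n : ℕ) (hn : 2 ≤ n) (hcard : Nat.card ↥U = 2 ^ n) :
    U ≤ QU ∧ QU ≤ LU ∧ LU ≤ Subgroup.normalizer (U : Set G) ∧
      ∀ φ : ↥U ≃* ↥U, ∃ g ∈ LU, ∀ u : ↥U, g * (u : G) * g⁻¹ = ((φ u : ↥U) : G) := by
  have e : ∀ x, Q x = Op 2 (cen1 x) := fun x => (hQ x).trans (pCore_map 2 _)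
  have s0 : LX (Q z) z := lx_of' hE hC hz (e z ▸ Opi_le _ _) (e z ▸ le_nrm_Opi _ _)
  have s : ∀ u ∈ U, u ≠ 1 → LX (Q u) u := fun u hu u1 => by
    obtain ⟨g, rfl⟩ := hS u hu u1
    have := s0.cj g
    rwa [e, cj_Opi, cj_cen1, ← e] at this
  have l : ∀ u ∈ U, u ≠ 1 → U ≤ Q u := fun u hu u1 v hv => by
    by_cases v1 : v = 1
    exacts [v1 ▸ one_mem _, hO u hu v hv u1 v1]
  have lL : ∀ u ∈ U, u ≠ 1 → Q u ≤ LU := fun u hu u1 =>
    hLU ▸ le_iSup₂_of_le (f := fun u (_ : u ∈ (U : Set G) \ {1}) => Q u) u ⟨hu, u1⟩ le_rfl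
  have nL : LU ≤ nrm U := hLU ▸ iSup₂_le fun u hu => (s u hu.1 hu.2).le_nrm (l u hu.1 hu.2) hu.1
  obtain ⟨u, hu, u1⟩ := exists_ne_one (H := U) fun h => by
    rw [h, card_bot] at hcard
    exact (Nat.one_lt_two_pow (by omega)).ne hcard
  refine ⟨hQU ▸ le_iInf₂ fun u hu => l u hu.1 hu.2, (hQU ▸ iInf₂_le u ⟨hu, u1⟩ : QU ≤ Q u).trans
    (lL u hu u1), nL, fun φ => ?_⟩
  have key : ∀ W ≤ U, ∃ g ∈ LU, ∀ u : U, (u : G) ∈ W → g * u * g⁻¹ = φ u := fun W => by
    induction W using WellFoundedLT.induction with | _ W ih => ?_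
    intro hW
    by_cases w0 : W = ⊥
    · refine ⟨1, one_mem _, fun u hu => ?_⟩
      obtain rfl : u = 1 := Subtype.ext (mem_bot.1 (w0 ▸ hu))
      simp
    have pW : IsPGroup 2 W := H7.isPGroup_iff_mem.2 fun a ha => ⟨1, by simpa [sq] using hU2 a (hW ha)⟩
    obtain ⟨B, -, b2, b3, -⟩ := exists_index_p pW (bot_lt_iff_ne_bot.2 w0)
    obtain ⟨a, ha, ha', rfl⟩ := exists_sup_zpowers_of_prime (b3 ▸ Nat.prime_two) b2
    obtain ⟨g, hg, k⟩ := ih B (b2.lt_of_ne fun h => ha' (h ▸ ha)) (b2.trans hW)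
    have ga := nconj_mem (nL hg) (hW ha)
    suffices ∃ q ∈ LU, q ∈ cen (cj g B) ∧ q * (g * a * g⁻¹) * q⁻¹ = φ ⟨a, hW ha⟩ by
      obtain ⟨q, h1, h2, h3⟩ := this
      refine ⟨q * g, mul_mem h1 hg, fun u hu => ?_⟩
      have : B ⊔ zpowers a ≤ ((((MulAut.conj (q * g)).toMonoidHom.comp U.subtype).eqLocus
          (U.subtype.comp φ.toMonoidHom)).map U.subtype) := by
        refine sup_le (fun b hb => ⟨⟨b, hW (b2 hb)⟩, ?_, rfl⟩) (zpowers_le.2 ⟨⟨a, hW ha⟩, ?_, rfl⟩)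
        · change q * g * b * (q * g)⁻¹ = φ _
          rw [← k ⟨b, hW (b2 hb)⟩ hb, ← conj_eq_of_mem_cen h2 (H7.conj_mem_cj.2 hb)]; group
        · change q * g * a * (q * g)⁻¹ = φ _
          rw [← h3]; group
      obtain ⟨u', h, e⟩ := this hu
      exact Subtype.ext e ▸ h
    by_cases c1 : (φ ⟨a, hW ha⟩ : G) * (g * a * g⁻¹) = 1
    · exact ⟨1, one_mem _, one_mem _, by
        rw [one_mul, inv_one, mul_one, eq_inv_of_mul_eq_one_left c1,
          inv_eq_of_mul_eq_one_left (hU2 _ ga)]⟩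
    have cU := mul_mem (φ ⟨a, hW ha⟩).2 ga
    have s' := s _ cU c1
    set c := (φ ⟨a, hW ha⟩ : G) * (g * a * g⁻¹) with hc
    have lB : cj g B ≤ U := cj_le_of_mem_nrm (nL hg) (b2.trans hW)
    have d := xs_dperp s'.toXS (sup_le (lB.trans (l c cU c1)) (zpowers_le.2 s'.zm))
      (mem_sup_right (mem_zpowers c))
    have n : g * a * g⁻¹ ∉ cj g B ⊔ zpowers c := fun h => by
      obtain ⟨b, hb, y, hy, e⟩ := (mem_sup_nrm ((lB.trans (l c cU c1)).trans (s'.le_nrm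
        (zpowers_le.2 s'.zm) (mem_zpowers c)))).1 h
      obtain ⟨b, hb', rfl⟩ := mem_cj'.1 hb
      rcases (mem_zp_two s'.oz).1 hy with rfl | rfl
      · exact ha' (H7.conj_mem_cj.1 (e ▸ mul_one (g * b * g⁻¹) ▸ hb))
      · rw [hc, ← mul_assoc, mul_eq_right, k ⟨b, hW (b2 hb')⟩ hb', mul_eq_one_iff_eq_inv,
          inv_eq_of_mul_eq_one_left (hU2 _ (φ _).2)] at e
        exact ha' ((show b = a from Subtype.ext_iff.1 (φ.injective (Subtype.ext e))) ▸ hb')
    obtain ⟨q, hq, hq'⟩ := SetLike.not_le_iff_exists.1 fun h : Q c ⊓ cen (cj g B ⊔ zpowers c) ≤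
      cen1 (g * a * g⁻¹) => n (d.le ⟨l c cU c1 ga, le_cen1_iff.1 h⟩)
    refine ⟨q, lL c cU c1 hq.1, cen_anti le_sup_left hq.2, ?_⟩
    have := ((mem_zp_two s'.oz).1 (s'.comm q hq.1 _ (l c cU c1 ga))).resolve_left fun h =>
      hq' (mem_cen1.2 (commutatorElement_eq_one_iff_mul_comm.1 h))
    exact mul_right_cancel (this.trans (by rw [hc, inv_eq_of_mul_eq_one_left (hU2 _ ga)]))
  obtain ⟨g, hg, k⟩ := key U le_rfl
  exact ⟨g, hg, fun u => k u u.2⟩

end Cfsg.Agent.S5596
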