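import Cfsg.Statements.S5597
import Cfsg.Agent.H2.LX3

set_option autoImplicit false
open Cfsg

namespace Cfsg.Agent.S5597

open Subgroup hiding upperCentralSeries
open H2 Cfsg.FusionSystem

open Subgroup H2 H7 H1B
open scoped commutatorElement

/-- Setting: `z` is an involution of the finite group `G`; for each element `x`, `Q x` is the largest normal 2-subgroup of the centralizer of `x`; `Q z` is extraspecial and contains its own centralizer in `G`. A subgroup `U` is singular when it is elementary abelian, every non-identity element of `U` is conjugate to `z`, and any two non-identity elements `u`, `v` of `U` are orthogonal (`v ∈ Q u`). Write `QU` for the intersection of the `Q u` and `LU` for the join of the `Q u` over the non-identity `u` in `U`. If `U` is a non-trivial singular subgroup, then `LU` acts trivially on `QU / U` (every commutator of an element of `LU` with an element of `QU` lies in `U`), and for every `x` in `QU` outside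 `U` the centralizer of `U` in `LU` permutes the coset `x U` transitively: each `x u` with `u ∈ U` is a conjugate of `x` by an element of `LU` centralizing `U`. -/
theorem result {G : Type*} [Group G] [Finite G]
    (Q : G → Subgroup G)
    (hQ : ∀ x : G, Q x = (Cfsg.pCore 2 ↥(Subgroup.centralizer ({x} : Set G))).map (Subgroup.centralizer ({x} : Set G)).subtype)
    (z : G) (hz : orderOf z = 2) (hE : Cfsg.IsExtraspecial 2 ↥(Q z))
    (hC : Subgroup.centralizer ((Q z : Subgroup G) : Set G) ≤ Q z)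
    (U : Subgroup G) (hU2 : ∀ u ∈ U, u * u = 1)
    (hS : ∀ u ∈ U, u ≠ 1 → ∃ g : G, g * z * g⁻¹ = u)
    (hO : ∀ u ∈ U, ∀ v ∈ U, u ≠ 1 → v ≠ 1 → v ∈ Q u)
    (QU LU : Subgroup G) (hQU : QU = ⨅ u ∈ ((U : Set G) \ {1}), Q u) (hLU : LU = ⨆ u ∈ ((U : Set G) \ {1}), Q u)
    (hU : U ≠ ⊥) :
    (∀ g ∈ LU, ∀ x ∈ QU, g * x * g⁻¹ * x⁻¹ ∈ U) ∧
      ∀ x ∈ QU, x ∉ U → ∀ u ∈ U, ∃ g ∈ LU ⊓ Subgroup.centralizer (U : Set G), g * x * g⁻¹ = x * u := by
  have e : ∀ x, Q x = Op 2 (cen1 x) := fun x => (hQ x).trans (pCore_map 2 _)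
  have s0 : LX (Q z) z := lx_of' hE hC hz (e z ▸ Opi_le _ _) (e z ▸ le_nrm_Opi _ _)
  have s : ∀ u ∈ U, u ≠ 1 → LX (Q u) u := fun u hu u1 => by
    obtain ⟨g, rfl⟩ := hS u hu u1
    have := s0.cj g
    rwa [e, cj_Opi, cj_cen1, ← e] at this
  have l : ∀ u ∈ U, u ≠ 1 → U ≤ Q u := fun u hu u1 v hv => by
    by_cases v1 : v = 1
    exacts [v1 ▸ one_mem _, hO u hu v hv u1 v1]
  have lQ : ∀ u ∈ U, u ≠ 1 → QU ≤ Q u := fun u hu u1 => hQU ▸ iInf₂_le u ⟨hu, u1⟩
  have k : LU ≤ cmod U QU := hLU ▸ iSup₂_le fun u hu => le_cmod.2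
    ⟨(s u hu.1 hu.2).le_nrm (l u hu.1 hu.2) hu.1, ((commutator_mono le_rfl (lQ u hu.1 hu.2)).trans
      (s u hu.1 hu.2).der).trans (zpowers_le.2 hu.1)⟩
  refine ⟨fun g hg x hx => (mem_cmod.1 (k hg)).2 x hx, fun x hx hx' u hu => ?_⟩
  by_cases u1 : u = 1
  · exact ⟨1, one_mem _, by simp [u1]⟩
  have s' := s u hu u1
  have m := lQ u hu u1 hx
  obtain ⟨q, hq, hq'⟩ := SetLike.not_le_iff_exists.1 fun h : Q u ⊓ cen U ≤ cen1 x =>
    hx' ((xs_dperp s'.toXS (l u hu u1) hu).le ⟨m, le_cen1_iff.1 h⟩)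
  refine ⟨q, ⟨(hLU ▸ le_iSup₂_of_le (f := fun u (_ : u ∈ (U : Set G) \ {1}) => Q u) u ⟨hu, u1⟩ le_rfl :
    Q u ≤ LU) hq.1, hq.2⟩, ?_⟩
  have := ((mem_zp_two s'.oz).1 (s'.comm q hq.1 _ m)).resolve_left fun h =>
    hq' (mem_cen1.2 (commutatorElement_eq_one_iff_mul_comm.1 h))
  rw [(s'.commZ (mem_zpowers u) m).eq, ← this]; group

end Cfsg.Agent.S5597
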