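import Cfsg.Statements.S5598
import Cfsg.Agent.H2.LX3

set_option autoImplicit false
open Cfsg

namespace Cfsg.Agent.S5598

open Subgroup hiding upperCentralSeries
open H2 Cfsg.FusionSystem

open Subgroup H2 H7 H1B
open scoped commutatorElement

/-- Setting: `z` is an involution of the finite group `G`; for each element `x`, `Q x` is the largest normal 2-subgroup of the centralizer of `x`; `Q z` is extraspecial and contains its own centralizer in `G`. A subgroup `U` is singular when it is elementary abelian, every non-identity element of `U` is conjugate to `z`, and any two non-identity elements `u`, `v` of `U` are orthogonal (`v ∈ Q u`). Write `QU` for the intersection of the `Q u` and `LU` for the join of the `Q u` over the non-identity `u` in `U`. If the singular subgroup `U` is generated by a set `T` of non-identity elements, then `QU` is already the intersection of the `Q t` over `t ∈ T`. -/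
theorem result {G : Type*} [Group G] [Finite G]
    (Q : G → Subgroup G)
    (hQ : ∀ x : G, Q x = (Cfsg.pCore 2 ↥(Subgroup.centralizer ({x} : Set G))).map (Subgroup.centralizer ({x} : Set G)).subtype)
    (z : G) (hz : orderOf z = 2) (hE : Cfsg.IsExtraspecial 2 ↥(Q z))
    (hC : Subgroup.centralizer ((Q z : Subgroup G) : Set G) ≤ Q z)
    (U : Subgroup G) (hU2 : ∀ u ∈ U, u * u = 1)
    (hS : ∀ u ∈ U, u ≠ 1 → ∃ g : G, g * z * g⁻¹ = u)
    (hO : ∀ u ∈ U, ∀ v ∈ U, u ≠ 1 → v ≠ 1 → v ∈ Q u)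
    (QU LU : Subgroup G) (hQU : QU = ⨅ u ∈ ((U : Set G) \ {1}), Q u) (hLU : LU = ⨆ u ∈ ((U : Set G) \ {1}), Q u)
    (T : Set G) (hT : Subgroup.closure T = U) (hT1 : (1 : G) ∉ T) :
    QU = ⨅ t ∈ T, Q t := by
  have e : ∀ x, Q x = Op 2 (cen1 x) := fun x => (hQ x).trans (pCore_map 2 _)
  have s0 : LX (Q z) z := lx_of' hE hC hz (e z ▸ Opi_le _ _) (e z ▸ le_nrm_Opi _ _)
  have s : ∀ u ∈ U, u ≠ 1 → LX (Q u) u := fun u hu u1 => by
    obtain ⟨g, rfl⟩ := hS u hu u1
    have := s0.cj g
    rwa [e, cj_Opi, cj_cen1, ← e] at this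
  subst hQU hT
  refine le_antisymm (le_iInf₂ fun t ht => iInf₂_le t ⟨Subgroup.subset_closure ht, fun k => hT1 (k ▸ ht)⟩)
    fun x hx => mem_iInf.2 fun u => mem_iInf.2 fun hu => ?_
  refine closure_induction (p := fun u _ => u ≠ 1 → x ∈ Q u) (fun t ht _ => mem_iInf.1 (mem_iInf.1 hx t) ht)
    (fun k => absurd rfl k) (fun u v hu hv a b n => ?_)
    (fun u hu a => by rwa [inv_eq_of_mul_eq_one_left (hU2 u hu)]) hu.1 hu.2
  by_cases u1 : u = 1
  · rw [u1, one_mul] at n ⊢; exact b n
  by_cases v1 : v = 1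
  · rw [v1, mul_one] at n ⊢; exact a n
  have s' := s u hu u1
  have m := hO u hu v hv u1 v1
  obtain ⟨q, hq, k⟩ := s'.exists_conj m fun k => ((mem_zp_two s'.oz).1 k).elim v1 fun k => n (k ▸ hU2 v hv)
  rw [← (s'.commZ (mem_zpowers u) m).eq, ← k, e, ← cj_cen1, ← cj_Opi, ← e, H7.mem_cj,
    show q⁻¹ * x * q = ⁅q⁻¹, x⁆ * x by group]
  exact mul_mem (zpowers_le.2 (hO v hv u hu v1 u1) (s'.comm _ (inv_mem hq) x (a u1))) (b v1)

end Cfsg.Agent.S5598
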