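import Cfsg.Statements.S5729
import Cfsg.Agent.H3.Der

set_option autoImplicit false
open Cfsg

namespace Cfsg.Agent.S5729

open MulAction Subgroup H3.Der Finset

/-- Let a finite group G act faithfully and transitively on a set with n ≥ 3 points. Then either G is a Frobenius permutation group (Frobenius as a permutation group: transitive, some non-identity element fixes a point, and no non-identity element fixes two points) of order n(n − 1) and exactly |G|/n of its elements are derangements (fix no point), or the number of derangements is greater than |G|/n. -/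
theorem result {G Ω : Type*} [Group G] [Finite G] [MulAction G Ω] [FaithfulSMul G Ω] [Fintype Ω] (htr : MulAction.IsPretransitive G Ω) (hn : 3 ≤ Fintype.card Ω) :
    ((MulAction.IsPretransitive G Ω ∧ (∃ g : G, g ≠ 1 ∧ ∃ ω : Ω, g • ω = ω) ∧ ∀ g : G, g ≠ 1 → Nat.card (MulAction.fixedBy Ω g) ≤ 1) ∧ Nat.card G = Fintype.card Ω * (Fintype.card Ω - 1) ∧ Fintype.card Ω * Nat.card {g : G // ∀ ω : Ω, g • ω ≠ ω} = Nat.card G) ∨
    Nat.card G < Fintype.card Ω * Nat.card {g : G // ∀ ω : Ω, g • ω ≠ ω} := by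
  set_option maxSynthPendingDepth 3 in
  classical
  haveI := Fintype.ofFinite G
  haveI : Nontrivial Ω := Fintype.one_lt_card_iff_nontrivial.1 (by omega)
  have b1 := burn G Ω
  have b2 := burn G (Ω × Ω)
  obtain ⟨r1, r2, -⟩ := rank_two G Ω
  rw [orb_one, one_mul] at b1
  simp only [fix_prod] at b2
  rw [← Nat.card_eq_fintype_card] at hn ⊢
  set n := Nat.card Ω
  have l : ∀ g ∈ (univ : Finset G), ((Nat.card (fixedBy Ω g) : ℤ) - 1) * (Nat.card (fixedBy Ω g) - n) ≤
      if ∀ ω : Ω, g • ω ≠ ω then (n : ℤ) else 0 := fun g _ => by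
    split_ifs with h
    · rw [fix_zero.2 h]; simp
    · have := Nat.pos_of_ne_zero (mt fix_zero.1 h)
      have := fix_le (Ω := Ω) g
      exact mul_nonpos_of_nonneg_of_nonpos (by omega) (by omega)
  have e1 : ∑ g : G, ((Nat.card (fixedBy Ω g) : ℤ) - 1) * (Nat.card (fixedBy Ω g) - n) =
      (Nat.card (orbitRel.Quotient G (Ω × Ω)) - 1) * Nat.card G := by
    have : ∀ x : ℤ, (x - 1) * (x - n) = x * x - (n + 1) * x + n := fun x => by ring
    simp only [this, sum_add_distrib, sum_sub_distrib, ← mul_sum, sum_const, card_univ, nsmul_eq_mul, ← Nat.card_eq_fintype_card]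
    zify at b1 b2
    rw [b1, b2]; ring
  have e2 : ∑ g : G, (if ∀ ω : Ω, g • ω ≠ ω then (n : ℤ) else 0) = n * Nat.card {g : G // ∀ ω : Ω, g • ω ≠ ω} := by
    rw [← sum_filter, sum_const, Nat.card_eq_fintype_card, Fintype.card_subtype, nsmul_eq_mul, mul_comm]
  have s := sum_le_sum l
  rw [e1, e2] at s
  have p : 0 < Nat.card G := Nat.card_pos
  refine (le_or_gt _ _).imp (fun h => ?_) id
  have r : Nat.card (orbitRel.Quotient G (Ω × Ω)) = 2 := by zify at h; nlinarith
  have q : n * Nat.card {g : G // ∀ ω : Ω, g • ω ≠ ω} = Nat.card G := by rw [r] at s; zify at h ⊢; push_cast at s; linarith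
  have f : ∀ g : G, g ≠ 1 → Nat.card (fixedBy Ω g) ≤ 1 := fun g h1 => by
    have := (sum_eq_sum_iff_of_le l).1 (by rw [e1, e2, r]; zify at q; push_cast; linarith) g (mem_univ g)
    split_ifs at this with h
    · rw [fix_zero.2 h]; omega
    · rcases mul_eq_zero.1 this with z | z
      · omega
      · exact absurd (eq_of_smul_eq_smul (α := Ω) fun x => (fix_all (by omega) x).trans (one_smul _ _).symm) h1
  obtain ⟨a, b, ab⟩ := exists_pair_ne Ω
  refine ⟨⟨htr, ?_, f⟩, ?_, q⟩
  · obtain ⟨c, h1, h2⟩ : ∃ c, c ≠ a ∧ c ≠ b := by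

      by_contra! z
      have : n ≤ 2 := by
        rw [show n = (Set.univ : Set Ω).ncard from (Set.ncard_univ Ω).symm, ← Set.ncard_pair ab]
        exact Set.ncard_le_ncard fun c _ => (em (c = a)).imp id (z c)
      omega
    obtain ⟨g, k1, k2⟩ := r2 r a b a c ab h1.symm
    exact ⟨g, fun z => h2 (by rw [← k2, z, one_smul]), a, k1⟩
  · have : Nat.card G = Nat.card (univ.offDiag : Finset (Ω × Ω)) :=
      Nat.card_congr (Equiv.ofBijective (fun g => ⟨(g • a, g • b), by simpa using ab⟩) ⟨fun g h e => ?_, fun x => ?_⟩)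
    · rw [this, Nat.card_eq_fintype_card, Fintype.card_coe, offDiag_card, card_univ, ← Nat.card_eq_fintype_card, Nat.mul_sub_one]
    · by_contra z
      haveI := Finite.card_le_one_iff_subsingleton.1 (f (h⁻¹ * g) fun e => z (inv_mul_eq_one.1 e).symm)
      have e1 : g • a = h • a := congrArg (·.1.1) e
      have e2 : g • b = h • b := congrArg (·.1.2) e
      exact ab (congrArg Subtype.val (Subsingleton.elim (⟨a, by simp [mul_smul, e1]⟩ : fixedBy Ω (h⁻¹ * g)) ⟨b, by simp [mul_smul, e2]⟩))
    · obtain ⟨g, k1, k2⟩ := r2 r a b x.1.1 x.1.2 ab (mem_offDiag.1 x.2).2.2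
      exact ⟨g, Subtype.ext (Prod.ext k1 k2)⟩

end Cfsg.Agent.S5729
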