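import Cfsg.Statements.S5738
import Cfsg.Agent.H7.Cop

set_option autoImplicit false
open Cfsg

namespace Cfsg.Agent.S5738

/-- Let F ⊆ K be finite fields with |F| = q and [K : F] = n ≥ 2, so |K| = q^n. Regard K as an n-dimensional F-vector space; the multiplications by non-zero elements of K form a cyclic subgroup of GL_F(K) of order q^n − 1 acting regularly on the non-zero vectors (a Singer group). Its normaliser in GL_F(K) has order n·(q^n − 1). -/
theorem result {F K : Type*} [Field F] [Fintype F] [Field K] [Fintype K] [Algebra F K] (n : ℕ) (hn : 2 ≤ n) (hdim : Module.finrank F K = n) :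
    Nat.card (Subgroup.normalizer (((Units.map ((Algebra.lmul F K : K →ₐ[F] Module.End F K) : K →* Module.End F K)).range : Subgroup (Module.End F K)ˣ) : Set (Module.End F K)ˣ)) = n * (Fintype.card K - 1) := by
  set_option maxSynthPendingDepth 3 in
  classical
  set S := (Units.map ((Algebra.lmul F K : K →ₐ[F] Module.End F K) : K →* Module.End F K)).range
  let r : (K ≃ₐ[F] K) →* (Module.End F K)ˣ := (AlgEquiv.toLinearMapHom F K).toHomUnits
  have e : Subgroup.normalizer (S : Set (Module.End F K)ˣ) = r.range ⊔ S := by
    refine le_antisymm (fun g h => ?_) (sup_le ?_ Subgroup.le_normalizer)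
    · have i := (Module.End.isUnit_iff _).1 g.isUnit
      have z : g.1 1 ≠ 0 := fun z => one_ne_zero (i.1 (z.trans (map_zero _).symm))
      have k : ∀ x y : K, g.1 (x * y) * g.1 1 = g.1 x * g.1 y := fun x y => by
        rcases eq_or_ne x 0 with rfl | n
        · simp
        obtain ⟨c, hc⟩ := (h _).1 ⟨Units.mk0 x n, rfl⟩
        have t : ∀ y, c * g.1 y = g.1 (x * y) := fun y =>
          DFunLike.congr_fun (congrArg Units.val (eq_mul_inv_iff_mul_eq.1 hc)) y
        rw [← t, ← mul_one x, ← t]; ring
      let σ : K →ₐ[F] K :=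
        { toFun := fun x => g.1 x / g.1 1
          map_one' := div_self z
          map_mul' := fun x y => by field_simp; exact k x y
          map_zero' := by simp
          map_add' := fun x y => by rw [map_add, add_div]
          commutes' := fun c => by rw [Algebra.algebraMap_eq_smul_one, map_smul, smul_div_assoc, div_self z] }
      have : g = Units.map ((Algebra.lmul F K : K →ₐ[F] Module.End F K) : K →* Module.End F K) (Units.mk0 _ z) *
          r (AlgEquiv.ofBijective σ σ.bijective) :=
        Units.ext (LinearMap.ext fun x => (mul_div_cancel₀ _ z).symm)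
      rw [this]
      exact mul_mem (Subgroup.mem_sup_right ⟨_, rfl⟩) (Subgroup.mem_sup_left ⟨_, rfl⟩)
    · have k : ∀ σ, ∀ x ∈ S, r σ * x * (r σ)⁻¹ ∈ S := by
        rintro σ _ ⟨c, rfl⟩
        refine ⟨Units.map (σ : K →* K) c, eq_mul_inv_of_mul_eq (Units.ext (LinearMap.ext fun x => ?_))⟩
        exact (map_mul σ _ _).symm
      rintro _ ⟨σ, rfl⟩ x
      exact ⟨k σ x, fun m => by simpa [mul_assoc] using k σ⁻¹ _ m⟩
  have d : r.range ⊓ S = ⊥ := eq_bot_iff.2 (by
    rintro _ ⟨⟨σ, rfl⟩, c, hc⟩
    have t : ∀ y, c * y = σ y := fun y => DFunLike.congr_fun (congrArg Units.val hc) y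
    have : c = 1 := Units.ext (by simpa using t 1)
    rw [← hc, this, map_one]; exact one_mem _)
  have ri : Function.Injective r := fun σ τ h => AlgEquiv.ext fun x => DFunLike.congr_fun (congrArg Units.val h) x
  haveI : Finite (Module.End F K) := .of_injective _ DFunLike.coe_injective
  have n1 : r.range ≤ Subgroup.normalizer (S : Set (Module.End F K)ˣ) := e ▸ le_sup_left
  rw [e, H7.card_sup_of_inf_eq_bot n1 d,
    ← Nat.card_congr (r.ofInjective ri).toEquiv, IsGalois.card_aut_eq_finrank, hdim,
    ← Nat.card_eq_fintype_card, ← Nat.card_units]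
  exact congrArg _ (Nat.card_congr (MonoidHom.ofInjective (Units.map_injective Algebra.lmul_injective)).toEquiv).symm

end Cfsg.Agent.S5738
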