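import Cfsg.Statements.S5739


set_option autoImplicit false
open Cfsg

namespace Cfsg.Agent.S5739

/-- Let F ⊆ K be finite fields with |F| = q and [K : F] = n ≥ 2, and let M ≤ GL_F(K) be the Singer group of multiplications by non-zero elements of K. If g ∈ GL_F(K) does not normalise M, then the order of M ∩ gMg⁻¹ divides q^r − 1 for some proper divisor r of n. In particular, when n is prime, that order divides q − 1. -/
theorem result {F K : Type*} [Field F] [Fintype F] [Field K] [Fintype K] [Algebra F K] (n : ℕ) (hn : 2 ≤ n) (hdim : Module.finrank F K = n)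
    (g : (Module.End F K)ˣ) (hg : ((Units.map ((Algebra.lmul F K : K →ₐ[F] Module.End F K) : K →* Module.End F K)).range).map (MulAut.conj g).toMonoidHom ≠ (Units.map ((Algebra.lmul F K : K →ₐ[F] Module.End F K) : K →* Module.End F K)).range) :
    ∃ r : ℕ, 1 ≤ r ∧ r ∣ n ∧ r < n ∧ Nat.card ↥(((Units.map ((Algebra.lmul F K : K →ₐ[F] Module.End F K) : K →* Module.End F K)).range).map (MulAut.conj g).toMonoidHom ⊓ (Units.map ((Algebra.lmul F K : K →ₐ[F] Module.End F K) : K →* Module.End F K)).range) ∣ Fintype.card F ^ r - 1 := by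
  classical
  set μ := Units.map ((Algebra.lmul F K : K →ₐ[F] Module.End F K) : K →* Module.End F K)
  set P := μ.range.map (MulAut.conj g).toMonoidHom
  let A := (Subalgebra.centralizer F (Units.val '' (P : Set (Module.End F K)ˣ))).comap (Algebra.lmul F K)
  let E := A.toIntermediateField fun x hx =>
    A.inv_mem_of_algebraic (x := ⟨x, hx⟩) (Algebra.IsAlgebraic.isAlgebraic _)
  have m := (Module.finrank_mul_finrank F E K).trans hdim
  refine ⟨Module.finrank F E, Module.finrank_pos, ⟨_, m.symm⟩,
    lt_of_le_of_ne (Nat.le_of_dvd (by omega) ⟨_, m.symm⟩) fun h => hg ?_, ?_⟩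
  · have : E = ⊤ := IntermediateField.eq_of_le_of_finrank_eq le_top (by simp [h, hdim])
    refine Subgroup.eq_of_le_of_card_ge (fun h hh => ?_) (Subgroup.card_map_of_injective (MulAut.conj g).injective).ge
    have c : ∀ x, h.1 x = h.1 1 * x := fun x => by
      simpa [mul_comm] using congrArg (· 1) ((this ▸ IntermediateField.mem_top : x ∈ E) _ ⟨h, hh, rfl⟩)
    refine ⟨Units.mk0 (h.1 1) fun e => h.ne_zero (LinearMap.ext fun x => by rw [c, e, zero_mul]; rfl),
      Units.ext (LinearMap.ext fun x => (c x).symm)⟩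
  · haveI := Fintype.ofFinite E
    rw [← Module.card_eq_pow_finrank, ← Fintype.card_units, ← Nat.card_eq_fintype_card]
    refine (Subgroup.card_dvd_of_le (K := (μ.comp (Units.map (E.val : E →* K))).range) ?_).trans
      (Subgroup.card_range_dvd _)
    rintro _ ⟨⟨_, ⟨b, rfl⟩, e⟩, a, rfl⟩
    refine ⟨Units.mk0 ⟨a, ?_⟩ fun h => a.ne_zero (congrArg Subtype.val h), congrArg μ (Units.ext rfl)⟩
    rintro _ ⟨_, ⟨_, ⟨c, rfl⟩, rfl⟩, rfl⟩
    refine congrArg Units.val (?_ : _ * μ a = μ a * _)
    rw [← e, ← map_mul, ← map_mul, ← map_mul, ← map_mul, mul_comm]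

end Cfsg.Agent.S5739
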