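import Cfsg.Statements.S5746
import Cfsg.Agent.H0.EG24J.Main
import Cfsg.Agent.H0.IG24
import Cfsg.Agent.H0.Ico5


set_option autoImplicit false
open Cfsg

namespace Cfsg.Agent.S5746

/-- The Chevalley group G₂(4) (over the field with 4 elements) has a maximal subgroup H isomorphic to the Hall–Janko group J₂ such that for every x outside H the intersection H ∩ xHx⁻¹ is a maximal subgroup of H; that is, the action of G₂(4) on the cosets of H is extremely primitive. -/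
theorem result {F : Type*} [Field F] [Fintype F] (hF : Fintype.card F = 4) :
    ∃ H : Subgroup (Cfsg.Lie.chevG2.group F), IsCoatom H ∧ Cfsg.Spor.IsoJ2 H ∧
      ∀ x : Cfsg.Lie.chevG2.group F, x ∉ H → IsCoatom ((H ⊓ H.map (MulAut.conj x).toMonoidHom).subgroupOf H) := by
  obtain ⟨f⟩ := H0.IG24.iso
  let e := f.trans (H0.chevEquiv (H0.fe H0.G4 hF H0.c4) _)
  let m := (H0.MG24.m (H0.Pres.pg _ _)).map e
  have hb := (H0.MG24.m (H0.Pres.pg _ _)).map_base e (H0.MG24.base (H0.Pres.pg _ _))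
  have hc := (Nat.card_congr e.toEquiv).symm.trans (H0.MG24.card (H0.Pres.pg _ _))
  have := Nat.finite_of_card_ne_zero (hc.trans_ne (by decide))
  have ht := ((H0.MG24.m (H0.Pres.pg _ _)).map_orb e 0).trans (H0.MG24.trans (H0.Pres.pg _ _))
  obtain ⟨j⟩ := H0.Ico.iso
  obtain ⟨g⟩ := H0.EG24J.U_iso m rfl hb hc
  have h := H0.eq_of_card (H0.EG24J.U_fix m rfl) ⟨g⟩ (H0.MJ2p.card (H0.Pres.pg _ _)) (m.card_stab ht hc (by decide)) (by decide)
  have o1 := h ▸ H0.EG24J.o1 m rfl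
  have o2 := h ▸ H0.EG24J.o2 m rfl
  refine ⟨m.pst [0], ?_, ⟨(MulEquiv.subgroupCongr h.symm).trans (g.symm.trans j)⟩, fun x hx => ?_⟩
  · exact H0.Model.map_pst _ e _ ▸ (OrderIso.isCoatom_iff e.mapSubgroup _).2 (H0.MG24.coatom _)
  rw [m.pst_conj, Subgroup.inf_subgroupOf_left]
  have h1 : m.φ x 0 ∈ Set.Ico 0 (0 + 416) := ht.le ⟨x, trivial, rfl⟩
  have h2 : m.φ x 0 ≠ 0 := fun h => hx (by simpa [H0.Model.mem_pst] using h)
  by_cases h3 : m.φ x 0 < 101
  · exact m.coat_orb (H0.EG24J.p1 m rfl hb hc o1) (o1.ge ⟨by omega, h3⟩)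
  · exact m.coat_orb (H0.EG24J.p2 m rfl hb hc o2) (o2.ge ⟨by omega, h1.2⟩)

end Cfsg.Agent.S5746
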