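import Cfsg.Statements.S5747
-- import your own Cfsg.Agent.* helpers here

set_option autoImplicit false
open Cfsg

namespace Cfsg.Agent.S5747

section Aux
variable (G : Type*) {Ω : Type*} [Group G] [MulAction G Ω]

/-- pointwise stabiliser of the set is trivial -/
def Bas (B : Set Ω) : Prop := ∀ g : G, (∀ x ∈ B, g • x = x) → g = 1

/-- each point is moved by an element fixing the other points -/
def Indp (B : Set Ω) : Prop := ∀ x ∈ B, ∃ g : G, (∀ y ∈ B, y ≠ x → g • y = y) ∧ g • x ≠ x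

/-- irredundant sequence -/
def Irr {t : ℕ} (f : Fin t → Ω) : Prop :=
  ∀ i : Fin t, ∃ g : G, (∀ j : Fin t, j < i → g • f j = f j) ∧ g • f i ≠ f i

variable {G}

theorem bas_iff {t : ℕ} (f : Fin t → Ω) :
    (∀ g : G, (∀ i : Fin t, g • f i = f i) → g = 1) ↔ Bas G (Set.range f) := by
  constructor
  · intro h g hg
    exact h g fun i => hg _ ⟨i, rfl⟩
  · intro h g hg
    apply h g
    rintro _ ⟨i, rfl⟩
    exact hg i

theorem Irr.inj {t : ℕ} {f : Fin t → Ω} (h : Irr G f) : Function.Injective f := by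
  intro i j hij
  by_contra hne
  rcases lt_or_gt_of_ne hne with hlt | hlt
  · obtain ⟨g, hg, hg'⟩ := h j
    exact hg' (hij ▸ hg i hlt)
  · obtain ⟨g, hg, hg'⟩ := h i
    exact hg' (hij ▸ hg j hlt)

theorem irr_of_indp {t : ℕ} {f : Fin t → Ω} (hf : Function.Injective f)
    (h : Indp G (Set.range f)) : Irr G f := by
  intro i
  obtain ⟨g, hg, hg'⟩ := h _ ⟨i, rfl⟩
  exact ⟨g, fun j hj => hg _ ⟨j, rfl⟩ (fun e => hj.ne (hf e)), hg'⟩

theorem exists_enum [Finite Ω] (S : Set Ω) :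
    ∃ f : Fin S.ncard → Ω, Function.Injective f ∧ Set.range f = S := by
  have e : S ≃ Fin S.ncard := (Finite.equivFin S).trans (finCongr (Nat.card_coe_set_eq S))
  refine ⟨fun i => (e.symm i : Ω), Subtype.val_injective.comp e.symm.injective, ?_⟩
  ext x
  constructor
  · rintro ⟨i, rfl⟩
    exact (e.symm i).2
  · intro hx
    exact ⟨e ⟨x, hx⟩, by simp⟩

theorem Irr.snoc {t : ℕ} {f : Fin t → Ω} (h : Irr G f) (y : Ω) (g : G)
    (hg : ∀ x ∈ Set.range f, g • x = x) (hy : g • y ≠ y) :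
    Irr G (Fin.snoc f y : Fin (t + 1) → Ω) := by
  intro i
  induction i using Fin.lastCases with
  | last =>
    refine ⟨g, fun j hj => ?_, by simpa using hy⟩
    obtain ⟨k, rfl⟩ := Fin.exists_castSucc_eq.mpr hj.ne
    simp only [Fin.snoc_castSucc]
    exact hg _ ⟨k, rfl⟩
  | cast i =>
    obtain ⟨g', hg1, hg2⟩ := h i
    refine ⟨g', fun j hj => ?_, by simpa using hg2⟩
    obtain ⟨k, rfl⟩ := Fin.exists_castSucc_eq.mpr (hj.trans (Fin.castSucc_lt_last i)).ne
    simp only [Fin.snoc_castSucc]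
    exact hg1 k (Fin.castSucc_lt_castSucc_iff.mp hj)

theorem Indp.mono {A B : Set Ω} (h : Indp G B) (hA : A ⊆ B) : Indp G A := by
  intro x hx
  obtain ⟨g, hg, hg'⟩ := h x (hA hx)
  exact ⟨g, fun y hy => hg y (hA hy), hg'⟩

theorem exists_min [Finite Ω] (n : ℕ) : ∀ B : Set Ω, B.ncard = n → Bas G B →
    ∃ S : Set Ω, S.ncard ≤ n ∧ Bas G S ∧ Indp G S ∧ (S.ncard = n → Indp G B) := by
  induction n using Nat.strong_induction_on with
  | _ n ih =>
    intro B hB hb
    by_cases hi : Indp G B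
    · exact ⟨B, hB.le, hb, hi, fun _ => hi⟩
    · have hi' := hi
      unfold Indp at hi'
      push Not at hi'
      obtain ⟨x, hx, hxx⟩ := hi'
      have hlt : (B \ {x}).ncard < n := hB ▸ Set.ncard_diff_singleton_lt_of_mem hx
      have hb' : Bas G (B \ {x}) := by
        intro g hg
        apply hb g
        intro y hy
        by_cases hyx : y = x
        · subst hyx
          exact hxx g fun z hz hzy => hg z ⟨hz, hzy⟩
        · exact hg y ⟨hy, hyx⟩
      obtain ⟨S, h1, h2, h3, -⟩ := ih _ hlt _ rfl hb'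
      exact ⟨S, by omega, h2, h3, fun e => by omega⟩

theorem indp_of_reorder
    (H : ∀ (t : ℕ) (f : Fin t → Ω) (σ : Equiv.Perm (Fin t)), Bas G (Set.range f) → Irr G f →
      Irr G (f ∘ σ))
    {t : ℕ} {f : Fin t → Ω} (hb : Bas G (Set.range f)) (hf : Irr G f) :
    Indp G (Set.range f) := by
  rintro _ ⟨i, rfl⟩
  cases t with
  | zero => exact i.elim0
  | succ s =>
    obtain ⟨g, hg, hg'⟩ := H _ f (Equiv.swap i (Fin.last s)) hb hf (Fin.last s)
    refine ⟨g, ?_, by simpa using hg'⟩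
    rintro _ ⟨k, rfl⟩ hk
    have hki : k ≠ i := fun e => hk (by rw [e])
    have h1 : Equiv.swap i (Fin.last s) k ≠ Fin.last s := by
      intro e
      apply hki
      have := congrArg (Equiv.swap i (Fin.last s)) e
      simpa using this
    have := hg _ (lt_of_le_of_ne (Fin.le_last _) h1)
    simpa using this

theorem exch [Finite Ω]
    (H : ∀ (t : ℕ) (f : Fin t → Ω) (σ : Equiv.Perm (Fin t)), Bas G (Set.range f) → Irr G f →
      Irr G (f ∘ σ)) :
    Matroid.ExchangeProperty (fun B : Set Ω => Bas G B ∧ Indp G B) := by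
  rintro X Y ⟨hX, hXi⟩ ⟨hY, -⟩ x ⟨hx, hxY⟩
  obtain ⟨g, hg, hgx⟩ := hXi x hx
  have hg1 : g ≠ 1 := fun e => hgx (by simp [e])
  have : ∃ y ∈ Y, g • y ≠ y := by
    by_contra hc
    push Not at hc
    exact hg1 (hY g hc)
  obtain ⟨y, hy, hgy⟩ := this
  have hyX : y ∉ X := fun h => hgy (hg y h (fun e => hxY (e ▸ hy)))
  obtain ⟨f, hf, hr⟩ := exists_enum (X \ {x})
  have hfi : Irr G f := irr_of_indp hf (hr.symm ▸ hXi.mono Set.diff_subset)
  have h1 : Irr G (Fin.snoc f y : Fin (_ + 1) → Ω) :=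
    hfi.snoc y g (fun z hz => by rw [hr] at hz; exact hg z hz.1 hz.2) hgy
  have hr1 : Set.range (Fin.snoc f y : Fin (_ + 1) → Ω) = insert y (X \ {x}) := by
    rw [Fin.range_snoc, hr]
  have hb : Bas G (insert y (X \ {x})) := by
    intro h hh
    by_contra hne
    have hhx : h • x ≠ x := by
      intro e
      apply hne
      apply hX h
      intro z hz
      by_cases hzx : z = x
      · rw [hzx, e]
      · exact hh z (Or.inr ⟨hz, hzx⟩)
    have h2 := h1.snoc x h (fun z hz => by rw [hr1] at hz; exact hh z hz) hhx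
    have hsub : X ⊆ Set.range (Fin.snoc (Fin.snoc f y : Fin (_ + 1) → Ω) x : Fin (_ + 1) → Ω) := by
      rw [Fin.range_snoc, hr1]
      intro z hz
      by_cases hzx : z = x
      · exact Or.inl hzx
      · exact Or.inr (Or.inr ⟨hz, hzx⟩)
    have hb2 : Bas G (Set.range
        (Fin.snoc (Fin.snoc f y : Fin (_ + 1) → Ω) x : Fin (_ + 1) → Ω)) :=
      fun k hk => hX k fun z hz => hk z (hsub hz)
    have h3 := indp_of_reorder H hb2 h2
    obtain ⟨k, hk, hk'⟩ := h3 y (by rw [Fin.range_snoc, hr1]; exact Or.inr (Or.inl rfl))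
    have : k = 1 := hX k fun z hz => hk z (hsub hz) (fun e => hyX (e ▸ hz))
    exact hk' (by simp [this])
  refine ⟨y, ⟨hy, hyX⟩, hb, ?_⟩
  rw [← hr1] at hb ⊢
  exact indp_of_reorder H hb h1

theorem ncard_range {t : ℕ} {f : Fin t → Ω} (hf : Function.Injective f) :
    (Set.range f).ncard = t := by
  rw [Set.ncard_range_of_injective hf]; simp

end Aux

/-- Let a finite group G act on a finite set Ω. An irredundant base is a sequence of points ω₁, …, ω_t whose pointwise stabiliser is trivial and in which each ω_i is moved by some element fixing ω₁, …, ω_{i−1}. Then all irredundant bases have the same length if and only if every reordering of an irredundant base is again an irredundant base. -/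
theorem result {G Ω : Type*} [Group G] [Finite G] [MulAction G Ω] [Fintype Ω] :
    (∀ (t t' : ℕ) (f : Fin t → Ω) (f' : Fin t' → Ω), ((∀ g : G, (∀ i : Fin t, g • f i = f i) → g = 1) ∧ ∀ i : Fin t, ∃ g : G, (∀ j : Fin t, j < i → g • f j = f j) ∧ g • f i ≠ f i) → ((∀ g : G, (∀ i : Fin t', g • f' i = f' i) → g = 1) ∧ ∀ i : Fin t', ∃ g : G, (∀ j : Fin t', j < i → g • f' j = f' j) ∧ g • f' i ≠ f' i) → t = t') ↔
    (∀ (t : ℕ) (f : Fin t → Ω) (σ : Equiv.Perm (Fin t)), ((∀ g : G, (∀ i : Fin t, g • f i = f i) → g = 1) ∧ ∀ i : Fin t, ∃ g : G, (∀ j : Fin t, j < i → g • f j = f j) ∧ g • f i ≠ f i) → ((∀ g : G, (∀ i : Fin t, g • (f ∘ σ) i = (f ∘ σ) i) → g = 1) ∧ ∀ i : Fin t, ∃ g : G, (∀ j : Fin t, j < i → g • (f ∘ σ) j = (f ∘ σ) j) ∧ g • (f ∘ σ) i ≠ (f ∘ σ) i)) := by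
  constructor
  · intro H t f σ ⟨hb, hf⟩
    have hb' := (bas_iff f).1 hb
    have hinj := Irr.inj (G := G) hf
    obtain ⟨S, -, h2, h3, h4⟩ := exists_min t _ (ncard_range hinj) hb'
    obtain ⟨e, he, hr⟩ := exists_enum S
    have := H _ _ e f ⟨(bas_iff e).2 (hr.symm ▸ h2), irr_of_indp he (hr.symm ▸ h3)⟩ ⟨hb, hf⟩
    have hr2 : Set.range (f ∘ σ) = Set.range f := σ.surjective.range_comp f
    exact ⟨(bas_iff _).2 (hr2.symm ▸ hb'),
      irr_of_indp (hinj.comp σ.injective) (hr2.symm ▸ h4 this)⟩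
  · intro H t t' f f' ⟨hb, hf⟩ ⟨hb', hf'⟩
    have H' : ∀ (t : ℕ) (f : Fin t → Ω) (σ : Equiv.Perm (Fin t)), Bas G (Set.range f) →
        Irr G f → Irr G (f ∘ σ) := fun t f σ h1 h2 => (H t f σ ⟨(bas_iff f).2 h1, h2⟩).2
    have h1 := (bas_iff f).1 hb
    have h2 := (bas_iff f').1 hb'
    have := (exch H').encard_isBase_eq ⟨h1, indp_of_reorder H' h1 hf⟩
      ⟨h2, indp_of_reorder H' h2 hf'⟩
    rw [← ncard_range (Irr.inj (G := G) hf), ← ncard_range (Irr.inj (G := G) hf')]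
    unfold Set.ncard
    rw [this]

end Cfsg.Agent.S5747
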