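import Cfsg.Statements.S5748
import Cfsg.Agent.H9.SL2c
import Cfsg.Agent.S0205

set_option autoImplicit false
open Cfsg

namespace Cfsg.Agent.S5748
open H9 H3 MonoidAlgebra
open scoped Pointwise
set_option linter.style.haveILetI false
set_option linter.unusedVariables false
open Subgroup

/-- A finite non-abelian simple group in which commuting is a transitive relation on the non-identity elements (equivalently, every non-identity element has abelian centraliser) is isomorphic to PSL₂ over a field with 2^f elements for some f ≥ 2; conversely these groups have that property. -/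
theorem result {G : Type*} [Group G] [Finite G] [IsSimpleGroup G] (hG : ¬ IsMulCommutative G) :
    (∀ a b c : G, a ≠ 1 → b ≠ 1 → c ≠ 1 → Commute a b → Commute b c → Commute a c) ↔
    ∃ (F : Type) (_ : Field F) (_ : Fintype F) (f : ℕ), 2 ≤ f ∧ Fintype.card F = 2 ^ f ∧ Nonempty (G ≃* Matrix.ProjectiveSpecialLinearGroup (Fin 2) F) := by
  refine ⟨fun h => ?_, fun ⟨F, _, _, f, hf, hF, ⟨e⟩⟩ a b c _ hb _ h1 h2 => ?_⟩
  · have hZ : center G = ⊥ := (IsSimpleGroup.eq_bot_or_eq_top_of_normal _ inferInstance).resolve_right fun e =>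
      hG ⟨⟨fun a b => mem_center_iff.1 (e.ge trivial) a⟩⟩
    have ev : 2 ∣ Nat.card G := by
      by_contra h2
      haveI := Cfsg.Agent.S0205.result (G := G) (Nat.odd_iff.2 (by omega))
      exact hG ⟨⟨IsSimpleGroup.comm_iff_isSolvable.2 this⟩⟩
    obtain ⟨P⟩ : Nonempty (Sylow 2 G) := inferInstance
    have P1 : (P : Subgroup G) ≠ ⊥ := P.ne_bot_of_dvd_card ev
    have P2 : (P : Subgroup G) ≠ ⊤ := fun e => by
      have hp : IsPGroup 2 G := (e ▸ P.2 : IsPGroup 2 (⊤ : Subgroup G)).of_equiv topEquiv
      haveI := hp.center_nontrivial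
      rw [hZ] at this
      exact not_nontrivial _ this
    obtain ⟨n, n2, -, e⟩ := sl2_of_ac (fun t ht => ⟨⟨fun a b => Subtype.ext (by
      by_cases ha : (a : G) = 1
      · simp [ha]
      by_cases hb : (b : G) = 1
      · simp [hb]
      exact h a t b ha (fun e => by simp [e] at ht) hb (mem_centralizer_singleton_iff.1 a.2)
        (mem_centralizer_singleton_iff.1 b.2).symm)⟩⟩) P (fun hc => by
      have m : (Nat.card G).minFac = 2 := (Nat.minFac_eq_two_iff _).2 ev
      have c := hc.isComplement' m
      rcases IsSimpleGroup.eq_bot_or_eq_top_of_normal _ (MonoidHom.normal_ker (MonoidHom.transferSylow P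
        (hc.normalizer_le_centralizer m))) with e | e
      · exact P2 (by simpa [e] using c.sup_eq_top)
      · exact P1 (by simpa [e] using c.disjoint))
      (fun hn => (IsSimpleGroup.eq_bot_or_eq_top_of_normal _ hn).elim P1 P2) hZ
    haveI := Fintype.ofFinite (GaloisField 2 n)
    exact ⟨_, inferInstance, this, n, n2, by rw [← Nat.card_eq_fintype_card, GaloisField.card 2 n (by omega)], e⟩
  · haveI : Fact (Nat.Prime 2) := ⟨Nat.prime_two⟩
    haveI : CharP F 2 := charP_of_card_eq_prime_pow hF
    obtain ⟨e'⟩ := H8.psl_equiv_sl F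
    let φ := e.trans e'
    exact (sl2_comm ((map_ne_one_iff φ φ.injective).2 hb) (h1.map φ) (h2.map φ)).of_map φ.injective

end Cfsg.Agent.S5748
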