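import Cfsg.Statements.S5754
import Cfsg.Agent.H4.Disc

set_option autoImplicit false
open Cfsg

namespace Cfsg.Agent.S5754


/-- Let V be a finite-dimensional vector space over a finite field F carrying an anisotropic quadratic form Q (Q(v) = 0 only for v = 0). Then the group of all maps v ↦ φ(v) + c, with φ an isometry of Q and c ∈ V, acts on V as a binary permutation group: given n ≥ 2 and two n-tuples u, u' of vectors such that every pair of corresponding entries of u is carried to that of u' by such a map, one such map carries u to u'. -/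
theorem result {F V : Type*} [Field F] [Finite F] [AddCommGroup V] [Module F V] [Module.Finite F V]
    (Q : QuadraticForm F V) (hQ : Q.Anisotropic) (n : ℕ) (hn : 2 ≤ n) (u u' : Fin n → V)
    (h2 : ∀ i j : Fin n, i ≠ j → ∃ (φ : Q.IsometryEquiv Q) (c : V), φ (u i) + c = u' i ∧ φ (u j) + c = u' j) :
    ∃ (φ : Q.IsometryEquiv Q) (c : V), ∀ i, φ (u i) + c = u' i := by
  let f := H4.quadForm Q
  let z : Fin n := ⟨0, by omega⟩
  have hQ2 : ∀ i j, Q (u i - u j) = Q (u' i - u' j) := fun i j => by
    by_cases h : i = j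
    · simp [h]
    · obtain ⟨φ, c, h3, h4⟩ := h2 i j h
      rw [← h3, ← h4, add_sub_add_right_eq_sub, ← map_sub, φ.map_app]
  have hB : ∀ i j, f.B (u i - u z) (u j - u z) = f.B (u' i - u' z) (u' j - u' z) := fun i j => by
    have e : ∀ x y, f.B x y = f.Q x + f.Q y - f.Q (x - y) := fun x y => by
      rw [f.Q_sub]; simp
    rw [e, e, sub_sub_sub_cancel_right, sub_sub_sub_cancel_right]
    exact congrArg₂ (· - ·) (congrArg₂ (· + ·) (hQ2 _ _) (hQ2 _ _)) (hQ2 _ _)
  have key : ∀ s : Finset (Fin n), ∃ g : f.Isom, ∀ i ∈ s, g.1 (u i - u z) = u' i - u' z := by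
    intro s
    induction s using Finset.induction_on with
    | empty => exact ⟨1, by simp⟩
    | insert k s _ ih =>
      obtain ⟨g, hg⟩ := ih
      by_cases h : g.1 (u k - u z) = u' k - u' z
      · exact ⟨g, Finset.forall_mem_insert _ _ _ |>.2 ⟨h, hg⟩⟩
      have hv : f.Q (g.1 (u k - u z) - (u' k - u' z)) ≠ 0 := fun e => h (sub_eq_zero.1 (hQ _ e))
      refine ⟨f.reflx _ hv * g, fun i hi => ?_⟩
      rw [H4.Form.isom_mul_apply]
      rcases Finset.mem_insert.1 hi with rfl | hi
      · have e : f.B (g.1 (u i - u z) - (u' i - u' z)) (g.1 (u i - u z)) =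
            f.Q (g.1 (u i - u z) - (u' i - u' z)) := by
          rw [f.Q_sub, H4.Form.isom_Q, show f.Q (u' i - u' z) = f.Q (u i - u z) from (hQ2 _ _).symm,
            map_sub, LinearMap.sub_apply, H4.quad_B_self, H4.Form.isom_Q, H4.quad_symm]
          simp only [H4.quadKind_T]; ring
        rw [H4.Form.reflx_apply, e, inv_mul_cancel₀ hv, one_smul, sub_sub_cancel]
      · rw [hg i hi, H4.reflx_fix hv]
        rw [map_sub f.B, LinearMap.sub_apply, ← hB, ← hg i hi, H4.Form.isom_B, sub_self]
  obtain ⟨g, hg⟩ := key Finset.univ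
  refine ⟨⟨g.1, fun x => H4.Form.isom_Q g x⟩, u' z - g.1 (u z), fun i => ?_⟩
  change g.1 (u i) + _ = _
  rw [add_sub, add_comm, add_sub_assoc, ← map_sub, hg i (Finset.mem_univ _), add_sub_cancel]

end Cfsg.Agent.S5754
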