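import Cfsg.Statements.S5763
import Mathlib

set_option autoImplicit false
open Cfsg

namespace Cfsg.Agent.S5763
open Equiv

def H0 : Subgroup (Perm (Fin 8)) where
  carrier := {σ | ∀ i j : Fin 8, ((σ i).1 / 2 = (σ j).1 / 2 ↔ i.1 / 2 = j.1 / 2) ∧ ((σ i).1 / 4 = (σ j).1 / 4 ↔ i.1 / 4 = j.1 / 4)}
  one_mem' := fun _ _ => ⟨Iff.rfl, Iff.rfl⟩
  mul_mem' := fun {a b} ha hb i j => ⟨(ha _ _).1.trans (hb i j).1, (ha _ _).2.trans (hb i j).2⟩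
  inv_mem' := fun {a} ha i j => by
    have := ha (a⁻¹ i) (a⁻¹ j)
    simp only [Perm.coe_inv, apply_symm_apply] at this
    exact ⟨this.1.symm, this.2.symm⟩

theorem H0_p : IsPGroup 2 H0 := fun ⟨σ, h⟩ => ⟨3, Subtype.ext (by
  have h2 := H0.mul_mem h h
  have h4 := H0.mul_mem h2 h2
  have a1 : ∀ i, ((σ * σ) i).1 / 4 = i.1 / 4 := fun i => by
    have := (h i (σ i)).2
    have := i.2; have := (σ i).2; have := (σ (σ i)).2
    show (σ (σ i)).1 / 4 = _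
    omega
  have a2 : ∀ i, ((σ * σ * (σ * σ)) i).1 / 2 = i.1 / 2 := fun i => by
    have := (h2 i ((σ * σ) i)).1
    have := a1 i; have := a1 ((σ * σ) i)
    show ((σ * σ) ((σ * σ) i)).1 / 2 = _
    omega
  show σ ^ 2 ^ 3 = 1
  rw [show σ ^ 2 ^ 3 = σ * σ * (σ * σ) * (σ * σ * (σ * σ)) by simp [pow_succ, mul_assoc]]
  generalize σ * σ * (σ * σ) = τ at a2
  ext i
  have h1 := a2 i; have h3 := a2 (τ i)
  have h5 : (τ (τ i)).1 = (τ i).1 → (τ i).1 = i.1 := fun e => congrArg Fin.val (τ.injective (Fin.ext e))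
  have h6 : (τ i).1 = i.1 → (τ (τ i)).1 = (τ i).1 := fun e => congrArg (fun x => (τ x).1) (Fin.ext e)
  show (τ (τ i)).1 = i.1
  omega)⟩

def L : List (List ℕ) := [[1, 0, 3, 2, 5, 4, 7, 6], [1, 0, 3, 2, 6, 7, 4, 5], [1, 0, 3, 2, 7, 6, 5, 4], [0, 1, 2, 3, 4, 5, 7, 6], [0, 1, 2, 3, 5, 4, 6, 7], [0, 1, 3, 2, 4, 5, 6, 7], [1, 0, 2, 3, 4, 5, 6, 7], [4, 5, 6, 7, 0, 1, 2, 3], [4, 5, 7, 6, 0, 1, 3, 2], [5, 4, 6, 7, 1, 0, 2, 3], [5, 4, 7, 6, 1, 0, 3, 2], [6, 7, 4, 5, 2, 3, 0, 1], [6, 7, 5, 4, 3, 2, 0, 1], [7, 6, 4, 5, 2, 3, 1, 0], [7, 6, 5, 4, 3, 2, 1, 0]]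

def hf (l : List ℕ) (i : Fin 8) : Fin 8 := Fin.ofNat 8 (l.getD i 0)

def ok (u l : List ℕ) : Bool := (List.range 8).all fun p => (List.range 8).all fun q =>
  (Nat.beq (u.getD (l.getD p 0 % 8) 0) (u.getD (l.getD q 0 % 8) 0) == Nat.beq (u.getD p 0) (u.getD q 0)) &&
  (Nat.beq (u.getD (l.getD p 0 % 8) 0 / 2) (u.getD (l.getD q 0 % 8) 0 / 2) == Nat.beq (u.getD p 0 / 2) (u.getD q 0 / 2))

theorem L_ok : ∀ l ∈ L, (∀ i, hf l (hf l i) = i) ∧ (∃ i, hf l i ≠ i) ∧ ∀ i j : Fin 8,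
    ((hf l i).1 / 2 = (hf l j).1 / 2 ↔ i.1 / 2 = j.1 / 2) ∧ ((hf l i).1 / 4 = (hf l j).1 / 4 ↔ i.1 / 4 = j.1 / 4) := by
  decide +kernel

def R : List ℕ := [0, 1, 2, 3]

theorem main : (R.all fun a => R.all fun b => R.all fun c => R.all fun d => R.all fun e => R.all fun f => R.all fun g =>
    R.all fun h => !(Nat.beq (16 ^ a + 16 ^ b + 16 ^ c + 16 ^ d + 16 ^ e + 16 ^ f + 16 ^ g + 16 ^ h) 0x2222) ||
      L.any (ok [a, b, c, d, e, f, g, h])) = true := by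
  decide +kernel

theorem key (y : Perm (Fin 8)) : ∃ h, h ≠ 1 ∧ h ∈ H0 ∧ y * h * y⁻¹ ∈ H0 := by
  have m := main
  simp only [List.all_eq_true] at m
  have r : ∀ i : Fin 8, i.1 / 2 ∈ R := by decide
  have h1 := m _ (r (y 0)) _ (r (y 1)) _ (r (y 2)) _ (r (y 3)) _ (r (y 4)) _ (r (y 5)) _ (r (y 6)) _ (r (y 7))
  have h2 : ∑ i, 16 ^ ((y i).1 / 2) = 0x2222 := by
    rw [Equiv.sum_comp y fun j => 16 ^ (j.1 / 2)]; decide
  rw [Fin.sum_univ_eight] at h2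
  rw [h2] at h1
  obtain ⟨l, hl, h3⟩ := List.any_eq_true.1 (by simpa using h1 : L.any (ok _) = true)
  obtain ⟨k1, ⟨i, k2⟩, k3⟩ := L_ok l hl
  refine ⟨Function.Involutive.toPerm (hf l) k1, fun e => k2 (congrArg (· i) e), k3, fun p q => ?_⟩
  have u : ∀ i : Fin 8, [(y 0).1 / 2, (y 1).1 / 2, (y 2).1 / 2, (y 3).1 / 2, (y 4).1 / 2, (y 5).1 / 2, (y 6).1 / 2,
      (y 7).1 / 2].getD i 0 = (y i).1 / 2 := fun i => by fin_cases i <;> rfl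
  obtain ⟨p, rfl⟩ := y.surjective p
  obtain ⟨q, rfl⟩ := y.surjective q
  simp only [ok, List.all_eq_true, List.mem_range, Bool.and_eq_true, beq_iff_eq] at h3
  have h4 := h3 p p.2 q q.2
  rw [show l.getD p 0 % 8 = (hf l p).1 from rfl, show l.getD q 0 % 8 = (hf l q).1 from rfl, u, u, u, u] at h4
  have h5 := Bool.eq_iff_iff.1 h4.1
  have h6 := Bool.eq_iff_iff.1 h4.2
  simp only [Nat.beq_eq, Nat.div_div_eq_div_mul] at h5 h6
  simp only [Perm.coe_mul, Function.comp_apply, Perm.coe_inv, symm_apply_apply]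
  exact ⟨h5, h6⟩


/-- In the symmetric group on 8 letters any two Sylow 2-subgroups have non-trivial intersection: for a Sylow 2-subgroup H and every element x, H ∩ xHx⁻¹ ≠ 1. -/
theorem result (H : Sylow 2 (Equiv.Perm (Fin 8))) (x : Equiv.Perm (Fin 8)) :
    (H : Subgroup (Equiv.Perm (Fin 8))) ⊓ (H : Subgroup (Equiv.Perm (Fin 8))).map (MulAut.conj x).toMonoidHom ≠ ⊥ := by
  obtain ⟨P, hP⟩ := H0_p.exists_le_sylow
  obtain ⟨g, rfl⟩ := MulAction.exists_smul_eq (Perm (Fin 8)) P H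
  obtain ⟨h, h1, h2, h3⟩ := key (g⁻¹ * x⁻¹ * g)
  have m : ∀ a ∈ H0, g * a * g⁻¹ ∈ ((g • P : Sylow 2 _) : Subgroup (Perm (Fin 8))) := fun a ha => by
    rw [Sylow.coe_subgroup_smul]
    exact Subgroup.smul_mem_pointwise_smul a (MulAut.conj g) _ (hP ha)
  intro e
  have : g * h * g⁻¹ ∈ (⊥ : Subgroup (Perm (Fin 8))) := by
    rw [← e]
    exact ⟨m h h2, _, m _ h3, by simp [mul_assoc]⟩
  exact h1 (by simpa using this)

end Cfsg.Agent.S5763
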