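import Cfsg.Statements.S5890
import Cfsg.Agent.H4.Max3

set_option autoImplicit false
open Cfsg

namespace Cfsg.Agent.S5890


/-- Let F be a finite field with q ≥ 4 elements, let L ≤ PGL₂(F) be the image of SL₂(F) (a copy of PSL₂(F), of index gcd(2, q − 1)), and let M be a maximal subgroup of PGL₂(F) that does not contain L. Suppose q ∉ {7, 9, 11} and that q is not a prime congruent to ±11 or ±19 modulo 40. Then M ∩ L is a maximal subgroup of L. (For the excluded q there are maximal subgroups of PGL₂(q) — dihedral groups of order 12 and 16 at q = 7, of order 20 and 16 at q = 9, of order 20 at q = 11, and S₄ at the excluded primes — whose intersection with L is not maximal in L.) -/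
theorem result {F : Type*} [Field F]
    [Fintype F] (h4 : 4 ≤ Fintype.card F) (h7 : Fintype.card F ≠ 7) (h9 : Fintype.card F ≠ 9) (h11 : Fintype.card F ≠ 11)
    (h40 : (Fintype.card F).Prime → Fintype.card F % 40 ∉ ({11, 19, 21, 29} : Finset ℕ))
    (M : Subgroup (Matrix.ProjGenLinGroup (Fin 2) F)) (hM : IsCoatom M)
    (hML : ¬ (Matrix.ProjGenLinGroup.mk.comp Matrix.SpecialLinearGroup.toGL).range ≤ M) :
    IsCoatom ((M ⊓ (Matrix.ProjGenLinGroup.mk.comp Matrix.SpecialLinearGroup.toGL).range).subgroupOf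
      (Matrix.ProjGenLinGroup.mk.comp Matrix.SpecialLinearGroup.toGL).range) := by
  classical
  rw [← Nat.card_eq_fintype_card] at *
  obtain ⟨p, hp⟩ := CharP.exists F
  haveI : Fact p.Prime := ⟨CharP.char_is_prime F p⟩
  have hLe : (Matrix.ProjGenLinGroup.mk.comp Matrix.SpecialLinearGroup.toGL).range = H4.Lsub F :=
    H4.Lsub_eq.symm
  rw [hLe] at hML ⊢
  have hM' := hM.covBy_top
  refine H4.isCoatom_comap_of_covBy (H4.Lsub F).subtype_injective ?_
  rw [Subgroup.range_subtype]
  rcases Nat.even_or_odd (Nat.card F) with hq | hodd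
  · rw [H4.Lsub_eq_top hq, inf_top_eq]; exact hM'
  have ho := Nat.odd_iff.1 hodd
  have hd := H4.gcd_two_of_odd hodd
  have hL2 : ¬ M ≤ H4.Lsub F := fun h => hML (hM'.h4_eq h le_top (fun e => by
    have := H4.index_Lsub (K := F)
    rw [e, Subgroup.index_top, hd] at this
    omega)).ge
  rcases H4.max_cases (p := p) le_top hM' hML (by omega) with
    ⟨x, h⟩ | ⟨x, y, n, h, h'⟩ | ⟨k, m, r, hr, hk, h⟩ | ⟨h1, h2, h3, h4, h6⟩ | ⟨h1, h2, h3⟩ |
      ⟨-, h2, h3⟩
  · rw [h, inf_top_eq]; exact H4.borel_covBy x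
  · rw [inf_top_eq] at h'
    rw [h']
    refine h.covBy ?_
    have h1 := h.card_D
    rw [← h'] at h1
    have h2 := h.cases
    rw [hd]
    by_contra h3
    have e : Nat.card F = 5 := by omega
    have e' : n = 4 := by omega
    obtain ⟨φ, hφ⟩ := H4.exists_s4 (H4.two_ne_zero_iff_odd.2 hodd)
    obtain ⟨m, hm⟩ := H4.D_le_cj (A := ⊤) h hφ le_top (t := H4.s4a * H4.s4b)
      (w := (H4.s4a * H4.s4b) * (H4.s4a * H4.s4b) * Equiv.swap 0 2)
      (r := 4) (by norm_num) (by decide +kernel) (by decide +kernel) (by rw [e]; decide)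
      (fun x' y' n' h2 h4 => by
        rw [inf_top_eq, h2.card_T] at h4 ⊢
        have := h2.cases
        omega)
    rw [inf_top_eq, ← h'] at hm
    have e1 : Nat.card (H2.cj m φ.range) = 24 := by
      rw [H2.card_cj, H4.card_range_of_injective hφ, H4.card_sym4]
    have := H4.eq_inf_of_covBy le_top hM' hm (H4.L_not_le_of_card' (by rw [e1, e]; decide))
    rw [inf_top_eq] at this
    rw [← this, h1.1, e'] at e1
    omega
  · rw [h, inf_top_eq, ← H4.cj_inf_normal]
    refine H4.covBy_cj (H4.sub_covBy hr hk fun e => ?_) m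
    rw [hk, e] at hodd
    exact absurd ((Nat.odd_pow_iff hr.ne_zero).1 hodd) (by decide)
  · obtain ⟨φ, hφ⟩ := H4.exists_s4 (H4.two_ne_zero_iff_odd.2 hodd)
    exact absurd le_top (h4 φ hφ)
  · obtain ⟨φ, hφ, rfl⟩ := H4.exists_hom_of_equiv h3
    have h5 := H4.card_inf_L (A := φ.range) fun _ => hL2
    rw [hd, H4.card_range_of_injective hφ, H4.card_sym4] at h5
    have hψ : Function.Injective (φ.comp (alternatingGroup _).subtype) :=
      hφ.comp (Subgroup.subtype_injective _)
    have h6 := H2.eq_of_le_of_card_le (le_inf (H4.range_comp_le _ φ)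
      (H4.a4_le_L (φ.comp (alternatingGroup _).subtype)))
      (by rw [H4.card_range_of_injective hψ, H4.card_alt4]; omega)
    rw [H4.s4_le_L_iff hφ, H4.isSquare_two_iff hodd] at hL2
    have h8 := h40 (h1 ▸ Fact.out)
    simp only [Finset.mem_insert, Finset.mem_singleton] at h8
    rw [← h6]
    exact H4.a4_covBy (h1 ▸ Fact.out) (by omega) (by omega) (by omega) hψ
  · obtain ⟨φ, hφ, h4⟩ := H4.exists_hom_of_equiv h3
    exact absurd (h4 ▸ H4.a5_le_L φ) hL2

end Cfsg.Agent.S5890
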