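import Cfsg.Statements.S5891
import Cfsg.Agent.H4.Max3

set_option autoImplicit false
open Cfsg

namespace Cfsg.Agent.S5891


/-- Let F be a finite field of odd order q > 3 and characteristic p, and let M be a maximal subgroup of PGL₂(F) not containing the image L of SL₂(F) (a copy of PSL₂(F) of index 2). Then one of the following holds: |M| = q(q − 1) (M is the stabiliser of a point of the projective line); q ≠ 5 and M is dihedral of order 2(q − 1); M is dihedral of order 2(q + 1); q = p ≡ ±3 (mod 8) and M ≅ S₄; or q = q₀^r for an odd prime r and M ≅ PGL₂(F₀) with |F₀| = q₀. -/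
theorem result {F : Type*} [Field F] [Fintype F]
    (hodd : Odd (Fintype.card F)) (h3 : 3 < Fintype.card F) (M : Subgroup (Matrix.ProjGenLinGroup (Fin 2) F)) (hM : IsCoatom M)
    (hML : ¬ (Matrix.ProjGenLinGroup.mk.comp Matrix.SpecialLinearGroup.toGL).range ≤ M) :
    Nat.card M = Fintype.card F * (Fintype.card F - 1) ∨
    (Fintype.card F ≠ 5 ∧ Nonempty (M ≃* DihedralGroup (Fintype.card F - 1))) ∨
    Nonempty (M ≃* DihedralGroup (Fintype.card F + 1)) ∨
    ((Fintype.card F).Prime ∧ (Fintype.card F % 8 = 3 ∨ Fintype.card F % 8 = 5) ∧ Nonempty (M ≃* Equiv.Perm (Fin 4))) ∨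
    (∃ (F₀ : Type) (_ : Field F₀) (_ : Fintype F₀) (r : ℕ), r.Prime ∧ Odd r ∧ Fintype.card F = Fintype.card F₀ ^ r ∧
        Nonempty (M ≃* Matrix.ProjGenLinGroup (Fin 2) F₀)) := by
  classical
  rw [← Nat.card_eq_fintype_card] at *
  obtain ⟨p, hp⟩ := CharP.exists F
  haveI : Fact p.Prime := ⟨CharP.char_is_prime F p⟩
  have hL : ¬ H4.Lsub F ≤ M := by rw [H4.Lsub_eq]; exact hML
  have hM' := hM.covBy_top
  have ho := Nat.odd_iff.1 hodd
  have hL2 : ¬ M ≤ H4.Lsub F := fun h => hL (hM'.h4_eq h le_top (fun e => by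
    have := H4.index_Lsub (K := F)
    rw [e, Subgroup.index_top, H4.gcd_two_of_odd hodd] at this
    omega)).ge
  rcases H4.max_cases (p := p) le_top hM' hL (by omega) with
    ⟨x, h⟩ | ⟨x, y, n, h, h'⟩ | ⟨k, m, r, hr, hk, h⟩ | ⟨h1, h2, h3, h4, h6⟩ | ⟨h1, h2, h3⟩ |
      ⟨-, h2, h3⟩
  · left
    rw [h, inf_top_eq, H4.card_borel]
  · rw [inf_top_eq] at h'
    have h1 := h.card_D
    rw [← h'] at h1
    rcases h.cases with rfl | rfl
    · refine Or.inr (Or.inl ⟨fun e => ?_, h1.2⟩)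
      obtain ⟨φ, hφ⟩ := H4.exists_s4 (H4.two_ne_zero_iff_odd.2 hodd)
      obtain ⟨m, hm⟩ := H4.D_le_cj (A := ⊤) h hφ le_top (t := H4.s4a * H4.s4b)
        (w := (H4.s4a * H4.s4b) * (H4.s4a * H4.s4b) * Equiv.swap 0 2)
        (r := 4) (by norm_num) (by decide +kernel) (by decide +kernel) (by rw [e]; decide)
        (fun x' y' n' h2 h4 => by
          rw [inf_top_eq, h2.card_T] at h4 ⊢
          have := h2.cases
          omega)
      rw [inf_top_eq, ← h'] at hm
      have e1 : Nat.card (H2.cj m φ.range) = 24 := by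
        rw [H2.card_cj, H4.card_range_of_injective hφ, H4.card_sym4]
      have := H4.eq_inf_of_covBy le_top hM' hm (H4.L_not_le_of_card' (by rw [e1, e]; decide))
      rw [inf_top_eq] at this
      rw [← this, h1.1, e] at e1
      omega
    · exact Or.inr (Or.inr (Or.inl h1.2))
  · obtain ⟨K, _, _, h1, ⟨e1⟩, -⟩ := H4.small_model_sub k.subtype
    rw [inf_top_eq] at h
    rcases hr.eq_two_or_odd' with rfl | h2
    · exact absurd (h ▸ H4.cj_le_normal_iff.2 (H4.pglSub_le_L _ hk even_two)) hL2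
    · exact Or.inr (Or.inr (Or.inr (Or.inr ⟨K, _, _, r, hr, h2, by rw [h1, hk],
        ⟨(MulEquiv.subgroupCongr h).trans ((H2.cjEquiv _ _).symm.trans e1)⟩⟩)))
  · obtain ⟨φ, hφ⟩ := H4.exists_s4 (H4.two_ne_zero_iff_odd.2 hodd)
    exact absurd le_top (h4 φ hφ)
  · obtain ⟨φ, hφ, h4⟩ := H4.exists_hom_of_equiv h3
    rw [← h4, H4.s4_le_L_iff hφ, H4.isSquare_two_iff hodd] at hL2
    exact Or.inr (Or.inr (Or.inr (Or.inl ⟨h1 ▸ Fact.out, by omega, h3⟩)))
  · obtain ⟨φ, hφ, h4⟩ := H4.exists_hom_of_equiv h3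
    exact absurd (h4 ▸ H4.a5_le_L φ) hL2

end Cfsg.Agent.S5891
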