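import Cfsg.Statements.S5892
import Cfsg.Agent.H4.Max3

set_option autoImplicit false
open Cfsg

namespace Cfsg.Agent.S5892


/-- Let F be a finite field of odd order q ≥ 5 and characteristic p, and let M be a maximal subgroup of PSL₂(F). Then one of the following holds: |M| = q(q − 1)/2 (the stabiliser of a point of the projective line); q ≥ 13 and M is dihedral of order q − 1; q ∉ {7, 9} and M is dihedral of order q + 1; q = q₀² and M ≅ PGL₂(F₀) with |F₀| = q₀; q = q₀^r for an odd prime r and M ≅ PSL₂(F₀) with |F₀| = q₀; q ≡ ±1 (mod 10) with q = p or q = p², p ≡ ±3 (mod 10), and M ≅ A₅; q = p ≡ ±3 (mod 8), q ≢ ±1 (mod 10), and M ≅ A₄; or q = p ≡ ±1 (mod 8) and M ≅ S₄. -/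
theorem result {F : Type*} [Field F] [Fintype F] (p : ℕ)
    [Fact p.Prime] [CharP F p] (hodd : Odd (Fintype.card F)) (h5 : 5 ≤ Fintype.card F)
    (M : Subgroup (Matrix.ProjectiveSpecialLinearGroup (Fin 2) F)) (hM : IsCoatom M) :
    2 * Nat.card M = Fintype.card F * (Fintype.card F - 1) ∨
    (13 ≤ Fintype.card F ∧ (∃ k : ℕ, 2 * k = Fintype.card F - 1 ∧ Nonempty (M ≃* DihedralGroup k))) ∨
    (Fintype.card F ≠ 7 ∧ Fintype.card F ≠ 9 ∧ (∃ k : ℕ, 2 * k = Fintype.card F + 1 ∧ Nonempty (M ≃* DihedralGroup k))) ∨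
    (∃ (F₀ : Type) (_ : Field F₀) (_ : Fintype F₀), Fintype.card F = Fintype.card F₀ ^ 2 ∧
        Nonempty (M ≃* Matrix.ProjGenLinGroup (Fin 2) F₀)) ∨
    (∃ (F₀ : Type) (_ : Field F₀) (_ : Fintype F₀) (r : ℕ), r.Prime ∧ Odd r ∧ Fintype.card F = Fintype.card F₀ ^ r ∧
        Nonempty (M ≃* Matrix.ProjectiveSpecialLinearGroup (Fin 2) F₀)) ∨
    ((Fintype.card F % 10 = 1 ∨ Fintype.card F % 10 = 9) ∧
        (Fintype.card F = p ∨ (Fintype.card F = p ^ 2 ∧ (p % 10 = 3 ∨ p % 10 = 7))) ∧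
        Nonempty (M ≃* alternatingGroup (Fin 5))) ∨
    (Fintype.card F = p ∧ (p % 8 = 3 ∨ p % 8 = 5) ∧ ¬ (p % 10 = 1 ∨ p % 10 = 9) ∧
        Nonempty (M ≃* alternatingGroup (Fin 4))) ∨
    (Fintype.card F = p ∧ (p % 8 = 1 ∨ p % 8 = 7) ∧ Nonempty (M ≃* Equiv.Perm (Fin 4))) := by
  classical
  rw [← Nat.card_eq_fintype_card] at *
  have hM' := (H4.isCoatom_iff_covBy_map H4.jL_injective).1 hM
  rw [H4.jL_range] at hM'
  have e := H4.upEquiv M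
  have hp2 := (H4.char_ne_two_iff_odd p).2 hodd
  have hd := H4.gcd_two_of_odd hodd
  have ho := Nat.odd_iff.1 hodd
  rcases H4.max_cases (p := p) le_rfl hM' hM'.lt.not_ge (by omega) with
    ⟨x, h⟩ | ⟨x, y, n, h, h'⟩ | ⟨k, m, r, hr, hk, h⟩ | ⟨h1, h2, h3, h4, h6⟩ | ⟨h1, h2, h3⟩ |
      ⟨-, h2, h3⟩
  · left
    rw [← H4.card_map_jL, h, ← H4.card_borel_L x, hd]
  · have h1 := h.card_DL.2
    rw [← h', hd] at h1
    have h2 := h.of_covBy (h' ▸ hM')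
    rcases h.cases with rfl | rfl
    · exact Or.inr (Or.inl ⟨by omega, _, by omega, ⟨e.trans h1.some⟩⟩)
    · exact Or.inr (Or.inr (Or.inl ⟨h2.2.1, h2.2.2.1, _, by omega, ⟨e.trans h1.some⟩⟩))
  · obtain ⟨K, _, _, h1, ⟨e1⟩, ⟨e2⟩⟩ := H4.small_model_sub k.subtype
    rcases hr.eq_two_or_odd' with rfl | h2
    · rw [inf_eq_left.2 (H4.pglSub_le_L _ hk even_two)] at h
      exact Or.inr (Or.inr (Or.inr (Or.inl ⟨K, _, _, by rw [h1, hk],
        ⟨(e.trans (MulEquiv.subgroupCongr h)).trans ((H2.cjEquiv _ _).symm.trans e1)⟩⟩)))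
    · rw [H4.pglSub_inf_L _ hk h2] at h
      exact Or.inr (Or.inr (Or.inr (Or.inr (Or.inl ⟨K, _, _, r, hr, h2, by rw [h1, hk],
        ⟨(e.trans (MulEquiv.subgroupCongr h)).trans ((H2.cjEquiv _ _).symm.trans e2)⟩⟩))))
  · obtain ⟨φ, hφ⟩ := H4.exists_s4 (H4.two_ne_zero_iff_odd.2 hodd)
    have h7 := h4 φ hφ
    rw [H4.s4_le_L_iff hφ, H4.isSquare_two_iff hodd] at h7
    exact Or.inr (Or.inr (Or.inr (Or.inr (Or.inr (Or.inr (Or.inl
      ⟨h1, by omega, by omega, ⟨e.trans h3.some⟩⟩))))))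
  · obtain ⟨φ, hφ, h4⟩ := H4.exists_hom_of_equiv h3
    have h7 := (H4.isSquare_two_iff hodd).1 ((H4.s4_le_L_iff hφ).1 (h4 ▸ hM'.le))
    exact Or.inr (Or.inr (Or.inr (Or.inr (Or.inr (Or.inr (Or.inr
      ⟨h1, by omega, ⟨e.trans h3.some⟩⟩))))))
  · have h4 : p % 2 = 1 := (Fact.out : p.Prime).eq_two_or_odd.resolve_left hp2
    refine Or.inr (Or.inr (Or.inr (Or.inr (Or.inr (Or.inl ⟨?_, ?_, ⟨e.trans h3.some⟩⟩)))))
    · rcases h2 with h2 | h2
      · omega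
      · have : p % 10 = 3 ∨ p % 10 = 7 := by omega
        rw [h2.1, sq, Nat.mul_mod]; rcases this with e | e <;> simp [e]
    · exact h2.imp (·.1) fun h => ⟨h.1, by omega⟩

end Cfsg.Agent.S5892
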