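import Cfsg.Statements.S5893
import Cfsg.Agent.H4.Max3

set_option autoImplicit false
open Cfsg

namespace Cfsg.Agent.S5893


/-- Let F be a finite field of even order q ≥ 4 and let M be a maximal subgroup of PSL₂(F) (= SL₂(F) = PGL₂(F)). Then one of the following holds: |M| = q(q − 1) (the stabiliser of a point of the projective line, elementary abelian of order q extended by a cyclic group of order q − 1); M is dihedral of order 2(q − 1); M is dihedral of order 2(q + 1); or q = q₀^r for a prime r with q₀ ≠ 2 and M ≅ PSL₂(F₀) with |F₀| = q₀. -/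
theorem result {F : Type*} [Field F] [Fintype F]
    (heven : Even (Fintype.card F)) (h4 : 4 ≤ Fintype.card F) (M : Subgroup (Matrix.ProjectiveSpecialLinearGroup (Fin 2) F)) (hM : IsCoatom M) :
    Nat.card M = Fintype.card F * (Fintype.card F - 1) ∨
    Nonempty (M ≃* DihedralGroup (Fintype.card F - 1)) ∨
    Nonempty (M ≃* DihedralGroup (Fintype.card F + 1)) ∨
    (∃ (F₀ : Type) (_ : Field F₀) (_ : Fintype F₀) (r : ℕ), r.Prime ∧ Fintype.card F₀ ≠ 2 ∧
        Fintype.card F = Fintype.card F₀ ^ r ∧ Nonempty (M ≃* Matrix.ProjectiveSpecialLinearGroup (Fin 2) F₀)) := by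
  classical
  rw [← Nat.card_eq_fintype_card] at *
  haveI : Fact (Nat.Prime 2) := ⟨Nat.prime_two⟩
  haveI := H4.charP_of_dvd_card (F := F) Nat.prime_two (even_iff_two_dvd.1 heven)
  have hM' := (H4.isCoatom_iff_covBy_map H4.jL_injective).1 hM
  rw [H4.jL_range] at hM'
  have e := H4.upEquiv M
  have hd := H4.gcd_two_of_even heven (by omega)
  have hD : ∀ x y n, H4.Stable x y n → M.map H4.jL = H4.Dsub x y ⊓ H4.Lsub F →
      Nonempty (M ≃* DihedralGroup (Nat.card F - 1)) ∨
        Nonempty (M ≃* DihedralGroup (Nat.card F + 1)) := by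
    intro x y n h h'
    have h1 := h.card_DL.2
    rw [← h', hd, Nat.div_one] at h1
    rcases h.cases with rfl | rfl
    · exact Or.inl ⟨e.trans h1.some⟩
    · exact Or.inr ⟨e.trans h1.some⟩
  rcases H4.max_cases (p := 2) le_rfl hM' hM'.lt.not_ge (by omega) with
    ⟨x, h⟩ | ⟨x, y, n, h, h'⟩ | ⟨k, m, r, hr, hk, h⟩ | ⟨h1, h2, h3, h4, h6⟩ | ⟨h1, h2, h3⟩ |
      ⟨h1, -, -⟩
  · left
    rw [← H4.card_map_jL, h, ← H4.card_borel_L x, hd, one_mul]
  · exact Or.inr ((hD x y n h h').imp_right Or.inl)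
  · rw [H4.Lsub_eq_top heven, inf_top_eq] at h
    by_cases h2 : Nat.card k = 2
    · have hc : Nat.card (M.map H4.jL) = 6 := by rw [h, H2.card_cj, H4.card_pglSub, h2]
      haveI : Fact (Nat.Prime 3) := ⟨Nat.prime_three⟩
      obtain ⟨t, ht⟩ := exists_prime_orderOf_dvd_card' (G := M.map H4.jL) 3 (by rw [hc]; norm_num)
      have hn : (Subgroup.zpowers t).Normal := Subgroup.normal_of_index_eq_two (by
        have := (Subgroup.zpowers t).card_mul_index
        rw [Nat.card_zpowers, ht, hc] at this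
        omega)
      have ht' : orderOf (t : Matrix.ProjGenLinGroup (Fin 2) F) = 3 := by
        rw [Subgroup.orderOf_coe, ht]
      have h1 : (t : Matrix.ProjGenLinGroup (Fin 2) F) ≠ 1 := by
        intro e; rw [e, orderOf_one] at ht'; omega
      rcases H4.elt_cases h1 with ⟨z, hz⟩ | ⟨x, y, n, h3, h4⟩
      · have := orderOf_dvd_of_pow_eq_one (H4.isU_pow_char (p := 2) hz)
        rw [ht'] at this; omega
      · refine Or.inr ((hD x y n h3 (H4.eq_inf_of_covBy le_rfl hM' (fun g hg => ?_)
          (H4.L_not_le_D (by omega) h3.1))).imp_right Or.inl)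
        refine H4.mem_Dsub_of_normalizes h3.1 h1 h4 ?_
        obtain ⟨i, hi⟩ := hn.conj_mem' t (Subgroup.mem_zpowers t) ⟨g, hg⟩
        have := congrArg Subtype.val hi
        simp only [Subgroup.coe_zpow, Subgroup.coe_mul, Subgroup.coe_inv] at this
        rw [← this]
        exact zpow_mem h4 i
    · obtain ⟨K, _, _, h1, -, ⟨e2⟩⟩ := H4.small_model_sub k.subtype
      have : H4.pglSub k.subtype = H4.pslSub k.subtype := by
        rw [← H4.map_Lsub, H4.Lsub_eq_top (even_iff_two_dvd.2 (H4.char_dvd_card 2)),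
          ← MonoidHom.range_eq_map]
        rfl
      rw [this] at h
      exact Or.inr (Or.inr (Or.inr ⟨K, _, _, r, hr, by rw [h1]; exact h2, by rw [h1, hk],
        ⟨(e.trans (MulEquiv.subgroupCongr h)).trans ((H2.cjEquiv _ _).symm.trans e2)⟩⟩))
  · omega
  · omega
  · omega

end Cfsg.Agent.S5893
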