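import Cfsg.Statements.S5894
import Mathlib

set_option autoImplicit false
open Cfsg

namespace Cfsg.Agent.S5894

open Subgroup MulAction Equiv Pointwise

/-- For every m ≥ 2 the symmetric group on 2m letters has a maximal subgroup M of index 2m together with a maximal subgroup H of M that is not second maximal: some maximal subgroup K of the symmetric group contains H without H being maximal in K. (One may take M the stabiliser of a letter, H ≅ S_m × S_{m−1} inside it, and K ≅ S_m ≀ S₂ the stabiliser of a partition into two m-sets, with H < S_m × S_m < K.) So the prime-index hypothesis in the second-maximality criterion cannot be relaxed to any even index ≥ 4. -/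
theorem result (m : ℕ) (hm : 2 ≤ m) :
    ∃ M H K : Subgroup (Equiv.Perm (Fin (2 * m))), IsCoatom M ∧ M.index = 2 * m ∧ H ≤ M ∧ IsCoatom (H.subgroupOf M) ∧
      IsCoatom K ∧ H ≤ K ∧ ¬ IsCoatom (H.subgroupOf K) := by
  set_option maxSynthPendingDepth 3 in
  classical
  let a : Fin (2 * m) := ⟨0, by omega⟩
  let b : Fin (2 * m) := ⟨1, by omega⟩
  let c : Fin (2 * m) := ⟨m, by omega⟩
  let s : Set (Fin (2 * m)) := {x | x.1 < m}
  let j : Perm {x // x ≠ a} →* Perm (Fin (2 * m)) := Perm.ofSubtype
  have ji : Function.Injective j := Perm.ofSubtype_injective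
  have jr : j.range = stabilizer _ a := by
    ext g
    refine ⟨?_, fun h => ⟨g.subtypePerm fun x => not_congr ⟨fun e => g.injective (e.trans h.symm), fun e => e ▸ h⟩,
      Perm.ofSubtype_subtypePerm _ fun x n e => n (e ▸ h)⟩⟩
    rintro ⟨g, rfl⟩
    exact Perm.ofSubtype_apply_of_not_mem g (not_not.2 rfl)
  let t : Set {x // x ≠ a} := Subtype.val ⁻¹' s
  have ct : IsCoatom (stabilizer (Perm {x // x ≠ a}) t) := Perm.isCoatom_stabilizer ⟨⟨b, by simp [a, b]⟩, hm⟩
    ⟨⟨c, by simp [a, c]; omega⟩, lt_irrefl m⟩ (by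
      rw [Nat.card_eq_fintype_card, Fintype.card_subtype_compl, Fintype.card_fin, Fintype.card_unique]; omega)
  have l1 : (stabilizer _ t).map j ≤ stabilizer _ s ⊓ stabilizer _ a := le_inf (by
    rintro _ ⟨g, h, rfl⟩
    refine mem_stabilizer_set.2 fun x => ?_
    by_cases e : x = a
    · rw [e, show j g • a = a from jr.le ⟨g, rfl⟩]
    · rw [show j g • x = (g ⟨x, e⟩).1 from Perm.ofSubtype_apply_of_mem g e]
      exact mem_stabilizer_set.1 h ⟨x, e⟩) (jr ▸ map_le_range _ _)
  let L := stabilizer (Perm (Fin (2 * m))) ({s, sᶜ} : Set (Set (Fin (2 * m))))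
  have mL : ∀ g, g ∈ L ↔ g • s = s ∨ g • s = sᶜ := fun g => by
    rw [mem_stabilizer_iff, Set.smul_set_insert, Set.smul_set_singleton, Set.smul_set_compl]
    refine ⟨fun h => h.le (.inl rfl), ?_⟩
    rintro (h | h) <;> rw [h]
    rw [compl_compl, Set.pair_comm]
  have sm : ∀ (g : Perm (Fin (2 * m))) x, g x ∈ g • s ↔ x.1 < m := fun g x => Set.smul_mem_smul_set_iff
  obtain ⟨K, k1, k2⟩ := (eq_top_or_exists_le_coatom L).resolve_left fun z => by
    rcases (mL (swap a c)).1 (z.ge (mem_top _)) with e | e
    · have := (sm (swap a c) a).2 (by simp [a]; omega)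
      simp [e, s, c] at this
    · have := (sm (swap a c) b).2 hm
      rw [e, swap_apply_of_ne_of_ne (by simp [a, b]) (by simp [b, c]; omega)] at this
      exact this hm
  have sl : stabilizer _ s ≤ L := fun g h => (mL g).2 (.inl h)
  haveI : Nontrivial (Fin (2 * m)) := ⟨a, b, by simp [a, b]⟩
  refine ⟨stabilizer _ a, _, K, IsPreprimitive.isCoatom_stabilizer_of_isPreprimitive _ a,
    by rw [index_stabilizer_of_transitive]; simp, l1.trans inf_le_right, ?_, k1,
    l1.trans (inf_le_left.trans (sl.trans k2)), fun z => ?_⟩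
  · rw [← jr, ← OrderIso.isCoatom_iff (MonoidHom.ofInjective ji).mapSubgroup.symm]
    convert ct using 1
    ext g
    exact mem_map_equiv.trans (mem_map_iff_mem ji)
  · rcases z.le_iff.1 (comap_mono (l1.trans inf_le_left) : _ ≤ (stabilizer _ s).subgroupOf K) with e | e
    · have r : Fin.revPerm • s = sᶜ := Set.ext fun x => by
        rw [← Fin.rev_rev x]
        refine (sm Fin.revPerm x.rev).trans ?_
        simp only [s, Set.mem_compl_iff, Set.mem_setOf_eq, Fin.val_rev]
        omega
      have : Fin.revPerm • s = s := e.ge (mem_top ⟨_, k2 ((mL _).2 (.inr r))⟩)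
      exact (r.symm.trans this).ge (show a ∈ s from (by omega : 0 < m)) (by omega : 0 < m)
    · have : swap a b ∈ stabilizer _ s := mem_stabilizer_set.2 fun x => by
        simp only [Perm.smul_def, swap_apply_def, s, Set.mem_setOf_eq]
        split_ifs with h h <;> simp [h, a, b] <;> omega
      have := (l1 (e.le (show (⟨_, k2 (sl this)⟩ : K) ∈ (stabilizer _ s).subgroupOf K from this))).2
      simp [a, b] at this

end Cfsg.Agent.S5894
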