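import Cfsg.Statements.S5895
import Cfsg.Agent.H7.GK

set_option autoImplicit false
open Cfsg

namespace Cfsg.Agent.S5895
open H7
open scoped commutatorElement

section
open Subgroup

open SemidirectProduct in
/-- The subgroup `U ⋊ H`. -/
def mid {N L : Type} [Group N] [Group L] (φ : L →* MulAut N) (U : Subgroup N) (H : Subgroup L)
    (hU : ∀ l ∈ H, ∀ u ∈ U, φ l u ∈ U) : Subgroup (N ⋊[φ] L) where
  carrier := {x | x.left ∈ U ∧ x.right ∈ H}
  one_mem' := ⟨U.one_mem, H.one_mem⟩
  mul_mem' := fun {a b} ha hb => ⟨U.mul_mem ha.1 (hU _ ha.2 _ hb.1), H.mul_mem ha.2 hb.2⟩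
  inv_mem' := fun {a} ha => ⟨hU _ (H.inv_mem ha.2) _ (U.inv_mem ha.1), H.inv_mem ha.2⟩

open SemidirectProduct in
theorem core {N L : Type} [Group N] [Group L] [Finite N] [Finite L] (φ : L →* MulAut N)
    (hirr : ∀ U : Subgroup N, (∀ l, ∀ u ∈ U, φ l u ∈ U) → U = ⊥ ∨ U = ⊤)
    (H0 : Subgroup L) (h0 : IsCoatom H0) (U : Subgroup N) (hU : ∀ l ∈ H0, ∀ u ∈ U, φ l u ∈ U)
    (hb : U ≠ ⊥) (ht : U ≠ ⊤) :
    ∃ (G : Type) (_ : Group G) (_ : Finite G) (M H K : Subgroup G), IsCoatom M ∧ M.index = Nat.card N ∧ H ≤ M ∧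
      IsCoatom (H.subgroupOf M) ∧ IsCoatom K ∧ H ≤ K ∧ ¬ IsCoatom (H.subgroupOf K) := by
  have hfin : Finite (N ⋊[φ] L) := Finite.of_equiv _ (SemidirectProduct.equivProd (φ := φ)).symm
  obtain ⟨u, huU, hu1⟩ : ∃ u ∈ U, u ≠ 1 := by
    by_contra hc
    push Not at hc
    exact hb ((eq_bot_iff_forall _).2 hc)
  obtain ⟨v, hvU⟩ : ∃ v, v ∉ U := by
    by_contra hc
    push Not at hc
    exact ht ((eq_top_iff' _).2 hc)
  have hmem : ∀ x : N ⋊[φ] L, x ∈ (inr : L →* N ⋊[φ] L).range ↔ x.left = 1 := by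
    intro x
    constructor
    · rintro ⟨l, rfl⟩; rfl
    · intro hx
      refine ⟨x.right, ?_⟩
      ext
      · simp [hx]
      · simp
  refine ⟨N ⋊[φ] L, inferInstance, hfin, (inr : L →* N ⋊[φ] L).range,
    mid φ ⊥ H0 (fun l _ u hu => by rw [mem_bot.1 hu, map_one]; exact one_mem _),
    H0.comap rightHom, ?_, ?_, ?_, ?_, ?_, ?_, ?_⟩
  · refine ⟨fun h => ?_, fun X hX => ?_⟩
    · have : (inl u : N ⋊[φ] L) ∈ (inr : L →* N ⋊[φ] L).range := by rw [h]; trivial
      exact hu1 ((hmem _).1 this)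
    · obtain ⟨x, hxX, hxM⟩ := SetLike.exists_of_lt hX
      have hr : ∀ l, (inr l : N ⋊[φ] L) ∈ X := fun l => hX.le ⟨l, rfl⟩
      rcases hirr (X.comap inl) (fun l w hw => by
        rw [mem_comap, inl_aut]
        exact X.mul_mem (X.mul_mem (hr _) hw) (hr _)) with h | h
      · exfalso
        apply hxM
        rw [hmem]
        have : x.left ∈ X.comap (inl : N →* N ⋊[φ] L) := by
          rw [mem_comap]
          have h2 : (inl x.left : N ⋊[φ] L) = x * (inr x.right)⁻¹ := by
            rw [eq_mul_inv_iff_mul_eq, inl_left_mul_inr_right]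
          rw [h2]
          exact X.mul_mem hxX (X.inv_mem (hr _))
        rwa [h, mem_bot] at this
      · rw [eq_top_iff']
        intro y
        rw [← inl_left_mul_inr_right y]
        refine X.mul_mem ?_ (hr _)
        have : y.left ∈ X.comap (inl : N →* N ⋊[φ] L) := by rw [h]; trivial
        exact this
  · have h1 := (inr : L →* N ⋊[φ] L).range.index_mul_card
    rw [SemidirectProduct.card, ← Nat.card_congr (MonoidHom.ofInjective (inr_injective (φ := φ))).toEquiv] at h1
    exact Nat.eq_of_mul_eq_mul_right Nat.card_pos h1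
  · intro x hx
    exact (hmem x).2 (mem_bot.1 hx.1)
  · have : (mid φ ⊥ H0 (fun l _ u hu => by rw [mem_bot.1 hu, map_one]; exact one_mem _)).subgroupOf
        (inr : L →* N ⋊[φ] L).range = H0.comap (rightHom.comp (inr : L →* N ⋊[φ] L).range.subtype) := by
      ext x
      constructor
      · intro hx; exact hx.2
      · intro hx; exact ⟨mem_bot.2 ((hmem _).1 x.2), hx⟩
    rw [this]
    exact isCoatom_comap_of_surjective (fun l => ⟨⟨inr l, l, rfl⟩, rfl⟩) h0
  · exact isCoatom_comap_of_surjective rightHom_surjective h0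
  · intro x hx; exact hx.2
  · intro hc
    have hK : ∀ w : N, (inl w : N ⋊[φ] L) ∈ H0.comap rightHom := fun w => by
      rw [mem_comap, rightHom_inl]; exact one_mem _
    have := hc.2 ((mid φ U H0 hU).subgroupOf _) (by
      refine lt_of_le_of_ne (fun x hx => ⟨by rw [mem_bot.1 hx.1]; exact one_mem _, hx.2⟩) (fun h => ?_)
      have h3 : (⟨inl u, hK u⟩ : H0.comap (rightHom : N ⋊[φ] L →* L)) ∈ (mid φ U H0 hU).subgroupOf _ :=
        ⟨huU, H0.one_mem⟩
      rw [← h] at h3
      exact hu1 (mem_bot.1 h3.1))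
    have h3 : (⟨inl v, hK v⟩ : H0.comap (rightHom : N ⋊[φ] L →* L)) ∈ (mid φ U H0 hU).subgroupOf _ := by
      rw [this]; trivial
    exact hvU h3.1

/-- Scalar action of units on the additive group. -/
def act (F : Type) [Field F] : Fˣ →* MulAut (Multiplicative F) where
  toFun a :=
    { toFun := fun x => Multiplicative.ofAdd ((a : F) * x.toAdd)
      invFun := fun x => Multiplicative.ofAdd (((a⁻¹ : Fˣ) : F) * x.toAdd)
      left_inv := fun x => by simp
      right_inv := fun x => by simp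
      map_mul' := fun x y => by simp [mul_add] }
  map_one' := by ext x; simp
  map_mul' a b := by ext x; simp [mul_assoc]

theorem act_apply (F : Type) [Field F] (a : Fˣ) (x : Multiplicative F) :
    act F a x = Multiplicative.ofAdd ((a : F) * x.toAdd) := rfl

end

/-- For every prime p and every d ≥ 2 there is a finite group G with a maximal subgroup M of index p^d and a maximal subgroup H of M that is not second maximal in G: some maximal subgroup K of G contains H without H being maximal in K. (One may take G the affine group V ⋊ GL(V) of V = 𝔽_p^d, M = GL(V), H the stabiliser in M of a line W of V, and K = V ⋊ H, with H < W ⋊ H < K.) So the prime-index hypothesis in the second-maximality criterion cannot be relaxed to prime-power index. -/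
theorem result (p d : ℕ) (hp : p.Prime)
    (hd : 2 ≤ d) :
    ∃ (G : Type) (_ : Group G) (_ : Finite G) (M H K : Subgroup G), IsCoatom M ∧ M.index = p ^ d ∧ H ≤ M ∧
      IsCoatom (H.subgroupOf M) ∧ IsCoatom K ∧ H ≤ K ∧ ¬ IsCoatom (H.subgroupOf K) := by
  open Subgroup in
  haveI : Fact p.Prime := ⟨hp⟩
  set F := GaloisField p d
  have hcard : Nat.card (Multiplicative F) = p ^ d := GaloisField.card p d (by omega)
  let Irr : Subgroup Fˣ → Prop := fun L => ∀ U : Subgroup (Multiplicative F),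
    (∀ l ∈ L, ∀ u ∈ U, act F l u ∈ U) → U = ⊥ ∨ U = ⊤
  have htop : Irr ⊤ := by
    intro U hU
    by_cases hb : U = ⊥
    · exact Or.inl hb
    right
    obtain ⟨u, huU, hu1⟩ : ∃ u ∈ U, u ≠ 1 := by
      by_contra hc
      push Not at hc
      exact hb ((eq_bot_iff_forall _).2 hc)
    rw [eq_top_iff']
    intro x
    by_cases hx : x = 1
    · rw [hx]; exact one_mem _
    have hu0 : u.toAdd ≠ 0 := hu1
    have hx0 : x.toAdd ≠ 0 := hx
    have := hU (Units.mk0 (x.toAdd / u.toAdd) (div_ne_zero hx0 hu0)) trivial u huU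
    rw [act_apply, Units.val_mk0, div_mul_cancel₀ _ hu0] at this
    exact this
  obtain ⟨L, hL, hmin⟩ := (wellFounded_lt (α := Subgroup Fˣ)).has_min {L | Irr L} ⟨⊤, htop⟩
  have hLb : L ≠ ⊥ := by
    rintro rfl
    rcases hL (zpowers (Multiplicative.ofAdd (1 : F))) (fun l hl u hu => by
      rw [mem_bot.1 hl, map_one (act F)]; exact hu) with h | h
    · rw [zpowers_eq_bot] at h
      exact one_ne_zero (α := F) h
    · have h1 : Nat.card (zpowers (Multiplicative.ofAdd (1 : F))) = p := by
        rw [Nat.card_zpowers, orderOf_ofAdd_eq_addOrderOf, CharP.eq F (CharP.addOrderOf_one F) inferInstance]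
      rw [h, card_top, hcard] at h1
      have : p ^ 1 < p ^ d := Nat.pow_lt_pow_right hp.one_lt (by omega)
      rw [pow_one] at this
      omega
  haveI : Nontrivial L := (nontrivial_iff_ne_bot _).2 hLb
  obtain ⟨H0, h0, -⟩ := (eq_top_or_exists_le_coatom (⊥ : Subgroup L)).resolve_left bot_ne_top
  have hlt : H0.map L.subtype < L := by
    refine lt_of_le_of_ne (map_subtype_le _) (fun h => h0.1 ?_)
    rw [eq_top_iff']
    intro x
    have hx : x.1 ∈ H0.map L.subtype := h.ge x.2
    obtain ⟨y, hy, hxy⟩ := hx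
    rwa [← Subtype.ext hxy]
  have hn : ¬ Irr (H0.map L.subtype) := fun h => hmin _ h hlt
  simp only [Irr] at hn
  push Not at hn
  obtain ⟨U, hU, hb, ht⟩ := hn
  rw [← hcard]
  exact core ((act F).comp L.subtype) (fun V hV => hL V (fun l hl u hu => hV ⟨l, hl⟩ u hu)) H0 h0 U
    (fun l hl u hu => hU l ⟨l, hl, rfl⟩ u hu) hb ht

end Cfsg.Agent.S5895
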