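import Cfsg.Statements.S5896
import Cfsg.Agent.H7.GK
import Cfsg.Agent.H4.Cover

set_option autoImplicit false
open Cfsg

namespace Cfsg.Agent.S5896
open H7
open scoped commutatorElement

section
open Subgroup

theorem ker_comm {D Q : Type*} [CommGroup D] [Group Q] (a b : RegularWreathProduct D Q) (ha : a.right = 1)
    (hb : b.right = 1) : a * b = b * a := by
  ext1
  · simp [ha, hb]; exact mul_comm _ _
  · simp [ha, hb]

theorem ker_pow {D Q : Type*} [Group D] [Group Q] (a : RegularWreathProduct D Q) (ha : a.right = 1) (k : ℕ) :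
    (a ^ k).left = a.left ^ k ∧ (a ^ k).right = 1 := by
  induction k with
  | zero => simp
  | succ k ih => rw [pow_succ, pow_succ]; simp [ih.1, ih.2, ha]

theorem inl_comm {D Q : Type*} [Group D] [Group Q] [DecidableEq Q] (c : D) (hc : c ≠ 1) (x : Q)
    (h : RegularWreathProduct.inl x * (⟨Pi.mulSingle 1 c, 1⟩ : RegularWreathProduct D Q) =
      ⟨Pi.mulSingle 1 c, 1⟩ * RegularWreathProduct.inl x) : x = 1 := by
  have h7 := congrFun (congrArg RegularWreathProduct.left h) 1
  by_contra hx
  simp [Pi.mulSingle_apply, hx] at h7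
  exact hc h7.symm

open Subgroup H2 H7 in
theorem step {G : Type} [Group G] [Finite G] (H : Subgroup G) (d : ℕ) (h1 : commutator G = ⊤) (h2 : IsCoatom H)
    (h3 : Group.IsSolvable H) (h4 : derivedSeries H d ≠ ⊥) :
    ∃ (G : Type) (_ : Group G) (_ : Finite G) (H : Subgroup G), commutator G = ⊤ ∧ IsCoatom H ∧ Group.IsSolvable H ∧
      derivedSeries H (d + 1) ≠ ⊥ := by
  classical
  obtain ⟨p, hp1, hp⟩ := Nat.exists_infinite_primes (Nat.card G + 1)
  haveI := Fact.mk hp
  let X := RegularWreathProduct (Multiplicative (ZMod p)) G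
  let π : X →* G := RegularWreathProduct.rightHom
  let ι : G →* X := RegularWreathProduct.inl
  have πι : ∀ g, π (ι g) = g := fun _ => rfl
  let A : Subgroup X := π.ker
  have Ac : ∀ a ∈ A, ∀ b ∈ A, a * b = b * a := fun a ha b hb => ker_comm a b ha hb
  have Ap : IsPGroup p A := fun a => ⟨1, Subtype.ext (by
    rw [pow_one]
    apply RegularWreathProduct.ext
    · rw [Subgroup.coe_pow, (ker_pow a.1 a.2 p).1]
      funext x
      apply Multiplicative.toAdd.injective
      simp
    · exact (ker_pow a.1 a.2 p).2)⟩
  let Y := commutator X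
  have ιY : ∀ g, ι g ∈ Y := fun g => by
    have : (commutator G).map ι ≤ Y := by
      rw [_root_.commutator_def, Subgroup.map_commutator]; exact commutator_mono le_top le_top
    exact this ⟨g, h1 ▸ mem_top g, rfl⟩
  let ι' : G →* Y := ι.codRestrict _ ιY
  let π' : Y →* G := π.comp Y.subtype
  have hs : Function.Surjective π' := fun g => ⟨ι' g, rfl⟩
  let H' := H.comap π'
  refine ⟨Y, inferInstance, inferInstance, H', ?_, isCoatom_comap_of_surjective hs h2, ?_, ?_⟩
  · have e1 : ∀ g, ι g ∈ ⁅Y, Y⁆ := fun g => by
      have : (commutator G).map ι ≤ ⁅Y, Y⁆ := by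
        rw [_root_.commutator_def, Subgroup.map_commutator]
        exact commutator_mono (fun _ ⟨x, _, e⟩ => e ▸ ιY x) (fun _ ⟨x, _, e⟩ => e ▸ ιY x)
      exact this ⟨g, h1 ▸ mem_top g, rfl⟩
    have e2 : Y ≤ ⁅Y, Y⁆ := by
      rw [show Y = ⁅(⊤ : Subgroup X), ⊤⁆ from rfl, commutator_le]
      intro x _ y _
      rw [← QuotientGroup.eq_one_iff, ← QuotientGroup.mk'_apply, map_commutatorElement, commutatorElement_eq_one_iff_mul_comm]
      have k : ∀ z : X, ∃ a ∈ A, QuotientGroup.mk' ⁅Y, Y⁆ z = QuotientGroup.mk' ⁅Y, Y⁆ a := fun z =>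
        ⟨z * (ι (π z))⁻¹, by rw [MonoidHom.mem_ker, map_mul, map_inv, πι, mul_inv_cancel], by
          rw [map_mul, map_inv, show QuotientGroup.mk' ⁅Y, Y⁆ (ι (π z)) = 1 from (QuotientGroup.eq_one_iff _).2 (e1 _)]; simp⟩
      obtain ⟨a, ha, ea⟩ := k x
      obtain ⟨b, hb, eb⟩ := k y
      erw [ea, eb, ← map_mul, ← map_mul, Ac a ha b hb]
    apply map_injective Y.subtype_injective
    rw [_root_.commutator_def, Subgroup.map_commutator, ← MonoidHom.range_eq_map, range_subtype]
    exact le_antisymm (commutator_le_left _ _) e2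
  · let ρ : H' →* H := (π'.comp H'.subtype).codRestrict _ fun x => x.2
    haveI : Group.IsSolvable ρ.ker := Group.isSolvable_of_comm fun a b => Subtype.ext (Subtype.ext (Subtype.ext
      (Ac _ (congrArg Subtype.val a.2) _ (congrArg Subtype.val b.2))))
    exact Group.isSolvable_of_ker_le_range ρ.ker.subtype ρ (by rw [range_subtype])
  · let j : H' →* X := Y.subtype.comp H'.subtype
    let f : H →* H' := (ι'.comp H.subtype).codRestrict _ fun x => x.2
    let D : Subgroup X := (derivedSeries H d).map (ι.comp H.subtype)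
    have ιi : Function.Injective ι := fun a b h => by rw [← πι a, h, πι]
    have hc : Cop D A := by
      refine ⟨le_normalizer_of_normal, ?_, Or.inr (Group.isSolvable_of_comm fun a b => Subtype.ext (Ac _ a.2 _ b.2))⟩
      obtain ⟨k, hk⟩ := Ap.exists_card_eq
      rw [hk]
      refine Nat.Coprime.pow_right _ ((Nat.Prime.coprime_iff_not_dvd hp).2 fun h => ?_).symm
      have : Nat.card D ∣ Nat.card G := by
        rw [card_map_of_injective (f := ι.comp H.subtype) (ιi.comp H.subtype_injective)]
        exact (card_subgroup_dvd_card _).trans (card_subgroup_dvd_card _)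
      have := Nat.le_of_dvd Nat.card_pos (h.trans this)
      omega
    have DS : ∀ i ≤ d, D ≤ (derivedSeries H' i).map j := by
      intro i hi
      rintro _ ⟨x, hx, rfl⟩
      exact ⟨f x, map_derivedSeries_le_derivedSeries f i ⟨x, derivedSeries_antitone _ hi hx, rfl⟩, rfl⟩
    have WS : ∀ i ≤ d + 1, ⁅A, D⁆ ≤ (derivedSeries H' i).map j := by
      intro i
      induction i with
      | zero =>
        intro _ x hx
        have x1 : x ∈ Y := commutator_mono le_top le_top hx
        have x2 : π x = 1 := commutator_le_left _ _ hx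
        exact ⟨⟨⟨x, x1⟩, by show π x ∈ H; rw [x2]; exact one_mem _⟩, mem_top _, rfl⟩
      | succ i ih =>
        intro hi
        rw [derivedSeries_succ, Subgroup.map_commutator, ← hc.comm_comm]
        exact commutator_mono (ih (by omega)) (DS i (by omega))
    intro e
    have h5 := WS _ le_rfl
    rw [e, Subgroup.map_bot, le_bot_iff, commutator_eq_bot_iff_le_centralizer] at h5
    apply h4
    rw [eq_bot_iff]
    intro x hx
    have h6 := h5 (show (⟨Pi.mulSingle 1 (Multiplicative.ofAdd 1), 1⟩ : X) ∈ A from rfl) (ι x) ⟨x, hx, rfl⟩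
    exact Subtype.ext (inl_comm _ (fun e => one_ne_zero (Multiplicative.ofAdd.injective e)) _ h6)

theorem d5 : ∃ g : Equiv.Perm (Fin 5), Equiv.Perm.sign g = 1 ∧ g 0 = 0 ∧ g ≠ 1 :=
  ⟨Equiv.swap 1 2 * Equiv.swap 2 3, by decide⟩

end

/-- Finite perfect groups have solvable maximal subgroups of unbounded derived length: for every d there is a finite perfect group G (equal to its commutator subgroup) with a solvable maximal subgroup H whose derived length exceeds d, i.e. the d-th term of the derived series of H is non-trivial. (Take the derived subgroup of a wreath product S ≀ A₅ with S solvable of large derived length, and H the preimage of a maximal subgroup of A₅.) -/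
theorem result (d : ℕ) :
    ∃ (G : Type) (_ : Group G) (_ : Finite G) (H : Subgroup G), commutator G = ⊤ ∧ IsCoatom H ∧ Group.IsSolvable H ∧
      derivedSeries H d ≠ ⊥ := by
  open Subgroup in
  induction d with
  | succ d ih =>
    obtain ⟨G, _, _, H, h1, h2, h3, h4⟩ := ih
    exact step H d h1 h2 h3 h4
  | zero =>
    haveI := alternatingGroup.isPreprimitive_of_three_le_card (Fin 5) (by simp)
    refine ⟨alternatingGroup (Fin 5), inferInstance, inferInstance, MulAction.stabilizer _ (0 : Fin 5), ?_,
      MulAction.IsPreprimitive.isCoatom_stabilizer_of_isPreprimitive _ _, ?_, ?_⟩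
    · exact commutator_alternatingGroup_eq_top (by simp)
    · haveI := H4.solvable_perm_of_card_le (α := SubMulAction.ofStabilizer (alternatingGroup (Fin 5)) (0 : Fin 5)) (by
        have := SubMulAction.nat_card_ofStabilizer_add_one_eq (alternatingGroup (Fin 5)) (0 : Fin 5)
        simp at this ⊢
        omega)
      refine Group.isSolvable_of_isSolvable_injective (f := MulAction.toPermHom _
        (SubMulAction.ofStabilizer (alternatingGroup (Fin 5)) (0 : Fin 5))) ((injective_iff_map_eq_one _).2 fun g hg => ?_)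
      apply Subtype.ext
      apply Subtype.ext
      ext1 x
      by_cases hx : x = 0
      · subst hx; exact g.2
      · exact congrArg Subtype.val (congrArg (fun s : Equiv.Perm (SubMulAction.ofStabilizer (alternatingGroup (Fin 5)) (0 : Fin 5)) =>
          s ⟨x, hx⟩) hg)
    · intro e
      obtain ⟨g, g1, g2, g3⟩ := d5
      have : (⟨⟨g, g1⟩, g2⟩ : MulAction.stabilizer (alternatingGroup (Fin 5)) (0 : Fin 5)) ∈ derivedSeries _ 0 := Subgroup.mem_top _
      rw [e] at this
      exact g3 (congrArg (fun x => x.1.1) (Subgroup.mem_bot.1 this))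

end Cfsg.Agent.S5896
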