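import Cfsg.Statements.S5902
import Mathlib
import Cfsg.Agent.S5901
import Cfsg.Agent.H7.Elem

set_option autoImplicit false
open Cfsg

namespace Cfsg.Agent.S5902

open Subgroup H7

/-- Let G be a finite group, X a subgroup whose own subgroup lattice is complemented, and suppose X lies in exactly one maximal subgroup M of G. Then every subgroup H of G not contained in the normal core of M has a complement in the subgroup lattice of G (some C with H ⊔ C = G and H ⊓ C = 1); in particular the subgroup lattice of G modulo the normal core of M is complemented. -/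
theorem result {G : Type*} [Group G] [Finite G] (X M : Subgroup G)
    (hK : ComplementedLattice (Subgroup X))
    (hM : IsCoatom M) (hXM : X ≤ M) (huniq : ∀ M' : Subgroup G, IsCoatom M' → X ≤ M' → M' = M) :
    (∀ H : Subgroup G, ¬ H ≤ M.normalCore → ∃ C : Subgroup G, H ⊔ C = ⊤ ∧ H ⊓ C = ⊥) ∧
    ComplementedLattice (Subgroup (G ⧸ M.normalCore)) := by
  have h1 : ∀ H : Subgroup G, ¬ H ≤ M.normalCore → ∃ C : Subgroup G, H ⊔ C = ⊤ ∧ H ⊓ C = ⊥ := by
    intro H hH
    obtain ⟨g, hg⟩ : ∃ g : G, ¬ cj g H ≤ M := by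
      by_contra hc; push Not at hc
      exact hH fun x hx g => hc g (mem_cj'.2 ⟨x, hx, rfl⟩)
    obtain ⟨C, a, b⟩ := S5901.result ⊥ X M bot_le (fun e => hM.1 (eq_top_iff.2 (e ▸ hXM)))
      (fun Y _ hY => by
        obtain ⟨C, c⟩ := exists_isCompl (Y.subgroupOf X)
        refine ⟨C.map X.subtype, bot_le, map_subtype_le C, ?_, ?_⟩
        · rw [← map_subgroupOf_eq_of_le hY, ← Subgroup.map_sup, c.sup_eq_top, ← MonoidHom.range_eq_map,
            range_subtype]
        · rw [← map_subgroupOf_eq_of_le hY, ← Subgroup.map_inf _ _ _ X.subtype_injective,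
            c.inf_eq_bot, Subgroup.map_bot]) hM hXM huniq _ hg (inf_bot_eq _)
    refine ⟨cj g⁻¹ C, ?_, ?_⟩
    · rw [← cj_eq_top (g := g), cj_sup, cj_cj_inv, a]
    · rw [← cj_eq_bot (g := g), cj_inf, cj_cj_inv, b]
  refine ⟨h1, ⟨fun U => ?_⟩⟩
  by_cases hU : U = ⊥
  · exact ⟨⊤, hU ▸ isCompl_bot_top⟩
  have hs := QuotientGroup.mk'_surjective M.normalCore
  obtain ⟨C, a, b⟩ := h1 (U.comap (QuotientGroup.mk' _)) fun h => hU (by
    rw [← map_comap_eq_self_of_surjective hs U, Subgroup.map_eq_bot_iff, QuotientGroup.ker_mk']; exact h)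
  refine ⟨C.map (QuotientGroup.mk' _), disjoint_iff.2 (eq_bot_iff.2 ?_), codisjoint_iff.2 ?_⟩
  · rintro _ ⟨h, c, hc, rfl⟩
    rw [mem_bot.1 (b.le (⟨h, hc⟩ : c ∈ U.comap (QuotientGroup.mk' _) ⊓ C)), map_one]
    exact one_mem _
  · rw [← map_comap_eq_self_of_surjective hs U, ← Subgroup.map_sup, a, map_top_of_surjective _ hs]

end Cfsg.Agent.S5902
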