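import Cfsg.Statements.S5903
import Mathlib
import Cfsg.Agent.S5901
import Cfsg.Agent.H7.Elem

set_option autoImplicit false
open Cfsg

namespace Cfsg.Agent.S5903

open Subgroup H7

/-- Let G be a finite simple group, X a subgroup lying in exactly one maximal subgroup M of G, and N a subgroup of prime order with N ≤ X that is central in M. If the subgroup lattice of X/N is complemented, then the subgroup lattice of G is complemented. -/
theorem result {G : Type*} [Group G] [Finite G] [IsSimpleGroup G] (X M N : Subgroup G)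
    (hM : IsCoatom M) (hXM : X ≤ M) (huniq : ∀ M' : Subgroup G, IsCoatom M' → X ≤ M' → M' = M)
    (hNX : N ≤ X) (hN : (Nat.card N).Prime) (hcen : ∀ n ∈ N, ∀ m ∈ M, m * n = n * m)
    [(N.subgroupOf X).Normal] (hK : ComplementedLattice (Subgroup (X ⧸ N.subgroupOf X))) :
    ComplementedLattice (Subgroup G) := by
  refine ⟨fun H => ?_⟩
  by_cases h0 : H = ⊥
  · exact ⟨⊤, h0 ▸ isCompl_bot_top⟩
  by_cases h1 : H = ⊤
  · exact ⟨⊥, h1 ▸ isCompl_top_bot⟩
  haveI := Fact.mk hN
  obtain ⟨g, hg, hg'⟩ : ∃ g : G, ¬ cj g H ≤ M ∧ ¬ N ≤ cj g H := by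
    by_contra hc; push Not at hc
    have hn : H.Normal := by
      rcases (normalCore_normal (nrm H)).eq_bot_or_eq_top with h | h
      · refine absurd (eq_bot_iff.2 (h ▸ fun n hn g => ?_)) (fun e : N = ⊥ => by
          rw [e, card_bot] at hN; exact Nat.not_prime_one hN)
        by_cases k : cj g⁻¹ H ≤ M
        · refine centralizer_le_normalizer _ (mem_cen.2 fun x hx => ?_)
          have := hcen n hn _ (k (mem_cj'.2 ⟨x, hx, rfl⟩))
          calc x * (g * n * g⁻¹) = g * (g⁻¹ * x * g⁻¹⁻¹ * n) * g⁻¹ := by group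
            _ = _ := by rw [this]; group
        · obtain ⟨x, hx, rfl⟩ := mem_cj'.1 (hc _ k hn)
          exact le_nrm_self H (by simpa [mul_assoc] using hx)
      · exact normalizer_eq_top_iff.1 (eq_top_iff.2 (h ▸ normalCore_le _))
    exact hn.eq_bot_or_eq_top.elim h0 h1
  have hs := QuotientGroup.mk'_surjective (N.subgroupOf X)
  obtain ⟨C, a, b⟩ := S5901.result N X M hNX (fun e => hM.1 (eq_top_iff.2 (e ▸ hXM)))
    (fun Y hNY hY => by
      obtain ⟨C, c⟩ := exists_isCompl ((Y.subgroupOf X).map (QuotientGroup.mk' (N.subgroupOf X)))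
      have e1 : ((Y.subgroupOf X).map (QuotientGroup.mk' (N.subgroupOf X))).comap
          (QuotientGroup.mk' _) = Y.subgroupOf X := comap_map_eq_self (by
        rw [QuotientGroup.ker_mk']; exact subgroupOf_mono X hNY)
      refine ⟨(C.comap (QuotientGroup.mk' _)).map X.subtype, ?_, map_subtype_le _, ?_, ?_⟩
      · exact (map_subgroupOf_eq_of_le hNX).ge.trans
          (map_mono ((QuotientGroup.ker_mk' _).ge.trans (ker_le_comap _ _)))
      · rw [← map_subgroupOf_eq_of_le hY, ← Subgroup.map_sup, ← e1, comap_sup_eq _ _ _ hs,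
          c.sup_eq_top, comap_top, ← MonoidHom.range_eq_map, range_subtype]
      · rw [← map_subgroupOf_eq_of_le hY, ← Subgroup.map_inf _ _ _ X.subtype_injective, ← e1,
          ← comap_inf, c.inf_eq_bot, MonoidHom.comap_bot, QuotientGroup.ker_mk',
          map_subgroupOf_eq_of_le hNX]) hM hXM huniq _ hg (by
    rw [inf_comm]
    rcases ((cj g H).subgroupOf N).eq_bot_or_eq_top_of_prime_card with h | h
    · exact disjoint_iff.1 (subgroupOf_eq_bot.1 h).symm
    · exact absurd (subgroupOf_eq_top.1 h) hg')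
  refine ⟨cj g⁻¹ C, disjoint_iff.2 ?_, codisjoint_iff.2 ?_⟩
  · rw [← cj_eq_bot (g := g), cj_inf, cj_cj_inv, b]
  · rw [← cj_eq_top (g := g), cj_sup, cj_cj_inv, a]

end Cfsg.Agent.S5903
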