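import Cfsg.Statements.S5904
import Mathlib

set_option autoImplicit false
open scoped Pointwise
open Cfsg

namespace Cfsg.Agent.S5904

open MulAction
open scoped Pointwise

/-- Let Ω be a finite set with more than two elements and O ⊆ Ω a subset with exactly as many elements as its complement. Then the setwise stabilizer of O in the symmetric group on Ω is not a maximal subgroup (it is properly contained in the stabilizer of the partition {O, Ω ∖ O}, which is proper). -/
theorem result {Ω : Type*} [Fintype Ω] [DecidableEq Ω] (hΩ : 2 < Fintype.card Ω)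
    (O : Set Ω) (hO : Nat.card O = Nat.card ↥Oᶜ) :
    ¬ IsCoatom (MulAction.stabilizer (Equiv.Perm Ω) O) := by
  classical
  intro h
  let K : Subgroup (Equiv.Perm Ω) :=
    { carrier := {g | (∀ x, g x ∈ O ↔ x ∈ O) ∨ ∀ x, g x ∈ O ↔ x ∉ O}
      one_mem' := Or.inl fun _ => Iff.rfl
      mul_mem' := by
        rintro a b (ha | ha) (hb | hb)
        · exact Or.inl fun x => (ha _).trans (hb x)
        · exact Or.inr fun x => (ha _).trans (hb x)
        · exact Or.inr fun x => (ha _).trans (hb x).not
        · exact Or.inl fun x => (ha _).trans (hb x).not_left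
      inv_mem' := by
        rintro a (ha | ha)
        · exact Or.inl fun x => by simpa using (ha (a⁻¹ x)).symm
        · exact Or.inr fun x => by simpa using (ha (a⁻¹ x)).not_left.symm }
  have st : ∀ g : Equiv.Perm Ω, g ∈ stabilizer (Equiv.Perm Ω) O ↔ ∀ x, g x ∈ O ↔ x ∈ O :=
    fun g => mem_stabilizer_set
  have h2 : 1 < O.ncard ∧ 0 < Oᶜ.ncard := by
    have := Set.ncard_add_ncard_compl O
    rw [Nat.card_coe_set_eq, Nat.card_coe_set_eq] at hO
    rw [Nat.card_eq_fintype_card] at this
    omega
  obtain ⟨a, c, ha, hc, hac⟩ := (Set.one_lt_ncard_iff (Set.toFinite _)).1 h2.1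
  obtain ⟨b, hb⟩ := (Set.ncard_pos (Set.toFinite _)).1 h2.2
  obtain ⟨e⟩ := Finite.card_eq.1 hO
  have hK := h.2 K ⟨fun g hg => Or.inl ((st g).1 hg), fun hle => ?_⟩
  · rcases hK.ge (Subgroup.mem_top (Equiv.swap a b)) with k | k
    · exact hb (by simpa using (k a).2 ha)
    · refine (k c).1 ?_ hc
      rwa [Equiv.swap_apply_of_ne_of_ne hac.symm fun e : c = b => hb (e ▸ hc)]
  · have k : Equiv.extendSubtype (p := (· ∈ O)) (q := (· ∈ Oᶜ)) e ∈ K := Or.inr fun x =>
      ⟨fun h1 h2 => Equiv.extendSubtype_mem e x h2 h1,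
        fun h1 => not_not.1 (Equiv.extendSubtype_not_mem e x h1)⟩
    exact Equiv.extendSubtype_mem e a ha (((st _).1 (hle k) a).2 ha)

end Cfsg.Agent.S5904
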