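import Cfsg.Statements.S5905
import Mathlib.GroupTheory.Perm.ClosureSwap

set_option autoImplicit false
open Cfsg

namespace Cfsg.Agent.S5905

section Aux
variable {Ω ι : Type*}

/-- the stabiliser of the partition -/
def P (f : Ω → ι) : Subgroup (Equiv.Perm Ω) where
  carrier := {g : Equiv.Perm Ω | ∀ x y : Ω, f x = f y ↔ f (g x) = f (g y)}
  one_mem' := fun _ _ => Iff.rfl
  mul_mem' := by
    intro g h hg hh x y
    exact (hh x y).trans (hg (h x) (h y))
  inv_mem' := by
    intro g hg x y
    have := hg (g⁻¹ x) (g⁻¹ y)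
    simpa using this.symm

theorem closure_eq (f : Ω → ι) :
    Subgroup.closure {g : Equiv.Perm Ω | ∀ x y : Ω, f x = f y ↔ f (g x) = f (g y)} = P f :=
  Subgroup.closure_eq (P f)

theorem mem_P_of (f : Ω → ι) (g : Equiv.Perm Ω) (σ : Equiv.Perm ι) (h : ∀ x, f (g x) = σ (f x)) :
    g ∈ P f := fun x y => by rw [h, h, σ.injective.eq_iff]

theorem f_swap [DecidableEq Ω] (f : Ω → ι) {x y : Ω} (h : f x = f y) (z : Ω) :
    f (Equiv.swap x y z) = f z := by
  rw [Equiv.swap_apply_def]
  split_ifs with h1 h2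
  · rw [h1, h]
  · rw [h2, h]
  · rfl

theorem swap_mem [DecidableEq Ω] (f : Ω → ι) {x y : Ω} (h : f x = f y) :
    Equiv.swap x y ∈ P f := mem_P_of f _ 1 (f_swap f h)

theorem exists_lift [Finite Ω] (a : ℕ) (f : Ω → ι) (hf : ∀ i, Nat.card {x : Ω // f x = i} = a)
    (σ : Equiv.Perm ι) : ∃ g : Equiv.Perm Ω, ∀ x, f (g x) = σ (f x) := by
  have e : ∀ i, {x : Ω // f x = i} ≃ {x : Ω // (σ.symm ∘ f) x = i} := fun i =>
    (Finite.card_eq.mp ((hf i).trans (hf (σ i)).symm)).some.trans
      (Equiv.subtypeEquivRight fun x => by simp [Equiv.symm_apply_eq])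
  refine ⟨Equiv.ofFiberEquiv e, fun x => ?_⟩
  have := Equiv.ofFiberEquiv_map e x
  rw [← this]
  simp

theorem exists_two [Finite Ω] {a : ℕ} (ha : 2 ≤ a) (f : Ω → ι)
    (hf : ∀ i, Nat.card {x : Ω // f x = i} = a) (i : ι) :
    ∃ x y : Ω, x ≠ y ∧ f x = i ∧ f y = i := by
  have : Nontrivial {x : Ω // f x = i} := Finite.one_lt_card_iff_nontrivial.mp (by rw [hf]; omega)
  obtain ⟨x, y, hxy⟩ := exists_pair_ne {x : Ω // f x = i}
  exact ⟨x, y, fun e => hxy (Subtype.ext e), x.2, y.2⟩

theorem exists_perm [DecidableEq ι] {i j k l : ι} (h1 : i ≠ j) (h2 : k ≠ l) :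
    ∃ σ : Equiv.Perm ι, σ i = k ∧ σ j = l := by
  have hne : k ≠ Equiv.swap i k j := by
    intro e
    apply h1
    have := congrArg (Equiv.swap i k) e
    simpa using this
  exact ⟨Equiv.swap (Equiv.swap i k j) l * Equiv.swap i k,
    by simp [Equiv.swap_apply_of_ne_of_ne hne h2], by simp⟩

end Aux

/-- Let Ω be a finite set and f : Ω → Fin b a map onto b ≥ 2 labels whose fibres all have the same size a ≥ 2 (a partition of Ω into b blocks of size a, so |Ω| = ab). Then the stabilizer of this partition in the symmetric group on Ω — the permutations g such that x and y lie in the same block exactly when g x and g y do, a group isomorphic to the imprimitive wreath product S_a ≀ S_b — is a maximal subgroup of the symmetric group. -/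
theorem result {Ω : Type*} [Fintype Ω] [DecidableEq Ω] (a b : ℕ) (ha : 2 ≤ a) (hb : 2 ≤ b)
    (f : Ω → Fin b) (hf : ∀ i : Fin b, Nat.card {x : Ω // f x = i} = a) :
    IsCoatom (Subgroup.closure {g : Equiv.Perm Ω | ∀ x y : Ω, f x = f y ↔ f (g x) = f (g y)}) := by
  rw [closure_eq]
  constructor
  · intro htop
    obtain ⟨x, x', hxx, hx, hx'⟩ := exists_two ha f hf ⟨0, by omega⟩
    obtain ⟨y, -, -, hy, -⟩ := exists_two ha f hf ⟨1, by omega⟩
    have hm : Equiv.swap x y ∈ P f := htop ▸ Subgroup.mem_top _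
    have hyx : x' ≠ y := fun e => by rw [e, hy] at hx'; simp at hx'
    have := (hm x x').1 (hx.trans hx'.symm)
    rw [Equiv.swap_apply_left, Equiv.swap_apply_of_ne_of_ne hxx.symm hyx, hy, hx'] at this
    simp at this
  · intro K hK
    obtain ⟨g, hgK, hgP⟩ := SetLike.exists_of_lt hK
    have huv : ∃ u v, f u ≠ f v ∧ Equiv.swap u v ∈ K := by
      by_contra hc
      push Not at hc
      apply hgP
      intro x y
      constructor
      · intro h
        by_contra h'
        apply hc _ _ h'
        rw [Equiv.swap_apply_apply]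
        exact mul_mem (mul_mem hgK (hK.le (swap_mem f h))) (inv_mem hgK)
      · intro h
        by_contra h'
        apply hc _ _ h'
        have : Equiv.swap x y = g⁻¹ * Equiv.swap (g x) (g y) * g := by
          rw [Equiv.swap_apply_apply]; group
        rw [this]
        exact mul_mem (mul_mem (inv_mem hgK) (hK.le (swap_mem f h))) hgK
    obtain ⟨u, v, huv, hs⟩ := huv
    rw [eq_top_iff, ← Equiv.Perm.closure_isSwap, Subgroup.closure_le]
    rintro _ ⟨x, y, -, rfl⟩
    by_cases hxy : f x = f y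
    · exact hK.le (swap_mem f hxy)
    obtain ⟨σ, h1, h2⟩ := exists_perm huv hxy
    obtain ⟨h, hh⟩ := exists_lift a f hf σ
    have hhK : h ∈ K := hK.le (mem_P_of f h σ hh)
    have h3 : Equiv.swap (h u) (h v) ∈ K := by
      rw [Equiv.swap_apply_apply]
      exact mul_mem (mul_mem hhK hs) (inv_mem hhK)
    exact SubmonoidClass.swap_mem_trans K
      (SubmonoidClass.swap_mem_trans K (hK.le (swap_mem f (by rw [hh, h1]))) h3)
      (hK.le (swap_mem f (by rw [hh, h2])))

end Cfsg.Agent.S5905
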