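import Cfsg.Statements.S5908
import Cfsg.Agent.S0827

set_option autoImplicit false
open Cfsg

namespace Cfsg.Agent.S5908

/-- The subgroup lattice of PSU₃(2) (the solvable group of order 72, realised over the field with 4 elements) is not complemented: some subgroup H has no subgroup X with H ⊔ X = ⊤ and H ⊓ X = ⊥. -/
theorem result {F : Type*} [Field F] [Fintype F] (hF : Fintype.card F = 4) :
    ¬ ComplementedLattice (Subgroup (Cfsg.PSU 3 F 2)) := by
  intro h
  obtain ⟨N, _, -, -, ⟨e⟩⟩ := S0827.result hF
  let π := e.toMonoidHom.comp (QuotientGroup.mk' N)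
  have hs : Function.Surjective π := e.surjective.comp (QuotientGroup.mk'_surjective N)
  let Z : Subgroup (QuaternionGroup 2) := Subgroup.zpowers (.a 2)
  obtain ⟨X, hX⟩ := exists_isCompl (Z.comap π)
  have t : Z ⊔ X.map π = ⊤ := by
    rw [← Subgroup.map_comap_eq_self_of_surjective hs Z, ← Subgroup.map_sup, hX.sup_eq_top, Subgroup.map_top_of_surjective _ hs]
  have n : .a 2 ∉ X.map π := by
    rintro ⟨x, m, ex⟩
    have : x = 1 := Subgroup.mem_bot.1 (hX.inf_eq_bot.le ⟨show π x ∈ Z from ex ▸ Subgroup.mem_zpowers _, m⟩)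
    rw [this, map_one] at ex
    exact absurd ex (by decide)
  have b : X.map π = ⊥ := (Subgroup.eq_bot_iff_forall _).2 fun y m => by
    rcases (by decide : ∀ y : QuaternionGroup 2, y = 1 ∨ y = .a 2 ∨ y * y = .a 2) y with e | e | e
    exacts [e, (n (e ▸ m)).elim, (n (e ▸ mul_mem m m)).elim]
  rw [b, sup_bot_eq] at t
  have := (Nat.card_zpowers _).symm.trans ((congrArg (fun H : Subgroup _ => Nat.card H) t).trans Subgroup.card_top)
  rw [orderOf_eq_prime (p := 2) (by decide) (by decide), Nat.card_eq_fintype_card, QuaternionGroup.card] at this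
  omega

end Cfsg.Agent.S5908
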