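import Cfsg.Statements.S5909
import Cfsg.Agent.S5905
import Mathlib.GroupTheory.GroupAction.Jordan
import Mathlib.GroupTheory.SpecificGroups.Alternating.KleinFour
import Mathlib.Tactic.IntervalCases

set_option autoImplicit false
open Cfsg

namespace Cfsg.Agent.S5909

open Cfsg.Agent.S5905 Equiv Equiv.Perm

section Aux
variable {Ω : Type*} [Fintype Ω] [DecidableEq Ω] {a b : ℕ} {f : Ω → Fin b}

theorem corr {K : Subgroup (Perm Ω)} (hK : ∀ h ∈ P f, sign h = 1 → h ∈ K) {h : Perm Ω}
    (hh : h ∈ P f) {p q : Ω} (hpq : p ≠ q) (hf : f p = f q) :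
    ∃ k ∈ K, ∀ x, x ≠ p → x ≠ q → k x = h x := by
  rcases Int.units_eq_one_or (sign h) with h1 | h1
  · exact ⟨h, hK h hh h1, fun _ _ _ => rfl⟩
  · refine ⟨h * swap p q, hK _ (mul_mem hh (swap_mem f hf)) (by simp [h1, sign_swap hpq]),
      fun x h2 h3 => ?_⟩
    rw [Perm.mul_apply, swap_apply_of_ne_of_ne h2 h3]

theorem pairs (hf : ∀ i, Nat.card {x : Ω // f x = i} = a) {x y x' y' : Ω} (h1 : x ≠ y)
    (h2 : x' ≠ y') (h : f x = f y ↔ f x' = f y') : ∃ g ∈ P f, g x = x' ∧ g y = y' := by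
  obtain ⟨σ, hσ1, hσ2⟩ : ∃ σ : Perm (Fin b), σ (f x) = f x' ∧ σ (f y) = f y' := by
    by_cases e : f x = f y
    · exact ⟨swap (f x) (f x'), by simp, by rw [← e, ← h.1 e]; simp⟩
    · exact exists_perm e (fun e' => e (h.2 e'))
  obtain ⟨g, hg⟩ := exists_lift a f hf σ
  have e1 : f (g x) = f x' := by rw [hg, hσ1]
  have e2 : f (swap (g x) x' (g y)) = f y' := by rw [f_swap f e1, hg, hσ2]
  refine ⟨swap (swap (g x) x' (g y)) y' * (swap (g x) x' * g),
    mul_mem (swap_mem f e2) (mul_mem (swap_mem f e1) (mem_P_of f g σ hg)), ?_, by simp⟩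
  have : x' ≠ swap (g x) x' (g y) := by
    intro e
    apply h1
    have := congrArg (swap (g x) x') e
    simpa using this
  simp [swap_apply_of_ne_of_ne this h2]

theorem exists_three (ha : 3 ≤ a) (hf : ∀ i, Nat.card {x : Ω // f x = i} = a) (i : Fin b) :
    ∃ x y z : Ω, x ≠ y ∧ x ≠ z ∧ y ≠ z ∧ f x = i ∧ f y = i ∧ f z = i := by
  have : 2 < Fintype.card {x : Ω // f x = i} := by
    rw [← Nat.card_eq_fintype_card, hf]; omega
  obtain ⟨x, y, z, h1, h2, h3⟩ := Fintype.two_lt_card_iff.mp this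
  exact ⟨x, y, z, fun e => h1 (Subtype.ext e), fun e => h2 (Subtype.ext e),
    fun e => h3 (Subtype.ext e), x.2, y.2, z.2⟩

theorem exists_out (S : Finset (Fin b)) (h : S.card < b) : ∃ i, i ∉ S := by
  by_contra hc
  push Not at hc
  have := Finset.card_le_card (fun c _ => hc c : Finset.univ ⊆ S)
  simp only [Finset.card_univ, Fintype.card_fin] at this
  omega

theorem avoid (ha : 2 ≤ a) (hb : 2 ≤ b) (hab : 3 ≤ a ∨ 3 ≤ b)
    (hf : ∀ i, Nat.card {x : Ω // f x = i} = a) (x y : Ω) :
    ∃ p q, p ≠ q ∧ f p = f q ∧ x ≠ p ∧ x ≠ q ∧ y ≠ p ∧ y ≠ q := by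
  have key : ∀ i, i ≠ f x → i ≠ f y →
      ∃ p q, p ≠ q ∧ f p = f q ∧ x ≠ p ∧ x ≠ q ∧ y ≠ p ∧ y ≠ q := by
    intro i h1 h2
    obtain ⟨p, q, hpq, hp, hq⟩ := exists_two ha f hf i
    exact ⟨p, q, hpq, hp.trans hq.symm, by grind, by grind, by grind, by grind⟩
  by_cases e : f x = f y
  · obtain ⟨i, hi⟩ := exists_out {f x} (by simp; omega)
    exact key i (by simpa using hi) (by simpa [← e] using hi)
  rcases hab with h | h
  · obtain ⟨p, q, r, h1, h2, h3, hp, hq, hr⟩ := exists_three h hf (f x)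
    by_cases e1 : x = p
    · exact ⟨q, r, h3, by grind, by grind, by grind, by grind, by grind⟩
    by_cases e2 : x = q
    · exact ⟨p, r, h2, by grind, by grind, by grind, by grind, by grind⟩
    · exact ⟨p, q, h1, by grind, by grind, by grind, by grind, by grind⟩
  · obtain ⟨i, hi⟩ := exists_out {f x, f y} (lt_of_le_of_lt Finset.card_le_two (by omega))
    simp only [Finset.mem_insert, Finset.mem_singleton, not_or] at hi
    exact key i hi.1 hi.2

theorem two_trans (ha : 2 ≤ a) (hb : 2 ≤ b) (hab : 3 ≤ a ∨ 3 ≤ b)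
    (hf : ∀ i, Nat.card {x : Ω // f x = i} = a) {K : Subgroup (Perm Ω)}
    (hK : ∀ h ∈ P f, sign h = 1 → h ∈ K) {g : Perm Ω} (hg : g ∈ K) (hgP : g ∉ P f)
    {x y x' y' : Ω} (h1 : x ≠ y) (h2 : x' ≠ y') : ∃ k ∈ K, k x = x' ∧ k y = y' := by
  have key : ∀ {x y x' y' : Ω}, x ≠ y → x' ≠ y' → (f x = f y ↔ f x' = f y') →
      ∃ k ∈ K, k x = x' ∧ k y = y' := by
    intro x y x' y' h1 h2 h
    obtain ⟨g, hg, e1, e2⟩ := pairs hf h1 h2 h
    obtain ⟨p, q, hpq, e, n1, n2, n3, n4⟩ := avoid ha hb hab hf x y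
    obtain ⟨k, hk, hk'⟩ := corr hK hg hpq e
    exact ⟨k, hk, (hk' x n1 n2).trans e1, (hk' y n3 n4).trans e2⟩
  by_cases h : f x = f y ↔ f x' = f y'
  · exact key h1 h2 h
  obtain ⟨u, v, huv⟩ : ∃ u v, ¬ (f u = f v ↔ f (g u) = f (g v)) := by
    by_contra hc
    push Not at hc
    exact hgP hc
  have hne : u ≠ v := by rintro rfl; simp at huv
  have hne' : g u ≠ g v := g.injective.ne hne
  by_cases h3 : f x = f y ↔ f u = f v
  · obtain ⟨k1, hk1, e1, e2⟩ := key h1 hne h3
    obtain ⟨k2, hk2, e3, e4⟩ := key hne' h2 (by tauto)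
    exact ⟨k2 * g * k1, mul_mem (mul_mem hk2 hg) hk1, by simp [e1, e3], by simp [e2, e4]⟩
  · obtain ⟨k1, hk1, e1, e2⟩ := key h1 hne' (by tauto)
    obtain ⟨k2, hk2, e3, e4⟩ := key hne h2 (by tauto)
    exact ⟨k2 * g⁻¹ * k1, mul_mem (mul_mem hk2 (inv_mem hg)) hk1, by simp [e1, e3],
      by simp [e2, e4]⟩

theorem three_cycle (hb : b = 3 ∨ 5 ≤ b) (hf : ∀ i, Nat.card {x : Ω // f x = i} = 2)
    {K : Subgroup (Perm Ω)} (hK : ∀ h ∈ P f, sign h = 1 → h ∈ K)
    (h2 : ∀ {x y x' y' : Ω}, x ≠ y → x' ≠ y' → ∃ k ∈ K, k x = x' ∧ k y = y') :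
    ∃ c ∈ K, IsThreeCycle c := by
  have hτ : ∀ x, ∃ x', x' ≠ x ∧ f x' = f x ∧ ∀ z, f z = f x → z = x ∨ z = x' := by
    intro x
    obtain ⟨y, hy, hy'⟩ := (Nat.card_eq_two_iff' (⟨x, rfl⟩ : {z : Ω // f z = f x})).mp (hf _)
    refine ⟨y, fun e => hy (Subtype.ext e), y.2, fun z hz => ?_⟩
    by_cases e : z = x
    · exact Or.inl e
    · exact Or.inr (congrArg Subtype.val (hy' ⟨z, hz⟩ fun e' => e (congrArg Subtype.val e')))
  choose τ hτ1 hτ2 hτ3 using hτ
  have hsurj : ∀ i, ∃ x, f x = i := fun i => by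
    obtain ⟨x, -, -, hx, -⟩ := exists_two le_rfl f hf i
    exact ⟨x, hx⟩
  have hD : ∀ s t, swap s (τ s) * swap t (τ t) ∈ K := fun s t =>
    hK _ (mul_mem (swap_mem f (hτ2 s).symm) (swap_mem f (hτ2 t).symm))
      (by simp [sign_swap (hτ1 s).symm, sign_swap (hτ1 t).symm])
  obtain ⟨u, hu⟩ := hsurj ⟨0, by omega⟩
  obtain ⟨v, hv⟩ := hsurj ⟨1, by omega⟩
  have huv : f u ≠ f v := by rw [hu, hv]; simp
  have huv' : u ≠ v := fun e => huv (congrArg f e)
  obtain ⟨k, hk, e1, e2⟩ := h2 (hτ1 u).symm huv'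
  have hC : ∀ t, swap u v * swap (k t) (k (τ t)) ∈ K := fun t => by
    have := mul_mem (mul_mem hk (hD u t)) (inv_mem hk)
    have e : swap u v * swap (k t) (k (τ t)) = k * (swap u (τ u) * swap t (τ t)) * k⁻¹ := by
      conv_lhs => rw [← e2]; enter [1, 1]; rw [← e1]
      rw [swap_apply_apply, swap_apply_apply]
      group
    rwa [e]
  have kinj : ∀ x y, k x = k y → x = y := fun x y e => k.injective e
  have n1 : τ u ≠ v := fun e => huv (by rw [← e, hτ2])
  obtain ⟨s, hs⟩ := k.surjective (τ u)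
  rcases hb with hb | hb
  · obtain ⟨t, ht⟩ := k.surjective (τ v)
    have a1 := hτ1 u
    have a2 := hτ2 u
    have a3 := hτ1 v
    have a4 := hτ2 v
    have a5 := hτ1 t
    have a6 := hτ2 t
    have b1 : f t ≠ f u := fun e => by rcases hτ3 u t e with e | e <;> grind
    by_cases hz : k (τ t) = τ u
    · obtain ⟨p, hp⟩ := hsurj ⟨2, by omega⟩
      obtain ⟨r, hr⟩ := k.surjective p
      have c0 : f p ≠ f u := by rw [hp, hu]; simp
      have c0' : f p ≠ f v := by rw [hp, hv]; simp
      have a7 := hτ1 r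
      have a8 := hτ2 r
      have c1 : f r ≠ f u := fun e => by rcases hτ3 u r e with e | e <;> grind
      have c2 : f r ≠ f t := fun e => by rcases hτ3 t r e with e | e <;> grind
      have c3 : f (k (τ r)) ≠ f u := fun e => by rcases hτ3 u _ e with e | e <;> grind
      have c4 : f (k (τ r)) ≠ f v := fun e => by rcases hτ3 v _ e with e | e <;> grind
      have c5 : f (k (τ r)) = f p := by
        rw [hu] at c3
        rw [hv] at c4
        rw [hp]
        have := (f (k (τ r))).2
        simp only [ne_eq, Fin.ext_iff] at c3 c4 ⊢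
        omega
      have c6 : k (τ r) = τ p := by rcases hτ3 p _ c5 with e | e <;> grind
      refine ⟨_, ?_, isThreeCycle_swap_mul_swap_same huv' a1.symm n1.symm⟩
      have := mul_mem (hC r) (hD p u)
      rwa [hr, c6, mul_assoc, swap_mul_self_mul] at this
    · obtain ⟨z, hz'⟩ : ∃ z, z = k (τ t) := ⟨_, rfl⟩
      have a7 := hτ1 z
      have a8 := hτ2 z
      have c3 : f z ≠ f u := fun e => by rcases hτ3 u _ e with e | e <;> grind
      have c4 : f z ≠ f v := fun e => by rcases hτ3 v _ e with e | e <;> grind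
      have hm : swap (τ v) z * swap v (τ z) ∈ K := by
        refine hK _ (mem_P_of f _ (swap (f v) (f z)) fun x => ?_)
          (by rw [map_mul, sign_swap (by grind), sign_swap (by grind)]; simp)
        have d1 := hτ3 v x
        have d2 := hτ3 z x
        simp only [Perm.mul_apply, swap_apply_def]
        grind
      refine ⟨_, ?_, isThreeCycle_swap_mul_swap_same (a := v) (b := u) (c := τ z) huv'.symm
        (by grind) (by grind)⟩
      have := mul_mem (hC t) hm
      rwa [ht, ← hz', mul_assoc, swap_mul_self_mul, swap_comm u v] at this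
  · obtain ⟨j, hj⟩ := exists_out {f u, f s} (lt_of_le_of_lt Finset.card_le_two (by omega))
    simp only [Finset.mem_insert, Finset.mem_singleton, not_or] at hj
    obtain ⟨t, rfl⟩ := hsurj j
    obtain ⟨i, hi⟩ := exists_out {f u, f v, f (k t), f (k (τ t))}
      (lt_of_le_of_lt Finset.card_le_four (by omega))
    simp only [Finset.mem_insert, Finset.mem_singleton, not_or] at hi
    obtain ⟨p, rfl⟩ := hsurj i
    have a1 := hτ1 u
    have a2 := hτ2 u
    have a6 := hτ2 t
    have a7 := hτ2 p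
    obtain ⟨c, hc⟩ : ∃ c, c = swap u v * swap (k t) (k (τ t)) := ⟨_, rfl⟩
    have hcK : c ∈ K := hc ▸ hC t
    have c1 : c u = v := by simp only [hc, Perm.mul_apply, swap_apply_def]; grind
    have c2 : c (τ u) = τ u := by simp only [hc, Perm.mul_apply, swap_apply_def]; grind
    have c3 : c p = p := by simp only [hc, Perm.mul_apply, swap_apply_def]; grind
    have c4 : c (τ p) = τ p := by simp only [hc, Perm.mul_apply, swap_apply_def]; grind
    have e3 : swap v (τ u) = c * swap u (τ u) * c⁻¹ := by rw [← swap_apply_apply, c1, c2]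
    have e4 : swap p (τ p) = c * swap p (τ p) * c⁻¹ := by rw [← swap_apply_apply, c3, c4]
    have hm : swap v (τ u) * swap p (τ p) ∈ K := by
      have := mul_mem (mul_mem hcK (hD u p)) (inv_mem hcK)
      rw [e3, e4]
      convert this using 1
      group
    refine ⟨_, ?_, isThreeCycle_swap_mul_swap_same (a := τ u) (b := v) (c := u) n1 a1 huv'.symm⟩
    have := mul_mem hm (hD p u)
    rwa [mul_assoc, swap_mul_self_mul, swap_comm v, swap_comm u] at this

end Aux

/-- Let Ω be a finite set whose size is not 8, and f : Ω → Fin b a labelling with b ≥ 2 whose fibres all have the same size a ≥ 2 (a partition into b blocks of size a). Then the even permutations preserving the partition — the intersection of the imprimitive wreath product S_a ≀ S_b with the alternating group — form a maximal subgroup of the alternating group on Ω. -/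
theorem result {Ω : Type*} [Fintype Ω] [DecidableEq Ω] (h8 : Fintype.card Ω ≠ 8) (a b : ℕ) (ha : 2 ≤ a) (hb : 2 ≤ b)
    (f : Ω → Fin b) (hf : ∀ i : Fin b, Nat.card {x : Ω // f x = i} = a) :
    IsCoatom ((Subgroup.closure {g : Equiv.Perm Ω | ∀ x y : Ω, f x = f y ↔ f (g x) = f (g y)} ⊓ alternatingGroup Ω).subgroupOf (alternatingGroup Ω)) := by
  rw [closure_eq]
  have hcard : Nat.card Ω = b * a := by
    rw [← Nat.card_congr (Equiv.sigmaFiberEquiv f), Nat.card_sigma]
    simp only [hf, Finset.sum_const, Finset.card_univ, Fintype.card_fin, smul_eq_mul]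
  rw [← Nat.card_eq_fintype_card] at h8
  constructor
  · intro htop
    obtain ⟨x, x', hxx, hx, hx'⟩ := exists_two ha f hf ⟨0, by omega⟩
    obtain ⟨y, -, -, hy, -⟩ := exists_two ha f hf ⟨1, by omega⟩
    have hyx : x ≠ y := fun e => by rw [e, hy] at hx; simp at hx
    have hyx' : x' ≠ y := fun e => by rw [e, hy] at hx'; simp at hx'
    have hA : swap x y * swap x x' ∈ alternatingGroup Ω := by
      simp [mem_alternatingGroup, sign_swap hyx, sign_swap hxx]
    have hm : (⟨_, hA⟩ : alternatingGroup Ω) ∈ (P f ⊓ alternatingGroup Ω).subgroupOf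
      (alternatingGroup Ω) := htop ▸ Subgroup.mem_top _
    have := (hm.1 x x').1 (hx.trans hx'.symm)
    simp [swap_apply_of_ne_of_ne hxx.symm hyx', hx', hy] at this
  · intro K' hK'
    obtain ⟨g, hgK, hgP⟩ := SetLike.exists_of_lt hK'
    by_cases hab : 3 ≤ a ∨ 3 ≤ b
    · have hK : ∀ h ∈ P f, sign h = 1 → h ∈ K'.map (alternatingGroup Ω).subtype :=
        fun h hh hs => ⟨⟨h, hs⟩, hK'.le ⟨hh, hs⟩, rfl⟩
      have h2 : ∀ {x y x' y' : Ω}, x ≠ y → x' ≠ y' →
          ∃ k ∈ K'.map (alternatingGroup Ω).subtype, k x = x' ∧ k y = y' :=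
        fun h1 h2 => two_trans ha hb hab hf hK (g := g) ⟨g, hgK, rfl⟩
          (fun h => hgP ⟨h, g.2⟩) h1 h2
      have h3 : ∃ c ∈ K'.map (alternatingGroup Ω).subtype, IsThreeCycle c := by
        by_cases ha3 : 3 ≤ a
        · obtain ⟨x, y, z, n1, n2, n3, hx, hy, hz⟩ := exists_three ha3 hf ⟨0, by omega⟩
          exact ⟨_, hK _ (mul_mem (swap_mem f (hx.trans hy.symm)) (swap_mem f (hx.trans hz.symm)))
            (by simp [sign_swap n1, sign_swap n2]), isThreeCycle_swap_mul_swap_same n1 n2 n3⟩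
        · obtain rfl : a = 2 := by omega
          exact three_cycle (by omega) hf hK h2
      obtain ⟨c, hc, hc3⟩ := h3
      have hprim : MulAction.IsPreprimitive (K'.map (alternatingGroup Ω).subtype) Ω := by
        apply MulAction.isPreprimitive_of_is_two_pretransitive
        rw [MulAction.is_two_pretransitive_iff]
        intro x y x' y' h1 h1'
        obtain ⟨k, hk, e1, e2⟩ := h2 h1 h1'
        exact ⟨⟨k, hk⟩, e1, e2⟩
      have hle := alternatingGroup_le_of_isPreprimitive_of_isThreeCycle_mem hprim hc3 hc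
      rw [eq_top_iff]
      intro x _
      obtain ⟨y, hy, e⟩ := hle x.2
      rwa [← (Subtype.ext e : y = x)]
    · obtain rfl : a = 2 := by omega
      obtain rfl : b = 2 := by omega
      have hK : ∀ h ∈ P f, sign h = 1 → h ∈ P f ⊓ alternatingGroup Ω := fun h hh hs => ⟨hh, hs⟩
      have htr : MulAction.IsPretransitive ↥(P f ⊓ alternatingGroup Ω) Ω := by
        constructor
        intro x y
        obtain ⟨i, hi⟩ := exists_ne (f x)
        obtain ⟨j, hj⟩ := exists_ne (f y)
        obtain ⟨p, q, hpq, hp, hq⟩ := exists_two le_rfl f hf i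
        obtain ⟨r, -, -, hr, -⟩ := exists_two le_rfl f hf j
        obtain ⟨h, hh, e, -⟩ := pairs hf (x := x) (y := p) (x' := y) (y' := r) (by grind)
          (by grind) (by grind)
        obtain ⟨k, hk, hk'⟩ := corr hK hh hpq (hp.trans hq.symm)
        exact ⟨⟨k, hk⟩, (hk' x (by grind) (by grind)).trans e⟩
      obtain ⟨x, -⟩ := exists_two le_rfl f hf 0
      have d1 : 4 ∣ Nat.card ↥(P f ⊓ alternatingGroup Ω) := by
        have := (MulAction.stabilizer ↥(P f ⊓ alternatingGroup Ω) x).index_dvd_card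
        rwa [MulAction.index_stabilizer_of_transitive, hcard] at this
      have d2 : Nat.card ↥((P f ⊓ alternatingGroup Ω).subgroupOf (alternatingGroup Ω)) =
          Nat.card ↥(P f ⊓ alternatingGroup Ω) :=
        Nat.card_congr (Subgroup.subgroupOfEquivOfLe inf_le_right).toEquiv
      have d3 := Subgroup.card_dvd_of_le hK'.le
      have d4 := Subgroup.card_subgroup_dvd_card K'
      have d5 : Nat.card (alternatingGroup Ω) = 12 := alternatingGroup.card_of_card_eq_four hcard
      have d6 : Nat.card ↥((P f ⊓ alternatingGroup Ω).subgroupOf (alternatingGroup Ω)) ≠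
          Nat.card K' := fun e => hK'.ne (Subgroup.eq_of_le_of_card_ge hK'.le e.ge)
      apply Subgroup.eq_top_of_card_eq
      rw [d2] at d3 d6
      rw [d5] at d4 ⊢
      have d7 := Nat.le_of_dvd (by norm_num) d4
      have d8 := Nat.le_of_dvd Nat.card_pos d3
      have d9 := Nat.le_of_dvd Nat.card_pos d1
      have d10 := d1.trans d3
      generalize Nat.card ↥(P f ⊓ alternatingGroup Ω) = m at *
      generalize Nat.card K' = n at *
      interval_cases n <;> omega

end Cfsg.Agent.S5909
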