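import Cfsg.Statements.S5910
import Mathlib

set_option autoImplicit false
open Cfsg

namespace Cfsg.Agent.S5910
open Equiv

def xr (a b c : Fin 8) : Fin 8 := Fin.ofNat 8 (a.1 ^^^ b.1 ^^^ c.1)

def K : Subgroup (Perm (Fin 8)) where
  carrier := {σ | ∀ a b c : Fin 8, σ (xr a b c) = xr (σ a) (σ b) (σ c)}
  one_mem' := fun _ _ _ => rfl
  mul_mem' := fun {s t} hs ht a b c => by
    show s (t _) = _
    rw [ht, hs]; rfl
  inv_mem' := fun {s} hs a b c => by
    apply s.injective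
    rw [hs]; simp

def sg (u : List ℕ) : ℤˣ := ∏ j : Fin 8, ∏ i ∈ Finset.Iio j, (if u.getD i 0 < u.getD j 0 then 1 else -1 : ℤˣ)

def ok (u : List ℕ) : Bool := (List.range 8).all fun a => (List.range 8).all fun b => (List.range 8).all fun c =>
  Nat.beq (u.getD ((a ^^^ b ^^^ c) % 8) 0) ((u.getD a 0 ^^^ u.getD b 0 ^^^ u.getD c 0) % 8)

theorem main : ∀ a0 a1 : Fin 8, a0 ≠ a1 ∧ a0.1 / 2 = a1.1 / 2 → ∀ a2 a3 : Fin 8,
    a2 ≠ a3 ∧ a2.1 / 2 = a3.1 / 2 ∧ a0.1 / 2 ≠ a2.1 / 2 → ∀ a4 a5 : Fin 8,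
    a4 ≠ a5 ∧ a4.1 / 2 = a5.1 / 2 ∧ a0.1 / 2 ≠ a4.1 / 2 ∧ a2.1 / 2 ≠ a4.1 / 2 → ∀ a6 a7 : Fin 8,
    a6 ≠ a7 ∧ a6.1 / 2 = a7.1 / 2 ∧ a0.1 / 2 ≠ a6.1 / 2 ∧ a2.1 / 2 ≠ a6.1 / 2 ∧ a4.1 / 2 ≠ a6.1 / 2 →
    sg [a0, a1, a2, a3, a4, a5, a6, a7] = 1 → ok [a0, a1, a2, a3, a4, a5, a6, a7] = true := by
  set_option synthInstance.maxSize 2000 in decide +kernel

theorem mem_K (y : Perm (Fin 8)) (h : ∀ i j : Fin 8, i.1 / 2 = j.1 / 2 ↔ (y i).1 / 2 = (y j).1 / 2) (hs : y.sign = 1) :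
    y ∈ K := by
  have u : ∀ i : Fin 8, [(y 0).1, (y 1).1, (y 2).1, (y 3).1, (y 4).1, (y 5).1, (y 6).1, (y 7).1].getD i 0 = (y i).1 :=
    fun i => by fin_cases i <;> rfl
  have n : ∀ i j : Fin 8, i.1 / 2 ≠ j.1 / 2 → (y i).1 / 2 ≠ (y j).1 / 2 := fun i j e => mt (h i j).2 e
  have m := main (y 0) (y 1) ⟨y.injective.ne (by decide), (h _ _).1 (by decide)⟩
    (y 2) (y 3) ⟨y.injective.ne (by decide), (h _ _).1 (by decide), n _ _ (by decide)⟩
    (y 4) (y 5) ⟨y.injective.ne (by decide), (h _ _).1 (by decide), n _ _ (by decide), n _ _ (by decide)⟩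
    (y 6) (y 7) ⟨y.injective.ne (by decide), (h _ _).1 (by decide), n _ _ (by decide), n _ _ (by decide), n _ _ (by decide)⟩
    (by
      rw [← hs, y.sign_eq_prod_prod_Iio, sg]
      simp only [u, Fin.val_fin_lt])
  simp only [ok, List.all_eq_true, List.mem_range, Nat.beq_eq] at m
  intro a b c
  have := m a a.2 b b.2 c c.2
  rw [show (a.1 ^^^ b.1 ^^^ c.1) % 8 = (xr a b c).1 from rfl, u, u, u, u] at this
  exact Fin.ext this


/-- Let Ω be a set with 8 elements and f : Ω → Fin 4 a labelling whose four fibres all have size 2 (a partition of the 8 points into 4 pairs). Then the group of even permutations preserving this partition, (S₂ ≀ S₄) ∩ A₈, is not a maximal subgroup of the alternating group A₈ (it lies in a subgroup isomorphic to the affine group AGL₃(2)). -/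
theorem result {Ω : Type*} [Fintype Ω] [DecidableEq Ω] (h8 : Fintype.card Ω = 8)
    (f : Ω → Fin 4) (hf : ∀ i : Fin 4, Nat.card {x : Ω // f x = i} = 2) :
    ¬ IsCoatom ((Subgroup.closure {g : Equiv.Perm Ω | ∀ x y : Ω, f x = f y ↔ f (g x) = f (g y)} ⊓ alternatingGroup Ω).subgroupOf (alternatingGroup Ω)) := by
  classical
  have e0 : ∀ i : Fin 4, {x : Ω // f x = i} ≃ Fin 2 := fun i => Finite.equivFinOfCardEq (hf i)
  let e : Ω ≃ Fin 8 := (Equiv.sigmaFiberEquiv f).symm.trans ((Equiv.sigmaCongrRight e0).trans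
    ((Equiv.sigmaEquivProd _ _).trans finProdFinEquiv))
  have he : ∀ x, (e x).1 / 2 = (f x).1 := fun x => by
    show ((e0 (f x) ⟨x, rfl⟩).1 + 2 * (f x).1) / 2 = _
    have := (e0 (f x) ⟨x, rfl⟩).2
    omega
  have he' : ∀ x y, f x = f y ↔ (e x).1 / 2 = (e y).1 / 2 := fun x y => by rw [he, he, Fin.ext_iff]
  let S : Subgroup (Perm Ω) :=
    { carrier := {g | ∀ x y : Ω, f x = f y ↔ f (g x) = f (g y)}
      one_mem' := fun _ _ => Iff.rfl
      mul_mem' := fun {a b} ha hb x y => (hb x y).trans (ha _ _)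
      inv_mem' := fun {a} ha x y => by
        have := ha (a⁻¹ x) (a⁻¹ y)
        simp only [Perm.coe_inv, apply_symm_apply] at this
        exact this.symm }
  have hS : Subgroup.closure {g : Equiv.Perm Ω | ∀ x y : Ω, f x = f y ↔ f (g x) = f (g y)} = S := S.closure_eq
  rw [hS]
  intro h
  let a : Perm (Fin 8) := c[1, 2, 4] * c[3, 6, 5]
  let b : Perm (Fin 8) := c[0, 1, 2]
  have sa : e.symm.permCongr a ∈ alternatingGroup Ω := by
    rw [Perm.mem_alternatingGroup, Perm.sign_permCongr]; decide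
  have sb : e.symm.permCongr b ∈ alternatingGroup Ω := by
    rw [Perm.mem_alternatingGroup, Perm.sign_permCongr]; decide
  have ee : ∀ x : Perm (Fin 8), e.permCongrHom.toMonoidHom (e.symm.permCongr x) = x := fun x => by
    ext i; simp [Equiv.permCongrHom]
  have h1 := h.2 ((K.comap e.permCongrHom.toMonoidHom).subgroupOf _) (lt_of_le_of_ne (fun g hg => by
      have h2 : g.1 ∈ S := hg.1
      refine mem_K (e.permCongr g.1) (fun i j => ?_) (by rw [Perm.sign_permCongr]; exact g.2)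
      obtain ⟨i, rfl⟩ := e.surjective i
      obtain ⟨j, rfl⟩ := e.surjective j
      simp only [permCongr_apply, symm_apply_apply, ← he']
      exact h2 i j) (fun h2 => by
      have h3 : (⟨_, sa⟩ : alternatingGroup Ω) ∈ (K.comap e.permCongrHom.toMonoidHom).subgroupOf _ := by
        show e.permCongrHom.toMonoidHom (e.symm.permCongr a) ∈ K
        rw [ee]
        show ∀ x y z, a (xr x y z) = xr (a x) (a y) (a z)
        decide +kernel
      rw [← h2] at h3
      have h4 : f (e.symm 0) = f (e.symm 1) ↔ f (e.symm.permCongr a (e.symm 0)) = f (e.symm.permCongr a (e.symm 1)) :=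
        h3.1 (e.symm 0) (e.symm 1)
      simp only [he', permCongr_apply, symm_symm, apply_symm_apply] at h4
      exact absurd h4 (by decide +kernel)))
  have h3 : (⟨_, sb⟩ : alternatingGroup Ω) ∈ (K.comap e.permCongrHom.toMonoidHom).subgroupOf _ := h1 ▸ Subgroup.mem_top _
  have h4 : e.permCongrHom.toMonoidHom (e.symm.permCongr b) ∈ K := h3
  rw [ee] at h4
  exact absurd (h4 0 1 4) (by decide +kernel)

end Cfsg.Agent.S5910
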