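import Cfsg.Statements.S5914
import Mathlib
import Cfsg.Agent.H8.DirPow

set_option autoImplicit false
open Cfsg

namespace Cfsg.Agent.S5914

open Subgroup H7 H8

/-- A non-trivial finite group G is characteristically simple (its only characteristic subgroups are 1 and G) if and only if G is isomorphic to a direct power S^n (n ≥ 1) of some simple group S (possibly cyclic of prime order). -/
theorem result {G : Type*} [Group G] [Finite G] [Nontrivial G] :
    (∀ H : Subgroup G, H.Characteristic → H = ⊥ ∨ H = ⊤) ↔
    ∃ (S : Type) (_ : Group S) (_ : IsSimpleGroup S) (n : ℕ), 1 ≤ n ∧ Nonempty (G ≃* (Fin n → S)) := by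
  constructor
  · intro h
    obtain ⟨T, _, m, a, b, c⟩ := pow_of_char_simple h
    exact ⟨T, _, a, m, b, c⟩
  rintro ⟨S, i1, i2, n, -, ⟨e⟩⟩ H hH
  letI := i1
  haveI : Finite (Fin n → S) := Finite.of_equiv G e.toEquiv
  rcases char_simple_pow (H.map e.toMonoidHom) (characteristic_iff_map_le.2 fun β => by
    rintro _ ⟨_, ⟨x, hx, rfl⟩, rfl⟩
    exact ⟨_, characteristic_iff_le_comap.1 hH ((e.trans β).trans e.symm) hx, by simp⟩) with h | h
  · exact Or.inl ((map_eq_bot_iff_of_injective _ e.injective).1 h)
  · right
    rw [← comap_map_eq_self_of_injective (f := e.toMonoidHom) e.injective H, h, comap_top]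

end Cfsg.Agent.S5914
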