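import Cfsg.Statements.S5939
import Cfsg.Agent.H4.Max3

set_option autoImplicit false
open Cfsg

namespace Cfsg.Agent.S5939


/-- Let p be a prime and F a finite field of characteristic p such that either F has p elements and p ≡ ±1 (mod 10), or F has p² elements and p ≡ ±3 (mod 10). Then PSL_2(F) has a maximal subgroup isomorphic to the alternating group A_5. -/
theorem result {F : Type*} [Field F] [Fintype F] (p : ℕ) [Fact p.Prime] [CharP F p] (h : (Fintype.card F = p ∧ (p % 10 = 1 ∨ p % 10 = 9)) ∨ (Fintype.card F = p ^ 2 ∧ (p % 10 = 3 ∨ p % 10 = 7))) : ∃ H : Subgroup (Matrix.ProjectiveSpecialLinearGroup (Fin 2) F), IsCoatom H ∧ Nonempty (H ≃* alternatingGroup (Fin 5)) := by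
  rw [← Nat.card_eq_fintype_card] at h
  obtain ⟨φ, hφ⟩ := H4.exists_a5_of_dvd (F := F) (by
    rcases h with ⟨e, h⟩ | ⟨e, h⟩
    · omega
    · have : p % 5 = 3 ∨ p % 5 = 2 := by omega
      rw [e, sq, Nat.mul_mod]; rcases this with e | e <;> simp [e])
  exact H4.exists_coatom_of_covBy (H4.a5_covBy (p := p) (by omega)
    (h.imp (fun e => ⟨e.1, by omega⟩) fun e => ⟨e.1, by omega⟩) hφ)
    ⟨(MonoidHom.ofInjective hφ).symm⟩

end Cfsg.Agent.S5939
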