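import Cfsg.Statements.S5940
import Cfsg.Agent.H4.Max3

set_option autoImplicit false
open Cfsg

namespace Cfsg.Agent.S5940


/-- Let p ≥ 5 be a prime with p ≡ ±3 (mod 8) and p ≢ ±1 (mod 10), and F a field with p elements. Then PSL_2(F) has a maximal subgroup isomorphic to the alternating group A_4. -/
theorem result {F : Type*} [Field F] [Fintype F] (p : ℕ) [Fact p.Prime] (hF : Fintype.card F = p) (h5 : 5 ≤ p) (h8 : p % 8 = 3 ∨ p % 8 = 5) (h10 : p % 10 ≠ 1 ∧ p % 10 ≠ 9) : ∃ H : Subgroup (Matrix.ProjectiveSpecialLinearGroup (Fin 2) F), IsCoatom H ∧ Nonempty (H ≃* alternatingGroup (Fin 4)) := by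
  rw [← Nat.card_eq_fintype_card] at hF
  have hp' : p.Prime := Fact.out
  have hq : Odd (Nat.card F) := Nat.odd_iff.2 (by omega)
  obtain ⟨φ, hφ⟩ := H4.exists_a4_odd (H4.two_ne_zero_iff_odd.2 hq)
  exact H4.exists_coatom_of_covBy (H4.a4_covBy (hF ▸ hp') (by omega) (by omega) (by omega) hφ)
    ⟨(MonoidHom.ofInjective hφ).symm⟩

end Cfsg.Agent.S5940
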