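import Cfsg.Statements.S5944
import Mathlib
import Cfsg.Agent.H8.AutA

set_option autoImplicit false
open Cfsg

namespace Cfsg.Agent.S5944

open H8 Subgroup Equiv

/-- For n ≠ 4, every proper subgroup of the symmetric group S_n other than the alternating group A_n has index at least n. -/
theorem result (n : ℕ) (hn : n ≠ 4) (H : Subgroup (Equiv.Perm (Fin n))) (hH : H ≠ ⊤) (hA : H ≠ alternatingGroup (Fin n)) : n ≤ H.index := by
  have h1 := mt index_eq_one.1 hH
  have h2 := mt Perm.eq_alternatingGroup_of_index_eq_two hA
  have h0 := H.index_ne_zero_of_finite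
  by_contra! h
  have h5 : 5 ≤ n := by omega
  haveI : Nontrivial (Fin n) := Fin.nontrivial_iff_two_le.2 (by omega)
  have h3 : H.normalCore = ⊥ := by_contra fun e => by
    have := (Perm.alternatingGroup_le_of_normal (by simpa using h5) ((nontrivial_iff_ne_bot _).2 e)).trans
      H.normalCore_le
    have := Nat.le_of_dvd two_pos (alternatingGroup.index_eq_two (α := Fin n) ▸ index_dvd_of_le this)
    omega
  have h4 := Nat.card_le_card_of_injective _ ((MonoidHom.ker_eq_bot_iff _).1 ((normalCore_eq_ker H).symm.trans h3))
  rw [Nat.card_perm, Nat.card_perm, Nat.card_fin, ← index_eq_card] at h4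
  have := (Nat.factorial_lt (by omega)).2 h
  omega

end Cfsg.Agent.S5944
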