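import Cfsg.Statements.S5946
import Mathlib

set_option autoImplicit false
open Cfsg

namespace Cfsg.Agent.S5946

/-- Let F ⊆ K be finite fields with [K : F] = n ≥ 2 and regard K as an n-dimensional F-vector space. The Singer group M ≤ GL_F(K) of multiplications by the non-zero elements of K is self-centralizing: every F-linear automorphism of K commuting with all of M lies in M. -/
theorem result {F K : Type*} [Field F] [Fintype F] [Field K] [Fintype K] [Algebra F K] (n : ℕ) (hn : 2 ≤ n) (hdim : Module.finrank F K = n) :
    Subgroup.centralizer (((Units.map ((Algebra.lmul F K : K →ₐ[F] Module.End F K) : K →* Module.End F K)).range : Subgroup (Module.End F K)ˣ) : Set (Module.End F K)ˣ) = (Units.map ((Algebra.lmul F K : K →ₐ[F] Module.End F K) : K →* Module.End F K)).range := by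
  set_option maxSynthPendingDepth 3 in
  refine le_antisymm (fun g h => ?_) ?_
  · have k : ∀ x : K, g.1 x = g.1 1 * x := fun x => by
      rcases eq_or_ne x 0 with rfl | z
      · simp
      · simpa [mul_comm] using (DFunLike.congr_fun (congrArg Units.val (h _ ⟨Units.mk0 x z, rfl⟩)) 1).symm
    refine ⟨Units.mk0 (g.1 1) fun z => one_ne_zero ((Module.End.isUnit_iff _).1 g.isUnit |>.1 (z.trans (map_zero _).symm)),
      Units.ext (LinearMap.ext fun x => (k x).symm)⟩
  · rintro _ ⟨a, rfl⟩ _ ⟨b, rfl⟩
    rw [← map_mul, mul_comm, map_mul]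

end Cfsg.Agent.S5946
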