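import Cfsg.Statements.S5947
import Cfsg.Agent.H2.SD3

set_option autoImplicit false
open Cfsg

namespace Cfsg.Agent.S5947


theorem aux {F K : Type*} [Field F] [Fintype F] [Field K] [Fintype K] [Algebra F K]
    (U : Subgroup (Module.End F K)ˣ) (hcard : Nat.card U = Fintype.card K - 1)
    {L : Type*} [Field L] [Algebra F L] (e : K ≃ₗ[F] L) (ι : U → L)
    (he : ∀ (h : U) v, e (((h : (Module.End F K)ˣ) : Module.End F K) v) = ι h * e v) :
    ∃ g : (Module.End F K)ˣ, U.map (MulAut.conj g).toMonoidHom = (Units.map ((Algebra.lmul F K : K →ₐ[F] Module.End F K) : K →* Module.End F K)).range := by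
  classical
  haveI : Finite L := Finite.of_equiv _ e.toEquiv
  obtain ⟨f⟩ := FiniteField.nonempty_algHom_of_finrank_dvd (F := F) (K := L) (L := K)
    (by rw [e.finrank_eq])
  have hf : Function.Bijective f := f.injective.bijective_of_nat_card_le
    (le_of_eq (Nat.card_congr e.toEquiv))
  let g0 : K ≃ₗ[F] K := e.trans (AlgEquiv.ofBijective f hf).toLinearEquiv
  have hg0 : ∀ v, g0 v = f (e v) := fun v => rfl
  let g : (Module.End F K)ˣ := LinearMap.GeneralLinearGroup.ofLinearEquiv g0
  haveI : Finite (Module.End F K) := Finite.of_injective _ DFunLike.coe_injective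
  refine ⟨g, Subgroup.eq_of_le_of_card_ge ?_ ?_⟩
  · rintro _ ⟨u, hu, rfl⟩
    have h1 : ∀ v, ((g * u * g⁻¹ : (Module.End F K)ˣ) : Module.End F K) v = f (ι ⟨u, hu⟩) * v := by
      intro v
      obtain ⟨w, rfl⟩ := g0.surjective v
      have h2 : ((g⁻¹ : (Module.End F K)ˣ) : Module.End F K) (g0 w) = w := g0.symm_apply_apply w
      rw [Units.val_mul, Units.val_mul, Module.End.mul_apply, Module.End.mul_apply, h2]
      change g0 _ = _
      rw [hg0, hg0, ← map_mul, ← he]
    have h0 : f (ι ⟨u, hu⟩) ≠ 0 := by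
      intro h
      have h3 : ((g * u * g⁻¹ : (Module.End F K)ˣ) : Module.End F K) = 0 := by
        ext v; rw [h1, h]; simp
      exact Units.ne_zero _ h3
    refine ⟨Units.mk0 _ h0, Units.ext (LinearMap.ext fun v => ?_)⟩
    rw [MulEquiv.coe_toMonoidHom, MulAut.conj_apply, h1]
    rfl
  · rw [Subgroup.card_map_of_injective (MulAut.conj g).injective, hcard]
    refine (Nat.card_le_card_of_surjective _ (MonoidHom.rangeRestrict_surjective _)).trans ?_
    rw [Nat.card_eq_fintype_card, Fintype.card_units]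

/-- Let F ⊆ K be finite fields with |F| = q and [K : F] = n ≥ 2, regard K as an n-dimensional F-vector space, and let M ≤ GL_F(K) be the Singer group of multiplications by non-zero elements of K (cyclic of order q^n − 1). Assume (n, q) ≠ (6, 2), and that it is not the case that n = 2 with q a prime such that q + 1 is a power of 2. Then every abelian subgroup of GL_F(K) of order q^n − 1 is conjugate to M. -/
theorem result {F K : Type*} [Field F] [Fintype F] [Field K] [Fintype K] [Algebra F K] (n : ℕ) (hn : 2 ≤ n) (hdim : Module.finrank F K = n)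
    (hex1 : ¬ (n = 6 ∧ Fintype.card F = 2))
    (hex2 : ¬ (n = 2 ∧ (Fintype.card F).Prime ∧ ∃ a : ℕ, Fintype.card F + 1 = 2 ^ a))
    (U : Subgroup (Module.End F K)ˣ) (hU : IsMulCommutative U) (hcard : Nat.card U = Fintype.card K - 1) :
    ∃ g : (Module.End F K)ˣ, U.map (MulAut.conj g).toMonoidHom = (Units.map ((Algebra.lmul F K : K →ₐ[F] Module.End F K) : K →* Module.End F K)).range := by
  classical
  obtain ⟨p, hchar, k, hp, hq⟩ := FiniteField.card' F
  have hK : Fintype.card K = Fintype.card F ^ n := by rw [← hdim]; exact Module.card_eq_pow_finrank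
  obtain ⟨r, hr, hd, hnd⟩ := H1B.zsigmondy (a := Fintype.card F) (n := n) Fintype.one_lt_card hn
    (fun h => hex1 ⟨h.2, h.1⟩) (fun ⟨h, m, hm⟩ => hex2 ⟨h, H2.sd_pp hp k.pos hq hm, m, hm⟩)
  haveI : Finite (Module.End F K) := Finite.of_injective _ DFunLike.coe_injective
  haveI := Fact.mk hr
  obtain ⟨x, hx⟩ := exists_prime_orderOf_dvd_card' (G := U) r (by rw [hcard, hK]; exact hd)
  letI : CommGroup U := { (inferInstance : Group U) with mul_comm := hU.is_comm.comm }
  let ρ : Representation F U K := (Units.coeHom _).comp U.subtype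
  have hirr : ∀ W : Submodule F K, (∀ h : U, ∀ u ∈ W, ρ h u ∈ W) → W = ⊥ ∨ W = ⊤ := by
    intro W hW
    refine H2.sd_irr (ρ x) hr (by rw [← map_pow, ← hx, pow_orderOf_eq_one, map_one]) ?_
      (by rw [hdim]; exact hd) (by rw [hdim]; exact hnd) W (hW x)
    intro h1
    have : x = 1 := Subtype.ext (Units.ext h1)
    rw [this, orderOf_one] at hx
    exact hr.one_lt.ne hx
  obtain ⟨I, hI, e, ι, he⟩ := H2.sd_field ρ hirr
  letI : Field (MonoidAlgebra F U ⧸ I) := Ideal.Quotient.field I
  exact aux U hcard e ι he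

end Cfsg.Agent.S5947
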